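import Cfsg.Statements.S3744
import Mathlib
import Cfsg.Agent.Lib.PSol
import Cfsg.Agent.Lib.Hall
import Cfsg.Agent.Lib.CoprimeB

set_option autoImplicit false
open Cfsg

namespace Cfsg.Agent.S3744

universe u

open Subgroup Cfsg.Agent.Lib.Basic Cfsg.Agent.Lib.Cores Cfsg.Agent.Lib.Hall
open scoped Pointwise

theorem pow_of {n p : ℕ} (hn : n ≠ 0) (h : ∀ q : ℕ, q.Prime → q ∣ n → q = p) : ∃ k, n = p ^ k :=
  ⟨_, Nat.eq_prime_pow_of_unique_prime_dvd hn (fun {d} hd hdn => h d hd hdn)⟩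

theorem sep {G : Type u} [Group G] [Finite G] {p : ℕ} [Fact p.Prime] (hG : Cfsg.IsPSolvable p G) :
    Cfsg.Agent.Lib.Hall.Sep ({p}ᶜ : Set ℕ) G := by
  intro Q _ f hf hQ
  haveI : Finite Q := Finite.of_surjective f hf
  have hp : p.Prime := Fact.out
  rcases Cfsg.Agent.Lib.PSol.core_ne_bot (Cfsg.Agent.Lib.PSol.of_surjective hG f hf) with h | h
  · refine ⟨_, Cfsg.Agent.Lib.Cores.pCore_normal p, h, Or.inr ?_⟩
    intro q hq hqp hd
    apply hqp
    obtain ⟨k, hk⟩ := (Cfsg.Agent.Lib.Cores.pCore_isPGroup (G := Q) p).exists_card_eq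
    rw [hk] at hd
    exact (Nat.prime_dvd_prime_iff_eq hq hp).1 (hq.dvd_of_dvd_pow hd)
  · refine ⟨_, Cfsg.Agent.Lib.Cores.pPrimeCore_normal p, h, Or.inl ?_⟩
    intro q hq hd hqp
    rw [Set.mem_singleton_iff] at hqp
    rw [hqp] at hd
    exact Cfsg.Agent.Lib.Cores.pPrimeCore_not_dvd p hd

theorem cond {G : Type u} [Group G] [Finite G] {p : ℕ} [Fact p.Prime] :
    SolvCond ({p}ᶜ : Set ℕ) G := by
  intro Q _ f hf K M _ _ hM
  haveI : Finite Q := Finite.of_surjective f hf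
  right
  have h1 : IsPGroup p M := by
    obtain ⟨k, hk⟩ := pow_of (p := p) (n := Nat.card M) Nat.card_pos.ne' (by
      intro q hq hd
      by_contra hne
      exact hM q hq hne hd)
    exact IsPGroup.of_card hk
  exact Cfsg.Agent.Lib.CoprimeB.isSolvable_of_isPGroup h1

theorem hall_iff {G : Type u} [Group G] [Finite G] {p : ℕ} [Fact p.Prime] (H : Subgroup G) :
    IsHall ({p}ᶜ : Set ℕ) H ↔ ((Nat.card H).Coprime p ∧ ∃ n : ℕ, H.index = p ^ n) := by
  have hp : p.Prime := Fact.out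
  constructor
  · rintro ⟨h1, h2⟩
    refine ⟨?_, pow_of (Subgroup.index_ne_zero_of_finite) ?_⟩
    · rw [Nat.coprime_comm, hp.coprime_iff_not_dvd]
      intro hd
      exact h1 p hp hd rfl
    · intro q hq hd
      by_contra hne
      exact h2 q hq hne hd
  · rintro ⟨h1, n, h2⟩
    refine ⟨?_, ?_⟩
    · intro q hq hd hqp
      rw [Set.mem_singleton_iff] at hqp
      subst hqp
      rw [Nat.coprime_comm, hp.coprime_iff_not_dvd] at h1
      exact h1 hd
    · intro q hq hqp hd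
      apply hqp
      rw [h2] at hd
      exact (Nat.prime_dvd_prime_iff_eq hq hp).1 (hq.dvd_of_dvd_pow hd)

/-- A finite p-soluble group has a p-complement, all its p-complements are conjugate, and every subgroup of order prime to p lies in one of them. Here a p-complement is a subgroup of order prime to p whose index is a power of p. -/
theorem result {G : Type*} [Group G] [Finite G] {p : ℕ} [Fact p.Prime] (hG : Cfsg.IsPSolvable p G) : (∃ H : Subgroup G, (Nat.card H).Coprime p ∧ ∃ n : ℕ, H.index = p ^ n) ∧ (∀ H₁ H₂ : Subgroup G, (Nat.card H₁).Coprime p → (∃ n : ℕ, H₁.index = p ^ n) → (Nat.card H₂).Coprime p → (∃ n : ℕ, H₂.index = p ^ n) → ∃ g : G, H₂ = H₁.map (MulAut.conj g).toMonoidHom) ∧ (∀ U : Subgroup G, (Nat.card U).Coprime p → ∃ H : Subgroup G, (Nat.card H).Coprime p ∧ (∃ n : ℕ, H.index = p ^ n) ∧ ∃ g : G, U.map (MulAut.conj g).toMonoidHom ≤ H) := by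
  have hs := sep hG
  have hc := cond (G := G) (p := p)
  refine ⟨?_, ?_, ?_⟩
  · obtain ⟨H, hH⟩ := exists_isHall hs
    exact ⟨H, (hall_iff H).1 hH⟩
  · intro H₁ H₂ h1 h2 h3 h4
    obtain ⟨g, hg⟩ := hall_conj hs hc ((hall_iff H₁).2 ⟨h1, h2⟩) ((hall_iff H₂).2 ⟨h3, h4⟩)
    exact ⟨g, hg.symm⟩
  · intro U hU
    obtain ⟨H, hH, hUH⟩ := exists_hall_ge hs hc (K := U) (by
      intro q hq hd hqp
      rw [Set.mem_singleton_iff] at hqp
      subst hqp
      rw [Nat.coprime_comm, hq.coprime_iff_not_dvd] at hU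
      exact hU hd)
    obtain ⟨h1, h2⟩ := (hall_iff H).1 hH
    refine ⟨H, h1, h2, 1, ?_⟩
    rintro _ ⟨x, hx, rfl⟩
    have : (MulAut.conj (1 : G)).toMonoidHom x = x := by simp
    rw [this]
    exact hUH hx

end Cfsg.Agent.S3744
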