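import Cfsg.Statements.S0188
import Cfsg.Agent.Lib.CharBasic

set_option autoImplicit false
open Cfsg

namespace Cfsg.Agent.S0188

open Lib.CharBasic

theorem inner_prod {G H : Type*} [Group G] [Group H] [Fintype G] [Fintype H] (θ : G × H → ℂ)
    (φ : G → ℂ) (ψ : H → ℂ) :
    classInner θ (fun x => φ x.1 * ψ x.2) =
      classInner (fun h => classInner (fun g => θ (g, h)) φ) ψ := by
  simp only [classInner_def, Nat.card_prod, Nat.cast_mul, map_mul]
  rw [Fintype.sum_prod_type_right, mul_inv, mul_comm (Nat.card G : ℂ)⁻¹, mul_assoc]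
  congr 1
  rw [Finset.mul_sum]
  refine Finset.sum_congr rfl fun h _ => ?_
  rw [mul_assoc, Finset.sum_mul]
  congr 1
  refine Finset.sum_congr rfl fun g _ => ?_
  ring

theorem prod_irr {G H : Type*} [Group G] [Group H] [Finite G] [Finite H] {φ : G → ℂ} {ψ : H → ℂ}
    (hφ : IsIrrCharacter G φ) (hψ : IsIrrCharacter H ψ) :
    IsIrrCharacter (G × H) (fun x => φ x.1 * ψ x.2) := by
  cases nonempty_fintype G
  cases nonempty_fintype H
  have hc : IsCharacter (G × H) (fun x => φ x.1 * ψ x.2) :=
    isChar_mul (isChar_comp (MonoidHom.fst G H) (isChar_of_irr hφ))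
      (isChar_comp (MonoidHom.snd G H) (isChar_of_irr hψ))
  rw [isIrr_iff_inner_self hc, inner_prod]
  have h1 : (fun h => classInner (fun g => φ g * ψ h) φ) = ψ := by
    funext h
    have : (fun g => φ g * ψ h) = ψ h • φ := by funext g; simp [mul_comm]
    rw [this, classInner_smul_left, irr_inner_self hφ, mul_one]
  simp only
  rw [h1, irr_inner_self hψ]

/-- The irreducible complex characters of G × H are precisely the functions (g, h) ↦ φ g * ψ h with φ, ψ irreducible characters of G and H. -/
theorem result {G : Type*} [Group G] [Finite G] {H : Type*} [Group H] [Finite H] (θ : G × H → ℂ) : Cfsg.IsIrrCharacter (G × H) θ ↔ ∃ (φ : G → ℂ) (ψ : H → ℂ), Cfsg.IsIrrCharacter G φ ∧ Cfsg.IsIrrCharacter H ψ ∧ θ = fun x => φ x.1 * ψ x.2 := by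
  classical
  cases nonempty_fintype G
  cases nonempty_fintype H
  constructor
  · intro hθ
    by_contra hcon
    push Not at hcon
    have hcl := isChar_classFn (isChar_of_irr hθ)
    apply isIrr_ne_zero hθ
    have h1 : ∀ (φ : IrrCharacter G) (ψ : IrrCharacter H),
        classInner (fun h => classInner (fun g => θ (g, h)) φ.1) ψ.1 = 0 := by
      intro φ ψ
      rw [← inner_prod]
      exact irr_inner_ne hθ (prod_irr φ.2 ψ.2) (hcon φ.1 ψ.1 φ.2 ψ.2)
    have h2 : ∀ φ : IrrCharacter G, (fun h => classInner (fun g => θ (g, h)) φ.1) = 0 := by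
      intro φ
      apply classFn_eq_zero_of_orth _ _ (h1 φ)
      intro h k
      dsimp only
      congr 1
      funext g
      have := hcl (g, h) (1, k)
      simpa using this
    funext ⟨g, h⟩
    have h3 : (fun g => θ (g, h)) = 0 := by
      apply classFn_eq_zero_of_orth
      · intro g k
        have := hcl (g, h) (k, 1)
        simpa using this
      · intro φ
        exact congrFun (h2 φ) h
    exact congrFun h3 g
  · rintro ⟨φ, ψ, hφ, hψ, rfl⟩
    exact prod_irr hφ hψ
end Cfsg.Agent.S0188
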