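import Cfsg.Statements.S0111
import Cfsg.Agent.Lib.InvolB

set_option autoImplicit false
open Cfsg

namespace Cfsg.Agent.S0111

open Subgroup in
theorem aux {G : Type*} [Group G] [Finite G] (P : Sylow 2 G) (Q : Subgroup G)
    (hQP : Q ≤ (P : Subgroup G)) (hQi : Q.relIndex (P : Subgroup G) = 2) (u : G)
    (hu : orderOf u = 2) (hno : ∀ g : G, g * u * g⁻¹ ∉ Q) :
    ∃ M : Subgroup G, M.Normal ∧ M.index = 2 ∧ u ∉ M := by
  classical
  have hQi' : (Q.subgroupOf (P : Subgroup G)).index = 2 := hQi
  let ϕ : (P : Subgroup G) →* ℤˣ :=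
    { toFun := fun x => if (x : G) ∈ Q then 1 else -1
      map_one' := by rw [if_pos]; exact one_mem _
      map_mul' := by
        intro x y
        have h1 := mul_mem_iff_of_index_two hQi' (a := x) (b := y)
        simp only [mem_subgroupOf] at h1
        by_cases hx : (x : G) ∈ Q <;> by_cases hy : (y : G) ∈ Q
        · have : ((x * y : (P : Subgroup G)) : G) ∈ Q := h1.mpr ⟨fun _ => hy, fun _ => hx⟩
          rw [if_pos hx, if_pos hy, if_pos this, one_mul]
        · have : ((x * y : (P : Subgroup G)) : G) ∉ Q := fun h => hy ((h1.mp h).mp hx)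
          rw [if_pos hx, if_neg hy, if_neg this, one_mul]
        · have : ((x * y : (P : Subgroup G)) : G) ∉ Q := fun h => hx ((h1.mp h).mpr hy)
          rw [if_neg hx, if_pos hy, if_neg this, mul_one]
        · have : ((x * y : (P : Subgroup G)) : G) ∈ Q := h1.mpr ⟨fun h => absurd h hx, fun h => absurd h hy⟩
          rw [if_neg hx, if_neg hy, if_pos this]; rfl }
  let V : G →* ℤˣ := MonoidHom.transfer ϕ
  haveI := Fintype.ofFinite (Quotient (MulAction.orbitRel (zpowers u) (G ⧸ (P : Subgroup G))))
  have hV : V u = -1 := by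
    have h1 := MonoidHom.transfer_eq_prod_quotient_orbitRel_zpowers_quot ϕ u
    have huu : u * u = 1 := Cfsg.Agent.Lib.Invol.mul_self hu
    have hterm : ∀ q : Quotient (MulAction.orbitRel (zpowers u) (G ⧸ (P : Subgroup G))),
        ϕ ⟨q.out.out⁻¹ * u ^ Function.minimalPeriod (u • ·) q.out * q.out.out,
            QuotientGroup.out_conj_pow_minimalPeriod_mem (P : Subgroup G) u q.out⟩ =
          (-1) ^ Function.minimalPeriod (u • ·) q.out := by
      intro q
      obtain ⟨m, hm⟩ : ∃ m, m = Function.minimalPeriod (u • ·) q.out := ⟨_, rfl⟩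
      have hm2 : m ∣ 2 := by
        rw [hm]
        apply Function.IsPeriodicPt.minimalPeriod_dvd
        show (fun x => u • x)^[2] q.out = q.out
        show u • (u • q.out) = q.out
        rw [← mul_smul, huu, one_smul]
      have hmem := QuotientGroup.out_conj_pow_minimalPeriod_mem (P : Subgroup G) u q.out
      have hg : ∀ (m' : ℕ) (h : m' = 1 ∨ m' = 2) (hh : q.out.out⁻¹ * u ^ m' * q.out.out ∈ (P : Subgroup G)),
          ϕ ⟨q.out.out⁻¹ * u ^ m' * q.out.out, hh⟩ = (-1) ^ m' := by
        rintro m' (rfl | rfl) hh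
        · show (if q.out.out⁻¹ * u ^ 1 * q.out.out ∈ Q then (1 : ℤˣ) else -1) = (-1) ^ 1
          rw [if_neg, pow_one]
          have := hno q.out.out⁻¹
          rw [inv_inv] at this
          rw [pow_one]; exact this
        · show (if q.out.out⁻¹ * u ^ 2 * q.out.out ∈ Q then (1 : ℤˣ) else -1) = (-1) ^ 2
          rw [if_pos]
          · rfl
          · rw [pow_two, huu, mul_one, inv_mul_cancel]; exact one_mem _
      exact hg _ (hm ▸ (Nat.dvd_prime Nat.prime_two).mp hm2) _
    show MonoidHom.transfer ϕ u = -1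
    rw [h1, Finset.prod_congr rfl (fun q _ => hterm q), Finset.prod_pow_eq_pow_sum,
      ← index_eq_sum_minimalPeriod (P : Subgroup G) u]
    apply Odd.neg_one_pow
    rw [← Nat.not_even_iff_odd, even_iff_two_dvd]
    exact P.not_dvd_index
  refine ⟨V.ker, inferInstance, ?_, ?_⟩
  · rw [index_ker]
    have : V.range = ⊤ := by
      rw [eq_top_iff]
      intro x _
      rcases Int.units_eq_one_or x with rfl | rfl
      · exact one_mem _
      · exact ⟨u, hV⟩
    rw [this, Subgroup.card_top, Nat.card_eq_fintype_card]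
    rfl
  · rw [MonoidHom.mem_ker, hV]
    decide

/-- The Thompson transfer lemma states that an involution of a Sylow 2-subgroup P lying outside a subgroup Q of index 2 in P either lies outside some normal subgroup of index 2 in G or is conjugate to an element of Q. -/
theorem result {G : Type*} [Group G] [Finite G] (P : Sylow 2 G) (Q : Subgroup G) (hQP : Q ≤ (P : Subgroup G)) (hQi : Q.relIndex (P : Subgroup G) = 2) (u : G) (hu : orderOf u = 2) (huP : u ∈ (P : Subgroup G)) (huQ : u ∉ Q) : (∃ M : Subgroup G, M.Normal ∧ M.index = 2 ∧ u ∉ M) ∨ ∃ g : G, g * u * g⁻¹ ∈ Q := by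
  by_cases h : ∃ g : G, g * u * g⁻¹ ∈ Q
  · exact Or.inr h
  · push Not at h
    exact Or.inl (aux P Q hQP hQi u hu h)

end Cfsg.Agent.S0111
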