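import Cfsg.Statements.S0071
import Cfsg.Agent.Lib.PNilp

set_option autoImplicit false
open Cfsg

namespace Cfsg.Agent.S0071

open Subgroup Pointwise Cfsg.Agent.Lib.PNilp Cfsg.Agent.Lib.SchurZas in
theorem aux {G : Type*} [Group G] [Finite G] {p : ℕ} [Fact p.Prime] (P : Sylow p G)
    (h : ∀ Q : Subgroup G, Q ≤ (P : Subgroup G) → ∀ g ∈ Subgroup.normalizer (Q : Set G), Nat.Coprime (orderOf g) p → g ∈ Subgroup.centralizer (Q : Set G)) :
    FrobCond p G := by
  intro Q hQ g hg hgo
  obtain ⟨R, hR⟩ := hQ.exists_le_sylow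
  obtain ⟨y, hy⟩ := MulAction.exists_smul_eq G R P
  have h1 : MulAut.conj y • Q ≤ P := by
    rw [← hy]
    exact pointwise_smul_le_pointwise_smul_iff.mpr hR
  have h2 : y * g * y⁻¹ ∈ normalizer ((MulAut.conj y • Q : Subgroup G) : Set G) := by
    rw [mem_normalizer_iff]
    intro z
    rw [mem_conj_smul_iff, mem_conj_smul_iff]
    have e : y⁻¹ * (y * g * y⁻¹ * z * (y * g * y⁻¹)⁻¹) * y = g * (y⁻¹ * z * y) * g⁻¹ := by group
    rw [e]
    exact mem_normalizer_iff.mp hg _
  have h3 : orderOf (y * g * y⁻¹) = orderOf g := by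
    have : y * g * y⁻¹ = MulAut.conj y g := rfl
    rw [this, MulEquiv.orderOf_eq]
  have h4 := h _ h1 _ h2 (by rw [h3]; exact hgo)
  rw [mem_centralizer_iff] at h4 ⊢
  intro x hx
  have h5 := h4 (y * x * y⁻¹) (by
    change y * x * y⁻¹ ∈ MulAut.conj y • Q
    rw [mem_conj_smul_iff]
    have e : y⁻¹ * (y * x * y⁻¹) * y = x := by group
    rw [e]; exact hx)
  have h6 : y * (x * g) * y⁻¹ = y * (g * x) * y⁻¹ := by
    calc y * (x * g) * y⁻¹ = y * x * y⁻¹ * (y * g * y⁻¹) := by group
      _ = _ := by rw [h5]; group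
  exact mul_left_cancel (mul_right_cancel h6)

/-- The Frobenius normal p-complement Theorem states that a Sylow p-subgroup has a normal complement exactly when, for each of its subgroups Q, every element of the normalizer of Q of order prime to p centralizes Q. -/
theorem result {G : Type*} [Group G] [Finite G] {p : ℕ} [Fact p.Prime] (P : Sylow p G) : (∃ N : Subgroup G, N.Normal ∧ N.IsComplement' (P : Subgroup G)) ↔ ∀ Q : Subgroup G, Q ≤ (P : Subgroup G) → ∀ g ∈ Subgroup.normalizer (Q : Set G), Nat.Coprime (orderOf g) p → g ∈ Subgroup.centralizer (Q : Set G) := by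
  rw [Cfsg.Agent.Lib.PNilp.exists_complement_iff P, Cfsg.Agent.Lib.PNilp.pNil_iff_frobCond]
  exact ⟨fun h Q hQ => h Q (P.isPGroup'.to_le hQ), fun h => aux P h⟩

end Cfsg.Agent.S0071
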