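import Cfsg.Statements.S0268
import Mathlib
-- import your own Cfsg.Agent.* helpers here

set_option autoImplicit false
open Cfsg
set_option linter.all false

namespace Cfsg.Agent.S0268

/-- For q odd, -1 is the unique involution of SL_2(q). -/
theorem result {F : Type*} [Field F] [Fintype F] (hF : Odd (Fintype.card F)) (g : Matrix.SpecialLinearGroup (Fin 2) F) (h1 : g ≠ 1) (h2 : g * g = 1) : (g : Matrix (Fin 2) (Fin 2) F) = -1 := by
  have hF2 : (2 : F) ≠ 0 := by
    intro h0
    have hc : CharP F 2 := CharTwo.of_one_ne_zero_of_two_eq_zero one_ne_zero h0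
    obtain ⟨n, -, hn⟩ := FiniteField.card F 2
    rw [hn] at hF
    have := hF
    rw [Nat.odd_pow_iff n.pos.ne'] at this
    exact absurd this (by decide)
  have hdet := g.det_coe
  rw [Matrix.det_fin_two] at hdet
  have hmul : (g : Matrix (Fin 2) (Fin 2) F) * (g : Matrix (Fin 2) (Fin 2) F) = 1 := by
    rw [← Matrix.SpecialLinearGroup.coe_mul, h2]; rfl
  have h00 := congrFun (congrFun hmul 0) 0
  have h01 := congrFun (congrFun hmul 0) 1
  have h10 := congrFun (congrFun hmul 1) 0
  have h11 := congrFun (congrFun hmul 1) 1
  simp [Matrix.mul_apply, Fin.sum_univ_two] at h00 h01 h10 h11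
  have hne : g ≠ 1 := h1
  generalize ha : (g : Matrix (Fin 2) (Fin 2) F) 0 0 = a at *
  generalize hb : (g : Matrix (Fin 2) (Fin 2) F) 0 1 = b at *
  generalize hc : (g : Matrix (Fin 2) (Fin 2) F) 1 0 = c at *
  generalize hd : (g : Matrix (Fin 2) (Fin 2) F) 1 1 = d at *
  have e1 : (a + d) * a = 2 := by linear_combination h00 + hdet
  have hs : a + d ≠ 0 := by
    intro h0; rw [h0, zero_mul] at e1; exact hF2 e1.symm
  have hb0 : b = 0 := by
    have : (a + d) * b = 0 := by linear_combination h01
    rcases mul_eq_zero.mp this with h | h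
    · exact absurd h hs
    · exact h
  have hc0 : c = 0 := by
    have : (a + d) * c = 0 := by linear_combination h10
    rcases mul_eq_zero.mp this with h | h
    · exact absurd h hs
    · exact h
  subst hb0 hc0
  have had : a = d := by
    have h3 : (a + d) * (a - d) = 0 := by linear_combination h00 - h11
    rcases mul_eq_zero.mp h3 with h | h
    · exact absurd h hs
    · exact sub_eq_zero.mp h
  subst had
  have ha1 : a = 1 ∨ a = -1 := by
    have : (a - 1) * (a + 1) = 0 := by linear_combination hdet
    rcases mul_eq_zero.mp this with h | h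
    · left; exact sub_eq_zero.mp h
    · right; exact eq_neg_of_add_eq_zero_left h
  rcases ha1 with h | h
  · exfalso
    apply hne
    ext i j
    fin_cases i <;> fin_cases j <;> simp [ha, hb, hc, hd, h]
  · ext i j
    fin_cases i <;> fin_cases j <;> simp [ha, hb, hc, hd, h]


end Cfsg.Agent.S0268
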