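import Cfsg.Statements.S0638
import Cfsg.Agent.Lib.PGrpF

set_option autoImplicit false
open Cfsg

namespace Cfsg.Agent.S0638

open Subgroup Cfsg.Agent.Lib Cfsg.Agent.Lib.PGrpF Cfsg.Agent.Lib.PGrpA
open scoped commutatorElement

/-- For odd p, in a non-cyclic metacyclic p-group the elements of order dividing p generate an elementary abelian subgroup of order p². -/
theorem result {R : Type*} [Group R] [Finite R] {p : ℕ} [Fact p.Prime] (hp : p ≠ 2) (hR : IsPGroup p R) (hm : Cfsg.IsMetacyclic R) (hnc : ¬ IsCyclic R) : Cfsg.IsElementaryAbelian p (Cfsg.omegaOne p (⊤ : Subgroup R)) ∧ Nat.card ↥(Cfsg.omegaOne p (⊤ : Subgroup R)) = p ^ 2 := by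
  have hpp : p.Prime := Fact.out
  obtain ⟨N, hN, hNc, hNq⟩ := hm
  obtain ⟨A, -, hAn, ⟨hAc, hAe⟩, hAp⟩ := PGrpE.exists_normal_rank_two hp hR ⊤ (fun h => hnc
    (isCyclic_of_surjective (Subgroup.topEquiv (G := R)) Subgroup.topEquiv.surjective))
  have hAc' := Nilp.isMulCommutative_iff_forall.mp hAc
  -- a normal subgroup B of order p in A
  have hA0 : A ≠ ⊥ := by
    rintro rfl
    rw [Subgroup.card_bot] at hAp
    exact (Nat.one_lt_pow two_ne_zero hpp.one_lt).ne hAp
  obtain ⟨B, hBn, hBA, hBc⟩ := exists_normal_step_down hR hA0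
  have hBp : Nat.card B = p := by
    rw [hAp, sq] at hBc
    exact (Nat.eq_of_mul_eq_mul_left hpp.pos hBc).symm
  have hBcen := le_center_of_card_eq_prime hR hBp
  have hcomm := commutator_le_of_card hR hBA hBc
  have hin : ∀ x : R, x ^ p = 1 → x ∈ A := by
    intro x hx
    by_contra hxA
    have hcard : p ^ 3 ≤ Nat.card (A ⊔ zpowers x : Subgroup R) := by
      have h1 : A < A ⊔ zpowers x := lt_of_le_of_ne le_sup_left (by
        intro h
        exact hxA (h ▸ mem_sup_right (mem_zpowers x)))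
      obtain ⟨k, hk⟩ := IsPGroup.iff_card.mp (hR.to_subgroup (A ⊔ zpowers x))
      have h2 := Basic.card_lt_card_of_lt h1
      rw [hAp, hk] at h2
      have h3 := (Nat.pow_lt_pow_iff_right hpp.one_lt).mp h2
      rw [hk]
      exact Nat.pow_le_pow_right hpp.pos h3
    have hexp : ∀ y ∈ A ⊔ zpowers x, y ^ p = 1 := by
      intro y hy
      obtain ⟨u, hu, v, hv, rfl⟩ := (Basic.mem_sup_iff_left (N := A) (H := zpowers x) (by
        rw [normalizer_eq_top_iff.mpr hAn]; exact le_top)).mp hy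
      have hvp : v ^ p = 1 := by
        obtain ⟨k, rfl⟩ := mem_zpowers_iff.mp hv
        rw [← zpow_natCast, ← zpow_mul, mul_comm, zpow_mul, zpow_natCast, hx, one_zpow]
      have hc : u⁻¹ * v⁻¹ * u * v ∈ B := by
        have h1 : ⁅u⁻¹, v⁻¹⁆ ∈ B := hcomm (commutator_mem_commutator (inv_mem hu) (mem_top _))
        rwa [commutatorElement_def, inv_inv, inv_inv] at h1
      obtain ⟨c, hce⟩ : ∃ c, c = (u * v)⁻¹ * (v * u) := ⟨_, rfl⟩
      have hcB : c ∈ B := by
        have h1 : ⁅v⁻¹, u⁻¹⁆ ∈ B := by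
          rw [← commutatorElement_inv]
          exact inv_mem (hcomm (commutator_mem_commutator (inv_mem hu) (mem_top _)))
        rw [hce]
        have e : (u * v)⁻¹ * (v * u) = ⁅v⁻¹, u⁻¹⁆ := by rw [commutatorElement_def]; group
        rw [e]; exact h1
      have hcc : ∀ z, c * z = z * c := fun z => (mem_center_iff.mp (hBcen hcB) z).symm
      have h2 := mul_pow_of_comm (x := u) (y := v) (c := c) (by rw [hce]; group) (hcc u) (hcc v) p
      obtain ⟨k, hk⟩ := odd_dvd_choose_two hpp hp (dvd_refl p)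
      rw [h2, hAe u hu, hvp, hk, pow_mul, hAe c (hBA hcB), one_pow, mul_one, mul_one]
    have h3 := PGrpE.card_le_of_metacyclic hNc hNq _ hexp
    have h4 := hcard.trans h3
    exact absurd ((Nat.pow_le_pow_iff_right hpp.one_lt).mp h4) (by norm_num)
  have hO : Cfsg.omegaOne p (⊤ : Subgroup R) = A := by
    apply le_antisymm
    · rw [Cfsg.omegaOne, Subgroup.closure_le]
      exact fun x hx => hin x hx.2
    · intro x hx
      exact Subgroup.subset_closure ⟨mem_top x, hAe x hx⟩
  rw [hO]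
  exact ⟨⟨hAc, hAe⟩, hAp⟩

end Cfsg.Agent.S0638
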