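import Cfsg.Statements.S1313
import Mathlib
import Cfsg.Agent.Lib.Components

set_option autoImplicit false
open Cfsg

namespace Cfsg.Agent.S1313

open Subgroup Cfsg.Agent.Lib.Components Cfsg.Agent.Lib.Cores

/-- For a finite group H, |H| ≤ |F*(H)|!. -/
theorem result {H : Type*} [Group H] [Finite H] : Nat.card H ≤ Nat.factorial (Nat.card ↥(Cfsg.generalizedFittingSubgroup H)) := by
  classical
  set F := Cfsg.generalizedFittingSubgroup H with hF
  have hFn : F.Normal := generalizedFitting_normal
  let φ : H →* MulAut F := MulAut.conjNormal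
  have hker : φ.ker ≤ F := by
    refine le_trans ?_ (centralizer_generalizedFitting_le (G := H))
    intro x hx
    rw [mem_centralizer_iff]
    intro y hy
    have h1 : φ x ⟨y, hy⟩ = ⟨y, hy⟩ := by
      rw [MonoidHom.mem_ker] at hx
      rw [hx]; rfl
    have h2 : x * y * x⁻¹ = y := congrArg Subtype.val h1
    rw [mul_inv_eq_iff_eq_mul] at h2
    exact h2.symm
  -- `MulAut F` embeds in permutations of nonidentity elements
  have hAut : Nat.card (MulAut F) ≤ (Nat.card F - 1).factorial := by
    haveI : Fintype F := Fintype.ofFinite F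
    let ψ : MulAut F → Equiv.Perm {x : F // x ≠ 1} := fun a => a.toEquiv.subtypeEquiv (fun x => by
      simp)
    have hψ : Function.Injective ψ := by
      intro a b hab
      ext x
      by_cases hx : x = 1
      · rw [hx, map_one, map_one]
      · have := congrArg (fun σ : Equiv.Perm {x : F // x ≠ 1} => ((σ ⟨x, hx⟩ : {x : F // x ≠ 1}) : F)) hab
        exact congrArg Subtype.val this
    calc Nat.card (MulAut F) ≤ Nat.card (Equiv.Perm {x : F // x ≠ 1}) :=
          Nat.card_le_card_of_injective ψ hψ
      _ = (Nat.card F - 1).factorial := by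
          rw [Nat.card_eq_fintype_card, Fintype.card_perm, Fintype.card_subtype_compl,
            Fintype.card_subtype_eq, Nat.card_eq_fintype_card]
  have h1 : Nat.card H = Nat.card φ.ker * Nat.card φ.range := by
    rw [← φ.ker.card_mul_index, Subgroup.index_ker]
  rw [h1]
  have h2 : Nat.card φ.ker ≤ Nat.card F := Subgroup.card_le_of_le hker
  have h3 : Nat.card φ.range ≤ (Nat.card F - 1).factorial :=
    (Nat.card_le_card_of_injective _ φ.range.subtype_injective).trans hAut
  calc Nat.card φ.ker * Nat.card φ.range ≤ Nat.card F * (Nat.card F - 1).factorial :=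
        Nat.mul_le_mul h2 h3
    _ = (Nat.card F).factorial := Nat.mul_factorial_pred Nat.card_pos.ne'

end Cfsg.Agent.S1313
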