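import Cfsg.Statements.S1894
import Mathlib
import Cfsg.Agent.Lib.PGrpA

set_option autoImplicit false
open Cfsg

namespace Cfsg.Agent.S1894

open Subgroup

/-- Let P be a finite p-group, A a normal subgroup of P and B an abelian subgroup of A that is normal in P. Then some subgroup C of A containing B is normal in P and is self-centralizing and normal in A (C ∈ SCN(A)). -/
theorem result {P : Type*} [Group P] [Finite P] {p : ℕ} [Fact p.Prime] (hP : IsPGroup p P)
    (A : Subgroup P) [A.Normal] (B : Subgroup P) [B.Normal] (hBA : B ≤ A) (hB : IsMulCommutative B) :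
    ∃ C : Subgroup P, C.Normal ∧ B ≤ C ∧ Cfsg.IsSCN A C := by
  classical
  have hp := (Fact.out : p.Prime)
  let T : Set (Subgroup P) := {C | C.Normal ∧ IsMulCommutative ↥C ∧ B ≤ C ∧ C ≤ A}
  have hTne : T.Nonempty := ⟨B, inferInstance, hB, le_rfl, hBA⟩
  obtain ⟨C, hCm⟩ := T.toFinite.exists_maximal hTne
  obtain ⟨⟨hCn, hCc, hBC, hCA⟩, hmax⟩ := hCm
  have hCcent : C ≤ centralizer (C : Set P) := by
    intro x hx
    rw [mem_centralizer_iff]
    intro y hy
    exact congrArg Subtype.val (hCc.is_comm.comm (⟨y, hy⟩ : ↥C) ⟨x, hx⟩)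
  refine ⟨C, hCn, hBC, hCA, ?_, ?_⟩
  · rw [normalizer_eq_top_iff.mpr hCn]; exact le_top
  by_contra hne
  set D := A ⊓ centralizer (C : Set P) with hD
  have hCD : C ≤ D := le_inf hCA hCcent
  have hlt : C < D := lt_of_le_of_ne hCD (fun h => hne h.symm)
  have hDn : D.Normal := by rw [hD]; infer_instance
  have hcard : Nat.card ↥C * p ^ 1 ≤ Nat.card ↥D := by
    obtain ⟨m, hm⟩ := card_dvd_of_le hCD
    obtain ⟨k, hk⟩ := hP.exists_card_eq
    obtain ⟨i, _, hi⟩ := (Nat.dvd_prime_pow hp).mp (show m ∣ p ^ k by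
      rw [← hk]
      exact (Dvd.intro_left _ hm.symm).trans D.card_subgroup_dvd_card)
    rw [hm]
    apply Nat.mul_le_mul_left
    rcases Nat.eq_zero_or_pos i with rfl | hi0
    · exfalso
      rw [hi, pow_zero, mul_one] at hm
      exact hlt.ne (eq_of_le_of_card_ge hCD hm.le)
    · rw [hi]; exact Nat.pow_le_pow_right hp.pos hi0
  obtain ⟨E, hEn, hCE, hED, hEc⟩ := Cfsg.Agent.Lib.PGrpA.exists_normal_card hP hCD 1 hcard
  rw [pow_one] at hEc
  have key : ∀ x ∈ E, x ∉ C → ∀ y ∈ E, x * y = y * x := by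
    intro x hx hxC y hy
    set F := centralizer {x} ⊓ E with hF
    have hCF : C ≤ F := le_inf (fun c hc => by
      rw [mem_centralizer_singleton_iff]
      exact (mem_centralizer_iff.mp (hED hx).2 c hc)) hCE
    have hxF : x ∈ F := ⟨mem_centralizer_singleton_iff.mpr rfl, hx⟩
    obtain ⟨m, hm⟩ := card_dvd_of_le hCF
    have h1 : Nat.card ↥F ∣ Nat.card ↥E := card_dvd_of_le inf_le_right
    rw [hm, hEc] at h1
    have h2 : m ∣ p := Nat.dvd_of_mul_dvd_mul_left Nat.card_pos h1
    rcases (Nat.dvd_prime hp).mp h2 with h3 | h3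
    · exfalso
      rw [h3, mul_one] at hm
      apply hxC
      rw [eq_of_le_of_card_ge hCF hm.le]
      exact hxF
    · have h4 : F = E := eq_of_le_of_card_ge inf_le_right (by rw [hm, hEc, h3])
      have h5 : y ∈ F := by rw [h4]; exact hy
      exact (mem_centralizer_singleton_iff.mp h5.1).symm
  have hEab : IsMulCommutative ↥E := by
    refine ⟨⟨fun a b => Subtype.ext ?_⟩⟩
    change (a : P) * b = b * a
    by_cases ha : (a : P) ∈ C
    · exact mem_centralizer_iff.mp (hED b.2).2 a ha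
    · exact key a a.2 ha b b.2
  have hET : E ∈ T := ⟨hEn, hEab, hBC.trans hCE, hED.trans inf_le_left⟩
  have h6 := hmax hET hCE
  have h7 : E = C := le_antisymm h6 hCE
  rw [h7] at hEc
  have h8 : 0 < Nat.card ↥C := Nat.card_pos
  have h9 := hp.one_lt
  nlinarith

end Cfsg.Agent.S1894
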