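import Cfsg.Statements.S1901
import Mathlib
import Cfsg.Agent.Lib.PSol
import Cfsg.Agent.Lib.HallHigman

set_option autoImplicit false
open Cfsg

namespace Cfsg.Agent.S1901

open Subgroup
universe u

/-- `p`-solvable groups have a nontrivial core -/
theorem core_ne {G : Type*} [Group G] [Finite G] [Nontrivial G] {p : ℕ} [Fact p.Prime] (hG : Cfsg.IsPSolvable p G) :
    Cfsg.pCore p G ≠ ⊥ ∨ Cfsg.pPrimeCore p G ≠ ⊥ := by
  by_contra h
  push Not at h
  have h1 := Cfsg.Agent.Lib.HallHigman.centralizer_pCore_le p hG h.2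
  rw [h.1] at h1
  have h2 : centralizer ((⊥ : Subgroup G) : Set G) = ⊤ := by
    rw [eq_top_iff]
    intro x _
    rw [mem_centralizer_iff]
    intro y hy
    rw [SetLike.mem_coe, mem_bot] at hy
    rw [hy, one_mul, mul_one]
  rw [h2] at h1
  exact bot_ne_top (top_le_iff.1 h1)

theorem unip {G : Type*} [Group G] {x q c : G} {m : ℕ} (h1 : x * q * x⁻¹ = c * q) (h2 : Commute x c) (hx : x ^ m = 1) : c ^ m = 1 := by
  have key : ∀ k : ℕ, x ^ k * q * (x ^ k)⁻¹ = c ^ k * q := by
    intro k
    induction k with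
    | zero => simp
    | succ k ih =>
      calc x ^ (k + 1) * q * (x ^ (k + 1))⁻¹ = x * (x ^ k * q * (x ^ k)⁻¹) * x⁻¹ := by rw [pow_succ']; group
        _ = x * c ^ k * q * x⁻¹ := by rw [ih]; group
        _ = c ^ k * (x * q * x⁻¹) := by rw [(h2.pow_right k).eq]; group
        _ = c ^ (k + 1) * q := by rw [h1, pow_succ]; group
  have := key m
  rw [hx] at this
  simp at this
  exact this

theorem main_aux {p : ℕ} [Fact p.Prime] (n : ℕ) : ∀ (G : Type u) [Group G] [Finite G], Nat.card G ≤ n → Cfsg.IsPSolvable p G →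
    ∀ (Q : Subgroup G), ¬ p ∣ Nat.card Q → ∀ P : Sylow p G, Q ≤ normalizer ((P : Subgroup G) : Set G) →
    ∀ x ∈ normalizer (Q : Set G), ∀ k, x ^ (p ^ k) = 1 → x ∈ centralizer (Q : Set G) := by
  induction n with
  | zero =>
    intro G _ _ h
    have : 0 < Nat.card G := Nat.card_pos
    omega
  | succ n ih =>
    intro G _ _ hn hG Q hQ P hQP x hx k hxk
    rcases subsingleton_or_nontrivial G with hs | hs
    · rw [Subsingleton.elim x 1]; exact one_mem _
    have hcop : ∀ q ∈ Q, ∀ m : ℕ, q ^ (p ^ m) = 1 → q = 1 := by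
      intro q hq m hqm
      have h1 := orderOf_dvd_of_pow_eq_one hqm
      have h2 : orderOf q ∣ Nat.card Q := by
        have := orderOf_dvd_natCard (⟨q, hq⟩ : Q)
        rwa [Subgroup.orderOf_mk] at this
      have h3 : Nat.Coprime (p ^ m) (Nat.card Q) := Nat.Coprime.pow_left m ((Nat.Prime.coprime_iff_not_dvd Fact.out).2 hQ)
      exact orderOf_eq_one_iff.1 (Nat.eq_one_of_dvd_coprimes h3 h1 h2)
    -- reduction modulo `N`
    have red : ∀ N : Subgroup G, N.Normal → N ≠ ⊥ → ∀ q ∈ Q, x * q * x⁻¹ * q⁻¹ ∈ N := by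
      intro N hN hNb q hq
      haveI := hN
      have hsurj := QuotientGroup.mk'_surjective N
      have hlt : Nat.card (G ⧸ N) ≤ n := by
        have h1 := Subgroup.card_mul_index N
        have h2 : 1 < Nat.card N := (Subgroup.one_lt_card_iff_ne_bot N).2 hNb
        have h3 : N.index = Nat.card (G ⧸ N) := rfl
        rw [h3] at h1
        have h4 : 0 < Nat.card (G ⧸ N) := Nat.card_pos
        nlinarith
      have h1 := ih (G ⧸ N) hlt (Cfsg.Agent.Lib.PSol.quotient hG N) (Q.map (QuotientGroup.mk' N))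
        (fun h => hQ (h.trans (Subgroup.card_map_dvd _ _))) (P.mapSurjective hsurj) (by
          rw [Sylow.coe_mapSurjective]
          exact (Subgroup.map_mono hQP).trans (Subgroup.le_normalizer_map _))
        (QuotientGroup.mk' N x) (by
          have := Subgroup.le_normalizer_map (QuotientGroup.mk' N) (Subgroup.mem_map_of_mem _ hx)
          exact this) k (by rw [← map_pow, hxk, map_one])
      rw [mem_centralizer_iff] at h1
      have h2 := h1 (QuotientGroup.mk' N q) (Subgroup.mem_map_of_mem _ hq)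
      rw [← QuotientGroup.ker_mk' N, MonoidHom.mem_ker, map_mul, map_mul, map_mul, map_inv, map_inv, ← h2]
      group
    rw [mem_centralizer_iff]
    intro q hq
    rw [mem_normalizer_iff] at hx
    have hcQ : x * q * x⁻¹ * q⁻¹ ∈ Q := mul_mem ((hx q).1 hq) (inv_mem hq)
    suffices h : x * q * x⁻¹ * q⁻¹ = 1 by
      have h2 : x * q * x⁻¹ = q := by
        have := mul_eq_one_iff_eq_inv.1 h
        rwa [inv_inv] at this
      calc q * x = (x * q * x⁻¹) * x := by rw [h2]
        _ = x * q := by group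
    rcases core_ne hG with hc | hc
    · -- `p`-core
      have h1 := red _ (Cfsg.Agent.Lib.Cores.pCore_normal p) hc q hq
      obtain ⟨m, hm⟩ := Cfsg.Agent.Lib.Cores.pCore_isPGroup p ⟨_, h1⟩
      exact hcop _ hcQ m (congrArg Subtype.val hm)
    · -- `p'`-core
      have hNn : (Cfsg.pPrimeCore p G).Normal := Cfsg.Agent.Lib.Cores.pPrimeCore_normal p
      have h1 := red _ hNn hc q hq
      -- `x` centralizes `Q ∩ N`
      have hPN : ∀ y ∈ (P : Subgroup G), y ∈ Cfsg.pPrimeCore p G → y = 1 := by
        intro y hy hyN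
        obtain ⟨m, hm⟩ := P.2 ⟨y, hy⟩
        have hym : y ^ (p ^ m) = 1 := congrArg Subtype.val hm
        have h2 := orderOf_dvd_of_pow_eq_one hym
        have h3 : orderOf y ∣ Nat.card (Cfsg.pPrimeCore p G) := by
          have := orderOf_dvd_natCard (⟨y, hyN⟩ : Cfsg.pPrimeCore p G)
          rwa [Subgroup.orderOf_mk] at this
        have h4 : Nat.Coprime (p ^ m) (Nat.card (Cfsg.pPrimeCore p G)) :=
          Nat.Coprime.pow_left m (Cfsg.Agent.Lib.Cores.pPrimeCore_coprime p).symm
        exact orderOf_eq_one_iff.1 (Nat.eq_one_of_dvd_coprimes h4 h2 h3)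
      set Q1 := Q ⊓ Cfsg.pPrimeCore p G with hQ1
      have hPC : (P : Subgroup G) ≤ centralizer (Q1 : Set G) := by
        intro y hy
        rw [mem_centralizer_iff]
        intro z hz
        have hzP := hQP hz.1
        rw [mem_normalizer_iff] at hzP
        have h2 : z * y * z⁻¹ * y⁻¹ ∈ (P : Subgroup G) := mul_mem ((hzP y).1 hy) (inv_mem hy)
        have h3 : z * y * z⁻¹ * y⁻¹ ∈ Cfsg.pPrimeCore p G := by
          rw [show z * y * z⁻¹ * y⁻¹ = z * (y * z⁻¹ * y⁻¹) by group]
          exact mul_mem hz.2 (hNn.conj_mem _ (inv_mem hz.2) y)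
        have h4 := hPN _ h2 h3
        have h5 : z * y * z⁻¹ = y := by
          have := mul_eq_one_iff_eq_inv.1 h4
          rwa [inv_inv] at this
        calc z * y = (z * y * z⁻¹) * z := by group
          _ = y * z := by rw [h5]
      have hxQ1 : x ∈ normalizer (Q1 : Set G) := by
        rw [mem_normalizer_iff]
        intro z
        constructor
        · intro hz
          exact ⟨(hx z).1 hz.1, hNn.conj_mem _ hz.2 x⟩
        · intro hz
          refine ⟨(hx z).2 hz.1, ?_⟩
          have := hNn.conj_mem _ hz.2 x⁻¹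
          rwa [show x⁻¹ * (x * z * x⁻¹) * x⁻¹⁻¹ = z by group] at this
      have hxC : x ∈ centralizer (Q1 : Set G) := by
        have hk1 : Q1.normalizerMonoidHom.ker.index = (centralizer (Q1 : Set G)).relIndex (normalizer (Q1 : Set G)) := by
          rw [Subgroup.normalizerMonoidHom_ker]; rfl
        have hk2 : ¬ p ∣ Q1.normalizerMonoidHom.ker.index := by
          intro hd
          rw [hk1] at hd
          have h2 := Subgroup.relIndex_mul_index (show centralizer (Q1 : Set G) ≤ normalizer (Q1 : Set G) from Subgroup.centralizer_le_normalizer _)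
          have h3 : p ∣ (centralizer (Q1 : Set G)).index := by
            rw [← h2]; exact hd.mul_right _
          exact P.not_dvd_index (h3.trans (Subgroup.index_dvd_of_le hPC))
        set φx := Q1.normalizerMonoidHom ⟨x, hxQ1⟩ with hφx
        have ho1 : orderOf φx ∣ p ^ k := by
          apply orderOf_dvd_of_pow_eq_one
          rw [hφx, ← map_pow]
          have : (⟨x, hxQ1⟩ : normalizer (Q1 : Set G)) ^ (p ^ k) = 1 := Subtype.ext hxk
          rw [this, map_one]
        have ho2 : orderOf φx ∣ Q1.normalizerMonoidHom.ker.index := by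
          rw [Subgroup.index_ker]
          have := orderOf_dvd_natCard (⟨φx, ⟨_, rfl⟩⟩ : Q1.normalizerMonoidHom.range)
          rw [← Subgroup.orderOf_coe] at this
          exact this
        have ho3 : orderOf φx = 1 := Nat.eq_one_of_dvd_coprimes
          (Nat.Coprime.pow_left k ((Nat.Prime.coprime_iff_not_dvd Fact.out).2 hk2)) ho1 ho2
        have h5 : (⟨x, hxQ1⟩ : normalizer (Q1 : Set G)) ∈ Q1.normalizerMonoidHom.ker := orderOf_eq_one_iff.1 ho3
        rw [Subgroup.normalizerMonoidHom_ker] at h5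
        exact h5
      have hcc : Commute x (x * q * x⁻¹ * q⁻¹) := ((mem_centralizer_iff.1 hxC) _ ⟨hcQ, h1⟩).symm
      have h6 := unip (q := q) (c := x * q * x⁻¹ * q⁻¹) (m := p ^ k) (by group) hcc hxk
      exact hcop _ hcQ k h6

/-- Let G be a finite p-solvable group and Q a subgroup of order prime to p such that p divides the index of C_G(Q) in N_G(Q). Then Q normalizes no Sylow p-subgroup of G. -/
theorem result {G : Type*} [Group G] [Finite G] {p : ℕ} [Fact p.Prime]
    (hG : Cfsg.IsPSolvable p G) (Q : Subgroup G) (hQ : ¬ p ∣ Nat.card Q)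
    (hA : p ∣ (Subgroup.centralizer (Q : Set G)).relIndex (Subgroup.normalizer (Q : Set G)))
    (P : Sylow p G) : ¬ Q ≤ Subgroup.normalizer ((P : Subgroup G) : Set G) := by
  intro hQP
  obtain ⟨S⟩ : Nonempty (Sylow p (Subgroup.normalizer (Q : Set G))) := inferInstance
  have h1 : (S : Subgroup (Subgroup.normalizer (Q : Set G))) ≤ (Subgroup.centralizer (Q : Set G)).subgroupOf (Subgroup.normalizer (Q : Set G)) := by
    rintro ⟨x, hx⟩ hxS
    obtain ⟨k, hk⟩ := S.2 ⟨_, hxS⟩
    have hk' : x ^ (p ^ k) = 1 := congrArg (fun z => ((z : (S : Subgroup (Subgroup.normalizer (Q : Set G)))) : Subgroup.normalizer (Q : Set G)).1) hk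
    exact main_aux _ G le_rfl hG Q hQ P hQP x hx k hk'
  exact S.not_dvd_index ((show p ∣ ((Subgroup.centralizer (Q : Set G)).subgroupOf (Subgroup.normalizer (Q : Set G))).index from hA).trans (Subgroup.index_dvd_of_le h1))

end Cfsg.Agent.S1901
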