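import Cfsg.Statements.S1939
import Cfsg.Agent.Lib.WCl

set_option autoImplicit false
open Cfsg
open Cfsg.Agent.Lib.WCl Cfsg.Agent.Lib.SylRel

namespace Cfsg.Agent.S1939

/-- Let S be a Sylow p-subgroup of the finite group G and a an element of S that is the only G-conjugate of a lying in S. Then every power of a has the same property: for every n, the only G-conjugate of a^n lying in S is a^n. -/
theorem result {G : Type*} [Group G] [Finite G] {p : ℕ} [Fact p.Prime] (S : Sylow p G) (a : G)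
    (haS : a ∈ (S : Subgroup G)) (hwc : ∀ g : G, g * a * g⁻¹ ∈ (S : Subgroup G) → g * a * g⁻¹ = a) (n : ℕ) :
    ∀ g : G, g * a ^ n * g⁻¹ ∈ (S : Subgroup G) → g * a ^ n * g⁻¹ = a ^ n := by
  intro g hg
  set b := g * a ^ n * g⁻¹ with hb
  have h1 : a ∈ Subgroup.centralizer ({b} : Set G) := Subgroup.mem_centralizer_singleton_iff.2 (wce_comm hwc haS hg).symm
  have h2 : g * a * g⁻¹ ∈ Subgroup.centralizer ({b} : Set G) := by
    refine Subgroup.mem_centralizer_singleton_iff.2 ?_
    have e1 : g * a * g⁻¹ * (g * a ^ n * g⁻¹) = g * (a * a ^ n) * g⁻¹ := by group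
    have e2 : g * a ^ n * g⁻¹ * (g * a * g⁻¹) = g * (a ^ n * a) * g⁻¹ := by group
    rw [hb, e1, e2, (Commute.self_pow a n).eq]
  obtain ⟨c, hc, hca⟩ := wce_conj haS hwc h1 h2
  have h3 : c * a ^ n * c⁻¹ = b := by
    rw [hb, ← conj_pow, ← conj_pow, hca]
  have h4 := Subgroup.mem_centralizer_singleton_iff.1 hc
  have h5 : c * a ^ n = c * b := by rw [h4, ← h3]; group
  exact (mul_left_cancel h5).symm

end Cfsg.Agent.S1939
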