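import Cfsg.Statements.S1940

set_option autoImplicit false
open Cfsg

namespace Cfsg.Agent.S1940

/-- Let the finite group L act by automorphisms on the finite abelian group M, and let N be an L-invariant subgroup of M such that M/N is a p-group on which L acts trivially (every l • m lies in the coset mN). If every element of M is a product of an element of N and an element fixed by a Sylow p-subgroup T of L, then every element of M is a product of an element of N and an element fixed by all of L. -/
theorem result {L : Type*} [Group L] [Finite L] {M : Type*} [CommGroup M] [Finite M] [MulDistribMulAction L M]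
    {p : ℕ} [Fact p.Prime] (N : Subgroup M) (hN : ∀ (l : L) (m : M), m ∈ N → l • m ∈ N)
    (hquot : IsPGroup p (M ⧸ N)) (htriv : ∀ (l : L) (m : M), (l • m) * m⁻¹ ∈ N) (T : Sylow p L)
    (hT : ∀ m : M, ∃ n ∈ N, ∃ c : M, (∀ t ∈ (T : Subgroup L), t • c = c) ∧ m = n * c) :
    ∀ m : M, ∃ n ∈ N, ∃ c : M, (∀ l : L, l • c = c) ∧ m = n * c := by
  classical
  intro m
  obtain ⟨n, hn, c, hc, rfl⟩ := hT m
  haveI : Fintype (L ⧸ (T : Subgroup L)) := Fintype.ofFinite _
  let f : L ⧸ (T : Subgroup L) → M := Quotient.lift (fun l : L => l • c) (by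
    intro a b hab
    have h1 : a⁻¹ * b ∈ (T : Subgroup L) := QuotientGroup.leftRel_apply.1 hab
    have h2 := hc _ h1
    show a • c = b • c
    rw [mul_smul, inv_smul_eq_iff] at h2
    exact h2.symm)
  have hf : ∀ l : L, ∀ x : L ⧸ (T : Subgroup L), f (l • x) = l • f x := by
    intro l x
    induction x using QuotientGroup.induction_on with
    | H a => exact mul_smul l a c
  set c' := ∏ x, f x with hc'
  have hfix : ∀ l : L, l • c' = c' := by
    intro l
    rw [hc', Finset.smul_prod']
    exact (Finset.prod_congr rfl fun x _ => (hf l x).symm).trans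
      (Equiv.prod_comp (MulAction.toPerm l : Equiv.Perm (L ⧸ (T : Subgroup L))) f)
  set k := (T : Subgroup L).index with hk
  have hmod : c' * (c ^ k)⁻¹ ∈ N := by
    have h1 : ∀ x, f x * c⁻¹ ∈ N := by
      intro x
      induction x using QuotientGroup.induction_on with
      | H a => exact htriv a c
    have h2 : c' * (c ^ k)⁻¹ = ∏ x, (f x * c⁻¹) := by
      rw [Finset.prod_mul_distrib, Finset.prod_const, ← inv_pow, hk, Subgroup.index_eq_card, Nat.card_eq_fintype_card,
        Finset.card_univ]
    rw [h2]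
    exact Subgroup.prod_mem _ fun x _ => h1 x
  have hcop : (Nat.card (M ⧸ N)).Coprime k := by
    obtain ⟨e, he⟩ := IsPGroup.iff_card.1 hquot
    rw [he]
    exact Nat.Coprime.pow_left _ ((Nat.Prime.coprime_iff_not_dvd Fact.out).2 T.not_dvd_index)
  obtain ⟨j, i, hj⟩ : ∃ j i : ℤ, (1 : ℤ) = (k : ℤ) * j + (Nat.card (M ⧸ N) : ℤ) * i := by
    refine ⟨Nat.gcdA k (Nat.card (M ⧸ N)), Nat.gcdB k (Nat.card (M ⧸ N)), ?_⟩
    have h := Nat.gcd_eq_gcd_ab k (Nat.card (M ⧸ N))
    rw [Nat.Coprime.gcd_eq_one hcop.symm] at h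
    exact_mod_cast h
  have hmem : c * (c' ^ j)⁻¹ ∈ N := by
    have h3 : (QuotientGroup.mk c : M ⧸ N) = QuotientGroup.mk (c' ^ j) := by
      have h4 : (QuotientGroup.mk c' : M ⧸ N) = QuotientGroup.mk (c ^ k) := by
        rw [eq_comm, QuotientGroup.eq]
        rw [mul_comm]; exact hmod
      rw [QuotientGroup.mk_zpow, h4, QuotientGroup.mk_pow]
      have h5 : (QuotientGroup.mk c : M ⧸ N) ^ (1 : ℤ) = QuotientGroup.mk c := zpow_one _
      rw [hj, zpow_add, zpow_mul, zpow_mul, zpow_natCast, zpow_natCast, pow_card_eq_one', one_zpow, mul_one] at h5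
      exact h5.symm
    rw [eq_comm, QuotientGroup.eq] at h3
    rw [mul_comm]; exact h3
  refine ⟨n * (c * (c' ^ j)⁻¹), N.mul_mem hn hmem, c' ^ j, fun l => ?_, ?_⟩
  · have := map_zpow (MulDistribMulAction.toMonoidHom M l) c' j
    rw [show l • c' ^ j = (MulDistribMulAction.toMonoidHom M l) (c' ^ j) from rfl, this]
    show (l • c') ^ j = c' ^ j
    rw [hfix]
  · rw [mul_assoc, mul_assoc, inv_mul_cancel, mul_one]

end Cfsg.Agent.S1940
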