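import Cfsg.Statements.S1946
import Cfsg.Agent.S0071
import Cfsg.Agent.Lib.FusOmega
-- import your own Cfsg.Agent.* helpers here

set_option autoImplicit false
open Cfsg

namespace Cfsg.Agent.S1946

/-- Let P be a Sylow p-subgroup of the finite group G. Then G has a normal p-complement if and only if P controls the fusion of its elements of order dividing p (dividing 4 when p = 2): whenever such an element a of P has a G-conjugate g a g⁻¹ in P, that conjugate is already x a x⁻¹ for some x in P. -/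
theorem result {G : Type*} [Group G] [Finite G] {p : ℕ} [Fact p.Prime] (P : Sylow p G) :
    Cfsg.HasNormalPComplement p G ↔
      ∀ a ∈ (P : Subgroup G), (a ^ p = 1 ∨ (p = 2 ∧ a ^ 4 = 1)) → ∀ g : G, g * a * g⁻¹ ∈ (P : Subgroup G) →
        ∃ x ∈ (P : Subgroup G), g * a * g⁻¹ = x * a * x⁻¹ := by
  constructor
  · intro h
    obtain ⟨N, hN, hNP⟩ := (Cfsg.Agent.Lib.PNilp.exists_complement_iff P).2
      (Cfsg.Agent.Lib.PNilp.hasNormalPComplement_iff.1 h)
    intro a ha _ g hga
    have hdisj := hNP.disjoint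
    have hsup := hNP.sup_eq_top
    have hg : g ∈ N ⊔ (P : Subgroup G) := by rw [hsup]; trivial
    haveI := hN
    rw [Subgroup.mem_sup_of_normal_left] at hg
    obtain ⟨n, hn, x, hx, rfl⟩ := hg
    refine ⟨x, hx, ?_⟩
    set b := x * a * x⁻¹ with hb
    have hbP : b ∈ (P : Subgroup G) := mul_mem (mul_mem hx ha) (inv_mem hx)
    have e : n * x * a * (n * x)⁻¹ = n * b * n⁻¹ := by rw [hb]; group
    rw [e] at hga ⊢
    have h1 : n * b * n⁻¹ * b⁻¹ ∈ (P : Subgroup G) := mul_mem hga (inv_mem hbP)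
    have h2 : n * b * n⁻¹ * b⁻¹ ∈ N := by
      have : n * (b * n⁻¹ * b⁻¹) ∈ N := mul_mem hn (hN.conj_mem _ (inv_mem hn) b)
      simpa [mul_assoc] using this
    have h3 := (Subgroup.disjoint_def.1 hdisj) h2 h1
    exact mul_inv_eq_one.1 h3
  · intro hf
    rw [Cfsg.Agent.Lib.PNilp.hasNormalPComplement_iff, ← Cfsg.Agent.Lib.PNilp.exists_complement_iff P]
    refine (Cfsg.Agent.S0071.result P).2 ?_
    intro Q hQ g hg hgo
    haveI hnil : Group.IsNilpotent (P : Subgroup G) := P.2.isNilpotent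
    obtain ⟨n, hn⟩ := Group.IsNilpotent.nilpotent (P : Subgroup G)
    refine Cfsg.Agent.Lib.FusOmega.key P hf n Q ?_ g hg hgo
    rw [hn]
    intro x hx
    exact ⟨⟨x, hQ hx⟩, trivial, rfl⟩

end Cfsg.Agent.S1946
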