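import Cfsg.Statements.S1952
import Cfsg.Agent.Lib.YoshC

set_option autoImplicit false
open Cfsg
open Cfsg.Agent.Lib.YoshA Cfsg.Agent.Lib.YoshC

namespace Cfsg.Agent.S1952

/-- Let P be a finite p-group with a normal elementary abelian subgroup A of index p, and let x ∈ A and y ∈ P with y outside A. If the product of the p conjugates y^(-i) x y^i (i = 0, …, p−1) is not the identity, then the wreath product Z_p ≀ Z_p, realised as a Sylow p-subgroup of the symmetric group of degree p², is a homomorphic image of P. -/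
theorem result {P : Type*} [Group P] [Finite P] {p : ℕ} [Fact p.Prime] (hP : IsPGroup p P) (A : Subgroup P) [A.Normal]
    (hA : Cfsg.IsElementaryAbelian p A) (hidx : A.index = p) (x y : P) (hx : x ∈ A) (hy : y ∉ A)
    (hprod : ((List.range p).map (fun i => (y ^ i)⁻¹ * x * y ^ i)).prod ≠ 1) :
    ∃ (Q : Sylow p (Equiv.Perm (Fin (p ^ 2)))) (f : P →* ↥(Q : Subgroup (Equiv.Perm (Fin (p ^ 2))))), Function.Surjective f := by
  by_contra hno
  haveI : Fintype (P ⧸ A) := Fintype.ofFinite _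
  obtain ⟨hAc, hAp⟩ := hA
  have hAcomm : ∀ a ∈ A, ∀ b ∈ A, a * b = b * a := fun a ha b hb => congrArg Subtype.val (hAc.is_comm.comm ⟨a, ha⟩ ⟨b, hb⟩)
  have hf : ∀ i : ℕ, (y ^ i)⁻¹ * x * y ^ i ∈ A := by
    intro i
    have := (inferInstance : A.Normal).conj_mem x hx (y ^ i)⁻¹
    rwa [inv_inv] at this
  have hmem : ∀ n : ℕ, ((List.range n).map (fun i => (y ^ i)⁻¹ * x * y ^ i)).prod ∈ A := by
    intro n
    refine A.list_prod_mem ?_
    intro w hw
    obtain ⟨i, _, rfl⟩ := List.mem_map.1 hw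
    exact hf i
  obtain ⟨l, _, hl⟩ := exists_l (p := p) (G := A) (H := ⊥) (x := ⟨_, hmem p⟩) (by
    rw [commutator_def, Subgroup.commutator_le]
    intro a _ b _
    rw [Subgroup.mem_bot, commutatorElement_eq_one_iff_mul_comm]
    exact hAc.is_comm.comm a b) (fun a => by
      rw [Subgroup.mem_bot]
      exact Subtype.ext (hAp a a.2)) (by
    rw [Subgroup.mem_bot]
    intro h; exact hprod (congrArg Subtype.val h))
  have hsum : ∀ n : ℕ, Multiplicative.toAdd (l ⟨_, hmem n⟩) = ∑ i ∈ Finset.range n, Multiplicative.toAdd (l ⟨_, hf i⟩) := by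
    intro n
    induction n with
    | zero =>
      have h1 : (⟨((List.range 0).map (fun i => (y ^ i)⁻¹ * x * y ^ i)).prod, hmem 0⟩ : A) = 1 := Subtype.ext (by simp)
      rw [h1, map_one, Finset.sum_range_zero]; rfl
    | succ n ih =>
      have h1 : (⟨((List.range (n + 1)).map (fun i => (y ^ i)⁻¹ * x * y ^ i)).prod, hmem (n + 1)⟩ : A) = ⟨_, hmem n⟩ * ⟨_, hf n⟩ := Subtype.ext (by
        show ((List.range (n + 1)).map (fun i => (y ^ i)⁻¹ * x * y ^ i)).prod = ((List.range n).map (fun i => (y ^ i)⁻¹ * x * y ^ i)).prod * ((y ^ n)⁻¹ * x * y ^ n)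
        rw [List.range_succ, List.map_append, List.prod_append]
        simp)
      rw [h1, map_mul, toAdd_mul, ih, Finset.sum_range_succ]
  obtain ⟨r, hr⟩ : ∃ r : P ⧸ A → P, ∀ β, (r β : P ⧸ A) = β := ⟨Quotient.out, fun β => Quotient.out_eq' β⟩
  have hrm : ∀ (β : P ⧸ A) (g : P), (r (g • β))⁻¹ * g * r β ∈ A := by
    intro β g
    have h1 : (r (g • β) : P ⧸ A) = ((g * r β : P) : P ⧸ A) := by
      rw [hr]
      conv_lhs => rw [← hr β]
      rfl
    have h2 := QuotientGroup.eq.1 h1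
    rwa [← mul_assoc] at h2
  obtain ⟨B, hB⟩ : ∃ B : P ⧸ A → P → ZMod p, B = fun β g => Multiplicative.toAdd (l ⟨_, hrm β g⟩) := ⟨_, rfl⟩
  have hBc : Coc B := by
    refine ⟨fun β g h => ?_⟩
    rw [hB]
    show Multiplicative.toAdd (l ⟨_, hrm β (g * h)⟩) = Multiplicative.toAdd (l ⟨_, hrm (h • β) g⟩) + Multiplicative.toAdd (l ⟨_, hrm β h⟩)
    rw [← toAdd_mul, ← map_mul]
    congr 2
    apply Subtype.ext
    show (r ((g * h) • β))⁻¹ * (g * h) * r β = (r (g • h • β))⁻¹ * g * r (h • β) * ((r (h • β))⁻¹ * h * r β)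
    rw [mul_smul]
    group
  apply hno
  refine wreath hP hidx hBc hx ?_
  have hC : Nat.card (P ⧸ A) = p := hidx
  have hox : orderOf (y : P ⧸ A) = p := by
    apply orderOf_eq_prime
    · rw [← hC]; exact pow_card_eq_one'
    · intro h; exact hy ((QuotientGroup.eq_one_iff y).1 h)
  have hinj : Set.InjOn (fun i : ℕ => ((y ^ i : P) : P ⧸ A)) (Finset.range p : Set ℕ) := by
    intro i hi j hj hij
    have hij : (y : P ⧸ A) ^ i = (y : P ⧸ A) ^ j := hij
    refine pow_injOn_Iio_orderOf ?_ ?_ hij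
    · rw [hox]; exact Finset.mem_range.1 hi
    · rw [hox]; exact Finset.mem_range.1 hj
  classical
  have himg : (Finset.range p).image (fun i : ℕ => ((y ^ i : P) : P ⧸ A)) = Finset.univ := by
    apply Finset.eq_univ_of_card
    rw [Finset.card_image_of_injOn hinj, Finset.card_range, Fintype.card_eq_nat_card, hC]
  have h1 : ∑ β, B β x = ∑ i ∈ Finset.range p, Multiplicative.toAdd (l ⟨_, hf i⟩) := by
    rw [← himg, Finset.sum_image hinj]
    refine Finset.sum_congr rfl fun i _ => ?_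
    rw [hB]
    show Multiplicative.toAdd (l ⟨_, hrm ((y ^ i : P) : P ⧸ A) x⟩) = _
    congr 2
    apply Subtype.ext
    show (r (x • ((y ^ i : P) : P ⧸ A)))⁻¹ * x * r ((y ^ i : P) : P ⧸ A) = (y ^ i)⁻¹ * x * y ^ i
    have h2 : x • ((y ^ i : P) : P ⧸ A) = ((y ^ i : P) : P ⧸ A) := by
      show ((x * y ^ i : P) : P ⧸ A) = _
      refine (QuotientGroup.eq.2 ?_).symm
      rw [← mul_assoc]; exact hf i
    rw [h2]
    obtain ⟨a, ha⟩ : ∃ a : P, a = (y ^ i)⁻¹ * r ((y ^ i : P) : P ⧸ A) := ⟨_, rfl⟩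
    have haA : a ∈ A := by rw [ha]; exact QuotientGroup.eq.1 (hr _).symm
    have h3 : r ((y ^ i : P) : P ⧸ A) = y ^ i * a := by rw [ha]; group
    rw [h3]
    have h4 : (y ^ i * a)⁻¹ * x * (y ^ i * a) = a⁻¹ * (((y ^ i)⁻¹ * x * y ^ i) * a) := by group
    rw [h4, hAcomm _ (hf i) a haA]
    group
  rw [h1, ← hsum p]
  intro h2
  exact hl (Multiplicative.toAdd.injective h2)

end Cfsg.Agent.S1952
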