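import Cfsg.Statements.S1956
import Cfsg.Agent.Lib.WCl

set_option autoImplicit false
open Cfsg
open Cfsg.Agent.Lib.WCl Cfsg.Agent.Lib.SylRel

namespace Cfsg.Agent.S1956

/-- Let P be a Sylow p-subgroup of the finite group G such that every element of P of order dividing p (dividing 4 when p = 2) is central in P. Then the fusion of these elements is controlled by N_G(P): if such an element a of P has g a g⁻¹ in P, then g = n c with n normalizing P and c commuting with a. -/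
theorem result {G : Type*} [Group G] [Finite G] {p : ℕ} [Fact p.Prime] (P : Sylow p G)
    (hcen : ∀ a ∈ (P : Subgroup G), (a ^ p = 1 ∨ (p = 2 ∧ a ^ 4 = 1)) → ∀ y ∈ (P : Subgroup G), a * y = y * a) :
    ∀ a ∈ (P : Subgroup G), (a ^ p = 1 ∨ (p = 2 ∧ a ^ 4 = 1)) → ∀ g : G, g * a * g⁻¹ ∈ (P : Subgroup G) →
      ∃ n ∈ Subgroup.normalizer ((P : Subgroup G) : Set G), ∃ c : G, c * a = a * c ∧ g = n * c := by
  intro a ha hap g hg
  have hg' : (g * a * g⁻¹) ^ p = 1 ∨ (p = 2 ∧ (g * a * g⁻¹) ^ 4 = 1) := by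
    rcases hap with h | ⟨h1, h2⟩
    · left; rw [conj_pow, h]; group
    · right; refine ⟨h1, ?_⟩; rw [conj_pow, h2]; group
  have h1 := hcen _ hg hg'
  have h2 := hcen _ ha hap
  have h3 : (P : Subgroup G) ≤ Subgroup.centralizer ({g * a * g⁻¹} : Set G) := fun y hy =>
    Subgroup.mem_centralizer_singleton_iff.2 (h1 y hy).symm
  have h4 : (P : Subgroup G).map (MulAut.conj g).toMonoidHom ≤ Subgroup.centralizer ({g * a * g⁻¹} : Set G) := by
    rintro _ ⟨y, hy, rfl⟩
    refine Subgroup.mem_centralizer_singleton_iff.2 ?_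
    show g * y * g⁻¹ * (g * a * g⁻¹) = g * a * g⁻¹ * (g * y * g⁻¹)
    have e1 : g * y * g⁻¹ * (g * a * g⁻¹) = g * (y * a) * g⁻¹ := by group
    have e2 : g * a * g⁻¹ * (g * y * g⁻¹) = g * (a * y) * g⁻¹ := by group
    rw [e1, e2, h2 y hy]
  have h5 : SylIn p (P : Subgroup G) (Subgroup.centralizer ({g * a * g⁻¹} : Set G)) :=
    (sylIn_of_sylow P).mono h3 le_top
  obtain ⟨c, hc, hcx⟩ := h5.conj_le h4 (P.2.map _)
  have h6 : ((P : Subgroup G).map (MulAut.conj (c * g)).toMonoidHom) = P := by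
    rw [← map_conj_mul]
    refine Subgroup.eq_of_le_of_card_ge (map_conj_le.2 hcx) ?_
    rw [card_map_conj, card_map_conj]
  have h7 : c * g ∈ Subgroup.normalizer ((P : Subgroup G) : Set G) := by
    have h8 : (P : Subgroup G).map (MulAut.conj (1:G)).toMonoidHom = (P : Subgroup G).map (MulAut.conj (c * g)).toMonoidHom := by
      rw [h6, map_conj_one]
    have := map_conj_eq_iff.1 h8
    rwa [inv_one, one_mul] at this
  refine ⟨c * g, h7, g⁻¹ * c⁻¹ * g, ?_, by group⟩
  have h9 := Subgroup.mem_centralizer_singleton_iff.1 hc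
  have h10 : c⁻¹ * (g * a * g⁻¹) = g * a * g⁻¹ * c⁻¹ := by
    rw [eq_mul_inv_iff_mul_eq, mul_assoc, ← h9]; group
  calc g⁻¹ * c⁻¹ * g * a = g⁻¹ * (c⁻¹ * (g * a * g⁻¹)) * g := by group
    _ = a * (g⁻¹ * c⁻¹ * g) := by rw [h10]; group

end Cfsg.Agent.S1956
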