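import Cfsg.Statements.S2162
import Mathlib
import Cfsg.Agent.Lib.SqZero2
-- import your own Cfsg.Agent.* helpers here

set_option autoImplicit false
open Cfsg
set_option linter.all false

namespace Cfsg.Agent.S2162

/-- Conjugacy of involutions in the special linear group over a finite field of characteristic two, in dimension at least 3: two elements of order 2 of SL_n(F) are conjugate in SL_n(F) exactly when the matrices a − 1 and b − 1 have the same rank (the rank of a − 1 is the dimension of the commutator space [V, a]). -/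
theorem result {F : Type*} [Field F] [Fintype F] [CharP F 2] {n : ℕ} (hn : 3 ≤ n) (a b : Matrix.SpecialLinearGroup (Fin n) F) (ha : orderOf a = 2) (hb : orderOf b = 2) :
    IsConj a b ↔ ((a : Matrix (Fin n) (Fin n) F) - 1).rank = ((b : Matrix (Fin n) (Fin n) F) - 1).rank := by
  have sq : ∀ c : Matrix.SpecialLinearGroup (Fin n) F, orderOf c = 2 → c * c = 1 := by
    intro c hc
    rw [← pow_two, ← hc, pow_orderOf_eq_one]
  constructor
  · exact Cfsg.Agent.Lib.SqZero.rank_conj_SL
  · intro h
    apply Cfsg.Agent.Lib.SqZero.conj_SL (Cfsg.Agent.Lib.SqZero.sq_of_involution (sq a ha))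
      (Cfsg.Agent.Lib.SqZero.sq_of_involution (sq b hb)) h
    right
    refine ⟨?_, Cfsg.Agent.Lib.SqZero.exists_sqrt⟩
    by_contra hr
    have h0 : ((b : Matrix (Fin n) (Fin n) F) - 1).rank = 0 := by omega
    have hb1 : b = 1 := Subtype.ext (sub_eq_zero.mp (Cfsg.Agent.Lib.SqZero.eq_zero_of_rank h0))
    rw [hb1, orderOf_one] at hb
    omega


end Cfsg.Agent.S2162
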