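import Cfsg.Statements.S2163
import Mathlib
import Cfsg.Agent.Lib.SqZero2
-- import your own Cfsg.Agent.* helpers here

set_option autoImplicit false
open Cfsg
set_option linter.all false

namespace Cfsg.Agent.S2163

/-- Over a finite field of characteristic two and for n ≥ 3: for every ℓ with 1 ≤ ℓ and 2ℓ ≤ n, the matrix j_ℓ that is the identity plus the entries 1 in positions (n − ℓ + i, i) for i < ℓ (an identity block of size ℓ in the lower left corner) lies in SL_n(F), has order 2, and j_ℓ − 1 has rank ℓ. Together with the conjugacy criterion by rank, these matrices represent the conjugacy classes of involutions of SL_n(F). -/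
theorem result {F : Type*} [Field F] [Fintype F] [CharP F 2] {n : ℕ} (hn : 3 ≤ n) (ℓ : ℕ) (h1 : 1 ≤ ℓ) (h2 : 2 * ℓ ≤ n) :
    ∃ a : Matrix.SpecialLinearGroup (Fin n) F, (a : Matrix (Fin n) (Fin n) F) = 1 + Matrix.of (fun i j : Fin n => if j.val < ℓ ∧ i.val = j.val + (n - ℓ) then (1 : F) else 0) ∧ orderOf a = 2 ∧ ((a : Matrix (Fin n) (Fin n) F) - 1).rank = ℓ := by
  set E : Matrix (Fin n) (Fin n) F := Matrix.of (fun i j : Fin n => if j.val < ℓ ∧ i.val = j.val + (n - ℓ) then (1 : F) else 0) with hE
  have hEU : E = Cfsg.Agent.Lib.SqZero.A2 F n ℓ * (Cfsg.Agent.Lib.SqZero.A1 F n ℓ).transpose := by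
    ext i j
    rw [Matrix.mul_apply, hE, Matrix.of_apply]
    by_cases hj : j.val < ℓ
    · rw [Finset.sum_eq_single (⟨j.val, hj⟩ : Fin ℓ)]
      · simp only [Matrix.transpose_apply, Cfsg.Agent.Lib.SqZero.A1, Cfsg.Agent.Lib.SqZero.A2,
          Matrix.of_apply, if_true, mul_one, hj, true_and]
      · intro k _ hk
        have : ¬ j.val = k.val := fun h => hk (Fin.ext h.symm)
        simp only [Matrix.transpose_apply, Cfsg.Agent.Lib.SqZero.A1, Matrix.of_apply, if_neg this, mul_zero]
      · intro h; exact absurd (Finset.mem_univ _) h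
    · rw [if_neg (fun h => hj h.1)]
      symm
      apply Finset.sum_eq_zero
      intro k _
      have : ¬ j.val = k.val := fun h => hj (by rw [h]; exact k.2)
      simp only [Matrix.transpose_apply, Cfsg.Agent.Lib.SqZero.A1, Matrix.of_apply, if_neg this, mul_zero]
  have hsq : E * E = 0 := by
    rw [hEU]
    have h5 := Cfsg.Agent.Lib.SqZero.A12 (F := F) (n := n) (l := ℓ) h2
    rw [Matrix.mul_assoc, ← Matrix.mul_assoc (Cfsg.Agent.Lib.SqZero.A1 F n ℓ).transpose, h5,
      Matrix.zero_mul, Matrix.mul_zero]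
  have hrank : E.rank = ℓ := by
    rw [hEU]
    exact Cfsg.Agent.Lib.SqZero.rank_mul_eq (Cfsg.Agent.Lib.SqZero.A22 (F := F) (by omega))
      (Cfsg.Agent.Lib.SqZero.A11 (F := F) (by omega))
  have hdet : (1 + E).det = 1 := by
    rw [hEU, Matrix.det_one_add_mul_comm, Cfsg.Agent.Lib.SqZero.A12 (F := F) (n := n) (l := ℓ) h2,
      add_zero, Matrix.det_one]
  let a : Matrix.SpecialLinearGroup (Fin n) F := ⟨1 + E, hdet⟩
  refine ⟨a, rfl, ?_, ?_⟩
  · haveI : Fact (Nat.Prime 2) := ⟨Nat.prime_two⟩
    apply orderOf_eq_prime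
    · rw [pow_two]
      apply Subtype.ext
      show (1 + E) * (1 + E) = 1
      have h6 : E + E = 0 := by
        ext i j; exact CharTwo.add_self_eq_zero _
      calc (1 + E) * (1 + E) = 1 + (E + E) + E * E := by noncomm_ring
        _ = 1 := by rw [h6, hsq, add_zero, add_zero]
    · intro h
      have h7 : 1 + E = 1 := congrArg Subtype.val h
      have h8 : E = 0 := by
        rw [← add_zero (1 : Matrix (Fin n) (Fin n) F), add_assoc, zero_add] at h7
        exact add_left_cancel h7
      rw [h8, Matrix.rank_zero] at hrank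
      omega
  · show (1 + E - 1).rank = ℓ
    rw [add_sub_cancel_left, hrank]


end Cfsg.Agent.S2163
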