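import Cfsg.Statements.S2165
import Mathlib
import Cfsg.Agent.Lib.SqZero2
-- import your own Cfsg.Agent.* helpers here

set_option autoImplicit false
open Cfsg
set_option linter.all false

namespace Cfsg.Agent.S2165

/-- In SU_n(q), q even, n ≥ 3 (matrices of determinant 1 over the field with q² elements preserving Σ u_i v_i^q): for every ℓ with 1 ≤ ℓ and 2ℓ ≤ n, the permutation matrix of the involution of {0, …, n−1} exchanging i and n − ℓ + i for each i < ℓ lies in SU_n(q), has order 2, and differs from the identity by a matrix of rank ℓ. So every rank between 1 and n/2 occurs for involutions of SU_n(q). -/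
theorem result {F : Type*} [Field F] [Fintype F] [CharP F 2] {n q : ℕ} (hF : Fintype.card F = q ^ 2) (hn : 3 ≤ n) (ℓ : ℕ) (h1 : 1 ≤ ℓ) (h2 : 2 * ℓ ≤ n) :
    ∃ a : ↥(Cfsg.SU n F q), (((a : Matrix.SpecialLinearGroup (Fin n) F) : Matrix (Fin n) (Fin n) F) = Matrix.of (fun i j : Fin n => if (j.val < ℓ ∧ i.val = j.val + (n - ℓ)) ∨ (i.val < ℓ ∧ j.val = i.val + (n - ℓ)) ∨ (i = j ∧ ℓ ≤ i.val ∧ i.val < n - ℓ) then (1 : F) else 0)) ∧ orderOf a = 2 ∧ ((((a : Matrix.SpecialLinearGroup (Fin n) F) : Matrix (Fin n) (Fin n) F)) - 1).rank = ℓ := by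
  obtain ⟨σ, hσ, hq⟩ := Cfsg.Agent.Lib.Herm.exists_sigma hF
  obtain ⟨hs1, hs2, hs3⟩ := Cfsg.Agent.Lib.Herm.sigma_facts hσ
  set A1 := Cfsg.Agent.Lib.SqZero.A1 F n ℓ with hA1
  set A2 := Cfsg.Agent.Lib.SqZero.A2 F n ℓ with hA2
  set U := A1 + A2 with hU
  have h11 : A1.transpose * A1 = 1 := Cfsg.Agent.Lib.SqZero.A11 (by omega)
  have h22 : A2.transpose * A2 = 1 := Cfsg.Agent.Lib.SqZero.A22 (by omega)
  have h12 : A1.transpose * A2 = 0 := Cfsg.Agent.Lib.SqZero.A12 h2
  have h21 : A2.transpose * A1 = 0 := Cfsg.Agent.Lib.SqZero.A21 h2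
  have hUU : U.transpose * U = 0 := by
    rw [hU, Matrix.transpose_add, Matrix.add_mul, Matrix.mul_add, Matrix.mul_add, h11, h12, h21, h22,
      add_zero, zero_add]
    ext i j
    exact CharTwo.add_self_eq_zero _
  have hLU : A1.transpose * U = 1 := by rw [hU, Matrix.mul_add, h11, h12, add_zero]
  have hUR : U.transpose * A1 = 1 := by rw [hU, Matrix.transpose_add, Matrix.add_mul, h11, h21, add_zero]
  set E := U * U.transpose with hE
  have hsq : E * E = 0 := by
    rw [hE, Matrix.mul_assoc, ← Matrix.mul_assoc U.transpose, hUU, Matrix.zero_mul, Matrix.mul_zero]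
  have hrank : E.rank = ℓ := Cfsg.Agent.Lib.SqZero.rank_mul_eq hLU hUR
  have hdet : (1 + E).det = 1 := by
    rw [hE, Matrix.det_one_add_mul_comm, hUU, add_zero, Matrix.det_one]
  have hEE : E + E = 0 := by
    ext i j; exact CharTwo.add_self_eq_zero _
  have hone : (1 + E) * (1 + E) = 1 := by
    calc (1 + E) * (1 + E) = 1 + (E + E) + E * E := by noncomm_ring
      _ = 1 := by rw [hEE, hsq, add_zero, add_zero]
  have hent : ∀ i k, U i k = (if i.val = k.val then 1 else 0) + (if i.val = k.val + (n - ℓ) then 1 else 0) :=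
    fun i k => rfl
  have hEent : ∀ i j, E i j = if (j.val < ℓ ∧ i.val = j.val + (n - ℓ)) ∨ (i.val < ℓ ∧ j.val = i.val + (n - ℓ)) ∨
      (i = j ∧ (i.val < ℓ ∨ n - ℓ ≤ i.val)) then 1 else 0 := by
    intro i j
    rw [hE, Matrix.mul_apply]
    simp only [Matrix.transpose_apply, hent]
    have hi := i.2
    have hj := j.2
    by_cases hi1 : i.val < ℓ
    · rw [Finset.sum_eq_single (⟨i.val, hi1⟩ : Fin ℓ)]
      · rw [if_pos rfl, if_neg (by show ¬ i.val = i.val + (n - ℓ); omega)]
        by_cases hij : j.val = i.val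
        · rw [if_pos hij, if_neg (by show ¬ j.val = i.val + (n - ℓ); omega),
            if_pos (Or.inr (Or.inr ⟨Fin.ext hij.symm, Or.inl hi1⟩))]
          ring
        · by_cases hij2 : j.val = i.val + (n - ℓ)
          · rw [if_neg hij, if_pos hij2, if_pos (Or.inr (Or.inl ⟨hi1, hij2⟩))]; ring
          · rw [if_neg hij, if_neg hij2, if_neg]
            · ring
            · rintro (⟨_, h⟩ | ⟨_, h⟩ | ⟨h, _⟩)
              · omega
              · exact hij2 h
              · exact hij (congrArg Fin.val h).symm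
      · intro k _ hk
        have h5 : ¬ i.val = k.val := fun h => hk (Fin.ext h.symm)
        have h6 : ¬ i.val = k.val + (n - ℓ) := by omega
        rw [if_neg h5, if_neg h6]; ring
      · intro h; exact absurd (Finset.mem_univ _) h
    · by_cases hi2 : n - ℓ ≤ i.val
      · rw [Finset.sum_eq_single (⟨i.val - (n - ℓ), by omega⟩ : Fin ℓ)]
        · rw [if_neg (by show ¬ i.val = i.val - (n - ℓ); omega),
            if_pos (by show i.val = i.val - (n - ℓ) + (n - ℓ); omega)]
          by_cases hij : j = i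
          · subst hij
            rw [if_neg (by show ¬ j.val = j.val - (n - ℓ); omega),
              if_pos (by show j.val = j.val - (n - ℓ) + (n - ℓ); omega),
              if_pos (Or.inr (Or.inr ⟨rfl, Or.inr hi2⟩))]
            ring
          · have hij' : ¬ j.val = i.val := fun h => hij (Fin.ext h)
            by_cases hij2 : j.val = i.val - (n - ℓ)
            · rw [if_pos hij2, if_neg (by show ¬ j.val = i.val - (n - ℓ) + (n - ℓ); omega),
                if_pos (Or.inl ⟨by omega, by omega⟩)]
              ring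
            · rw [if_neg hij2, if_neg (by show ¬ j.val = i.val - (n - ℓ) + (n - ℓ); omega), if_neg]
              · ring
              · rintro (⟨_, h⟩ | ⟨h, _⟩ | ⟨h, _⟩)
                · omega
                · omega
                · exact hij h.symm
        · intro k _ hk
          have h5 : ¬ i.val = k.val := by omega
          have h6 : ¬ i.val = k.val + (n - ℓ) := fun h => hk (Fin.ext (by show k.val = i.val - (n - ℓ); omega))
          rw [if_neg h5, if_neg h6]; ring
        · intro h; exact absurd (Finset.mem_univ _) h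
      · rw [if_neg]
        · apply Finset.sum_eq_zero
          intro k _
          have hk := k.2
          rw [if_neg (by omega), if_neg (by omega)]; ring
        · rintro (⟨_, h⟩ | ⟨h, _⟩ | ⟨h, h'⟩) <;> omega
  have hmat : (1 + E) = Matrix.of (fun i j : Fin n => if (j.val < ℓ ∧ i.val = j.val + (n - ℓ)) ∨ (i.val < ℓ ∧ j.val = i.val + (n - ℓ)) ∨ (i = j ∧ ℓ ≤ i.val ∧ i.val < n - ℓ) then (1 : F) else 0) := by
    ext i j
    rw [Matrix.add_apply, hEent, Matrix.of_apply]
    have hi := i.2
    have hj := j.2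
    by_cases hij : i = j
    · subst hij
      rw [Matrix.one_apply_eq]
      by_cases h5 : i.val < ℓ ∨ n - ℓ ≤ i.val
      · rw [if_pos (Or.inr (Or.inr ⟨rfl, h5⟩)), if_neg, CharTwo.add_self_eq_zero]
        rintro (⟨_, h⟩ | ⟨_, h⟩ | ⟨_, h, h'⟩) <;> omega
      · rw [if_neg, if_pos (Or.inr (Or.inr ⟨rfl, by omega, by omega⟩)), add_zero]
        rintro (⟨_, h⟩ | ⟨_, h⟩ | ⟨_, h⟩)
        · omega
        · omega
        · exact h5 h
    · rw [Matrix.one_apply_ne hij, zero_add]
      congr 1
      exact propext ⟨fun h => h.elim Or.inl fun h => h.elim (fun h => Or.inr (Or.inl h))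
        fun h => absurd h.1 hij, fun h => h.elim Or.inl fun h => h.elim (fun h => Or.inr (Or.inl h))
        fun h => absurd h.1 hij⟩
  have hsym : (1 + E).transpose = 1 + E := by
    rw [Matrix.transpose_add, Matrix.transpose_one, hE, Matrix.transpose_mul, Matrix.transpose_transpose]
  have hmap : (1 + E).map σ = 1 + E := by
    rw [hmat]
    ext i j
    rw [Matrix.map_apply, Matrix.of_apply]
    split_ifs
    · exact map_one σ
    · exact map_zero σ
  let a : Matrix.SpecialLinearGroup (Fin n) F := ⟨1 + E, hdet⟩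
  have ha : a ∈ Cfsg.SU n F q := by
    rw [Cfsg.Agent.Lib.Herm.su_iff hs1 hq]
    show (1 + E).transpose * (1 + E).map σ = 1
    rw [hsym, hmap, hone]
  refine ⟨⟨a, ha⟩, hmat, ?_, ?_⟩
  · haveI : Fact (Nat.Prime 2) := ⟨Nat.prime_two⟩
    apply orderOf_eq_prime
    · rw [pow_two]
      apply Subtype.ext
      apply Subtype.ext
      exact hone
    · intro h
      have h7 : 1 + E = 1 := congrArg (fun x : Cfsg.SU n F q => ((x : Matrix.SpecialLinearGroup (Fin n) F) : Matrix (Fin n) (Fin n) F)) h
      have h8 : E = 0 := by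
        rw [← add_zero (1 : Matrix (Fin n) (Fin n) F), add_assoc, zero_add] at h7
        exact add_left_cancel h7
      rw [h8, Matrix.rank_zero] at hrank
      omega
  · show (1 + E - 1).rank = ℓ
    rw [add_sub_cancel_left, hrank]


end Cfsg.Agent.S2165
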