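import Cfsg.Statements.S2169
import Mathlib
import Cfsg.Agent.Lib.Orth22
import Cfsg.Agent.Lib.Orth12
-- import your own Cfsg.Agent.* helpers here

set_option autoImplicit false
open Cfsg
set_option linter.all false

namespace Cfsg.Agent.S2169

/-- For the hyperbolic quadratic form Σ x_i y_i in dimension 2m over a finite field F of characteristic two, m ≥ 4 (plus type): an element of order 2 of the full isometry group O lies in the commutator subgroup Ω of O exactly when t − 1 has even rank. -/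
theorem result {F : Type*} [Field F] [Fintype F] [CharP F 2] {m : ℕ} (hm : 4 ≤ m) (t : ↥(Cfsg.isometryGroup F (Cfsg.quadFormPlus m F))) (ht : orderOf t = 2) :
    t ∈ Cfsg.Omega F (Cfsg.quadFormPlus m F) ↔ Even ((((t : ↥(Cfsg.isometryGroup F (Cfsg.quadFormPlus m F))) : GL (Fin m ⊕ Fin m) F) : Matrix (Fin m ⊕ Fin m) (Fin m ⊕ Fin m) F) - 1).rank := by
  open Cfsg.Agent.Lib.Orth Module QuadraticMap in
  clear ht
  revert t
  rw [← coe_qPlus]
  intro t
  have hn : finrank F (Fin m ⊕ Fin m → F) = 2 * m := by rw [finrank_pi', Fintype.card_sum, Fintype.card_fin]; omega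
  have hQ : ND (qPlus m F) := nd_plus
  have hR : R (qPlus m F) = O (qPlus m F) := R_eq_O hQ (Or.inr (by rw [hn]; omega))
  have h2 : (2 : F) = 0 := CharTwo.two_eq_zero
  rw [mem_Omega_iff, ← ker_dhom hQ h2 hR, MonoidHom.mem_ker]
  have h1 : dhom hQ hR (isoO _ t) = (-1) ^ (finrank F (fx (isoO _ t).1) + 2 * m) := by
    show dsign (isoO _ t).1 = _
    rw [dsign, hn]
  rw [h1, neg_one_pow_eq_one_iff']
  have hr := LinearMap.finrank_range_add_finrank_ker (Matrix.toLin' (((t : Matrix.GeneralLinearGroup (Fin m ⊕ Fin m) F) : Matrix (Fin m ⊕ Fin m) (Fin m ⊕ Fin m) F) - 1))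
  have hk : LinearMap.ker (Matrix.toLin' (((t : Matrix.GeneralLinearGroup (Fin m ⊕ Fin m) F) : Matrix (Fin m ⊕ Fin m) (Fin m ⊕ Fin m) F) - 1)) = fx (isoO _ t).1 := by
    ext x
    rw [LinearMap.mem_ker, mem_fx, isoO_apply, Matrix.toLin'_apply, Matrix.sub_mulVec, Matrix.one_mulVec, sub_eq_zero]
  rw [hk, hn] at hr
  rw [Matrix.rank, ← Matrix.toLin'_apply']
  rw [Nat.even_iff, Nat.even_iff]
  omega


end Cfsg.Agent.S2169
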