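import Cfsg.Statements.S2171
import Mathlib
import Cfsg.Agent.Lib.Orth22
import Cfsg.Agent.Lib.Orth12
-- import your own Cfsg.Agent.* helpers here

set_option autoImplicit false
open Cfsg
set_option linter.all false

namespace Cfsg.Agent.S2171

/-- For the quadratic form Σ x_i y_i + (z₁² + c z₁ z₂ + d z₂²) in dimension 2m with anisotropic binary part over a finite field F of characteristic two, m ≥ 4 (minus type): an element of order 2 of the full isometry group O lies in the commutator subgroup Ω of O exactly when t − 1 has even rank. -/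
theorem result {F : Type*} [Field F] [Fintype F] [CharP F 2] {m : ℕ} (hm : 4 ≤ m) (c d : F) (hcd : ∀ z₁ z₂ : F, z₁ ^ 2 + c * z₁ * z₂ + d * z₂ ^ 2 = 0 → z₁ = 0 ∧ z₂ = 0) (t : ↥(Cfsg.isometryGroup F (Cfsg.quadFormMinus (m - 1) F c d))) (ht : orderOf t = 2) :
    t ∈ Cfsg.Omega F (Cfsg.quadFormMinus (m - 1) F c d) ↔ Even ((((t : ↥(Cfsg.isometryGroup F (Cfsg.quadFormMinus (m - 1) F c d))) : GL ((Fin (m - 1) ⊕ Fin (m - 1)) ⊕ Fin 2) F) : Matrix ((Fin (m - 1) ⊕ Fin (m - 1)) ⊕ Fin 2) ((Fin (m - 1) ⊕ Fin (m - 1)) ⊕ Fin 2) F) - 1).rank := by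
  open Cfsg.Agent.Lib.Orth Module QuadraticMap in
  clear ht
  revert t
  rw [← coe_qMinus]
  intro t
  have hn : finrank F ((Fin (m-1) ⊕ Fin (m-1)) ⊕ Fin 2 → F) = 2 * m := by rw [finrank_pi', Fintype.card_sum, Fintype.card_sum, Fintype.card_fin, Fintype.card_fin]; omega
  have hQ : ND (qMinus (m-1) F c d) := nd_minus hcd
  have hR : R (qMinus (m-1) F c d) = O (qMinus (m-1) F c d) := R_eq_O hQ (Or.inr (by rw [hn]; omega))
  have h2 : (2 : F) = 0 := CharTwo.two_eq_zero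
  rw [mem_Omega_iff, ← ker_dhom hQ h2 hR, MonoidHom.mem_ker]
  have h1 : dhom hQ hR (isoO _ t) = (-1) ^ (finrank F (fx (isoO _ t).1) + 2 * m) := by
    show dsign (isoO _ t).1 = _
    rw [dsign, hn]
  rw [h1, neg_one_pow_eq_one_iff']
  have hr := LinearMap.finrank_range_add_finrank_ker (Matrix.toLin' (((t : Matrix.GeneralLinearGroup ((Fin (m-1) ⊕ Fin (m-1)) ⊕ Fin 2) F) : Matrix ((Fin (m-1) ⊕ Fin (m-1)) ⊕ Fin 2) ((Fin (m-1) ⊕ Fin (m-1)) ⊕ Fin 2) F) - 1))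
  have hk : LinearMap.ker (Matrix.toLin' (((t : Matrix.GeneralLinearGroup ((Fin (m-1) ⊕ Fin (m-1)) ⊕ Fin 2) F) : Matrix ((Fin (m-1) ⊕ Fin (m-1)) ⊕ Fin 2) ((Fin (m-1) ⊕ Fin (m-1)) ⊕ Fin 2) F) - 1)) = fx (isoO _ t).1 := by
    ext x
    rw [LinearMap.mem_ker, mem_fx, isoO_apply, Matrix.toLin'_apply, Matrix.sub_mulVec, Matrix.one_mulVec, sub_eq_zero]
  rw [hk, hn] at hr
  rw [Matrix.rank, ← Matrix.toLin'_apply']
  rw [Nat.even_iff, Nat.even_iff]
  omega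


end Cfsg.Agent.S2171
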