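import Cfsg.Statements.S2178
import Cfsg.Agent.Lib.ChevDom
-- import your own Cfsg.Agent.* helpers here

set_option autoImplicit false
open Cfsg

namespace Cfsg.Agent.S2178

/-- Centralizers of the long and the short root involutions in the Chevalley group G of type F₄ over a finite field F of characteristic two (this problem's root numbering for type F₄, from the Chevalley data module: fundamental roots p₁, p₂ short, p₃, p₄ long, with indices 33, 27, 25, 24, their negatives 14, 20, 22, 23; highest root 47, highest short root 44; U the subgroup generated by the positive root subgroups). For an element t of G with matrix x_47(1): the centralizer of t in G is the subgroup generated by U and the root subgroups X_{−p₁}, X_{−p₂}, X_{−p₃} (the unipotent radical of the maximal parabolic subgroup whose Levi factor has fundamental roots p₁, p₂, p₃, together with that Levi factor's root subgroups; the Levi factor is of type C₃). For an element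 u of G with matrix x_44(1): the centralizer of u in G is generated by U and X_{−p₂}, X_{−p₃}, X_{−p₄} (the same construction for the Levi factor with fundamental roots p₂, p₃, p₄, of type B₃). -/
theorem result {F : Type*} [Field F] [Fintype F] [CharP F 2] (t u : GL Cfsg.Lie.chevF4.Idx F) (ht : (t : Matrix Cfsg.Lie.chevF4.Idx Cfsg.Lie.chevF4.Idx F) = Cfsg.Lie.chevF4.x F 47 1) (hu : (u : Matrix Cfsg.Lie.chevF4.Idx Cfsg.Lie.chevF4.Idx F) = Cfsg.Lie.chevF4.x F 44 1) :
    Cfsg.Lie.chevF4.group F ⊓ Subgroup.centralizer {t} = Cfsg.Lie.chevF4.posUnipotent F ⊔ Cfsg.Lie.chevF4.rootSubgroup F 14 ⊔ Cfsg.Lie.chevF4.rootSubgroup F 20 ⊔ Cfsg.Lie.chevF4.rootSubgroup F 22 ∧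
    Cfsg.Lie.chevF4.group F ⊓ Subgroup.centralizer {u} = Cfsg.Lie.chevF4.posUnipotent F ⊔ Cfsg.Lie.chevF4.rootSubgroup F 20 ⊔ Cfsg.Lie.chevF4.rootSubgroup F 22 ⊔ Cfsg.Lie.chevF4.rootSubgroup F 23 := by
  obtain ⟨Q, hS⟩ := Cfsg.Agent.Lib.ChevAlg.exists_chevS Cfsg.Lie.chevF4 (by simp) F
  have hn : Cfsg.Lie.chevF4.nroots = 48 := rfl
  constructor
  · have H := Cfsg.Agent.Lib.ChevTab.domF4l
    have h1 := Cfsg.Agent.Lib.ChevAlg.cent_dominant hS H (Cfsg.Agent.Lib.ChevAlg.commute_highest Q H)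
    have h2 : t = Cfsg.Agent.Lib.ChevAlg.xG Q (Cfsg.Lie.chevF4.nroots - 1) 1 := Cfsg.Agent.Lib.ChevAlg.eq_xG Q ht
    have e : (Cfsg.Agent.Lib.ChevAlg.Pos Cfsg.Lie.chevF4 ∪ {r | r ∈ [14, 20, 22]}) =
        Cfsg.Agent.Lib.ChevAlg.Pos Cfsg.Lie.chevF4 ∪ {14} ∪ {20} ∪ {22} := by
      ext r
      simp only [Set.mem_union, Set.mem_ofPred_eq, List.mem_cons, List.not_mem_nil, or_false, Set.mem_singleton_iff]
      tauto
    rw [h2, h1, e, Cfsg.Agent.Lib.ChevAlg.XS_sup, Cfsg.Agent.Lib.ChevAlg.XS_sup, Cfsg.Agent.Lib.ChevAlg.XS_sup,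
      Cfsg.Agent.Lib.ChevAlg.posUnipotent_eq Q, Cfsg.Agent.Lib.ChevAlg.rootSubgroup_eq Q,
      Cfsg.Agent.Lib.ChevAlg.rootSubgroup_eq Q, Cfsg.Agent.Lib.ChevAlg.rootSubgroup_eq Q]
  · have H := Cfsg.Agent.Lib.ChevTab.domF4s
    have hc : ∀ r, r ∈ Cfsg.Agent.Lib.ChevAlg.Pos Cfsg.Lie.chevF4 ∨ r ∈ [20, 22, 23] → ∀ t : F,
        Cfsg.Agent.Lib.ChevAlg.xG Q r t * Cfsg.Agent.Lib.ChevAlg.xG Q 44 1 =
          Cfsg.Agent.Lib.ChevAlg.xG Q 44 1 * Cfsg.Agent.Lib.ChevAlg.xG Q r t := by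
      intro r hr t
      have hlt : r < 48 := by
        rcases hr with hr | hr
        · exact hr.2
        · simp only [List.mem_cons, List.not_mem_nil, or_false] at hr; omega
      have h24 : 24 ≤ r ∨ r ∈ [20, 22, 23] := by
        rcases hr with hr | hr
        · exact Or.inl hr.1
        · exact Or.inr hr
      refine Cfsg.Agent.Lib.ChevAlg.commute_of_even Q (by rw [hn]; exact hlt) (by rw [hn]; norm_num) ?_
        (Cfsg.Agent.Lib.ChevTab.evenF4 r hlt h24) t 1
      rw [hn]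
      rcases h24 with h | h
      · omega
      · simp only [List.mem_cons, List.not_mem_nil, or_false] at h; omega
    have h1 := Cfsg.Agent.Lib.ChevAlg.cent_dominant hS H hc
    have h2 : u = Cfsg.Agent.Lib.ChevAlg.xG Q 44 1 := Cfsg.Agent.Lib.ChevAlg.eq_xG Q hu
    have e : (Cfsg.Agent.Lib.ChevAlg.Pos Cfsg.Lie.chevF4 ∪ {r | r ∈ [20, 22, 23]}) =
        Cfsg.Agent.Lib.ChevAlg.Pos Cfsg.Lie.chevF4 ∪ {20} ∪ {22} ∪ {23} := by
      ext r
      simp only [Set.mem_union, Set.mem_ofPred_eq, List.mem_cons, List.not_mem_nil, or_false, Set.mem_singleton_iff]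
      tauto
    rw [h2, h1, e, Cfsg.Agent.Lib.ChevAlg.XS_sup, Cfsg.Agent.Lib.ChevAlg.XS_sup, Cfsg.Agent.Lib.ChevAlg.XS_sup,
      Cfsg.Agent.Lib.ChevAlg.posUnipotent_eq Q, Cfsg.Agent.Lib.ChevAlg.rootSubgroup_eq Q,
      Cfsg.Agent.Lib.ChevAlg.rootSubgroup_eq Q, Cfsg.Agent.Lib.ChevAlg.rootSubgroup_eq Q]

end Cfsg.Agent.S2178
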