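import Cfsg.Statements.S2214
import Cfsg.Agent.Lib.ChevSub
-- import your own Cfsg.Agent.* helpers here

set_option autoImplicit false
open Cfsg

namespace Cfsg.Agent.S2214

/-- Let k be an algebraically closed field of prime characteristic p, G the adjoint Chevalley group of type G₂, B₂, D₄, F₄, E₆, E₇ or E₈ over k (the matrix group generated by the root elements x_s(t), t ∈ k, acting on the Lie algebra), q = p^a with a ≥ 1, and K a subgroup of G containing every root element x_s(t) with t^q = t and consisting of matrices all of whose entries c satisfy c^q = c. Then the centralizer of K in G is trivial, and the normalizer of K in G is exactly the set of elements of G all of whose entries c satisfy c^q = c. -/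
theorem result {k : Type*} [Field k] [IsAlgClosed k] (p : ℕ) [Fact p.Prime] [CharP k p] (D : Cfsg.Lie.ChevalleyDatum) (hD : D ∈ [Cfsg.Lie.chevG2, Cfsg.Lie.chevB2, Cfsg.Lie.chevD4, Cfsg.Lie.chevF4, Cfsg.Lie.chevE6, Cfsg.Lie.chevE7, Cfsg.Lie.chevE8]) (a : ℕ) (ha : 1 ≤ a) (K : Subgroup (GL D.Idx k)) (hKG : K ≤ D.group k)
    (hLK : Subgroup.closure {g : GL D.Idx k | ∃ (s : ℕ) (t : k), t ^ (p ^ a) = t ∧ (g : Matrix D.Idx D.Idx k) = D.x k s t} ≤ K)
    (hKfix : ∀ g ∈ K, ∀ i j : D.Idx, ((g : Matrix D.Idx D.Idx k) i j) ^ (p ^ a) = (g : Matrix D.Idx D.Idx k) i j) :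
    D.group k ⊓ Subgroup.centralizer (K : Set (GL D.Idx k)) = ⊥ ∧
    ∀ g : GL D.Idx k, g ∈ D.group k → (g ∈ Subgroup.normalizer (K : Set (GL D.Idx k)) ↔ ∀ i j : D.Idx, ((g : Matrix D.Idx D.Idx k) i j) ^ (p ^ a) = (g : Matrix D.Idx D.Idx k) i j) := by
  obtain ⟨Q, hS⟩ := Lib.ChevAlg.exists_chevS D hD k
  set f : k →+* k := iterateFrobenius k p a with hf
  have hfx : ∀ t : k, f t = t ^ p ^ a := fun t => iterateFrobenius_def p a t
  have hbc : ∀ g : GL D.Idx k, Lib.ChevAlg.bc D f g = g ↔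
      ∀ i j : D.Idx, ((g : Matrix D.Idx D.Idx k) i j) ^ (p ^ a) = (g : Matrix D.Idx D.Idx k) i j := by
    intro g
    constructor
    · intro h i j
      have h1 := congrArg (fun x : GL D.Idx k => (x : Matrix D.Idx D.Idx k) i j) h
      have h2 : f ((g : Matrix D.Idx D.Idx k) i j) = (g : Matrix D.Idx D.Idx k) i j := h1
      rwa [hfx] at h2
    · intro h
      apply Units.ext
      ext i j
      show f ((g : Matrix D.Idx D.Idx k) i j) = (g : Matrix D.Idx D.Idx k) i j
      rw [hfx]
      exact h i j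
  have hL : Lib.ChevAlg.fixL Q f ≤ K := by
    refine le_trans ?_ hLK
    rw [Lib.ChevAlg.fixL]
    apply Subgroup.closure_mono
    rintro g ⟨s, t, ht, rfl⟩
    exact ⟨s, t, by rw [← hfx]; exact ht, rfl⟩
  constructor
  · rw [eq_bot_iff]
    intro c hc
    rw [Subgroup.mem_bot]
    apply Lib.ChevAlg.eq_one_of_comm Q hc.1
    intro r hr
    have h1 := Subgroup.mem_centralizer_iff.1 hc.2 _ (hL (Lib.ChevAlg.xG_mem_fixL (s := r) (map_one f)))
    rw [← h1, mul_inv_cancel_right]
  · intro g hg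
    rw [Lib.ChevAlg.normalizer_sub (Q := Q) hKG hL (fun g hg => (hbc g).2 (hKfix g hg)) hg, hbc]

end Cfsg.Agent.S2214
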