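import Cfsg.Statements.S2231
import Mathlib
import Cfsg.Agent.Lib.Involve
import Cfsg.Agent.Lib.SL2
import Cfsg.Agent.H8.SLData

set_option autoImplicit false
open Cfsg

namespace Cfsg.Agent.S2231

open Matrix in
theorem sec_comm {H G : Type*} [Group H] [Group G] (h : Cfsg.Involves H G) (hG : ∀ x y : G, x * y = y * x) (x y : H) :
    x * y = y * x := by
  obtain ⟨K, f, hf⟩ := Cfsg.Agent.Lib.Involve.involves_iff.1 h
  obtain ⟨a, rfl⟩ := hf x
  obtain ⟨b, rfl⟩ := hf y
  have hab : a * b = b * a := Subtype.ext (hG a b)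
  rw [← map_mul, ← map_mul, hab]

def mA (p : ℕ) : Matrix.SpecialLinearGroup (Fin 3) (ZMod p) := ⟨!![1, 1, 0; 0, 1, 0; 0, 0, 1], by simp [Matrix.det_fin_three]⟩
def mB (p : ℕ) : Matrix.SpecialLinearGroup (Fin 3) (ZMod p) := ⟨!![1, 0, 0; 0, 1, 1; 0, 0, 1], by simp [Matrix.det_fin_three]⟩

theorem mA_qd (p : ℕ) : mA p ∈ Cfsg.qd p := Subgroup.subset_closure ⟨by simp [mA], by simp [mA], by simp [mA]⟩
theorem mB_qd (p : ℕ) : mB p ∈ Cfsg.qd p := Subgroup.subset_closure ⟨by simp [mB], by simp [mB], by simp [mB]⟩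
theorem mAB {p : ℕ} [Fact p.Prime] : mA p * mB p ≠ mB p * mA p := by
  intro h
  have := congrArg (fun M : Matrix.SpecialLinearGroup (Fin 3) (ZMod p) => M.1 0 2) h
  simp only [Matrix.SpecialLinearGroup.coe_mul, Matrix.mul_apply, Fin.sum_univ_three] at this
  simp [mA, mB] at this

/-- Let p be an odd prime and K a finite field of characteristic p. Then Qd(p) (the natural semidirect product of an elementary abelian group of order p² by SL₂(p)) is not involved in the projective special linear group PSL₂(K). -/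
theorem result {p : ℕ} [Fact p.Prime] (hp : p ≠ 2) {K : Type*} [Field K] [Fintype K] [CharP K p] : ¬ Cfsg.Involves ↥(Cfsg.qd p) (Matrix.ProjectiveSpecialLinearGroup (Fin 2) K) := by
  intro h
  have hA : mA p ∈ Cfsg.Agent.H8.SLTri.U 2 (ZMod p) := by
    rw [Cfsg.Agent.H8.SLTri.mem_U]
    constructor
    · intro i j hij
      fin_cases i <;> fin_cases j <;> simp_all [mA]
    · intro i; fin_cases i <;> simp [mA]
  have hB : mB p ∈ Cfsg.Agent.H8.SLTri.U 2 (ZMod p) := by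
    rw [Cfsg.Agent.H8.SLTri.mem_U]
    constructor
    · intro i j hij
      fin_cases i <;> fin_cases j <;> simp_all [mB]
    · intro i; fin_cases i <;> simp [mB]
  set H : Subgroup (Cfsg.qd p) := (Cfsg.Agent.H8.SLTri.U 2 (ZMod p)).subgroupOf (Cfsg.qd p) with hH
  have hHp : IsPGroup p H := (Cfsg.Agent.H8.SLData.isP (m := 2) (F := ZMod p) (p := p)).comap_subtype
  have h1 : Cfsg.Involves H (Matrix.ProjectiveSpecialLinearGroup (Fin 2) K) :=
    Cfsg.Agent.Lib.Involve.involves_trans (Cfsg.Agent.Lib.Involve.involves_subgroup H) h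
  classical
  have hsurj : Function.Surjective (QuotientGroup.mk' (Subgroup.center (Matrix.SpecialLinearGroup (Fin 2) K))) :=
    QuotientGroup.mk'_surjective _
  set S0 : Sylow p (Matrix.ProjectiveSpecialLinearGroup (Fin 2) K) :=
    (Cfsg.Agent.Lib.SL2.sylU (F := K) p).mapSurjective hsurj with hS0
  have h2 := Cfsg.Agent.Lib.Involve.involves_sylow hHp h1 S0
  have h3 := sec_comm h2 (by
    rintro ⟨x, hx⟩ ⟨y, hy⟩
    rw [hS0, Sylow.coe_mapSurjective] at hx hy
    obtain ⟨x', hx', rfl⟩ := hx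
    obtain ⟨y', hy', rfl⟩ := hy
    obtain ⟨a, rfl⟩ := Cfsg.Agent.Lib.SL2.mem_U.1 hx'
    obtain ⟨b, rfl⟩ := Cfsg.Agent.Lib.SL2.mem_U.1 hy'
    apply Subtype.ext
    show QuotientGroup.mk' _ _ * QuotientGroup.mk' _ _ = QuotientGroup.mk' _ _ * QuotientGroup.mk' _ _
    rw [← map_mul, ← map_mul, ← Cfsg.Agent.Lib.SL2.t_add, ← Cfsg.Agent.Lib.SL2.t_add, add_comm])
    ⟨⟨mA p, mA_qd p⟩, hA⟩ ⟨⟨mB p, mB_qd p⟩, hB⟩
  exact mAB (congrArg (fun z : H => (z : Cfsg.qd p).1) h3)

end Cfsg.Agent.S2231
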