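import Cfsg.Statements.S2238
import Mathlib
import Cfsg.Agent.H8.SuzPart

set_option autoImplicit false
open Cfsg

namespace Cfsg.Agent.S2238

/-- The partition of the Suzuki group: with q = 2^(2m+1), m ≥ 1, r = 2^m and the Suzuki group realised as the stabiliser in SL₄ of the Suzuki–Tits ovoid, every non-identity element lies in exactly one subgroup that is either a Sylow 2-subgroup or a cyclic subgroup of order q − 1, q + 2r + 1 or q − 2r + 1. -/
theorem result {F : Type*} [Field F] [Fintype F] {m : ℕ} (hm : 1 ≤ m) (hF : Fintype.card F = 2 ^ (2 * m + 1)) (g : ↥(Cfsg.Sz F m)) (hg : g ≠ 1) :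
    ∃! U : Subgroup ↥(Cfsg.Sz F m), ((∃ P : Sylow 2 ↥(Cfsg.Sz F m), U = (P : Subgroup ↥(Cfsg.Sz F m))) ∨
      (IsCyclic ↥U ∧ Nat.card ↥U ∈ ({2 ^ (2 * m + 1) - 1, 2 ^ (2 * m + 1) + 2 ^ (m + 1) + 1, 2 ^ (2 * m + 1) - 2 ^ (m + 1) + 1} : Set ℕ))) ∧ g ∈ U := by
  obtain ⟨D⟩ := Cfsg.Agent.H8.Suz.exists_dat hm hF
  have htor : ∀ U : Subgroup (Cfsg.Sz F m), Nat.card ↥U ∈ ({2 ^ (2 * m + 1) - 1, 2 ^ (2 * m + 1) + 2 ^ (m + 1) + 1, 2 ^ (2 * m + 1) - 2 ^ (m + 1) + 1} : Set ℕ) ↔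
      Cfsg.Agent.H8.Suz.TorOrd m (Nat.card U) := fun U => Iff.rfl
  rcases D.elt_cases hg with h | ⟨h1, h2⟩
  · obtain ⟨k, hk⟩ := id h
    have : Fact (Nat.Prime 2) := ⟨Nat.prime_two⟩
    have hkP : g ∈ ((k • D.US : Sylow 2 (Cfsg.Sz F m)) : Subgroup (Cfsg.Sz F m)) := by
      refine ⟨k⁻¹ * g * k, hk, ?_⟩
      show k * (k⁻¹ * g * k) * k⁻¹ = g
      group
    refine ⟨((k • D.US : Sylow 2 (Cfsg.Sz F m)) : Subgroup (Cfsg.Sz F m)), ⟨Or.inl ⟨_, rfl⟩, hkP⟩, ?_⟩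
    rintro A ⟨⟨P, rfl⟩ | ⟨hc, ho⟩, hgA⟩
    · -- two Sylow subgroups containing `g`
      have key : ∀ (P Q : Sylow 2 (Cfsg.Sz F m)), g ∈ P → g ∈ Q → (P : Subgroup (Cfsg.Sz F m)) ≤ Q := by
        intro P Q hP hQ x hx
        obtain ⟨s, hs⟩ := D.sylow_conj P
        obtain ⟨t, ht⟩ := D.sylow_conj Q
        have hgs := (hs g).1 hP
        have hgt := (ht g).1 hQ
        -- fixed points
        have fx : ∀ r : Cfsg.Sz F m, r⁻¹ * g * r ∈ D.U → ∀ p, g • p = p → p = r • D.inf := by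
          rintro r ⟨a, b, hr⟩ p hp
          have hne : ¬ (a = 0 ∧ b = 0) := by
            rintro ⟨rfl, rfl⟩
            rw [D.tt_zero] at hr
            apply hg
            have : g = r * (r⁻¹ * g * r) * r⁻¹ := by group
            rw [this, hr]; group
          have h3 : D.tt a b • (r⁻¹ • p) = r⁻¹ • p := by
            rw [← hr, mul_smul, mul_smul, smul_inv_smul, hp]
          have := D.tt_fix hne h3
          rw [inv_smul_eq_iff] at this; exact this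
        have fx' : ∀ r : Cfsg.Sz F m, r⁻¹ * g * r ∈ D.U → g • (r • D.inf) = r • D.inf := by
          rintro r ⟨a, b, hr⟩
          have := congrArg (fun t => r • t) (show (r⁻¹ * g * r) • D.inf = D.inf by rw [hr, D.tt_inf])
          simpa [mul_smul] using this
        have e1 := fx s hgs _ (fx' t hgt)
        have hx1 := (hs x).1 hx
        -- t⁻¹ s fixes inf
        have hB : s⁻¹ * t ∈ D.B := by
          show (s⁻¹ * t) • D.inf = D.inf
          rw [mul_smul, e1, inv_smul_smul]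
        rw [← D.normalizer_U] at hB
        have h4 := (Subgroup.mem_normalizer_iff.1 (Subgroup.inv_mem _ hB) _).1 hx1
        apply (ht x).2
        have e : (s⁻¹ * t)⁻¹ * (s⁻¹ * x * s) * (s⁻¹ * t)⁻¹⁻¹ = t⁻¹ * x * t := by group
        rw [e] at h4
        exact h4
      exact le_antisymm (key _ _ hgA hkP) (key _ _ hkP hgA)
    · exfalso
      have h3 := D.orderOf_U hg h
      have h4 : orderOf g ∣ Nat.card A := by
        have : orderOf (⟨g, hgA⟩ : A) = orderOf g := by rw [← Subgroup.orderOf_coe]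
        rw [← this]; exact orderOf_dvd_natCard _
      exact D.torOrd_odd ((htor A).1 ho) (h3.trans h4)
  · have hmem : g ∈ Cfsg.Agent.H8.Suz.Cen g := Cfsg.Agent.H8.Suz.mem_cen.2 rfl
    refine ⟨Cfsg.Agent.H8.Suz.Cen g, ⟨Or.inr ⟨h1, (htor _).2 h2⟩, hmem⟩, ?_⟩
    rintro A ⟨⟨P, rfl⟩ | ⟨hc, ho⟩, hgA⟩
    · exfalso
      obtain ⟨s, hs⟩ := D.sylow_conj P
      have h3 := D.orderOf_U hg ⟨s, (hs g).1 hgA⟩
      have h4 : orderOf g ∣ Nat.card (Cfsg.Agent.H8.Suz.Cen g) := D.dvd_cen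
      exact D.torOrd_odd h2 (h3.trans h4)
    · exact D.eq_cen hg hc ((htor A).1 ho) hgA

end Cfsg.Agent.S2238
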