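import Cfsg.Statements.S2239
import Mathlib
import Cfsg.Agent.H8.SuzHom2

set_option autoImplicit false
open Cfsg

namespace Cfsg.Agent.S2239

open Cfsg.Agent.H8.Suz Cfsg.Agent.H8.Suz.Dat

theorem same_range {K F : Type*} [Field K] [Fintype K] [Field F] (η₁ η₂ : K →+* F) (a : K) : ∃ a', η₁ a' = η₂ a := by
  classical
  set s := Fintype.card K with hs
  have hs1 : 1 < s := Fintype.one_lt_card
  have hne : (Polynomial.X ^ s - Polynomial.X : Polynomial F) ≠ 0 := FiniteField.X_pow_card_sub_X_ne_zero F hs1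
  have hroot : ∀ (η : K →+* F) (b : K), η b ∈ (Polynomial.X ^ s - Polynomial.X : Polynomial F).roots.toFinset := by
    intro η b
    rw [Multiset.mem_toFinset, Polynomial.mem_roots hne, Polynomial.IsRoot.def, Polynomial.eval_sub, Polynomial.eval_pow,
      Polynomial.eval_X, ← map_pow, hs, FiniteField.pow_card, sub_self]
  have himg : Finset.univ.image η₁ = (Polynomial.X ^ s - Polynomial.X : Polynomial F).roots.toFinset := by
    apply Finset.eq_of_subset_of_card_le
    · intro x hx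
      obtain ⟨b, -, rfl⟩ := Finset.mem_image.1 hx
      exact hroot η₁ b
    · rw [Finset.card_image_of_injective _ η₁.injective, Finset.card_univ]
      refine (Multiset.toFinset_card_le _).trans ((Polynomial.card_roots' _).trans ?_)
      rw [FiniteField.X_pow_card_sub_X_natDegree_eq F hs1]
  have h := hroot η₂ a
  rw [← himg] at h
  obtain ⟨a', -, ha'⟩ := Finset.mem_image.1 h
  exact ⟨a', ha'⟩

variable {F : Type*} [Field F] [Fintype F] {m : ℕ} (D : Dat F m)
variable {K : Type*} [Field K] [Fintype K] {k : ℕ} (E : Dat K k)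

theorem range_le (η₁ η₂ : K →+* F) : (D.std E η₂).range ≤ (D.std E η₁).range := by
  have h1 : ((D.std E η₁).range).comap (D.std E η₂) = ⊤ := by
    apply E.generate
    · intro a b
      obtain ⟨a', ha'⟩ := same_range η₁ η₂ a
      obtain ⟨b', hb'⟩ := same_range η₁ η₂ b
      exact ⟨E.tt a' b', by rw [D.std_tt, D.std_tt, ha', hb']⟩
    · intro u
      obtain ⟨a', ha'⟩ := same_range η₁ η₂ (u : K)
      have ha0 : a' ≠ 0 := by
        rintro rfl
        rw [map_zero] at ha'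
        exact u.ne_zero ((map_eq_zero η₂).1 ha'.symm)
      refine ⟨E.hh (Units.mk0 a' ha0), ?_⟩
      rw [D.std_hh, D.std_hh]
      congr 1
      exact Units.ext ha'
    · exact ⟨E.ww, by rw [D.std_ww, D.std_ww]⟩
  rintro _ ⟨x, rfl⟩
  have : x ∈ ((D.std E η₁).range).comap (D.std E η₂) := by rw [h1]; trivial
  exact this

/-- Subfield subgroups of the Suzuki group: let q = 2^(2m+1) and s = 2^(2k+1) with m, k ≥ 1 and 2k+1 dividing 2m+1 (so q is a power of s), both groups realised as stabilisers in SL₄ of the Suzuki–Tits ovoid. Then Sz(q) has a subgroup isomorphic to Sz(s), and any two subgroups of Sz(q) isomorphic to Sz(s) are conjugate. -/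
theorem result {F : Type*} [Field F] [Fintype F] {m : ℕ} (hm : 1 ≤ m) (hF : Fintype.card F = 2 ^ (2 * m + 1)) {K : Type*} [Field K] [Fintype K] {k : ℕ} (hk : 1 ≤ k) (hK : Fintype.card K = 2 ^ (2 * k + 1)) (hdiv : 2 * k + 1 ∣ 2 * m + 1) :
    (∃ S : Subgroup ↥(Cfsg.Sz F m), Nonempty (↥S ≃* ↥(Cfsg.Sz K k))) ∧
    ∀ S₁ S₂ : Subgroup ↥(Cfsg.Sz F m), Nonempty (↥S₁ ≃* ↥(Cfsg.Sz K k)) → Nonempty (↥S₂ ≃* ↥(Cfsg.Sz K k)) →
      ∃ g : ↥(Cfsg.Sz F m), S₂ = S₁.map (MulAut.conj g).toMonoidHom := by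
  obtain ⟨D⟩ := exists_dat hm hF
  obtain ⟨E⟩ := exists_dat hk hK
  constructor
  · have hc1 := D.char
    have hc2 := E.char
    let _ : Algebra (ZMod 2) F := ZMod.algebra F 2
    let _ : Algebra (ZMod 2) K := ZMod.algebra K 2
    have : Fact (Nat.Prime 2) := ⟨Nat.prime_two⟩
    have f1 : Module.finrank (ZMod 2) F = 2 * m + 1 := by
      have h1 := FiniteField.pow_finrank_eq_card 2 F
      rw [hF] at h1
      exact Nat.pow_right_injective (le_refl 2) h1
    have f2 : Module.finrank (ZMod 2) K = 2 * k + 1 := by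
      have h1 := FiniteField.pow_finrank_eq_card 2 K
      rw [hK] at h1
      exact Nat.pow_right_injective (le_refl 2) h1
    obtain ⟨η⟩ := FiniteField.nonempty_algHom_of_finrank_dvd (F := ZMod 2) (K := K) (L := F) (by rw [f1, f2]; exact hdiv)
    refine ⟨(D.std E η.toRingHom).range, ⟨?_⟩⟩
    exact (MonoidHom.ofInjective (D.std_injective E η.toRingHom)).symm
  · rintro S₁ S₂ ⟨e₁⟩ ⟨e₂⟩
    have key : ∀ (S : Subgroup (Cfsg.Sz F m)) (e : ↥S ≃* ↥(Cfsg.Sz K k)), ∃ (g : Cfsg.Sz F m) (η : K →+* F),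
        S = ((D.std E η).range).map (MulAut.conj g).toMonoidHom := by
      intro S e
      obtain ⟨g, η, h⟩ := D.hom_eq E (S.subtype.comp e.symm.toMonoidHom) (S.subtype_injective.comp e.symm.injective)
      refine ⟨g, η, ?_⟩
      ext x
      constructor
      · intro hx
        refine ⟨D.std E η (e ⟨x, hx⟩), ⟨_, rfl⟩, ?_⟩
        have h1 := h (e ⟨x, hx⟩)
        show g * D.std E η (e ⟨x, hx⟩) * g⁻¹ = x
        rw [← h1]
        show ((e.symm (e ⟨x, hx⟩) : S) : Cfsg.Sz F m) = x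
        rw [e.symm_apply_apply]
      · rintro ⟨_, ⟨y, rfl⟩, rfl⟩
        show g * D.std E η y * g⁻¹ ∈ S
        rw [← h y]
        exact (e.symm y).2
    obtain ⟨g₁, η₁, h₁⟩ := key S₁ e₁
    obtain ⟨g₂, η₂, h₂⟩ := key S₂ e₂
    refine ⟨g₂ * g₁⁻¹, ?_⟩
    have hr : (D.std E η₁).range = (D.std E η₂).range := le_antisymm (range_le D E η₂ η₁) (range_le D E η₁ η₂)
    rw [h₁, h₂, hr, Subgroup.map_map]
    congr 1
    refine MonoidHom.ext fun x => ?_
    show g₂ * x * g₂⁻¹ = (g₂ * g₁⁻¹) * (g₁ * x * g₁⁻¹) * (g₂ * g₁⁻¹)⁻¹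
    group

end Cfsg.Agent.S2239
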