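import Cfsg.Statements.S2240
import Mathlib
import Cfsg.Agent.H8.SuzBorel

set_option autoImplicit false
open Cfsg

namespace Cfsg.Agent.S2240

open Cfsg.Agent.H8.Suz in
/-- The elementary abelian subgroup attached to an additive subgroup. -/
def EA {F : Type*} [Field F] [Fintype F] {m : ℕ} (D : Dat F m) (A : AddSubgroup F) : Subgroup ↥(Cfsg.Sz F m) where
  carrier := {g | ∃ b ∈ A, g = D.tt 0 b}
  one_mem' := ⟨0, A.zero_mem, D.tt_zero.symm⟩
  mul_mem' := by
    rintro _ _ ⟨a, ha, rfl⟩ ⟨b, hb, rfl⟩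
    exact ⟨a + b, A.add_mem ha hb, by rw [D.tt_mul]; simp⟩
  inv_mem' := by
    rintro _ ⟨a, ha, rfl⟩
    exact ⟨a, ha, by rw [D.tt_inv]; simp⟩

/-- Elementary abelian TI-subgroups of the Suzuki group: let q = 2^(2m+1) with m ≥ 1, the group realised as the stabiliser in SL₄ of the Suzuki–Tits ovoid, and n ≥ 2. There is an elementary abelian 2-subgroup E of order 2^n that is a TI-subgroup (every conjugate of E meeting E nontrivially is E itself) if and only if n divides 2m + 1. -/
theorem result {F : Type*} [Field F] [Fintype F] {m : ℕ} (hm : 1 ≤ m) (hF : Fintype.card F = 2 ^ (2 * m + 1)) (n : ℕ) (hn : 2 ≤ n) :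
    (∃ E : Subgroup ↥(Cfsg.Sz F m), Cfsg.IsElementaryAbelian 2 E ∧ Nat.card ↥E = 2 ^ n ∧
      ∀ x : ↥(Cfsg.Sz F m), E ⊓ E.map (MulAut.conj x).toMonoidHom ≠ ⊥ → x ∈ Subgroup.normalizer (E : Set ↥(Cfsg.Sz F m))) ↔ n ∣ 2 * m + 1 := by
  obtain ⟨D⟩ := Cfsg.Agent.H8.Suz.exists_dat hm hF
  have hchar := D.char
  have htwo : Fact (Nat.Prime 2) := ⟨Nat.prime_two⟩
  constructor
  · rintro ⟨E, hE, hcard, hTI⟩
    -- conjugate into U
    have hp : IsPGroup 2 E := fun x => ⟨1, Subtype.ext (hE.2 x x.2)⟩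
    obtain ⟨P, hP⟩ := hp.exists_le_sylow
    obtain ⟨k, hk⟩ := D.sylow_conj P
    have hform : ∀ x ∈ E, ∃ b, x = k * D.tt 0 b * k⁻¹ := by
      intro x hx
      obtain ⟨a, b, hab⟩ := (hk x).1 (hP hx)
      have hx' : x = k * D.tt a b * k⁻¹ := by rw [← hab]; group
      have h2 : x ^ 2 = 1 := hE.2 x hx
      have h3 : D.tt a b * D.tt a b = 1 := by
        have e : x ^ 2 = k * (D.tt a b * D.tt a b) * k⁻¹ := by rw [hx', sq]; group
        rw [e] at h2
        have : D.tt a b * D.tt a b = k⁻¹ * (k * (D.tt a b * D.tt a b) * k⁻¹) * k := by group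
        rw [this, h2]; group
      rw [D.tt_sq, ← D.tt_zero] at h3
      have h4 := (D.tt_inj h3).2
      have ha : a = 0 := by
        rcases mul_eq_zero.1 h4 with h | h
        · exact (map_eq_zero D.θ).1 h
        · exact h
      rw [ha] at hx'
      exact ⟨b, hx'⟩
    let A : AddSubgroup F := {
      carrier := {b | k * D.tt 0 b * k⁻¹ ∈ E}
      zero_mem' := by
        show k * D.tt 0 0 * k⁻¹ ∈ E
        rw [D.tt_zero, mul_one, mul_inv_cancel]; exact E.one_mem
      add_mem' := by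
        intro a b ha hb
        have := E.mul_mem ha hb
        have e : k * D.tt 0 a * k⁻¹ * (k * D.tt 0 b * k⁻¹) = k * (D.tt 0 a * D.tt 0 b) * k⁻¹ := by group
        rw [e, D.tt_mul] at this
        simpa using this
      neg_mem' := by
        intro a ha
        show k * D.tt 0 (-a) * k⁻¹ ∈ E
        rw [CharTwo.neg_eq]; exact ha }
    have hA : ∀ b, b ∈ A ↔ k * D.tt 0 b * k⁻¹ ∈ E := fun b => Iff.rfl
    have hAcard : Nat.card A = 2 ^ n := by
      rw [← hcard]
      refine Nat.card_congr (Equiv.ofBijective (fun b : A => (⟨k * D.tt 0 b * k⁻¹, b.2⟩ : E)) ⟨?_, ?_⟩)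
      · intro b c hbc
        have h1 : k * D.tt 0 b * k⁻¹ = k * D.tt 0 c * k⁻¹ := congrArg Subtype.val hbc
        exact Subtype.ext (D.tt_inj (mul_left_cancel (mul_right_cancel h1))).2
      · rintro ⟨x, hx⟩
        obtain ⟨b, rfl⟩ := hform x hx
        exact ⟨⟨b, hx⟩, rfl⟩
    -- multiplication by ratios
    have hmul : ∀ b ∈ A, ∀ b' ∈ A, b ≠ 0 → b' ≠ 0 → ∀ c ∈ A, b' / b * c ∈ A := by
      intro b hb b' hb' h0 h0' c hc
      obtain ⟨u, hu⟩ := D.exists_theta_sq (Units.mk0 (b' / b) (div_ne_zero h0' h0))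
      rw [Units.val_mk0] at hu
      have hconj : ∀ c, (k * D.hh u * k⁻¹) * (k * D.tt 0 c * k⁻¹) * (k * D.hh u * k⁻¹)⁻¹ = k * D.tt 0 (b' / b * c) * k⁻¹ := by
        intro c
        have e : (k * D.hh u * k⁻¹) * (k * D.tt 0 c * k⁻¹) * (k * D.hh u * k⁻¹)⁻¹ =
          k * (D.hh u * D.tt 0 c * (D.hh u)⁻¹) * k⁻¹ := by group
        rw [e, D.hh_conj_tt, hu, mul_zero]
      have hnorm := hTI (k * D.hh u * k⁻¹) (by
        intro hbot
        have h1 : k * D.tt 0 b' * k⁻¹ ∈ E ⊓ E.map (MulAut.conj (k * D.hh u * k⁻¹)).toMonoidHom := by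
          refine ⟨hb', ⟨k * D.tt 0 b * k⁻¹, hb, ?_⟩⟩
          have := hconj b
          rw [div_mul_cancel₀ _ h0] at this
          exact this
        rw [hbot, Subgroup.mem_bot] at h1
        have h2 : D.tt 0 b' = 1 := by
          have e : D.tt 0 b' = k⁻¹ * (k * D.tt 0 b' * k⁻¹) * k := by group
          rw [e, h1]; group
        rw [← D.tt_zero] at h2
        exact h0' (D.tt_inj h2).2)
      have := (Subgroup.mem_normalizer_iff.1 hnorm _).1 ((hA c).1 hc)
      rw [SetLike.mem_coe.symm.trans (by rfl : _ ↔ _)] at this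
      rw [hconj] at this
      exact this
    have h1lt : 1 < Nat.card A := by
      rw [hAcard]
      exact Nat.one_lt_two_pow (by omega)
    have : Nontrivial A := Finite.one_lt_card_iff_nontrivial.1 h1lt
    obtain ⟨⟨b0, hb0⟩, hne⟩ := exists_ne (0 : A)
    have hb0' : b0 ≠ 0 := fun h => hne (Subtype.ext h)
    let K0 : Subring F := {
      carrier := {t | ∀ c ∈ A, t * c ∈ A}
      mul_mem' := by intro s t hs ht c hc; rw [mul_assoc]; exact hs _ (ht c hc)
      one_mem' := by intro c hc; rwa [one_mul]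
      add_mem' := by intro s t hs ht c hc; rw [add_mul]; exact A.add_mem (hs c hc) (ht c hc)
      zero_mem' := by intro c hc; rw [zero_mul]; exact A.zero_mem
      neg_mem' := by intro t ht c hc; rw [neg_mul]; exact A.neg_mem (ht c hc) }
    let K : Subfield F := { K0 with
      inv_mem' := by
        intro t ht
        by_cases h0 : t = 0
        · rw [h0, inv_zero]; exact K0.zero_mem
        · have : t⁻¹ = t ^ (Fintype.card F - 2) := by
            apply inv_eq_of_mul_eq_one_right
            rw [← pow_succ']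
            have h4 := D.four_lt
            rw [show Fintype.card F - 2 + 1 = Fintype.card F - 1 by omega]
            exact FiniteField.pow_card_sub_one_eq_one t h0
          rw [this]; exact K0.pow_mem ht _ }
    have hK : ∀ t, t ∈ K ↔ ∀ c ∈ A, t * c ∈ A := fun t => Iff.rfl
    have hKcard : Nat.card K = 2 ^ n := by
      rw [← hAcard]
      refine Nat.card_congr (Equiv.ofBijective (fun t : K => (⟨t * b0, (hK t).1 t.2 b0 hb0⟩ : A)) ⟨?_, ?_⟩)
      · intro s t hst
        have : (s : F) * b0 = t * b0 := congrArg Subtype.val hst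
        exact Subtype.ext (mul_right_cancel₀ hb0' this)
      · rintro ⟨b, hb⟩
        by_cases h0 : b = 0
        · exact ⟨0, Subtype.ext (by show (0 : F) * b0 = b; rw [zero_mul, h0])⟩
        · refine ⟨⟨b / b0, (hK _).2 (fun c hc => hmul b0 hb0 b hb hb0' h0 c hc)⟩, Subtype.ext ?_⟩
          show b / b0 * b0 = b
          exact div_mul_cancel₀ _ hb0'
    have hfin := Module.natCard_eq_pow_finrank (K := K) (V := F)
    rw [hKcard, Nat.card_eq_fintype_card, hF, ← pow_mul] at hfin
    exact ⟨_, Nat.pow_right_injective (le_refl 2) hfin⟩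
  · intro hdvd
    -- the additive subgroup of the subfield
    let A : AddSubgroup F := {
      carrier := {b | b ^ (2 ^ n) = b}
      zero_mem' := by show (0 : F) ^ (2 ^ n) = 0; rw [zero_pow (by positivity)]
      add_mem' := by
        intro a b ha hb
        show (a + b) ^ (2 ^ n) = a + b
        rw [add_pow_char_pow]; rw [ha, hb]
      neg_mem' := by intro a ha; show (-a) ^ (2 ^ n) = -a; rw [CharTwo.neg_eq]; exact ha }
    have hA : ∀ b, b ∈ A ↔ b ^ (2 ^ n) = b := fun b => Iff.rfl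
    have hpos : 1 ≤ 2 ^ n := Nat.one_le_two_pow
    have hAcard : Nat.card A = 2 ^ n := by
      have h1 : Nat.card (powMonoidHom (2 ^ n - 1) : Fˣ →* Fˣ).ker = 2 ^ n - 1 := by
        rw [IsCyclic.card_powMonoidHom_ker, D.card_units]
        exact Nat.gcd_eq_right (by
          obtain ⟨k, hk⟩ := hdvd
          rw [hk, pow_mul]
          exact Nat.sub_one_dvd_pow_sub_one _ _)
      have e : Option (powMonoidHom (2 ^ n - 1) : Fˣ →* Fˣ).ker ≃ A := by
        refine Equiv.ofBijective (fun o => match o with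
          | none => ⟨0, A.zero_mem⟩
          | some u => ⟨(u : Fˣ), by
            have h2 : (u : Fˣ) ^ (2 ^ n - 1) = 1 := u.2
            rw [hA]
            have h3 : ((u : Fˣ) : F) ^ (2 ^ n - 1) = 1 := by
              rw [← Units.val_pow_eq_pow_val, h2]; rfl
            calc ((u : Fˣ) : F) ^ (2 ^ n) = ((u : Fˣ) : F) ^ (2 ^ n - 1) * (u : Fˣ) := by
                  rw [← pow_succ]; congr 1; omega
              _ = _ := by rw [h3, one_mul]⟩) ⟨?_, ?_⟩
        · rintro (_ | u) (_ | v) h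
          · rfl
          · exact absurd (congrArg Subtype.val h).symm (Units.ne_zero _)
          · exact absurd (congrArg Subtype.val h) (Units.ne_zero _)
          · have h2 := congrArg Subtype.val h
            congr 1
            exact Subtype.ext (Units.ext h2)
        · rintro ⟨b, hb⟩
          by_cases h0 : b = 0
          · exact ⟨none, Subtype.ext h0.symm⟩
          · refine ⟨some ⟨Units.mk0 b h0, ?_⟩, rfl⟩
            rw [MonoidHom.mem_ker]
            apply Units.ext
            show b ^ (2 ^ n - 1) = 1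
            apply mul_right_cancel₀ h0
            rw [← pow_succ, one_mul, show 2 ^ n - 1 + 1 = 2 ^ n by omega]
            exact hb
      rw [← Nat.card_congr e, Finite.card_option, h1]; omega
    have hAmul : ∀ s, s ∈ A → ∀ t, t ∈ A → s * t ∈ A := by
      intro s hs t ht
      rw [hA] at *
      rw [mul_pow, hs, ht]
    have hAdiv : ∀ s, s ∈ A → ∀ t, t ∈ A → s / t ∈ A := by
      intro s hs t ht
      rw [hA] at *
      rw [div_pow, hs, ht]
    refine ⟨EA D A, ⟨?_, ?_⟩, ?_, ?_⟩
    · refine ⟨⟨?_⟩⟩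
      rintro ⟨_, a, ha, rfl⟩ ⟨_, b, hb, rfl⟩
      apply Subtype.ext
      show D.tt 0 a * D.tt 0 b = D.tt 0 b * D.tt 0 a
      rw [D.tt_mul, D.tt_mul]
      congr 1
      simp [add_comm]
    · rintro _ ⟨a, ha, rfl⟩
      rw [sq, D.tt_sq]; simp [D.tt_zero]
    · rw [← hAcard]
      refine (Nat.card_congr (Equiv.ofBijective (fun b : A => (⟨D.tt 0 b, b, b.2, rfl⟩ : EA D A)) ⟨?_, ?_⟩)).symm
      · intro b c hbc
        have h1 : D.tt 0 b = D.tt 0 c := congrArg Subtype.val hbc
        exact Subtype.ext (D.tt_inj h1).2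
      · rintro ⟨_, b, hb, rfl⟩
        exact ⟨⟨b, hb⟩, rfl⟩
    · intro x hx
      obtain ⟨y, ⟨hy1, hy2⟩, hy⟩ : ∃ y ∈ EA D A ⊓ (EA D A).map (MulAut.conj x).toMonoidHom, y ≠ 1 := by
        by_contra hcon
        push Not at hcon
        exact hx (by rw [eq_bot_iff]; intro y hy; exact hcon y hy)
      obtain ⟨b', hb', rfl⟩ := hy1
      obtain ⟨_, ⟨b, hb, rfl⟩, hxb⟩ := hy2
      have hxb' : x * D.tt 0 b * x⁻¹ = D.tt 0 b' := hxb
      have hb'0 : b' ≠ 0 := by rintro rfl; exact hy D.tt_zero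
      have hxB : x ∈ D.B := by
        show x • D.inf = D.inf
        have h2 : (D.tt 0 b') • (x • D.inf) = x • D.inf := by
          rw [← hxb', mul_smul, mul_smul, inv_smul_smul, D.tt_inf]
        exact D.tt_fix (fun h => hb'0 h.2) h2
      obtain ⟨c, d, u, rfl⟩ := D.mem_B.1 hxB
      have hconj : ∀ t, D.tt c d * D.hh u * D.tt 0 t * (D.tt c d * D.hh u)⁻¹ = D.tt 0 (D.θ u * (u : F) ^ 2 * t) := by
        intro t
        have e : D.tt c d * D.hh u * D.tt 0 t * (D.tt c d * D.hh u)⁻¹ =
          D.tt c d * (D.hh u * D.tt 0 t * (D.hh u)⁻¹) * (D.tt c d)⁻¹ := by group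
        rw [e, D.hh_conj_tt, mul_zero, D.tt_commute.2 (by simp : D.θ c * 0 = D.θ 0 * c), mul_inv_cancel_right]
      rw [hconj] at hxb'
      have h3 := (D.tt_inj hxb').2
      have hb0 : b ≠ 0 := by rintro rfl; rw [mul_zero] at h3; exact hb'0 h3.symm
      have hr : D.θ u * (u : F) ^ 2 ∈ A := by
        have : D.θ u * (u : F) ^ 2 = b' / b := by rw [← h3, mul_div_cancel_right₀ _ hb0]
        rw [this]; exact hAdiv _ hb' _ hb
      have hr0 : D.θ u * (u : F) ^ 2 ≠ 0 := by
        intro h; rw [h, zero_mul] at h3; exact hb'0 h3.symm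
      rw [Subgroup.mem_normalizer_iff]
      intro g
      constructor
      · rintro ⟨t, ht, rfl⟩
        exact ⟨_, hAmul _ hr _ ht, hconj t⟩
      · rintro ⟨t, ht, htg⟩
        refine ⟨t / (D.θ u * (u : F) ^ 2), hAdiv _ ht _ hr, ?_⟩
        have h4 := hconj (t / (D.θ u * (u : F) ^ 2))
        rw [mul_div_cancel₀ _ hr0] at h4
        rw [← htg] at h4
        exact (mul_left_cancel (mul_right_cancel h4)).symm

end Cfsg.Agent.S2240
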