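import Cfsg.Statements.S2241
import Mathlib
import Cfsg.Agent.H8.SuzBorel

set_option autoImplicit false
open Cfsg

namespace Cfsg.Agent.S2241

/-- Real 2-elements of the Suzuki group: with q = 2^(2m+1), m ≥ 1, and the group realised as the stabiliser in SL₄ of the Suzuki–Tits ovoid, a non-identity element of a Sylow 2-subgroup is conjugate to its inverse if and only if it is an involution; in particular no element of order 4 is conjugate to its inverse. -/
theorem result {F : Type*} [Field F] [Fintype F] {m : ℕ} (hm : 1 ≤ m) (hF : Fintype.card F = 2 ^ (2 * m + 1)) (P : Sylow 2 ↥(Cfsg.Sz F m)) (g : ↥(Cfsg.Sz F m)) (hg : g ∈ (P : Subgroup ↥(Cfsg.Sz F m))) (h1 : g ≠ 1) :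
    IsConj g g⁻¹ ↔ orderOf g = 2 := by
  obtain ⟨D⟩ := Cfsg.Agent.H8.Suz.exists_dat hm hF
  have hchar := D.char
  obtain ⟨k, hk⟩ := D.sylow_conj P
  obtain ⟨a, b, hab⟩ := (hk g).1 hg
  have hg' : g = k * D.tt a b * k⁻¹ := by rw [← hab]; group
  have hne : ¬ (a = 0 ∧ b = 0) := by
    rintro ⟨rfl, rfl⟩
    apply h1
    rw [hg', D.tt_zero]; group
  have hord : orderOf g = orderOf (D.tt a b) := by
    rw [hg']
    exact (MulAut.conj k).orderOf_eq (D.tt a b)
  constructor
  · intro h
    obtain ⟨c, hc⟩ := isConj_iff.1 h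
    -- x conjugates tt a b to its inverse
    set x := k⁻¹ * c * k with hx
    have hx' : x * D.tt a b * x⁻¹ = (D.tt a b)⁻¹ := by
      have e1 : x * D.tt a b * x⁻¹ = k⁻¹ * (c * g * c⁻¹) * k := by rw [hg', hx]; group
      rw [e1, hc, hg']; group
    have hfix : x ∈ D.B := by
      show x • D.inf = D.inf
      have h2 : (D.tt a b)⁻¹ • (x • D.inf) = x • D.inf := by
        rw [← hx', mul_smul, mul_smul, inv_smul_smul, D.tt_inf]
      rw [inv_smul_eq_iff] at h2
      exact D.tt_fix hne h2.symm
    obtain ⟨c', d', u, hu⟩ := D.mem_B.1 hfix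
    rw [hu] at hx'
    have e : D.tt c' d' * D.hh u * D.tt a b * (D.tt c' d' * D.hh u)⁻¹ =
      D.tt c' d' * (D.hh u * D.tt a b * (D.hh u)⁻¹) * (D.tt c' d')⁻¹ := by group
    rw [e, D.hh_conj_tt, D.tt_inv, D.tt_inv, D.tt_mul, D.tt_mul] at hx'
    obtain ⟨h2, h3⟩ := D.tt_inj hx'
    have h4 : D.θ u * a = a := by grind
    have ha : a = 0 := by
      by_contra ha
      have hu1 : u = 1 := by
        by_contra hne1
        exact D.theta_ne hne1 (mul_right_cancel₀ ha (by rw [h4, one_mul]))
      subst hu1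
      rw [Units.val_one, map_one, one_mul] at h3
      have h5 : D.θ c' * a + D.θ a * c' = D.θ a * a := by
        rw [map_add] at h3
        grind
      obtain ⟨t, ht⟩ : ∃ t, c' = a * t := ⟨c' / a, by field_simp⟩
      have hθa : D.θ a ≠ 0 := by simpa using ha
      have h6 : D.θ t + t = 1 := by
        apply mul_left_cancel₀ (mul_ne_zero hθa ha)
        rw [ht, map_mul] at h5
        linear_combination h5
      have h7 : t ^ 2 + D.θ t = 1 := by
        have := congrArg D.θ h6
        rwa [map_add, D.hθ, map_one] at this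
      have h8 : t * (t + 1) = 0 := by grind
      rcases mul_eq_zero.1 h8 with h | h
      · rw [h] at h6; simp at h6
      · have h9 : t = 1 := by grind
        rw [h9, map_one] at h6
        have : (1 : F) = 0 := by grind
        exact one_ne_zero this
    subst ha
    rw [hord]
    apply orderOf_eq_prime
    · rw [sq, D.tt_sq]; simp [D.tt_zero]
    · intro h
      rw [← D.tt_zero] at h
      exact hne ⟨rfl, (D.tt_inj h).2⟩
  · intro h
    have : g * g = 1 := by rw [← sq, ← h, pow_orderOf_eq_one]
    rw [inv_eq_of_mul_eq_one_left this]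

end Cfsg.Agent.S2241
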