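import Cfsg.Statements.S2259
import Mathlib
import Cfsg.Agent.H8.SuzSolFin
import Cfsg.Agent.H8.SuzLie

set_option autoImplicit false
open Cfsg

namespace Cfsg.Agent.S2259

open Cfsg.Agent.H8.Suz

theorem sol_equiv {G H : Type*} [Group G] [Group H] (e : G ≃* H) (x : G) :
    Nat.card {y : G // Group.IsSolvable ↥(Subgroup.closure ({x, y} : Set G))} =
    Nat.card {y : H // Group.IsSolvable ↥(Subgroup.closure ({e x, y} : Set H))} := by
  refine Nat.card_congr (Equiv.subtypeEquiv e.toEquiv (fun y => ?_))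
  have h1 : Subgroup.closure ({e x, e y} : Set H) = (Subgroup.closure ({x, y} : Set G)).map e.toMonoidHom := by
    rw [MonoidHom.map_closure]
    congr 1
    show _ = (fun z => e z) '' {x, y}
    rw [Set.image_pair]
  show _ ↔ Group.IsSolvable ↥(Subgroup.closure ({e x, e y} : Set H))
  rw [h1]
  have e' := (Subgroup.closure ({x, y} : Set G)).equivMapOfInjective e.toMonoidHom e.injective
  constructor
  · intro h
    exact solvable_of_surjective (f := e'.toMonoidHom) e'.surjective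
  · intro h
    exact solvable_of_surjective (f := e'.symm.toMonoidHom) e'.symm.surjective

variable {F : Type*} [Field F] [Fintype F] {m : ℕ}

theorem ord_cen {x : Cfsg.Sz F m} : orderOf x ∣ Nat.card (Cen x) := by
  have : orderOf (⟨x, mem_cen.2 rfl⟩ : Cen x) = orderOf x := by rw [← Subgroup.orderOf_coe]
  rw [← this]
  exact orderOf_dvd_natCard _

theorem torus_case (D : Dat F m) {x : Cfsg.Sz F m} (hx : x ≠ 1) {k : ℕ} (hk : TorOrd m k) (h : orderOf x ∣ k) :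
    ((∃ g, g⁻¹ * x * g ∈ D.H) ∧ k = 2 ^ (2 * m + 1) - 1) ∨ ((¬ ∃ p : Dat.Om F m, x • p = p) ∧ Nat.card (Cen x) = k) := by
  have key : ∀ l, TorOrd m l → orderOf x ∣ l → l = k := by
    intro l hl hlx
    by_contra hne
    have h1 := D.torOrd_coprime hl hk hne
    have h2 := Nat.dvd_gcd hlx h
    rw [h1, Nat.dvd_one, orderOf_eq_one_iff] at h2
    exact hx h2
  rcases D.tor_cases hx with h1 | ⟨h1, -, h2⟩ | ⟨h1, -, h2⟩
  · exfalso
    exact D.torOrd_odd hk ((D.orderOf_U hx h1).trans h)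
  · left
    refine ⟨h1, ?_⟩
    rw [← key (Nat.card (Cen x)) (Or.inl h2) ord_cen, h2]
  · right
    refine ⟨fun ⟨p, hp⟩ => h1 p hp, ?_⟩
    apply key (Nat.card (Cen x)) _ ord_cen
    rcases h2 with h2 | h2
    · exact Or.inr (Or.inl h2)
    · exact Or.inr (Or.inr h2)

theorem conj_t0 (D : Dat F m) {x : Cfsg.Sz F m} (hx : orderOf x = 2) : ∃ g : Cfsg.Sz F m, g * x * g⁻¹ = D.t0 := by
  have hx1 : x ≠ 1 := by rintro rfl; rw [orderOf_one] at hx; omega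
  have hxx : x * x = 1 := by rw [← pow_two, ← hx, pow_orderOf_eq_one]
  have hU : ∃ g, g⁻¹ * x * g ∈ D.U := by
    by_contra hcon
    obtain ⟨w, hw⟩ := D.isOT_of_not_U hx1 hcon
    exact hw.notMem_of_sq hxx hx1 (mem_cen.2 rfl)
  obtain ⟨g, hg⟩ := hU
  obtain ⟨d, hd⟩ := D.eq_tt_of_sq hg (by
    calc g⁻¹ * x * g * (g⁻¹ * x * g) = g⁻¹ * (x * x) * g := by group
      _ = 1 := by rw [hxx]; group)
  have hd0 : d ≠ 0 := by
    rintro rfl
    rw [D.tt_zero] at hd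
    exact D.ne_one_of_conj hx1 hd
  obtain ⟨u, hu⟩ := D.exists_theta_sq (Units.mk0 d hd0)⁻¹
  refine ⟨D.hh u * g⁻¹, ?_⟩
  have e : D.hh u * g⁻¹ * x * (D.hh u * g⁻¹)⁻¹ = D.hh u * (g⁻¹ * x * g) * (D.hh u)⁻¹ := by group
  rw [e, hd, D.hh_conj_tt, mul_zero, hu]
  show _ = D.tt 0 1
  congr 1
  rw [Units.val_inv_eq_inv_val, Units.val_mk0, inv_mul_cancel₀ hd0]

theorem all_counts (D : Dat F m) (x : Cfsg.Sz F m) :
    (orderOf x = 2 → Nat.card {y : Cfsg.Sz F m // Group.IsSolvable ↥(Subgroup.closure ({x, y} : Set (Cfsg.Sz F m)))} = (2 ^ (2 * m + 1)) ^ 2 * (4 * 2 ^ (2 * m + 1) - 3)) ∧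
    (orderOf x = 4 → Nat.card {y : Cfsg.Sz F m // Group.IsSolvable ↥(Subgroup.closure ({x, y} : Set (Cfsg.Sz F m)))} = (2 ^ (2 * m + 1)) ^ 2 * (2 ^ (2 * m + 1) + 3)) ∧
    (x ≠ 1 → orderOf x ∣ 2 ^ (2 * m + 1) - 1 → Nat.card {y : Cfsg.Sz F m // Group.IsSolvable ↥(Subgroup.closure ({x, y} : Set (Cfsg.Sz F m)))} = 2 * (2 ^ (2 * m + 1)) ^ 2 * (2 ^ (2 * m + 1) - 1)) ∧
    (x ≠ 1 → orderOf x ∣ 2 ^ (2 * m + 1) + 2 ^ (m + 1) + 1 → Nat.card {y : Cfsg.Sz F m // Group.IsSolvable ↥(Subgroup.closure ({x, y} : Set (Cfsg.Sz F m)))} = 4 * (2 ^ (2 * m + 1) + 2 ^ (m + 1) + 1)) ∧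
    (x ≠ 1 → orderOf x ∣ 2 ^ (2 * m + 1) - 2 ^ (m + 1) + 1 → Nat.card {y : Cfsg.Sz F m // Group.IsSolvable ↥(Subgroup.closure ({x, y} : Set (Cfsg.Sz F m)))} = 4 * (2 ^ (2 * m + 1) - 2 ^ (m + 1) + 1)) := by
  have hlt := D.pow_lt
  have hge := D.q_ge
  have h7 : 1 ≤ m := D.hm1
  have h8 : 2 ^ 2 ≤ 2 ^ (m + 1) := Nat.pow_le_pow_right (by norm_num) (by omega)
  refine ⟨fun h => ?_, fun h => ?_, fun h1 h2 => ?_, fun h1 h2 => ?_, fun h1 h2 => ?_⟩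
  · obtain ⟨g, hg⟩ := conj_t0 D h
    rw [sol_equiv (MulAut.conj g) x, ← D.sol_t0]
    rw [show (MulAut.conj g) x = D.t0 from hg]
  · have h2 : orderOf (x ^ 2) = 2 := by rw [orderOf_pow, h]; rfl
    obtain ⟨g, hg⟩ := conj_t0 D h2
    rw [sol_equiv (MulAut.conj g) x]
    apply D.sol_root
    show (g * x * g⁻¹) * (g * x * g⁻¹) = D.t0
    rw [← hg, pow_two]; group
  · rcases torus_case D h1 (Or.inl rfl) h2 with ⟨h3, -⟩ | ⟨h3, h4⟩
    · exact D.sol_H h1 h3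
    · exfalso
      rcases D.tor_cases h1 with h5 | ⟨h5, -⟩ | ⟨-, -, h5⟩
      · exact h3 ((D.fixed_iff h1).2 (Or.inl h5))
      · exact h3 ((D.fixed_iff h1).2 (Or.inr h5))
      · omega
  · rcases torus_case D h1 (Or.inr (Or.inl rfl)) h2 with ⟨h3, h4⟩ | ⟨h3, h4⟩
    · omega
    · rw [D.sol_A h1 h3, h4]
  · rcases torus_case D h1 (Or.inr (Or.inr rfl)) h2 with ⟨h3, h4⟩ | ⟨h3, h4⟩
    · omega
    · rw [D.sol_A h1 h3, h4]

/-- Let G be the Suzuki group Sz(q), q = 2^(2m+1) with 2m + 1 prime and m ≥ 1, realised inside Sp_4(F) for F the field of order q, write r = 2^(m+1) (so r² = 2q), and for x ∈ G call the solubilizer of x the set of y ∈ G such that x and y generate a solvable subgroup. Then the solubilizer of an involution has q²(4q − 3) elements; that of an element of order 4 has q²(q + 3) elements; that of a non-identity element of order dividing q − 1 has 2q²(q − 1) elements;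 that of a non-identity element of order dividing q + r + 1 has 4(q + r + 1) elements; and that of a non-identity element of order dividing q − r + 1 has 4(q − r + 1) elements. -/
theorem result {F : Type*} [Field F] [Fintype F] {m : ℕ} (hm : 1 ≤ m)
    (hp : (2 * m + 1).Prime) (hF : Fintype.card F = 2 ^ (2 * m + 1)) (x : ↥(Cfsg.Lie.Sz F (2 ^ (m + 1)))) :
    (orderOf x = 2 → Nat.card {y : ↥(Cfsg.Lie.Sz F (2 ^ (m + 1))) // Group.IsSolvable ↥(Subgroup.closure ({x, y} : Set (↥(Cfsg.Lie.Sz F (2 ^ (m + 1))))))} = (2 ^ (2 * m + 1)) ^ 2 * (4 * 2 ^ (2 * m + 1) - 3)) ∧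
    (orderOf x = 4 → Nat.card {y : ↥(Cfsg.Lie.Sz F (2 ^ (m + 1))) // Group.IsSolvable ↥(Subgroup.closure ({x, y} : Set (↥(Cfsg.Lie.Sz F (2 ^ (m + 1))))))} = (2 ^ (2 * m + 1)) ^ 2 * (2 ^ (2 * m + 1) + 3)) ∧
    (x ≠ 1 → orderOf x ∣ 2 ^ (2 * m + 1) - 1 →
      Nat.card {y : ↥(Cfsg.Lie.Sz F (2 ^ (m + 1))) // Group.IsSolvable ↥(Subgroup.closure ({x, y} : Set (↥(Cfsg.Lie.Sz F (2 ^ (m + 1))))))} = 2 * (2 ^ (2 * m + 1)) ^ 2 * (2 ^ (2 * m + 1) - 1)) ∧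
    (x ≠ 1 → orderOf x ∣ 2 ^ (2 * m + 1) + 2 ^ (m + 1) + 1 → Nat.card {y : ↥(Cfsg.Lie.Sz F (2 ^ (m + 1))) // Group.IsSolvable ↥(Subgroup.closure ({x, y} : Set (↥(Cfsg.Lie.Sz F (2 ^ (m + 1))))))} = 4 * (2 ^ (2 * m + 1) + 2 ^ (m + 1) + 1)) ∧
    (x ≠ 1 → orderOf x ∣ 2 ^ (2 * m + 1) - 2 ^ (m + 1) + 1 → Nat.card {y : ↥(Cfsg.Lie.Sz F (2 ^ (m + 1))) // Group.IsSolvable ↥(Subgroup.closure ({x, y} : Set (↥(Cfsg.Lie.Sz F (2 ^ (m + 1))))))} = 4 * (2 ^ (2 * m + 1) - 2 ^ (m + 1) + 1)) := by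
  obtain ⟨D⟩ := Cfsg.Agent.H8.Suz.exists_dat hm hF
  obtain ⟨e⟩ := D.LieSz_equiv
  have h := all_counts D (e x)
  have ho : orderOf (e x) = orderOf x := e.orderOf_eq x
  have hne : e x ≠ 1 ↔ x ≠ 1 := by rw [Ne, Ne, map_eq_one_iff e e.injective]
  rw [ho, hne, ← sol_equiv e x] at h
  exact h

end Cfsg.Agent.S2259
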