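import Cfsg.Statements.S2268
import Mathlib
import Cfsg.Agent.Lib.SL2
-- import your own Cfsg.Agent.* helpers here

set_option autoImplicit false
open Cfsg
set_option linter.all false

namespace Cfsg.Agent.S2268

/-- Let G be a finite group with an abelian Sylow p-subgroup P and let Q ≤ P. Then N_G(Q) = (N_G(Q) ∩ N_G(P))·C_G(Q), so that N_G(Q)/C_G(Q) is a homomorphic image of the subgroup (N_G(Q) ∩ N_G(P))/C_G(P) of N_G(P)/C_G(P); in particular the order of N_G(Q)/C_G(Q) divides the order of N_G(P)/C_G(P). -/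
theorem result {G : Type*} [Group G] [Finite G] {p : ℕ} [Fact p.Prime]
    (P : Sylow p G) (hP : IsMulCommutative (P : Subgroup G)) (Q : Subgroup G) (hQ : Q ≤ (P : Subgroup G)) :
    Subgroup.normalizer (Q : Set G) =
      (Subgroup.normalizer (Q : Set G) ⊓ Subgroup.normalizer ((P : Subgroup G) : Set G)) ⊔ Subgroup.centralizer (Q : Set G) ∧
    ((Subgroup.centralizer (Q : Set G)).subgroupOf (Subgroup.normalizer (Q : Set G))).index ∣ ((Subgroup.centralizer ((P : Subgroup G) : Set G)).subgroupOf (Subgroup.normalizer ((P : Subgroup G) : Set G))).index := by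
  classical
  have hab : ∀ a ∈ (P : Subgroup G), ∀ b ∈ (P : Subgroup G), a * b = b * a := by
    intro a ha b hb
    exact congrArg Subtype.val (hP.is_comm.comm (⟨a, ha⟩ : (P : Subgroup G)) ⟨b, hb⟩)
  have hPC : (P : Subgroup G) ≤ Subgroup.centralizer (Q : Set G) := by
    intro a ha
    rw [Subgroup.mem_centralizer_iff]
    intro b hb
    exact hab b (hQ hb) a ha
  have hCPQ : Subgroup.centralizer ((P : Subgroup G) : Set G) ≤ Subgroup.centralizer (Q : Set G) :=
    Subgroup.centralizer_le hQ
  have hCN : ∀ H : Subgroup G, Subgroup.centralizer (H : Set G) ≤ Subgroup.normalizer (H : Set G) := by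
    intro H a ha
    rw [Subgroup.mem_normalizer_iff]
    intro b
    constructor
    · intro hb
      have h1 := Subgroup.mem_centralizer_iff.mp ha b hb
      have h2 : a * b * a⁻¹ = b := by rw [← h1]; group
      rw [h2]; exact hb
    · intro hb
      have h1 := Subgroup.mem_centralizer_iff.mp ha _ hb
      have h2 : b = a * b * a⁻¹ := by
        have h3 : a⁻¹ * ((a * b * a⁻¹) * a) = a⁻¹ * (a * (a * b * a⁻¹)) := by rw [h1]
        have h4 : a⁻¹ * ((a * b * a⁻¹) * a) = b := by group
        have h5 : a⁻¹ * (a * (a * b * a⁻¹)) = a * b * a⁻¹ := by group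
        rw [h4, h5] at h3
        exact h3
      rw [h2]; exact hb
  -- the key decomposition
  have key : ∀ g ∈ Subgroup.normalizer (Q : Set G), ∃ c ∈ Subgroup.centralizer (Q : Set G), c * g ∈ Subgroup.normalizer ((P : Subgroup G) : Set G) := by
    intro g hg
    set C := Subgroup.centralizer (Q : Set G) with hC
    -- P and g P g⁻¹ are Sylow in C
    have hgP : ((g • P : Sylow p G) : Subgroup G) ≤ C := by
      intro x hx
      rw [Sylow.coe_subgroup_smul] at hx
      obtain ⟨y, hy, rfl⟩ := hx
      rw [hC, Subgroup.mem_centralizer_iff]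
      intro b hb
      show b * (g * y * g⁻¹) = (g * y * g⁻¹) * b
      have h1 : g⁻¹ * b * g ∈ Q := (Subgroup.mem_normalizer_iff''.mp hg b).mp hb
      have h2 := Subgroup.mem_centralizer_iff.mp (hPC hy) _ h1
      calc b * (g * y * g⁻¹) = g * ((g⁻¹ * b * g) * y) * g⁻¹ := by group
        _ = g * (y * (g⁻¹ * b * g)) * g⁻¹ := by rw [h2]
        _ = (g * y * g⁻¹) * b := by group
    obtain ⟨c, hc⟩ := MulAction.exists_smul_eq C ((g • P).subtype hgP) (P.subtype hPC)
    refine ⟨c, c.2, ?_⟩
    have h1 : ((c : G) * g) • P = P := by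
      rw [mul_smul]
      apply Sylow.ext
      rw [Sylow.coe_subgroup_smul]
      ext x
      constructor
      · rintro ⟨y, hy, rfl⟩
        have : (MulAut.conj (c : G)) y ∈ (P : Subgroup G) := by
          have h3 : (⟨(MulAut.conj (c : G)) y, C.mul_mem (C.mul_mem c.2 (hgP hy)) (C.inv_mem c.2)⟩ : C) ∈ ((P.subtype hPC : Sylow p C) : Subgroup C) := by
            rw [← hc]
            rw [Sylow.coe_subgroup_smul]
            exact ⟨⟨y, hgP hy⟩, hy, rfl⟩
          exact h3
        exact this
      · intro hx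
        have h3 : (⟨x, hPC hx⟩ : C) ∈ ((c • ((g • P).subtype hgP) : Sylow p C) : Subgroup C) := by
          rw [hc]; exact hx
        rw [Sylow.coe_subgroup_smul] at h3
        obtain ⟨y, hy, hyx⟩ := h3
        exact ⟨y, hy, congrArg Subtype.val hyx⟩
    exact Sylow.smul_eq_iff_mem_normalizer.mp h1
  constructor
  · apply le_antisymm
    · intro g hg
      obtain ⟨c, hc, hcg⟩ := key g hg
      have h1 : g = c⁻¹ * (c * g) := by group
      have hcN : c ∈ Subgroup.normalizer (Q : Set G) := hCN Q hc
      rw [h1]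
      apply Subgroup.mul_mem
      · exact (le_sup_right : _ ≤ (Subgroup.normalizer (Q : Set G) ⊓ Subgroup.normalizer ((P : Subgroup G) : Set G)) ⊔ Subgroup.centralizer (Q : Set G)) (Subgroup.inv_mem _ hc)
      · exact (le_sup_left : _ ≤ (Subgroup.normalizer (Q : Set G) ⊓ Subgroup.normalizer ((P : Subgroup G) : Set G)) ⊔ Subgroup.centralizer (Q : Set G)) ⟨Subgroup.mul_mem _ hcN hg, hcg⟩
    · exact sup_le inf_le_left (hCN Q)
  · -- index
    set NQ := Subgroup.normalizer (Q : Set G) with hNQ
    set NP := Subgroup.normalizer ((P : Subgroup G) : Set G) with hNP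
    set CQ := Subgroup.centralizer (Q : Set G) with hCQ
    set CP := Subgroup.centralizer ((P : Subgroup G) : Set G) with hCP
    have h1 : CQ.relIndex NQ = CQ.relIndex (NQ ⊓ NP) := by
      -- cosets
      rw [Subgroup.relIndex, Subgroup.relIndex]
      apply Nat.card_congr
      symm
      refine Equiv.ofBijective (Quotient.map' (Subgroup.inclusion (inf_le_left : NQ ⊓ NP ≤ NQ)) ?_) ⟨?_, ?_⟩
      · intro a b hab
        rw [QuotientGroup.leftRel_apply] at hab ⊢
        exact hab
      · intro a b
        induction a using Quotient.inductionOn' with | _ a =>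
        induction b using Quotient.inductionOn' with | _ b =>
        intro h
        rw [Quotient.map'_mk'', Quotient.map'_mk''] at h
        have h2 := Quotient.eq''.mp h
        rw [QuotientGroup.leftRel_apply] at h2
        apply Quotient.eq''.mpr
        rw [QuotientGroup.leftRel_apply]
        exact h2
      · intro a
        induction a using Quotient.inductionOn' with | _ a =>
        obtain ⟨c, hc, hcg⟩ := key (a : G)⁻¹ (NQ.inv_mem a.2)
        have h3 : ((a : G) * c⁻¹) ∈ NQ ⊓ NP := by
          refine ⟨NQ.mul_mem a.2 (NQ.inv_mem (hCN Q hc)), ?_⟩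
          have := NP.inv_mem hcg
          rwa [mul_inv_rev, inv_inv] at this
        refine ⟨Quotient.mk'' ⟨_, h3⟩, ?_⟩
        rw [Quotient.map'_mk'']
        apply Quotient.eq''.mpr
        rw [QuotientGroup.leftRel_apply]
        show ((a : G) * c⁻¹)⁻¹ * a ∈ CQ
        have : ((a : G) * c⁻¹)⁻¹ * a = c := by group
        rw [this]; exact hc
    have h2 : CQ.relIndex (NQ ⊓ NP) ∣ CP.relIndex (NQ ⊓ NP) := Subgroup.relIndex_dvd_of_le_left _ hCPQ
    have h3 : CP ≤ NQ ⊓ NP := le_inf (hCPQ.trans (hCN Q)) (hCN P)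
    have h4 : CP.relIndex (NQ ⊓ NP) ∣ CP.relIndex NP := by
      have := Subgroup.relIndex_mul_relIndex CP (NQ ⊓ NP) NP h3 inf_le_right
      exact Dvd.intro _ this
    have h5 : CQ.relIndex NQ ∣ CP.relIndex NP := by rw [h1]; exact h2.trans h4
    exact h5


end Cfsg.Agent.S2268
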