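import Cfsg.Statements.S2270
import Mathlib
import Cfsg.Agent.Lib.SL2
-- import your own Cfsg.Agent.* helpers here

set_option autoImplicit false
open Cfsg
set_option linter.all false

namespace Cfsg.Agent.S2270

/-- Let n ≥ 3, p an odd prime, and P an abelian Sylow p-subgroup of the symmetric group S_n (with p dividing n!, so that P ≠ 1). Then N(P)/C(P) has even order. -/
theorem result (n : ℕ) (hn : 3 ≤ n) {p : ℕ} [Fact p.Prime] (hp : p ≠ 2) (hpn : p ≤ n)
    (P : Sylow p (Equiv.Perm (Fin n))) (hP : IsMulCommutative (P : Subgroup (Equiv.Perm (Fin n)))) :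
    2 ∣ ((Subgroup.centralizer ((P : Subgroup (Equiv.Perm (Fin n))) : Set (Equiv.Perm (Fin n)))).subgroupOf (Subgroup.normalizer ((P : Subgroup (Equiv.Perm (Fin n))) : Set (Equiv.Perm (Fin n))))).index := by
  classical
  have hpp : p.Prime := Fact.out
  have hodd : Odd p := hpp.odd_of_ne_two hp
  haveI := hP
  -- a nontrivial element
  have hdvd : p ∣ Nat.card (Equiv.Perm (Fin n)) := by
    rw [Nat.card_eq_fintype_card, Fintype.card_perm, Fintype.card_fin]
    exact (Nat.Prime.dvd_factorial hpp).mpr hpn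
  have hPd : p ∣ Nat.card (P : Subgroup (Equiv.Perm (Fin n))) := P.dvd_card_of_dvd_card hdvd
  obtain ⟨⟨x, hx⟩, hxo⟩ := exists_prime_orderOf_dvd_card' p hPd
  have hxo' : orderOf x = p := by rw [← hxo, Subgroup.orderOf_mk]
  have hconj : IsConj x x⁻¹ := by
    rw [Equiv.Perm.isConj_iff_cycleType_eq, Equiv.Perm.cycleType_inv]
  obtain ⟨c, hc⟩ := isConj_iff.mp hconj
  have hc' : (c⁻¹)⁻¹ * x * c⁻¹ ∈ (P : Subgroup (Equiv.Perm (Fin n))) := by
    rw [inv_inv, hc]
    exact Subgroup.inv_mem _ hx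
  obtain ⟨m, hm, hm'⟩ := P.conj_eq_normalizer_conj_of_mem x c⁻¹ hx hc'
  rw [inv_inv, hc] at hm'
  set N := Subgroup.normalizer ((P : Subgroup (Equiv.Perm (Fin n))) : Set (Equiv.Perm (Fin n))) with hN
  set C := Subgroup.centralizer ((P : Subgroup (Equiv.Perm (Fin n))) : Set (Equiv.Perm (Fin n))) with hC
  by_contra hcon
  have hoddi : Odd (C.subgroupOf N).index := Nat.not_even_iff_odd.mp (fun h => hcon (even_iff_two_dvd.mp h))
  haveI hnorm : (C.subgroupOf N).Normal := by
    constructor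
    intro a ha b
    rw [Subgroup.mem_subgroupOf] at ha ⊢
    show (b : Equiv.Perm (Fin n)) * a * (b : Equiv.Perm (Fin n))⁻¹ ∈ C
    rw [hC, Subgroup.mem_centralizer_iff] at ha ⊢
    intro y hy
    have h1 : (b : Equiv.Perm (Fin n))⁻¹ * y * b ∈ (P : Subgroup (Equiv.Perm (Fin n))) := (Subgroup.mem_normalizer_iff''.mp b.2 y).mp hy
    have h2 := ha _ h1
    calc y * ((b : Equiv.Perm (Fin n)) * a * (b : Equiv.Perm (Fin n))⁻¹) = b * (((b : Equiv.Perm (Fin n))⁻¹ * y * b) * a) * (b : Equiv.Perm (Fin n))⁻¹ := by group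
      _ = b * (a * ((b : Equiv.Perm (Fin n))⁻¹ * y * b)) * (b : Equiv.Perm (Fin n))⁻¹ := by rw [h2]
      _ = (b : Equiv.Perm (Fin n)) * a * (b : Equiv.Perm (Fin n))⁻¹ * y := by group
  have h1 : (⟨m, hm⟩ : N) ^ (C.subgroupOf N).index ∈ C.subgroupOf N := Subgroup.pow_index_mem _ _
  rw [Subgroup.mem_subgroupOf] at h1
  have h2 : m ^ (C.subgroupOf N).index ∈ C := h1
  have h3 := Subgroup.mem_centralizer_iff.mp h2 x hx
  -- odd powers invert
  have key : ∀ k : ℕ, x * m ^ k = m ^ k * x ^ ((-1 : ℤ) ^ k) := by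
    intro k
    induction k with
    | zero => simp
    | succ k ih =>
      have h4 : ∀ j : ℤ, x ^ j * m = m * x ^ (-j) := by
        intro j
        have h5 : m⁻¹ * x ^ j * m = (m⁻¹ * x * m) ^ j := by
          have := (MulAut.conj m⁻¹).toMonoidHom.map_zpow x j
          simpa using this
        have h6 : m⁻¹ * x ^ j * m = x ^ (-j) := by rw [h5, ← hm', inv_zpow, zpow_neg]
        rw [← h6]; group
      rw [pow_succ, ← mul_assoc, ih, mul_assoc, h4, ← mul_assoc]
      congr 2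
      rw [pow_succ]; ring
  have h4 := key (C.subgroupOf N).index
  rw [h3, hoddi.neg_one_pow, zpow_neg_one] at h4
  have h5 : x = x⁻¹ := mul_left_cancel h4
  have h6 : x ^ 2 = 1 := by rw [pow_two]; nth_rewrite 2 [h5]; exact mul_inv_cancel x
  have h7 := orderOf_dvd_of_pow_eq_one h6
  rw [hxo'] at h7
  exact hp ((Nat.prime_dvd_prime_iff_eq hpp Nat.prime_two).mp h7)


end Cfsg.Agent.S2270
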