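import Cfsg.Statements.S2337
import Mathlib
import Cfsg.Agent.H8.SuzSolNum
import Cfsg.Agent.H8.SuzLie
import Cfsg.Agent.H8.Weights

set_option autoImplicit false
open Cfsg

namespace Cfsg.Agent.S2337

open Cfsg.Agent.H8.Suz Cfsg.Agent.H8.Suz.Dat Cfsg.Agent.H8.Weights

variable {F : Type*} [Field F] [Fintype F] {m : ℕ} (D : Dat F m)

include D in
theorem mulShift_surj {lam : AddChar F ℂ} (h : lam ≠ 1) (χ : AddChar F ℂ) : ∃ d, ∀ x, χ x = lam (d * x) := by
  classical
  have hinj : Function.Injective (fun d : F => lam.mulShift d) :=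
    AddChar.to_mulShift_inj_of_isPrimitive (AddChar.IsPrimitive.of_ne_one h)
  have hbij : Function.Bijective (fun d : F => lam.mulShift d) := by
    rw [Fintype.bijective_iff_injective_and_card]
    exact ⟨hinj, AddChar.card_eq.symm⟩
  obtain ⟨d, hd⟩ := hbij.2 χ
  exact ⟨d, fun x => by rw [← hd]; rfl⟩

/-- the commutator character -/
noncomputable def cchar (lam : AddChar F ℂ) (a : F) : AddChar F ℂ where
  toFun c := lam (D.θ c * a + D.θ a * c)
  map_zero_eq_one' := by rw [map_zero, zero_mul, mul_zero, add_zero, AddChar.map_zero_eq_one]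
  map_add_eq_mul' c c' := by
    rw [← AddChar.map_add_eq_mul]
    congr 1
    rw [map_add D.θ]
    ring

theorem cchar_apply (lam : AddChar F ℂ) (a c : F) : cchar D lam a c = lam (D.θ c * a + D.θ a * c) := rfl

theorem card_image {lam : AddChar F ℂ} (h : lam ≠ 1) [DecidableEq (AddChar F ℂ)] :
    2 ^ (2 * m) ≤ (Finset.univ.image (cchar D lam)).card := by
  classical
  have hchar := D.char
  -- the shift of `lam ∘ θ`
  obtain ⟨δ, hδ⟩ := mulShift_surj D h (⟨fun x => lam (D.θ x), by rw [map_zero, AddChar.map_zero_eq_one], fun a b => by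
    rw [map_add, AddChar.map_add_eq_mul]⟩ : AddChar F ℂ)
  have hδ' : ∀ x, lam (D.θ x) = lam (δ * x) := hδ
  -- the radical
  have hrad : ∀ a, (∀ c, lam (D.θ c * a + D.θ a * c) = 1) → a = 0 ∨ a = D.θ δ := by
    intro a ha
    obtain ⟨e, he⟩ := D.theta_surj a
    have h1 : ∀ c, lam ((δ * e + D.θ a) * c) = 1 := by
      intro c
      rw [← ha c, add_mul, AddChar.map_add_eq_mul, AddChar.map_add_eq_mul]
      congr 1
      rw [← he, ← map_mul, hδ']
      congr 1
      ring
    have h2 : δ * e + D.θ a = 0 := by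
      by_contra hne
      apply AddChar.IsPrimitive.of_ne_one h hne
      ext c
      rw [AddChar.mulShift_apply, h1, AddChar.one_apply]
    have h3 : δ * e = D.θ a := by grind
    have h4 := congrArg D.θ h3
    rw [map_mul, he, D.hθ] at h4
    by_cases ha0 : a = 0
    · exact Or.inl ha0
    · right
      have : a * a = D.θ δ * a := by rw [h4]; ring
      exact mul_right_cancel₀ ha0 this
  have hfib : ∀ χ ∈ Finset.univ.image (cchar D lam), (Finset.univ.filter (fun a => cchar D lam a = χ)).card ≤ 2 := by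
    intro χ hχ
    obtain ⟨a, -, rfl⟩ := Finset.mem_image.1 hχ
    have hsub : (Finset.univ.filter (fun a' => cchar D lam a' = cchar D lam a)) ⊆ {a, a + D.θ δ} := by
      intro a' ha'
      have h1 := (Finset.mem_filter.1 ha').2
      have h2 := hrad (a' + a) (by
        intro c
        have h3 : D.θ c * (a' + a) + D.θ (a' + a) * c = (D.θ c * a' + D.θ a' * c) + (D.θ c * a + D.θ a * c) := by
          rw [map_add]; ring
        rw [h3, AddChar.map_add_eq_mul, ← cchar_apply, ← cchar_apply, h1, cchar_apply, ← AddChar.map_add_eq_mul,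
          CharTwo.add_self_eq_zero, AddChar.map_zero_eq_one])
      rw [Finset.mem_insert, Finset.mem_singleton]
      rcases h2 with h2 | h2
      · left; grind
      · right; grind
    exact (Finset.card_le_card hsub).trans Finset.card_le_two
  have h1 := Finset.card_le_mul_card_image (f := cchar D lam) (s := Finset.univ) 2 hfib
  rw [Finset.card_univ, D.hF, pow_succ] at h1
  omega

variable {V : Type*} [AddCommGroup V] [Module ℂ V] [FiniteDimensional ℂ V] (ρ : Representation ℂ (Cfsg.Sz F m) V)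

/-- action of the centre of `U` -/
noncomputable def sg (b : F) : Module.End ℂ V := ρ (D.tt 0 b)

theorem sg_add (a b : F) : sg D ρ (a + b) = sg D ρ a * sg D ρ b := by
  unfold sg
  rw [← map_mul, D.tt_mul]
  simp

theorem sg_zero : sg D ρ 0 = 1 := by
  unfold sg
  rw [D.tt_zero, map_one]

theorem wt_inv {lam : AddChar F ℂ} {g : Cfsg.Sz F m} (hg : g ∈ D.U) {v : V} (hv : v ∈ Wt (sg D ρ) lam) :
    ρ g v ∈ Wt (sg D ρ) lam := by
  intro b
  have h1 : D.tt 0 b * g = g * D.tt 0 b := by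
    obtain ⟨c, d, rfl⟩ := hg
    exact D.tt_commute.2 (by rw [map_zero, zero_mul, mul_zero])
  show ρ (D.tt 0 b) (ρ g v) = _
  have h2 : ρ (D.tt 0 b) (ρ g v) = ρ g (ρ (D.tt 0 b) v) := by
    rw [← Module.End.mul_apply, ← map_mul, h1, map_mul, Module.End.mul_apply]
  rw [h2, show ρ (D.tt 0 b) v = lam b • v from hv b, map_smul]

/-- restricted operator -/
noncomputable def Rs (lam : AddChar F ℂ) (g : D.U) : Module.End ℂ (Wt (sg D ρ) lam) :=
  (ρ g.1).restrict (fun _ hv => wt_inv D ρ g.2 hv)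

theorem Rs_mul (lam : AddChar F ℂ) (g h : D.U) : Rs D ρ lam (g * h) = Rs D ρ lam g * Rs D ρ lam h := by
  ext v
  show ρ (g.1 * h.1) v = ρ g.1 (ρ h.1 v)
  rw [map_mul]; rfl

theorem Rs_one (lam : AddChar F ℂ) : Rs D ρ lam 1 = 1 := by
  ext v
  show ρ (1 : Cfsg.Sz F m) v = v
  rw [map_one]; rfl

/-- element of `U` -/
def uu (a b : F) : D.U := ⟨D.tt a b, a, b, rfl⟩

theorem Rs_center (lam : AddChar F ℂ) (b : F) : Rs D ρ lam (uu D 0 b) = lam b • 1 := by
  ext v
  exact v.2 b

theorem uu_mul (a b c d : F) : uu D a b * uu D c d = uu D (a + c) (b + d + D.θ a * c) := Subtype.ext (D.tt_mul a b c d)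

/-- conjugation action on operators -/
noncomputable def conjA (lam : AddChar F ℂ) (c : F) : Module.End ℂ (Module.End ℂ (Wt (sg D ρ) lam)) where
  toFun X := Rs D ρ lam (uu D c 0) * X * Rs D ρ lam (uu D c 0)⁻¹
  map_add' X Y := by rw [mul_add, add_mul]
  map_smul' r X := by
    rw [mul_smul_comm, smul_mul_assoc]; rfl

theorem conjA_add (lam : AddChar F ℂ) (c c' : F) : conjA D ρ lam (c + c') = conjA D ρ lam c * conjA D ρ lam c' := by
  refine LinearMap.ext fun X => ?_
  show Rs D ρ lam (uu D (c + c') 0) * X * Rs D ρ lam (uu D (c + c') 0)⁻¹ =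
    Rs D ρ lam (uu D c 0) * (Rs D ρ lam (uu D c' 0) * X * Rs D ρ lam (uu D c' 0)⁻¹) * Rs D ρ lam (uu D c 0)⁻¹
  have h1 : uu D c 0 * uu D c' 0 = uu D 0 (D.θ c * c') * uu D (c + c') 0 := by
    rw [uu_mul, uu_mul]; simp
  have h2 : Rs D ρ lam (uu D c 0) * Rs D ρ lam (uu D c' 0) = lam (D.θ c * c') • Rs D ρ lam (uu D (c + c') 0) := by
    rw [← Rs_mul, h1, Rs_mul, Rs_center, smul_mul_assoc, one_mul]
  have h3 : Rs D ρ lam (uu D c' 0)⁻¹ * Rs D ρ lam (uu D c 0)⁻¹ =
      Rs D ρ lam (uu D (c + c') 0)⁻¹ * Rs D ρ lam (uu D 0 (D.θ c * c'))⁻¹ := by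
    rw [← Rs_mul, ← Rs_mul, ← _root_.mul_inv_rev, ← _root_.mul_inv_rev, h1]
  have h4 : Rs D ρ lam (uu D 0 (D.θ c * c'))⁻¹ = lam (-(D.θ c * c')) • 1 := by
    have h5 : (uu D 0 (D.θ c * c'))⁻¹ = uu D 0 (-(D.θ c * c')) := by
      rw [inv_eq_iff_mul_eq_one, uu_mul, map_zero, zero_mul, add_zero, add_zero, add_neg_cancel]
      exact Subtype.ext D.tt_zero
    rw [h5, Rs_center]
  calc _ = (lam (D.θ c * c') * lam (-(D.θ c * c'))) • (Rs D ρ lam (uu D (c + c') 0) * X * Rs D ρ lam (uu D (c + c') 0)⁻¹) := by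
        rw [← AddChar.map_add_eq_mul, add_neg_cancel, AddChar.map_zero_eq_one, one_smul]
    _ = (lam (D.θ c * c') • Rs D ρ lam (uu D (c + c') 0)) * X * (Rs D ρ lam (uu D (c + c') 0)⁻¹ * (lam (-(D.θ c * c')) • 1)) := by
        rw [smul_mul_assoc, smul_mul_assoc, mul_smul_comm, mul_one, mul_smul_comm, smul_smul]
    _ = (Rs D ρ lam (uu D c 0) * Rs D ρ lam (uu D c' 0)) * X * (Rs D ρ lam (uu D c' 0)⁻¹ * Rs D ρ lam (uu D c 0)⁻¹) := by
        rw [h2, h3, h4]
    _ = _ := by simp only [mul_assoc]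

theorem wt_dim {lam : AddChar F ℂ} (h : lam ≠ 1) (hne : Wt (sg D ρ) lam ≠ ⊥) : 2 ^ m ≤ Module.finrank ℂ (Wt (sg D ρ) lam) := by
  classical
  have hb := weight_bound (W := Module.End ℂ (Wt (sg D ρ) lam)) (σ := conjA D ρ lam) (conjA_add D ρ lam)
    (Finset.univ.image (cchar D lam)) 1 (by
      intro χ hχ
      obtain ⟨a, -, rfl⟩ := Finset.mem_image.1 hχ
      rw [Nat.one_le_iff_ne_zero, Ne, Submodule.finrank_eq_zero]
      intro h0
      have hmem : Rs D ρ lam (uu D a 0) ∈ Wt (conjA D ρ lam) (cchar D lam a) := by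
        intro c
        show Rs D ρ lam (uu D c 0) * Rs D ρ lam (uu D a 0) * Rs D ρ lam (uu D c 0)⁻¹ = _
        rw [← Rs_mul, ← Rs_mul]
        have h1 : uu D c 0 * uu D a 0 * (uu D c 0)⁻¹ = uu D 0 (D.θ c * a + D.θ a * c) * uu D a 0 := by
          apply Subtype.ext
          show D.tt c 0 * D.tt a 0 * (D.tt c 0)⁻¹ = D.tt 0 (D.θ c * a + D.θ a * c) * D.tt a 0
          rw [← D.tt_comm (a := c) (b := 0) (c := a) (d := 0)]; group
        rw [h1, Rs_mul, Rs_center, smul_mul_assoc, one_mul]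
        rfl
      rw [h0, Submodule.mem_bot] at hmem
      apply hne
      rw [eq_bot_iff]
      intro v hv
      have h2 : Rs D ρ lam ((uu D a 0)⁻¹ * uu D a 0) ⟨v, hv⟩ = 0 := by
        rw [Rs_mul, hmem, mul_zero]; rfl
      rw [inv_mul_cancel, Rs_one] at h2
      exact congrArg Subtype.val h2)
  rw [mul_one, Module.finrank_linearMap] at hb
  have h1 := (card_image D h).trans hb
  rw [mul_comm 2 m, pow_mul, pow_two] at h1
  exact Nat.mul_self_le_mul_self_iff.1 h1

theorem wt_conj {lam psi : AddChar F ℂ} {u : Fˣ} (hu : ∀ b, psi (D.θ u * (u : F) ^ 2 * b) = lam b) (hne : Wt (sg D ρ) lam ≠ ⊥) :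
    Wt (sg D ρ) psi ≠ ⊥ := by
  obtain ⟨v, hv, hv0⟩ := (Submodule.ne_bot_iff _).1 hne
  refine (Submodule.ne_bot_iff _).2 ⟨ρ (D.hh u) v, ?_, ?_⟩
  · intro b
    obtain ⟨b', rfl⟩ : ∃ b', b = D.θ u * (u : F) ^ 2 * b' := by
      have hu0 : D.θ u * (u : F) ^ 2 ≠ 0 := by simp
      exact ⟨b / (D.θ u * (u : F) ^ 2), by field_simp⟩
    rw [hu]
    show ρ (D.tt 0 (D.θ u * (u : F) ^ 2 * b')) (ρ (D.hh u) v) = _
    have h1 := D.hh_mul_tt u 0 b'
    rw [mul_zero] at h1
    rw [← Module.End.mul_apply, ← map_mul, ← h1, map_mul, Module.End.mul_apply, show ρ (D.tt 0 b') v = lam b' • v from hv b',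
      map_smul]
  · intro h0
    apply hv0
    have h1 : ρ ((D.hh u)⁻¹ * D.hh u) v = 0 := by rw [map_mul, Module.End.mul_apply, h0, map_zero]
    rw [inv_mul_cancel, map_one] at h1
    exact h1

include D in
theorem main (hnt : ∃ g, ρ g ≠ 1) : 2 ^ m * (2 ^ (2 * m + 1) - 1) ≤ Module.finrank ℂ V := by
  classical
  -- `ZU` acts nontrivially
  have h0 : ρ D.t0 ≠ 1 := by
    intro h
    obtain ⟨g, hg⟩ := hnt
    apply hg
    have hker : (ρ.toHomUnits).ker = ⊤ := by
      have hs := D.simple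
      have hn : (ρ.toHomUnits).ker.Normal := inferInstance
      rcases hn.eq_bot_or_eq_top with h1 | h1
      · exfalso
        have h2 : D.t0 ∈ (ρ.toHomUnits).ker := by
          rw [MonoidHom.mem_ker]
          exact Units.ext h
        rw [h1] at h2
        exact D.t0_ne (Subgroup.mem_bot.1 h2)
      · exact h1
    have h2 : g ∈ (ρ.toHomUnits).ker := by rw [hker]; trivial
    exact congrArg Units.val (MonoidHom.mem_ker.1 h2)
  obtain ⟨chi, hchi, hchi0⟩ : ∃ chi : AddChar F ℂ, chi ≠ 1 ∧ Wt (sg D ρ) chi ≠ ⊥ := by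
    by_contra hcon
    push Not at hcon
    apply h0
    have h1 := sum_Pr (σ := sg D ρ) (sg_zero D ρ)
    have h2 : ∀ χ : AddChar F ℂ, χ ≠ 1 → Pr (sg D ρ) χ = 0 := by
      intro χ hχ
      refine LinearMap.ext fun v => ?_
      have h3 := Pr_mem (sg_add D ρ) χ v
      rw [hcon χ hχ, Submodule.mem_bot] at h3
      exact h3
    rw [Finset.sum_eq_single 1 (fun χ _ hχ => h2 χ hχ) (fun h => absurd (Finset.mem_univ _) h)] at h1
    refine LinearMap.ext fun v => ?_
    have h3 := Pr_mem (sg_add D ρ) 1 v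
    rw [h1] at h3
    have h4 := h3 1
    rw [AddChar.one_apply, one_smul] at h4
    exact h4
  have hall : ∀ psi : AddChar F ℂ, psi ≠ 1 → Wt (sg D ρ) psi ≠ ⊥ := by
    intro psi hpsi
    obtain ⟨d, hd⟩ := mulShift_surj D hpsi chi
    have hd0 : d ≠ 0 := by
      rintro rfl
      apply hchi
      ext x
      rw [hd, zero_mul, AddChar.map_zero_eq_one, AddChar.one_apply]
    obtain ⟨u, hu⟩ := D.exists_theta_sq (Units.mk0 d hd0)
    apply wt_conj D ρ (u := u) (lam := chi) _ hchi0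
    intro b
    rw [hu, hd, Units.val_mk0]
  have hb := weight_bound (sg_add D ρ) (Finset.univ.erase (1 : AddChar F ℂ)) (2 ^ m) (by
    intro psi hpsi
    have h1 := Finset.ne_of_mem_erase hpsi
    exact wt_dim D ρ h1 (hall psi h1))
  rw [Finset.card_erase_of_mem (Finset.mem_univ _), Finset.card_univ, AddChar.card_eq, D.hF, mul_comm] at hb
  exact hb

/-- For the Suzuki group Sz(q), q = 2^(2m+1) with m ≥ 1 (realised inside Sp₄ over the field with q elements), every irreducible complex representation of degree at least 2 has degree at least 2^m·(q − 1). -/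
theorem result {F : Type*} [Field F] [Fintype F] (m : ℕ) (hm : 1 ≤ m) (hF : Fintype.card F = 2 ^ (2 * m + 1)) :
    (∀ (k : ℕ) (ρ : Representation ℂ (Cfsg.Lie.Sz F (2 ^ (m + 1))) (Fin k → ℂ)), ρ.IsIrreducible → 2 ≤ k → 2 ^ m * (2 ^ (2 * m + 1) - 1) ≤ k) := by
  obtain ⟨D⟩ := exists_dat hm hF
  obtain ⟨e⟩ := D.LieSz_equiv
  intro k ρ hirr hk
  have h := main D (ρ.comp e.symm.toMonoidHom) (by
    by_contra hcon
    push Not at hcon
    have hall : ∀ g, ρ g = 1 := by
      intro g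
      have := hcon (e g)
      have h2 : ρ (e.symm (e g)) = 1 := this
      rwa [e.symm_apply_apply] at h2
    -- a line is a subrepresentation
    let L : Subrepresentation ρ := ⟨ℂ ∙ (Pi.single (⟨0, by omega⟩ : Fin k) 1 : Fin k → ℂ), by
      intro g v hv; rw [hall g]; exact hv⟩
    have hL0 : (Pi.single (⟨0, by omega⟩ : Fin k) 1 : Fin k → ℂ) ≠ 0 := by
      intro h0
      have := congrFun h0 ⟨0, by omega⟩
      simp at this
    rcases IsSimpleOrder.eq_bot_or_eq_top L with h | h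
    · apply hL0
      have h1 : (Pi.single (⟨0, by omega⟩ : Fin k) 1 : Fin k → ℂ) ∈ L.toSubmodule := Submodule.mem_span_singleton_self _
      rw [h] at h1
      exact (Submodule.mem_bot ℂ).1 h1
    · have h1 : (Pi.single (⟨1, by omega⟩ : Fin k) 1 : Fin k → ℂ) ∈ L.toSubmodule := by rw [h]; exact Submodule.mem_top
      obtain ⟨c, hc⟩ := Submodule.mem_span_singleton.1 h1
      have := congrFun hc ⟨1, by omega⟩
      simp at this)
  rw [Module.finrank_fin_fun] at h
  exact h

end Cfsg.Agent.S2337
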