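import Cfsg.Statements.S2354
import Mathlib
import Cfsg.Agent.H8.SuzHom
import Cfsg.Agent.H8.SuzLie

set_option autoImplicit false
open Cfsg

namespace Cfsg.Agent.S2354

open Cfsg.Agent.H8.Suz Cfsg.Agent.H8.Suz.Dat Matrix Polynomial

/-- exponents -/
def lead (x : ℕ × Bool) : ℕ := if x.2 then 2 * x.1 + 1 else 2 * x.1 + 2
def trail (x : ℕ × Bool) : ℕ := if x.2 then 2 * x.1 + 2 else 2 * x.1 + 1

theorem lead_pos (x : ℕ × Bool) : 1 ≤ lead x := by unfold lead; split <;> omega
theorem lead_le (x : ℕ × Bool) : lead x ≤ 2 * x.1 + 2 := by unfold lead; split <;> omega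
theorem trail_le (x : ℕ × Bool) : trail x ≤ 2 * x.1 + 2 := by unfold trail; split <;> omega

theorem trail_ne_lead {x y : ℕ × Bool} (h : x.1 = y.1 → x.2 = y.2) : trail x ≠ lead y := by
  obtain ⟨i, a⟩ := x
  obtain ⟨j, b⟩ := y
  unfold trail lead
  cases a <;> cases b <;> simp at h ⊢ <;> omega

variable {F : Type*} [Field F] [Fintype F] {m : ℕ} (D : Dat F m)

/-- the generator attached to a letter -/
def gen (c : F) (x : ℕ × Bool) : Cfsg.Sz F m := D.tt 0 (c ^ lead x) * D.ww * D.tt 0 (c ^ trail x)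

theorem gen_inv (c : F) (i : ℕ) : (gen D c (i, true))⁻¹ = gen D c (i, false) := by
  have h1 : ∀ b, (D.tt 0 b)⁻¹ = D.tt 0 b := by
    intro b; rw [D.tt_inv, map_zero, zero_mul, add_zero]
  show (D.tt 0 (c ^ (2 * i + 1)) * D.ww * D.tt 0 (c ^ (2 * i + 2)))⁻¹ = D.tt 0 (c ^ (2 * i + 2)) * D.ww * D.tt 0 (c ^ (2 * i + 1))
  rw [_root_.mul_inv_rev, _root_.mul_inv_rev, h1, h1, D.ww_inv, mul_assoc]

theorem gen_cond (c : F) (x : ℕ × Bool) : cond x.2 (gen D c (x.1, true)) (gen D c (x.1, true))⁻¹ = gen D c x := by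
  obtain ⟨i, a⟩ := x
  cases a
  · exact gen_inv D c i
  · rfl

theorem tt_vec (b : F) (v : Fin 4 → F) : (D.tt 0 b).1.1 *ᵥ v =
    ![v 0 + b * v 2 + b ^ (2 ^ (m + 1)) * v 3, v 1 + b * v 3, v 2, v 3] := by
  show Tm D.θ 0 b *ᵥ v = _
  ext i
  fin_cases i <;> simp [Tm, z, Matrix.mulVec, dotProduct, Fin.sum_univ_four, D.hm]

theorem ww_vec (v : Fin 4 → F) : (D.ww).1.1 *ᵥ v = ![v 3, v 2, v 1, v 0] := by
  show wm F *ᵥ v = _
  ext i
  fin_cases i <;> simp [wm, Matrix.mulVec, dotProduct, Fin.sum_univ_four]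

theorem gen_vec (c : F) (x : ℕ × Bool) (v : Fin 4 → F) : (gen D c x).1.1 *ᵥ v =
    (D.tt 0 (c ^ lead x)).1.1 *ᵥ ((D.ww).1.1 *ᵥ ((D.tt 0 (c ^ trail x)).1.1 *ᵥ v)) := by
  have h1 : (gen D c x).1.1 = (D.tt 0 (c ^ lead x)).1.1 * (D.ww).1.1 * (D.tt 0 (c ^ trail x)).1.1 := rfl
  rw [h1, ← Matrix.mulVec_mulVec, ← Matrix.mulVec_mulVec]

theorem tt_tt_vec (a b : F) (v : Fin 4 → F) : (D.tt 0 a).1.1 *ᵥ ((D.tt 0 b).1.1 *ᵥ v) = (D.tt 0 (a + b)).1.1 *ᵥ v := by
  have h1 : D.tt 0 (a + b) = D.tt 0 a * D.tt 0 b := by rw [D.tt_mul]; simp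
  have h2 : (D.tt 0 (a + b)).1.1 = (D.tt 0 a).1.1 * (D.tt 0 b).1.1 := by rw [h1]; rfl
  rw [h2, Matrix.mulVec_mulVec]

theorem main (B : ℕ) (L : List (ℕ × Bool)) (hL : L ≠ []) (hred : FreeGroup.IsReduced L) (hB : ∀ x ∈ L, 2 * x.1 + 2 ≤ B) :
    ∃ v : Fin 4 → F[X], v 3 ≠ 0 ∧ (∀ i, (v i).natDegree ≤ (v 3).natDegree) ∧
      (v 3).natDegree ≤ 2 ^ (m + 1) * (B * L.length) ∧
      ∀ c : F, ((L.map (gen D c)).prod).1.1 *ᵥ ![1, 0, 0, 0] =
        (D.tt 0 (c ^ lead (L.head hL))).1.1 *ᵥ (fun i => (v i).eval c) := by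
  induction L with
  | nil => exact absurd rfl hL
  | cons x L ih =>
    rcases L with _ | ⟨y, L⟩
    · refine ⟨![0, 0, 0, 1], one_ne_zero, ?_, ?_, ?_⟩
      · intro i; fin_cases i <;> simp
      · simp
      · intro c
        rw [List.map_cons, List.map_nil, List.prod_cons, List.prod_nil, mul_one]
        rw [gen_vec, tt_vec D (c ^ trail x), ww_vec]
        show _ = (D.tt 0 (c ^ lead x)).1.1 *ᵥ _
        congr 1
        ext i
        fin_cases i <;> simp
    · obtain ⟨v, hv0, hv1, hv2, hv3⟩ := ih (by simp) (hred.tail) (fun z hz => hB z (List.mem_cons_of_mem _ hz))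
      have hxy : x.1 = y.1 → x.2 = y.2 := (FreeGroup.isReduced_cons_cons.1 hred).1
      have hne := trail_ne_lead hxy
      set b : F[X] := X ^ trail x + X ^ lead y with hb
      have hxB := hB x (by simp)
      have hyB := hB y (by simp)
      have hbdeg : b.natDegree ≤ B := by
        refine (natDegree_add_le _ _).trans ?_
        rw [natDegree_X_pow, natDegree_X_pow]
        have := trail_le x
        have := lead_le y
        omega
      have hbpos : 1 ≤ b.natDegree := by
        rcases lt_or_gt_of_ne hne with h | h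
        · rw [hb, natDegree_add_eq_right_of_natDegree_lt (by rw [natDegree_X_pow, natDegree_X_pow]; exact h), natDegree_X_pow]
          exact lead_pos y
        · rw [hb, natDegree_add_eq_left_of_natDegree_lt (by rw [natDegree_X_pow, natDegree_X_pow]; exact h), natDegree_X_pow]
          have := lead_pos y
          omega
      have hb0 : b ≠ 0 := by rintro h; rw [h, natDegree_zero] at hbpos; omega
      set Q := 2 ^ (m + 1) with hQ
      have hQ2 : 2 ≤ Q := by
        rw [hQ, pow_succ]; have : 0 < 2 ^ m := by positivity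
        omega
      set d := (v 3).natDegree with hd
      have htop : (b ^ Q * v 3).natDegree = Q * b.natDegree + d := by
        rw [natDegree_mul (pow_ne_zero _ hb0) hv0, natDegree_pow]
      have hlow : (v 0 + b * v 2).natDegree ≤ b.natDegree + d := by
        refine (natDegree_add_le _ _).trans (max_le ?_ ?_)
        · exact (hv1 0).trans (by omega)
        · exact natDegree_mul_le.trans (Nat.add_le_add_left (hv1 2) _)
      have hQb : b.natDegree + 1 ≤ Q * b.natDegree := by nlinarith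
      have h3 : (v 0 + b * v 2 + b ^ Q * v 3).natDegree = Q * b.natDegree + d := by
        rw [natDegree_add_eq_right_of_natDegree_lt (by rw [htop]; omega), htop]
      refine ⟨![v 3, v 2, v 1 + b * v 3, v 0 + b * v 2 + b ^ Q * v 3], ?_, ?_, ?_, ?_⟩
      · intro h0
        have h0' : v 0 + b * v 2 + b ^ Q * v 3 = 0 := h0
        rw [h0', natDegree_zero] at h3
        omega
      · intro i
        show _ ≤ (v 0 + b * v 2 + b ^ Q * v 3).natDegree
        rw [h3]
        fin_cases i
        · show (v 3).natDegree ≤ _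
          omega
        · show (v 2).natDegree ≤ _
          have := hv1 2
          omega
        · show (v 1 + b * v 3).natDegree ≤ _
          refine (natDegree_add_le _ _).trans (max_le ?_ ?_)
          · have := hv1 1
            omega
          · refine natDegree_mul_le.trans ?_
            omega
        · show (v 0 + b * v 2 + b ^ Q * v 3).natDegree ≤ _
          rw [h3]
      · show (v 0 + b * v 2 + b ^ Q * v 3).natDegree ≤ _
        rw [h3]
        have h4 : Q * b.natDegree ≤ Q * B := Nat.mul_le_mul_left _ hbdeg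
        have h5 : (x :: y :: L).length = (y :: L).length + 1 := rfl
        rw [h5]
        calc Q * b.natDegree + d ≤ Q * B + Q * (B * (y :: L).length) := Nat.add_le_add h4 hv2
          _ = _ := by ring
      · intro c
        have hv3' := hv3 c
        have e1 : ((x :: y :: L).map (gen D c)).prod = gen D c x * ((y :: L).map (gen D c)).prod := rfl
        rw [e1, mat_mul, ← Matrix.mulVec_mulVec, hv3', gen_vec]
        show (D.tt 0 (c ^ lead x)).1.1 *ᵥ ((D.ww).1.1 *ᵥ ((D.tt 0 (c ^ trail x)).1.1 *ᵥ ((D.tt 0 (c ^ lead y)).1.1 *ᵥ _))) = (D.tt 0 (c ^ lead x)).1.1 *ᵥ _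
        congr 1
        rw [tt_tt_vec, tt_vec, ww_vec]
        have hbe : b.eval c = c ^ trail x + c ^ lead y := by rw [hb]; simp
        rw [← hbe]
        ext i
        fin_cases i <;> simp [hQ]

/-- A non-trivial law holds in only finitely many Suzuki groups: for every non-trivial element w of the free group on countably many generators there is N such that for q = 2^(2m+1) with m ≥ N some substitution of elements of the Suzuki group over the field with q elements into w is not the identity. -/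
theorem result (w : FreeGroup ℕ) (hw : w ≠ 1) :
    ∃ N : ℕ, ∀ (F : Type*) [Field F] [Fintype F] (m : ℕ), 1 ≤ m → N ≤ m →
      Fintype.card F = 2 ^ (2 * m + 1) →
      ∃ f : ℕ → ↥(Cfsg.Lie.Sz F (2 ^ (m + 1))), FreeGroup.lift f w ≠ 1 := by
  classical
  set L := w.toWord with hL
  have hLne : L ≠ [] := by
    intro h
    apply hw
    rw [← FreeGroup.mk_toWord (x := w), ← hL, h]
    rfl
  have hred : FreeGroup.IsReduced L := FreeGroup.isReduced_toWord
  set B := (L.map (fun x => 2 * x.1 + 2)).sum with hB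
  have hBx : ∀ x ∈ L, 2 * x.1 + 2 ≤ B := by
    intro x hx
    exact List.single_le_sum (by simp) _ (List.mem_map_of_mem (f := fun x : ℕ × Bool => 2 * x.1 + 2) hx)
  refine ⟨B * L.length + 1, ?_⟩
  intro F _ _ m hm hN hF
  obtain ⟨D⟩ := exists_dat hm hF
  obtain ⟨e⟩ := D.LieSz_equiv
  obtain ⟨v, hv0, -, hv2, hv3⟩ := main D B L hLne hred hBx
  obtain ⟨c, hc⟩ : ∃ c : F, (v 3).eval c ≠ 0 := by
    apply Polynomial.exists_eval_ne_zero_of_natDegree_lt_card _ hv0
    rw [Cardinal.mk_fintype, hF]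
    have h1 : B * L.length < 2 ^ m := by
      have := Nat.lt_two_pow_self (n := m)
      omega
    have h2 : 2 ^ (m + 1) * (B * L.length) < 2 ^ (m + 1) * 2 ^ m := Nat.mul_lt_mul_of_pos_left h1 (by positivity)
    have h3 : 2 ^ (m + 1) * 2 ^ m = 2 ^ (2 * m + 1) := by rw [← pow_add]; congr 1; ring
    exact_mod_cast (lt_of_le_of_lt hv2 (by rw [← h3]; exact h2))
  refine ⟨fun i => e.symm (gen D c (i, true)), fun h => hc ?_⟩
  have h1 : FreeGroup.lift (fun i => gen D c (i, true)) w = 1 := by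
    have h2 : (e.toMonoidHom.comp (FreeGroup.lift (fun i => e.symm (gen D c (i, true))))) = FreeGroup.lift (fun i => gen D c (i, true)) := by
      ext1 i
      show e (FreeGroup.lift (fun i => e.symm (gen D c (i, true))) (FreeGroup.of i)) = FreeGroup.lift (fun i => gen D c (i, true)) (FreeGroup.of i)
      rw [FreeGroup.lift_apply_of, FreeGroup.lift_apply_of, e.apply_symm_apply]
    rw [← h2]
    show e (FreeGroup.lift (fun i => e.symm (gen D c (i, true))) w) = 1
    rw [h, map_one]
  rw [← FreeGroup.mk_toWord (x := w), ← hL, FreeGroup.lift_mk] at h1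
  have h2 : (L.map fun x => cond x.2 (gen D c (x.1, true)) (gen D c (x.1, true))⁻¹) = L.map (gen D c) :=
    List.map_congr_left (fun x _ => gen_cond D c x)
  rw [h2] at h1
  have h3 := hv3 c
  rw [h1, mat_one, Matrix.one_mulVec, tt_vec] at h3
  have h4 := congrFun h3 3
  simpa using h4.symm

end Cfsg.Agent.S2354
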