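import Cfsg.Statements.S2360
import Mathlib
import Cfsg.Agent.Lib.Su3
-- import your own Cfsg.Agent.* helpers here

set_option autoImplicit false
open Cfsg
set_option linter.all false

namespace Cfsg.Agent.S2360

/-- Let q be odd, F the field with q² elements and S = SU_3(F) (determinant-one isometries of the standard Hermitian form). Then all involutions of S are conjugate; there are exactly q²(q²−q+1) of them; the centralizer of an involution has order q(q+1)(q²−1), the order of the full unitary group of degree 2; and for two distinct commuting involutions t and x there is exactly one further involution commuting with both. -/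
theorem result {F : Type*} [Field F] [Fintype F] {q : ℕ} (hq : Odd q)
    (hF : Fintype.card F = q ^ 2) (t : ↥(Cfsg.SU 3 F q)) (ht : t ≠ 1) (ht2 : t * t = 1) :
    (∀ x : ↥(Cfsg.SU 3 F q), x ≠ 1 → x * x = 1 → ∃ g : ↥(Cfsg.SU 3 F q), g * t * g⁻¹ = x) ∧
    Nat.card {x : ↥(Cfsg.SU 3 F q) // x ≠ 1 ∧ x * x = 1} = q ^ 2 * (q ^ 2 - q + 1) ∧
    Nat.card ↥(Subgroup.centralizer ({t} : Set ↥(Cfsg.SU 3 F q))) = q * (q + 1) * (q ^ 2 - 1) ∧
    ∀ x : ↥(Cfsg.SU 3 F q), x ≠ 1 → x * x = 1 → x ≠ t → Commute t x →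
      Nat.card {y : ↥(Cfsg.SU 3 F q) // y ≠ 1 ∧ y * y = 1 ∧ y ≠ t ∧ y ≠ x ∧ Commute t y ∧ Commute x y} = 1 := by
  classical
  have h2 : (2 : F) ≠ 0 := by
    intro h
    have h1 : Odd (Fintype.card F) := by rw [hF]; exact hq.pow
    have h3 : ringChar F ≠ 2 := by
      intro hc
      have := FiniteField.even_card_of_char_two hc
      rw [Nat.odd_iff] at h1
      omega
    exact Ring.two_ne_zero h3 h
  obtain ⟨σ, hσ, hσq⟩ := Cfsg.Agent.Lib.Herm.exists_sigma hF
  obtain ⟨hσ2, hσ1, hσ3⟩ := Cfsg.Agent.Lib.Herm.sigma_facts hσ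
  exact Cfsg.Agent.Lib.Su3.main (Cfsg.Agent.Lib.Herm.std_nd hσ2 3) hF hσ hσq h2 (Module.finrank_fin_fun F) (Cfsg.Agent.Lib.Herm.suEquiv hσ2 hσq 3) t ht ht2


end Cfsg.Agent.S2360
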