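import Cfsg.Statements.S2450
import Mathlib
import Cfsg.Agent.Lib.Tor5
-- import your own Cfsg.Agent.* helpers here

set_option autoImplicit false
open Cfsg
set_option linter.all false

namespace Cfsg.Agent.S2450

/-- The Arad–Herzog conjecture for PSL(2,q): let F be a finite field with q ≥ 4 elements. For any two non-identity elements a, b of PSL(2,F), the set of products of a conjugate of a with a conjugate of b is not a single conjugacy class. -/
theorem result {F : Type*} [Field F] [Fintype F] (h4 : 4 ≤ Fintype.card F)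
    (a b : Matrix.ProjectiveSpecialLinearGroup (Fin 2) F) (ha : a ≠ 1) (hb : b ≠ 1) (c : Matrix.ProjectiveSpecialLinearGroup (Fin 2) F) :
    {g : Matrix.ProjectiveSpecialLinearGroup (Fin 2) F | ∃ u v : Matrix.ProjectiveSpecialLinearGroup (Fin 2) F, g = (u * a * u⁻¹) * (v * b * v⁻¹)} ≠ {g | IsConj c g} := by
  classical
  intro heq
  obtain ⟨A, rfl⟩ := Cfsg.Agent.Lib.Tor.mk_surj a
  obtain ⟨B, rfl⟩ := Cfsg.Agent.Lib.Tor.mk_surj b
  obtain ⟨C, rfl⟩ := Cfsg.Agent.Lib.Tor.mk_surj c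
  obtain ⟨n, hn⟩ := Cfsg.Agent.Lib.Tor.exists_lower (Cfsg.Agent.Lib.Tor.ns_of_mk ha)
  obtain ⟨m, hm⟩ := Cfsg.Agent.Lib.Tor.exists_lower (Cfsg.Agent.Lib.Tor.ns_of_mk hb)
  have key : ∀ z : F, ((((n * A * n⁻¹) * (Cfsg.Agent.Lib.SL2.t z * (m * B * m⁻¹) * (Cfsg.Agent.Lib.SL2.t z)⁻¹) : Matrix.SpecialLinearGroup (Fin 2) F) : Matrix (Fin 2) (Fin 2) F).trace =
      (C : Matrix (Fin 2) (Fin 2) F).trace) ∨ ((((n * A * n⁻¹) * (Cfsg.Agent.Lib.SL2.t z * (m * B * m⁻¹) * (Cfsg.Agent.Lib.SL2.t z)⁻¹) : Matrix.SpecialLinearGroup (Fin 2) F) : Matrix (Fin 2) (Fin 2) F).trace =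
      -(C : Matrix (Fin 2) (Fin 2) F).trace) := by
    intro z
    apply Cfsg.Agent.Lib.Tor.trace_of_conj_mk
    have hmem : Cfsg.Agent.Lib.Tor.mk F ((n * A * n⁻¹) * (Cfsg.Agent.Lib.SL2.t z * (m * B * m⁻¹) * (Cfsg.Agent.Lib.SL2.t z)⁻¹)) ∈
        {g : Matrix.ProjectiveSpecialLinearGroup (Fin 2) F | ∃ u v : Matrix.ProjectiveSpecialLinearGroup (Fin 2) F, g = (u * Cfsg.Agent.Lib.Tor.mk F A * u⁻¹) * (v * Cfsg.Agent.Lib.Tor.mk F B * v⁻¹)} := by
      refine ⟨Cfsg.Agent.Lib.Tor.mk F n, Cfsg.Agent.Lib.Tor.mk F (Cfsg.Agent.Lib.SL2.t z * m), ?_⟩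
      rw [← map_inv, ← map_inv, ← map_mul, ← map_mul, ← map_mul, ← map_mul, ← map_mul]
      congr 1
      group
    rw [heq] at hmem
    exact IsConj.symm hmem
  simp only [Cfsg.Agent.Lib.Tor.trace_prod] at key
  have h0 := neg_ne_zero.mpr (mul_ne_zero hn hm)
  have h1 := Cfsg.Agent.Lib.Tor.quad_count h0 key
  -- q = 4
  have h3 : Fintype.card F = 4 := le_antisymm h1 h4
  have h2 : (2 : F) = 0 := by
    have h5 : ((Fintype.card F : ℕ) : F) = 0 := Nat.cast_card_eq_zero F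
    rw [h3] at h5
    have h6 : (2 : F) * 2 = 0 := by rw [← h5]; norm_num
    exact mul_self_eq_zero.mp h6
  have h7 : ∀ τ : F, -τ = τ := by
    intro τ; linear_combination -τ * h2
  simp only [h7, or_self] at key
  have h8 := Cfsg.Agent.Lib.Tor.quad_count' (by
    have := h0
    simp only [h7] at this
    exact this) key
  omega


end Cfsg.Agent.S2450
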