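import Cfsg.Statements.S2455
import Mathlib
import Cfsg.Agent.Lib.Tor7
-- import your own Cfsg.Agent.* helpers here

set_option autoImplicit false
open Cfsg
set_option linter.all false

namespace Cfsg.Agent.S2455

/-- A strong covering result in the direction of Thompson's conjecture (non-identity elements) for PSL(2,q), q odd: let F be a finite field of odd characteristic p with at least 5 elements and let x ∈ PSL(2,F) have order greater than 2 and not divisible by p (so x is not unipotent). Then every non-identity element of PSL(2,F) is a product of two conjugates of x. -/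
theorem result {F : Type*} [Field F] [Fintype F] (p : ℕ) [Fact p.Prime] [CharP F p] (hp : p ≠ 2) (h5 : 5 ≤ Fintype.card F)
    (x : Matrix.ProjectiveSpecialLinearGroup (Fin 2) F) (hx2 : 2 < orderOf x) (hxp : ¬ p ∣ orderOf x) : ∀ g : Matrix.ProjectiveSpecialLinearGroup (Fin 2) F, g ≠ 1 → ∃ u v : Matrix.ProjectiveSpecialLinearGroup (Fin 2) F, g = (u * x * u⁻¹) * (v * x * v⁻¹) := by
  intro g hg
  obtain ⟨X, rfl⟩ := Cfsg.Agent.Lib.Tor.mk_surj x
  obtain ⟨G, rfl⟩ := Cfsg.Agent.Lib.Tor.mk_surj g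
  have h2 : (2 : F) ≠ 0 := by
    intro h
    have h3 : ((2 : ℕ) : F) = 0 := by exact_mod_cast h
    rw [CharP.cast_eq_zero_iff F p] at h3
    exact hp ((Nat.prime_dvd_prime_iff_eq Fact.out Nat.prime_two).mp h3)
  have hX0 : (X : Matrix (Fin 2) (Fin 2) F).trace ≠ 0 := by
    intro h
    have h3 := orderOf_dvd_of_pow_eq_one (Cfsg.Agent.Lib.Tor.mk_sq_of_trace h)
    have := Nat.le_of_dvd (by norm_num) h3
    omega
  have hXr : Cfsg.Agent.Lib.Tor.Reg X := by
    by_contra hcon
    have h3 := orderOf_dvd_of_pow_eq_one (Cfsg.Agent.Lib.Tor.mk_pow_p (p := p) hcon)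
    rcases (Nat.dvd_prime Fact.out).mp h3 with h4 | h4
    · omega
    · exact hxp (by rw [h4])
  by_cases hGr : Cfsg.Agent.Lib.Tor.Reg G
  · exact Cfsg.Agent.Lib.Tor.prod_gen hX0 hXr hGr
  · have h5 : (G : Matrix (Fin 2) (Fin 2) F).trace ^ 2 = 4 := by
      unfold Cfsg.Agent.Lib.Tor.Reg at hGr
      push Not at hGr
      exact hGr
    exact Cfsg.Agent.Lib.Tor.prod_par h2 hX0 hXr (Cfsg.Agent.Lib.Tor.ns_of_mk hg) h5


end Cfsg.Agent.S2455
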