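import Cfsg.Statements.S2456
import Mathlib
import Cfsg.Agent.Lib.Tor7
-- import your own Cfsg.Agent.* helpers here

set_option autoImplicit false
open Cfsg
set_option linter.all false

namespace Cfsg.Agent.S2456

/-- A strong covering result in the direction of Thompson's conjecture (non-identity elements) for PSL(2,q), q even: let F be a finite field of characteristic 2 with q ≥ 4 elements and let x ∈ PSL(2,F) have order greater than 2 and not dividing q + 1. Then every non-identity element of PSL(2,F) is a product of two conjugates of x. -/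
theorem result {F : Type*} [Field F] [Fintype F] [CharP F 2] (h4 : 4 ≤ Fintype.card F)
    (x : Matrix.ProjectiveSpecialLinearGroup (Fin 2) F) (hx2 : 2 < orderOf x) (hxq : ¬ orderOf x ∣ Fintype.card F + 1) : ∀ g : Matrix.ProjectiveSpecialLinearGroup (Fin 2) F, g ≠ 1 → ∃ u v : Matrix.ProjectiveSpecialLinearGroup (Fin 2) F, g = (u * x * u⁻¹) * (v * x * v⁻¹) := by
  intro g hg
  obtain ⟨X, rfl⟩ := Cfsg.Agent.Lib.Tor.mk_surj x
  obtain ⟨G, rfl⟩ := Cfsg.Agent.Lib.Tor.mk_surj g
  have h2 : (2 : F) = 0 := by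
    have h3 : ((2 : ℕ) : F) = 0 := CharP.cast_eq_zero F 2
    exact_mod_cast h3
  have hX0 : (X : Matrix (Fin 2) (Fin 2) F).trace ≠ 0 := by
    intro h
    have h3 := orderOf_dvd_of_pow_eq_one (Cfsg.Agent.Lib.Tor.mk_sq_of_trace h)
    have := Nat.le_of_dvd (by norm_num) h3
    omega
  have hXr : Cfsg.Agent.Lib.Tor.Reg X := by
    intro h
    apply hX0
    rw [show (4 : F) = 2 * 2 by norm_num, h2, mul_zero] at h
    exact pow_eq_zero_iff two_ne_zero |>.mp h
  by_cases hGr : Cfsg.Agent.Lib.Tor.Reg G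
  · exact Cfsg.Agent.Lib.Tor.prod_gen hX0 hXr hGr
  · have h5 : (G : Matrix (Fin 2) (Fin 2) F).trace = 0 := by
      unfold Cfsg.Agent.Lib.Tor.Reg at hGr
      push Not at hGr
      rw [show (4 : F) = 2 * 2 by norm_num, h2, mul_zero] at hGr
      exact pow_eq_zero_iff two_ne_zero |>.mp hGr
    rcases hXr.cases with ⟨a, b, hab, ht, hd⟩ | h
    · exact Cfsg.Agent.Lib.Tor.prod_par_two h2 hab ht hd (Cfsg.Agent.Lib.Tor.ns_of_mk hg) h5
    · exfalso
      apply hxq
      have h6 := Subgroup.orderOf_dvd_natCard _ (Cfsg.Agent.Lib.Tor.self_mem X)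
      rw [Cfsg.Agent.Lib.Tw.card_centSL_ne h] at h6
      exact (orderOf_map_dvd _ X).trans h6


end Cfsg.Agent.S2456
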