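import Cfsg.Statements.S2471
import Mathlib
import Cfsg.Agent.Lib.Tor13
-- import your own Cfsg.Agent.* helpers here

set_option autoImplicit false
open Cfsg
set_option linter.all false

namespace Cfsg.Agent.S2471

/-- In PSL(2,q) with q odd, the characteristic p is isolated from 2 in the prime graph: for F a finite field of odd characteristic p with at least 5 elements, PSL(2,F) has no element of order 2p. -/
theorem result {F : Type*} [Field F] [Fintype F] (p : ℕ) [Fact p.Prime] [CharP F p] (hp : p ≠ 2) (h5 : 5 ≤ Fintype.card F) (g : Matrix.ProjectiveSpecialLinearGroup (Fin 2) F) :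
    orderOf g ≠ 2 * p := by
  classical
  intro ho
  have hodd : Odd (Fintype.card F) := by
    obtain ⟨n, hn, hcard⟩ := FiniteField.card F p
    rw [hcard]
    exact (hn.odd_of_ne_two hp).pow
  have h2 := Cfsg.Agent.Lib.Tw.two_ne_zero_of_odd hodd
  have hpp : p.Prime := Fact.out
  obtain ⟨g, rfl⟩ := Cfsg.Agent.Lib.Tor.mk_surj g
  have ho2 : orderOf (Cfsg.Agent.Lib.Tor.mk F (g ^ p)) = 2 := by
    rw [map_pow, orderOf_pow_of_dvd hpp.ne_zero (by rw [ho]; exact Dvd.intro_left 2 rfl), ho]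
    exact Nat.mul_div_cancel _ hpp.pos
  have hop : orderOf (Cfsg.Agent.Lib.Tor.mk F (g ^ 2)) = p := by
    rw [map_pow, orderOf_pow_of_dvd two_ne_zero (by rw [ho]; exact Dvd.intro p rfl), ho]
    exact Nat.mul_div_cancel_left _ (by norm_num)
  have hne : Cfsg.Agent.Lib.Tor.mk F (g ^ p) ≠ 1 := by
    intro h
    rw [h, orderOf_one] at ho2
    norm_num at ho2
  have hns := Cfsg.Agent.Lib.Tor.ns_of_mk hne
  have hsq : (g ^ p) * (g ^ p) = -1 := by
    have h3 : Cfsg.Agent.Lib.Tor.mk F ((g ^ p) * (g ^ p)) = 1 := by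
      rw [map_mul, ← pow_two]
      have := pow_orderOf_eq_one (Cfsg.Agent.Lib.Tor.mk F (g ^ p))
      rwa [ho2] at this
    rcases Cfsg.Agent.Lib.Tor.mk_eq_one.mp h3 with h | h
    · exfalso
      rcases (Cfsg.Agent.Lib.Tor.sq_eq_one h2).mp h with h' | h'
      · exact hne (Cfsg.Agent.Lib.Tor.mk_eq_one.mpr (Or.inl h'))
      · exact hne (Cfsg.Agent.Lib.Tor.mk_eq_one.mpr (Or.inr h'))
    · exact h
  have hcl : Cfsg.Agent.Lib.Tor.Reg (g ^ p) := by
    intro h3
    -- (trace)^2 = 4 : then par or scalar, square is not -1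
    have h4 : (((g ^ p : Matrix.SpecialLinearGroup (Fin 2) F) : Matrix (Fin 2) (Fin 2) F)) * (g ^ p : Matrix.SpecialLinearGroup (Fin 2) F) = -1 := by
      have := congrArg Subtype.val hsq
      exact this
    have hd := (g ^ p).det_coe
    rw [Matrix.det_fin_two] at hd
    have e00 := congrFun (congrFun h4 0) 0
    have e01 := congrFun (congrFun h4 0) 1
    have e10 := congrFun (congrFun h4 1) 0
    have e11 := congrFun (congrFun h4 1) 1
    rw [Matrix.trace_fin_two] at h3
    set X := ((g ^ p : Matrix.SpecialLinearGroup (Fin 2) F) : Matrix (Fin 2) (Fin 2) F) with hX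
    simp only [Matrix.mul_apply, Fin.sum_univ_two, Matrix.neg_apply, Matrix.one_apply_eq] at e00 e11
    have ht : (X 0 0 + X 1 1) * (X 0 0 + X 1 1) = 0 := by linear_combination e00 + e11 + 2 * hd
    have h5 : (4 : F) = 0 := by linear_combination ht - h3
    have h6 : (2 : F) * 2 = 0 := by linear_combination h5
    rcases mul_eq_zero.mp h6 with h | h <;> exact h2 h
  have hmem : g ^ 2 ∈ Cfsg.Agent.Lib.Tor.Ct (g ^ p) := by
    rw [Subgroup.mem_centralizer_singleton_iff]
    exact ((Commute.refl g).pow_pow 2 p).eq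
  have h7 : p ∣ orderOf (g ^ 2) := by
    rw [← hop]
    exact orderOf_map_dvd _ _
  have h8 : orderOf (g ^ 2) ∣ Nat.card (Cfsg.Agent.Lib.Tor.Ct (g ^ p)) := Subgroup.orderOf_dvd_natCard _ hmem
  have h9 := h7.trans h8
  have hpq : p ∣ Fintype.card F := by
    obtain ⟨n, _, hn⟩ := FiniteField.card F p
    rw [hn]; exact dvd_pow_self p n.ne_zero
  rcases Cfsg.Agent.Lib.Tor.card_Ct hcl with h | h
  · rw [h] at h9
    have h1 := (Nat.dvd_sub hpq h9)
    rw [Nat.sub_sub_self Fintype.card_pos] at h1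
    exact hpp.one_lt.ne' (Nat.dvd_one.mp h1)
  · rw [h] at h9
    have h1 := (Nat.dvd_sub h9 hpq)
    rw [Nat.add_sub_cancel_left] at h1
    exact hpp.one_lt.ne' (Nat.dvd_one.mp h1)


end Cfsg.Agent.S2471
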