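import Cfsg.Statements.S2503
import Mathlib
import Cfsg.Agent.Lib.Aba1
-- import your own Cfsg.Agent.* helpers here

set_option autoImplicit false
open Cfsg
set_option linter.all false

namespace Cfsg.Agent.S2503

/-- Let F be a finite field with q = 2^t ≥ 4 elements and L = PSL(2,F). Then L has a cyclic subgroup A of order q + 1 and an elementary abelian 2-subgroup B of order q such that L = ABA: every element of L is a product a·b·a' with a, a' ∈ A and b ∈ B. -/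
theorem result {F : Type*} [Field F] [Fintype F]
    (h2 : 2 ∣ Fintype.card F) (h4 : 4 ≤ Fintype.card F) :
    ∃ A B : Subgroup (Matrix.ProjectiveSpecialLinearGroup (Fin 2) F),
      IsCyclic A ∧ Nat.card A = Fintype.card F + 1 ∧ IsMulCommutative B ∧ (∀ b ∈ B, b * b = 1) ∧
        Nat.card B = Fintype.card F ∧
        ∀ g : Matrix.ProjectiveSpecialLinearGroup (Fin 2) F, ∃ a ∈ A, ∃ b ∈ B, ∃ c ∈ A, g = a * b * c := by
  classical
  haveI : CharP F 2 := by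
    obtain ⟨p, hp⟩ := CharP.exists F
    haveI := hp
    haveI : Fact p.Prime := ⟨CharP.char_is_prime F p⟩
    obtain ⟨n, hn, hcard⟩ := FiniteField.card F p
    rw [hcard] at h2
    have := (Nat.prime_dvd_prime_iff_eq Nat.prime_two hn).mp (Nat.prime_two.dvd_of_dvd_pow h2)
    subst this
    exact hp
  obtain ⟨t, ht⟩ := Cfsg.Agent.Lib.Tor.exists_ne_trace F
  have hne := Cfsg.Agent.Lib.Tor.ne_cmpS ht
  have hreg := Cfsg.Agent.Lib.Tor.reg_of_ne' hne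
  have hcard := Cfsg.Agent.Lib.Tw.card_centSL_ne hne
  have hinj : Function.Injective (Cfsg.Agent.Lib.Tor.mk F) := by
    intro a b h
    rcases Cfsg.Agent.Lib.Tor.mk_eq_iff.mp h with h | h
    · exact h.symm
    · rw [h]
      apply Subtype.ext
      rw [Matrix.SpecialLinearGroup.coe_neg]
      ext i j
      rw [Matrix.neg_apply, CharTwo.neg_eq]
  haveI := Cfsg.Agent.Lib.Tor.Ct_cyclic hreg
  refine ⟨(Cfsg.Agent.Lib.Tor.Ct (Cfsg.Agent.Lib.Tw.cmpS t)).map (Cfsg.Agent.Lib.Tor.mk F), (Cfsg.Agent.Lib.SL2.U F).map (Cfsg.Agent.Lib.Tor.mk F), ?_, ?_, ?_, ?_, ?_, ?_⟩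
  · exact isCyclic_of_surjective ((Cfsg.Agent.Lib.Tor.mk F).subgroupMap _) (MonoidHom.subgroupMap_surjective _ _)
  · rw [Nat.card_congr ((Cfsg.Agent.Lib.Tor.Ct (Cfsg.Agent.Lib.Tw.cmpS t)).equivMapOfInjective _ hinj).symm.toEquiv]
    exact hcard
  · refine ⟨⟨?_⟩⟩
    rintro ⟨_, a, ha, rfl⟩ ⟨_, b, hb, rfl⟩
    apply Subtype.ext
    obtain ⟨x, rfl⟩ := Cfsg.Agent.Lib.SL2.mem_U.mp ha
    obtain ⟨y, rfl⟩ := Cfsg.Agent.Lib.SL2.mem_U.mp hb
    show Cfsg.Agent.Lib.Tor.mk F _ * Cfsg.Agent.Lib.Tor.mk F _ = Cfsg.Agent.Lib.Tor.mk F _ * Cfsg.Agent.Lib.Tor.mk F _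
    rw [← map_mul, ← map_mul, ← Cfsg.Agent.Lib.SL2.t_add, ← Cfsg.Agent.Lib.SL2.t_add, add_comm]
  · rintro _ ⟨a, ha, rfl⟩
    obtain ⟨x, rfl⟩ := Cfsg.Agent.Lib.SL2.mem_U.mp ha
    rw [← map_mul, ← Cfsg.Agent.Lib.SL2.t_add, CharTwo.add_self_eq_zero, Cfsg.Agent.Lib.SL2.t_zero, map_one]
  · rw [Nat.card_congr ((Cfsg.Agent.Lib.SL2.U F).equivMapOfInjective _ hinj).symm.toEquiv, Cfsg.Agent.Lib.SL2.card_U, Nat.card_eq_fintype_card]
  · intro g
    obtain ⟨g, rfl⟩ := Cfsg.Agent.Lib.Tor.mk_surj g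
    obtain ⟨a, ha, b, hb, c, hc, rfl⟩ := Cfsg.Agent.Lib.Aba.aba ht g
    refine ⟨_, ⟨a, ha, rfl⟩, _, ⟨b, hb, rfl⟩, _, ⟨c, hc, rfl⟩, ?_⟩
    rw [map_mul, map_mul]


end Cfsg.Agent.S2503
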