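import Cfsg.Statements.S2507
import Mathlib
import Cfsg.Agent.Lib.Tor8
-- import your own Cfsg.Agent.* helpers here

set_option autoImplicit false
open Cfsg
set_option linter.all false

namespace Cfsg.Agent.S2507

/-- Let F be a finite field with q = 2^f ≥ 4 elements. The conjugacy class sizes of PSL(2,F) are exactly 1, q(q − 1), q² − 1 and q(q + 1). -/
theorem result {F : Type*} [Field F] [Fintype F]
    (h2 : 2 ∣ Fintype.card F) (h4 : 4 ≤ Fintype.card F) :
    Set.range (fun g : (Matrix.ProjectiveSpecialLinearGroup (Fin 2) F) => (Subgroup.centralizer ({g} : Set (Matrix.ProjectiveSpecialLinearGroup (Fin 2) F))).index) =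
      {1, Fintype.card F * (Fintype.card F - 1), Fintype.card F ^ 2 - 1, Fintype.card F * (Fintype.card F + 1)} := by
  classical
  have hq : 1 < Fintype.card F := Fintype.one_lt_card
  have h20 : (2 : F) = 0 := by
    obtain ⟨k, hk⟩ := h2
    by_contra hne
    have h3 : ((Fintype.card F : ℕ) : F) = 0 := Nat.cast_card_eq_zero F
    obtain ⟨p, hp⟩ := CharP.exists F
    haveI := hp
    obtain ⟨n, hpr, hn⟩ := FiniteField.card F p
    have h5 : (2 : ℕ) ∣ p := Nat.Prime.dvd_of_dvd_pow (n := n) Nat.prime_two (by rw [← hn]; exact ⟨k, hk⟩)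
    have h6 := (Nat.prime_dvd_prime_iff_eq Nat.prime_two hpr).mp h5
    subst h6
    exact hne (by exact_mod_cast CharP.cast_eq_zero F 2)
  haveI : CharP F 2 := CharTwo.of_one_ne_zero_of_two_eq_zero one_ne_zero h20
  obtain ⟨A, hA, hAc⟩ := Cfsg.Agent.Lib.Tor.exists_split h4
  obtain ⟨B, hB, hBc⟩ := Cfsg.Agent.Lib.Tor.exists_nonsplit (F := F)
  obtain ⟨k, hk⟩ : ∃ k, Fintype.card F = k + 1 := ⟨Fintype.card F - 1, by omega⟩
  have hsplit : ∀ G : Matrix.SpecialLinearGroup (Fin 2) F, Nat.card (Cfsg.Agent.Lib.Tor.Ct G) = Fintype.card F - 1 →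
      (Subgroup.centralizer ({Cfsg.Agent.Lib.Tor.mk F G} : Set (Matrix.ProjectiveSpecialLinearGroup (Fin 2) F))).index = Fintype.card F * (Fintype.card F + 1) := by
    intro G hG
    rw [Cfsg.Agent.Lib.Tor.index_Ch, Cfsg.Agent.Lib.Tor.Ch_eq_Ct (Or.inr h20)]
    exact Cfsg.Agent.Lib.Tor.index_of_card hG (by ring) (by omega)
  have hnon : ∀ G : Matrix.SpecialLinearGroup (Fin 2) F, Nat.card (Cfsg.Agent.Lib.Tor.Ct G) = Fintype.card F + 1 →
      (Subgroup.centralizer ({Cfsg.Agent.Lib.Tor.mk F G} : Set (Matrix.ProjectiveSpecialLinearGroup (Fin 2) F))).index = Fintype.card F * (Fintype.card F - 1) := by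
    intro G hG
    rw [Cfsg.Agent.Lib.Tor.index_Ch, Cfsg.Agent.Lib.Tor.Ch_eq_Ct (Or.inr h20)]
    exact Cfsg.Agent.Lib.Tor.index_of_card hG (by ring) (by omega)
  have hpar : ∀ G : Matrix.SpecialLinearGroup (Fin 2) F, Cfsg.Agent.Lib.Tw.NS (G : Matrix (Fin 2) (Fin 2) F) → ¬ Cfsg.Agent.Lib.Tor.Reg G →
      (Subgroup.centralizer ({Cfsg.Agent.Lib.Tor.mk F G} : Set (Matrix.ProjectiveSpecialLinearGroup (Fin 2) F))).index = Fintype.card F ^ 2 - 1 := by
    intro G hns hG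
    rw [Cfsg.Agent.Lib.Tor.index_Ch, Cfsg.Agent.Lib.Tor.Ch_eq_Ct (Or.inr h20)]
    have h5 : (G : Matrix (Fin 2) (Fin 2) F).trace = 1 + 1 := by
      unfold Cfsg.Agent.Lib.Tor.Reg at hG
      push Not at hG
      rw [show (4 : F) = 2 * 2 by norm_num, h20, mul_zero] at hG
      rw [pow_eq_zero_iff two_ne_zero |>.mp hG]
      linear_combination -h20
    have h6 := Cfsg.Agent.Lib.Tw.card_centSL_par hns h5 (mul_one 1)
    rw [Cfsg.Agent.Lib.Tw.card_sq_one_two, one_mul] at h6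
    refine Cfsg.Agent.Lib.Tor.index_of_card h6 ?_ (by omega)
    rw [hk]
    have : (k + 1) ^ 2 - 1 = k * (k + 2) := by
      have : (k + 1) ^ 2 = k * (k + 2) + 1 := by ring
      omega
    rw [this, Nat.add_sub_cancel]; ring
  ext m
  simp only [Set.mem_range, Set.mem_insert_iff, Set.mem_singleton_iff]
  constructor
  · rintro ⟨g, rfl⟩
    obtain ⟨G, rfl⟩ := Cfsg.Agent.Lib.Tor.mk_surj g
    by_cases h1 : Cfsg.Agent.Lib.Tor.mk F G = 1
    · left
      rw [Cfsg.Agent.Lib.Tor.index_Ch, Cfsg.Agent.Lib.Tor.Ch_top (Cfsg.Agent.Lib.Tor.mk_eq_one.mp h1), Subgroup.index_top]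
    · by_cases hr : Cfsg.Agent.Lib.Tor.Reg G
      · rcases Cfsg.Agent.Lib.Tor.card_Ct hr with h | h
        · exact Or.inr (Or.inr (Or.inr (hsplit G h)))
        · exact Or.inr (Or.inl (hnon G h))
      · exact Or.inr (Or.inr (Or.inl (hpar G (Cfsg.Agent.Lib.Tor.ns_of_mk h1) hr)))
  · rintro (rfl | rfl | rfl | rfl)
    · exact ⟨Cfsg.Agent.Lib.Tor.mk F 1, by
        rw [Cfsg.Agent.Lib.Tor.index_Ch, Cfsg.Agent.Lib.Tor.Ch_top (Or.inl rfl), Subgroup.index_top]⟩
    · exact ⟨_, hnon B hBc⟩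
    · refine ⟨Cfsg.Agent.Lib.Tor.mk F (Cfsg.Agent.Lib.SL2.t 1), hpar _ ?_ ?_⟩
      · rintro ⟨h, _⟩
        rw [Cfsg.Agent.Lib.SL2.t_coe] at h
        exact one_ne_zero h
      · unfold Cfsg.Agent.Lib.Tor.Reg
        push Not
        rw [Cfsg.Agent.Lib.SL2.t_coe, Matrix.trace_fin_two_of]; norm_num
    · exact ⟨_, hsplit A hAc⟩


end Cfsg.Agent.S2507
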