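import Cfsg.Statements.S2508
import Mathlib
import Cfsg.Agent.Lib.Tor8
-- import your own Cfsg.Agent.* helpers here

set_option autoImplicit false
open Cfsg
set_option linter.all false

namespace Cfsg.Agent.S2508

/-- Let F be a finite field with q elements, q odd and q ≥ 7. If q ≡ 1 (mod 4) the conjugacy class sizes of PSL(2,F) are exactly 1, (q² − 1)/2, q(q + 1)/2, q(q − 1) and q(q + 1); if q ≡ 3 (mod 4) they are exactly 1, (q² − 1)/2, q(q − 1)/2, q(q + 1) and q(q − 1). -/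
theorem result {F : Type*} [Field F] [Fintype F]
    (hodd : ¬ 2 ∣ Fintype.card F) (h7 : 7 ≤ Fintype.card F) :
    (Fintype.card F % 4 = 1 →
      Set.range (fun g : (Matrix.ProjectiveSpecialLinearGroup (Fin 2) F) => (Subgroup.centralizer ({g} : Set (Matrix.ProjectiveSpecialLinearGroup (Fin 2) F))).index) =
        {1, (Fintype.card F ^ 2 - 1) / 2, Fintype.card F * (Fintype.card F + 1) / 2,
          Fintype.card F * (Fintype.card F - 1), Fintype.card F * (Fintype.card F + 1)}) ∧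
    (Fintype.card F % 4 = 3 →
      Set.range (fun g : (Matrix.ProjectiveSpecialLinearGroup (Fin 2) F) => (Subgroup.centralizer ({g} : Set (Matrix.ProjectiveSpecialLinearGroup (Fin 2) F))).index) =
        {1, (Fintype.card F ^ 2 - 1) / 2, Fintype.card F * (Fintype.card F - 1) / 2,
          Fintype.card F * (Fintype.card F + 1), Fintype.card F * (Fintype.card F - 1)}) := by
  classical
  have hq : 1 < Fintype.card F := Fintype.one_lt_card
  have hodd' : Odd (Fintype.card F) := Nat.not_even_iff_odd.mp (fun h => hodd h.two_dvd)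
  have h2 := Cfsg.Agent.Lib.Tw.two_ne_zero_of_odd hodd'
  obtain ⟨A, hA, hAc⟩ := Cfsg.Agent.Lib.Tor.exists_split (F := F) (by omega)
  obtain ⟨B, hB, hBc⟩ := Cfsg.Agent.Lib.Tor.exists_nonsplit (F := F)
  obtain ⟨A', hA', hAc', hAt'⟩ := Cfsg.Agent.Lib.Tor.exists_trace_ne hA (by omega)
  obtain ⟨B', hB', hBc', hBt'⟩ := Cfsg.Agent.Lib.Tor.exists_trace_ne hB (by omega)
  rw [hAc] at hAc'
  rw [hBc] at hBc'
  obtain ⟨k, hk⟩ : ∃ k, Fintype.card F = 2 * k + 1 := hodd'
  -- element of trace zero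
  have htr0 : (Cfsg.Agent.Lib.Tw.cmpS (0 : F) : Matrix (Fin 2) (Fin 2) F).trace = 0 := Cfsg.Agent.Lib.Tw.trace_cmp 0 1
  have hsplit : ∀ G : Matrix.SpecialLinearGroup (Fin 2) F, (G : Matrix (Fin 2) (Fin 2) F).trace ≠ 0 → Nat.card (Cfsg.Agent.Lib.Tor.Ct G) = Fintype.card F - 1 →
      (Subgroup.centralizer ({Cfsg.Agent.Lib.Tor.mk F G} : Set (Matrix.ProjectiveSpecialLinearGroup (Fin 2) F))).index = Fintype.card F * (Fintype.card F + 1) := by
    intro G hG0 hG
    rw [Cfsg.Agent.Lib.Tor.index_Ch, Cfsg.Agent.Lib.Tor.Ch_eq_Ct (Or.inl hG0)]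
    exact Cfsg.Agent.Lib.Tor.index_of_card hG (by ring) (by omega)
  have hnon : ∀ G : Matrix.SpecialLinearGroup (Fin 2) F, (G : Matrix (Fin 2) (Fin 2) F).trace ≠ 0 → Nat.card (Cfsg.Agent.Lib.Tor.Ct G) = Fintype.card F + 1 →
      (Subgroup.centralizer ({Cfsg.Agent.Lib.Tor.mk F G} : Set (Matrix.ProjectiveSpecialLinearGroup (Fin 2) F))).index = Fintype.card F * (Fintype.card F - 1) := by
    intro G hG0 hG
    rw [Cfsg.Agent.Lib.Tor.index_Ch, Cfsg.Agent.Lib.Tor.Ch_eq_Ct (Or.inl hG0)]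
    exact Cfsg.Agent.Lib.Tor.index_of_card hG (by ring) (by omega)
  have hpar : ∀ G : Matrix.SpecialLinearGroup (Fin 2) F, Cfsg.Agent.Lib.Tw.NS (G : Matrix (Fin 2) (Fin 2) F) → ¬ Cfsg.Agent.Lib.Tor.Reg G →
      (Subgroup.centralizer ({Cfsg.Agent.Lib.Tor.mk F G} : Set (Matrix.ProjectiveSpecialLinearGroup (Fin 2) F))).index = (Fintype.card F ^ 2 - 1) / 2 := by
    intro G hns hG
    have hG' : (G : Matrix (Fin 2) (Fin 2) F).trace ^ 2 = 4 := by
      unfold Cfsg.Agent.Lib.Tor.Reg at hG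
      push Not at hG
      exact hG
    have hG0 : (G : Matrix (Fin 2) (Fin 2) F).trace ≠ 0 := by
      intro h
      rw [h] at hG'
      apply h2
      have : (2 : F) * 2 = 0 := by linear_combination -hG'
      exact mul_self_eq_zero.mp this
    rw [Cfsg.Agent.Lib.Tor.index_Ch, Cfsg.Agent.Lib.Tor.Ch_eq_Ct (Or.inl hG0)]
    have h6 := Cfsg.Agent.Lib.Tw.card_centSL_par (α := (G : Matrix (Fin 2) (Fin 2) F).trace / 2) hns (by field_simp; ring) (by
      field_simp
      linear_combination hG')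
    rw [Cfsg.Agent.Lib.Tw.card_sq_one h2] at h6
    refine Cfsg.Agent.Lib.Tor.index_of_card h6 ?_ (by omega)
    rw [hk]
    have : ((2 * k + 1) ^ 2 - 1) / 2 = k * (2 * k + 2) := by
      have : (2 * k + 1) ^ 2 = 2 * (k * (2 * k + 2)) + 1 := by ring
      omega
    rw [this, Nat.add_sub_cancel]; ring
  have hinv : ∀ G : Matrix.SpecialLinearGroup (Fin 2) F, (G : Matrix (Fin 2) (Fin 2) F).trace = 0 → ∀ {b : ℕ}, (2 * Nat.card (Cfsg.Agent.Lib.Tor.Ct G)) * b = Fintype.card F * (Fintype.card F - 1) * (Fintype.card F + 1) →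
      (Subgroup.centralizer ({Cfsg.Agent.Lib.Tor.mk F G} : Set (Matrix.ProjectiveSpecialLinearGroup (Fin 2) F))).index = b := by
    intro G hG b hb
    obtain ⟨hr, he⟩ := Cfsg.Agent.Lib.Tor.Ch_eq_norm h2 hG
    rw [Cfsg.Agent.Lib.Tor.index_Ch, he]
    refine Cfsg.Agent.Lib.Tor.index_of_card (Cfsg.Agent.Lib.Tor.card_norm hr) hb ?_
    have := Nat.card_pos (α := Cfsg.Agent.Lib.Tor.Ct G)
    omega
  have htriv : ∀ G : Matrix.SpecialLinearGroup (Fin 2) F, Cfsg.Agent.Lib.Tor.mk F G = 1 → (Subgroup.centralizer ({Cfsg.Agent.Lib.Tor.mk F G} : Set (Matrix.ProjectiveSpecialLinearGroup (Fin 2) F))).index = 1 := by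
    intro G h1
    rw [Cfsg.Agent.Lib.Tor.index_Ch, Cfsg.Agent.Lib.Tor.Ch_top (Cfsg.Agent.Lib.Tor.mk_eq_one.mp h1), Subgroup.index_top]
  have hunip : Cfsg.Agent.Lib.Tw.NS (Cfsg.Agent.Lib.SL2.t (1 : F) : Matrix (Fin 2) (Fin 2) F) ∧ ¬ Cfsg.Agent.Lib.Tor.Reg (Cfsg.Agent.Lib.SL2.t (1 : F)) := by
    constructor
    · rintro ⟨h, _⟩
      rw [Cfsg.Agent.Lib.SL2.t_coe] at h
      exact one_ne_zero h
    · unfold Cfsg.Agent.Lib.Tor.Reg
      push Not
      rw [Cfsg.Agent.Lib.SL2.t_coe, Matrix.trace_fin_two_of]; norm_num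
  -- type of trace zero elements
  have hF : ringChar F ≠ 2 := by
    intro h
    apply h2
    have := ringChar.Nat.cast_ringChar (R := F)
    rw [h] at this
    exact_mod_cast this
  refine ⟨fun hmod => ?_, fun hmod => ?_⟩
  · have hsq : IsSquare (-1 : F) := FiniteField.isSquare_neg_one_iff.mpr (by omega)
    obtain ⟨i, hi⟩ := hsq
    have hi0 : i ≠ -i := by
      intro h
      have h3 : (2 : F) * i = 0 := by linear_combination h
      rcases mul_eq_zero.mp h3 with h4 | h4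
      · exact h2 h4
      · rw [h4, mul_zero] at hi
        exact neg_ne_zero.mpr one_ne_zero hi
    have hc0 : ∀ G : Matrix.SpecialLinearGroup (Fin 2) F, (G : Matrix (Fin 2) (Fin 2) F).trace = 0 → Nat.card (Cfsg.Agent.Lib.Tor.Ct G) = Fintype.card F - 1 := by
      intro G hG
      exact Cfsg.Agent.Lib.Tw.card_centSL_split hi0 (by rw [hG]; ring) (by linear_combination hi)
    have hval : ∀ G : Matrix.SpecialLinearGroup (Fin 2) F, (G : Matrix (Fin 2) (Fin 2) F).trace = 0 →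
        (Subgroup.centralizer ({Cfsg.Agent.Lib.Tor.mk F G} : Set (Matrix.ProjectiveSpecialLinearGroup (Fin 2) F))).index = Fintype.card F * (Fintype.card F + 1) / 2 := by
      intro G hG
      refine hinv G hG ?_
      rw [hc0 G hG, hk]
      have : (2 * k + 1) * (2 * k + 1 + 1) / 2 = (2 * k + 1) * (k + 1) := by
        rw [show (2 * k + 1) * (2 * k + 1 + 1) = ((2 * k + 1) * (k + 1)) * 2 by ring, Nat.mul_div_cancel _ (by norm_num)]
      rw [this, Nat.add_sub_cancel]; ring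
    ext m
    simp only [Set.mem_range, Set.mem_insert_iff, Set.mem_singleton_iff]
    constructor
    · rintro ⟨g, rfl⟩
      obtain ⟨G, rfl⟩ := Cfsg.Agent.Lib.Tor.mk_surj g
      by_cases h1 : Cfsg.Agent.Lib.Tor.mk F G = 1
      · exact Or.inl (htriv G h1)
      · by_cases h0 : (G : Matrix (Fin 2) (Fin 2) F).trace = 0
        · exact Or.inr (Or.inr (Or.inl (hval G h0)))
        · by_cases hr : Cfsg.Agent.Lib.Tor.Reg G
          · rcases Cfsg.Agent.Lib.Tor.card_Ct hr with h | h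
            · exact Or.inr (Or.inr (Or.inr (Or.inr (hsplit G h0 h))))
            · exact Or.inr (Or.inr (Or.inr (Or.inl (hnon G h0 h))))
          · exact Or.inr (Or.inl (hpar G (Cfsg.Agent.Lib.Tor.ns_of_mk h1) hr))
    · rintro (rfl | rfl | rfl | rfl | rfl)
      · exact ⟨_, htriv 1 (map_one _)⟩
      · exact ⟨_, hpar _ hunip.1 hunip.2⟩
      · exact ⟨_, hval _ htr0⟩
      · exact ⟨_, hnon B' hBt' hBc'⟩
      · exact ⟨_, hsplit A' hAt' hAc'⟩
  · have hsq : ¬ IsSquare (-1 : F) := by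
      rw [FiniteField.isSquare_neg_one_iff]
      omega
    have hc0 : ∀ G : Matrix.SpecialLinearGroup (Fin 2) F, (G : Matrix (Fin 2) (Fin 2) F).trace = 0 → Nat.card (Cfsg.Agent.Lib.Tor.Ct G) = Fintype.card F + 1 := by
      intro G hG
      refine Cfsg.Agent.Lib.Tw.card_centSL_ne (Cfsg.Agent.Lib.Tw.ne_iff.mpr (fun c hc => hsq ⟨c, ?_⟩))
      rw [hG, G.det_coe] at hc
      linear_combination -hc
    have hval : ∀ G : Matrix.SpecialLinearGroup (Fin 2) F, (G : Matrix (Fin 2) (Fin 2) F).trace = 0 →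
        (Subgroup.centralizer ({Cfsg.Agent.Lib.Tor.mk F G} : Set (Matrix.ProjectiveSpecialLinearGroup (Fin 2) F))).index = Fintype.card F * (Fintype.card F - 1) / 2 := by
      intro G hG
      refine hinv G hG ?_
      rw [hc0 G hG, hk]
      have : (2 * k + 1) * (2 * k + 1 - 1) / 2 = (2 * k + 1) * k := by
        rw [Nat.add_sub_cancel, show (2 * k + 1) * (2 * k) = ((2 * k + 1) * k) * 2 by ring, Nat.mul_div_cancel _ (by norm_num)]
      rw [this, Nat.add_sub_cancel]; ring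
    ext m
    simp only [Set.mem_range, Set.mem_insert_iff, Set.mem_singleton_iff]
    constructor
    · rintro ⟨g, rfl⟩
      obtain ⟨G, rfl⟩ := Cfsg.Agent.Lib.Tor.mk_surj g
      by_cases h1 : Cfsg.Agent.Lib.Tor.mk F G = 1
      · exact Or.inl (htriv G h1)
      · by_cases h0 : (G : Matrix (Fin 2) (Fin 2) F).trace = 0
        · exact Or.inr (Or.inr (Or.inl (hval G h0)))
        · by_cases hr : Cfsg.Agent.Lib.Tor.Reg G
          · rcases Cfsg.Agent.Lib.Tor.card_Ct hr with h | h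
            · exact Or.inr (Or.inr (Or.inr (Or.inl (hsplit G h0 h))))
            · exact Or.inr (Or.inr (Or.inr (Or.inr (hnon G h0 h))))
          · exact Or.inr (Or.inl (hpar G (Cfsg.Agent.Lib.Tor.ns_of_mk h1) hr))
    · rintro (rfl | rfl | rfl | rfl | rfl)
      · exact ⟨_, htriv 1 (map_one _)⟩
      · exact ⟨_, hpar _ hunip.1 hunip.2⟩
      · exact ⟨_, hval _ htr0⟩
      · exact ⟨_, hsplit A' hAt' hAc'⟩
      · exact ⟨_, hnon B' hBt' hBc'⟩


end Cfsg.Agent.S2508
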