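import Cfsg.Statements.S2511
import Mathlib
import Cfsg.Agent.H8.SpecSU3

set_option autoImplicit false
open Cfsg

namespace Cfsg.Agent.S2511

/-- Let F be a finite field with q² elements, q = p^a, n ≥ 3 with (n, q) ≠ (3, 2), L = PSU(n, q) realised over F, and let r be a prime dividing q + 1 and not dividing n. Then for every m the direct product L × L × L × (ℤ/r)^m has the same set of element orders as L × L × L; and if n − 1 is not a power of p, then already L × L × (ℤ/r)^m has the same set of element orders as L × L. -/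
theorem result {F : Type*} [Field F] [Fintype F] (p a n q r m : ℕ) (hp : p.Prime) (ha : 1 ≤ a) (hq : q = p ^ a) (hF : Fintype.card F = q ^ 2)
    (hn : 3 ≤ n) (hn3 : ¬ (n = 3 ∧ q = 2)) (hr : r.Prime) (hrq : r ∣ q + 1) (hrn : ¬ r ∣ n) :
    Set.range (orderOf : Cfsg.PSU n F q × Cfsg.PSU n F q × Cfsg.PSU n F q × Multiplicative (Fin m → ZMod r) → ℕ) = Set.range (orderOf : Cfsg.PSU n F q × Cfsg.PSU n F q × Cfsg.PSU n F q → ℕ) ∧
    ((¬ ∃ j : ℕ, n - 1 = p ^ j) →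
      Set.range (orderOf : Cfsg.PSU n F q × Cfsg.PSU n F q × Multiplicative (Fin m → ZMod r) → ℕ) = Set.range (orderOf : Cfsg.PSU n F q × Cfsg.PSU n F q → ℕ)) := by
  obtain ⟨σ, hσ, hσq⟩ := Cfsg.Agent.Lib.Herm.exists_sigma hF
  obtain ⟨hσ2, -, -⟩ := Cfsg.Agent.Lib.Herm.sigma_facts hσ
  have h1 := Cfsg.Agent.H8.SpecSU.mainU (n := n) hq hp hF hσ hσ2 hσq (by omega) hr hrq hrn
  have h2 := Cfsg.Agent.H8.SpecSU.singerU (n := n) hq hp hF hσ hσ2 hσq (by omega)
  obtain ⟨k, rfl⟩ : ∃ k, n = k + 1 := ⟨n - 1, by omega⟩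
  have h3 := Cfsg.Agent.H8.SpecSU.exists_wU (m := k) hF hσ hσ2 hσq (by omega) hr hrq hrn
  refine ⟨Cfsg.Agent.H8.SpecAbs.three (p := p) hr h1 h2 h3, fun h => ?_⟩
  rw [Nat.add_sub_cancel] at h
  exact Cfsg.Agent.H8.SpecAbs.two (p := p) hr h1 h2 (Cfsg.Agent.H8.SpecSU.unip_wU hq hp hF hσ hσ2 hσq (by omega) hr hrq hrn h)

end Cfsg.Agent.S2511
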