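import Cfsg.Statements.S2512
import Mathlib
import Cfsg.Agent.H8.SpecSP5

set_option autoImplicit false
open Cfsg

namespace Cfsg.Agent.S2512

/-- Let F be a finite field of odd order q = p^a, n ≥ 2 (with q ≥ 3 automatic), and L = PSp(2n, F). Then for every m the direct product L × L × L × (ℤ/2)^m has the same set of element orders as L × L × L; and if 2n − 1 is not a power of p, then already L × L × (ℤ/2)^m has the same set of element orders as L × L. -/
theorem result {F : Type*} [Field F] [Fintype F] (p a n m : ℕ) (hp : p.Prime) (ha : 1 ≤ a) (hF : Fintype.card F = p ^ a) (hodd : Odd (Fintype.card F))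
    (hn : 2 ≤ n) :
    Set.range (orderOf : Cfsg.PSp n F × Cfsg.PSp n F × Cfsg.PSp n F × Multiplicative (Fin m → ZMod 2) → ℕ) = Set.range (orderOf : Cfsg.PSp n F × Cfsg.PSp n F × Cfsg.PSp n F → ℕ) ∧
    ((¬ ∃ j : ℕ, 2 * n - 1 = p ^ j) →
      Set.range (orderOf : Cfsg.PSp n F × Cfsg.PSp n F × Multiplicative (Fin m → ZMod 2) → ℕ) = Set.range (orderOf : Cfsg.PSp n F × Cfsg.PSp n F → ℕ)) := by
  have hp2 : p ≠ 2 := by
    rintro rfl
    rw [hF] at hodd
    exact (Nat.not_odd_iff_even.2 ((Nat.even_pow.2 ⟨even_two, by omega⟩))) hodd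
  haveI : Fact p.Prime := ⟨hp⟩
  haveI : CharP F p := Cfsg.Agent.H8.SpecSL.card_pow hF hp
  haveI : Finite (Cfsg.PSp n F) := Quotient.finite _
  have hqo := Cfsg.Agent.H8.SpecSP.q_odd (F := F) hp hp2 hF n
  have hq1 : 1 ≤ Fintype.card F ^ n := Nat.one_le_pow _ _ Fintype.card_pos
  have h1 := fun x hx => Cfsg.Agent.H8.SpecSP.mainSP (n := n) hF hp ha hp2 (by omega) x hx
  have h2 := Cfsg.Agent.H8.SpecSP.half_of (n := n) (by omega) (M := Fintype.card F ^ n - 1) (by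
    obtain ⟨k, hk⟩ := hqo
    rw [hk]; exact ⟨k, by omega⟩) (Cfsg.Agent.H8.SpecSP.singer_minus hF hp (by omega))
  have h3 := Cfsg.Agent.H8.SpecSP.half_of (n := n) (by omega) (M := Fintype.card F ^ n + 1) (by
    obtain ⟨k, hk⟩ := hqo
    rw [hk]; exact ⟨k + 1, by omega⟩) (Cfsg.Agent.H8.SpecSP.singer_plus (Cfsg.Agent.H8.SpecSP.two_ne hp2) hF hp (by omega))
  have h4 : 2 ∣ Nat.lcm ((Fintype.card F ^ n - 1) / 2) ((Fintype.card F ^ n + 1) / 2) := by
    obtain ⟨k, hk⟩ := hqo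
    rw [hk, show 2 * k + 1 - 1 = 2 * k by omega, show 2 * k + 1 + 1 = 2 * (k + 1) by omega, Nat.mul_div_cancel_left _ (by norm_num),
      Nat.mul_div_cancel_left _ (by norm_num)]
    rcases Nat.even_or_odd k with ⟨l, hl⟩ | ⟨l, hl⟩
    · exact (show 2 ∣ k from ⟨l, by omega⟩).trans (Nat.dvd_lcm_left _ _)
    · exact (show 2 ∣ k + 1 from ⟨l + 1, by omega⟩).trans (Nat.dvd_lcm_right _ _)
  refine ⟨Cfsg.Agent.H8.SpecSP.threeP (p := p) h1 h2 h3 h4, fun hnp => ?_⟩
  exact Cfsg.Agent.H8.SpecSP.twoP (p := p) h1 h2 h3 h4 (fun e he => Cfsg.Agent.H8.SpecSP.unip_wP hF hp ha hp2 hn hnp e he)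

end Cfsg.Agent.S2512
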