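import Cfsg.Statements.S2521
import Mathlib
import Cfsg.Agent.Lib.SL2
-- import your own Cfsg.Agent.* helpers here

set_option autoImplicit false
open Cfsg
set_option linter.all false

namespace Cfsg.Agent.S2521

/-- Let B be a finite group that is the semidirect product of a nilpotent normal subgroup U by an abelian subgroup T (U ∩ T = 1, UT = B), and let t ∈ T have centralizer exactly T. Then every element of the coset tU is conjugate to t in B: for each u ∈ U there is b ∈ B with b t b⁻¹ = t u. -/
theorem result {B : Type*} [Group B] [Finite B] (U T : Subgroup B) [U.Normal] (hU : Group.IsNilpotent ↥U) (hT : IsMulCommutative ↥T)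
    (hcompl : Subgroup.IsComplement' U T) (t : B) (ht : t ∈ T) (hreg : Subgroup.centralizer ({t} : Set B) = T) (u : B) (hu : u ∈ U) :
    ∃ b : B, b * t * b⁻¹ = t * u := by
  classical
  -- injection u' ↦ u' t u'⁻¹ from U to tU
  have hmem : ∀ v : U, t⁻¹ * (v * t * (v : B)⁻¹) ∈ U := by
    intro v
    have h1 : t⁻¹ * (v * t * (v : B)⁻¹) = (t⁻¹ * v * t) * (v : B)⁻¹ := by group
    rw [h1]
    apply U.mul_mem _ (U.inv_mem v.2)
    have := (inferInstance : U.Normal).conj_mem v v.2 t⁻¹
    rwa [inv_inv] at this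
  let f : U → U := fun v => ⟨_, hmem v⟩
  have hinj : Function.Injective f := by
    intro v w h
    have h1 : t⁻¹ * (v * t * (v : B)⁻¹) = t⁻¹ * (w * t * (w : B)⁻¹) := congrArg Subtype.val h
    have h2 : (v : B) * t * (v : B)⁻¹ = w * t * (w : B)⁻¹ := mul_left_cancel h1
    have h3 : (w : B)⁻¹ * v ∈ T := by
      rw [← hreg, Subgroup.mem_centralizer_singleton_iff]
      have : (w : B)⁻¹ * v * t = (w : B)⁻¹ * (v * t * (v : B)⁻¹) * v := by group
      rw [this, h2]; group
    have h4 : (w : B)⁻¹ * v ∈ U := U.mul_mem (U.inv_mem w.2) v.2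
    have h5 : (w : B)⁻¹ * v = 1 := by
      have := hcompl.disjoint
      exact Subgroup.disjoint_def.mp this h4 h3
    apply Subtype.ext
    exact (inv_mul_eq_one.mp h5).symm
  have hsurj := Finite.injective_iff_surjective.mp hinj
  obtain ⟨v, hv⟩ := hsurj ⟨u, hu⟩
  refine ⟨v, ?_⟩
  have h1 : t⁻¹ * (v * t * (v : B)⁻¹) = u := congrArg Subtype.val hv
  rw [← h1]; group


end Cfsg.Agent.S2521
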