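import Cfsg.Statements.S2730
import Mathlib
import Cfsg.Agent.H8.SpCore2

set_option autoImplicit false
open Cfsg

namespace Cfsg.Agent.S2730

open Cfsg.Agent.H8.SpAut Cfsg.Agent.H8.CoreAbs Cfsg.Agent.Lib in
/-- the case of a standard field automorphism -/
theorem std_case {F : Type*} [Field F] [Fintype F] {r : ℕ} [Fact r.Prime] [CharP F r] {m : ℕ} (hm : 2 ≤ m)
    (A : Subgroup (MulAut (PSp m F))) (hinn : Inn (PSp m F) ≤ A)
    {p : ℕ} [Fact p.Prime] (hpr : p ≠ r) (σ : F ≃+* F) (hord : orderOf σ = p) :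
    pPrimeCore p ↥(A ⊓ Subgroup.centralizer {(AutSp.psi σ : MulAut (PSp m F))}) ≠ ⊥ ↔
      Nat.Coprime p (Nat.card ↥(Inn (PSp m F) ⊓ Subgroup.centralizer {(AutSp.psi σ : MulAut (PSp m F))})) := by
  have hp : p.Prime := Fact.out
  have hm1 : 1 ≤ m := by omega
  have hxp : orderOf (AutSp.psi σ : MulAut (PSp m F)) = p := by
    rw [← hord]; exact orderOf_injective _ (psi_inj hm1) σ
  constructor
  · intro h
    rw [Nat.Prime.coprime_iff_not_dvd hp]
    intro hdvd
    apply h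
    refine core_bot A (Inn (PSp m F)) (Js m (FinGal.fixF σ)).range (AutSp.psi σ) p hxp hinn (Js_le_inn _) (Js_comm hm1 σ)
      (fun c hc hcx l hl => Js_norm hm1 hord hp.pos c hc hcx l hl) (fun g hg => centralizer_Js hm σ g hg) ?_
    intro N hN hc
    refine Js_normal_bot hm hord hp.pos ?_ hdvd N hN hc
    intro h2 hp2
    apply hpr
    rw [hp2]
    have h3 : r ∣ 2 := (CharP.cast_eq_zero_iff F r 2).1 (by exact_mod_cast h2)
    exact ((Nat.prime_dvd_prime_iff_eq Fact.out Nat.prime_two).1 h3).symm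
  · intro h
    refine core_ne A (Inn (PSp m F)) (AutSp.psi σ) p hinn ?_ h.symm
    intro h0
    -- the subfield group is non-trivial
    have h1 : (Js m (FinGal.fixF σ)).range ≤ Inn (PSp m F) ⊓ Subgroup.centralizer {(AutSp.psi σ : MulAut (PSp m F))} :=
      le_inf (Js_le_inn _) (Js_comm hm1 σ)
    rw [h0, le_bot_iff] at h1
    have h2 := (ker_Js hm1 (FinGal.fixF σ) (Cfsg.Agent.Lib.Symp.tr (Cfsg.Agent.Lib.Symp.e ⟨0, hm1⟩) 1)).1 (by
      have : Js m (FinGal.fixF σ) (Cfsg.Agent.Lib.Symp.tr (Cfsg.Agent.Lib.Symp.e ⟨0, hm1⟩) 1) ∈ (Js m (FinGal.fixF σ)).range := ⟨_, rfl⟩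
      rw [h1, Subgroup.mem_bot] at this
      exact this)
    rw [Cfsg.Agent.Lib.Symp.mem_center_iff] at h2
    obtain ⟨a, ha, h⟩ := h2
    have h3 := congrArg (fun g : Matrix.symplecticGroup (Fin m) (FinGal.fixF σ) =>
      (g : Matrix (Fin m ⊕ Fin m) (Fin m ⊕ Fin m) (FinGal.fixF σ)).mulVec (Cfsg.Agent.Lib.Symp.f ⟨0, hm1⟩)) h

    rw [Cfsg.Agent.Lib.Symp.tr_mulVec, Cfsg.Agent.Lib.Symp.spScalar_mulVec, Cfsg.Agent.Lib.Symp.sympForm_swap, Cfsg.Agent.Lib.Symp.form_e_f] at h3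
    have h4 := congrFun h3 (Sum.inr ⟨0, hm1⟩)
    simp [Cfsg.Agent.Lib.Symp.e, Cfsg.Agent.Lib.Symp.f] at h4

/-- A criterion for the failure of local balance in almost simple groups whose socle is a projective symplectic group PSp_{2m}(F) (m ≥ 2, (2m, |F|) ≠ (4, 2)). Let F be a finite field of characteristic r and K the (simple) group in question; let A be a group of automorphisms of K containing all inner automorphisms, and x ∈ A an automorphism of prime order p ≠ r that is not inner-diagonal (not induced by a conformal symplectic matrix). Then the largest normal subgroup of C_A(x) of order prime to p is nontrivial if and only if x is a field automorphism of K (conjugate under Aut(K) to a non-identity standard field automorphism) and p does not divide the number of fixed points of x on K. -/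
theorem result {F : Type*} [Field F] [Fintype F] {r : ℕ} [Fact r.Prime] [CharP F r] {m : ℕ} (hm : 2 ≤ m) (hs : m = 2 → 3 ≤ Fintype.card F) (hK : IsSimpleGroup (Cfsg.PSp m F)) (A : Subgroup (MulAut (Cfsg.PSp m F))) (hinn : ∀ k : Cfsg.PSp m F, MulAut.conj k ∈ A) {p : ℕ} [Fact p.Prime] (hpr : p ≠ r) (x : MulAut (Cfsg.PSp m F)) (hxA : x ∈ A) (hord : orderOf x = p) (hnot : ¬ Cfsg.IsInnerDiagonalAutPSp x) :
    Cfsg.pPrimeCore p ↥(A ⊓ Subgroup.centralizer {x}) ≠ ⊥ ↔ (Cfsg.IsFieldAutClassPSp x ∧ Nat.Coprime p (Nat.card ↥(MonoidHom.eqLocus x.toMonoidHom (MonoidHom.id (Cfsg.PSp m F))))) := by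
  have hm1 : 1 ≤ m := by omega
  have hp : p.Prime := Fact.out
  have hIA : Inn (PSp m F) ≤ A := by rintro _ ⟨k, rfl⟩; exact hinn k
  -- the element is a field automorphism
  have hfield : ∃ (α : MulAut (PSp m F)) (σ : F ≃+* F), orderOf σ = p ∧ α * x * α⁻¹ = Cfsg.Agent.Lib.AutSp.psi σ := by
    have hx : x ∈ Cfsg.Agent.H8.SpAut.stdG m F := by
      by_cases h2 : m = 2 ∧ (2 : F) = 0
      · obtain ⟨rfl, h2⟩ := h2
        have hr2 : r = 2 := by
          have h3 : r ∣ 2 := (CharP.cast_eq_zero_iff F r 2).1 (by exact_mod_cast h2)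
          exact (Nat.prime_dvd_prime_iff_eq Fact.out Nat.prime_two).1 h3
        have hidx := Cfsg.Agent.H8.SpAut.index_std h2
        have hodd : Odd p := hp.odd_of_ne_two (by rw [← hr2]; exact hpr)
        haveI : (Cfsg.Agent.H8.SpAut.stdG 2 F).Normal := Subgroup.normal_of_index_eq_two hidx
        have h4 : x ^ 2 ∈ Cfsg.Agent.H8.SpAut.stdG 2 F := by
          have := Subgroup.pow_index_mem (Cfsg.Agent.H8.SpAut.stdG 2 F) x
          rwa [hidx] at this
        obtain ⟨k, hk⟩ := hodd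
        have h5 : x ^ p = 1 := by rw [← hord]; exact pow_orderOf_eq_one x
        rw [hk, pow_succ, pow_mul] at h5
        have h6 : x = ((x ^ 2) ^ k)⁻¹ := by
          rw [eq_inv_iff_mul_eq_one, ← h5]
          exact (((Commute.refl x).pow_right 2).pow_right k).eq
        rw [h6]
        exact inv_mem (pow_mem h4 k)
      · rw [Cfsg.Agent.H8.SpAut.stdG_top hm (fun h3 h4 => h2 ⟨h3, h4⟩)]; trivial
    obtain ⟨g, σ, rfl⟩ := hx
    have hσ1 : σ ≠ 1 := by
      rintro rfl
      apply hnot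
      rw [Cfsg.Agent.H8.SpAut.isInnerDiagonal_iff]
      exact ⟨g, by rw [map_one, mul_one]⟩
    have hpow : (Cfsg.Agent.Lib.AutSp.delta g * Cfsg.Agent.Lib.AutSp.psi σ : MulAut (PSp m F)) ^ p = 1 := by
      rw [← hord]; exact pow_orderOf_eq_one _
    have hσp : orderOf σ = p := by
      apply orderOf_eq_prime _ hσ1
      have h7 := hpow
      rw [Cfsg.Agent.H8.SpAut.pow_eq] at h7
      exact (Cfsg.Agent.H8.SpAut.kernel hm1 _ _ h7).1
    obtain ⟨k, hk⟩ := Cfsg.Agent.H8.SpAut.coset_field hm1 σ hσp hp.pos g hpow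
    refine ⟨(Cfsg.Agent.Lib.AutSp.delta k)⁻¹, σ, hσp, ?_⟩
    rw [hk]; group
  obtain ⟨α, σ, hσ, hα⟩ := hfield
  have hF : IsFieldAutClassPSp x := by
    refine ⟨α, σ, ?_, (Cfsg.Agent.H8.SpAut.isStdField_iff σ _).2 hα⟩
    rintro rfl
    have : orderOf (1 : F ≃+* F) = p := hσ
    rw [orderOf_one] at this
    exact hp.one_lt.ne this
  have h1 := Cfsg.Agent.H8.CoreAbs.core_conj A x α p
  have h2 := std_case hm (A.map (MulAut.conj α).toMonoidHom) (by
    intro y hy
    refine ⟨α⁻¹ * y * α, hIA ?_, ?_⟩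
    · have := (Cfsg.innNormal (PSp m F)).conj_mem y hy α⁻¹
      rwa [inv_inv] at this
    · show α * (α⁻¹ * y * α) * α⁻¹ = y
      group) hpr σ hσ
  rw [hα] at h1
  have h3 : Nat.card ↥(Inn (PSp m F) ⊓ Subgroup.centralizer {(Cfsg.Agent.Lib.AutSp.psi σ : MulAut (PSp m F))}) =
      Nat.card ↥(Inn (PSp m F) ⊓ Subgroup.centralizer {x}) := by
    obtain ⟨e⟩ := Cfsg.Agent.Lib.AutPSL.centralizer_conj_equiv (Inn (PSp m F)) x α
    rw [hα] at e
    exact (Nat.card_congr e.toEquiv).symm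
  rw [Cfsg.Agent.H8.SpAut.card_fix hm1, ← h3, ← h2]
  constructor
  · intro h; exact ⟨hF, fun h0 => h (h1.2 h0)⟩
  · rintro ⟨-, h⟩; exact fun h0 => h (h1.1 h0)

end Cfsg.Agent.S2730
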