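import Cfsg.Statements.S2731
import Mathlib
import Mathlib
import Cfsg.Agent.H8.Ort14

set_option autoImplicit false
open Cfsg

namespace Cfsg.Agent.S2731

open Cfsg.Agent.H8

theorem main {F : Type*} [Field F] [Fintype F] (h2 : (2 : F) ≠ 0) {k : ℕ} (hk : 2 ≤ k) (x : MulAut (Cfsg.POmega F (Cfsg.quadFormOdd (k + 1) F))) {p : ℕ} (hp : p.Prime)
    (hord : orderOf x = p) (hnot : ¬ Cfsg.IsInnerDiagonalAutPOmegaOdd (k + 1) x) :
    ∃ (α : MulAut (Cfsg.POmega F (Cfsg.quadFormOdd (k + 1) F))) (σ : (Ort.OS (k + 1) F).A), orderOf σ.1 = p ∧ α * x * α⁻¹ = (Ort.OS (k + 1) F).psi σ := by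
  have hm : 3 ≤ k + 1 := by omega
  have h1 := Ort.std_top' (F := F) h2 hm
  have h3 := Ort.hkerO (F := F) h2 hm
  have h4 : x ∉ (Ort.OS (k + 1) F).delta.range := fun h => hnot ((Ort.innDiag_iff h2 x).2 h)
  exact Ort.exists_field (Ort.OS (k + 1) F) h1 h3 hp x hord h4 (fun σ hσ g hg => Ort.coset_fieldO h2 hk σ hσ hp.pos g hg)

theorem isf {F : Type*} [Field F] [Fintype F] (h2 : (2 : F) ≠ 0) {k : ℕ} (hk : 2 ≤ k) (x : MulAut (Cfsg.POmega F (Cfsg.quadFormOdd (k + 1) F))) {p : ℕ} (hp : p.Prime)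
    (α : MulAut (Cfsg.POmega F (Cfsg.quadFormOdd (k + 1) F))) (σ : (Ort.OS (k + 1) F).A) (hσ : orderOf σ.1 = p) (hx : α * x * α⁻¹ = (Ort.OS (k + 1) F).psi σ) :
    Cfsg.IsFieldAutClassPOmega (Cfsg.quadFormOdd (k + 1) F) x := by
  refine ⟨α, (Ort.OS (k + 1) F).psi σ, σ.1, ?_, (Ort.isField_iff (h1 := Ort.spec_le _) (h2 := Ort.spec_ok _) (h3 := Ort.spec_mg _) σ.2 _).2 rfl, hx⟩
  intro h
  have h0 : σ.1 = 1 := h
  rw [h0, orderOf_one] at hσ
  exact hp.one_lt.ne hσ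

theorem std {F : Type*} [Field F] [Fintype F] (h2 : (2 : F) ≠ 0) {k : ℕ} (hk : 2 ≤ k) {p : ℕ} [Fact p.Prime]
    (σ : (Ort.OS (k + 1) F).A) (hσ : orderOf σ.1 = p) (A : Subgroup (MulAut (Cfsg.POmega F (Cfsg.quadFormOdd (k + 1) F))))
    (hinn : Cfsg.Inn (Cfsg.POmega F (Cfsg.quadFormOdd (k + 1) F)) ≤ A) :
    Cfsg.pPrimeCore p ↥(A ⊓ Subgroup.centralizer {(Ort.OS (k + 1) F).psi σ}) ≠ ⊥ ↔
      Nat.Coprime p (Nat.card ↥(Cfsg.Inn (Cfsg.POmega F (Cfsg.quadFormOdd (k + 1) F)) ⊓ Subgroup.centralizer {(Ort.OS (k + 1) F).psi σ})) := by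
  have hι : ∀ x, σ.1 x = x ↔ ∃ y : Cfsg.Agent.Lib.FinGal.fixF σ.1, (Cfsg.Agent.Lib.FinGal.fixF σ.1).subtype y = x := by
    intro x
    constructor
    · intro hx; exact ⟨⟨x, hx⟩, rfl⟩
    · rintro ⟨y, rfl⟩; exact y.2
  have h20 : (2 : Cfsg.Agent.Lib.FinGal.fixF σ.1) ≠ 0 := by
    intro h0
    apply h2
    have := congrArg (Cfsg.Agent.Lib.FinGal.fixF σ.1).subtype h0
    rwa [map_ofNat, map_zero] at this
  have hm : 3 ≤ k + 1 := by omega
  have hinj := (Ort.OS (k + 1) F).psi_inj (Ort.hkerO h2 hm)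
  have hxp : orderOf ((Ort.OS (k + 1) F).psi σ) = p := by
    rw [orderOf_injective _ hinj, ← hσ]
    exact (Subgroup.orderOf_coe _).symm
  haveI : Fintype (Cfsg.Agent.Lib.FinGal.fixF σ.1) := Fintype.ofFinite _
  exact Ort.std_case h2 h20 hk (Cfsg.Agent.Lib.FinGal.fixF σ.1).subtype σ hι A hinn hxp

/-- A criterion for the failure of local balance in almost simple groups whose socle is an odd-dimensional orthogonal group Ω_{2m+1}(F) (m ≥ 3, |F| odd; the form x₀² + Σ xᵢ yᵢ). Let F be a finite field of characteristic r and K the (simple) group in question; let A be a group of automorphisms of K containing all inner automorphisms, and x ∈ A an automorphism of prime order p ≠ r that is not inner-diagonal (not induced by a similarity of the form). Then the largest normal subgroup of C_A(x) of order prime to p is nontrivial if and only if x is a field automorphism of K (conjugate under Aut(K) to a non-identity standard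 field automorphism) and p does not divide the number of fixed points of x on K. -/
theorem result {F : Type*} [Field F] [Fintype F] {r : ℕ} [Fact r.Prime] [CharP F r] (hodd : Odd (Fintype.card F)) {m : ℕ} (hm : 3 ≤ m) (hK : IsSimpleGroup (Cfsg.POmega F (Cfsg.quadFormOdd m F))) (A : Subgroup (MulAut (Cfsg.POmega F (Cfsg.quadFormOdd m F)))) (hinn : ∀ k : Cfsg.POmega F (Cfsg.quadFormOdd m F), MulAut.conj k ∈ A) {p : ℕ} [Fact p.Prime] (hpr : p ≠ r) (x : MulAut (Cfsg.POmega F (Cfsg.quadFormOdd m F))) (hxA : x ∈ A) (hord : orderOf x = p) (hnot : ¬ Cfsg.IsInnerDiagonalAutPOmegaOdd m x) :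
    Cfsg.pPrimeCore p ↥(A ⊓ Subgroup.centralizer {x}) ≠ ⊥ ↔ (Cfsg.IsFieldAutClassPOmega (Cfsg.quadFormOdd m F) x ∧ Nat.Coprime p (Nat.card ↥(MonoidHom.eqLocus x.toMonoidHom (MonoidHom.id (Cfsg.POmega F (Cfsg.quadFormOdd m F)))))) := by
  have h2 := Cfsg.Agent.Lib.Orth.two_ne_zero_of_odd (F := F) hodd
  obtain ⟨k, rfl⟩ : ∃ k, m = k + 1 := ⟨m - 1, by omega⟩
  have hk : 2 ≤ k := by omega
  have hp : p.Prime := Fact.out
  have h3 := main h2 hk x hp hord hnot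
  have hcj := (Ort.OS (k + 1) F).conj_inj (Ort.hkerO h2 hm)
  have hIA : Inn (POmega F (Cfsg.quadFormOdd (k + 1) F)) ≤ A := by rintro _ ⟨k, rfl⟩; exact hinn k
  obtain ⟨α, σ, hσ, hx⟩ := h3
  exact Ort.fin_abs A hcj hIA x α _ hx p _ (isf h2 hk x hp α σ hσ hx) (fun A' hA' => std h2 hk σ hσ A' hA')

end Cfsg.Agent.S2731
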