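import Cfsg.Statements.S2907
import Cfsg.Agent.Lib.Basic

set_option autoImplicit false
open Cfsg

namespace Cfsg.Agent.S2907

/-- Let X be a finite semi-extraspecial p-group and x an element of X outside the centre. Then the index of C_X(x) in X equals the order of Z(X), and the commutators [x, y], y ∈ X, form exactly the centre Z(X). -/
theorem result {X : Type*} [Group X] [Finite X] {p : ℕ} [Fact p.Prime] (hX : Cfsg.IsSemiExtraspecial p X) (x : X) (hx : x ∉ Subgroup.center X) : (Subgroup.centralizer ({x} : Set X)).index = Nat.card ↥(Subgroup.center X) ∧ {z : X | ∃ y : X, z = x * y * x⁻¹ * y⁻¹} = (Subgroup.center X : Set X) := by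
  obtain ⟨⟨hpg, hfr, hcz⟩, hq⟩ := hX
  have hcm : ∀ y : X, x * y * x⁻¹ * y⁻¹ ∈ Subgroup.center X := by
    intro y
    rw [← hcz]
    exact Subgroup.commutator_mem_commutator (Subgroup.mem_top x) (Subgroup.mem_top y)
  let f : X →* Subgroup.center X :=
    { toFun := fun y => ⟨x * y * x⁻¹ * y⁻¹, hcm y⟩
      map_one' := Subtype.ext (by simp)
      map_mul' := fun y z => Subtype.ext (by
        show x * (y * z) * x⁻¹ * (y * z)⁻¹ = (x * y * x⁻¹ * y⁻¹) * (x * z * x⁻¹ * z⁻¹)
        have h1 := Subgroup.mem_center_iff.mp (hcm z) y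
        have e : x * (y * z) * x⁻¹ * (y * z)⁻¹ = (x * y * x⁻¹ * y⁻¹) * (y * (x * z * x⁻¹ * z⁻¹)) * y⁻¹ := by group
        rw [e, h1]; group) }
  have hf : ∀ y, ((f y : Subgroup.center X) : X) = x * y * x⁻¹ * y⁻¹ := fun y => rfl
  have hker : f.ker = Subgroup.centralizer ({x} : Set X) := by
    ext y
    rw [MonoidHom.mem_ker, Subgroup.mem_centralizer_singleton_iff]
    constructor
    · intro h
      have h1 := congrArg Subtype.val h
      rw [hf] at h1
      have h2 : x * y * x⁻¹ = y := mul_inv_eq_one.mp h1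
      exact (mul_inv_eq_iff_eq_mul.mp h2).symm
    · intro h
      apply Subtype.ext
      rw [hf]
      show x * y * x⁻¹ * y⁻¹ = 1
      rw [← h]; group
  have hr : f.range = ⊤ := by
    by_contra hne
    obtain ⟨Y', hY', hle⟩ := (eq_top_or_exists_le_coatom f.range).resolve_left hne
    have hsub : (Y'.map (Subgroup.center X).subtype).subgroupOf (Subgroup.center X) = Y' := by
      ext z
      constructor
      · rintro ⟨w, hw, e⟩
        have e' : w = z := Subtype.ext e
        rw [← e']; exact hw
      · intro hz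
        exact ⟨z, hz, rfl⟩
    obtain ⟨hn, ⟨_, _, hcq⟩, _⟩ := hq (Y'.map (Subgroup.center X).subtype) (Subgroup.map_subtype_le _) (by rw [hsub]; exact hY')
    have hxc : (QuotientGroup.mk' (Y'.map (Subgroup.center X).subtype) x) ∈ Subgroup.center (X ⧸ Y'.map (Subgroup.center X).subtype) := by
      rw [Subgroup.mem_center_iff]
      intro z
      obtain ⟨y, rfl⟩ := QuotientGroup.mk'_surjective _ z
      have h1 : x * y * x⁻¹ * y⁻¹ ∈ Y'.map (Subgroup.center X).subtype := ⟨f y, hle ⟨y, rfl⟩, rfl⟩
      have h2 : QuotientGroup.mk' (Y'.map (Subgroup.center X).subtype) (x * y * x⁻¹ * y⁻¹) = 1 :=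
        (QuotientGroup.eq_one_iff _).mpr h1
      rw [map_mul, map_mul, map_mul, map_inv, map_inv] at h2
      exact (mul_inv_eq_iff_eq_mul.mp (mul_inv_eq_one.mp h2)).symm
    rw [← hcq] at hxc
    have h3 : ∀ (N : Subgroup X) [N.Normal], commutator (X ⧸ N) ≤ (commutator X).map (QuotientGroup.mk' N) := by
      intro N _
      rw [commutator_def, commutator_def, Subgroup.map_commutator,
        Subgroup.map_top_of_surjective _ (QuotientGroup.mk'_surjective _)]
    obtain ⟨c, hc, e⟩ := h3 _ hxc
    rw [SetLike.mem_coe, hcz] at hc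
    have h4 : c⁻¹ * x ∈ Y'.map (Subgroup.center X).subtype := QuotientGroup.eq.mp e
    have h5 : c⁻¹ * x ∈ Subgroup.center X := Subgroup.map_subtype_le _ h4
    apply hx
    have h6 := (Subgroup.center X).mul_mem hc h5
    rwa [mul_inv_cancel_left] at h6
  constructor
  · rw [← hker, Subgroup.index_ker, hr, Subgroup.card_top]
  · ext z
    constructor
    · rintro ⟨y, rfl⟩
      exact hcm y
    · intro hz
      have h7 : (⟨z, hz⟩ : Subgroup.center X) ∈ f.range := by rw [hr]; trivial
      obtain ⟨y, hy⟩ := h7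
      exact ⟨y, (congrArg Subtype.val hy).symm⟩

end Cfsg.Agent.S2907
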