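import Cfsg.Statements.S2908
import Cfsg.Agent.Lib.CommNine

set_option autoImplicit false
open Cfsg
open Cfsg.Agent.Lib.Coprime Cfsg.Agent.Lib.CoprimeB Cfsg.Agent.Lib.CommNine

namespace Cfsg.Agent.S2908

/-- Let P be a p-subgroup of a finite group, normalized by a p-subgroup A and by a subgroup B of order prime to p that commutes elementwise with A. If [P, B] ≤ [P, A], then B centralizes P. -/
theorem result {G : Type*} [Group G] [Finite G] {p : ℕ} [Fact p.Prime] (P A B : Subgroup G) (hP : IsPGroup p ↥P) (hA : IsPGroup p ↥A) (hB : ¬ p ∣ Nat.card ↥B) (hnA : A ≤ Subgroup.normalizer (P : Set G)) (hnB : B ≤ Subgroup.normalizer (P : Set G)) (hAB : ⁅A, B⁆ = ⊥) (hcomm : ⁅P, B⁆ ≤ ⁅P, A⁆) : ⁅P, B⁆ = ⊥ := by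
  have hcop : (Nat.card B).Coprime (Nat.card P) := by
    obtain ⟨n, hn⟩ := IsPGroup.iff_card.1 hP
    rw [hn]
    exact (Nat.Coprime.pow_left _ ((Nat.Prime.coprime_iff_not_dvd Fact.out).2 hB)).symm
  have hsolv : Group.IsSolvable P := isSolvable_of_isPGroup hP
  set Q := ⁅P, B⁆ with hQ
  have hQB : ⁅Q, B⁆ = Q := commutator_commutator_eq hnB hcop (Or.inr hsolv)
  have hQP : Q ≤ P := commutator_le_of_normalizes hnB
  have hPA : IsPGroup p (P ⊔ A : Subgroup G) := hP.to_sup_of_normal_left' hA hnA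
  have hAB' : A ≤ Subgroup.centralizer (B : Set G) := Subgroup.commutator_eq_bot_iff_le_centralizer.1 hAB
  have hAnB : A ≤ Subgroup.normalizer (B : Set G) := hAB'.trans (Subgroup.centralizer_le_normalizer _)
  have hBnA : B ≤ Subgroup.normalizer (A : Set G) :=
    (Subgroup.le_centralizer_iff.1 hAB').trans (Subgroup.centralizer_le_normalizer _)
  have hPnQ : P ≤ Subgroup.normalizer (Q : Set G) := Subgroup.normalizer_commutator_ge_left _ _
  have hBnQ : B ≤ Subgroup.normalizer (Q : Set G) := Subgroup.normalizer_commutator_ge_right _ _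
  have hAnQ : A ≤ Subgroup.normalizer (Q : Set G) := commutator_normalized hnA hAnB
  set R := ⁅Q, P ⊔ A⁆ with hR
  have hPnPA : P ≤ Subgroup.normalizer ((P ⊔ A : Subgroup G) : Set G) := le_sup_left.trans Subgroup.le_normalizer
  have hAnPA : A ≤ Subgroup.normalizer ((P ⊔ A : Subgroup G) : Set G) := le_sup_right.trans Subgroup.le_normalizer
  have hBnPA : B ≤ Subgroup.normalizer ((P ⊔ A : Subgroup G) : Set G) := sup_normalized hnB hBnA
  have hPR : P ≤ Subgroup.normalizer (R : Set G) := commutator_normalized hPnQ hPnPA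
  have hAR : A ≤ Subgroup.normalizer (R : Set G) := commutator_normalized hAnQ hAnPA
  have hBR : B ≤ Subgroup.normalizer (R : Set G) := commutator_normalized hBnQ hBnPA
  have h1 : ⁅⁅P, A⁆, B⁆ ≤ R := by
    refine three_sub_le hAR hBR hPR ?_ ?_
    · rw [hAB, Subgroup.commutator_bot_left]; exact bot_le
    · rw [Subgroup.commutator_comm B P]
      exact Subgroup.commutator_mono le_rfl le_sup_right
  have h2 : Q ≤ R := by
    calc Q = ⁅Q, B⁆ := hQB.symm
      _ ≤ ⁅⁅P, A⁆, B⁆ := Subgroup.commutator_mono hcomm le_rfl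
      _ ≤ R := h1
  by_contra hne
  have h3 := commutator_lt_of_pgroup (hP.to_le hQP) hPA (sup_le hPnQ hAnQ) hne
  exact absurd h2 h3.not_ge

end Cfsg.Agent.S2908
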