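import Cfsg.Statements.S2939
import Cfsg.Agent.Lib.SylFam

set_option autoImplicit false
open Cfsg
open Cfsg.Agent.Lib.WCl Cfsg.Agent.Lib.SylRel Cfsg.Agent.Lib.SylFam

namespace Cfsg.Agent.S2939

open scoped Pointwise
theorem mem_cr {G : Type*} [Group G] {g x : G} {A : Set G} : x ∈ conjRight g A ↔ g * x * g⁻¹ ∈ A := by
  constructor
  · rintro ⟨a, ha, rfl⟩
    have e : g * (g⁻¹ * a * g) * g⁻¹ = a := by group
    rwa [e]
  · intro h
    exact ⟨_, h, by group⟩

theorem cr_subset {G : Type*} [Group G] {g : G} {A B : Set G} : conjRight g A ⊆ B ↔ ∀ a ∈ A, g⁻¹ * a * g ∈ B := by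
  constructor
  · intro h a ha; exact h ⟨a, ha, rfl⟩
  · rintro h _ ⟨a, ha, rfl⟩; exact h a ha

/-- Let p be a prime dividing the order of the finite group G and 𝓕 a family of subgroups of G closed under conjugation, with conjugates taken as X^g = g⁻¹Xg. Then 𝓕 controls Sylow p-intersections in G (any two distinct Sylow p-subgroups S and T with S ∩ T ≠ 1 are joined by a chain S = S₀, S₁, …, Sₙ = T of Sylow p-subgroups where, for each i, some member Xᵢ of 𝓕 meets both S_{i-1} and Sᵢ in Sylow p-subgroups of Xᵢ, satisfies S ∩ T ≤ Sᵢ ∩ Xᵢ, and contains an element xᵢ with Sᵢ^{xᵢ} = S_{i-1}) if and only if 𝓕 strongly controls p-fusion in G (whenever A is a subset of a Sylow p-subgroup S, A contains an element other than 1, and A^g ⊆ S, the element g factorises as g = y₁⋯yₙy with y ∈ N_G(S) and each yᵢ in a member Yᵢ of 𝓕 that meets S in a Sylow p-subgroup of Yᵢ, with A^{y₁⋯yᵢ} ⊆ S ∩ Yᵢ for each i). -/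
theorem result {G : Type*} [Group G] [Finite G] {p : ℕ} [Fact p.Prime] (hdiv : p ∣ Nat.card G) (𝓕 : Set (Subgroup G)) (h𝓕 : Cfsg.IsNormalSet 𝓕) : Cfsg.ControlsSylowIntersections p 𝓕 ↔ Cfsg.FamilyStronglyControlsFusion p 𝓕 := by
  constructor
  · intro hc S A g hA hA1 hg
    obtain ⟨a, ha, ha1⟩ := hA1
    set T : Sylow p G := g • S with hT
    have hTm : ∀ x, x ∈ (T : Subgroup G) ↔ g⁻¹ * x * g ∈ (S : Subgroup G) := by
      intro x
      show x ∈ (S : Subgroup G).map (MulAut.conj g).toMonoidHom ↔ _
      rw [mem_map_conj]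
    have hAT : ∀ a ∈ A, a ∈ (T : Subgroup G) := fun a ha => (hTm a).2 (cr_subset.1 hg a ha)
    by_cases hne : S = T
    · refine ⟨0, Fin.elim0, Fin.elim0, g, ?_, fun i => i.elim0, ?_, fun i => i.elim0⟩
      · have h5 : (S : Subgroup G).map (MulAut.conj (1 : G)).toMonoidHom = (S : Subgroup G).map (MulAut.conj g).toMonoidHom := by
          rw [map_conj_one]
          exact congrArg (fun U : Sylow p G => (U : Subgroup G)) hne
        have := map_conj_eq_iff.1 h5
        rwa [inv_one, one_mul] at this
      · simp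
    have hint : (S : Subgroup G) ⊓ (T : Subgroup G) ≠ ⊥ := by
      intro h
      have : a ∈ (S : Subgroup G) ⊓ (T : Subgroup G) := ⟨hA ha, hAT a ha⟩
      rw [h, Subgroup.mem_bot] at this
      exact ha1 this
    obtain ⟨n, c, X, x, h0, hn, hi⟩ := hc S T hne hint
    -- h k
    let h : ℕ → G := fun k => Nat.rec 1 (fun k r => (if hk : k < n then x ⟨k, hk⟩ else 1) * r) k
    have hh0 : h 0 = 1 := rfl
    have hhs : ∀ k (hk : k < n), h (k + 1) = x ⟨k, hk⟩ * h k := by
      intro k hk
      show (if hk : k < n then x ⟨k, hk⟩ else 1) * h k = _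
      rw [dif_pos hk]
    clear_value h
    have hS : ∀ k (hk : k < n + 1), subgroupConjRight (h k) (c ⟨k, hk⟩ : Subgroup G) = (S : Subgroup G) := by
      intro k
      induction k with
      | zero => intro hk; rw [hh0, conjRight_one, ← h0]; rfl
      | succ k ih =>
        intro hk
        have h1 := ih (by omega)
        obtain ⟨-, -, -, h4, -⟩ := hi ⟨k, by omega⟩
        have e1 : (⟨k, by omega⟩ : Fin n).castSucc = (⟨k, by omega⟩ : Fin (n + 1)) := rfl
        have e2 : (⟨k, by omega⟩ : Fin n).succ = (⟨k + 1, hk⟩ : Fin (n + 1)) := rfl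
        rw [e1, e2] at h4
        rw [hhs k (by omega), ← conjRight_conjRight, h4, h1]
    let y : Fin n → G := fun i => (h (i.val + 1))⁻¹ * x i * h (i.val + 1)
    have hy : ∀ k ≤ n, ((List.ofFn y).take k).prod = h k := by
      intro k
      induction k with
      | zero => intro _; rw [List.take_zero, List.prod_nil, hh0]
      | succ k ih =>
        intro hk
        have hk' : k < (List.ofFn y).length := by rw [List.length_ofFn]; omega
        rw [List.prod_take_succ _ _ hk', ih (by omega), List.getElem_ofFn]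
        show h k * ((h (k + 1))⁻¹ * x ⟨k, _⟩ * h (k + 1)) = h (k + 1)
        rw [hhs k (by omega)]
        group
    have hyn : (List.ofFn y).prod = h n := by
      rw [← hy n le_rfl, List.take_of_length_le (by rw [List.length_ofFn])]
    have hTn : subgroupConjRight (h n) (T : Subgroup G) = (S : Subgroup G) := by
      rw [← hn]; exact hS n (by omega)
    refine ⟨n, fun i => subgroupConjRight (h (i.val + 1)) (X i), y, (h n)⁻¹ * g, ?_, ?_, ?_, ?_⟩
    · have h3 : (T : Subgroup G) = (S : Subgroup G).map (MulAut.conj g).toMonoidHom := rfl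
      rw [h3] at hTn
      have h4 : ((S : Subgroup G).map (MulAut.conj g).toMonoidHom).map (MulAut.conj (h n)⁻¹).toMonoidHom = (S : Subgroup G) := hTn
      rw [map_conj_mul] at h4
      have h5 : (S : Subgroup G).map (MulAut.conj (1 : G)).toMonoidHom = (S : Subgroup G).map (MulAut.conj ((h n)⁻¹ * g)).toMonoidHom := by
        rw [h4, map_conj_one]
      have h6 := map_conj_eq_iff.1 h5
      rwa [inv_one, one_mul] at h6
    · intro i
      obtain ⟨h1, h2, h3, h4, h5⟩ := hi i
      refine ⟨?_, ?_⟩
      · have h6 := sylowMembers_conj h𝓕 h2 (h (i.val + 1))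
        have h7 := hS (i.val + 1) (by omega)
        have e2 : i.succ = (⟨i.val + 1, by omega⟩ : Fin (n + 1)) := rfl
        rw [e2, h7] at h6
        exact h6
      · show (h (i.val + 1))⁻¹ * x i * h (i.val + 1) ∈ _
        rw [mem_conjRight]
        have e : h (i.val + 1) * ((h (i.val + 1))⁻¹ * x i * h (i.val + 1)) * (h (i.val + 1))⁻¹ = x i := by group
        rw [e]; exact h3
    · rw [hyn]; group
    · intro i
      rw [hy (i.val + 1) (by omega)]
      obtain ⟨h1, h2, h3, h4, h5⟩ := hi i
      rw [cr_subset]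
      intro a ha
      have h6 : a ∈ (c i.succ : Subgroup G) ⊓ X i := h5 ⟨hA ha, hAT a ha⟩
      have h7 := hS (i.val + 1) (by omega)
      constructor
      · show (h (i.val + 1))⁻¹ * a * h (i.val + 1) ∈ (S : Subgroup G)
        rw [← h7, mem_conjRight]
        have e : h (i.val + 1) * ((h (i.val + 1))⁻¹ * a * h (i.val + 1)) * (h (i.val + 1))⁻¹ = a := by group
        rw [e]
        exact h6.1
      · show (h (i.val + 1))⁻¹ * a * h (i.val + 1) ∈ subgroupConjRight _ _
        rw [mem_conjRight]
        have e : h (i.val + 1) * ((h (i.val + 1))⁻¹ * a * h (i.val + 1)) * (h (i.val + 1))⁻¹ = a := by group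
        rw [e]
        exact h6.2
  · intro hc S T hne hint
    obtain ⟨g, hg⟩ := MulAction.exists_smul_eq G S T
    have hTm : ∀ x, x ∈ (T : Subgroup G) ↔ g⁻¹ * x * g ∈ (S : Subgroup G) := by
      intro x
      rw [← hg]
      show x ∈ (S : Subgroup G).map (MulAut.conj g).toMonoidHom ↔ _
      rw [mem_map_conj]
    obtain ⟨a, ha⟩ := Subgroup.ne_bot_iff_exists_ne_one.1 hint
    obtain ⟨n, Y, y, y₀, hy0, hY, hgy, hA⟩ := hc S ((S : Subgroup G) ⊓ (T : Subgroup G) : Subgroup G) g (fun x hx => hx.1)
      ⟨a, a.2, fun h => ha (Subtype.ext h)⟩ (by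
        rw [cr_subset]; intro x hx; exact (hTm x).1 hx.2)
    let h : ℕ → G := fun k => ((List.ofFn y).take k).prod
    have hh0 : h 0 = 1 := by show ((List.ofFn y).take 0).prod = 1; rw [List.take_zero, List.prod_nil]
    have hhs : ∀ k (hk : k < n), h (k + 1) = h k * y ⟨k, hk⟩ := by
      intro k hk
      have hk' : k < (List.ofFn y).length := by rw [List.length_ofFn]; omega
      show ((List.ofFn y).take (k + 1)).prod = ((List.ofFn y).take k).prod * _
      rw [List.prod_take_succ _ _ hk', List.getElem_ofFn]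
    have hhn : h n = (List.ofFn y).prod := by
      show ((List.ofFn y).take n).prod = _
      rw [List.take_of_length_le (by rw [List.length_ofFn])]
    have hA' : ∀ i : Fin n, conjRight (h (i.val + 1)) ((S : Subgroup G) ⊓ (T : Subgroup G) : Subgroup G) ⊆ (S : Set G) ∩ (Y i : Set G) := hA
    clear_value h
    have hconj : ∀ (g : G) (U : Sylow p G), ((g • U : Sylow p G) : Subgroup G) = subgroupConjRight g⁻¹ (U : Subgroup G) := by
      intro g U
      show (U : Subgroup G).map (MulAut.conj g).toMonoidHom = (U : Subgroup G).map (MulAut.conj g⁻¹⁻¹).toMonoidHom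
      rw [inv_inv]
    refine ⟨n, fun k => h k.val • S, fun i => subgroupConjRight (h (i.val + 1))⁻¹ (Y i),
      fun i => h (i.val + 1) * y i * (h (i.val + 1))⁻¹, ?_, ?_, ?_⟩
    · show h 0 • S = S
      rw [hh0, one_smul]
    · show h n • S = T
      rw [hhn, ← hg]
      have h1 : y₀ • S = S := Sylow.smul_eq_iff_mem_normalizer.2 hy0
      rw [hgy, mul_smul, h1]
    · intro i
      have hYi : subgroupConjRight (h (i.val + 1))⁻¹ (Y i) = subgroupConjRight (h i.val)⁻¹ (Y i) := by
        rw [hhs i.val i.2, mul_inv_rev, ← conjRight_conjRight, conjRight_of_mem ((Y i).inv_mem (hY i).2)]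
      refine ⟨?_, ?_, ?_, ?_, ?_⟩
      · show subgroupConjRight (h (i.val + 1))⁻¹ (Y i) ∈ sylowMembers p 𝓕 ((h i.val • S : Sylow p G) : Subgroup G)
        rw [hYi, hconj]
        exact sylowMembers_conj h𝓕 (hY i).1 _
      · show subgroupConjRight (h (i.val + 1))⁻¹ (Y i) ∈ sylowMembers p 𝓕 ((h (i.val + 1) • S : Sylow p G) : Subgroup G)
        rw [hconj]
        exact sylowMembers_conj h𝓕 (hY i).1 _
      · show h (i.val + 1) * y i * (h (i.val + 1))⁻¹ ∈ subgroupConjRight (h (i.val + 1))⁻¹ (Y i)
        rw [mem_conjRight]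
        have e : (h (i.val + 1))⁻¹ * (h (i.val + 1) * y i * (h (i.val + 1))⁻¹) * (h (i.val + 1))⁻¹⁻¹ = y i := by group
        rw [e]; exact (hY i).2
      · show subgroupConjRight (h (i.val + 1) * y i * (h (i.val + 1))⁻¹) ((h (i.val + 1) • S : Sylow p G) : Subgroup G)
          = ((h i.val • S : Sylow p G) : Subgroup G)
        rw [hconj, hconj, conjRight_conjRight]
        congr 1
        have := hhs i.val i.2
        have e : (⟨i.val, i.2⟩ : Fin n) = i := rfl
        rw [e] at this
        rw [this]; group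
      · intro z hz
        have h1 := cr_subset.1 (hA' i) z hz
        constructor
        · show z ∈ ((h (i.val + 1) • S : Sylow p G) : Subgroup G)
          rw [hconj, mem_conjRight, inv_inv]
          exact h1.1
        · show z ∈ subgroupConjRight _ _
          rw [mem_conjRight, inv_inv]
          exact h1.2

end Cfsg.Agent.S2939
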