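import Cfsg.Statements.S2940
import Cfsg.Agent.Lib.WCl

set_option autoImplicit false
open Cfsg
open Cfsg.Agent.Lib.WCl Cfsg.Agent.Lib.SylRel

namespace Cfsg.Agent.S2940

/-- Let S be a Sylow p-subgroup of the finite group G and G₁, G₂ subgroups containing S with G = G₁G₂. Then for every g ∈ G there is a Sylow p-subgroup U of G with S ∩ S^g ≤ U ≤ G₁ ∩ G₂^g (conjugates taken as X^g = g⁻¹Xg). -/
theorem result {G : Type*} [Group G] [Finite G] {p : ℕ} [Fact p.Prime] (S : Sylow p G) (G₁ G₂ : Subgroup G) (h1 : (S : Subgroup G) ≤ G₁) (h2 : (S : Subgroup G) ≤ G₂) (hfact : ∀ g : G, ∃ g₁ ∈ G₁, ∃ g₂ ∈ G₂, g = g₁ * g₂) (g : G) : ∃ U : Sylow p G, (S : Subgroup G) ⊓ Cfsg.subgroupConjRight g (S : Subgroup G) ≤ (U : Subgroup G) ∧ (U : Subgroup G) ≤ G₁ ⊓ Cfsg.subgroupConjRight g G₂ := by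
  obtain ⟨a, ha, b, hb, hab⟩ := hfact g⁻¹
  have hcj : ∀ (X : Subgroup G) (x : G), x ∈ subgroupConjRight g X ↔ g * x * g⁻¹ ∈ X := by
    intro X x
    show x ∈ X.map (MulAut.conj g⁻¹).toMonoidHom ↔ _
    rw [mem_map_conj, inv_inv]
  have hb2 : ∀ x : G, x ∈ subgroupConjRight g G₂ ↔ a⁻¹ * x * a ∈ G₂ := by
    intro x
    rw [hcj]
    have hg : g = b⁻¹ * a⁻¹ := by rw [← inv_inv g, hab, mul_inv_rev]
    have e : g * x * g⁻¹ = b⁻¹ * (a⁻¹ * x * a) * b := by rw [hab, hg]; group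
    rw [e]
    constructor
    · intro h
      have := G₂.mul_mem (G₂.mul_mem hb h) (G₂.inv_mem hb)
      have e2 : b * (b⁻¹ * (a⁻¹ * x * a) * b) * b⁻¹ = a⁻¹ * x * a := by group
      rwa [e2] at this
    · intro h
      exact G₂.mul_mem (G₂.mul_mem (G₂.inv_mem hb) h) hb
  have hS' : (S : Subgroup G).map (MulAut.conj a).toMonoidHom ≤ G₁ ⊓ subgroupConjRight g G₂ := by
    intro x hx
    rw [mem_map_conj] at hx
    refine ⟨?_, (hb2 x).2 (h2 hx)⟩
    have := G₁.mul_mem (G₁.mul_mem ha (h1 hx)) (G₁.inv_mem ha)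
    have e : a * (a⁻¹ * x * a) * a⁻¹ = x := by group
    rwa [e] at this
  have hle : (S : Subgroup G) ⊓ subgroupConjRight g (S : Subgroup G) ≤ G₁ ⊓ subgroupConjRight g G₂ :=
    inf_le_inf h1 (Subgroup.map_mono h2)
  obtain ⟨R, hR, hSR⟩ := exists_sylIn (p := p) hle (S.2.to_le inf_le_left)
  have hc := hR.card_le hS' (S.2.map _)
  rw [card_map_conj] at hc
  have hRt : SylIn p R ⊤ := (sylIn_of_sylow S).of_card le_top hR.isPGroup hc
  obtain ⟨U, hU⟩ := hR.isPGroup.exists_le_sylow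
  have : R = U := Subgroup.eq_of_le_of_card_ge hU (hRt.card_le le_top U.2)
  rw [this] at hSR
  exact ⟨U, hSR, this ▸ hR.le⟩

end Cfsg.Agent.S2940
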