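import Cfsg.Statements.S2955
import Cfsg.Agent.Lib.SylFam
import Cfsg.Agent.Lib.SylChain

set_option autoImplicit false
open Cfsg
open Cfsg.Agent.Lib.WCl Cfsg.Agent.Lib.SylRel Cfsg.Agent.Lib.SylFam Cfsg.Agent.Lib.SylChain

namespace Cfsg.Agent.S2955

open scoped Pointwise

/-- Let p be a prime dividing the order of the finite group G and 𝓕 a conjugation-closed family of subgroups that controls Sylow p-intersections in G. Suppose the Sylow p-subgroups of G are chain-connected: any two of them are joined by a chain of Sylow p-subgroups, consecutive ones distinct with nontrivial intersection, all containing the intersection of the two ends (equivalently, the graph on the Sylow p-subgroups whose edges are the distinct pairs meeting nontrivially is connected). Then for every Sylow p-subgroup S, G is generated by N_G(S) together with the members of 𝓕 that meet S in a Sylow p-subgroup of themselves. -/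
theorem result {G : Type*} [Group G] [Finite G] (p : ℕ) [Fact p.Prime] (hdiv : p ∣ Nat.card G)
    (𝓕 : Set (Subgroup G)) (h𝓕 : Cfsg.IsNormalSet 𝓕) (hc : Cfsg.ControlsSylowIntersections p 𝓕)
    (hconn : Cfsg.IsSylowChainConnected p G) (S : Sylow p G) :
    (⨆ X ∈ Cfsg.sylowMembers p 𝓕 (S : Subgroup G), X) ⊔ Subgroup.normalizer ((S : Subgroup G) : Set G) = ⊤ := by
  set H := (⨆ X ∈ sylowMembers p 𝓕 (S : Subgroup G), X) ⊔ Subgroup.normalizer ((S : Subgroup G) : Set G) with hH
  have hXH : ∀ X ∈ sylowMembers p 𝓕 (S : Subgroup G), X ≤ H := fun X hX =>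
    (le_iSup₂_of_le X hX le_rfl : X ≤ _).trans le_sup_left
  -- if T meets S then T is conjugate by H
  have key : ∀ T : Sylow p G, Adj S T → ∃ h ∈ H, subgroupConjRight h (T : Subgroup G) = (S : Subgroup G) := by
    intro T hST
    by_cases hne : S = T
    · exact ⟨1, H.one_mem, by rw [conjRight_one, hne]⟩
    obtain ⟨n, c, X, x, h0, hn, hi⟩ := hc S T hne hST
    have claim : ∀ k : ℕ, ∀ hk : k < n + 1, ∃ h ∈ H, subgroupConjRight h (c ⟨k, hk⟩ : Subgroup G) = (S : Subgroup G) := by
      intro k
      induction k with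
      | zero =>
        intro hk
        exact ⟨1, H.one_mem, by rw [conjRight_one, ← h0]; rfl⟩
      | succ k ih =>
        intro hk
        obtain ⟨h, hh, hc1⟩ := ih (by omega)
        obtain ⟨h1, h2, h3, h4, h5⟩ := hi ⟨k, by omega⟩
        have e1 : (⟨k, by omega⟩ : Fin n).castSucc = (⟨k, by omega⟩ : Fin (n + 1)) := rfl
        have e2 : (⟨k, by omega⟩ : Fin n).succ = (⟨k + 1, hk⟩ : Fin (n + 1)) := rfl
        rw [e1] at h1 h4
        rw [e2] at h4
        have h6 := sylowMembers_conj h𝓕 h1 h
        rw [hc1] at h6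
        have h7 : h⁻¹ * x ⟨k, by omega⟩ * h ∈ H := hXH _ h6 (by
          rw [mem_conjRight]
          have e : h * (h⁻¹ * x ⟨k, by omega⟩ * h) * h⁻¹ = x ⟨k, by omega⟩ := by group
          rw [e]; exact h3)
        have h8 : x ⟨k, by omega⟩ ∈ H := by
          have := H.mul_mem (H.mul_mem hh h7) (H.inv_mem hh)
          have e : h * (h⁻¹ * x ⟨k, by omega⟩ * h) * h⁻¹ = x ⟨k, by omega⟩ := by group
          rwa [e] at this
        refine ⟨x ⟨k, by omega⟩ * h, H.mul_mem h8 hh, ?_⟩
        rw [← conjRight_conjRight, h4, hc1]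
    obtain ⟨h, hh, hh1⟩ := claim n (by omega)
    refine ⟨h, hh, ?_⟩
    rw [← hn]
    exact hh1
  have key2 : ∀ T : Sylow p G, Conn S T → ∃ h ∈ H, subgroupConjRight h (T : Subgroup G) = (S : Subgroup G) := by
    intro T hT
    induction hT with
    | refl => exact ⟨1, H.one_mem, conjRight_one⟩
    | @tail T U hT hTU ih =>
      obtain ⟨h, hh, h1⟩ := ih
      have h2 := hTU.smul h⁻¹
      have h3 : h⁻¹ • T = S := Sylow.ext h1
      rw [h3] at h2
      obtain ⟨k, hk, h4⟩ := key _ h2
      refine ⟨h * k, H.mul_mem hh hk, ?_⟩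
      rw [← conjRight_conjRight]
      exact h4
  have hcc : ∀ T : Sylow p G, Conn S T := (isSylowChainConnected_iff.1 hconn) S
  rw [eq_top_iff]
  intro g _
  obtain ⟨h, hh, h1⟩ := key2 (g • S) (hcc _)
  have h2 : g⁻¹ * h ∈ Subgroup.normalizer ((S : Subgroup G) : Set G) := by
    have h3 : ((g • S : Sylow p G) : Subgroup G) = (S : Subgroup G).map (MulAut.conj g).toMonoidHom := rfl
    rw [h3] at h1
    have h4 : ((S : Subgroup G).map (MulAut.conj g).toMonoidHom).map (MulAut.conj h⁻¹).toMonoidHom = (S : Subgroup G) := h1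
    rw [map_conj_mul] at h4
    have h5 : (S : Subgroup G).map (MulAut.conj (h⁻¹ * g)).toMonoidHom = (S : Subgroup G).map (MulAut.conj (1 : G)).toMonoidHom := by
      rw [h4, map_conj_one]
    have h6 := map_conj_eq_iff.1 h5
    rwa [mul_one, mul_inv_rev, inv_inv] at h6
  have h3 : g⁻¹ * h ∈ H := (le_sup_right : _ ≤ H) h2
  have := H.mul_mem hh (H.inv_mem h3)
  have e : h * (g⁻¹ * h)⁻¹ = g := by group
  rwa [e] at this

end Cfsg.Agent.S2955
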