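import Cfsg.Statements.S2958


set_option autoImplicit false
open Cfsg

namespace Cfsg.Agent.S2958

/-- Let X, A, B be subgroups of a group G such that G is generated by the conjugates of X and every conjugate of X is contained in A or in B. Then A = G or B = G. -/
theorem result {G : Type*} [Group G] (X A B : Subgroup G) (hgen : (⨆ g : G, X.map (MulAut.conj g).toMonoidHom) = ⊤) (hcover : ∀ g : G, X.map (MulAut.conj g).toMonoidHom ≤ A ∨ X.map (MulAut.conj g).toMonoidHom ≤ B) : A = ⊤ ∨ B = ⊤ := by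
  by_cases hA : A = ⊤
  · exact Or.inl hA
  right
  obtain ⟨g0, hg0⟩ : ∃ g : G, ¬ X.map (MulAut.conj g).toMonoidHom ≤ A := by
    by_contra hno
    push Not at hno
    exact hA (eq_top_iff.mpr (hgen ▸ iSup_le hno))
  let Xc : G → Subgroup G := fun g => X.map (MulAut.conj g).toMonoidHom
  have hcomp : ∀ k g, (Xc g).map (MulAut.conj k).toMonoidHom = Xc (k * g) := by
    intro k g
    change (X.map (MulAut.conj g).toMonoidHom).map (MulAut.conj k).toMonoidHom = X.map (MulAut.conj (k * g)).toMonoidHom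
    rw [Subgroup.map_map, map_mul]
    rfl
  set N : Subgroup G := ⨆ g : {g : G // ¬ Xc g ≤ A}, Xc g.1 with hN
  have hNB : N ≤ B := iSup_le fun g => (hcover g.1).resolve_left g.2
  have hconj : ∀ a ∈ A, ∀ n ∈ N, a * n * a⁻¹ ∈ N := by
    intro a ha n hn
    have h1 : N.map (MulAut.conj a).toMonoidHom ≤ N := by
      rw [hN, Subgroup.map_iSup]
      apply iSup_le
      rintro ⟨g, hg⟩
      have h2 : ¬ Xc (a * g) ≤ A := by
        intro h3
        apply hg
        intro x hx
        have h4 : a * x * a⁻¹ ∈ Xc (a * g) := by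
          rw [← hcomp]; exact ⟨x, hx, rfl⟩
        have h5 := h3 h4
        have h6 : x = a⁻¹ * (a * x * a⁻¹) * a := by group
        rw [h6]; exact mul_mem (mul_mem (inv_mem ha) h5) ha
      rw [hcomp]
      exact le_iSup (fun g : {g : G // ¬ Xc g ≤ A} => Xc g.1) ⟨a * g, h2⟩
    exact h1 ⟨n, hn, rfl⟩
  have hAn : A ≤ Subgroup.normalizer (N : Set G) := by
    intro a ha
    rw [Subgroup.mem_normalizer_iff]
    intro n
    refine ⟨fun hn => hconj a ha n hn, fun hn => ?_⟩
    have h1 := hconj a⁻¹ (inv_mem ha) _ hn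
    have h2 : a⁻¹ * (a * n * a⁻¹) * a⁻¹⁻¹ = n := by group
    rwa [h2] at h1
  have htop : Subgroup.normalizer (N : Set G) = ⊤ := by
    rw [eq_top_iff, ← hgen]
    apply iSup_le
    intro g
    by_cases hg : Xc g ≤ A
    · exact le_trans hg hAn
    · exact le_trans (le_iSup (fun g : {g : G // ¬ Xc g ≤ A} => Xc g.1) ⟨g, hg⟩) Subgroup.le_normalizer
  have hNn : N.Normal := Subgroup.normalizer_eq_top_iff.mp htop
  have h0 : Xc g0 ≤ N := le_iSup (fun g : {g : G // ¬ Xc g ≤ A} => Xc g.1) ⟨g0, hg0⟩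
  rw [eq_top_iff, ← hgen]
  apply iSup_le
  intro g
  refine le_trans ?_ hNB
  have h1 : Xc g = (Xc g0).map (MulAut.conj (g * g0⁻¹)).toMonoidHom := by
    rw [hcomp, inv_mul_cancel_right]
  change Xc g ≤ N
  rw [h1, Subgroup.map_le_iff_le_comap]
  intro x hx
  exact hNn.conj_mem x (h0 hx) _

end Cfsg.Agent.S2958
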