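import Cfsg.Statements.S2959
import Cfsg.Agent.Lib.PRedD

set_option autoImplicit false
open Cfsg

namespace Cfsg.Agent.S2959

open Cfsg.Agent.Lib

/-- Let G be a finite group of characteristic p, that is C_G(O_p(G)) ≤ O_p(G), with p prime, and let L be a subgroup of G normalized by O_p(G). Then L has characteristic p: C_L(O_p(L)) ≤ O_p(L). -/
theorem result {G : Type*} [Group G] [Finite G] {p : ℕ} [Fact p.Prime] (hG : Subgroup.centralizer (Cfsg.pCore p G : Set G) ≤ Cfsg.pCore p G) (L : Subgroup G) (hL : Cfsg.pCore p G ≤ Subgroup.normalizer (L : Set G)) : Subgroup.centralizer (Cfsg.pCore p ↥L : Set ↥L) ≤ Cfsg.pCore p ↥L := by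
  haveI hn : (pCore p G).Normal := Cores.pCore_normal p
  have hO : ∀ K : Subgroup G, pCore p G ≤ K → pCore p G ≤ pCoreOf p K := fun K hK =>
    POf.le_pCoreOf hK (Cores.pCore_isPGroup p) (fun x _ => PRed.norm_top _ x)
  have h1 := hO (L ⊔ pCore p G) le_sup_right
  have h2 : (L ⊔ pCore p G) ⊓ Subgroup.centralizer (pCoreOf p (L ⊔ pCore p G) : Set G) ≤ pCoreOf p (L ⊔ pCore p G) := by
    refine le_trans inf_le_right (le_trans ?_ (hG.trans h1))
    have h3 : (pCore p G : Set G) ⊆ (pCoreOf p (L ⊔ pCore p G) : Set G) := h1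
    exact Subgroup.centralizer_le h3
  exact POf.charP_of_inf (PRed.char_ambient h2 le_sup_left (sup_le Subgroup.le_normalizer hL))

end Cfsg.Agent.S2959
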