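import Cfsg.Statements.S2960
import Cfsg.Agent.Lib.PRedD

set_option autoImplicit false
open Cfsg

namespace Cfsg.Agent.S2960

open Cfsg.Agent.Lib

/-- Let G be a finite group of characteristic p (C_G(O_p(G)) ≤ O_p(G)), p prime, T a Sylow p-subgroup of G and Q a normal subgroup of T with C_T(Q) ≤ Q. Then C_G(Q) ≤ Q. -/
theorem result {G : Type*} [Group G] [Finite G] {p : ℕ} [Fact p.Prime] (hG : Subgroup.centralizer (Cfsg.pCore p G : Set G) ≤ Cfsg.pCore p G) (T : Sylow p G) (Q : Subgroup G) (hQT : Q ≤ (T : Subgroup G)) (hQn : (T : Subgroup G) ≤ Subgroup.normalizer (Q : Set G)) (hC : (T : Subgroup G) ⊓ Subgroup.centralizer (Q : Set G) ≤ Q) : Subgroup.centralizer (Q : Set G) ≤ Q := by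
  haveI hn : (pCore p G).Normal := Cores.pCore_normal p
  have hTC : (T : Subgroup G) ≤ Subgroup.normalizer ((Subgroup.centralizer (Q : Set G) : Subgroup G) : Set G) :=
    hQn.trans (PRed.normalizer_le_normalizer_centralizer Q)
  have hOT : pCore p G ≤ (T : Subgroup G) := Cores.pCore_le_sylow T
  have hS := PRed.syl_inf (Subgroup.centralizer (Q : Set G)) T hTC
  have hO : ∀ K : Subgroup G, pCore p G ≤ K → pCore p G ≤ pCoreOf p K := fun K hK =>
    POf.le_pCoreOf hK (Cores.pCore_isPGroup p) (fun x _ => PRed.norm_top _ x)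
  have h1 := hO (Subgroup.centralizer (Q : Set G) ⊔ pCore p G) le_sup_right
  have h2 : (Subgroup.centralizer (Q : Set G) ⊔ pCore p G) ⊓ Subgroup.centralizer (pCoreOf p (Subgroup.centralizer (Q : Set G) ⊔ pCore p G) : Set G) ≤ pCoreOf p (Subgroup.centralizer (Q : Set G) ⊔ pCore p G) := by
    refine le_trans inf_le_right (le_trans ?_ (hG.trans h1))
    have h3 : (pCore p G : Set G) ⊆ (pCoreOf p (Subgroup.centralizer (Q : Set G) ⊔ pCore p G) : Set G) := h1
    exact Subgroup.centralizer_le h3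
  have h4 := PRed.char_ambient h2 le_sup_left (sup_le Subgroup.le_normalizer (hOT.trans hTC))
  have h5 : pCoreOf p (Subgroup.centralizer (Q : Set G)) ≤ Q := hS.pCoreOf_le.trans hC
  refine le_trans (le_inf le_rfl ?_) (h4.trans h5)
  have h6 : (pCoreOf p (Subgroup.centralizer (Q : Set G)) : Set G) ⊆ (Q : Set G) := h5
  exact Subgroup.centralizer_le h6

end Cfsg.Agent.S2960
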