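import Cfsg.Statements.S2998
import Cfsg.Agent.Lib.CFunA

set_option autoImplicit false
open Cfsg
open Cfsg Cfsg.Agent.Lib.StrongEmb Cfsg.Agent.Lib.SylRel Cfsg.Agent.Lib.WCl Cfsg.Agent.Lib.CFunA

namespace Cfsg.Agent.S2998

theorem conj_eq_of_mem_cen {G : Type*} [Group G] {x g : G} (h : g ∈ Subgroup.centralizer ({x} : Set G)) : g * x * g⁻¹ = x := by
  rw [Subgroup.mem_centralizer_singleton_iff] at h
  rw [h]; group

theorem part2 {G : Type*} [Group G] [Finite G] {p : ℕ} [Fact p.Prime] (P : Sylow p G) (x : G) (hxP : x ∈ (P : Subgroup G)) (hlc : ∀ R : Subgroup G, R ≤ (P : Subgroup G) → R ≠ ⊥ → Subgroup.normalizer (R : Set G) ≤ Subgroup.centralizer ({x} : Set G))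
    (g : G) (hg : g * x * g⁻¹ ∈ (P : Subgroup G)) : g * x * g⁻¹ = x := by
  have hS := sylIn_of_sylow P
  have main := alperin_ind hS (fun A g => (x ∈ A ∨ g⁻¹ * x * g ∈ A) → g * x * g⁻¹ = x)
    (fun A B g hAB _ _ h h' => h (h'.imp (fun h => hAB h) (fun h => hAB h)))
    (fun A g h _ _ _ h1 h2 h3 => by
      rcases h3 with h3 | h3
      · have h4 := h1 (Or.inl h3)
        have h5 : x ∈ A.map (MulAut.conj g).toMonoidHom := ⟨x, h3, by simpa using h4⟩
        have h6 := h2 (Or.inl h5)
        calc h * g * x * (h * g)⁻¹ = h * (g * x * g⁻¹) * h⁻¹ := by group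
          _ = x := by rw [h4, h6]
      · have h5 : h⁻¹ * x * h ∈ A.map (MulAut.conj g).toMonoidHom := ⟨_, h3, by
          show g * ((h * g)⁻¹ * x * (h * g)) * g⁻¹ = _
          group⟩
        have h6 := h2 (Or.inr h5)
        have h7 : h⁻¹ * x * h = x := by
          conv_lhs => rw [← h6]
          group
        have h8 : (h * g)⁻¹ * x * (h * g) = g⁻¹ * x * g := by
          calc (h * g)⁻¹ * x * (h * g) = g⁻¹ * (h⁻¹ * x * h) * g := by group
            _ = _ := by rw [h7]
        rw [h8] at h3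
        have h4 := h1 (Or.inr h3)
        calc h * g * x * (h * g)⁻¹ = h * (g * x * g⁻¹) * h⁻¹ := by group
          _ = x := by rw [h4, h6])
    (fun A g _ _ h1 h2 => by
      have h3 : x ∈ A ∨ g⁻¹ * x * g ∈ A := by
        rcases h2 with ⟨a, ha, h2⟩ | ⟨a, ha, h2⟩
        · right
          have h3 : g * a * g⁻¹ = x := by simpa using h2
          rw [← h3]
          have : g⁻¹ * (g * a * g⁻¹) * g = a := by group
          rw [this]; exact ha
        · left
          have h3 : g * a * g⁻¹ = g⁻¹⁻¹ * x * g⁻¹ := by simpa using h2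
          have : x = a := by
            rw [inv_inv] at h3
            have h4 := mul_right_cancel h3
            exact (mul_left_cancel h4).symm
          rw [this]; exact ha
      have h4 := h1 h3
      conv_lhs => rw [← h4]
      group)
    (fun T hT IH => by
      obtain ⟨k, hk, -⟩ := exists_fn hS hT
      refine ⟨k, hk, fun n hn h => ?_⟩
      by_cases hx1 : x = 1
      · rw [hx1]; group
      · apply conj_eq_of_mem_cen
        refine hlc _ hk.le ?_ hn
        intro hb
        apply hx1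
        rw [hb] at h
        rcases h with h | h
        · exact Subgroup.mem_bot.1 h
        · have h1 := Subgroup.mem_bot.1 h
          have h2 : x = n * (n⁻¹ * x * n) * n⁻¹ := by group
          rw [h2, h1]; group)
  refine main (Subgroup.zpowers x) g ((Subgroup.zpowers_le).2 hxP) ?_ (Or.inl (Subgroup.mem_zpowers x))
  rw [MonoidHom.map_zpowers, Subgroup.zpowers_le]
  exact hg

theorem sylK {G : Type*} [Group G] [Finite G] {p : ℕ} [Fact p.Prime] (P : Sylow p G) (N : Subgroup G) [N.Normal]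
    (R : Subgroup (G ⧸ N)) (hR : R ≤ (P : Subgroup G).map (QuotientGroup.mk' N)) :
    ((P : Subgroup G) ⊓ R.comap (QuotientGroup.mk' N)).map (QuotientGroup.mk' N) = R ∧
    SylIn p ((P : Subgroup G) ⊓ R.comap (QuotientGroup.mk' N)) (R.comap (QuotientGroup.mk' N)) := by
  set K := R.comap (QuotientGroup.mk' N) with hK
  have hNK : N ≤ K := by
    intro n hn
    rw [hK, Subgroup.mem_comap]
    have : QuotientGroup.mk' N n = 1 := (QuotientGroup.eq_one_iff n).2 hn
    rw [this]; exact Subgroup.one_mem _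
  have hm : ((P : Subgroup G) ⊓ K).map (QuotientGroup.mk' N) = R := by
    apply le_antisymm
    · rintro _ ⟨k, hk, rfl⟩
      exact hk.2
    · intro r hr
      obtain ⟨k, hk, rfl⟩ := hR hr
      exact ⟨k, ⟨hk, hr⟩, rfl⟩
  have hmK : K.map (QuotientGroup.mk' N) = R := Subgroup.map_comap_eq_self_of_surjective (QuotientGroup.mk'_surjective N) R
  refine ⟨hm, inf_le_right, P.2.to_le inf_le_left, ?_⟩
  have h1 : SylIn p ((P : Subgroup G) ⊓ N) N := (sylIn_of_sylow P).inf_normal le_top (by rw [Subgroup.normalizer_eq_top])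
  have h2 : ((P : Subgroup G) ⊓ N).relIndex N * N.relIndex K = ((P : Subgroup G) ⊓ N).relIndex K :=
    Subgroup.relIndex_mul_relIndex _ _ _ inf_le_right hNK
  have h3 : ((P : Subgroup G) ⊓ N).relIndex ((P : Subgroup G) ⊓ K) * ((P : Subgroup G) ⊓ K).relIndex K = ((P : Subgroup G) ⊓ N).relIndex K :=
    Subgroup.relIndex_mul_relIndex _ _ _ (inf_le_inf_left _ hNK) inf_le_right
  have h4 : N.relIndex K = Nat.card R := by
    have := Subgroup.relIndex_ker K (QuotientGroup.mk' N)
    rwa [QuotientGroup.ker_mk', hmK] at this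
  have h5 : ((P : Subgroup G) ⊓ N).relIndex ((P : Subgroup G) ⊓ K) = Nat.card R := by
    have h6 : (P : Subgroup G) ⊓ N = N ⊓ ((P : Subgroup G) ⊓ K) := by
      apply le_antisymm
      · exact fun y hy => ⟨hy.2, hy.1, hNK hy.2⟩
      · exact fun y hy => ⟨hy.2.1, hy.1⟩
    rw [h6, Subgroup.inf_relIndex_right]
    have := Subgroup.relIndex_ker ((P : Subgroup G) ⊓ K) (QuotientGroup.mk' N)
    rwa [QuotientGroup.ker_mk', hm] at this
  rw [← h2, h4, h5, mul_comm] at h3
  have h6 := Nat.eq_of_mul_eq_mul_right Nat.card_pos h3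
  rw [h6]
  exact h1.not_dvd

/-- Let G be a finite group, p a prime, P a Sylow p-subgroup of G and x ∈ P an element such that N_G(R) ≤ C_G(x) for every nontrivial subgroup R of P. Then P ≤ C_G(x); every G-conjugate of x lying in P equals x (so g ∈ C_G(x) whenever g x g⁻¹ ∈ P); and for every normal subgroup N of G, the image of x in G ⧸ N has the same property with respect to the image of P: the normalizer of every nontrivial subgroup of the image of P centralizes the image of x. -/
theorem result {G : Type*} [Group G] [Finite G] {p : ℕ} [Fact p.Prime] (P : Sylow p G) (x : G) (hxP : x ∈ (P : Subgroup G)) (hlc : ∀ R : Subgroup G, R ≤ (P : Subgroup G) → R ≠ ⊥ → Subgroup.normalizer (R : Set G) ≤ Subgroup.centralizer ({x} : Set G)) : (P : Subgroup G) ≤ Subgroup.centralizer ({x} : Set G) ∧ (∀ g : G, g * x * g⁻¹ ∈ (P : Subgroup G) → g * x * g⁻¹ = x) ∧ ∀ (N : Subgroup G) [N.Normal], ∀ R : Subgroup (G ⧸ N), R ≤ (P : Subgroup G).map (QuotientGroup.mk' N) → R ≠ ⊥ → Subgroup.normalizer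 (R : Set (G ⧸ N)) ≤ Subgroup.centralizer ({(QuotientGroup.mk x : G ⧸ N)} : Set (G ⧸ N)) := by
  have h1 : (P : Subgroup G) ≤ Subgroup.centralizer ({x} : Set G) := by
    by_cases hP : (P : Subgroup G) = ⊥
    · rw [hP]; exact bot_le
    · exact Subgroup.le_normalizer.trans (hlc _ le_rfl hP)
  refine ⟨h1, fun g hg => part2 P x hxP hlc g hg, ?_⟩
  intro N hN R hR hRne y hy
  obtain ⟨g, rfl⟩ := QuotientGroup.mk'_surjective N y
  obtain ⟨hm, hsyl⟩ := sylK P N R hR
  have hT : (P : Subgroup G) ⊓ R.comap (QuotientGroup.mk' N) ≠ ⊥ := by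
    intro h
    rw [h, Subgroup.map_bot] at hm
    exact hRne hm.symm
  obtain ⟨d, hd, hdg⟩ := hsyl.frattini (g := g) (fun k hk => by
    rw [Subgroup.mem_comap] at hk ⊢
    rw [map_mul, map_mul, map_inv]
    exact (Subgroup.mem_normalizer_iff.1 hy _).1 hk)
  have h2 : d * g ∈ Subgroup.centralizer ({x} : Set G) :=
    hlc _ inf_le_left hT (mem_normalizer_of_le (map_conj_le.2 hdg))
  have hd2 : QuotientGroup.mk' N d ∈ R := hd
  obtain ⟨e, he, hed⟩ := hR hd2
  have h3 := Subgroup.mem_centralizer_singleton_iff.1 h2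
  have h4 := Subgroup.mem_centralizer_singleton_iff.1 (h1 he)
  have h5 : e⁻¹ * (d * g) * x = x * (e⁻¹ * (d * g)) := by
    have h6 : e⁻¹ * x = x * e⁻¹ := by
      rw [inv_mul_eq_iff_eq_mul, ← mul_assoc, h4]; group
    calc e⁻¹ * (d * g) * x = e⁻¹ * ((d * g) * x) := by group
      _ = e⁻¹ * (x * (d * g)) := by rw [h3]
      _ = (e⁻¹ * x) * (d * g) := by group
      _ = _ := by rw [h6]; group
  have h6 : QuotientGroup.mk' N (e⁻¹ * (d * g)) = QuotientGroup.mk' N g := by
    rw [map_mul, map_inv, hed, map_mul]; group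
  rw [Subgroup.mem_centralizer_singleton_iff, ← h6]
  show QuotientGroup.mk' N (e⁻¹ * (d * g)) * QuotientGroup.mk' N x = QuotientGroup.mk' N x * QuotientGroup.mk' N (e⁻¹ * (d * g))
  rw [← map_mul, ← map_mul, h5]

end Cfsg.Agent.S2998
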