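import Cfsg.Statements.S3012
import Mathlib

set_option autoImplicit false
open Cfsg
open Cfsg

namespace Cfsg.Agent.S3012

/-- Let G be a finite group, V a nontrivial elementary abelian 2-subgroup of G satisfying the Sidki pair condition (every odd-order element inverted by an element of V commutes with a nontrivial element of V), and K a normal subgroup of G with V ∩ K = 1. Then the image of V in G/K satisfies the Sidki pair condition in G/K. -/
theorem result {G : Type*} [Group G] [Finite G] (V K : Subgroup G) [K.Normal] (hV : Cfsg.IsElementaryAbelian 2 V) (hV1 : V ≠ ⊥) (hS : Cfsg.IsSidkiPair V) (hVK : V ⊓ K = ⊥) : Cfsg.IsSidkiPair (V.map (QuotientGroup.mk' K)) := by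
  intro hb vb hvb ho hinv
  obtain ⟨v, hvV, rfl⟩ := hvb
  obtain ⟨n, hn⟩ := ho
  obtain ⟨y, hy⟩ := QuotientGroup.mk'_surjective K (hb ^ (n + 1))
  have hv2 : v * v = 1 := by
    have := hV.2 v hvV
    rwa [sq] at this
  have hvi : v⁻¹ = v := by rw [inv_eq_iff_mul_eq_one, hv2]
  obtain ⟨h1, hh1⟩ : ∃ h1 : G, h1 = v * (y⁻¹ * v * y) := ⟨_, rfl⟩
  have hinv1 : v * h1 * v⁻¹ = h1⁻¹ := by
    rw [hh1, mul_inv_rev, mul_inv_rev, mul_inv_rev, inv_inv, hvi]
    calc v * (v * (y⁻¹ * v * y)) * v = (v * v) * (y⁻¹ * v * y) * v := by group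
      _ = _ := by rw [hv2]; group
  have hpow : ∀ k : ℕ, QuotientGroup.mk' K v * hb ^ k * (QuotientGroup.mk' K v)⁻¹ = (hb ^ k)⁻¹ := by
    intro k
    rw [← conj_pow, hinv, inv_pow]
  have hmap : QuotientGroup.mk' K h1 = hb := by
    rw [hh1, map_mul, map_mul, map_mul, map_inv, hy]
    have e1 := hpow (n + 1)
    have e2 : QuotientGroup.mk' K v * (hb ^ (n + 1))⁻¹ = hb ^ (n + 1) * QuotientGroup.mk' K v := by
      rw [← e1]
      have e3 : (QuotientGroup.mk' K v)⁻¹ = QuotientGroup.mk' K v := by rw [← map_inv, hvi]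
      have e4 : QuotientGroup.mk' K v * QuotientGroup.mk' K v = 1 := by rw [← map_mul, hv2, map_one]
      calc QuotientGroup.mk' K v * (QuotientGroup.mk' K v * hb ^ (n + 1) * (QuotientGroup.mk' K v)⁻¹)
          = (QuotientGroup.mk' K v * QuotientGroup.mk' K v) * hb ^ (n + 1) * (QuotientGroup.mk' K v)⁻¹ := by group
        _ = _ := by rw [e4, e3, one_mul]
    have e4 : QuotientGroup.mk' K v * QuotientGroup.mk' K v = 1 := by rw [← map_mul, hv2, map_one]
    calc QuotientGroup.mk' K v * ((hb ^ (n + 1))⁻¹ * QuotientGroup.mk' K v * hb ^ (n + 1))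
        = (QuotientGroup.mk' K v * (hb ^ (n + 1))⁻¹) * QuotientGroup.mk' K v * hb ^ (n + 1) := by group
      _ = hb ^ (n + 1) * (QuotientGroup.mk' K v * QuotientGroup.mk' K v) * hb ^ (n + 1) := by rw [e2]; group
      _ = hb ^ (orderOf hb) * hb := by rw [e4, mul_one, ← pow_add, hn, ← pow_succ]; congr 1; ring
      _ = hb := by rw [pow_orderOf_eq_one, one_mul]
  obtain ⟨a, m, hpm, hm⟩ := Nat.exists_eq_pow_mul_and_not_dvd (orderOf_pos h1).ne' 2 (by norm_num)
  have hodd : Nat.Coprime (2 ^ a) (orderOf hb) := Nat.Coprime.pow_left a ((Nat.coprime_two_left).2 ⟨n, hn⟩)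
  obtain ⟨e, he1, he2⟩ := Nat.chineseRemainder hodd 0 1
  have he0 : 2 ^ a ∣ e := Nat.modEq_zero_iff_dvd.1 he1
  have hho : Odd (orderOf (h1 ^ e)) := by
    have h2 : orderOf (h1 ^ e) ∣ m := by
      apply orderOf_dvd_of_pow_eq_one
      rw [← pow_mul]
      apply orderOf_dvd_iff_pow_eq_one.1
      rw [hm]
      exact Nat.mul_dvd_mul_right he0 m
    have h3 : Odd m := by
      rw [← Nat.not_even_iff_odd, even_iff_two_dvd]; exact hpm
    exact Odd.of_dvd_nat h3 h2
  obtain ⟨w, hwV, hw1, hw⟩ := hS (h1 ^ e) v hvV hho (by rw [← conj_pow, hinv1, inv_pow])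
  refine ⟨QuotientGroup.mk' K w, ⟨w, hwV, rfl⟩, ?_, ?_⟩
  · intro h2
    have h3 : w ∈ V ⊓ K := ⟨hwV, (QuotientGroup.eq_one_iff w).1 h2⟩
    rw [hVK] at h3
    exact hw1 (Subgroup.mem_bot.1 h3)
  · have h2 : QuotientGroup.mk' K (h1 ^ e) = hb := by
      rw [map_pow, hmap]
      have h3 := pow_eq_pow_iff_modEq.2 he2
      rw [pow_one] at h3; exact h3
    rw [← h2, ← map_mul, ← map_mul, hw]

end Cfsg.Agent.S3012
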