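import Cfsg.Statements.S3013
import Mathlib

set_option autoImplicit false
open Cfsg
open Cfsg

namespace Cfsg.Agent.S3013

/-- Let G be a finite group and V a nontrivial elementary abelian 2-subgroup of G satisfying the Sidki pair condition. Let v ∈ V and let x be an element of odd order inverted by v, and put C = C_G(v) ∩ C_G(x), the centralizer of the dihedral subgroup generated by v and x. Then C ∩ V is nontrivial and satisfies the Sidki pair condition inside C: every odd-order element of C inverted by an element of C ∩ V commutes with a nontrivial element of C ∩ V. -/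
theorem result {G : Type*} [Group G] [Finite G] (V : Subgroup G) (hV : Cfsg.IsElementaryAbelian 2 V) (hV1 : V ≠ ⊥) (hS : Cfsg.IsSidkiPair V) (v x : G) (hv : v ∈ V) (hx : Odd (orderOf x)) (hinv : v * x * v⁻¹ = x⁻¹) (C : Subgroup G) (hC : C = Subgroup.centralizer ({v} : Set G) ⊓ Subgroup.centralizer ({x} : Set G)) : C ⊓ V ≠ ⊥ ∧ Cfsg.IsSidkiPair ((C ⊓ V).subgroupOf C) := by
  subst hC
  obtain ⟨hab, _⟩ := hV
  have hVc : ∀ a ∈ V, ∀ b ∈ V, a * b = b * a := fun a ha b hb => congrArg Subtype.val (hab.is_comm.comm ⟨a, ha⟩ ⟨b, hb⟩)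
  obtain ⟨w, hwV, hw1, hwx⟩ := hS x v hv hx hinv
  have hmem : ∀ w ∈ V, w * x = x * w → w ∈ Subgroup.centralizer ({v} : Set G) ⊓ Subgroup.centralizer ({x} : Set G) := by
    intro w hw h
    exact ⟨Subgroup.mem_centralizer_singleton_iff.2 (hVc v hv w hw).symm, Subgroup.mem_centralizer_singleton_iff.2 h⟩
  refine ⟨fun h => hw1 ?_, ?_⟩
  · have h1 : w ∈ (Subgroup.centralizer ({v} : Set G) ⊓ Subgroup.centralizer ({x} : Set G)) ⊓ V := ⟨hmem w hwV hwx, hwV⟩
    rw [h] at h1
    exact Subgroup.mem_bot.1 h1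
  · rintro ⟨h, hhC⟩ ⟨u, huC⟩ huV ho huh
    have huV' : u ∈ V := (Subgroup.mem_subgroupOf.1 huV).2
    have ho' : Odd (orderOf h) := by
      have h1 : orderOf (⟨h, hhC⟩ : ↥(Subgroup.centralizer ({v} : Set G) ⊓ Subgroup.centralizer ({x} : Set G))) = orderOf h :=
        (Subgroup.orderOf_coe _).symm
      rwa [h1] at ho
    have huh' : u * h * u⁻¹ = h⁻¹ := congrArg Subtype.val huh
    have hhv : h * v = v * h := Subgroup.mem_centralizer_singleton_iff.1 hhC.1
    have hhx : h * x = x * h := Subgroup.mem_centralizer_singleton_iff.1 hhC.2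
    have hux : u * x = x * u := Subgroup.mem_centralizer_singleton_iff.1 huC.2
    have hcomm : Commute x h := hhx.symm
    have hoxh : Odd (orderOf (x * h)) := by
      have h1 : orderOf (x * h) ∣ orderOf x * orderOf h := hcomm.orderOf_mul_dvd_mul_orderOf
      exact Odd.of_dvd_nat (hx.mul ho') h1
    have hinv2 : (u * v) * (x * h) * (u * v)⁻¹ = (x * h)⁻¹ := by
      have e1 : (u * v) * (x * h) * (u * v)⁻¹ = u * ((v * x * v⁻¹) * (v * h * v⁻¹)) * u⁻¹ := by group
      have e2 : v * h * v⁻¹ = h := by rw [← hhv]; group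
      rw [e1, hinv, e2]
      have e3 : u * (x⁻¹ * h) * u⁻¹ = (u * x * u⁻¹)⁻¹ * (u * h * u⁻¹) := by group
      have e4 : u * x * u⁻¹ = x := by rw [hux]; group
      rw [e3, e4, huh', mul_inv_rev]
      exact (hcomm.inv_inv).eq
    obtain ⟨z, hzV, hz1, hz⟩ := hS (x * h) (u * v) (V.mul_mem huV' hv) hoxh hinv2
    have hzu : z * u = u * z := hVc z hzV u huV'
    have hz2 : z * (x * h⁻¹) = (x * h⁻¹) * z := by
      have e5 : x * h⁻¹ = u * (x * h) * u⁻¹ := by
        have e4 : u * x * u⁻¹ = x := by rw [hux]; group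
        have : u * (x * h) * u⁻¹ = (u * x * u⁻¹) * (u * h * u⁻¹) := by group
        rw [this, e4, huh']
      have c1 : Commute z u := hzu
      have c2 : Commute z (x * h) := hz
      rw [e5]
      exact ((c1.mul_right c2).mul_right c1.inv_right).eq
    have hzx2 : Commute z (x ^ 2) := by
      have c2 : Commute z (x * h) := hz
      have c3 : Commute z (x * h⁻¹) := hz2
      have e6 : x ^ 2 = (x * h) * (x * h⁻¹) := by
        rw [sq]
        calc x * x = x * x * (h * h⁻¹) := by group
          _ = x * (x * h) * h⁻¹ := by group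
          _ = x * (h * x) * h⁻¹ := by rw [hhx]
          _ = _ := by group
      rw [e6]
      exact c2.mul_right c3
    have hzx : Commute z x := by
      obtain ⟨k, hk⟩ := hx
      have e7 : x = (x ^ 2) ^ (k + 1) := by
        have : (x ^ 2) ^ (k + 1) = x ^ (orderOf x) * x := by rw [hk, ← pow_mul, ← pow_succ]; congr 1
        rw [this, pow_orderOf_eq_one, one_mul]
      rw [e7]
      exact hzx2.pow_right _
    have hzh : Commute z h := by
      have c2 : Commute z (x * h) := hz
      have e8 : h = x⁻¹ * (x * h) := by group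
      rw [e8]
      exact hzx.inv_right.mul_right c2
    have hzC := hmem z hzV hzx.eq
    refine ⟨⟨z, hzC⟩, Subgroup.mem_subgroupOf.2 ⟨hzC, hzV⟩, fun h1 => hz1 (congrArg Subtype.val h1), Subtype.ext hzh.eq⟩

end Cfsg.Agent.S3013
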