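import Cfsg.Statements.S3020
import Cfsg.Agent.Lib.Cores
import Cfsg.Agent.Lib.Basic
import Mathlib.GroupTheory.Transfer
import Mathlib

set_option autoImplicit false
open Cfsg
open Cfsg

namespace Cfsg.Agent.S3020

/-- Let G be a finite group, p a prime and H an abelian p-subgroup of G that is extremely closed (for every g, the subgroup generated by H and g H g⁻¹ meets N_G(H) exactly in H). Then for every g ∈ G, the subgroup T generated by H and g H g⁻¹ is the product of H with O_{p'}(T), and H meets O_{p'}(T) trivially; that is, O_{p'}(T) is a normal p-complement of H in T. -/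
theorem result {G : Type*} [Group G] [Finite G] {p : ℕ} [Fact p.Prime] (H : Subgroup G) (hHp : IsPGroup p H) (hHab : IsMulCommutative H) (hcl : Cfsg.IsExtremelyClosed H) (g : G) (T : Subgroup G) (hT : T = H ⊔ H.map (MulAut.conj g).toMonoidHom) : H ⊔ (Cfsg.pPrimeCore p ↥T).map T.subtype = T ∧ H ⊓ (Cfsg.pPrimeCore p ↥T).map T.subtype = ⊥ := by
  obtain ⟨N, hN⟩ : ∃ N : Subgroup T, N = Cfsg.pPrimeCore p ↥T := ⟨_, rfl⟩
  rw [← hN]
  have hHT : H ≤ T := by rw [hT]; exact le_sup_left
  obtain ⟨H', hH'⟩ : ∃ H' : Subgroup T, H' = H.subgroupOf T := ⟨_, rfl⟩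
  have hH'p : IsPGroup p H' := by
    rw [hH']
    exact hHp.of_injective (Subgroup.subgroupOfEquivOfLe hHT).toMonoidHom (Subgroup.subgroupOfEquivOfLe hHT).injective
  have hnorm : Subgroup.normalizer (H' : Set T) = H' := by
    refine le_antisymm (fun x hx => ?_) Subgroup.le_normalizer
    rw [hH', Subgroup.mem_subgroupOf]
    rw [← hcl g]
    refine ⟨by rw [← hT]; exact x.2, ?_⟩
    rw [Subgroup.mem_normalizer_iff] at hx
    refine Subgroup.mem_normalizer_iff.2 fun y => ?_
    constructor
    · intro hy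
      have h1 := (hx ⟨y, hHT hy⟩).1 (by rw [hH', Subgroup.mem_subgroupOf]; exact hy)
      rw [hH', Subgroup.mem_subgroupOf] at h1
      exact h1
    · intro hy
      have hyT : y ∈ T := by
        have h2 : (x : G) * y * (x : G)⁻¹ ∈ T := hHT hy
        have h3 := T.mul_mem (T.mul_mem (T.inv_mem x.2) h2) x.2
        have h4 : (x : G)⁻¹ * ((x : G) * y * (x : G)⁻¹) * x = y := by group
        rwa [h4] at h3
      have h1 := (hx ⟨y, hyT⟩).2 (by rw [hH', Subgroup.mem_subgroupOf]; exact hy)
      rw [hH', Subgroup.mem_subgroupOf] at h1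
      exact h1
  obtain ⟨P, hP⟩ := hH'p.exists_le_sylow
  have hHP : H' = P := by
    by_contra hne
    have hlt : H' < P := lt_of_le_of_ne hP hne
    haveI : Group.IsNilpotent P := P.2.isNilpotent
    have hlt2 : (H'.subgroupOf P) < ⊤ := by
      rw [lt_top_iff_ne_top, Ne, Subgroup.subgroupOf_eq_top]
      exact fun h => hlt.not_ge h
    have h1 := Group.normalizerCondition_of_isNilpotent _ hlt2
    obtain ⟨x, hx, hxn⟩ := SetLike.exists_of_lt h1
    apply hxn
    rw [Subgroup.mem_subgroupOf, ← hnorm]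
    rw [Subgroup.mem_normalizer_iff] at hx ⊢
    intro y
    constructor
    · intro hy
      have h2 := (hx ⟨y, hP hy⟩).1 (Subgroup.mem_subgroupOf.2 hy)
      exact Subgroup.mem_subgroupOf.1 h2
    · intro hy
      have hyP : y ∈ P := by
        have h2 : (x : T) * y * (x : T)⁻¹ ∈ P := hP hy
        have h3 := mul_mem (mul_mem (inv_mem x.2) h2) x.2
        have h4 : (x : T)⁻¹ * ((x : T) * y * (x : T)⁻¹) * x = y := by group
        rwa [h4] at h3
      have h2 := (hx ⟨y, hyP⟩).2 (Subgroup.mem_subgroupOf.2 hy)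
      exact Subgroup.mem_subgroupOf.1 h2
  have hcen : Subgroup.normalizer ((P : Subgroup T) : Set T) ≤ Subgroup.centralizer ((P : Subgroup T) : Set T) := by
    rw [← hHP, hnorm]
    intro x hx
    rw [Subgroup.mem_centralizer_iff]
    intro y hy
    have hy' : y ∈ H' := hy
    rw [hH', Subgroup.mem_subgroupOf] at hx hy'
    have h5 := congrArg Subtype.val (hHab.is_comm.comm ⟨(y : G), hy'⟩ ⟨(x : G), hx⟩)
    exact Subtype.ext h5
  have hcompl := MonoidHom.ker_transferSylow_isComplement' P hcen
  obtain ⟨M, hM⟩ : ∃ M, M = (MonoidHom.transferSylow P hcen).ker := ⟨_, rfl⟩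
  rw [← hM] at hcompl
  haveI hMn : M.Normal := by rw [hM]; infer_instance
  have hMc : (Nat.card M).Coprime p := by
    have h1 : Nat.card M = (P : Subgroup T).index := hcompl.index_eq_card.symm
    rw [h1, Nat.coprime_comm, Nat.Prime.coprime_iff_not_dvd Fact.out]
    exact P.not_dvd_index
  have hMN : M ≤ N := by rw [hN]; exact Cfsg.Agent.Lib.Cores.le_pPrimeCore hMn hMc
  have hNc : (Nat.card N).Coprime p := by rw [hN]; exact Cfsg.Agent.Lib.Cores.pPrimeCore_coprime p
  constructor
  · apply le_antisymm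
    · exact sup_le hHT (Subgroup.map_subtype_le _)
    · have h1 : M ⊔ P = ⊤ := hcompl.sup_eq_top
      intro x hx
      have h2 : (⟨x, hx⟩ : T) ∈ M ⊔ P := by rw [h1]; trivial
      have h3 : M ⊔ (P : Subgroup T) ≤ (H ⊔ N.map T.subtype).comap T.subtype := by
        refine sup_le (fun y hy => ?_) (fun y hy => ?_)
        · exact Subgroup.mem_sup_right ⟨y, hMN hy, rfl⟩
        · rw [← hHP, hH', Subgroup.mem_subgroupOf] at hy
          exact Subgroup.mem_sup_left hy
      exact h3 h2
  · have h1 : Nat.Coprime (Nat.card H) (Nat.card (N.map T.subtype)) := by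
      obtain ⟨k, hk⟩ := IsPGroup.iff_card.1 hHp
      rw [hk, Subgroup.card_map_of_injective T.subtype_injective]
      exact Nat.Coprime.pow_left k hNc.symm
    exact Subgroup.disjoint_of_coprime_natCard h1 |>.eq_bot

end Cfsg.Agent.S3020
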