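import Cfsg.Statements.S3021
import Cfsg.Agent.Lib.SylRel
import Cfsg.Agent.Lib.FusBase

set_option autoImplicit false
open Cfsg
open Cfsg.Agent.Lib.SylRel

namespace Cfsg.Agent.S3021

theorem ext_normal {G : Type*} [Group G] [Finite G] {p : ℕ} [Fact p.Prime] (H : Subgroup G) (hcl : Cfsg.IsExtremelyClosed H) {g : G}
    (hg : ∀ x ∈ H, g * x * g⁻¹ ∈ Subgroup.normalizer (H : Set G)) : g ∈ Subgroup.normalizer (H : Set G) := by
  have h1 : ∀ x ∈ H, g * x * g⁻¹ ∈ H := by
    intro x hx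
    rw [← hcl g]
    exact ⟨Subgroup.mem_sup_right ⟨x, hx, rfl⟩, hg x hx⟩
  rw [Subgroup.mem_normalizer_iff]
  intro x
  refine ⟨h1 x, fun hx => ?_⟩
  have h2 : H.map (MulAut.conj g).toMonoidHom = H := by
    refine Subgroup.eq_of_le_of_card_ge ?_ ?_
    · rintro _ ⟨y, hy, rfl⟩; exact h1 y hy
    · rw [Subgroup.card_map_of_injective (MulAut.conj g).injective]
  rw [← h2] at hx
  obtain ⟨y, hy, hyx⟩ := hx
  have h3 : y = x := (MulAut.conj g).injective hyx
  rw [← h3]; exact hy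

theorem ext_le {G : Type*} [Group G] [Finite G] {p : ℕ} [Fact p.Prime] (H : Subgroup G) (hcl : Cfsg.IsExtremelyClosed H) (Q : Subgroup G)
    (hQ : IsPGroup p Q) (hHQ : H ≤ Q) : Q ≤ Subgroup.normalizer (H : Set G) := by
  -- `N_Q(H) = Q`
  by_contra hcon
  obtain ⟨M, hM⟩ : ∃ M : Subgroup Q, M = (Subgroup.normalizer (H : Set G)).subgroupOf Q := ⟨_, rfl⟩
  haveI : Group.IsNilpotent Q := hQ.isNilpotent
  have hMt : M < ⊤ := by
    rw [lt_top_iff_ne_top]
    intro h
    apply hcon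
    intro x hx
    have h2 : (⟨x, hx⟩ : Q) ∈ M := by rw [h]; trivial
    rw [hM, Subgroup.mem_subgroupOf] at h2
    exact h2
  have hlt := Group.normalizerCondition_of_isNilpotent M hMt
  obtain ⟨x, hx, hxM⟩ := SetLike.exists_of_lt hlt
  apply hxM
  rw [hM, Subgroup.mem_subgroupOf]
  refine ext_normal (p := p) H hcl fun y hy => ?_
  have h1 : (⟨y, hHQ hy⟩ : Q) ∈ M := by
    rw [hM, Subgroup.mem_subgroupOf]; exact Subgroup.le_normalizer hy
  have h2 := (Subgroup.mem_normalizer_iff.1 hx _).1 h1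
  rw [hM, Subgroup.mem_subgroupOf] at h2
  exact h2

/-- Let G be a finite group, p a prime and H a p-subgroup of G that is extremely closed (for every g, the subgroup generated by H and g H g⁻¹ meets N_G(H) exactly in H). Then every p-subgroup Q of G containing H has N_G(Q) ≤ N_G(H); in particular every Sylow p-subgroup P of G containing H normalizes H, and H is strongly closed in P with respect to G. -/
theorem result {G : Type*} [Group G] [Finite G] {p : ℕ} [Fact p.Prime] (H : Subgroup G) (hHp : IsPGroup p H) (hcl : Cfsg.IsExtremelyClosed H) : (∀ Q : Subgroup G, IsPGroup p Q → H ≤ Q → Subgroup.normalizer (Q : Set G) ≤ Subgroup.normalizer (H : Set G)) ∧ ∀ P : Sylow p G, H ≤ (P : Subgroup G) → (P : Subgroup G) ≤ Subgroup.normalizer (H : Set G) ∧ Cfsg.IsStronglyClosed H (P : Subgroup G) := by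
  refine ⟨fun Q hQ hHQ g hg => ?_, fun P hHP => ?_⟩
  · refine ext_normal (p := p) H hcl fun y hy => ext_le (p := p) H hcl Q hQ hHQ ?_
    exact (Subgroup.mem_normalizer_iff.1 hg y).1 (hHQ hy)
  · have h1 := ext_le (p := p) H hcl P P.2 hHP
    refine ⟨h1, hHP, fun x hx g hg => ?_⟩
    rw [← hcl g]
    exact ⟨Subgroup.mem_sup_right ⟨x, hx, rfl⟩, h1 hg⟩

end Cfsg.Agent.S3021
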