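import Cfsg.Statements.S3027
import Mathlib
-- import your own Cfsg.Agent.* helpers here

set_option autoImplicit false
open Cfsg

namespace Cfsg.Agent.S3027

theorem inf_supp {G : Type*} [Group G] (D : Subgroup G) [D.Normal] (hperf : ⁅(⊤ : Subgroup G), (⊤ : Subgroup G)⁆ ⊔ D = ⊤)
    (X Y : Subgroup G) (hX : X ⊔ D = ⊤) (hY : Y ⊔ D = ⊤) : ⁅X, Y⁆ ⊔ D = ⊤ := by
  have hmap : ∀ Z : Subgroup G, Z ⊔ D = ⊤ ↔ Z.map (QuotientGroup.mk' D) = ⊤ := by
    intro Z
    constructor
    · intro h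
      have h1 : (Z ⊔ D).map (QuotientGroup.mk' D) = ⊤ := by
        rw [h, Subgroup.map_top_of_surjective _ (QuotientGroup.mk'_surjective D)]
      have h2 : D.map (QuotientGroup.mk' D) = ⊥ := (Subgroup.map_eq_bot_iff _).2 (by rw [QuotientGroup.ker_mk'])
      rwa [Subgroup.map_sup, h2, sup_bot_eq] at h1
    · intro h
      have h1 : ((Z.map (QuotientGroup.mk' D)).comap (QuotientGroup.mk' D)) = ⊤ := by rw [h, Subgroup.comap_top]
      rwa [Subgroup.comap_map_eq, QuotientGroup.ker_mk'] at h1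
  rw [hmap] at hX hY hperf ⊢
  rw [Subgroup.map_commutator, hX, hY]
  rw [Subgroup.map_commutator, Subgroup.map_top_of_surjective _ (QuotientGroup.mk'_surjective D)] at hperf
  exact hperf

theorem key {G : Type*} [Group G] (D : Subgroup G) [D.Normal] (hperf : ⁅(⊤ : Subgroup G), (⊤ : Subgroup G)⁆ ⊔ D = ⊤)
    {B2 : Subgroup G} (h2 : B2.IsSubnormal) : B2 ⊔ D = ⊤ → ∀ B1 : Subgroup G, B1.IsSubnormal → B1 ⊔ D = ⊤ → (B1 ⊓ B2) ⊔ D = ⊤ := by
  have mono : ∀ X Y : Subgroup G, X ≤ Y → X ⊔ D = ⊤ → Y ⊔ D = ⊤ := by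
    intro X Y h hX
    rw [eq_top_iff, ← hX]
    exact sup_le_sup_right h D
  have hcomm : ∀ (B K : Subgroup G), (B.subgroupOf K).Normal → ∀ x ∈ B, x ∈ K → ∀ y ∈ K, x * y * x⁻¹ * y⁻¹ ∈ B := by
    intro B K hN x hx hxK y hy
    have h1 : y * x⁻¹ * y⁻¹ ∈ B := hN.conj_mem ⟨x⁻¹, inv_mem hxK⟩ (show x⁻¹ ∈ B from inv_mem hx) ⟨y, hy⟩
    have h2 : x * (y * x⁻¹ * y⁻¹) ∈ B := mul_mem hx h1
    simpa [mul_assoc] using h2
  induction h2 with
  | top => intro _ B1 _ h; rw [inf_top_eq]; exact h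
  | step B2 K2 hle2 hK2 hN2 ih2 =>
    intro hB2 B1 h1
    have hK2D := mono _ _ hle2 hB2
    induction h1 with
    | top => intro _; rw [top_inf_eq]; exact hB2
    | step B1 K1 hle1 hK1 hN1 ih1 =>
      intro hB1
      have hK1D := mono _ _ hle1 hB1
      have hX := ih2 hK2D B1 (Subgroup.IsSubnormal.step B1 K1 hle1 hK1 hN1) hB1
      have hY := ih1 hK1D
      have hXY := inf_supp D hperf _ _ hX hY
      refine mono _ _ ?_ hXY
      rw [Subgroup.commutator_le]
      rintro x ⟨hx1, hx2⟩ y ⟨hy1, hy2⟩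
      rw [commutatorElement_def]
      refine ⟨hcomm B1 K1 hN1 x hx1 (hle1 hx1) y hy1, ?_⟩
      have h3 := hcomm B2 K2 hN2 y hy2 (hle2 hy2) x hx2
      have h4 := inv_mem h3
      simpa [mul_assoc] using h4

/-- Let G be a finite group and D a normal subgroup of G such that G/D is perfect (that is, G = G′D). Then among the subnormal subgroups B of G with BD = G there is a least one, and it is normal in G. -/
theorem result {G : Type*} [Group G] [Finite G] (D : Subgroup G) [D.Normal] (hperf : ⁅(⊤ : Subgroup G), (⊤ : Subgroup G)⁆ ⊔ D = ⊤) :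
    ∃ B : Subgroup G, B.Normal ∧ B ⊔ D = ⊤ ∧ ∀ B' : Subgroup G, B'.IsSubnormal → B' ⊔ D = ⊤ → B ≤ B' := by
  classical
  haveI : Finite (Subgroup G) := inferInstance
  obtain ⟨B, hB, hmin⟩ := (Set.toFinite {B : Subgroup G | B.IsSubnormal ∧ B ⊔ D = ⊤}).exists_minimal
    ⟨⊤, Subgroup.IsSubnormal.top, top_sup_eq D⟩
  have hleast : ∀ B' : Subgroup G, B'.IsSubnormal → B' ⊔ D = ⊤ → B ≤ B' := by
    intro B' h1 h2
    have h3 : B ⊓ B' ∈ {B : Subgroup G | B.IsSubnormal ∧ B ⊔ D = ⊤} :=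
      ⟨hB.1.inf h1, key D hperf h1 h2 B hB.1 hB.2⟩
    exact (hmin h3 inf_le_left).trans inf_le_right
  refine ⟨B, ⟨fun b hb g => ?_⟩, hB.2, hleast⟩
  have hDn : D.Normal := inferInstance
  have h4 : B ≤ B.map (MulAut.conj g).toMonoidHom := by
    apply hleast
    · exact hB.1.map (MulAut.conj g).surjective
    · have h5 : D.map (MulAut.conj g).toMonoidHom = D := by
        apply le_antisymm
        · rintro _ ⟨d, hd, rfl⟩
          exact hDn.conj_mem d hd g
        · intro d hd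
          refine ⟨g⁻¹ * d * g, ?_, ?_⟩
          · have := hDn.conj_mem d hd g⁻¹
            rwa [inv_inv] at this
          · change g * (g⁻¹ * d * g) * g⁻¹ = d
            group
      conv_lhs => rw [← h5]
      rw [← Subgroup.map_sup, hB.2]
      exact Subgroup.map_top_of_surjective _ (MulAut.conj g).surjective
  have h6 : B.map (MulAut.conj g).toMonoidHom = B := by
    symm
    apply Subgroup.eq_of_le_of_card_ge h4
    rw [Subgroup.card_map_of_injective (MulAut.conj g).injective]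
  rw [← h6]
  exact ⟨b, hb, rfl⟩

end Cfsg.Agent.S3027
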