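import Cfsg.Statements.S3053
import Cfsg.Agent.Lib.SClosed

set_option autoImplicit false
open Cfsg

namespace Cfsg.Agent.S3053

open Cfsg.Agent.Lib

/-- Let p be an odd prime and G a finite group with a Sylow p-subgroup P that is extraspecial of order p³ and exponent p². Then the centre of P is strongly closed in P with respect to G: a G-conjugate of an element of Z(P) that lies in P already lies in Z(P). In particular a nontrivial central element of P is conjugate in G to no noncentral element of P. -/
theorem result {G : Type*} [Group G] [Finite G]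
    {p : ℕ} [Fact p.Prime] (hp : p ≠ 2) (P : Sylow p G) (hE : Cfsg.IsExtraspecial p ↥P)
    (hcard : Nat.card P = p ^ 3) (hexp : Monoid.exponent ↥P = p ^ 2) :
    Cfsg.IsStronglyClosed ((Subgroup.center ↥P).map (P : Subgroup G).subtype) (P : Subgroup G) := by
  obtain ⟨z, D, hz⟩ := SClosed.pz_of hE hcard
  have hcen : ∀ x : G, x ∈ (Subgroup.center ↥P).map (P : Subgroup G).subtype ↔ x ∈ Subgroup.zpowers (z : G) := by
    intro x
    constructor
    · rintro ⟨y, hy, rfl⟩
      apply hz.cen y y.2
      intro u hu
      exact (congrArg Subtype.val (Subgroup.mem_center_iff.mp hy ⟨u, hu⟩)).symm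
    · intro hx
      obtain ⟨k, rfl⟩ := Subgroup.mem_zpowers_iff.mp hx
      refine ⟨z ^ k, ?_, rfl⟩
      apply Subgroup.zpow_mem
      exact Subgroup.mem_center_iff.mpr fun u => D.zc u
  refine ⟨Subgroup.map_subtype_le _, ?_⟩
  intro x hx g hg
  rw [hcen] at hx ⊢
  refine SClosed.main hp P hz ?_ ?_ hx hg
  · intro u hu
    obtain ⟨k, hk⟩ := Subgroup.mem_zpowers_iff.mp (D.pow_mem ⟨u, hu⟩)
    exact Subgroup.mem_zpowers_iff.mpr ⟨k, congrArg Subtype.val hk⟩
  · by_contra hc
    push Not at hc
    have h1 : Monoid.exponent ↥P ∣ p := by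
      apply Monoid.exponent_dvd_of_forall_pow_eq_one
      intro u
      exact Subtype.ext (hc u u.2)
    rw [hexp] at h1
    have h2 := Nat.le_of_dvd (Fact.out : p.Prime).pos h1
    have h3 := (Fact.out : p.Prime).one_lt
    nlinarith

end Cfsg.Agent.S3053
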