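import Cfsg.Statements.S3058
import Cfsg.Agent.Lib.SylChain
import Cfsg.Agent.Lib.CoprimeB
import Cfsg.Agent.Lib.Cyc
import Cfsg.Agent.Lib.Basic

set_option autoImplicit false
open Cfsg
open Cfsg.Agent.Lib.StrongEmb Cfsg.Agent.Lib.StrongEmbB Cfsg.Agent.Lib.SylRel Cfsg.Agent.Lib.SylChain

namespace Cfsg.Agent.S3058

/-- Let p be a prime and G a finite group whose Sylow p-subgroups are not chain-connected through nontrivial intersections (so G has a strongly p-embedded subgroup). If N and M are normal subgroups of G whose orders are both divisible by p, then the order of N ∩ M is divisible by p. Consequently, among the normal subgroups of G whose order is divisible by p there is a smallest one (the intersection of all of them). -/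
theorem result {G : Type*} [Group G] [Finite G]
    (p : ℕ) [Fact p.Prime] (hG : ¬ Cfsg.IsSylowChainConnected p G)
    (N M : Subgroup G) [N.Normal] [M.Normal] (hN : p ∣ Nat.card N) (hM : p ∣ Nat.card M) :
    p ∣ Nat.card ↥(N ⊓ M) := by
  rw [isSylowChainConnected_iff] at hG
  push Not at hG
  obtain ⟨S, T, hST⟩ := hG
  obtain ⟨H, hSH, h⟩ := exists_se hST
  by_contra hd
  have hS := sylIn_of_sylow S
  have hPN : SylIn p ((S : Subgroup G) ⊓ N) N := hS.inf_normal le_top (fun x _ => by rw [Subgroup.normalizer_eq_top]; trivial)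
  have hQM : SylIn p ((S : Subgroup G) ⊓ M) M := hS.inf_normal le_top (fun x _ => by rw [Subgroup.normalizer_eq_top]; trivial)
  set P := (S : Subgroup G) ⊓ N with hP
  set Q := (S : Subgroup G) ⊓ M with hQ
  have hP1 : p ∣ Nat.card P := by
    have h1 := relIndex_mul_card' hPN.le
    rw [← h1] at hN
    exact ((Fact.out : p.Prime).dvd_mul.1 hN).resolve_left hPN.not_dvd
  have hQ1 : p ∣ Nat.card Q := by
    have h1 := relIndex_mul_card' hQM.le
    rw [← h1] at hM
    exact ((Fact.out : p.Prime).dvd_mul.1 hM).resolve_left hQM.not_dvd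
  have hPQ : P ⊓ Q = ⊥ := by
    by_contra hne
    apply hd
    exact (dvd_card_of_ne_bot (S.2.to_le (inf_le_left.trans inf_le_left)) hne).trans
      (Subgroup.card_dvd_of_le (inf_le_inf inf_le_right inf_le_right))
  have hcomm : ∀ x ∈ P, ∀ y ∈ Q, x * y = y * x := by
    intro x hx y hy
    have h1 : x * y * x⁻¹ * y⁻¹ ∈ P ⊓ Q := by
      refine ⟨⟨?_, ?_⟩, ⟨?_, ?_⟩⟩
      · exact Subgroup.mul_mem _ (Subgroup.mul_mem _ (Subgroup.mul_mem _ hx.1 hy.1) (Subgroup.inv_mem _ hx.1)) (Subgroup.inv_mem _ hy.1)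
      · have := N.mul_mem hx.2 (‹N.Normal›.conj_mem _ (N.inv_mem hx.2) y)
        have e : x * (y * x⁻¹ * y⁻¹) = x * y * x⁻¹ * y⁻¹ := by group
        rwa [e] at this
      · exact Subgroup.mul_mem _ (Subgroup.mul_mem _ (Subgroup.mul_mem _ hx.1 hy.1) (Subgroup.inv_mem _ hx.1)) (Subgroup.inv_mem _ hy.1)
      · exact M.mul_mem (‹M.Normal›.conj_mem _ hy.2 x) (M.inv_mem hy.2)
    rw [hPQ, Subgroup.mem_bot] at h1
    have h2 := mul_inv_eq_one.1 h1
    exact mul_inv_eq_iff_eq_mul.1 h2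
  obtain ⟨x, hx, hxo⟩ := exists_order_p hP1
  obtain ⟨y, hy, hyo⟩ := exists_order_p hQ1
  have hne1 : ∀ z : G, orderOf z = p → z ≠ 1 := by
    rintro z hz rfl
    rw [orderOf_one] at hz
    exact (Fact.out : p.Prime).one_lt.ne hz
  -- the elementary abelian group
  set E := Subgroup.zpowers x ⊔ Subgroup.zpowers y with hE
  have hES : E ≤ (S : Subgroup G) := sup_le ((Subgroup.zpowers_le).2 hx.1) ((Subgroup.zpowers_le).2 hy.1)
  have hEmem : ∀ e ∈ E, ∃ i j : ℤ, e = x ^ i * y ^ j := by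
    intro e he
    rw [hE] at he
    have hn : Subgroup.zpowers y ≤ Subgroup.normalizer (Subgroup.zpowers x : Set G) := by
      rw [Subgroup.zpowers_le]
      rw [Subgroup.mem_normalizer_iff]
      have key : ∀ k : ℤ, y * x ^ k * y⁻¹ = x ^ k := by
        intro k
        have : Commute y (x ^ k) := (Commute.zpow_right (hcomm x hx y hy).symm k)
        rw [this.eq, mul_inv_cancel_right]
      intro z
      constructor
      · rintro ⟨k, rfl⟩
        exact ⟨k, (key k).symm⟩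
      · rintro ⟨k, hk⟩
        have h1 : x ^ k = y * z * y⁻¹ := hk
        refine ⟨k, ?_⟩
        show x ^ k = z
        have h2 := key k
        have h3 : z = y⁻¹ * x ^ k * y := by rw [h1]; group
        rw [h3]
        have : Commute y (x ^ k) := (Commute.zpow_right (hcomm x hx y hy).symm k)
        rw [mul_assoc, ← this.eq, inv_mul_cancel_left]
    obtain ⟨_, ⟨i, rfl⟩, _, ⟨j, rfl⟩, rfl⟩ := (Cfsg.Agent.Lib.Basic.mem_sup_iff_left hn).1 he
    exact ⟨i, j, rfl⟩
  have hEcomm : IsMulCommutative E := by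
    refine ⟨⟨?_⟩⟩
    rintro ⟨a, ha⟩ ⟨b, hb⟩
    obtain ⟨i, j, rfl⟩ := hEmem a ha
    obtain ⟨k, l, rfl⟩ := hEmem b hb
    apply Subtype.ext
    have hc : Commute x y := hcomm x hx y hy
    show x ^ i * y ^ j * (x ^ k * y ^ l) = x ^ k * y ^ l * (x ^ i * y ^ j)
    have h1 : Commute (y ^ j) (x ^ k) := (hc.symm.zpow_zpow j k)
    have h2 : Commute (y ^ l) (x ^ i) := (hc.symm.zpow_zpow l i)
    calc x ^ i * y ^ j * (x ^ k * y ^ l) = x ^ i * (y ^ j * x ^ k) * y ^ l := by group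
      _ = x ^ i * (x ^ k * y ^ j) * y ^ l := by rw [h1.eq]
      _ = x ^ k * (x ^ i * y ^ l) * y ^ j := by
        have h3 : Commute (x ^ i) (x ^ k) := (Commute.refl x).zpow_zpow i k
        have h4 : Commute (y ^ j) (y ^ l) := (Commute.refl y).zpow_zpow j l
        calc x ^ i * (x ^ k * y ^ j) * y ^ l = (x ^ i * x ^ k) * (y ^ j * y ^ l) := by group
          _ = (x ^ k * x ^ i) * (y ^ l * y ^ j) := by rw [h3.eq, h4.eq]
          _ = _ := by group
      _ = x ^ k * (y ^ l * x ^ i) * y ^ j := by rw [h2.eq]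
      _ = _ := by group
  have hEnc : ¬ IsCyclic E := by
    intro hc
    have h1 : Subgroup.zpowers x ≤ E := le_sup_left
    have h2 : Subgroup.zpowers y ≤ E := le_sup_right
    have h3 : (Subgroup.zpowers x).subgroupOf E = (Subgroup.zpowers y).subgroupOf E := by
      apply Cfsg.Agent.Lib.Cyc.eq_of_card_eq
      rw [Nat.card_congr (Subgroup.subgroupOfEquivOfLe h1).toEquiv, Nat.card_congr (Subgroup.subgroupOfEquivOfLe h2).toEquiv,
        Nat.card_zpowers, Nat.card_zpowers, hxo, hyo]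
    have h4 : (⟨x, h1 (Subgroup.mem_zpowers x)⟩ : E) ∈ (Subgroup.zpowers y).subgroupOf E := by
      rw [← h3]; exact Subgroup.mem_subgroupOf.2 (Subgroup.mem_zpowers x)
    have h5 : x ∈ Q := ((Subgroup.zpowers_le).2 hy) (Subgroup.mem_subgroupOf.1 h4)
    have h6 : x ∈ P ⊓ Q := ⟨hx, h5⟩
    rw [hPQ, Subgroup.mem_bot] at h6
    exact hne1 x hxo h6
  have hgen := Cfsg.Agent.Lib.CoprimeB.gen_of_not_isCyclic (A := E) (K := N ⊓ M) hEcomm hEnc
    (by rw [Subgroup.normalizer_eq_top]; exact le_top) (by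
      obtain ⟨n, hn⟩ := IsPGroup.iff_card.1 (S.2.to_le hES)
      rw [hn]
      exact Nat.Coprime.pow_left n ((Fact.out : p.Prime).coprime_iff_not_dvd.2 hd))
  have hKH : N ⊓ M ≤ H := by
    rw [← hgen, Cfsg.Agent.Lib.CoprimeB.genCent, Subgroup.closure_le]
    rintro z ⟨hz, a, ha, ha1, haz⟩
    refine centralizer_le h (x := a) (hSH (hES ha)) ?_ ha1 ?_
    · obtain ⟨k, hk⟩ := (IsPGroup.iff_orderOf.1 S.2) ⟨a, hES ha⟩
      exact ⟨k, by rw [← hk, Subgroup.orderOf_mk]⟩
    · rw [Subgroup.mem_centralizer_singleton_iff]; exact haz.symm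
  -- `N ≤ H`
  have hNH : N ≤ H := by
    intro n hn
    -- `Q^n ≤ Q (N ∩ M)`
    have h1 : Q.map (MulAut.conj n).toMonoidHom ≤ Q ⊔ (N ⊓ M) := by
      rintro _ ⟨q, hq, rfl⟩
      have h2 : q⁻¹ * (n * q * n⁻¹) ∈ N ⊓ M := by
        refine ⟨?_, M.mul_mem (M.inv_mem hq.2) (‹M.Normal›.conj_mem _ hq.2 n)⟩
        have := N.mul_mem (‹N.Normal›.conj_mem _ hn q⁻¹) (N.inv_mem hn)
        have e : q⁻¹ * n * q⁻¹⁻¹ * n⁻¹ = q⁻¹ * (n * q * n⁻¹) := by group
        rwa [e] at this
      have := (Q ⊔ (N ⊓ M)).mul_mem (Subgroup.mem_sup_left hq) (Subgroup.mem_sup_right h2)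
      rwa [mul_inv_cancel_left] at this
    have hQs : SylIn p Q (Q ⊔ (N ⊓ M)) := hQM.mono le_sup_left (sup_le hQM.le inf_le_right)
    obtain ⟨a, ha, h2⟩ := hQs.conj_le h1 (hQM.isPGroup.map _)
    have haH : a ∈ H := (sup_le (inf_le_left.trans hSH) hKH : Q ⊔ (N ⊓ M) ≤ H) ha
    have h3 : a * n ∈ H := by
      refine mem_of_conj h (inf_le_left.trans hSH) hQM.isPGroup (ne_bot_of_dvd hQ1) fun q hq => ?_
      have := h2 _ ⟨q, hq, rfl⟩
      have e : a * n * q * (a * n)⁻¹ = a * ((MulAut.conj n).toMonoidHom q) * a⁻¹ := by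
        show a * n * q * (a * n)⁻¹ = a * (n * q * n⁻¹) * a⁻¹
        group
      rw [e]; exact hSH this.1
    have := H.mul_mem (H.inv_mem haH) h3
    rwa [inv_mul_cancel_left] at this
  exact not_dvd_of_normal_le h hNH hN

end Cfsg.Agent.S3058
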