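import Cfsg.Statements.S3059
import Cfsg.Agent.Lib.StrongEmbB
import Cfsg.Agent.Lib.Resid

set_option autoImplicit false
open Cfsg
open Cfsg.Agent.Lib.StrongEmb Cfsg.Agent.Lib.StrongEmbB Cfsg.Agent.Lib.SylRel

namespace Cfsg.Agent.S3059

/-- Let p be a prime and H a strongly p-embedded subgroup of the finite group G in the classical sense: H is proper, p divides the order of H, and H ∩ gHg⁻¹ has order prime to p for every g outside H. Then for every normal subgroup N of G of order divisible by p, G = H · O^p(N), where O^p(N) is the subgroup generated by the elements of N of order prime to p. -/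
theorem result {G : Type*} [Group G] [Finite G]
    (p : ℕ) [Fact p.Prime] (H : Subgroup G) (hH : H ≠ ⊤) (hpH : p ∣ Nat.card H)
    (hse : ∀ g : G, g ∉ H → ¬ p ∣ Nat.card ↥(H ⊓ H.map (MulAut.conj g).toMonoidHom))
    (N : Subgroup G) [N.Normal] (hN : p ∣ Nat.card N) :
    H ⊔ Subgroup.closure {g : G | g ∈ N ∧ (orderOf g).Coprime p} = ⊤ := by
  have h : IsSE p H := ⟨hH, hpH, hse⟩
  set R := Subgroup.closure {g : G | g ∈ N ∧ (orderOf g).Coprime p} with hR
  rw [eq_top_iff]
  intro g _
  obtain ⟨n, hn, h1⟩ := sup_eq_top_of_normal h hN (g := g)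
  have key : N ≤ H ⊔ R := by
    obtain ⟨T, hT, hTM, -⟩ := exists_sylIn_top h
    have h2 : SylIn p (T ⊓ N) N := hT.inf_normal le_top (fun x _ => by rw [Subgroup.normalizer_eq_top]; trivial)
    obtain ⟨P, hP⟩ := (sylIn_iff h2.le).1 h2
    have h3 := Cfsg.Agent.Lib.Resid.sylow_sup_pResidual P
    intro x hx
    have h4 : (⟨x, hx⟩ : N) ∈ (P : Subgroup N) ⊔ pResidual p N := by rw [h3]; trivial
    have h5 : (P : Subgroup N) ⊔ pResidual p N ≤ (H ⊔ R).comap N.subtype := by
      refine sup_le ?_ ?_
      · intro y hy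
        rw [hP] at hy
        exact Subgroup.mem_sup_left (hTM (Subgroup.mem_subgroupOf.1 hy).1)
      · unfold pResidual
        rw [Subgroup.closure_le]
        intro y hy
        exact Subgroup.mem_sup_right (Subgroup.subset_closure ⟨y.2, by
          have : orderOf (y : G) = orderOf y := Subgroup.orderOf_coe y
          show (orderOf (y : G)).Coprime p
          rw [this]; exact hy⟩)
    exact h5 h4
  have := (H ⊔ R).mul_mem ((H ⊔ R).inv_mem (key hn)) (Subgroup.mem_sup_left h1)
  rwa [inv_mul_cancel_left] at this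

end Cfsg.Agent.S3059
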