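import Cfsg.Statements.S3087
import Cfsg.Agent.Lib.Basic

set_option autoImplicit false
open Cfsg

namespace Cfsg.Agent.S3087

/-- Let p be a prime, G a finite group acting linearly on a finite vector space V over the field with p elements, W a G-invariant subspace, and A a subgroup of G with |A|·|C_V(A)| ≥ |B|·|C_V(B)| for every subgroup B of A. Then |A|·|C_W(A)| ≥ |B|·|C_W(B)| for every subgroup B of A that contains C_A(W); that is, the image of A in the group induced on W satisfies the same maximality condition. -/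
theorem result {G V : Type*} [Group G] [Finite G] [AddCommGroup V] [Finite V] (p : ℕ) [Fact p.Prime] [Module (ZMod p) V]
    (ρ : Representation (ZMod p) G V) (W : Submodule (ZMod p) V) (hW : ∀ g : G, ∀ w ∈ W, ρ g w ∈ W)
    (A : Subgroup G)
    (hP : ∀ B : Subgroup G, B ≤ A →
      Nat.card ↥B * Nat.card {v : V // ∀ b ∈ B, ρ b v = v} ≤ Nat.card ↥A * Nat.card {v : V // ∀ a ∈ A, ρ a v = v})
    (B : Subgroup G) (hBA : B ≤ A) (hCB : ∀ a ∈ A, (∀ w ∈ W, ρ a w = w) → a ∈ B) :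
    Nat.card ↥B * Nat.card {w : W // ∀ b ∈ B, ρ b w = w} ≤ Nat.card ↥A * Nat.card {w : W // ∀ a ∈ A, ρ a w = w} := by
  let fx : Submodule (ZMod p) V → Subgroup G → AddSubgroup V := fun U B =>
    { carrier := {v | v ∈ U ∧ ∀ b ∈ B, ρ b v = v}
      zero_mem' := ⟨U.zero_mem, fun b _ => map_zero _⟩
      add_mem' := fun {a b} ha hb => ⟨U.add_mem ha.1 hb.1, fun c hc => by rw [map_add, ha.2 c hc, hb.2 c hc]⟩
      neg_mem' := fun {a} ha => ⟨U.neg_mem ha.1, fun c hc => by rw [map_neg, ha.2 c hc]⟩ }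
  have cV : ∀ B : Subgroup G, Nat.card {v : V // ∀ b ∈ B, ρ b v = v} = Nat.card (fx ⊤ B) := by
    intro B
    exact Nat.card_congr
      { toFun := fun v => ⟨v.1, trivial, v.2⟩
        invFun := fun v => ⟨v.1, v.2.2⟩
        left_inv := fun v => rfl
        right_inv := fun v => rfl }
  have cW : ∀ B : Subgroup G, Nat.card {w : W // ∀ b ∈ B, ρ b w = w} = Nat.card (fx W B) := by
    intro B
    exact Nat.card_congr
      { toFun := fun v => ⟨v.1.1, v.1.2, v.2⟩
        invFun := fun v => ⟨⟨v.1, v.2.1⟩, v.2.2⟩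
        left_inv := fun v => rfl
        right_inv := fun v => rfl }
  have h := hP B hBA
  rw [cV, cV] at h
  rw [cW, cW]
  have e1 : ∀ {X Y : AddSubgroup V}, X ≤ Y → Nat.card X * X.relIndex Y = Nat.card Y := by
    intro X Y hXY
    rw [← AddSubgroup.relIndex_bot_left X, AddSubgroup.relIndex_mul_relIndex ⊥ X Y bot_le hXY,
      AddSubgroup.relIndex_bot_left]
  have hinf : fx W B ⊓ fx ⊤ A = fx W A := by
    ext v
    constructor
    · rintro ⟨⟨h1, _⟩, ⟨_, h3⟩⟩
      exact ⟨h1, h3⟩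
    · rintro ⟨h1, h2⟩
      exact ⟨⟨h1, fun b hb => h2 b (hBA hb)⟩, ⟨trivial, h2⟩⟩
  have hle1 : fx W B ≤ fx ⊤ B := fun v hv => ⟨trivial, hv.2⟩
  have hle2 : fx ⊤ A ≤ fx ⊤ B := fun v hv => ⟨trivial, fun b hb => hv.2 b (hBA hb)⟩
  have a1 := e1 (inf_le_left : fx W B ⊓ fx ⊤ A ≤ fx W B)
  rw [AddSubgroup.inf_relIndex_left, hinf] at a1
  have a2 := e1 hle2
  have a3 : (fx ⊤ A).relIndex (fx W B) ≤ (fx ⊤ A).relIndex (fx ⊤ B) :=
    AddSubgroup.relIndex_le_of_le_right hle1 (fun h0 => by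
      rw [h0, mul_zero] at a2
      exact Nat.card_pos.ne' a2.symm)
  rw [← a2] at h
  rw [← a1]
  have hpos : 0 < Nat.card (fx ⊤ A) := Nat.card_pos
  have h5 : Nat.card B * (fx ⊤ A).relIndex (fx ⊤ B) ≤ Nat.card A := by
    apply Nat.le_of_mul_le_mul_right _ hpos
    calc Nat.card B * (fx ⊤ A).relIndex (fx ⊤ B) * Nat.card (fx ⊤ A)
        = Nat.card B * (Nat.card (fx ⊤ A) * (fx ⊤ A).relIndex (fx ⊤ B)) := by ring
      _ ≤ _ := h
  calc Nat.card B * (Nat.card (fx W A) * (fx ⊤ A).relIndex (fx W B))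
      ≤ Nat.card B * (Nat.card (fx W A) * (fx ⊤ A).relIndex (fx ⊤ B)) :=
        Nat.mul_le_mul_left _ (Nat.mul_le_mul_left _ a3)
    _ = (Nat.card B * (fx ⊤ A).relIndex (fx ⊤ B)) * Nat.card (fx W A) := by ring
    _ ≤ Nat.card A * Nat.card (fx W A) := Nat.mul_le_mul_right _ h5

end Cfsg.Agent.S3087
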