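import Cfsg.Statements.S3155
import Mathlib

set_option autoImplicit false
open Cfsg

namespace Cfsg.Agent.S3155

/-- Let B be the direct product of three cyclic groups of order 4. Then the automorphism of B inverting every element is not the square of any automorphism of B. -/
theorem result {B : Type*} [CommGroup B] [Finite B] (hB : Nonempty (B ≃* Multiplicative (ZMod 4 × ZMod 4 × ZMod 4)))
    (τ : B ≃* B) : τ.trans τ ≠ MulEquiv.inv B := by
  intro hτ
  obtain ⟨e⟩ := hB
  let f : (ZMod 4 × ZMod 4 × ZMod 4) →+ (ZMod 4 × ZMod 4 × ZMod 4) :=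
    { toFun := fun m => Multiplicative.toAdd (e (τ (e.symm (Multiplicative.ofAdd m))))
      map_zero' := by simp
      map_add' := by intro a b; simp [ofAdd_add, map_mul, toAdd_mul] }
  let F : (ZMod 4 × ZMod 4 × ZMod 4) →ₗ[ZMod 4] (ZMod 4 × ZMod 4 × ZMod 4) :=
    AddMonoidHom.toZModLinearMap 4 f
  have hF : F ∘ₗ F = (-1 : ZMod 4) • LinearMap.id := by
    apply LinearMap.ext
    intro x
    have h1 : τ (τ (e.symm (Multiplicative.ofAdd x))) = (e.symm (Multiplicative.ofAdd x))⁻¹ := by
      have := DFunLike.congr_fun hτ (e.symm (Multiplicative.ofAdd x))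
      simpa using this
    have h2 : (F ∘ₗ F) x = Multiplicative.toAdd (e (τ (τ (e.symm (Multiplicative.ofAdd x))))) := by
      simp [F, f]
    rw [h2, h1]
    simp
  have : Fact (1 < 4) := ⟨by norm_num⟩
  have hdet : LinearMap.det F * LinearMap.det F = -1 := by
    rw [← LinearMap.det_comp, hF, LinearMap.det_smul]
    have : Module.finrank (ZMod 4) (ZMod 4 × ZMod 4 × ZMod 4) = 3 := by
      simp [Module.finrank_prod]
    rw [this, LinearMap.det_id]; decide
  revert hdet
  generalize LinearMap.det F = d
  revert d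
  decide

end Cfsg.Agent.S3155
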