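import Cfsg.Statements.S3180
import Mathlib

set_option autoImplicit false
open Cfsg

namespace Cfsg.Agent.S3180

/-- Let P be a Sylow p-subgroup of a finite group J and P₁ a subgroup of P that is weakly closed in P with respect to J. If J acts on a set and two points, each fixed by every element of P₁, lie in one J-orbit, then they lie in one orbit of the normalizer of P₁ in J. -/
theorem result {J : Type*} [Group J] [Finite J]
    {p : ℕ} [Fact p.Prime] (P : Sylow p J) (P₁ : Subgroup J) (hW : Cfsg.IsWeaklyClosed P₁ (P : Subgroup J))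
    {Ω : Type*} [MulAction J Ω] (x y : Ω) (hx : ∀ g ∈ P₁, g • x = x) (hy : ∀ g ∈ P₁, g • y = y)
    (hc : ∃ g : J, g • x = y) :
    ∃ g ∈ Subgroup.normalizer (P₁ : Set J), g • x = y := by
  obtain ⟨g, hg⟩ := hc
  classical
  -- stabilizer of y
  set Y := MulAction.stabilizer J y with hY
  have hP₁p : IsPGroup p P₁ := P.isPGroup'.to_le hW.1
  have h1 : P₁ ≤ Y := fun a ha => hy a ha
  have h2 : P₁.map (MulAut.conj g).toMonoidHom ≤ Y := by
    rintro _ ⟨a, ha, rfl⟩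
    show (g * a * g⁻¹) • y = y
    rw [← hg, ← mul_smul, inv_mul_cancel_right, mul_smul, hx a ha]
  -- Sylow subgroups of Y
  obtain ⟨Q₁, hQ₁⟩ := (hP₁p.comap_of_injective Y.subtype Y.subtype_injective : IsPGroup p (P₁.comap Y.subtype)).exists_le_sylow
  obtain ⟨Q₂, hQ₂⟩ := ((hP₁p.map (MulAut.conj g).toMonoidHom).comap_of_injective Y.subtype Y.subtype_injective :
    IsPGroup p ((P₁.map (MulAut.conj g).toMonoidHom).comap Y.subtype)).exists_le_sylow
  obtain ⟨k, hk⟩ := MulAction.exists_smul_eq Y Q₂ Q₁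
  -- Sylow of J containing Q₁
  obtain ⟨R, hR⟩ := (Q₁.isPGroup'.map Y.subtype : IsPGroup p ((Q₁ : Subgroup Y).map Y.subtype)).exists_le_sylow
  obtain ⟨u, hu⟩ := MulAction.exists_smul_eq J R P
  have hmemR : ∀ a ∈ P₁, a ∈ R := fun a ha => hR ⟨⟨a, h1 ha⟩, hQ₁ ha, rfl⟩
  have hmemR2 : ∀ a ∈ P₁, (k : J) * (g * a * g⁻¹) * (k : J)⁻¹ ∈ R := by
    intro a ha
    have e1 : (⟨g * a * g⁻¹, h2 ⟨a, ha, rfl⟩⟩ : Y) ∈ Q₂ := hQ₂ (by
      show g * a * g⁻¹ ∈ P₁.map (MulAut.conj g).toMonoidHom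
      exact ⟨a, ha, rfl⟩)
    have e2 : k * (⟨g * a * g⁻¹, h2 ⟨a, ha, rfl⟩⟩ : Y) * k⁻¹ ∈ Q₁ := by
      rw [← hk]
      exact ⟨_, e1, rfl⟩
    exact hR ⟨_, e2, rfl⟩
  have hconj : ∀ r ∈ R, u * r * u⁻¹ ∈ P := by
    intro r hr
    rw [← hu]; exact ⟨r, hr, rfl⟩
  have e3 : P₁.map (MulAut.conj u).toMonoidHom = P₁ := by
    apply hW.2
    rintro _ ⟨a, ha, rfl⟩
    exact hconj a (hmemR a ha)
  have e4 : P₁.map (MulAut.conj (u * (k * g))).toMonoidHom = P₁ := by
    apply hW.2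
    rintro _ ⟨a, ha, rfl⟩
    have := hconj _ (hmemR2 a ha)
    show u * (k * g) * a * (u * (k * g))⁻¹ ∈ P
    have e : u * (k * g) * a * (u * (k * g))⁻¹ = u * (k * (g * a * g⁻¹) * (k : J)⁻¹) * u⁻¹ := by group
    rw [e]; exact this
  have key : ∀ w : J, P₁.map (MulAut.conj w).toMonoidHom = P₁ → w ∈ Subgroup.normalizer (P₁ : Set J) := by
    intro w hw
    rw [Subgroup.mem_normalizer_iff]
    intro h
    constructor
    · intro hh
      rw [← hw]; exact ⟨h, hh, rfl⟩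
    · intro hh
      have : w * h * w⁻¹ ∈ P₁.map (MulAut.conj w).toMonoidHom := by rw [hw]; exact hh
      obtain ⟨b, hb, hb'⟩ := this
      have : b = h := by
        have hb'' : w * b * w⁻¹ = w * h * w⁻¹ := hb'
        exact mul_left_cancel (mul_right_cancel hb'')
      rwa [← this]
  refine ⟨k * g, ?_, ?_⟩
  · have := (Subgroup.normalizer (P₁ : Set J)).mul_mem ((Subgroup.normalizer (P₁ : Set J)).inv_mem (key _ e3)) (key _ e4)
    rwa [inv_mul_cancel_left] at this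
  · rw [mul_smul, hg]; exact k.2

end Cfsg.Agent.S3180
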