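import Cfsg.Statements.S3183
import Mathlib
import Cfsg.Agent.H8.Sylow

set_option autoImplicit false
open Cfsg

namespace Cfsg.Agent.S3183

/-- Let G be a finite group in which the intersection of any two distinct Sylow 2-subgroups is contained in the centre of some Sylow 2-subgroup, and let S be a Sylow 2-subgroup. Then for every x in S the centralizer of x in S is a Sylow 2-subgroup of the centralizer of x in G (no 2-subgroup centralizing x is larger), and for every other Sylow 2-subgroup T the intersection S ∩ T lies in both the centre of S and the centre of T. -/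
theorem result {G : Type*} [Group G] [Finite G]
    (hCI : ∀ S T : Sylow 2 G, S ≠ T → ∃ U : Sylow 2 G,
      (S : Subgroup G) ⊓ (T : Subgroup G) ≤ (Subgroup.center ↥(U : Subgroup G)).map (U : Subgroup G).subtype)
    (S : Sylow 2 G) :
    (∀ x ∈ (S : Subgroup G), ∀ P : Subgroup G, IsPGroup 2 ↥P → P ≤ Subgroup.centralizer ({x} : Set G) →
        Nat.card ↥P ≤ Nat.card ↥((S : Subgroup G) ⊓ Subgroup.centralizer ({x} : Set G))) ∧
    (∀ T : Sylow 2 G, T ≠ S →
        (S : Subgroup G) ⊓ (T : Subgroup G) ≤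
          (Subgroup.center ↥(S : Subgroup G)).map (S : Subgroup G).subtype ⊓
            (Subgroup.center ↥(T : Subgroup G)).map (T : Subgroup G).subtype) := by
  classical
  have : Fact (Nat.Prime 2) := ⟨Nat.prime_two⟩
  -- membership in the centre
  have hmc : ∀ x y : G, x ∈ Subgroup.centralizer ({y} : Set G) ↔ y * x = x * y := by
    intro x y; rw [Subgroup.mem_centralizer_iff]; simp
  have hZ : ∀ (U : Sylow 2 G) (z : G), z ∈ (Subgroup.center ↥(U : Subgroup G)).map (U : Subgroup G).subtype ↔
      z ∈ U ∧ ∀ u ∈ U, u * z = z * u := by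
    intro U z
    constructor
    · rintro ⟨w, hw, rfl⟩
      refine ⟨w.2, fun u hu => ?_⟩
      exact congrArg Subtype.val (Subgroup.mem_center_iff.1 hw ⟨u, hu⟩)
    · rintro ⟨h1, h2⟩
      refine ⟨⟨z, h1⟩, Subgroup.mem_center_iff.2 fun u => Subtype.ext (h2 u u.2), rfl⟩
  have part1 : ∀ (S : Sylow 2 G), ∀ x ∈ (S : Subgroup G), ∀ P : Subgroup G, IsPGroup 2 ↥P →
      P ≤ Subgroup.centralizer ({x} : Set G) →
      Nat.card ↥P ≤ Nat.card ↥((S : Subgroup G) ⊓ Subgroup.centralizer ({x} : Set G)) := by
    intro S x hx P hP hPC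
    set C := Subgroup.centralizer ({x} : Set G) with hC
    have hDp : IsPGroup 2 ↥((S : Subgroup G) ⊓ C) := S.isPGroup'.to_le inf_le_left
    obtain ⟨Q, hQp, hDQ, hQC, hQcard, -⟩ := Cfsg.Agent.H8.Sylow.exists_sylow_of hDp inf_le_right
    refine (hQcard P hP hPC).trans ?_
    obtain ⟨T, hT⟩ := hQp.exists_le_sylow
    by_cases hTS : T = S
    · rw [hTS] at hT
      exact Nat.card_le_card_of_injective _ (Subgroup.inclusion_injective (le_inf hT hQC))
    · obtain ⟨U, hU⟩ := hCI S T (Ne.symm hTS)
      have hxC : x ∈ C := (hmc x x).2 rfl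
      have hxT : x ∈ (T : Subgroup G) := hT (hDQ ⟨hx, hxC⟩)
      have hUC : (U : Subgroup G) ≤ C := fun u hu => (hmc u x).2 (((hZ U x).1 (hU ⟨hx, hxT⟩)).2 u hu).symm
      have hQT : Q = T := by
        apply Cfsg.Agent.H8.Sylow.eq_of_le_of_card_le hT
        rw [← Nat.card_congr (Sylow.equiv U T).toEquiv]
        exact hQcard U U.isPGroup' hUC
      have hDeq : (S : Subgroup G) ⊓ C = (S : Subgroup G) ⊓ (T : Subgroup G) := by
        apply le_antisymm
        · exact le_inf inf_le_left (hDQ.trans hT)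
        · exact le_inf inf_le_left (inf_le_right.trans (hQT ▸ hQC))
      set D := (S : Subgroup G) ⊓ C with hD
      have hUD : (U : Subgroup G) ≤ Subgroup.centralizer (D : Set G) := by
        intro u hu
        rw [Subgroup.mem_centralizer_iff]
        intro d hd
        exact (((hZ U d).1 (hU (hDeq ▸ hd))).2 u hu).symm
      have hDS : D = S := by
        by_contra hne
        have hlt : D < S := lt_of_le_of_ne inf_le_left hne
        obtain ⟨s, hsS, hsD, hsN⟩ := Cfsg.Agent.H8.Sylow.exists_normalizer_of_lt S.isPGroup' hlt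
        have hCN : Subgroup.centralizer (D : Set G) ≤ Subgroup.normalizer (D : Set G) :=
          Subgroup.centralizer_le_normalizer _
        obtain ⟨n, hnN, hn⟩ := Cfsg.Agent.H8.Sylow.exists_conj_le U (hUD.trans hCN)
          (S.isPGroup'.to_le (inf_le_left : (S : Subgroup G) ⊓ Subgroup.normalizer (D : Set G) ≤ S)) inf_le_right
        have h1 := hUD (hn s ⟨hsS, hsN⟩)
        -- s centralizes D
        apply hsD
        refine ⟨hsS, ?_⟩
        refine (hmc s x).2 ?_
        have hxD : x ∈ D := ⟨hx, hxC⟩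
        have h2 : n * x * n⁻¹ ∈ D := (Subgroup.mem_normalizer_iff.1 hnN x).1 hxD
        have h3 := Subgroup.mem_centralizer_iff.1 h1 _ h2
        have h4 : n * (x * s) * n⁻¹ = n * (s * x) * n⁻¹ := by
          calc n * (x * s) * n⁻¹ = n * x * n⁻¹ * (n * s * n⁻¹) := by group
            _ = n * s * n⁻¹ * (n * x * n⁻¹) := h3
            _ = n * (s * x) * n⁻¹ := by group
        exact mul_left_cancel (mul_right_cancel h4)
      rw [hDS]
      exact Cfsg.Agent.H8.Sylow.card_le_sylow S hQp
  have part2 : ∀ S T : Sylow 2 G, S ≠ T → (S : Subgroup G) ⊓ T ≤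
      (Subgroup.center ↥(S : Subgroup G)).map (S : Subgroup G).subtype := by
    intro S T hST x hx
    obtain ⟨U, hU⟩ := hCI S T hST
    rw [hZ]
    refine ⟨hx.1, ?_⟩
    have hUC : (U : Subgroup G) ≤ Subgroup.centralizer ({x} : Set G) :=
      fun u hu => (hmc u x).2 (((hZ U x).1 (hU hx)).2 u hu).symm
    have h1 := part1 S x hx.1 U U.isPGroup' hUC
    rw [Nat.card_congr (Sylow.equiv U S).toEquiv] at h1
    have h2 := Cfsg.Agent.H8.Sylow.eq_of_le_of_card_le
      (inf_le_left : (S : Subgroup G) ⊓ Subgroup.centralizer ({x} : Set G) ≤ S) h1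
    intro u hu
    have hu' : u ∈ (S : Subgroup G) ⊓ Subgroup.centralizer ({x} : Set G) := by rw [h2]; exact hu
    exact ((hmc u x).1 hu'.2).symm
  refine ⟨part1 S, fun T hT => le_inf (part2 S T (Ne.symm hT)) ?_⟩
  rw [inf_comm]
  exact part2 T S hT

end Cfsg.Agent.S3183
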