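import Cfsg.Statements.S3184
import Mathlib
import Cfsg.Agent.Lib.ZStarC

set_option autoImplicit false
open Cfsg

namespace Cfsg.Agent.S3184

open Subgroup

theorem aux {G : Type*} [Group G] [Finite G]
    (hCI : ∀ S T : Sylow 2 G, S ≠ T → ∃ U : Sylow 2 G,
      (S : Subgroup G) ⊓ (T : Subgroup G) ≤ (Subgroup.center ↥(U : Subgroup G)).map (U : Subgroup G).subtype)
    (S : Sylow 2 G) {c : G} (hc : ∀ s ∈ (S : Subgroup G), Commute c s) (hcS : c ∈ (S : Subgroup G))
    (hN : ∀ g ∈ normalizer ((S : Subgroup G) : Set G), g * c * g⁻¹ = c) :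
    ∀ g : G, g * c * g⁻¹ ∈ (S : Subgroup G) → g * c * g⁻¹ = c := by
  classical
  by_contra hcon
  push Not at hcon
  obtain ⟨g0, hg0, hg0'⟩ := hcon
  obtain ⟨g, ⟨hg, hgc⟩, hmax⟩ := Set.exists_max_image {g : G | g * c * g⁻¹ ∈ (S : Subgroup G) ∧ g * c * g⁻¹ ≠ c}
    (fun g => Nat.card ((S : Subgroup G) ⊓ ((g • S : Sylow 2 G) : Subgroup G) : Subgroup G)) (Set.toFinite _)
    ⟨g0, hg0, hg0'⟩
  have hmemT : ∀ (g : G) (s : G), s ∈ (S : Subgroup G) → g * s * g⁻¹ ∈ ((g • S : Sylow 2 G) : Subgroup G) :=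
    fun g s hs => ⟨s, hs, rfl⟩
  have hcomT : ∀ (g : G) (w : G), w ∈ ((g • S : Sylow 2 G) : Subgroup G) → Commute (g * c * g⁻¹) w := by
    rintro g _ ⟨s, hs, rfl⟩
    change (g * c * g⁻¹) * (g * s * g⁻¹) = (g * s * g⁻¹) * (g * c * g⁻¹)
    have := (hc s hs).eq
    calc (g * c * g⁻¹) * (g * s * g⁻¹) = g * (c * s) * g⁻¹ := by group
      _ = g * (s * c) * g⁻¹ := by rw [this]
      _ = _ := by group
  have hne : S ≠ g • S := by
    intro h
    apply hgc
    apply hN
    have h2 : g ∈ normalizer (S : Set G) := Sylow.smul_eq_iff_mem_normalizer.mp h.symm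
    exact h2
  obtain ⟨U, hU⟩ := hCI S (g • S) hne
  set D := (S : Subgroup G) ⊓ ((g • S : Sylow 2 G) : Subgroup G) with hD
  have hUD : ∀ u ∈ (U : Subgroup G), ∀ d ∈ D, Commute u d := by
    intro u hu d hd
    obtain ⟨w, hw, hwd⟩ := hU hd
    have h1 := mem_center_iff.mp hw ⟨u, hu⟩
    have h2 : u * (w : G) = w * u := congrArg Subtype.val h1
    have h3 : (w : G) = d := hwd
    rw [h3] at h2; exact h2
  have hDU : D ≤ (U : Subgroup G) := by
    intro d hd
    obtain ⟨w, hw, hwd⟩ := hU hd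
    have h3 : (w : G) = d := hwd
    rw [← h3]; exact w.2
  have hUN : (U : Subgroup G) ≤ normalizer (D : Set G) := by
    intro u hu
    apply Cfsg.Agent.Lib.QuatSyl.mem_normalizer_fin
    intro d hd
    rw [(hUD u hu d hd).eq, mul_assoc, mul_inv_cancel, mul_one]; exact hd
  have hSnil : Group.IsNilpotent (S : Subgroup G) := S.isPGroup'.isNilpotent
  have hDlt : D < (S : Subgroup G) := by
    apply lt_of_le_of_ne inf_le_left
    intro h
    apply hne
    apply Sylow.ext
    have h1 : (S : Subgroup G) ≤ ((g • S : Sylow 2 G) : Subgroup G) := by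
      rw [← h]; exact inf_le_right
    exact (S.is_maximal' (g • S).isPGroup' h1).symm
  have hlt := Cfsg.Agent.Lib.PNilp.lt_inf_normalizer hSnil hDlt
  -- conjugate U inside N(D) to contain N_S(D)
  set R := (S : Subgroup G) ⊓ normalizer (D : Set G) with hR
  have hRp : IsPGroup 2 (R.subgroupOf (normalizer (D : Set G))) :=
    (S.isPGroup'.to_le inf_le_left).comap_of_injective _ (subtype_injective _)
  obtain ⟨V, hV⟩ := hRp.exists_le_sylow
  obtain ⟨w, hw⟩ := MulAction.exists_smul_eq (normalizer (D : Set G)) (U.subtype hUN) V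
  have hRU : R ≤ (((w : G) • U : Sylow 2 G) : Subgroup G) := by
    intro r hr
    have h1 : (⟨r, hr.2⟩ : normalizer (D : Set G)) ∈ (V : Subgroup (normalizer (D : Set G))) := hV hr
    rw [← hw] at h1
    obtain ⟨u, hu, hur⟩ := h1
    exact ⟨(u : G), hu, congrArg Subtype.val hur⟩
  have hWD : ∀ v ∈ (((w : G) • U : Sylow 2 G) : Subgroup G), ∀ d ∈ D, Commute v d := by
    rintro _ ⟨u, hu, rfl⟩ d hd
    have h1 : (w : G)⁻¹ * d * w ∈ D := by
      have := (mem_normalizer_iff''.mp w.2 d).mp hd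
      exact this
    have h2 := (hUD u hu _ h1).eq
    change ((w : G) * u * (w : G)⁻¹) * d = d * ((w : G) * u * (w : G)⁻¹)
    calc ((w : G) * u * (w : G)⁻¹) * d = w * (u * ((w : G)⁻¹ * d * w)) * (w : G)⁻¹ := by group
      _ = w * (((w : G)⁻¹ * d * w) * u) * (w : G)⁻¹ := by rw [h2]
      _ = _ := by group
  -- y = g c g⁻¹ in D; both g • S and w • U centralize y
  have hyD : g * c * g⁻¹ ∈ D := ⟨hg, hmemT g c hcS⟩
  have h1 : ((g • S : Sylow 2 G) : Subgroup G) ≤ centralizer ({g * c * g⁻¹} : Set G) := by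
    intro x hx
    exact Cfsg.Agent.Lib.QuatSyl.mem_cent.mpr (hcomT g x hx).eq.symm
  have h2 : (((w : G) • U : Sylow 2 G) : Subgroup G) ≤ centralizer ({g * c * g⁻¹} : Set G) := by
    intro x hx
    exact Cfsg.Agent.Lib.QuatSyl.mem_cent.mpr (hWD x hx _ hyD).eq
  obtain ⟨x, hx⟩ := MulAction.exists_smul_eq (centralizer ({g * c * g⁻¹} : Set G)) ((g • S).subtype h1)
    (((w : G) • U).subtype h2)
  have hxeq : ((x : G) * g) • S = (w : G) • U := by
    apply Sylow.ext
    apply eq_of_le_of_card_ge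
    · rintro _ ⟨s, hs, rfl⟩
      have h3 : (⟨g * s * g⁻¹, h1 (hmemT g s hs)⟩ : centralizer ({g * c * g⁻¹} : Set G)) ∈
          (((g • S).subtype h1 : Sylow 2 _) : Subgroup (centralizer ({g * c * g⁻¹} : Set G))) := hmemT g s hs
      have h4 : x * ⟨g * s * g⁻¹, h1 (hmemT g s hs)⟩ * x⁻¹ ∈ ((((w : G) • U).subtype h2 : Sylow 2 _) : Subgroup (centralizer ({g * c * g⁻¹} : Set G))) := by
        rw [← hx]; exact ⟨_, h3, rfl⟩
      have h5 : (x : G) * (g * s * g⁻¹) * (x : G)⁻¹ ∈ (((w : G) • U : Sylow 2 G) : Subgroup G) := h4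
      have h6 : (x : G) * (g * s * g⁻¹) * (x : G)⁻¹ = ((x : G) * g) * s * ((x : G) * g)⁻¹ := by group
      rw [h6] at h5
      exact h5
    · exact (Nat.card_congr (Sylow.equiv ((w : G) • U) (((x : G) * g) • S)).toEquiv).le
  have hy2 : ((x : G) * g) * c * ((x : G) * g)⁻¹ = g * c * g⁻¹ := by
    have h3 := Cfsg.Agent.Lib.QuatSyl.mem_cent.mp x.2
    calc ((x : G) * g) * c * ((x : G) * g)⁻¹ = (x : G) * (g * c * g⁻¹) * (x : G)⁻¹ := by group
      _ = g * c * g⁻¹ := by rw [h3]; group
  have h3 := hmax ((x : G) * g) ⟨by rw [hy2]; exact hg, by rw [hy2]; exact hgc⟩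
  rw [hxeq] at h3
  have h4 : R ≤ (S : Subgroup G) ⊓ (((w : G) • U : Sylow 2 G) : Subgroup G) := le_inf inf_le_left hRU
  have h5 := Subgroup.card_le_of_le h4
  have h6 : Nat.card D < Nat.card R := by
    apply lt_of_le_of_ne (Subgroup.card_le_of_le hlt.le)
    intro h7; exact hlt.ne (Subgroup.eq_of_le_of_card_ge hlt.le h7.ge)
  omega

/-- Let G be a finite group in which the intersection of any two distinct Sylow 2-subgroups is contained in the centre of some Sylow 2-subgroup, and let S be a Sylow 2-subgroup. If C is a nontrivial cyclic characteristic subgroup of S, then the involution of C is central modulo the largest normal subgroup of odd order of G: each of its conjugates has the same image in G/O(G). -/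
theorem result {G : Type*} [Group G] [Finite G]
    (hCI : ∀ S T : Sylow 2 G, S ≠ T → ∃ U : Sylow 2 G,
      (S : Subgroup G) ⊓ (T : Subgroup G) ≤ (Subgroup.center ↥(U : Subgroup G)).map (U : Subgroup G).subtype)
    (S : Sylow 2 G) (C : Subgroup ↥(S : Subgroup G)) (hC : C ≠ ⊥) (hCc : IsCyclic ↥C) (hCh : C.Characteristic)
    (c : ↥(S : Subgroup G)) (hc : c ∈ C) (hc2 : orderOf c = 2) :
    ∀ g : G, (QuotientGroup.mk (s := Cfsg.oddCore G) (g * (c : G) * g⁻¹)) =
      QuotientGroup.mk (s := Cfsg.oddCore G) (c : G) := by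
  have hchar : ∀ φ : ↥(S : Subgroup G) ≃* ↥(S : Subgroup G), φ c = c := by
    intro φ
    have h1 : φ c ∈ C := by
      have := (Subgroup.characteristic_iff_map_eq.mp hCh φ)
      rw [← this]; exact ⟨c, hc, rfl⟩
    have h2 : orderOf (φ c) = 2 := by rw [MulEquiv.orderOf_eq]; exact hc2
    -- unique involution in the cyclic group C
    have h3 : orderOf (⟨c, hc⟩ : C) = 2 := by rw [Subgroup.orderOf_mk]; exact hc2
    have h4 : orderOf (⟨φ c, h1⟩ : C) = 2 := by rw [Subgroup.orderOf_mk]; exact h2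
    classical
    haveI : Fintype C := Fintype.ofFinite _
    by_contra hne
    have h6 := IsCyclic.card_pow_eq_one_le (α := C) (n := 2) (by norm_num)
    have h7 : ({1, ⟨c, hc⟩, ⟨φ c, h1⟩} : Finset C) ⊆ Finset.univ.filter (fun a : C => a ^ 2 = 1) := by
      intro a ha
      simp only [Finset.mem_insert, Finset.mem_singleton] at ha
      rw [Finset.mem_filter]
      refine ⟨Finset.mem_univ _, ?_⟩
      rcases ha with rfl | rfl | rfl
      · exact one_pow 2
      · have := pow_orderOf_eq_one (⟨c, hc⟩ : C); rwa [h3] at this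
      · have := pow_orderOf_eq_one (⟨φ c, h1⟩ : C); rwa [h4] at this
    have h8 : ({1, ⟨c, hc⟩, ⟨φ c, h1⟩} : Finset C).card = 3 := by
      rw [Finset.card_insert_of_notMem, Finset.card_insert_of_notMem, Finset.card_singleton]
      · simp only [Finset.mem_singleton]
        intro h; exact hne (congrArg Subtype.val h).symm
      · simp only [Finset.mem_insert, Finset.mem_singleton]
        rintro (h | h)
        · rw [← h, orderOf_one] at h3; norm_num at h3
        · rw [← h, orderOf_one] at h4; norm_num at h4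
    have h9 := Finset.card_le_card h7
    omega
  have hcs : ∀ s ∈ (S : Subgroup G), Commute (c : G) s := by
    intro s hs
    have h1 := hchar (MulAut.conj ⟨s, hs⟩)
    have h2 : s * (c : G) * s⁻¹ = c := congrArg Subtype.val h1
    have h3 : s * (c : G) = c * s := by
      calc s * (c : G) = (s * (c : G) * s⁻¹) * s := by group
        _ = c * s := by rw [h2]
    exact h3.symm
  have hN : ∀ g ∈ Subgroup.normalizer ((S : Subgroup G) : Set G), g * (c : G) * g⁻¹ = c := by
    intro g hg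
    have h1 := hchar ((S : Subgroup G).normalizerMonoidHom ⟨g, hg⟩)
    exact congrArg Subtype.val h1
  have h1 := aux hCI S hcs c.2 hN
  have hcsq : (c : G) ^ 2 = 1 := by
    have := pow_orderOf_eq_one c
    rw [hc2] at this
    exact congrArg Subtype.val this
  intro g
  have h2 := Cfsg.Agent.Lib.ZStar.zstar_sylow S hcsq h1 g
  rw [QuotientGroup.eq]
  have hn : (Cfsg.oddCore G).Normal := Cfsg.Agent.Lib.Cores.pPrimeCore_normal (G := G) 2
  have h3 : (g * (c : G) * g⁻¹)⁻¹ * (c : G) = (g * (c : G)⁻¹ * g⁻¹ * (c : G)) := by group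
  have h4 : (g * (c : G)⁻¹ * g⁻¹ * (c : G)) = (c : G)⁻¹ * ((c : G) * g * (c : G)⁻¹ * g⁻¹) * (c : G) := by group
  rw [h3, h4]
  have := hn.conj_mem _ h2 (c : G)⁻¹
  rwa [inv_inv] at this

end Cfsg.Agent.S3184
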