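import Cfsg.Statements.S3195
import Mathlib
import Cfsg.Agent.H2.RealElt

set_option autoImplicit false
open Cfsg

namespace Cfsg.Agent.S3195

open Cfsg.Agent.H2.RealElt Subgroup

theorem pow2_one {G : Type*} [Group G] [Finite G] {x : G} {k : ℕ} (h : x ^ (2 ^ k) = 1) (hodd : Odd (orderOf x)) : x = 1 := by
  have h1 := orderOf_dvd_of_pow_eq_one h
  rw [← orderOf_eq_one_iff]
  exact Nat.eq_one_of_dvd_coprimes ((Nat.coprime_two_right.2 hodd).pow_right k) dvd_rfl h1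

theorem comm_of_sq {G : Type*} [Group G] [Finite G] {c x : G} (hodd : Odd (orderOf x)) (h : Commute c (x ^ 2)) : Commute c x := by
  obtain ⟨k, hk⟩ := hodd
  have h1 : x = (x ^ 2) ^ (k + 1) := by
    rw [← pow_mul, show 2 * (k + 1) = orderOf x + 1 by omega, pow_succ, pow_orderOf_eq_one, one_mul]
  rw [h1]
  exact h.pow_right _

theorem exists_inverted {G : Type*} [Group G] [Finite G] {t : G} (ht2 : t ^ 2 = 1) (ht : t ∉ Cfsg.pCore 2 G) :
    ∃ y : G, y ≠ 1 ∧ Odd (orderOf y) ∧ t * y * t⁻¹ = y⁻¹ := by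
  have hex : ∃ g : G, ¬ IsPGroup 2 (closure {t, g * t * g⁻¹}) := by
    by_contra hno
    push Not at hno
    exact ht (Cfsg.Agent.Lib.BaerSuzuki.mem_pCore hno)
  obtain ⟨g, hg⟩ := hex
  set s := g * t * g⁻¹ with hs
  have hs2 : s ^ 2 = 1 := by rw [hs, conj_pow, ht2, mul_one, mul_inv_cancel]
  obtain ⟨k, m, hm, hkm⟩ := Nat.exists_eq_two_pow_mul_odd (orderOf_pos (t * s)).ne'
  set y := (t * s) ^ (2 ^ k) with hy
  have hoy : orderOf y = m := by
    rw [hy, orderOf_pow' _ (by positivity), hkm, Nat.gcd_eq_right (dvd_mul_right _ _),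
      Nat.mul_div_cancel_left _ (by positivity)]
  have hy1 : y ≠ 1 := by
    intro h1
    exact hg (isPGroup_closure_pair ht2 hs2 h1)
  have hyr : t * y * t⁻¹ = y⁻¹ := by
    have h1 : t * (t * s) * t⁻¹ = (t * s)⁻¹ := by
      have h1 : t * t = 1 := by rw [← sq]; exact ht2
      have h2 : s * s = 1 := by rw [← sq]; exact hs2
      have h3 : s⁻¹ = s := inv_eq_of_mul_eq_one_right h2
      rw [mul_inv_rev, h3, ← mul_assoc, h1, one_mul]
    rw [hy, ← conj_pow, h1, inv_pow]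
  exact ⟨y, hy1, by rw [hoy]; exact hm, hyr⟩

theorem core_lem {G : Type*} [Group G] [Finite G] {b d u v : G} (hb : b ^ 2 = 1) (hd : d ^ 2 = 1) (hbd : Commute b d)
    (hu : u ≠ 1) (huo : Odd (orderOf u)) (hv : v ≠ 1) (hvo : Odd (orderOf v))
    (hbu : b * u * b⁻¹ = u⁻¹) (hdu : Commute d u) (hbv : Commute b v) (hdv : d * v * d⁻¹ = v⁻¹)
    (h1 : ∃ c : G, (c = b ∨ c = d ∨ c = b * d) ∧ Commute c ((v * u) * b * (v * u)⁻¹))
    (h2 : ∃ c : G, (c = b ∨ c = d ∨ c = b * d) ∧ Commute c ((u * v) * (b * d) * (u * v)⁻¹)) : False := by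
  have bu2 : b * u ^ 2 * b⁻¹ = (u ^ 2)⁻¹ := by rw [← conj_pow, hbu, inv_pow]
  have dv2 : d * v ^ 2 * d⁻¹ = (v ^ 2)⁻¹ := by rw [← conj_pow, hdv, inv_pow]
  have bv : b * v * b⁻¹ = v := by rw [hbv.eq]; group
  have du : d * u * d⁻¹ = u := by rw [hdu.eq]; group
  have bv2 : b * v ^ 2 * b⁻¹ = v ^ 2 := by rw [← conj_pow, bv]
  have du2 : d * u ^ 2 * d⁻¹ = u ^ 2 := by rw [← conj_pow, du]
  have hu4 : (u ^ 2) ^ 2 ≠ 1 := fun h => hu (pow2_one (k := 2) (by rw [← h, ← pow_mul]; norm_num) huo)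
  have hv4 : (v ^ 2) ^ 2 ≠ 1 := fun h => hv (pow2_one (k := 2) (by rw [← h, ← pow_mul]; norm_num) hvo)
  have e1 : (v * u) * b * (v * u)⁻¹ = (v * u ^ 2 * v⁻¹) * b := by
    have h3 : b * u⁻¹ = u * b := by
      rw [← hbu]; have : b * b = 1 := by rw [← sq]; exact hb
      calc b * (b * u * b⁻¹) = (b * b) * u * b⁻¹ := by group
        _ = u * b := by rw [this, inv_eq_of_mul_eq_one_right this]; group
    calc (v * u) * b * (v * u)⁻¹ = v * u * (b * u⁻¹) * v⁻¹ := by group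
      _ = v * u ^ 2 * (b * v⁻¹) := by rw [h3, sq]; group
      _ = (v * u ^ 2 * v⁻¹) * b := by rw [hbv.inv_right.eq]; group
  have hcomm : Commute u v := by
    obtain ⟨c, hc, hcc⟩ := h1
    have hcb : Commute c b := by
      rcases hc with rfl | rfl | rfl
      · exact Commute.refl _
      · exact hbd.symm
      · exact (Commute.refl _).mul_left hbd.symm
    rw [e1] at hcc
    have hcw : Commute c (v * u ^ 2 * v⁻¹) := by
      have := hcc.mul_right hcb.inv_right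
      rwa [mul_inv_cancel_right] at this
    rcases hc with rfl | rfl | rfl
    · exfalso
      have h3 : c * (v * u ^ 2 * v⁻¹) * c⁻¹ = v * (u ^ 2)⁻¹ * v⁻¹ := by
        calc c * (v * u ^ 2 * v⁻¹) * c⁻¹ = (c * v * c⁻¹) * (c * u ^ 2 * c⁻¹) * (c * v * c⁻¹)⁻¹ := by group
          _ = _ := by rw [bv, bu2]
      rw [hcw.eq, mul_inv_cancel_right] at h3
      have h4 : u ^ 2 = (u ^ 2)⁻¹ := mul_left_cancel (mul_right_cancel h3)
      apply hu4
      rw [sq]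
      nth_rewrite 1 [h4]
      exact inv_mul_cancel _
    · have h3 : c * (v * u ^ 2 * v⁻¹) * c⁻¹ = v⁻¹ * u ^ 2 * v := by
        calc c * (v * u ^ 2 * v⁻¹) * c⁻¹ = (c * v * c⁻¹) * (c * u ^ 2 * c⁻¹) * (c * v * c⁻¹)⁻¹ := by group
          _ = _ := by rw [hdv, du2, inv_inv]
      rw [hcw.eq, mul_inv_cancel_right] at h3
      have h4 : Commute (v ^ 2) (u ^ 2) := by
        show v ^ 2 * u ^ 2 = u ^ 2 * v ^ 2
        calc v ^ 2 * u ^ 2 = v * (v * u ^ 2 * v⁻¹) * v := by rw [sq v]; group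
          _ = u ^ 2 * v ^ 2 := by rw [h3, sq v]; group
      exact (comm_of_sq huo (comm_of_sq hvo h4.symm).symm).symm
    · exfalso
      have h3 : (b * d) * (v * u ^ 2 * v⁻¹) * (b * d)⁻¹ = v⁻¹ * (u ^ 2)⁻¹ * v := by
        calc (b * d) * (v * u ^ 2 * v⁻¹) * (b * d)⁻¹
            = (b * (d * v * d⁻¹) * b⁻¹) * (b * (d * u ^ 2 * d⁻¹) * b⁻¹) * (b * (d * v * d⁻¹) * b⁻¹)⁻¹ := by group
          _ = (b * v * b⁻¹)⁻¹ * (b * u ^ 2 * b⁻¹) * (b * v * b⁻¹) := by rw [hdv, du2]; group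
          _ = _ := by rw [bv, bu2]
      rw [hcw.eq, mul_inv_cancel_right] at h3
      have h4 : v ^ 2 * u ^ 2 * (v ^ 2)⁻¹ = (u ^ 2)⁻¹ := by
        calc v ^ 2 * u ^ 2 * (v ^ 2)⁻¹ = v * (v * u ^ 2 * v⁻¹) * v⁻¹ := by rw [sq v]; group
          _ = (u ^ 2)⁻¹ := by rw [h3]; group
      exact hu4 (sq_eq_one_of_odd h4 (Odd.of_dvd_nat hvo (orderOf_pow_dvd 2)))
  -- second step
  obtain ⟨c, hc, hcc⟩ := h2
  have hck : Commute c (b * d) := by
    rcases hc with rfl | rfl | rfl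
    · exact (Commute.refl _).mul_right hbd
    · exact hbd.symm.mul_right (Commute.refl _)
    · exact Commute.refl _
  have hku : (b * d) * u * (b * d)⁻¹ = u⁻¹ := by
    calc (b * d) * u * (b * d)⁻¹ = b * (d * u * d⁻¹) * b⁻¹ := by group
      _ = u⁻¹ := by rw [du, hbu]
  have hkv : (b * d) * v * (b * d)⁻¹ = v⁻¹ := by
    calc (b * d) * v * (b * d)⁻¹ = b * (d * v * d⁻¹) * b⁻¹ := by group
      _ = (b * v * b⁻¹)⁻¹ := by rw [hdv]; group
      _ = v⁻¹ := by rw [bv]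
  have e2 : (u * v) * (b * d) * (u * v)⁻¹ = ((u * v) * (u * v)) * (b * d) := by
    have h3 : (b * d) * (u * v)⁻¹ = (u * v) * (b * d) := by
      calc (b * d) * (u * v)⁻¹ = ((b * d) * v * (b * d)⁻¹)⁻¹ * ((b * d) * u * (b * d)⁻¹)⁻¹ * (b * d) := by group
        _ = (v * u) * (b * d) := by rw [hku, hkv, inv_inv, inv_inv]
        _ = (u * v) * (b * d) := by rw [hcomm.eq]
    rw [mul_assoc, h3]; group
  rw [e2] at hcc
  have hcW : Commute c ((u * v) * (u * v)) := by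
    have := hcc.mul_right hck.inv_right
    rwa [mul_inv_cancel_right] at this
  have hW : (u * v) * (u * v) = u ^ 2 * v ^ 2 := by
    rw [← sq, hcomm.mul_pow]
  rw [hW] at hcW
  rcases hc with rfl | rfl | rfl
  · have h3 : c * (u ^ 2 * v ^ 2) * c⁻¹ = (u ^ 2)⁻¹ * v ^ 2 := by
      calc c * (u ^ 2 * v ^ 2) * c⁻¹ = (c * u ^ 2 * c⁻¹) * (c * v ^ 2 * c⁻¹) := by group
        _ = _ := by rw [bu2, bv2]
    rw [hcW.eq, mul_inv_cancel_right] at h3
    have h4 : u ^ 2 = (u ^ 2)⁻¹ := mul_right_cancel h3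
    apply hu4
    rw [sq]
    nth_rewrite 1 [h4]
    exact inv_mul_cancel _
  · have h3 : c * (u ^ 2 * v ^ 2) * c⁻¹ = u ^ 2 * (v ^ 2)⁻¹ := by
      calc c * (u ^ 2 * v ^ 2) * c⁻¹ = (c * u ^ 2 * c⁻¹) * (c * v ^ 2 * c⁻¹) := by group
        _ = _ := by rw [du2, dv2]
    rw [hcW.eq, mul_inv_cancel_right] at h3
    have h4 : v ^ 2 = (v ^ 2)⁻¹ := mul_left_cancel h3
    apply hv4
    rw [sq]
    nth_rewrite 1 [h4]
    exact inv_mul_cancel _
  · have h3 : (b * d) * (u ^ 2 * v ^ 2) * (b * d)⁻¹ = (u ^ 2)⁻¹ * (v ^ 2)⁻¹ := by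
      calc (b * d) * (u ^ 2 * v ^ 2) * (b * d)⁻¹ = ((b * d) * u * (b * d)⁻¹) ^ 2 * ((b * d) * v * (b * d)⁻¹) ^ 2 := by
            rw [conj_pow, conj_pow]; group
        _ = _ := by rw [hku, hkv, inv_pow, inv_pow]
    rw [hcW.eq, mul_inv_cancel_right] at h3
    have h4 : (u * v) ^ (2 ^ 2) = 1 := by
      have h5 : (u * v) ^ (2 ^ 2) = (u ^ 2 * v ^ 2) * (u ^ 2 * v ^ 2) := by
        rw [← hW, show (2 : ℕ) ^ 2 = 4 by norm_num, pow_succ, pow_succ, pow_succ, pow_one]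
        simp only [mul_assoc]
      rw [h5]
      nth_rewrite 1 [h3]
      have h6 : Commute (u ^ 2) (v ^ 2) := hcomm.pow_pow 2 2
      rw [h6.eq]; group
    have hodd : Odd (orderOf (u * v)) :=
      Odd.of_dvd_nat (huo.mul hvo) hcomm.orderOf_mul_dvd_mul_orderOf
    have h5 := pow2_one h4 hodd
    have h6 : v = u⁻¹ := by rw [eq_inv_iff_mul_eq_one, ← hcomm.eq]; exact h5
    have h7 : b * v * b⁻¹ = u := by rw [h6, show b * u⁻¹ * b⁻¹ = (b * u * b⁻¹)⁻¹ by group, hbu, inv_inv]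
    rw [bv, h6] at h7
    exact hu (pow2_one (k := 1) (by rw [pow_one, sq]; nth_rewrite 1 [← h7]; exact inv_mul_cancel _) huo)

/-- Let A be a Klein four-subgroup of a finite group G. If every G-conjugate of every involution of A commutes with some involution of A (its centralizer meets A nontrivially), then A meets the largest normal 2-subgroup O₂(G) nontrivially. -/
theorem result {G : Type*} [Group G] [Finite G]
    (A : Subgroup G) (hA : IsKleinFour ↥A)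
    (h : ∀ a ∈ A, a ≠ 1 → ∀ g : G, A ⊓ Subgroup.centralizer ({g * a * g⁻¹} : Set G) ≠ ⊥) :
    A ⊓ Cfsg.pCore 2 G ≠ ⊥ := by
  intro hbot
  have hcA : ∀ x ∈ A, ∀ y ∈ A, Commute x y := by
    intro x hx y hy
    have := mul_comm_of_exponent_two hA.exponent_two (⟨x, hx⟩ : A) ⟨y, hy⟩
    exact congrArg Subtype.val this
  have hsq : ∀ x ∈ A, x ^ 2 = 1 := by
    intro x hx
    have := hA.exponent_two
    have h1 := Monoid.pow_exponent_eq_one (⟨x, hx⟩ : A)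
    rw [this] at h1
    exact congrArg Subtype.val h1
  have hthree : ∀ x ∈ A, ∀ y ∈ A, ∀ z ∈ A, x ≠ 1 → y ≠ 1 → x ≠ y → z ≠ 1 → (z = x ∨ z = y ∨ z = x * y) := by
    intro x hx y hy z hz hx1 hy1 hxy hz1
    by_cases hzx : z = x
    · exact Or.inl hzx
    by_cases hzy : z = y
    · exact Or.inr (Or.inl hzy)
    right; right
    have := IsKleinFour.eq_mul_of_ne_all (x := (⟨x, hx⟩ : A)) (y := ⟨y, hy⟩) (z := ⟨z, hz⟩)
      (by simpa [Subtype.ext_iff] using hx1) (by simpa [Subtype.ext_iff] using hy1) (by simpa [Subtype.ext_iff] using hxy)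
      (by simpa [Subtype.ext_iff] using hz1) (by simpa [Subtype.ext_iff] using hzx) (by simpa [Subtype.ext_iff] using hzy)
    exact congrArg Subtype.val this
  have hex : ∀ a ∈ A, a ≠ 1 → ∀ g : G, ∃ c ∈ A, c ≠ 1 ∧ Commute c (g * a * g⁻¹) := by
    intro a ha ha1 g
    obtain ⟨⟨c, hc, hcc⟩, hc1⟩ := Subgroup.ne_bot_iff_exists_ne_one.1 (h a ha ha1 g)
    refine ⟨c, hc, fun h5 => hc1 (Subtype.ext h5), ?_⟩
    exact (Subgroup.mem_centralizer_iff.1 hcc _ rfl).symm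
  have hnot : ∀ a ∈ A, a ≠ 1 → a ∉ Cfsg.pCore 2 G := by
    intro a ha ha1 h1
    have : a ∈ A ⊓ Cfsg.pCore 2 G := ⟨ha, h1⟩
    rw [hbot, Subgroup.mem_bot] at this
    exact ha1 this
  have hinv : ∀ a ∈ A, a ≠ 1 → ∃ y : G, y ≠ 1 ∧ Odd (orderOf y) ∧ a * y * a⁻¹ = y⁻¹ ∧ ∃ c ∈ A, c ≠ 1 ∧ c ≠ a ∧ Commute c y := by
    intro a ha ha1
    obtain ⟨y, hy1, hyo, hay⟩ := exists_inverted (hsq a ha) (hnot a ha ha1)
    obtain ⟨c, hc, hc1, hcc⟩ := hex a ha ha1 y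
    have e1 : y * a * y⁻¹ = y ^ 2 * a := by
      have h3 : a * y⁻¹ = y * a := by
        calc a * y⁻¹ = (a * y * a⁻¹)⁻¹ * a := by group
          _ = y * a := by rw [hay, inv_inv]
      rw [mul_assoc, h3, sq]; group
    rw [e1] at hcc
    have hc2 : Commute c (y ^ 2) := by
      have := hcc.mul_right (hcA c hc a ha).inv_right
      rwa [mul_inv_cancel_right] at this
    have hcy := comm_of_sq hyo hc2
    refine ⟨y, hy1, hyo, hay, c, hc, hc1, ?_, hcy⟩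
    rintro rfl
    rw [hcy.eq, mul_inv_cancel_right] at hay
    exact hy1 (pow2_one (k := 1) (by rw [pow_one, sq]; nth_rewrite 1 [hay]; exact inv_mul_cancel _) hyo)
  obtain ⟨⟨a, ha⟩, ha1⟩ : ∃ a : A, a ≠ 1 := by
    haveI : Nontrivial A := by
      apply Finite.one_lt_card_iff_nontrivial.1
      rw [hA.card_four]; norm_num
    exact exists_ne 1
  have ha1' : a ≠ 1 := fun h => ha1 (Subtype.ext h)
  obtain ⟨u, hu1, huo, hau, d, hd, hd1, hda, hdu⟩ := hinv a ha ha1'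
  obtain ⟨v, hv1, hvo, hdv, b, hb, hb1, hbd, hbv⟩ := hinv d hd hd1
  have hbu : b * u * b⁻¹ = u⁻¹ := by
    rcases hthree a ha d hd b hb ha1' hd1 (Ne.symm hda) hb1 with h3 | h3 | h3
    · rw [h3]; exact hau
    · exact absurd h3 hbd
    · rw [h3]
      calc a * d * u * (a * d)⁻¹ = a * (d * u * d⁻¹) * a⁻¹ := by group
        _ = u⁻¹ := by rw [hdu.eq, mul_inv_cancel_right, hau]
  have hbdne : b * d ≠ 1 := by
    intro h3
    have h4 : b = d⁻¹ := eq_inv_of_mul_eq_one_left h3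
    have h5 : d⁻¹ = d := inv_eq_of_mul_eq_one_right (by rw [← sq]; exact hsq d hd)
    exact hbd (h4.trans h5)
  refine core_lem (hsq b hb) (hsq d hd) (hcA b hb d hd) hu1 huo hv1 hvo hbu hdu hbv hdv ?_ ?_
  · obtain ⟨c, hc, hc1, hcc⟩ := hex b hb hb1 (v * u)
    exact ⟨c, hthree b hb d hd c hc hb1 hd1 hbd hc1, hcc⟩
  · obtain ⟨c, hc, hc1, hcc⟩ := hex (b * d) (mul_mem hb hd) hbdne (u * v)
    exact ⟨c, hthree b hb d hd c hc hb1 hd1 hbd hc1, hcc⟩

end Cfsg.Agent.S3195
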