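import Cfsg.Statements.S3200
import Cfsg.Agent.Lib.AbComp

set_option autoImplicit false
open Cfsg

namespace Cfsg.Agent.S3200

open Cfsg.Agent.Lib

/-- Let H be a finite group in which a Sylow 2-subgroup has an abelian complement (an abelian subgroup meeting it trivially whose product with it is all of H). Then H is solvable, and every subgroup and every quotient group of H again has a Sylow 2-subgroup with an abelian complement. -/
theorem result {H : Type*} [Group H] [Finite H]
    (S : Sylow 2 H) (C : Subgroup H) (hC : IsMulCommutative ↥C) (hSC : Subgroup.IsComplement' (S : Subgroup H) C) :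
    Group.IsSolvable H ∧
    (∀ L : Subgroup H, ∃ (P : Sylow 2 ↥L) (D : Subgroup ↥L), IsMulCommutative ↥D ∧ Subgroup.IsComplement' (P : Subgroup ↥L) D) ∧
    (∀ (N : Subgroup H) [N.Normal], ∃ (P : Sylow 2 (H ⧸ N)) (D : Subgroup (H ⧸ N)),
      IsMulCommutative ↥D ∧ Subgroup.IsComplement' (P : Subgroup (H ⧸ N)) D) := by
  have hsol := AbComp.solvable hC hSC
  have hC' := AbComp.isHall_of_compl hSC
  have hcomm := Nilp.isMulCommutative_iff_forall.mp hC
  refine ⟨hsol, ?_, ?_⟩
  · intro L
    have hL : Group.IsSolvable L := inferInstance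
    obtain ⟨D, hD⟩ := Hall.exists_isHall (Hall.sep_of_solvable ({2}ᶜ : Set ℕ) hL)
    have hDc : Hall.PiNum ({2}ᶜ : Set ℕ) (Nat.card (D.map L.subtype)) := by
      have h1 : Nat.card (D.map L.subtype) = Nat.card D :=
        Nat.card_congr (D.equivMapOfInjective _ L.subtype_injective).symm.toEquiv
      rw [h1]
      exact hD.1
    obtain ⟨g, hg⟩ := Hall.hall_dominates (Hall.sep_of_solvable ({2}ᶜ : Set ℕ) hsol)
      (Hall.solvCond_of_solvable _ hsol) hC' hDc
    obtain ⟨P⟩ : Nonempty (Sylow 2 L) := inferInstance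
    refine ⟨P, D, ?_, AbComp.of_hall hD P⟩
    rw [Nilp.isMulCommutative_iff_forall]
    have key : ∀ x ∈ D, g⁻¹ * (x : H) * g ∈ C := by
      intro x hx
      have h1 := hg (Subgroup.mem_map_of_mem L.subtype hx)
      rw [Subgroup.mem_pointwise_smul_iff_inv_smul_mem, ← map_inv, MulAut.smul_def, MulAut.conj_apply,
        inv_inv] at h1
      exact h1
    intro x hx y hy
    apply Subtype.ext
    have h1 := hcomm _ (key x hx) _ (key y hy)
    have h2 : g⁻¹ * ((x : H) * y) * g = g⁻¹ * ((y : H) * x) * g := by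
      calc g⁻¹ * ((x : H) * y) * g = (g⁻¹ * x * g) * (g⁻¹ * y * g) := by group
        _ = (g⁻¹ * y * g) * (g⁻¹ * x * g) := h1
        _ = _ := by group
    exact mul_left_cancel (mul_right_cancel h2)
  · intro N hN
    obtain ⟨P⟩ : Nonempty (Sylow 2 (H ⧸ N)) := inferInstance
    have hf : Function.Surjective (QuotientGroup.mk' N) := QuotientGroup.mk'_surjective N
    refine ⟨P, C.map (QuotientGroup.mk' N), ?_, AbComp.of_hall (hC'.map hf) P⟩
    rw [Nilp.isMulCommutative_iff_forall]
    rintro _ ⟨x, hx, rfl⟩ _ ⟨y, hy, rfl⟩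
    rw [← map_mul, ← map_mul, hcomm x hx y hy]

end Cfsg.Agent.S3200
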