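import Cfsg.Statements.S3208
import Mathlib

set_option autoImplicit false
open Cfsg

namespace Cfsg.Agent.S3208

/-- Let j be an involution of a finite group G, H a subgroup of G, and T a Sylow 2-subgroup of H ∩ C_G(j) containing j such that ⟨j⟩ is a characteristic subgroup of T. Then T is a Sylow 2-subgroup of H. -/
theorem result {G : Type*} [Group G] [Finite G]
    (j : G) (hj : orderOf j = 2) (H T : Subgroup G) (hT : T ≤ H ⊓ Subgroup.centralizer ({j} : Set G)) (h2 : IsPGroup 2 ↥T)
    (hSyl : ¬ 2 ∣ T.relIndex (H ⊓ Subgroup.centralizer ({j} : Set G))) (hjT : j ∈ T)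
    (hchar : ((Subgroup.zpowers j).subgroupOf T).Characteristic) :
    ¬ 2 ∣ T.relIndex H := by
  intro hdvd
  -- T ≤ H, a Sylow 2-subgroup properly containing T
  have hTH : T ≤ H := fun x hx => (hT hx).1
  have hTj : ∀ t ∈ T, t * j = j * t := fun t ht => by
    have := Subgroup.mem_centralizer_iff.1 (hT ht).2 j (by simp)
    exact this.symm
  -- T is not a Sylow subgroup of H, so its normalizer in H is bigger
  have hp : IsPGroup 2 (T.subgroupOf H) := h2.comap_of_injective H.subtype H.subtype_injective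
  obtain ⟨Q, hQ⟩ := hp.exists_le_sylow
  haveI : Fact (Nat.Prime 2) := ⟨Nat.prime_two⟩
  have hlt : T.subgroupOf H < (Q : Subgroup H) := by
    refine lt_of_le_of_ne hQ ?_
    intro he
    have := Q.not_dvd_index
    rw [← he] at this
    exact this hdvd
  -- normalizer condition in Q
  have hnil : Group.IsNilpotent Q := Q.isPGroup'.isNilpotent
  have hlt2 : (T.subgroupOf H).subgroupOf (Q : Subgroup H) < ⊤ := by
    rw [lt_top_iff_ne_top]
    intro he
    rw [Subgroup.subgroupOf_eq_top] at he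
    exact absurd he (not_le_of_gt hlt)
  have hN := Group.normalizerCondition_of_isNilpotent (G := Q) _ hlt2
  obtain ⟨x, hxN, hxT⟩ := SetLike.exists_of_lt hN
  -- elements of the normalizer of T centralize j
  have hnc : Subgroup.normalizer (T : Set G) ≤ Subgroup.centralizer ({j} : Set G) := by
    intro x' hxnorm
    have hc := hchar.fixed (T.normalizerMonoidHom ⟨x', hxnorm⟩)
    have h1 : (⟨j, hjT⟩ : T) ∈ ((Subgroup.zpowers j).subgroupOf T).comap
        (T.normalizerMonoidHom ⟨x', hxnorm⟩).toMonoidHom := by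
      rw [hc]; exact Subgroup.mem_zpowers j
    have h2 : x' * j * x'⁻¹ ∈ Subgroup.zpowers j := h1
    have h3 : x' * j * x'⁻¹ = j := by
      obtain ⟨k, hk⟩ := Subgroup.mem_zpowers_iff.1 h2
      have hj2 : j ^ 2 = 1 := by rw [← hj]; exact pow_orderOf_eq_one j
      have hj1 : j ≠ 1 := by rintro rfl; simp at hj
      rcases Int.even_or_odd k with ⟨m, hm⟩ | ⟨m, hm⟩
      · exfalso
        have : j ^ k = 1 := by
          rw [hm, ← two_mul, zpow_mul]; norm_cast; rw [hj2, one_zpow]
        rw [this] at hk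
        apply hj1
        have h4 : x' * j * x'⁻¹ = 1 := hk.symm
        rw [mul_inv_eq_one] at h4
        simpa using h4
      · have : j ^ k = j := by
          rw [hm, zpow_add, zpow_mul]; norm_cast; rw [hj2, one_zpow, one_mul, pow_one]
        rw [← hk, this]
    rw [Subgroup.mem_centralizer_iff]
    intro y hy
    rw [Set.mem_singleton_iff.1 hy]
    nth_rewrite 1 [← h3]; group
  -- the 2-group M
  set M : Subgroup G := Subgroup.normalizer (T : Set G) ⊓ (Q : Subgroup H).map H.subtype with hM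
  have hTM : T ≤ M := le_inf Subgroup.le_normalizer (fun t ht => ⟨⟨t, hTH ht⟩, hQ ht, rfl⟩)
  have hMW : M ≤ H ⊓ Subgroup.centralizer ({j} : Set G) := by
    rintro m ⟨h1, ⟨q, hq, rfl⟩⟩
    exact ⟨q.2, hnc h1⟩
  have hMp : IsPGroup 2 M := (Q.isPGroup'.map H.subtype).to_le inf_le_right
  have hmul := Subgroup.relIndex_mul_relIndex T M _ hTM hMW
  apply hSyl
  rw [← hmul]
  apply Dvd.dvd.mul_right
  obtain ⟨n, hn⟩ := hMp.index (T.subgroupOf M)
  have hne : T.relIndex M ≠ 1 := by
    rw [Ne, Subgroup.relIndex_eq_one]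
    intro hle
    apply hxT
    show ((x : H) : G) ∈ T
    apply hle
    refine ⟨?_, ⟨x, x.2, rfl⟩⟩
    show ((x : H) : G) ∈ Subgroup.normalizer (T : Set G)
    rw [Subgroup.mem_normalizer_iff]
    rw [Subgroup.mem_normalizer_iff] at hxN
    intro t
    set x' : G := ((x : H) : G) with hx'
    constructor
    · intro ht
      have := (hxN ⟨⟨t, hTH ht⟩, hQ ht⟩).1 ht
      exact this
    · intro ht
      have h1 : x'⁻¹ ∈ H := H.inv_mem (x : H).2
      have htH : t ∈ H := by
        have := H.mul_mem (H.mul_mem h1 (hTH ht)) (x : H).2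
        have e : x'⁻¹ * (x' * t * x'⁻¹) * x' = t := by group
        rwa [← hx', e] at this
      have hxQ : (x : H) * ⟨t, htH⟩ * (x : H)⁻¹ ∈ (Q : Subgroup H) := hQ ht
      have htQ : (⟨t, htH⟩ : H) ∈ (Q : Subgroup H) := by
        have := (Q : Subgroup H).mul_mem ((Q : Subgroup H).mul_mem ((Q : Subgroup H).inv_mem x.2) hxQ) x.2
        have e : (x : H)⁻¹ * ((x : H) * ⟨t, htH⟩ * (x : H)⁻¹) * x = ⟨t, htH⟩ := by group
        rwa [e] at this
      exact (hxN ⟨⟨t, htH⟩, htQ⟩).2 ht
  have hn' : T.relIndex M = 2 ^ n := hn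
  rw [hn'] at hne ⊢
  apply dvd_pow_self
  rintro rfl
  exact hne (pow_zero 2)

end Cfsg.Agent.S3208
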