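import Cfsg.Statements.S3224
import Mathlib
import Cfsg.Agent.Lib.PGrpJ
import Cfsg.Agent.Lib.PGrpI

set_option autoImplicit false
open Cfsg

namespace Cfsg.Agent.S3224

/-- A finite 2-group containing an involution whose centralizer has order 4 is dihedral, quasi-dihedral (semidihedral), or of order 4. -/
theorem result {S : Type*} [Group S] [Finite S] (hS : IsPGroup 2 S)
    (x : S) (hx : orderOf x = 2) (hC : Nat.card ↥(Subgroup.centralizer ({x} : Set S)) = 4) :
    (∃ n : ℕ, Nonempty (S ≃* DihedralGroup n)) ∨ Cfsg.IsQuasiDihedral S ∨ Nat.card S = 4 := by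
  classical
  obtain ⟨n, hn⟩ := IsPGroup.iff_card.1 hS
  set A := Subgroup.centralizer ({x} : Set S) with hA
  haveI : Fact (Nat.Prime 2) := ⟨Nat.prime_two⟩
  have hcomm : ∀ u v : A, u * v = v * u := by
    have h4 : Nat.card A = 2 ^ 2 := by rw [hC]; norm_num
    exact (IsPGroup.commutative_of_card_eq_prime_sq h4)
  have hAA : Subgroup.centralizer (A : Set S) = A := by
    apply le_antisymm
    · rw [hA]
      apply Subgroup.centralizer_le
      rw [Set.singleton_subset_iff]
      exact Subgroup.mem_centralizer_iff.2 (by rintro y hy; rw [Set.mem_singleton_iff.1 hy])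
    · intro u hu
      rw [Subgroup.mem_centralizer_iff]
      intro v hv
      exact congrArg Subtype.val (hcomm ⟨v, hv⟩ ⟨u, hu⟩)
  have hmc := Cfsg.Agent.Lib.PGrpI.maxClass_of_self_centralizing n S hn A (by rw [hC]; norm_num) hAA
  have hn2 : 2 ≤ n := by
    have h1 := Subgroup.card_subgroup_dvd_card A
    rw [hC, hn, show 4 = 2 ^ 2 by norm_num] at h1
    exact (Nat.pow_dvd_pow_iff_le_right (by norm_num)).1 h1
  rcases Nat.lt_or_ge 2 n with hn3 | hn3
  swap
  · right; right
    have : n = 2 := le_antisymm hn3 hn2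
    rw [hn, this]; norm_num
  obtain ⟨a, b, ha, hb, hZ, hcase⟩ := Cfsg.Agent.Lib.PGrpJ.maxClass_generators hn3 hn hmc
  have hcard : Nat.card S = 2 * orderOf a := by
    rw [hn, ha, ← pow_succ']; congr 1; omega
  rcases hcase with ⟨hb2, hbab⟩ | ⟨hb2, hbab⟩ | ⟨hn4, hb2, hbab⟩
  · left
    exact ⟨orderOf a, Cfsg.Agent.Lib.PGrpD.dihedral_iso hb2 hbab hb hcard⟩
  · exfalso
    have hidx : (Subgroup.zpowers a).index = 2 := by
      have h1 := Subgroup.card_mul_index (Subgroup.zpowers a)
      rw [Nat.card_zpowers, hcard, mul_comm 2] at h1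
      exact Nat.eq_of_mul_eq_mul_left (orderOf_pos a) h1
    have hx2 : x ^ 2 = 1 := by rw [← hx, pow_orderOf_eq_one]
    have hxa : x ∈ Subgroup.zpowers a := by
      by_contra hxa
      have h2 : x * b⁻¹ ∈ Subgroup.zpowers a := by
        rw [Subgroup.mul_mem_iff_of_index_two hidx]
        constructor
        · intro h3; exact absurd h3 hxa
        · intro h3; exact absurd (by simpa using inv_mem h3) hb
      obtain ⟨k, hk⟩ := Subgroup.mem_zpowers_iff.1 h2
      have h3 : b * a ^ k * b⁻¹ = (a ^ k)⁻¹ := by rw [← conj_zpow, hbab, inv_zpow]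
      have h4 : x ^ 2 = b ^ 2 := by
        have : x = a ^ k * b := by rw [hk]; group
        rw [this]
        calc (a ^ k * b) ^ 2 = a ^ k * (b * a ^ k * b⁻¹) * b ^ 2 := by rw [sq]; group
          _ = b ^ 2 := by rw [h3]; group
      rw [hx2, hb2] at h4
      have h5 := orderOf_dvd_of_pow_eq_one h4.symm
      rw [ha] at h5
      have h6 := (Nat.pow_dvd_pow_iff_le_right (by norm_num)).1 h5
      omega
    have hxz : x ∈ Subgroup.center S := by
      obtain ⟨k, rfl⟩ := Subgroup.mem_zpowers_iff.1 hxa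
      rw [hZ]
      rw [← zpow_natCast, ← zpow_mul, ← orderOf_dvd_iff_zpow_eq_one, ha] at hx2
      have h6 : ((2 : ℤ) ^ (n - 2)) ∣ k := by
        have h7 : ((2 : ℤ) ^ (n - 2)) * 2 ∣ k * 2 := by
          have := hx2
          push_cast at this
          rwa [← pow_succ, show n - 2 + 1 = n - 1 by omega]
        exact Int.dvd_of_mul_dvd_mul_right (by norm_num) h7
      obtain ⟨l, rfl⟩ := h6
      rw [Subgroup.mem_zpowers_iff]
      exact ⟨l, by rw [← zpow_natCast, ← zpow_mul]; norm_num⟩
    have htop : A = ⊤ := by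
      rw [hA, eq_top_iff]
      intro y _
      rw [Subgroup.mem_centralizer_iff]
      intro z hz
      rw [Set.mem_singleton_iff.1 hz]
      exact (Subgroup.mem_center_iff.1 hxz y).symm
    rw [htop, Subgroup.card_top, hn] at hC
    have : 2 ^ 3 ≤ 2 ^ n := Nat.pow_le_pow_right (by norm_num) hn3
    omega
  · right; left
    refine ⟨n - 1, by omega, by rw [hn]; congr 1; omega, a, b, ha, ?_, ?_⟩
    · apply orderOf_eq_prime hb2
      rintro rfl
      exact hb (one_mem _)
    · rw [hbab, show n - 1 - 1 = n - 2 by omega]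

end Cfsg.Agent.S3224
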