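import Cfsg.Statements.S3269
import Mathlib
import Cfsg.Agent.Lib.ZStarF

set_option autoImplicit false
open Cfsg

namespace Cfsg.Agent.S3269

open Cfsg.Agent.Lib.ZStar in
theorem qf_of {G : Type*} [Group G] [Finite G] (S Q R : Subgroup G) (hQR : Cfsg.IsInternalDirectProduct Q R S)
    (m : ℕ) (hm : 2 ≤ m) (eQ : ↥Q ≃* QuaternionGroup m)
    (hR : ∀ r ∈ R, orderOf r = 2 → ∀ s ∈ R, r * s = s * r) :
    ∃ z : S, IsQF (Q.subgroupOf S) (R.subgroupOf S) z ∧ ∀ x y : S, x * x = 1 → x * y = y * x := by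
  obtain ⟨hQS, hRS, hcomm, hinf, hsup⟩ := hQR
  have hz0 : ((eQ.symm (QuaternionGroup.a (m : ZMod (2 * m))) : Q) : G) ∈ S :=
    hQS (eQ.symm (QuaternionGroup.a (m : ZMod (2 * m)))).2
  have huniq : ∀ x : Q, x * x = 1 → x = 1 ∨ x = eQ.symm (QuaternionGroup.a (m : ZMod (2 * m))) := by
    intro x hx
    have h1 : (eQ x) ^ 2 = 1 := by rw [sq, ← map_mul, hx, map_one]
    rcases quat_sq hm h1 with h2 | h2
    · left; exact eQ.injective (by rw [h2, map_one])
    · right; rw [← h2]; simp
  have hsq : ((eQ.symm (QuaternionGroup.a (m : ZMod (2 * m))) : Q) : G) *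
      ((eQ.symm (QuaternionGroup.a (m : ZMod (2 * m))) : Q) : G) = 1 := by
    rw [← Subgroup.coe_mul, ← map_mul, ← sq, quat_am_sq, map_one]; rfl
  have hQF : IsQF (Q.subgroupOf S) (R.subgroupOf S) ⟨_, hz0⟩ := by
    refine ⟨?_, ?_, ?_, ?_, ?_, ?_, ?_, ?_⟩
    · intro a ha b hb
      exact Subtype.ext (hcomm _ ha _ hb)
    · rw [eq_bot_iff]
      intro x hx
      have h1 : (x : G) ∈ Q ⊓ R := hx
      rw [hinf, Subgroup.mem_bot] at h1
      exact Subgroup.mem_bot.mpr (Subtype.ext h1)
    · rw [← Subgroup.subgroupOf_sup hQS hRS, hsup, Subgroup.subgroupOf_self]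
    · exact (eQ.symm (QuaternionGroup.a (m : ZMod (2 * m)))).2
    · intro h1
      have h2 : (eQ.symm (QuaternionGroup.a (m : ZMod (2 * m)))) = 1 := Subtype.ext (congrArg (fun t : S => (t : G)) h1)
      have h3 := congrArg eQ h2
      rw [map_one, MulEquiv.apply_symm_apply] at h3
      exact quat_am_ne hm h3
    · exact Subtype.ext hsq
    · intro x hx hxx
      rcases huniq ⟨x, hx⟩ (Subtype.ext (congrArg (fun t : S => (t : G)) hxx)) with h1 | h1
      · left; exact Subtype.ext (congrArg (fun t : Q => (t : G)) h1)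
      · right; exact Subtype.ext (congrArg (fun t : Q => (t : G)) h1)
    · by_contra hcon
      push_neg at hcon
      have h1 : ∀ y : QuaternionGroup m, QuaternionGroup.a 1 * y = y * QuaternionGroup.a 1 := by
        intro y
        have h2 := hcon ⟨((eQ.symm (QuaternionGroup.a 1) : Q) : G), hQS (eQ.symm (QuaternionGroup.a 1)).2⟩
          (eQ.symm (QuaternionGroup.a 1)).2 ⟨((eQ.symm y : Q) : G), hQS (eQ.symm y).2⟩ (eQ.symm y).2
        have h3 : (eQ.symm (QuaternionGroup.a 1)) * (eQ.symm y) = (eQ.symm y) * (eQ.symm (QuaternionGroup.a 1)) :=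
          Subtype.ext (congrArg (fun t : S => (t : G)) h2)
        rw [← map_mul, ← map_mul] at h3
        exact eQ.symm.injective h3
      have h2 := quat_center hm h1
      rcases quat_a_sq hm h2 with h3 | h3
      · have h4 : ((1 : ℕ) : ZMod (2 * m)) = ((0 : ℕ) : ZMod (2 * m)) := by push_cast; exact h3
        rw [ZMod.natCast_eq_natCast_iff'] at h4
        rw [Nat.mod_eq_of_lt (by omega), Nat.mod_eq_of_lt (by omega)] at h4
        omega
      · have h4 : ((1 : ℕ) : ZMod (2 * m)) = ((m : ℕ) : ZMod (2 * m)) := by push_cast; exact h3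
        rw [ZMod.natCast_eq_natCast_iff'] at h4
        rw [Nat.mod_eq_of_lt (by omega), Nat.mod_eq_of_lt (by omega)] at h4
        omega
  refine ⟨_, hQF, ?_⟩
  intro x y hx
  obtain ⟨a, ha, b, hb, rfl⟩ := hQF.exists_mul x
  obtain ⟨c, hc, d, hd, rfl⟩ := hQF.exists_mul y
  have hab := hQF.comm a ha b hb
  have h1 : a * a * (b * b) = 1 := by
    calc a * a * (b * b) = a * (a * b) * b := by group
      _ = a * (b * a) * b := by rw [hab]
      _ = (a * b) * (a * b) := by group
      _ = 1 := hx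
  have h2 : a * a ∈ Q.subgroupOf S ⊓ R.subgroupOf S := by
    refine ⟨Subgroup.mul_mem _ ha ha, ?_⟩
    have h3 : a * a = (b * b)⁻¹ := eq_inv_of_mul_eq_one_left h1
    rw [h3]; exact Subgroup.inv_mem _ (Subgroup.mul_mem _ hb hb)
  rw [hQF.inf, Subgroup.mem_bot] at h2
  rw [h2, one_mul] at h1
  have hbc : ∀ w ∈ R.subgroupOf S, b * w = w * b := by
    intro w hw
    by_cases hb1 : b = 1
    · rw [hb1]; group
    · have h3 : orderOf (b : G) = 2 := orderOf_eq_prime (by rw [sq]; exact congrArg Subtype.val h1)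
        (fun h => hb1 (Subtype.ext h))
      exact Subtype.ext (hR _ hb h3 _ hw)
  have hac : ∀ w : S, a * w = w * a := by
    intro w
    rcases hQF.uniq a ha h2 with h3 | h3
    · rw [h3]; group
    · rw [h3]; exact (Subgroup.mem_center_iff.mp hQF.central w).symm
  have hbcd : b * (c * d) = c * d * b := by
    rw [← mul_assoc, ← hQF.comm c hc b hb, mul_assoc, hbc d hd, mul_assoc]
  rw [mul_assoc, hbcd, ← mul_assoc, hac, mul_assoc]

/-- Let G be a finite group whose Sylow 2-subgroup S is an internal direct product Q × R with Q generalized quaternion (of order at least 8) and R a subgroup all of whose involutions are central in R. Then G is not simple. In particular no finite simple group has a Sylow 2-subgroup that is a direct product of one or more generalized quaternion groups. -/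
theorem result {G : Type*} [Group G] [Finite G]
    (S : Sylow 2 G) (Q R : Subgroup G) (hQR : Cfsg.IsInternalDirectProduct Q R (S : Subgroup G))
    (n : ℕ) (hn : 1 ≤ n) (eQ : ↥Q ≃* QuaternionGroup (2 ^ n))
    (hR : ∀ r ∈ R, orderOf r = 2 → ∀ s ∈ R, r * s = s * r) :
    ¬ IsSimpleGroup G := by
  obtain ⟨z, hz, hc⟩ := qf_of (S : Subgroup G) Q R hQR (2 ^ n) (by
    calc 2 = 2 ^ 1 := rfl
      _ ≤ 2 ^ n := Nat.pow_le_pow_right (by norm_num) hn) eQ hR
  exact Cfsg.Agent.Lib.ZStar.not_simple_of_factor S hz hc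

end Cfsg.Agent.S3269
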