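import Cfsg.Statements.S3279
import Cfsg.Agent.Lib.ThreeInv

set_option autoImplicit false
open Cfsg

namespace Cfsg.Agent.S3279

open Subgroup

/-- Let G be a finite simple group and x an involution of G whose centralizer contains at most three involutions. Then C_G(x) contains a Sylow 2-subgroup of G, and all involutions of G are conjugate. -/
theorem result {G : Type*} [Group G] [Finite G] [IsSimpleGroup G] (x : G) (hx : orderOf x = 2)
    (h3 : Nat.card {u : ↥(Subgroup.centralizer ({x} : Set G)) // orderOf u = 2} ≤ 3) :
    (∃ S : Sylow 2 G, (S : Subgroup G) ≤ Subgroup.centralizer ({x} : Set G)) ∧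
      ∀ u v : G, orderOf u = 2 → orderOf v = 2 → IsConj u v := by
  have h := Cfsg.Agent.Lib.ThreeInv.main hx (Cfsg.Agent.Lib.ThreeInv.p3_of_card hx h3)
  exact h

end Cfsg.Agent.S3279
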