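import Cfsg.Statements.S3303
import Mathlib
import Cfsg.Agent.Lib.HallHigman
import Cfsg.Agent.Lib.PSolB

set_option autoImplicit false
open Cfsg

namespace Cfsg.Agent.S3303

open Subgroup in
theorem cent_of_cyclic {X : Type*} [Group X] [Finite X] {R : Subgroup X} (hR : IsPGroup 2 R) (hc : IsCyclic R) {g : X}
    (hg : g ∈ normalizer (R : Set X)) (hgo : Odd (orderOf g)) : g ∈ centralizer (R : Set X) := by
  set φ : MulAut R := R.normalizerMonoidHom ⟨g, hg⟩ with hφ
  have hφo : orderOf φ ∣ orderOf g := by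
    have h1 := orderOf_map_dvd R.normalizerMonoidHom ⟨g, hg⟩
    rwa [Subgroup.orderOf_mk] at h1
  obtain ⟨a, ha⟩ := IsPGroup.iff_card.1 hR
  have hcard : Nat.card (MulAut R) = Nat.totient (2 ^ a) := by rw [IsCyclic.card_mulAut, ha]
  have h2 : orderOf φ ∣ 2 ^ a := by
    have h3 : orderOf φ ∣ Nat.card (MulAut R) := orderOf_dvd_natCard φ
    rw [hcard] at h3
    rcases Nat.eq_zero_or_pos a with rfl | hpos
    · simpa using h3
    · rw [Nat.totient_prime_pow Nat.prime_two hpos] at h3
      simp at h3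
      exact h3.trans (Nat.pow_dvd_pow 2 (Nat.sub_le a 1))
  have h4 : orderOf φ = 1 := by
    have hcop : Nat.Coprime (2 ^ a) (orderOf g) := Nat.Coprime.pow_left a (Nat.coprime_two_left.2 hgo)
    exact Nat.eq_one_of_dvd_coprimes hcop h2 hφo
  have h5 : (⟨g, hg⟩ : normalizer (R : Set X)) ∈ R.normalizerMonoidHom.ker := orderOf_eq_one_iff.1 h4
  rw [Subgroup.normalizerMonoidHom_ker] at h5
  exact h5

/-- Let G be a finite solvable group in which the intersection of any two distinct Sylow 2-subgroups is cyclic. Then G/O(G) has a normal Sylow 2-subgroup, where O(G) is the largest normal subgroup of odd order. -/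
theorem result {G : Type*} [Group G] [Finite G] (hs : Group.IsSolvable G)
    (hC : ∀ S T : Sylow 2 G, S ≠ T → IsCyclic ↥((S : Subgroup G) ⊓ (T : Subgroup G))) :
    ∃ P : Sylow 2 (G ⧸ Cfsg.oddCore G), (P : Subgroup (G ⧸ Cfsg.oddCore G)).Normal := by
  classical
  haveI hNn : (Cfsg.oddCore G).Normal := Cfsg.Agent.Lib.Cores.pPrimeCore_normal 2
  haveI : Fact (Nat.Prime 2) := ⟨Nat.prime_two⟩
  set π := QuotientGroup.mk' (Cfsg.oddCore G) with hπ
  have hsurj : Function.Surjective π := QuotientGroup.mk'_surjective (Cfsg.oddCore G)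
  haveI hRn : (Cfsg.pCore 2 (G ⧸ Cfsg.oddCore G)).Normal := Cfsg.Agent.Lib.Cores.pCore_normal 2
  set R := Cfsg.pCore 2 (G ⧸ Cfsg.oddCore G) with hR
  have hRp : IsPGroup 2 R := Cfsg.Agent.Lib.Cores.pCore_isPGroup 2
  set M := R.comap π with hM
  obtain ⟨R0⟩ : Nonempty (Sylow 2 M) := inferInstance
  set Q := (R0 : Subgroup M).map M.subtype with hQ
  have hQp : IsPGroup 2 Q := R0.2.map _
  have hfr : Subgroup.normalizer (Q : Set G) ⊔ M = ⊤ := Sylow.normalizer_sup_eq_top R0
  -- `π Q = R`
  have hπQ : Q.map π = R := by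
    let f : M →* R := (π.comp M.subtype).codRestrict R (fun x => x.2)
    have hf : Function.Surjective f := by
      rintro ⟨y, hy⟩
      obtain ⟨x, rfl⟩ := hsurj y
      exact ⟨⟨x, hy⟩, rfl⟩
    have h1 : ((R0.mapSurjective hf : Sylow 2 R) : Subgroup R) = ⊤ :=
      ((R0.mapSurjective hf).3 (hRp.to_subgroup ⊤) le_top).symm
    rw [Sylow.coe_mapSurjective] at h1
    have h2 := congrArg (Subgroup.map R.subtype) h1
    rw [Subgroup.map_map, ← MonoidHom.range_eq_map, Subgroup.range_subtype] at h2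
    rw [hQ, Subgroup.map_map]
    exact h2
  set H := Subgroup.normalizer (Q : Set G) with hH
  have hπH : H.map π = ⊤ := by
    have h1 := congrArg (Subgroup.map π) hfr
    rw [Subgroup.map_sup, Subgroup.map_top_of_surjective π hsurj, hM, Subgroup.map_comap_eq_self_of_surjective hsurj, ← hπQ] at h1
    have h2 : Q.map π ≤ H.map π := Subgroup.map_mono Subgroup.le_normalizer
    rwa [sup_eq_left.2 h2] at h1
  by_cases hun : ∃ S T : Sylow 2 H, S ≠ T
  · -- `R` is cyclic
    obtain ⟨S, T, hST⟩ := hun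
    have hQH : ∀ U : Sylow 2 H, Q ≤ (U : Subgroup H).map H.subtype := by
      intro U
      have h1 : (Q.subgroupOf H) ≤ U := by
        haveI : (Q.subgroupOf H).Normal := Subgroup.normal_in_normalizer
        have h2 : IsPGroup 2 (Q.subgroupOf H) := hQp.comap_subtype
        exact h2.le_sylow_of_normal U
      have h3 := Subgroup.map_mono (f := H.subtype) h1
      rwa [Subgroup.subgroupOf_map_subtype, inf_eq_left.2 Subgroup.le_normalizer] at h3
    obtain ⟨S1, hS1⟩ := (S.2.map H.subtype).exists_le_sylow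
    obtain ⟨T1, hT1⟩ := (T.2.map H.subtype).exists_le_sylow
    have hne : S1 ≠ T1 := by
      rintro rfl
      apply hST
      have h1 : (S : Subgroup H) ≤ (S1 : Subgroup G).comap H.subtype := Subgroup.map_le_iff_le_comap.1 hS1
      have h2 : (T : Subgroup H) ≤ (S1 : Subgroup G).comap H.subtype := Subgroup.map_le_iff_le_comap.1 hT1
      have h3 : IsPGroup 2 ((S1 : Subgroup G).comap H.subtype) := S1.2.comap_subtype
      have h4 := S.3 h3 h1
      have h5 := T.3 h3 h2
      apply Sylow.ext
      exact h4.symm.trans h5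
    have hcyc := hC S1 T1 hne
    have hle : Q ≤ (S1 : Subgroup G) ⊓ T1 := le_inf ((hQH S).trans hS1) ((hQH T).trans hT1)
    haveI := hcyc
    have hQc : IsCyclic Q := isCyclic_of_injective (Subgroup.inclusion hle) (Subgroup.inclusion_injective hle)
    have hRc : IsCyclic R := by
      rw [← hπQ]
      exact isCyclic_of_surjective (π.subgroupMap Q) (MonoidHom.subgroupMap_surjective _ _)
    have hcent : Subgroup.centralizer (R : Set _) ≤ R := by
      apply Cfsg.Agent.Lib.HallHigman.centralizer_pCore_le 2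
      · exact Cfsg.Agent.Lib.PSol.quotient (Cfsg.Agent.Lib.PSolB.of_isSolvable _ G 2 le_rfl hs) _
      · exact Cfsg.Agent.Lib.Cores.pPrimeCore_quotient_pPrimeCore 2
    have hpg : IsPGroup 2 (G ⧸ Cfsg.oddCore G) := by
      intro g
      obtain ⟨k, m, hm, hkm⟩ := Nat.exists_eq_two_pow_mul_odd (orderOf_pos g).ne'
      refine ⟨k, ?_⟩
      have ho : Odd (orderOf (g ^ (2 ^ k))) := by
        rw [orderOf_pow' _ (by positivity), hkm, Nat.gcd_eq_right (dvd_mul_right _ _),
          Nat.mul_div_cancel_left _ (by positivity)]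
        exact hm
      have h1 : g ^ (2 ^ k) ∈ Subgroup.normalizer (R : Set _) := by
        rw [Subgroup.normalizer_eq_top]
        trivial
      have h2 := hcent (cent_of_cyclic hRp hRc h1 ho)
      obtain ⟨j, hj⟩ := hRp ⟨_, h2⟩
      have h3 : (g ^ (2 ^ k)) ^ (2 ^ j) = 1 := congrArg Subtype.val hj
      have h4 := orderOf_dvd_of_pow_eq_one h3
      rw [← orderOf_eq_one_iff]
      exact Nat.eq_one_of_dvd_coprimes ((Nat.coprime_two_right.2 ho).pow_right j) dvd_rfl h4
    refine ⟨⟨⊤, hpg.to_subgroup ⊤, fun _ h => top_le_iff.1 h⟩, ?_⟩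
    exact (inferInstance : (⊤ : Subgroup (G ⧸ Cfsg.oddCore G)).Normal)
  · push Not at hun
    obtain ⟨S⟩ : Nonempty (Sylow 2 H) := inferInstance
    haveI : Subsingleton (Sylow 2 H) := ⟨hun⟩
    have hSn : (S : Subgroup H).Normal := Sylow.normal_of_subsingleton S
    let f : H →* G ⧸ Cfsg.oddCore G := π.comp H.subtype
    have hf : Function.Surjective f := by
      rw [← MonoidHom.range_eq_top, MonoidHom.range_comp, Subgroup.range_subtype]
      exact hπH
    refine ⟨S.mapSurjective hf, ?_⟩
    rw [Sylow.coe_mapSurjective]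
    exact hSn.map f hf

end Cfsg.Agent.S3303
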