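import Cfsg.Statements.S3305
import Mathlib
import Cfsg.Agent.H8.Basic

set_option autoImplicit false
open Cfsg

namespace Cfsg.Agent.S3305

/-- If any two distinct Sylow 2-subgroups of the finite group G intersect in a cyclic group, then the same holds in every quotient group G/H, H a normal subgroup of G. -/
theorem result {G : Type*} [Group G] [Finite G]
    (hC : ∀ S T : Sylow 2 G, S ≠ T → IsCyclic ↥((S : Subgroup G) ⊓ (T : Subgroup G))) (H : Subgroup G) [H.Normal] :
    ∀ S T : Sylow 2 (G ⧸ H), S ≠ T → IsCyclic ↥((S : Subgroup (G ⧸ H)) ⊓ (T : Subgroup (G ⧸ H))) := by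
  intro S' T' hne
  set π := QuotientGroup.mk' H with hπ
  have hsurj : Function.Surjective π := QuotientGroup.mk'_surjective H
  obtain ⟨E, hE, hEmap⟩ := Cfsg.Agent.H8.Basic.exists_pgroup_map_eq hsurj
    ((S' : Subgroup (G ⧸ H)) ⊓ T') (S'.isPGroup'.to_le inf_le_left)
  obtain ⟨S, hES, hS⟩ := Cfsg.Agent.H8.Basic.exists_sylow_map_eq hsurj E hE S' (by rw [hEmap]; exact inf_le_left)
  obtain ⟨T, hET, hT⟩ := Cfsg.Agent.H8.Basic.exists_sylow_map_eq hsurj E hE T' (by rw [hEmap]; exact inf_le_right)
  have hST : S ≠ T := by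
    rintro rfl
    apply hne
    apply Sylow.ext
    rw [← hS, ← hT]
  have hcyc := hC S T hST
  have hEcyc : IsCyclic E := by
    have hle : E ≤ (S : Subgroup G) ⊓ T := le_inf hES hET
    exact isCyclic_of_injective (Subgroup.inclusion hle) (Subgroup.inclusion_injective hle)
  rw [← hEmap]
  exact isCyclic_of_surjective (π.subgroupMap E) (π.subgroupMap_surjective E)

end Cfsg.Agent.S3305
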