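import Cfsg.Statements.S3349
import Cfsg.Agent.Lib.ExSpC

set_option autoImplicit false
open Cfsg

namespace Cfsg.Agent.S3349

open Subgroup Cfsg.Agent.Lib.ExSp Cfsg.Agent.Lib.ExSpC
open scoped commutatorElement

/-- Let Q be a finite extraspecial p-group and α an automorphism of Q fixing every element of some maximal abelian subgroup of Q. Then the order of α is a power of p. -/
theorem result {Q : Type*} [Group Q] [Finite Q]
    (p : ℕ) [Fact p.Prime] (hQ : Cfsg.IsExtraspecial p Q) (α : MulAut Q)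
    (A : Subgroup Q) (hA : IsMulCommutative A) (hmax : ∀ B : Subgroup Q, A ≤ B → IsMulCommutative B → B = A)
    (hfix : ∀ a ∈ A, α a = a) :
    ∃ k : ℕ, orderOf α = p ^ k := by
  obtain ⟨z, D⟩ := dat_of hQ
  haveI := hA
  have hAA : ∀ a ∈ A, ∀ b ∈ A, a * b = b * a := fun a ha b hb =>
    congrArg Subtype.val (hA.is_comm.comm (⟨a, ha⟩ : A) ⟨b, hb⟩)
  -- `A` is self-centralizing
  have hsc : ∀ x : Q, (∀ a ∈ A, x * a = a * x) → x ∈ A := by
    intro x hx
    have h1 : IsMulCommutative ↥(A ⊔ zpowers x) := by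
      rw [Subgroup.zpowers_eq_closure, ← Subgroup.closure_eq A, ← Subgroup.closure_union]
      refine Subgroup.isMulCommutative_closure ?_
      rintro y (hy | hy) w (hw | hw)
      · exact hAA y hy w hw
      · rw [Set.mem_singleton_iff] at hw; subst hw; exact (hx y hy).symm
      · rw [Set.mem_singleton_iff] at hy; subst hy; exact hx w hw
      · rw [Set.mem_singleton_iff] at hy hw; rw [hy, hw]
    have h2 := hmax _ le_sup_left h1
    rw [← h2]; exact mem_sup_right (mem_zpowers x)
  have hzA : z ∈ A := hsc z fun a _ => (D.zc a).symm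
  have hAn : A.Normal := by
    refine ⟨fun a ha g => ?_⟩
    have e : g * a * g⁻¹ = ⁅g, a⁆ * a := by rw [commutatorElement_def]; group
    rw [e]
    exact mul_mem ((zpowers_le.mpr hzA) (D.comm g a)) ha
  have hxA : ∀ x : Q, x⁻¹ * α x ∈ A := by
    intro x
    apply hsc
    intro b hb
    have h1 : α (x * b * x⁻¹) = x * b * x⁻¹ := hfix _ (hAn.conj_mem b hb x)
    rw [map_mul, map_mul, map_inv, hfix b hb] at h1
    calc x⁻¹ * α x * b = x⁻¹ * (α x * b * (α x)⁻¹) * α x := by group
      _ = b * (x⁻¹ * α x) := by rw [h1]; group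
  have hpow : ∀ (n : ℕ) (x : Q), (α ^ n) x = x * (x⁻¹ * α x) ^ n := by
    intro n x
    induction n with
    | zero => simp
    | succ n ih =>
      have e : ∀ c : Q, x * ((x⁻¹ * α x) * c) = α x * c := fun c => by group
      rw [pow_succ', MulAut.mul_apply, ih, map_mul, map_pow, hfix _ (hxA x), pow_succ', e]
  obtain ⟨k, hk⟩ := IsPGroup.iff_card.mp hQ.1.1
  have h1 : α ^ (p ^ k) = 1 := by
    ext x
    rw [hpow, ← hk, pow_card_eq_one', mul_one]; rfl
  obtain ⟨j, -, hj⟩ := (Nat.dvd_prime_pow (Fact.out : p.Prime)).mp (orderOf_dvd_of_pow_eq_one h1)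
  exact ⟨j, hj⟩

end Cfsg.Agent.S3349
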