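import Cfsg.Statements.S3391
import Mathlib
import Cfsg.Agent.H8.SuzSolFin
import Cfsg.Agent.H8.SuzHom
import Cfsg.Agent.H8.SuzLie

set_option autoImplicit false
open Cfsg

namespace Cfsg.Agent.S3391

section Aux
open Cfsg.Agent.H8.Suz Cfsg.Agent.H8.Suz.Dat Cfsg.Agent.H8.OddTor

open Classical in
/-- Squares act trivially on sets with at most two elements. -/
theorem sq_fix {G X : Type*} [Group G] [MulAction G X] [Finite X] (P : X → Prop) (hP : Nat.card {x // P x} ≤ 2) {k : G}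
    (hk : ∀ x, P x → P (k • x)) {x : X} (hx : P x) : (k * k) • x = x := by
  by_contra hne
  rw [mul_smul] at hne
  have h1 : k • x ≠ x := by
    intro h; rw [h, h] at hne; exact hne rfl
  have h2 : k • (k • x) ≠ k • x := fun h => h1 (smul_left_cancel k h)
  have := Fintype.ofFinite {x // P x}
  have h3 : ({⟨x, hx⟩, ⟨k • x, hk x hx⟩, ⟨k • (k • x), hk _ (hk x hx)⟩} : Finset {x // P x}).card = 3 :=
    Finset.card_eq_three.2 ⟨_, _, _, fun h => h1 (congrArg Subtype.val h).symm, fun h => hne (congrArg Subtype.val h).symm,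
      fun h => h2 (congrArg Subtype.val h).symm, rfl⟩
  have h4 := Finset.card_le_univ ({⟨x, hx⟩, ⟨k • x, hk x hx⟩, ⟨k • (k • x), hk _ (hk x hx)⟩} : Finset {x // P x})
  rw [h3, ← Nat.card_eq_fintype_card] at h4
  omega

variable {F : Type*} [Field F] [Fintype F] {m : ℕ} (D : Dat F m)

include D

theorem even_case {X : Type*} [Finite X] [MulAction (Cfsg.Sz F m) X] (hfix : Nat.card {x : X // D.t0 • x = x} ≤ 2)
    (α : X) (hα : D.t0 • α = α) (hne : ∃ g : Cfsg.Sz F m, g • α ≠ α) : MulAction.stabilizer (Cfsg.Sz F m) α = D.B := by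
  have hchar := D.char
  have hU : ∀ u ∈ D.U, ∀ x : X, D.t0 • x = x → D.t0 • (u • x) = u • x := by
    intro u hu x hx
    rw [← mul_smul, D.t0_comm hu, mul_smul, hx]
  have hsq : ∀ u ∈ D.U, ∀ x : X, D.t0 • x = x → (u * u) • x = x := by
    intro u hu x hx
    exact sq_fix (fun x => D.t0 • x = x) hfix (hU u hu) hx
  have hZ : ∀ b, ∀ x : X, D.t0 • x = x → D.tt 0 b • x = x := by
    intro b x hx
    obtain ⟨s, hs⟩ := D.exists_mul_theta b
    have h1 := hsq (D.tt s 0) ⟨s, 0, rfl⟩ x hx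
    rw [D.tt_sq, mul_comm, hs] at h1
    exact h1
  -- points fixed by the centre
  have hPcard : Nat.card {x : X // ∀ b, D.tt 0 b • x = x} ≤ 2 := by
    refine le_trans (Nat.card_le_card_of_injective (fun x : {x : X // ∀ b, D.tt 0 b • x = x} =>
      (⟨x.1, x.2 1⟩ : {x : X // D.t0 • x = x})) ?_) hfix
    intro x y h
    exact Subtype.ext (congrArg (fun z : {x : X // D.t0 • x = x} => z.1) h)
  have hH : ∀ u, ∀ x : X, (∀ b, D.tt 0 b • x = x) → ∀ b, D.tt 0 b • (D.hh u • x) = D.hh u • x := by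
    intro u x hx b
    obtain ⟨b', rfl⟩ : ∃ b', b = D.θ u * (u : F) ^ 2 * b' := by
      have hu0 : D.θ u * (u : F) ^ 2 ≠ 0 := by simp
      exact ⟨b / (D.θ u * (u : F) ^ 2), by field_simp⟩
    have h1 := D.hh_mul_tt u 0 b'
    rw [mul_zero] at h1
    rw [← mul_smul, ← h1, mul_smul, hx]
  have hHfix : ∀ u, ∀ x : X, (∀ b, D.tt 0 b • x = x) → D.hh u • x = x := by
    intro u x hx
    obtain ⟨d, hd⟩ := D.exists_sqrt u
    have := sq_fix (fun x : X => ∀ b, D.tt 0 b • x = x) hPcard (k := D.hh d) (hH d) hx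
    rwa [D.hh_mul, hd] at this
  have hαZ : ∀ b, D.tt 0 b • α = α := fun b => hZ b α hα
  have hH' : ∀ u, D.hh u ∈ MulAction.stabilizer (Cfsg.Sz F m) α := fun u => hHfix u α hαZ
  obtain ⟨u, hu⟩ := D.exists_unit
  have hy : D.hh u * D.tt 1 0 * (D.hh u)⁻¹ * (D.tt 1 0)⁻¹ ∈ MulAction.stabilizer (Cfsg.Sz F m) α := by
    show (D.hh u * D.tt 1 0 * (D.hh u)⁻¹ * (D.tt 1 0)⁻¹) • α = α
    have h1 : ∀ b, D.tt 0 b • ((D.tt 1 0)⁻¹ • α) = (D.tt 1 0)⁻¹ • α := by
      intro b
      have : D.tt 0 b * (D.tt 1 0)⁻¹ = (D.tt 1 0)⁻¹ * D.tt 0 b := by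
        rw [D.tt_inv]
        exact D.tt_commute.2 (by rw [map_zero, zero_mul, mul_zero])
      rw [← mul_smul, this, mul_smul, hαZ]
    have h2 : (D.hh u)⁻¹ • ((D.tt 1 0)⁻¹ • α) = (D.tt 1 0)⁻¹ • α := by
      rw [inv_smul_eq_iff, hHfix u _ h1]
    rw [mul_smul, mul_smul, mul_smul, h2, smul_inv_smul, hHfix u α hαZ]
  rw [D.hh_conj_tt, D.tt_inv, D.tt_mul] at hy
  have hne0 : D.θ u * 1 + 1 ≠ 0 := by
    intro h
    apply D.theta_ne hu
    grind
  have hT := D.U_le_of hH' hne0 hy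
  have hle : D.B ≤ MulAction.stabilizer (Cfsg.Sz F m) α := by
    intro g hg
    obtain ⟨a, b, v, rfl⟩ := D.mem_B.1 hg
    exact Subgroup.mul_mem _ (hT a b) (hH' v)
  rcases D.coatom_B.le_iff.1 hle with h | h
  · exfalso
    obtain ⟨g, hg⟩ := hne
    have : g ∈ MulAction.stabilizer (Cfsg.Sz F m) α := by rw [h]; trivial
    exact hg this
  · exact h

theorem odd_case {X : Type*} [Finite X] [MulAction (Cfsg.Sz F m) X]
    (hfix : ∀ g : Cfsg.Sz F m, g ≠ 1 → Nat.card {x : X // g • x = x} ≤ 2) (α : X) {s : Cfsg.Sz F m} (hs : s ≠ 1)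
    (hα : s • α = α) (hodd : ∀ t : Cfsg.Sz F m, t • α = α → t * t = 1 → t = 1) :
    MulAction.stabilizer (Cfsg.Sz F m) α = Cen s ∧ Nat.card (Cen s) = 2 ^ (2 * m + 1) - 1 := by
  classical
  set S := MulAction.stabilizer (Cfsg.Sz F m) α with hS
  have hSodd : ¬ 2 ∣ Nat.card S := by
    intro h2
    have : Fact (Nat.Prime 2) := ⟨Nat.prime_two⟩
    obtain ⟨t, ht⟩ := exists_prime_orderOf_dvd_card' 2 h2
    have h3 : (t : Cfsg.Sz F m) = 1 := by
      apply hodd _ t.2
      have : t ^ 2 = 1 := by rw [← ht, pow_orderOf_eq_one]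
      rw [pow_two] at this
      exact congrArg Subtype.val this
    have h4 : t = 1 := Subtype.ext h3
    rw [h4, orderOf_one] at ht
    omega
  have hordS : ∀ x ∈ S, ¬ 2 ∣ orderOf x := by
    intro x hx h2
    apply hSodd
    have : orderOf (⟨x, hx⟩ : S) = orderOf x := by rw [← Subgroup.orderOf_coe]
    rw [← this] at h2
    exact h2.trans (orderOf_dvd_natCard _)
  have hnotU : ∀ x ∈ S, x ≠ 1 → ¬ ∃ g, g⁻¹ * x * g ∈ D.U := fun x hx hx1 h => hordS x hx (D.orderOf_U hx1 h)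
  have htor : ∀ x ∈ S, x ≠ 1 → ∃ w, IsOT (Cen x) w := fun x hx hx1 => D.isOT_of_not_U hx1 (hnotU x hx hx1)
  have hcenS : ∀ x ∈ S, x ≠ 1 → Cen x ≤ S := by
    intro x hx hx1 c hc
    obtain ⟨w, hw⟩ := htor x hx hx1
    obtain ⟨k, hk, hkc⟩ := hw.exists_sqrt hc
    rw [← hkc]
    refine sq_fix (fun y : X => x • y = y) (hfix x hx1) (k := k) ?_ hx
    intro y hy
    rw [← mul_smul, mem_cen.1 hk, mul_smul, hy]
  have hsize : ∀ x ∈ S, x ≠ 1 → 5 ≤ Nat.card (Cen x) := by
    intro x hx hx1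
    have hq := D.q_ge
    have hlt := D.pow_lt
    rcases D.elt_cases hx1 with h | ⟨-, h | h | h⟩
    · exact absurd h (hnotU x hx hx1)
    · omega
    · omega
    · have : 8 ≤ 2 * 2 ^ (m + 1) := by
        have h7 : 1 ≤ m := D.hm1
        have h8 : 2 ^ 2 ≤ 2 ^ (m + 1) := Nat.pow_le_pow_right (by norm_num) (by omega)
        omega
      omega
  -- count the conjugates inside `S`
  have hcount : ∀ x ∈ S, x ≠ 1 → Nat.card {y : S // y ≠ 1 ∧ ∃ g : S, g⁻¹ * y * g ∈ (Cen x).subgroupOf S} * Nat.card (Cen x) =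
      Nat.card S * (Nat.card (Cen x) - 1) := by
    intro x hx hx1
    obtain ⟨w, hw⟩ := htor x hx hx1
    have hle := hcenS x hx hx1
    have hTI : ∀ g a : S, a ∈ (Cen x).subgroupOf S → a ≠ 1 → g * a * g⁻¹ ∈ (Cen x).subgroupOf S →
        (g : Cfsg.Sz F m) ∈ Cen x := by
      intro g a ha ha1 hga
      have ha' : (a : Cfsg.Sz F m) ∈ Cen x := ha
      have ha1' : (a : Cfsg.Sz F m) ≠ 1 := fun h => ha1 (Subtype.ext h)
      have hga' : (g : Cfsg.Sz F m) * a * (g : Cfsg.Sz F m)⁻¹ ∈ Cen x := hga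
      have e := D.cen_eq_of hw ha' ha1'
      obtain ⟨w', hw'⟩ := htor a a.2 ha1'
      have h1 : (g : Cfsg.Sz F m) ∈ Subgroup.normalizer (Cen (a : Cfsg.Sz F m) : Set (Cfsg.Sz F m)) :=
        D.mem_norm_of hw' ha1' (by rw [e]; exact hga')
      rw [← e]
      exact D.odd_mem hw' h1 (hordS g g.2)
    have h1 := card_conj ((Cen x).subgroupOf S) (fun g a ha ha1 hga => Subgroup.le_normalizer (hTI g a ha ha1 hga))
    have hnorm : Subgroup.normalizer (((Cen x).subgroupOf S : Subgroup S) : Set S) = (Cen x).subgroupOf S := by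
      apply le_antisymm _ Subgroup.le_normalizer
      intro g hg
      have hxm : (⟨x, hx⟩ : S) ∈ (Cen x).subgroupOf S := mem_cen.2 rfl
      exact hTI g ⟨x, hx⟩ hxm (fun h => hx1 (congrArg Subtype.val h)) ((Subgroup.mem_normalizer_iff.1 hg _).1 hxm)
    have h2 : Nat.card ((Cen x).subgroupOf S) = Nat.card (Cen x) := Nat.card_congr (Subgroup.subgroupOfEquivOfLe hle).toEquiv
    rw [hnorm, h2] at h1
    have h3 := ((Cen x).subgroupOf S).card_mul_index
    rw [h2] at h3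
    rw [h1, ← h3]
    ring
  have hsS : s ∈ S := hα
  have hSC : S = Cen s := by
    by_contra hne
    have hle := hcenS s hsS hs
    have hlt : Nat.card (Cen s) < Nat.card S := by
      by_contra hge
      push Not at hge
      exact hne (Subgroup.eq_of_le_of_card_ge hle hge).symm
    -- an element not conjugate into `Cen s`
    obtain ⟨s1, hs1, hs1n⟩ : ∃ s1 : S, s1 ≠ 1 ∧ ¬ ∃ g : S, g⁻¹ * s1 * g ∈ (Cen s).subgroupOf S := by
      by_contra hcon
      push Not at hcon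
      have h1 : Nat.card {y : S // y ≠ 1 ∧ ∃ g : S, g⁻¹ * y * g ∈ (Cen s).subgroupOf S} + 1 = Nat.card S := by
        rw [← Finite.card_option]
        refine Nat.card_congr (Equiv.ofBijective (fun o => match o with | none => (1 : S) | some a => a.1) ⟨?_, ?_⟩)
        · rintro (_ | a) (_ | b) h
          · rfl
          · exact absurd h.symm b.2.1
          · exact absurd h a.2.1
          · congr 1; exact Subtype.ext h
        · intro a
          by_cases ha : a = 1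
          · exact ⟨none, ha.symm⟩
          · exact ⟨some ⟨a, ha, hcon a ha⟩, rfl⟩
      have h2 := hcount s hsS hs
      have h5 := hsize s hsS hs
      generalize Nat.card {y : S // y ≠ 1 ∧ ∃ g : S, g⁻¹ * y * g ∈ (Cen s).subgroupOf S} = n at h1 h2
      generalize Nat.card (Cen s) = c at h2 h5 hlt
      generalize Nat.card S = N at h1 h2 hlt
      obtain ⟨c', rfl⟩ : ∃ c', c = c' + 1 := ⟨c - 1, by omega⟩
      rw [show c' + 1 - 1 = c' from rfl, ← h1] at h2
      nlinarith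
    have hs1' : (s1 : Cfsg.Sz F m) ≠ 1 := fun h => hs1 (Subtype.ext h)
    have c1 := hcount s hsS hs
    have c2 := hcount s1 s1.2 hs1'
    have h5 := hsize s hsS hs
    have h6 := hsize s1 s1.2 hs1'
    -- disjointness
    have hdisj : Nat.card {y : S // y ≠ 1 ∧ ∃ g : S, g⁻¹ * y * g ∈ (Cen s).subgroupOf S} +
        Nat.card {y : S // y ≠ 1 ∧ ∃ g : S, g⁻¹ * y * g ∈ (Cen (s1 : Cfsg.Sz F m)).subgroupOf S} ≤ Nat.card S := by
      rw [← Nat.card_sum]
      apply Nat.card_le_card_of_injective (fun x => match x with | Sum.inl a => a.1 | Sum.inr a => a.1)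
      have key : ∀ y : S, y ≠ 1 → (∃ g : S, g⁻¹ * y * g ∈ (Cen s).subgroupOf S) →
          (∃ g : S, g⁻¹ * y * g ∈ (Cen (s1 : Cfsg.Sz F m)).subgroupOf S) → False := by
        rintro y hy ⟨g, hg⟩ ⟨k, hk⟩
        apply hs1n
        -- conjugate
        have hg' : (g : Cfsg.Sz F m)⁻¹ * y * g ∈ Cen s := hg
        have hk' : (k : Cfsg.Sz F m)⁻¹ * y * k ∈ Cen (s1 : Cfsg.Sz F m) := hk
        have hy' : (y : Cfsg.Sz F m) ≠ 1 := fun h => hy (Subtype.ext h)
        obtain ⟨w, hw⟩ := htor s hsS hs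
        obtain ⟨w1, hw1⟩ := htor s1 s1.2 hs1'
        have e1 := D.cen_eq_of hw hg' (D.ne_one_of_conj hy')
        have e2 := D.cen_eq_of hw1 hk' (D.ne_one_of_conj hy')
        refine ⟨k⁻¹ * g, ?_⟩
        show ((k : Cfsg.Sz F m)⁻¹ * g)⁻¹ * (s1 : Cfsg.Sz F m) * ((k : Cfsg.Sz F m)⁻¹ * g) ∈ Cen s
        rw [← e1]
        have hs1c : (s1 : Cfsg.Sz F m) ∈ Cen ((k : Cfsg.Sz F m)⁻¹ * (y : Cfsg.Sz F m) * (k : Cfsg.Sz F m)) := by rw [e2]; exact mem_cen.2 rfl
        have h7 := mem_cen.1 hs1c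
        apply mem_cen.2
        calc (g : Cfsg.Sz F m)⁻¹ * y * g * (((k : Cfsg.Sz F m)⁻¹ * g)⁻¹ * (s1 : Cfsg.Sz F m) * ((k : Cfsg.Sz F m)⁻¹ * g))
            = (g : Cfsg.Sz F m)⁻¹ * k * (((k : Cfsg.Sz F m)⁻¹ * y * k) * (s1 : Cfsg.Sz F m)) * (k : Cfsg.Sz F m)⁻¹ * g := by group
          _ = (g : Cfsg.Sz F m)⁻¹ * k * ((s1 : Cfsg.Sz F m) * ((k : Cfsg.Sz F m)⁻¹ * y * k)) * (k : Cfsg.Sz F m)⁻¹ * g := by rw [h7]
          _ = _ := by group
      rintro (⟨a, ha1, ha2⟩ | ⟨a, ha1, ha2⟩) (⟨b, hb1, hb2⟩ | ⟨b, hb1, hb2⟩) hab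
      · have : a = b := hab
        subst this; rfl
      · exfalso
        have : a = b := hab
        subst this
        exact key a ha1 ha2 hb2
      · exfalso
        have : a = b := hab
        subst this
        exact key a ha1 hb2 ha2
      · have : a = b := hab
        subst this; rfl
    have hpos : 0 < Nat.card S := Nat.card_pos
    generalize Nat.card {y : S // y ≠ 1 ∧ ∃ g : S, g⁻¹ * y * g ∈ (Cen s).subgroupOf S} = n1 at c1 hdisj
    generalize Nat.card {y : S // y ≠ 1 ∧ ∃ g : S, g⁻¹ * y * g ∈ (Cen (s1 : Cfsg.Sz F m)).subgroupOf S} = n2 at c2 hdisj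
    generalize Nat.card (Cen s) = a at c1 h5 hlt
    generalize Nat.card (Cen (s1 : Cfsg.Sz F m)) = b at c2 h6
    generalize Nat.card S = N at c1 c2 hdisj hpos hlt
    obtain ⟨a', rfl⟩ : ∃ a', a = a' + 5 := ⟨a - 5, by omega⟩
    obtain ⟨b', rfl⟩ : ∃ b', b = b' + 5 := ⟨b - 5, by omega⟩
    rw [show a' + 5 - 1 = a' + 4 from rfl] at c1
    rw [show b' + 5 - 1 = b' + 4 from rfl] at c2
    have g1 : 4 * N ≤ 5 * n1 := by
      by_contra hlt'
      push Not at hlt'
      have : n1 * 5 * (a' + 5) < 4 * N * (a' + 5) := Nat.mul_lt_mul_of_pos_right (by omega) (by omega)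
      nlinarith [Nat.zero_le (N * a')]
    have g2 : 4 * N ≤ 5 * n2 := by
      by_contra hlt'
      push Not at hlt'
      have : n2 * 5 * (b' + 5) < 4 * N * (b' + 5) := Nat.mul_lt_mul_of_pos_right (by omega) (by omega)
      nlinarith [Nat.zero_le (N * b')]
    omega
  refine ⟨hSC, ?_⟩
  have hm1 : ∀ x, x ∈ Cen s → x • α = α := fun x hx => by
    have : x ∈ S := by rw [hSC]; exact hx
    exact this
  have hm2 : ∀ x : Cfsg.Sz F m, x • α = α → x ∈ Cen s := fun x hx => by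
    have : x ∈ S := hx
    rw [hSC] at this; exact this
  -- the normaliser acts on the fixed points of `s`
  have hN : Nat.card (Subgroup.normalizer (Cen s : Set (Cfsg.Sz F m))) ≤ 2 * Nat.card (Cen s) := by
    let f : (Subgroup.normalizer (Cen s : Set (Cfsg.Sz F m))) ⧸ (Cen s).subgroupOf (Subgroup.normalizer (Cen s : Set (Cfsg.Sz F m))) →
        {x : X // s • x = x} := Quotient.lift (fun n => ⟨(n : Cfsg.Sz F m) • α, by
          have h1 : (n : Cfsg.Sz F m)⁻¹ * s * n ∈ Cen s := (Subgroup.mem_normalizer_iff''.1 n.2 s).1 (mem_cen.2 rfl)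
          have h2 : ((n : Cfsg.Sz F m)⁻¹ * s * n) • α = α := hm1 _ h1
          have := congrArg (fun z => (n : Cfsg.Sz F m) • z) h2
          simpa [mul_smul] using this⟩) (by
        intro a b hab
        have h1 := QuotientGroup.leftRel_apply.1 hab
        have h2 : (a : Cfsg.Sz F m)⁻¹ * b ∈ Cen s := h1
        have h3 : ((a : Cfsg.Sz F m)⁻¹ * b) • α = α := hm1 _ h2
        apply Subtype.ext
        show (a : Cfsg.Sz F m) • α = (b : Cfsg.Sz F m) • α
        rw [mul_smul, inv_smul_eq_iff] at h3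
        exact h3.symm)
    have hf : Function.Injective f := by
      rintro ⟨a⟩ ⟨b⟩ h
      have h1 : (a : Cfsg.Sz F m) • α = (b : Cfsg.Sz F m) • α := congrArg Subtype.val h
      apply QuotientGroup.eq.2
      show (a : Cfsg.Sz F m)⁻¹ * b ∈ Cen s
      apply hm2
      rw [mul_smul, ← h1, inv_smul_smul]
    have h1 := (Nat.card_le_card_of_injective f hf).trans (hfix s hs)
    have h2 := ((Cen s).subgroupOf (Subgroup.normalizer (Cen s : Set (Cfsg.Sz F m)))).card_eq_card_quotient_mul_card_subgroup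
    rw [Nat.card_congr (Subgroup.subgroupOfEquivOfLe Subgroup.le_normalizer).toEquiv] at h2
    rw [h2]
    exact Nat.mul_le_mul_right _ h1
  rcases D.tor_cases hs with h | ⟨-, -, h⟩ | ⟨-, h, -⟩
  · exact absurd h (hnotU s hsS hs)
  · exact h
  · exfalso
    rw [h.norm] at hN
    have : 0 < Nat.card (Cen s) := Nat.card_pos
    omega

theorem final {X : Type*} [Finite X] [MulAction (Cfsg.Sz F m) X] [MulAction.IsPretransitive (Cfsg.Sz F m) X]
    (hfix : ∀ g : Cfsg.Sz F m, g ≠ 1 → Nat.card {x : X // g • x = x} ≤ 2)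
    (hex : ∃ g : Cfsg.Sz F m, g ≠ 1 ∧ Nat.card {x : X // g • x = x} = 2) :
    (Nat.card X = (2 ^ (2 * m + 1)) ^ 2 + 1 ∧ ∀ a b c d : X, a ≠ b → c ≠ d → ∃ g : Cfsg.Sz F m, g • a = c ∧ g • b = d) ∨
    (Nat.card X = (2 ^ (2 * m + 1)) ^ 2 * ((2 ^ (2 * m + 1)) ^ 2 + 1) ∧
      ∀ α : X, Nat.card (MulAction.stabilizer (Cfsg.Sz F m) α) = 2 ^ (2 * m + 1) - 1) := by
  classical
  obtain ⟨s, hs, hs2⟩ := hex
  have hnt : Nontrivial {x : X // s • x = x} := by
    rw [← Finite.one_lt_card_iff_nontrivial, hs2]; norm_num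
  obtain ⟨⟨α, hα⟩, ⟨α', hα'⟩, hne⟩ := hnt
  have hneX : α ≠ α' := fun h => hne (Subtype.ext h)
  by_cases hodd : ∀ t : Cfsg.Sz F m, t • α = α → t * t = 1 → t = 1
  · right
    obtain ⟨h1, h2⟩ := odd_case D hfix α hs hα hodd
    have hst : ∀ β : X, Nat.card (MulAction.stabilizer (Cfsg.Sz F m) β) = 2 ^ (2 * m + 1) - 1 := by
      intro β
      obtain ⟨g, rfl⟩ := MulAction.exists_smul_eq (Cfsg.Sz F m) α β
      rw [MulAction.stabilizer_smul_eq_stabilizer_map_conj, card_map_conj, h1, h2]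
    refine ⟨?_, hst⟩
    have h3 := Subgroup.card_mul_index (MulAction.stabilizer (Cfsg.Sz F m) α)
    rw [MulAction.index_stabilizer_of_transitive, hst, D.card_Sz] at h3
    have hq := D.q_ge
    apply Nat.eq_of_mul_eq_mul_left (show 0 < 2 ^ (2 * m + 1) - 1 by omega)
    rw [h3]; ring
  · left
    push Not at hodd
    obtain ⟨t, ht, htt, ht1⟩ := hodd
    obtain ⟨g, hg⟩ := D.conj_t0' htt ht1
    have hβ : D.t0 • (g • α) = g • α := by
      rw [← hg, mul_smul, inv_smul_smul, mul_smul, ht]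
    have hst := even_case D (hfix D.t0 D.t0_ne) (g • α) hβ (by
      obtain ⟨k, hk⟩ := MulAction.exists_smul_eq (Cfsg.Sz F m) (g • α) α
      obtain ⟨k', hk'⟩ := MulAction.exists_smul_eq (Cfsg.Sz F m) (g • α) α'
      by_contra hcon
      push Not at hcon
      exact hneX ((hk.symm.trans (hcon k)).trans ((hcon k').symm.trans hk')))
    set β := g • α with hβdef
    -- the equivariant map
    choose f hf using fun x : X => MulAction.exists_smul_eq (Cfsg.Sz F m) β x
    let φ : X → Dat.Om F m := fun x => f x • D.inf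
    have hstm : ∀ k : Cfsg.Sz F m, k • β = β ↔ k • D.inf = D.inf := by
      intro k
      have h1 : k ∈ MulAction.stabilizer (Cfsg.Sz F m) β ↔ k ∈ D.B := by rw [hst]
      exact h1
    have heq : ∀ (k : Cfsg.Sz F m) (x : X), φ (k • x) = k • φ x := by
      intro k x
      show f (k • x) • D.inf = k • (f x • D.inf)
      have h1 : ((f (k • x))⁻¹ * k * f x) • β = β := by
        rw [mul_smul, mul_smul, hf, inv_smul_eq_iff, hf]
      have h2 := (hstm _).1 h1
      rw [mul_smul, mul_smul, inv_smul_eq_iff] at h2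
      exact h2.symm
    have hφinj : Function.Injective φ := by
      intro x y hxy
      have h1 : f x • D.inf = f y • D.inf := hxy
      have h2 : ((f y)⁻¹ * f x) • D.inf = D.inf := by rw [mul_smul, h1, inv_smul_smul]
      have h3 := (hstm _).2 h2
      rw [mul_smul, hf, inv_smul_eq_iff, hf] at h3
      exact h3
    have hφβ : φ β = D.inf := (hstm _).1 (hf β)
    have hφsurj : Function.Surjective φ := by
      intro p
      obtain ⟨k, rfl⟩ := D.trans_inf p
      exact ⟨k • β, by rw [heq, hφβ]⟩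
    refine ⟨?_, ?_⟩
    · rw [Nat.card_congr (Equiv.ofBijective φ ⟨hφinj, hφsurj⟩), D.card_Om]
    · intro a b c d hab hcd
      have h2 := D.two_trans
      rw [MulAction.is_two_pretransitive_iff] at h2
      obtain ⟨k, hk1, hk2⟩ := h2 (fun h => hab (hφinj h)) (fun h => hcd (hφinj h))
      refine ⟨k, hφinj ?_, hφinj ?_⟩
      · rw [heq]; exact hk1
      · rw [heq]; exact hk2
end Aux

open Cfsg.Agent.H8.Suz Cfsg.Agent.H8.Suz.Dat Cfsg.Agent.H8.OddTor

/-- Let q = 2^{2m+1} ≥ 8 and let G be isomorphic to the Suzuki group Sz(q). If G acts faithfully and transitively on a finite set Ω with fixity 2 (every non-identity element fixes at most two points, and some fixes exactly two), then either |Ω| = q² + 1 and the action is 2-transitive, or |Ω| = q²(q² + 1) and the point stabilizers have order q − 1. -/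
theorem result {G : Type*} [Group G] [Finite G] (F : Type) [Field F] [Fintype F] (m : ℕ) (hm : 1 ≤ m) (hF : Fintype.card F = 2 ^ (2 * m + 1))
    (e : G ≃* ↥(Cfsg.Lie.Sz F (2 ^ (m + 1)))) {Ω : Type*} [Fintype Ω] [MulAction G Ω] [FaithfulSMul G Ω] (htr : MulAction.IsPretransitive G Ω)
    (hfix : ∀ g : G, g ≠ 1 → Nat.card (MulAction.fixedBy Ω g) ≤ 2) (hex : ∃ g : G, g ≠ 1 ∧ Nat.card (MulAction.fixedBy Ω g) = 2) :
    (Fintype.card Ω = Fintype.card F ^ 2 + 1 ∧ MulAction.IsMultiplyPretransitive G Ω 2) ∨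
    (Fintype.card Ω = Fintype.card F ^ 2 * (Fintype.card F ^ 2 + 1) ∧ ∀ α : Ω, Nat.card (MulAction.stabilizer G α) = Fintype.card F - 1) := by
  classical
  obtain ⟨D⟩ := exists_dat hm hF
  obtain ⟨e'⟩ := D.LieSz_equiv
  set φ := e.trans e' with hφ
  letI act : MulAction (Cfsg.Sz F m) Ω := MulAction.compHom Ω φ.symm.toMonoidHom
  have hact : ∀ (g : Cfsg.Sz F m) (x : Ω), g • x = φ.symm g • x := fun _ _ => rfl
  have : MulAction.IsPretransitive (Cfsg.Sz F m) Ω := by
    refine ⟨fun x y => ?_⟩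
    obtain ⟨g, hg⟩ := MulAction.exists_smul_eq G x y
    exact ⟨φ g, by rw [hact, φ.symm_apply_apply, hg]⟩
  have h1 : ∀ g : Cfsg.Sz F m, g ≠ 1 → Nat.card {x : Ω // g • x = x} ≤ 2 := by
    intro g hg
    exact hfix (φ.symm g) (fun h => hg (by rw [← φ.apply_symm_apply g, h, map_one]))
  have h2 : ∃ g : Cfsg.Sz F m, g ≠ 1 ∧ Nat.card {x : Ω // g • x = x} = 2 := by
    obtain ⟨g, hg, hg2⟩ := hex
    refine ⟨φ g, fun h => hg (by rw [← φ.symm_apply_apply g, h, map_one]), ?_⟩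
    have : (fun x : Ω => (φ g) • x = x) = (fun x => g • x = x) := by
      funext x; rw [hact, φ.symm_apply_apply]
    rw [← hg2]
    show Nat.card {x : Ω // (φ g) • x = x} = Nat.card {x : Ω // g • x = x}
    exact Nat.card_congr (Equiv.subtypeEquivRight (fun x => by rw [hact, φ.symm_apply_apply]))
  rw [hF]
  rw [← Nat.card_eq_fintype_card]
  rcases final D h1 h2 with ⟨h3, h4⟩ | ⟨h3, h4⟩
  · left
    refine ⟨h3, ?_⟩
    rw [MulAction.is_two_pretransitive_iff]
    intro a b c d hab hcd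
    obtain ⟨g, hg1, hg2⟩ := h4 a b c d hab hcd
    exact ⟨φ.symm g, hg1, hg2⟩
  · right
    refine ⟨h3, fun α => ?_⟩
    rw [← h4 α]
    refine Nat.card_congr (Equiv.subtypeEquiv φ.toEquiv (fun g => ?_))
    show g • α = α ↔ (φ g) • α = α
    rw [hact, φ.symm_apply_apply]

end Cfsg.Agent.S3391
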