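import Cfsg.Statements.S3511
import Mathlib
import Cfsg.Agent.H8.Basic

set_option autoImplicit false
open Cfsg

namespace Cfsg.Agent.S3511

/-- Let a finite group G act faithfully on a set Ω. If every element of G of square-free order has a regular cycle (an orbit of the cyclic group it generates with trivial stabilizer), then every element of G has a regular cycle. -/
theorem result {G : Type*} [Group G] [Finite G] {Ω : Type*} [MulAction G Ω] [FaithfulSMul G Ω]
    (h : ∀ g : G, Squarefree (orderOf g) → ∃ ω : Ω, MulAction.stabilizer (Subgroup.zpowers g) ω = ⊥) (g : G) :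
    ∃ ω : Ω, MulAction.stabilizer (Subgroup.zpowers g) ω = ⊥ := by
  classical
  obtain ⟨n, hn⟩ : ∃ n, n = orderOf g := ⟨_, rfl⟩
  have hn0 : 0 < n := by rw [hn]; exact orderOf_pos g
  set r : ℕ := UniqueFactorizationMonoid.radical n with hr
  have hrn : r ∣ n := UniqueFactorizationMonoid.radical_dvd_self
  obtain ⟨m, hm⟩ := hrn
  have hm0 : m ≠ 0 := by rintro rfl; simp at hm; omega
  have hr0 : r ≠ 0 := by rintro h0; rw [h0] at hm; simp at hm; omega
  have hord : orderOf (g ^ m) = r := by
    rw [orderOf_pow' g hm0, ← hn, hm, Nat.gcd_comm]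
    have : Nat.gcd m (r * m) = m := Nat.gcd_eq_left (Dvd.intro_left r rfl)
    rw [this, Nat.mul_div_cancel _ (Nat.pos_of_ne_zero hm0)]
  obtain ⟨ω, hω⟩ := h (g ^ m) (by
    rw [hord]
    exact UniqueFactorizationMonoid.squarefree_radical)
  refine ⟨ω, ?_⟩
  by_contra hne
  -- take an element of prime order in the stabilizer
  have : Nontrivial (MulAction.stabilizer (Subgroup.zpowers g) ω) := (Subgroup.nontrivial_iff_ne_bot _).2 hne
  obtain ⟨p, hp, hpd⟩ := Nat.exists_prime_and_dvd (n := Nat.card (MulAction.stabilizer (Subgroup.zpowers g) ω)) (by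
    have := Finite.one_lt_card (α := MulAction.stabilizer (Subgroup.zpowers g) ω); omega)
  have : Fact p.Prime := ⟨hp⟩
  obtain ⟨c, hc⟩ := exists_prime_orderOf_dvd_card' (G := MulAction.stabilizer (Subgroup.zpowers g) ω) p hpd
  have hc' : orderOf (c : Subgroup.zpowers g) = p := by rw [Subgroup.orderOf_coe, hc]
  have hpn : p ∣ n := by
    rw [hn, ← Nat.card_zpowers, ← hc']
    exact orderOf_dvd_natCard _
  have hpr : p ∣ r := by
    rw [hr]
    exact (UniqueFactorizationMonoid.dvd_radical_iff_of_irreducible hp.prime.irreducible (by omega)).2 hpn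
  -- the subgroup of order p of zpowers g is contained in zpowers (g^m)
  let gm : Subgroup.zpowers g := ⟨g ^ m, ⟨m, by simp⟩⟩
  have hgm : orderOf gm = r := by rw [← Subgroup.orderOf_coe]; exact hord
  have hz : Subgroup.zpowers (c : Subgroup.zpowers g) = Subgroup.zpowers (gm ^ (r / p)) := by
    apply Cfsg.Agent.H8.Basic.cyclic_subgroup_eq
    have h5 : orderOf (gm ^ (r / p)) = p := by
      have := orderOf_pow_orderOf_div (x := gm) (n := p) (by rw [hgm]; exact hr0) (by rw [hgm]; exact hpr)
      rwa [hgm] at this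
    rw [Nat.card_zpowers, Nat.card_zpowers, hc', h5]
  have hcm : (c : Subgroup.zpowers g) ∈ Subgroup.zpowers gm := by
    have h1 : (c : Subgroup.zpowers g) ∈ Subgroup.zpowers (gm ^ (r / p)) := by
      rw [← hz]; exact Subgroup.mem_zpowers _
    exact (Subgroup.zpowers_le.2 (Subgroup.npow_mem_zpowers gm _)) h1
  obtain ⟨j, hj⟩ := hcm
  have hfix : ((c : Subgroup.zpowers g) : G) • ω = ω := c.2
  have hcG : (((c : Subgroup.zpowers g)) : G) = (g ^ m) ^ j := by
    have := congrArg (Subtype.val) hj
    simpa [gm] using this.symm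
  have hmem : (⟨(g ^ m) ^ j, ⟨j, rfl⟩⟩ : Subgroup.zpowers (g ^ m)) ∈
      MulAction.stabilizer (Subgroup.zpowers (g ^ m)) ω := by
    change ((g ^ m) ^ j) • ω = ω
    rw [← hcG]; exact hfix
  rw [hω, Subgroup.mem_bot] at hmem
  have h1 : (g ^ m) ^ j = 1 := congrArg Subtype.val hmem
  have h2 : (c : Subgroup.zpowers g) = 1 := by
    apply Subtype.ext
    rw [hcG, h1]; rfl
  rw [h2, orderOf_one] at hc'
  exact hp.one_lt.ne hc'

end Cfsg.Agent.S3511
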