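import Cfsg.Statements.S3524
-- import your own Cfsg.Agent.* helpers here

set_option autoImplicit false
open Cfsg

namespace Cfsg.Agent.S3524

/-- A permutation group with a base is closed at one level above the base size. Let G be a group of permutations of a set Ω and suppose some k points α₁, …, α_k are fixed simultaneously only by the identity of G (a base of size k). Then G is (k+1)-closed: a permutation of Ω that agrees on every (k+1)-tuple of points with some element of G belongs to G. -/
theorem result {Ω : Type*} (G : Subgroup (Equiv.Perm Ω)) (k : ℕ) (α : Fin k → Ω)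
    (hbase : ∀ g ∈ G, (∀ i, g (α i) = α i) → g = 1) (σ : Equiv.Perm Ω)
    (hσ : ∀ t : Fin (k + 1) → Ω, ∃ g ∈ G, ∀ i, σ (t i) = g (t i)) : σ ∈ G := by
  rcases isEmpty_or_nonempty Ω with hE | ⟨⟨ω₀⟩⟩
  · have : σ = 1 := by ext ω; exact (hE.false ω).elim
    rw [this]; exact G.one_mem
  · choose f hfG hf using fun ω : Ω => hσ (Fin.snoc α ω)
    have key : ∀ ω, f ω = f ω₀ := by
      intro ω
      have := hbase ((f ω₀)⁻¹ * f ω) (G.mul_mem (G.inv_mem (hfG ω₀)) (hfG ω)) (by
        intro i
        have h1 := hf ω (Fin.castSucc i)
        have h2 := hf ω₀ (Fin.castSucc i)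
        simp only [Fin.snoc_castSucc] at h1 h2
        simp only [Equiv.Perm.coe_mul, Function.comp_apply]
        rw [← h1, h2]
        simp)
      exact (inv_mul_eq_one.mp this).symm
    have : σ = f ω₀ := by
      ext ω
      have h1 := hf ω (Fin.last k)
      simp only [Fin.snoc_last] at h1
      rw [h1, key]
    rw [this]; exact hfG ω₀

end Cfsg.Agent.S3524
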