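import Cfsg.Statements.S3547
import Cfsg.Agent.Lib.Derange

set_option autoImplicit false
open Cfsg

namespace Cfsg.Agent.S3547

open Cfsg.Agent.Lib.Derange

/-- Let G act faithfully and transitively on a finite set Ω, let D be the subgroup generated by the derangements, and let r_G and r_D be the numbers of orbits of G and of D on ordered pairs of points (the permutation ranks). Then r_D − 1 = (r_G − 1)·[G : D]. -/
theorem result {G Ω : Type*} [Group G] [Finite G] [MulAction G Ω] [FaithfulSMul G Ω] [Finite Ω]
    (htrans : MulAction.IsPretransitive G Ω) :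
    Nat.card (MulAction.orbitRel.Quotient ↥(Subgroup.closure {g : G | ∀ ω : Ω, g • ω ≠ ω}) (Ω × Ω)) - 1 =
      (Nat.card (MulAction.orbitRel.Quotient G (Ω × Ω)) - 1) * (Subgroup.closure {g : G | ∀ ω : Ω, g • ω ≠ ω}).index := by
  rcases isEmpty_or_nonempty Ω with he | he
  · have h1 : ∀ H : Subgroup G, Nat.card (MulAction.orbitRel.Quotient H (Ω × Ω)) = 0 := by
      intro H
      haveI : IsEmpty (MulAction.orbitRel.Quotient H (Ω × Ω)) :=
        ⟨fun q => Quotient.inductionOn q fun x => he.elim x.1⟩
      exact Nat.card_of_isEmpty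
    have h2 : Nat.card (MulAction.orbitRel.Quotient G (Ω × Ω)) = 0 := by
      haveI : IsEmpty (MulAction.orbitRel.Quotient G (Ω × Ω)) :=
        ⟨fun q => Quotient.inductionOn q fun x => he.elim x.1⟩
      exact Nat.card_of_isEmpty
    rw [h1, h2]
    simp
  · exact rank_formula (DS_key (G := G) (Ω := Ω)).2

end Cfsg.Agent.S3547
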