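import Cfsg.Statements.S3639
import Mathlib
import Cfsg.Agent.H8.SuzLie
import Cfsg.Agent.H8.SuzFix
import Cfsg.Agent.H8.PrimeGraph

set_option autoImplicit false
open Cfsg

namespace Cfsg.Agent.S3639

open Matrix in
/-- The action on `F⁴`. -/
def rep {F : Type*} [Field F] (m : ℕ) : ↥(Cfsg.Sz F m) →* MulAut (Multiplicative (Fin 4 → F)) where
  toFun g := AddEquiv.toMultiplicative {
    toFun := fun v => g.1.1 *ᵥ v
    invFun := fun v => (g⁻¹).1.1 *ᵥ v
    left_inv := fun v => by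
      show (g⁻¹).1.1 *ᵥ (g.1.1 *ᵥ v) = v
      rw [Matrix.mulVec_mulVec]
      have : (g⁻¹).1.1 * g.1.1 = 1 := by
        have := congrArg (fun x : ↥(Cfsg.Sz F m) => x.1.1) (inv_mul_cancel g)
        exact this
      rw [this, Matrix.one_mulVec]
    right_inv := fun v => by
      show g.1.1 *ᵥ ((g⁻¹).1.1 *ᵥ v) = v
      rw [Matrix.mulVec_mulVec]
      have : g.1.1 * (g⁻¹).1.1 = 1 := by
        have := congrArg (fun x : ↥(Cfsg.Sz F m) => x.1.1) (mul_inv_cancel g)
        exact this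
      rw [this, Matrix.one_mulVec]
    map_add' := fun v w => Matrix.mulVec_add _ _ _ }
  map_one' := by
    refine MulEquiv.ext fun v => ?_
    show Multiplicative.ofAdd ((1 : ↥(Cfsg.Sz F m)).1.1 *ᵥ (Multiplicative.toAdd v)) = v
    have : (1 : ↥(Cfsg.Sz F m)).1.1 = 1 := rfl
    rw [this, Matrix.one_mulVec]; rfl
  map_mul' g h := by
    refine MulEquiv.ext fun v => ?_
    show Multiplicative.ofAdd ((g * h).1.1 *ᵥ (Multiplicative.toAdd v)) =
      Multiplicative.ofAdd (g.1.1 *ᵥ (h.1.1 *ᵥ (Multiplicative.toAdd v)))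
    rw [Matrix.mulVec_mulVec]; rfl

/-- Let S be the Suzuki group over the field with q = 2^(2m+1) ≥ 8 elements. Then there are finite groups of arbitrarily large order with the same prime graph as S. -/
theorem result {F : Type*} [Field F] [Fintype F] {m : ℕ} (hm : 1 ≤ m) (hF : Fintype.card F = 2 ^ (2 * m + 1)) (N : ℕ) :
    ∃ (H : Type) (_ : Group H) (_ : Fintype H), N < Fintype.card H ∧ ((∀ r : ℕ, r.Prime → (r ∣ Nat.card ↥(Cfsg.Lie.Sz F (2 ^ (m + 1))) ↔ r ∣ Nat.card H)) ∧
      (∀ r s : ℕ, r.Prime → s.Prime → r ≠ s → ((∃ x : ↥(Cfsg.Lie.Sz F (2 ^ (m + 1))), orderOf x = r * s) ↔ (∃ y : H, orderOf y = r * s)))) := by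
  obtain ⟨D⟩ := Cfsg.Agent.H8.Suz.exists_dat hm hF
  have hchar := D.char
  obtain ⟨e⟩ := D.LieSz_equiv
  obtain ⟨H, i1, i2, hN, hS⟩ := Cfsg.Agent.H8.PrimeGraph.exists_large (rep (F := F) m) 2 Nat.prime_two
    (by
      intro v
      show Multiplicative.ofAdd (2 • Multiplicative.toAdd v) = 1
      have : 2 • Multiplicative.toAdd v = 0 := by
        funext i
        show 2 • (Multiplicative.toAdd v) i = 0
        rw [two_nsmul]; exact CharTwo.add_self_eq_zero _
      rw [this]; rfl)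
    (by
      rw [D.card_Sz]
      exact Dvd.dvd.mul_right (Dvd.dvd.mul_right (dvd_pow (dvd_pow_self 2 (by omega)) (by norm_num)) _) _)
    (by
      intro g s hs hs2 hg v hv
      have h1 : g.1.1.mulVec (Multiplicative.toAdd v) = Multiplicative.toAdd v := congrArg Multiplicative.toAdd hv
      have h2 := D.fixed_vec hs hs2 hg h1
      exact congrArg Multiplicative.ofAdd h2) N
  have hfin := (Cfsg.Agent.H8.PrimeGraph.Same.of_equiv e).trans hS
  exact ⟨H, i1, i2, hN, hfin.1, hfin.2⟩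

end Cfsg.Agent.S3639
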