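import Cfsg.Statements.S3683


set_option autoImplicit false
open Cfsg

namespace Cfsg.Agent.S3683

/-- Let a finite group G act faithfully and primitively on a set Ω, and suppose the stabilizer of a point a fixes a second point b ≠ a (a suborbit of length 1 other than {a}). Then the stabilizer of a is trivial and G is cyclic of prime order. -/
theorem result {G Ω : Type*} [Group G] [Finite G] [MulAction G Ω] [FaithfulSMul G Ω] [Finite Ω]
    (hprim : MulAction.IsPreprimitive G Ω) (a b : Ω) (hab : a ≠ b) (hfix : ∀ g : G, g • a = a → g • b = b) :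
    MulAction.stabilizer G a = ⊥ ∧ IsCyclic G ∧ (Nat.card G).Prime := by
  have hnt : Nontrivial Ω := ⟨a, b, hab⟩
  have hca : IsCoatom (MulAction.stabilizer G a) := MulAction.IsPreprimitive.isCoatom_stabilizer_of_isPreprimitive G a
  have hcb : IsCoatom (MulAction.stabilizer G b) := MulAction.IsPreprimitive.isCoatom_stabilizer_of_isPreprimitive G b
  have hle : MulAction.stabilizer G a ≤ MulAction.stabilizer G b := fun g hg => hfix g hg
  have heq : MulAction.stabilizer G a = MulAction.stabilizer G b := by
    rcases hle.eq_or_lt with h | h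
    · exact h
    · exact absurd (hca.2 _ h) hcb.1
  obtain ⟨g, hg⟩ := MulAction.exists_smul_eq G a b
  have hgN : g ∈ Subgroup.normalizer (MulAction.stabilizer G a : Set G) := by
    rw [Subgroup.mem_normalizer_iff]
    intro h
    conv_rhs => rw [heq]
    rw [MulAction.mem_stabilizer_iff, MulAction.mem_stabilizer_iff, ← hg, mul_smul, mul_smul, inv_smul_smul]
    constructor
    · intro h1; rw [h1]
    · intro h1; exact smul_left_cancel g h1
  have hlt : MulAction.stabilizer G a < Subgroup.normalizer (MulAction.stabilizer G a : Set G) := by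
    refine lt_of_le_of_ne Subgroup.le_normalizer fun h => ?_
    rw [← h, MulAction.mem_stabilizer_iff, hg] at hgN
    exact hab hgN.symm
  have hN : (MulAction.stabilizer G a).Normal := Subgroup.normalizer_eq_top_iff.mp (hca.2 _ hlt)
  have hbot : MulAction.stabilizer G a = ⊥ := by
    rw [eq_bot_iff]
    intro h hh
    rw [Subgroup.mem_bot]
    apply eq_of_smul_eq_smul (α := Ω)
    intro c
    obtain ⟨k, rfl⟩ := MulAction.exists_smul_eq G a c
    have h1 := hN.conj_mem h hh k⁻¹
    rw [MulAction.mem_stabilizer_iff, inv_inv, mul_smul, mul_smul] at h1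
    rw [one_smul]
    have h2 := congrArg (fun z => k • z) h1
    simpa using h2
  rw [hbot] at hca
  have htop : ∀ x : G, x ≠ 1 → Subgroup.zpowers x = ⊤ := by
    intro x hx
    apply hca.2
    rw [bot_lt_iff_ne_bot, Ne, Subgroup.zpowers_eq_bot]
    exact hx
  have hntG : Nontrivial G := by
    by_contra hno
    rw [not_nontrivial_iff_subsingleton] at hno
    exact hca.1 (Subsingleton.elim _ _)
  obtain ⟨x, hx⟩ := exists_ne (1 : G)
  have hcyc : IsCyclic G := ⟨x, fun y => by have h9 := Subgroup.mem_top y; rw [← htop x hx] at h9; exact h9⟩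
  refine ⟨hbot, hcyc, ?_⟩
  have hc1 : Nat.card G ≠ 1 := Finite.one_lt_card.ne'
  have hpr := Nat.minFac_prime hc1
  haveI : Fact (Nat.card G).minFac.Prime := ⟨hpr⟩
  obtain ⟨y, hy⟩ := exists_prime_orderOf_dvd_card' (Nat.card G).minFac (Nat.minFac_dvd (Nat.card G))
  have hy1 : y ≠ 1 := by
    rintro rfl
    rw [orderOf_one] at hy
    exact hpr.one_lt.ne hy
  have h3 : Nat.card ↥(Subgroup.zpowers y) = (Nat.card G).minFac := by rw [Nat.card_zpowers, hy]
  rw [htop y hy1, Subgroup.card_top] at h3
  rw [h3]; exact hpr

end Cfsg.Agent.S3683
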