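import Cfsg.Statements.S3802
import Cfsg.Agent.Lib.PiCore
import Cfsg.Agent.Lib.Components

set_option autoImplicit false
open Cfsg

namespace Cfsg.Agent.S3802

open Subgroup
universe u
theorem aux (n : ℕ) : ∀ (G : Type u) [Group G] [Finite G], Nat.card G ≤ n →
    ∀ M N : Subgroup G, IsCoatom M → N.IsSubnormal → N ≤ M → N ≤ M.normalCore := by
  induction n with
  | zero =>
    intro G _ _ h
    exact absurd h (by have := Nat.card_pos (α := G); omega)
  | succ n ih =>
    intro G _ _ hcard M N hM hN hNM
    classical
    -- `K` = normal closure of `N`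
    have hNt : N ≠ ⊤ := fun h => hM.1 (top_le_iff.1 (h ▸ hNM))
    set K := normalClosure (N : Set G) with hK
    have hKt : K ≠ ⊤ := Lib.Components.le_normal_closure_ne_top hN hNt
    have hKn : K.Normal := normalClosure_normal
    have hNK : N ≤ K := le_normalClosure
    by_cases hKM : K ≤ M
    · exact hNK.trans (normal_le_normalCore.2 hKM)
    exfalso
    apply hKM
    -- K M = G
    have hcK : Nat.card K ≤ n := by have := Lib.Basic.card_lt_of_ne_top hKt; omega
    have hKM' : K ⊔ M = ⊤ := by
      rcases hM.le_iff.1 (le_sup_right : M ≤ K ⊔ M) with h | h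
      · exact h
      · exact absurd (h ▸ le_sup_left) hKM
    -- maximal subgroups `U` of `K` containing `T = K ⊓ M`
    let S : Set (Subgroup K) := {U | IsCoatom U ∧ M.subgroupOf K ≤ U}
    let W : Subgroup K := ⨅ U ∈ S, U.normalCore
    have hWn : W.Normal := by
      refine normal_iInf_normal fun U => normal_iInf_normal fun _ => inferInstance
    have hNW : N.subgroupOf K ≤ W := by
      refine le_iInf₂ fun U hU => ?_
      exact ih K hcK U (N.subgroupOf K) hU.1 hN.subgroupOf
        ((subgroupOf_mono K hNM).trans hU.2)
    have hWt : W ≠ ⊤ := by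
      have h0 : M.subgroupOf K = ⊤ ∨ ∃ U, IsCoatom U ∧ M.subgroupOf K ≤ U :=
        eq_top_or_exists_le_coatom (M.subgroupOf K)
      obtain ⟨U, hU, hle⟩ := h0.resolve_left (fun h => hKM (subgroupOf_eq_top.1 h))
      intro h
      have : W ≤ U := (iInf₂_le U ⟨hU, hle⟩).trans (normalCore_le U)
      rw [h] at this
      exact hU.1 (top_le_iff.1 this)
    -- `W` is normalized by `M`
    have hWG : (W.map K.subtype).Normal := by
      rw [← normalizer_eq_top_iff, eq_top_iff, ← hKM', sup_le_iff]
      constructor
      · intro k hk
        rw [mem_normalizer_iff]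
        intro x
        constructor
        · rintro ⟨y, hy, rfl⟩
          exact ⟨⟨k, hk⟩ * y * ⟨k, hk⟩⁻¹, hWn.conj_mem y hy _, rfl⟩
        · rintro ⟨y, hy, hyx⟩
          have h2 : x = k⁻¹ * (y : G) * k := by
            have : (y : G) = k * x * k⁻¹ := hyx
            rw [this]; group
          refine ⟨⟨k, hk⟩⁻¹ * y * ⟨k, hk⟩, ?_, by rw [h2]; rfl⟩
          have := hWn.conj_mem y hy (⟨k, hk⟩⁻¹)
          rwa [inv_inv] at this
      · -- conj by m gives an automorphism of K permuting S
        have key : ∀ m ∈ M, ∀ w ∈ W, ∀ hmw : m * (w : G) * m⁻¹ ∈ K, (⟨m * w * m⁻¹, hmw⟩ : K) ∈ W := by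
          intro m hm w hw hmw
          rw [mem_iInf] 
          intro U
          rw [mem_iInf]
          intro hU
          -- the automorphism
          let φ : K ≃* K := MulAut.conjNormal m
          have hU' : U.comap φ.toMonoidHom ∈ S := by
            constructor
            · exact (OrderIso.isCoatom_iff (φ.symm.mapSubgroup) U).2 hU.1 |> fun h => by
                have h2 : (φ.symm.mapSubgroup) U = U.comap φ.toMonoidHom := by
                  ext x
                  constructor
                  · rintro ⟨y, hy, rfl⟩
                    show φ (φ.symm y) ∈ U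
                    rw [MulEquiv.apply_symm_apply]; exact hy
                  · intro hx
                    exact ⟨φ x, hx, MulEquiv.symm_apply_apply _ _⟩
                rwa [h2] at h
            · intro x hx
              apply hU.2
              rw [mem_subgroupOf] at hx ⊢
              show m * (x : G) * m⁻¹ ∈ M
              exact M.mul_mem (M.mul_mem hm hx) (M.inv_mem hm)
          have hw' : w ∈ (U.comap φ.toMonoidHom).normalCore := by
            have := (mem_iInf.1 ((mem_iInf.1 hw) (U.comap φ.toMonoidHom))) hU'
            exact this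
          intro g
          have := hw' (φ.symm g)
          have h3 : φ (φ.symm g * w * (φ.symm g)⁻¹) ∈ U := this
          rw [map_mul, map_mul, map_inv, MulEquiv.apply_symm_apply] at h3
          exact h3
        intro m hm
        rw [mem_normalizer_iff]
        intro x
        constructor
        · rintro ⟨y, hy, rfl⟩
          exact ⟨⟨m * y * m⁻¹, hKn.conj_mem _ y.2 _⟩, key m hm y hy _, rfl⟩
        · rintro ⟨y, hy, hyx⟩
          have h2 : x = m⁻¹ * (y : G) * m := by
            have : (y : G) = m * x * m⁻¹ := hyx
            rw [this]; group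
          have h3 : m⁻¹ * (y : G) * m⁻¹⁻¹ ∈ K := hKn.conj_mem _ y.2 _
          refine ⟨⟨_, h3⟩, key m⁻¹ (M.inv_mem hm) y hy h3, ?_⟩
          rw [h2]; simp
    have h5 : K ≤ W.map K.subtype := by
      refine normalClosure_le_normal ?_
      intro x hx
      exact ⟨⟨x, hNK hx⟩, hNW (by rw [mem_subgroupOf]; exact hx), rfl⟩
    exfalso
    apply hWt
    rw [eq_top_iff]
    intro k _
    obtain ⟨y, hy, hyk⟩ := h5 k.2
    have : y = k := Subtype.ext hyk
    rw [← this]; exact hy

/-- Let G be a finite group, M a maximal subgroup of G and N a subnormal subgroup of G contained in M. Then N is contained in every conjugate of M, that is, N lies in the core of M in G. -/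
theorem result {G : Type*} [Group G] [Finite G] (M N : Subgroup G) (hM : IsCoatom M) (hN : N.IsSubnormal) (hNM : N ≤ M) :
    N ≤ Subgroup.normalCore M := by
  exact aux (Nat.card G) G le_rfl M N hM hN hNM

end Cfsg.Agent.S3802
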