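import Cfsg.Statements.S3803
import Mathlib
import Cfsg.Agent.Lib.OmegaFix
import Cfsg.Agent.Lib.Nilp
import Cfsg.Agent.Lib.Cyc
import Cfsg.Agent.Lib.Coprime

set_option autoImplicit false
open Cfsg

namespace Cfsg.Agent.S3803

open Subgroup Cfsg.Agent.Lib.Basic
open scoped commutatorElement Pointwise

theorem exists_between {X : Type*} [Group X] [Finite X] {p : ℕ} [Fact p.Prime] {P Q : Subgroup X} (hP : IsPGroup p P)
    (hQP : Q ≤ P) {b : ℕ} (h1 : Nat.card Q ≤ p ^ b) (h2 : p ^ b ≤ Nat.card P) :
    ∃ E : Subgroup X, Q ≤ E ∧ E ≤ P ∧ Nat.card E = p ^ b := by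
  have hp : p.Prime := Fact.out
  obtain ⟨a, ha⟩ := IsPGroup.iff_card.mp (hP.to_le hQP)
  obtain ⟨c, hc⟩ := IsPGroup.iff_card.mp hP
  rw [ha] at h1
  rw [hc] at h2
  have hab : a ≤ b := (Nat.pow_le_pow_iff_right hp.one_lt).mp h1
  have hbc : b ≤ c := (Nat.pow_le_pow_iff_right hp.one_lt).mp h2
  obtain ⟨K, hK, hQK⟩ := Sylow.exists_subgroup_card_pow_prime_le (G := P) p (m := b) (by rw [hc]; exact pow_dvd_pow p hbc)
    (Q.subgroupOf P) (n := a) (by rw [Nat.card_congr (subgroupOfEquivOfLe hQP).toEquiv, ha]) hab
  refine ⟨K.map P.subtype, ?_, map_subtype_le _, ?_⟩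
  · intro x hx
    exact ⟨⟨x, hQP hx⟩, hQK hx, rfl⟩
  · rw [card_map_of_injective P.subtype_injective, hK]

/-- an element of odd order normalizing a cyclic group of order `2` or `4` centralizes it -/
theorem commute_of_four {X : Type*} [Group X] [Finite X] {a x : X} (ha : Odd (orderOf a))
    (hx : orderOf x = 2 ∨ orderOf x = 4) (hn : a ∈ normalizer (zpowers x : Set X)) : a * x = x * a := by
  have h1 : a * x * a⁻¹ ∈ zpowers x := (mem_normalizer_iff.mp hn x).mp (mem_zpowers x)
  have hox : orderOf (a * x * a⁻¹) = orderOf x := by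
    rw [← MulAut.conj_apply]
    exact MulEquiv.orderOf_eq (MulAut.conj a) x
  have h2 : a * x * a⁻¹ = x ∨ a * x * a⁻¹ = x⁻¹ := by
    rw [← mem_powers_iff_mem_zpowers, Submonoid.mem_powers_iff] at h1
    obtain ⟨n, hn⟩ := h1
    have h4 : x ^ 4 = 1 := by
      rcases hx with h | h
      · have := pow_orderOf_eq_one x
        rw [h] at this
        rw [show (4 : ℕ) = 2 * 2 from rfl, pow_mul, this, one_pow]
      · rw [← h]; exact pow_orderOf_eq_one x
    have h5 : x ^ n = x ^ (n % 4) := by
      conv_lhs => rw [← Nat.div_add_mod n 4, pow_add, pow_mul, h4, one_pow, one_mul]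
    rw [← hn] at hox ⊢
    rw [h5] at hox ⊢
    have h6 : n % 4 < 4 := Nat.mod_lt _ (by norm_num)
    interval_cases hm : n % 4
    · rw [pow_zero, orderOf_one] at hox
      omega
    · left; rw [pow_one]
    · -- x^2
      have h7 : (x ^ 2) ^ 2 = 1 := by rw [← pow_mul]; exact h4
      have h8 : orderOf x ∣ 2 := by rw [← hox]; exact orderOf_dvd_of_pow_eq_one h7
      have h9 : x ^ 2 = 1 := orderOf_dvd_iff_pow_eq_one.mp h8
      rw [h9, orderOf_one] at hox
      omega
    · right
      rw [eq_inv_iff_mul_eq_one, ← pow_succ]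
      exact h4
  rcases h2 with h2 | h2
  · exact mul_inv_eq_iff_eq_mul.mp h2
  · have h3 : a ^ 2 * x = x * a ^ 2 := by
      have : a ^ 2 * x * (a ^ 2)⁻¹ = x := by
        calc a ^ 2 * x * (a ^ 2)⁻¹ = a * (a * x * a⁻¹) * a⁻¹ := by rw [pow_two]; group
          _ = a * x⁻¹ * a⁻¹ := by rw [h2]
          _ = (a * x * a⁻¹)⁻¹ := by group
          _ = x := by rw [h2, inv_inv]
      exact mul_inv_eq_iff_eq_mul.mp this
    obtain ⟨k, hk⟩ := ha
    have h4 : a = (a ^ 2) ^ (k + 1) := by
      rw [← pow_mul, show 2 * (k + 1) = (2 * k + 1) + 1 by ring, pow_succ, ← hk, pow_orderOf_eq_one, one_mul]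
    rw [h4]
    exact ((show Commute (a ^ 2) x from h3).pow_left (k + 1))

/-- Let P be a 2-subgroup and A a subgroup of odd order of a finite group, with A normalizing P. Let D ≤ P with 1 < |D| < |P|. If every subgroup of P of order |D|, and also every subgroup of P of order 4 in case |D| = 2, is normalized by A, then A centralizes P. -/
theorem result {X : Type*} [Group X] [Finite X] (P A D : Subgroup X) (hP : IsPGroup 2 P) (hA : Odd (Nat.card A))
    (hAP : A ≤ Subgroup.normalizer (P : Set X)) (hDP : D ≤ P) (hD1 : 1 < Nat.card D) (hD2 : Nat.card D < Nat.card P)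
    (hinv : ∀ E : Subgroup X, E ≤ P → (Nat.card E = Nat.card D ∨ (Nat.card D = 2 ∧ Nat.card E = 4)) → A ≤ Subgroup.normalizer (E : Set X)) :
    A ≤ Subgroup.centralizer (P : Set X) := by
  have hcop : (Nat.card A).Coprime 2 := Nat.coprime_two_right.mpr hA
  have hodd : ∀ a ∈ A, Odd (orderOf a) := by
    intro a ha
    have := orderOf_dvd_natCard (⟨a, ha⟩ : A)
    rw [Subgroup.orderOf_mk] at this
    exact Odd.of_dvd_nat hA this
  obtain ⟨d, hd⟩ := IsPGroup.iff_card.mp (hP.to_le hDP)
  rw [hd] at hD1 hD2 hinv
  have hd0 : d ≠ 0 := by rintro rfl; norm_num at hD1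
  obtain ⟨c, hc⟩ := IsPGroup.iff_card.mp hP
  have hdc : d + 1 ≤ c := by
    rw [hc] at hD2
    exact (Nat.pow_lt_pow_iff_right (by norm_num)).mp hD2
  have key : ∀ n : ℕ, ∀ Q : Subgroup X, Q ≤ P → Nat.card Q ≤ n → A ≤ normalizer (Q : Set X) → A ≤ centralizer (Q : Set X) := by
    intro n
    induction n with
    | zero =>
      intro Q _ hQ
      have := Nat.card_pos (α := Q)
      omega
    | succ n ih =>
      intro Q hQP hQn hAQ
      rcases le_or_gt (Nat.card Q) (2 ^ d) with hle | hlt
      · obtain ⟨E, hQE, hEP, hE⟩ := exists_between hP hQP hle hD2.le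
        obtain ⟨F, hEF, hFP, hF⟩ := exists_between hP hEP (b := d + 1) (by rw [hE]; exact Nat.pow_le_pow_right (by norm_num) (by omega))
          (by rw [hc]; exact Nat.pow_le_pow_right (by norm_num) hdc)
        have hQF := hQE.trans hEF
        have hF2 : IsPGroup 2 F := hP.to_le hFP
        by_cases hFc : IsCyclic F
        · refine Cfsg.Agent.Lib.OmegaFix.omega_fix hcop (hP.to_le hQP) hAQ ?_
          intro x hx hxo a ha
          have hxo' : orderOf x = 2 ∨ orderOf x = 4 := by
            rcases hxo with h | h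
            · exact Or.inl h
            · exact Or.inr h.2
          refine commute_of_four (hodd a ha) hxo' ?_
          apply Cfsg.Agent.Lib.Coprime.mem_normalizer_of_conj_smul_eq
          have h1 : MulAut.conj a • zpowers x ≤ Q := by
            have h2 := Cfsg.Agent.Lib.Coprime.conj_smul_eq_of_mem_normalizer (hAQ ha)
            rw [← h2]
            exact pointwise_smul_le_pointwise_smul_iff.mpr (zpowers_le.mpr hx)
          have h3 : Nat.card (MulAut.conj a • zpowers x : Subgroup X) = Nat.card (zpowers x) := Cfsg.Agent.Lib.SchurZas.card_conj_smul a _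
          exact le_antisymm (Cfsg.Agent.Lib.Cyc.le_of_card_dvd_of_le hFc (h1.trans hQF) ((zpowers_le.mpr hx).trans hQF) (h3 ▸ dvd_rfl))
            (Cfsg.Agent.Lib.Cyc.le_of_card_dvd_of_le hFc ((zpowers_le.mpr hx).trans hQF) (h1.trans hQF) (h3 ▸ dvd_rfl))
        · -- all maximal subgroups of F are invariant
          have hmax : ∀ M : Subgroup F, IsCoatom M → A ≤ normalizer ((M.map F.subtype : Subgroup X) : Set X) ∧ M.index = 2 := by
            intro M hM
            have h1 := Cfsg.Agent.Lib.Nilp.index_eq_prime_of_coatom hF2 hM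
            refine ⟨hinv _ ((map_subtype_le _).trans hFP) (Or.inl ?_), h1⟩
            rw [card_map_of_injective F.subtype_injective]
            have h2 := M.card_mul_index
            rw [h1, hF, pow_succ] at h2
            exact Nat.eq_of_mul_eq_mul_right (by norm_num) h2
          have hAF : A ≤ normalizer (F : Set X) := by
            have h1 : ∀ a ∈ A, ∀ f ∈ F, a * f * a⁻¹ ∈ F := by
              intro a ha f hf
              have h2 : zpowers (⟨f, hf⟩ : F) ≠ ⊤ := by
                intro h
                exact hFc (Subgroup.isCyclic_iff_exists_zpowers_eq_top F |>.mpr ⟨f, by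
                  have := congrArg (Subgroup.map F.subtype) h
                  rw [MonoidHom.map_zpowers, ← MonoidHom.range_eq_map, range_subtype] at this
                  exact this⟩)
              obtain ⟨M, hM, hfM⟩ := exists_le_coatom h2
              have h3 : f ∈ M.map F.subtype := ⟨⟨f, hf⟩, hfM (mem_zpowers _), rfl⟩
              exact map_subtype_le _ ((mem_normalizer_iff.mp ((hmax M hM).1 ha) f).mp h3)
            intro a ha
            rw [mem_normalizer_iff]
            intro f
            refine ⟨h1 a ha f, fun h => ?_⟩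
            have h2 := h1 a⁻¹ (A.inv_mem ha) _ h
            have e : a⁻¹ * (a * f * a⁻¹) * a⁻¹⁻¹ = f := by group
            rwa [e] at h2
          have hAcF : A ≤ centralizer (F : Set X) := by
            refine Cfsg.Agent.Lib.Coprime.le_centralizer_of_frattini hAF ?_ ?_
            · obtain ⟨k, hk⟩ := IsPGroup.iff_card.mp (hF2.to_subgroup (frattini F))
              rw [hk]
              exact Nat.Coprime.pow_right _ hcop
            · intro a ha f hf
              have hafF : a * f * a⁻¹ ∈ F := (mem_normalizer_iff.mp (hAF ha) f).mp hf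
              refine ⟨⟨a * f * a⁻¹ * f⁻¹, F.mul_mem hafF (F.inv_mem hf)⟩, ?_, rfl⟩
              change _ ∈ Order.radical (Subgroup F)
              unfold Order.radical
              rw [mem_iInf]
              intro M
              rw [mem_iInf]
              intro hM
              obtain ⟨h1, h2⟩ := hmax M hM
              have h3 : (⟨a * f * a⁻¹, hafF⟩ : F) ∈ M ↔ (⟨f, hf⟩ : F) ∈ M := by
                have h4 := mem_normalizer_iff.mp (h1 ha) f
                constructor
                · intro h
                  obtain ⟨y, hy, hyf⟩ := h4.mpr ⟨_, h, rfl⟩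
                  have : y = ⟨f, hf⟩ := Subtype.ext hyf
                  exact this ▸ hy
                · intro h
                  obtain ⟨y, hy, hyf⟩ := h4.mp ⟨_, h, rfl⟩
                  have : y = ⟨a * f * a⁻¹, hafF⟩ := Subtype.ext hyf
                  exact this ▸ hy
              have h5 : (⟨a * f * a⁻¹ * f⁻¹, F.mul_mem hafF (F.inv_mem hf)⟩ : F) = ⟨a * f * a⁻¹, hafF⟩ * (⟨f, hf⟩ : F)⁻¹ := rfl
              rw [h5, mul_mem_iff_of_index_two h2, inv_mem_iff]
              exact h3
          exact hAcF.trans (centralizer_le hQF)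
      · refine Cfsg.Agent.Lib.OmegaFix.omega_fix hcop (hP.to_le hQP) hAQ ?_
        intro x hx hxo a ha
        have hxo' : orderOf x = 2 ∨ orderOf x = 4 := by
          rcases hxo with h | h
          · exact Or.inl h
          · exact Or.inr h.2
        rcases le_or_gt (orderOf x) (2 ^ d) with hxd | hxd
        · obtain ⟨L, hxL, hLQ, hL⟩ := exists_between (Q := zpowers x) (hP.to_le hQP) (zpowers_le.mpr hx)
            (b := d) (by rw [Nat.card_zpowers]; exact hxd) hlt.le
          have h1 := ih L (hLQ.trans hQP) (by omega) (hinv L (hLQ.trans hQP) (Or.inl hL))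
          exact (mem_centralizer_iff.mp (h1 ha) x (hxL (mem_zpowers x))).symm
        · have h2 : 2 ^ 1 ≤ 2 ^ d := Nat.pow_le_pow_right (by norm_num) (by omega)
          have h3 : orderOf x = 4 := by
            rcases hxo' with h | h
            · omega
            · exact h
          have h4 : 2 ^ d = 2 := by
            have : d < 2 := by
              rw [h3, show 4 = 2 ^ 2 from rfl] at hxd
              exact (Nat.pow_lt_pow_iff_right (by norm_num)).mp hxd
            have : d = 1 := by omega
            rw [this, pow_one]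
          refine commute_of_four (hodd a ha) hxo' ?_
          exact hinv (zpowers x) ((zpowers_le.mpr hx).trans hQP) (Or.inr ⟨h4, by rw [Nat.card_zpowers, h3]⟩) ha
  exact key _ P le_rfl le_rfl hAP

end Cfsg.Agent.S3803
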