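import Cfsg.Statements.S3815
import Cfsg.Agent.Lib.Cores

set_option autoImplicit false
open Cfsg

namespace Cfsg.Agent.S3815

open Subgroup

/-- Let G be a finite group, p a prime and d ∈ G an element of order prime to p. If dg has order prime to p for every element g ∈ G of order prime to p, then d ∈ O_{p'}(G). -/
theorem result {G : Type*} [Group G] [Finite G] {p : ℕ} [Fact p.Prime]
    (d : G) (hd : (orderOf d).Coprime p)
    (h : ∀ g : G, (orderOf g).Coprime p → (orderOf (d * g)).Coprime p) :
    d ∈ Cfsg.pPrimeCore p G := by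
  have hpp : p.Prime := Fact.out
  have hord : ∀ c g : G, orderOf (c * g * c⁻¹) = orderOf g := fun c g =>
    orderOf_injective (MulAut.conj c).toMonoidHom (MulAut.conj c).injective g
  let D : Submonoid G :=
    { carrier := {d | ∀ g : G, (orderOf g).Coprime p → (orderOf (d * g)).Coprime p}
      one_mem' := fun g hg => by rw [one_mul]; exact hg
      mul_mem' := by
        intro a b ha hb g hg
        rw [mul_assoc]
        exact ha _ (hb g hg) }
  have hinv : ∀ d ∈ D, d⁻¹ ∈ D := by
    intro d hd
    have h1 : d⁻¹ = d ^ (orderOf d - 1) := by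
      apply inv_eq_of_mul_eq_one_right
      rw [← pow_succ', Nat.sub_add_cancel (orderOf_pos d), pow_orderOf_eq_one]
    rw [h1]
    exact pow_mem hd _
  let N : Subgroup G := { D with inv_mem' := fun {d} hd => hinv d hd }
  have hNn : N.Normal := by
    constructor
    intro d hd c g hg
    have h1 := hd (c⁻¹ * g * c) (by
      have := hord c⁻¹ g
      rw [inv_inv] at this
      rw [this]; exact hg)
    have e : c * d * c⁻¹ * g = c * (d * (c⁻¹ * g * c)) * c⁻¹ := by group
    rw [e, hord]
    exact h1
  have hNp : (Nat.card N).Coprime p := by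
    rw [Nat.coprime_comm, hpp.coprime_iff_not_dvd]
    intro hdvd
    obtain ⟨x, hx⟩ := exists_prime_orderOf_dvd_card' p hdvd
    have h1 := x.2 1 (by rw [orderOf_one]; exact Nat.coprime_one_left p)
    rw [mul_one, orderOf_coe, hx] at h1
    exact hpp.one_lt.ne' ((Nat.coprime_self p).mp h1)
  exact Cfsg.Agent.Lib.Cores.le_pPrimeCore hNn hNp (show d ∈ N from h)

end Cfsg.Agent.S3815
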