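import Cfsg.Statements.S3819
import Mathlib
import Cfsg.Agent.Lib.CoprimeB
import Cfsg.Agent.Lib.Nilp
import Cfsg.Agent.Lib.MinAct

set_option autoImplicit false
open Cfsg

namespace Cfsg.Agent.S3819

open Subgroup Cfsg.Agent.Lib.Basic
open scoped commutatorElement

theorem centralizer_core_le {K : Type*} [Group K] [Finite K] (hs : Group.IsSolvable K) {q : ℕ} [hq : Fact q.Prime]
    (h : Cfsg.pPrimeCore q K = ⊥) : centralizer (Cfsg.pCore q K : Set K) ≤ Cfsg.pCore q K := by
  have h1 : Cfsg.fittingSubgroup K = Cfsg.pCore q K := by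
    rw [Cfsg.Agent.Lib.Cores.fitting_eq_iSup_pCore]
    apply le_antisymm
    · apply iSup_le
      rintro ⟨p, hp⟩
      by_cases hpq : p = q
      · subst hpq; exact le_rfl
      · have := Cfsg.Agent.Lib.Cores.pCore_le_pPrimeCore (G := K) hp hq.out hpq
        rw [h] at this
        exact this.trans bot_le
    · exact le_iSup (fun p : Nat.Primes => Cfsg.pCore (p : ℕ) K) ⟨q, hq.out⟩
  have := Cfsg.Agent.Lib.Nilp.centralizer_fitting_le (G := K)
  rwa [h1] at this

theorem coreL {Q : Type*} [Group Q] [Finite Q] {q : ℕ} [hq : Fact q.Prime] {H P : Subgroup Q}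
    (hPH : P ≤ normalizer (H : Set Q)) (hcopP : (Nat.card P).Coprime (Nat.card H)) (hPs : Group.IsSolvable P)
    (hsol : Group.IsSolvable (⁅H, P⁆ : Subgroup Q))
    (hcore : ∀ M : Subgroup Q, M ≤ H → H ≤ normalizer (M : Set Q) → (Nat.card M).Coprime q → M = ⊥)
    {z : Q} (hzH : z ∈ H) (hzq : IsPGroup q (zpowers z))
    {X Y : Subgroup Q} (hX : X ≤ H ⊓ centralizer {z}) (hXn : H ⊓ centralizer {z} ≤ normalizer (X : Set Q))
    (hXP : P ≤ normalizer (X : Set Q)) (hXq : (Nat.card X).Coprime q)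
    (hY : Y ≤ H ⊓ centralizer (P : Set Q)) (hYn : H ⊓ centralizer (P : Set Q) ≤ normalizer (Y : Set Q))
    (hYq : (Nat.card Y).Coprime q) : (X ⊓ Y) ⊔ ⁅X, P⁆ = ⊥ := by
  have hKH : ⁅H, P⁆ ≤ H := Cfsg.Agent.Lib.Coprime.commutator_le_of_normalizes hPH
  have hHK := Cfsg.Agent.Lib.Coprime.le_normalizer_commutator_left P H
  have hPK := Cfsg.Agent.Lib.Coprime.le_normalizer_commutator_right P H
  have hHKC := Cfsg.Agent.Lib.Coprime.commutator_sup_centralizer hPH hcopP (Or.inl hPs)
  obtain ⟨K, hK⟩ : ∃ K, K = ⁅H, P⁆ := ⟨_, rfl⟩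
  rw [← hK] at hKH hHK hPK hHKC hsol
  have hch1 := Cfsg.Agent.Lib.Cores.pCore_characteristic (G := K) q
  have hch2 := Cfsg.Agent.Lib.Cores.pPrimeCore_characteristic (G := K) q
  have hKcore : Cfsg.pPrimeCore q K = ⊥ := by
    have h1 := hcore ((Cfsg.pPrimeCore q K).map K.subtype) ((map_subtype_le _).trans hKH)
      (hHK.trans (Cfsg.Agent.Lib.MinAct.normalizer_le_normalizer_char _)) (by
        rw [card_map_of_injective K.subtype_injective]
        exact Cfsg.Agent.Lib.Cores.pPrimeCore_coprime q)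
    exact (Subgroup.map_eq_bot_iff_of_injective _ K.subtype_injective).mp h1
  have hCK := centralizer_core_le hsol hKcore
  obtain ⟨R, hR⟩ : ∃ R, R = (Cfsg.pCore q K).map K.subtype := ⟨_, rfl⟩
  have hRK : R ≤ K := hR ▸ map_subtype_le _
  have hRq : IsPGroup q R := hR ▸ (Cfsg.Agent.Lib.Cores.pCore_isPGroup q).map _
  have hHR : H ≤ normalizer (R : Set Q) := by
    rw [hR]
    exact hHK.trans (Cfsg.Agent.Lib.MinAct.normalizer_le_normalizer_char _)
  have hCR : K ⊓ centralizer (R : Set Q) ≤ R := by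
    rintro x ⟨hxK, hxR⟩
    have h1 : (⟨x, hxK⟩ : K) ∈ centralizer (Cfsg.pCore q K : Set K) := by
      rw [mem_centralizer_iff]
      intro y hy
      apply Subtype.ext
      exact mem_centralizer_iff.mp hxR y (by rw [hR]; exact ⟨y, hy, rfl⟩)
    rw [hR]
    exact ⟨_, hCK h1, rfl⟩
  have hdisj : ∀ D : Subgroup Q, (Nat.card D).Coprime q → D ⊓ R = ⊥ := by
    intro D hD
    obtain ⟨k, hk⟩ := IsPGroup.iff_card.mp hRq
    exact disjoint_iff.mp (disjoint_of_coprime_natCard (by rw [hk]; exact Nat.Coprime.pow_right _ hD))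
  have hzK : z ∈ normalizer (R : Set Q) := hHR hzH
  -- X centralizes R
  have hXR : X ≤ centralizer (R : Set Q) := by
    refine Cfsg.Agent.Lib.CoprimeB.thompson_PxQ hzq hXq hRq ?_ (zpowers_le.mpr hzK) ((hX.trans inf_le_left).trans hHR) ?_
    · rw [zpowers_le, mem_centralizer_iff]
      intro x hx
      exact mem_centralizer_singleton_iff.mp (hX hx).2
    · intro r hr
      have hrz : r ∈ H ⊓ centralizer {z} := by
        refine mem_inf.mpr ⟨hKH (hRK hr.1), ?_⟩
        rw [mem_centralizer_singleton_iff]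
        exact (mem_centralizer_iff.mp hr.2 z (mem_zpowers z)).symm
      rw [mem_centralizer_iff]
      intro x hx
      have h1 : r * x * r⁻¹ ∈ X := (mem_normalizer_iff.mp (hXn hrz) x).mp hx
      have h2 : r * x * r⁻¹ * x⁻¹ ∈ X := X.mul_mem h1 (X.inv_mem hx)
      have h3 : x * r⁻¹ * x⁻¹ ∈ R := (mem_normalizer_iff.mp (hHR (hX hx).1) r⁻¹).mp (R.inv_mem hr.1)
      have h4 : r * x * r⁻¹ * x⁻¹ ∈ R := by
        have : r * x * r⁻¹ * x⁻¹ = r * (x * r⁻¹ * x⁻¹) := by group
        rw [this]; exact R.mul_mem hr.1 h3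
      have h5 : r * x * r⁻¹ * x⁻¹ ∈ X ⊓ R := ⟨h2, h4⟩
      rw [hdisj X hXq, mem_bot] at h5
      have h6 : r * x = x * r := by
        have := mul_inv_eq_one.mp h5
        have := mul_inv_eq_iff_eq_mul.mp this
        exact this
      exact h6.symm
  have hXPb : ⁅X, P⁆ = ⊥ := by
    have h1 : ⁅X, P⁆ ≤ X := Cfsg.Agent.Lib.Coprime.commutator_le_of_normalizes hXP
    have h2 : ⁅X, P⁆ ≤ K := by rw [hK]; exact commutator_mono (hX.trans inf_le_left) le_rfl
    rw [eq_bot_iff, ← hdisj X hXq]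
    exact le_inf h1 ((le_inf h2 (h1.trans hXR)).trans hCR)
  rw [hXPb, sup_bot_eq]
  -- D centralizes K
  have hDK : X ⊓ Y ≤ centralizer (K : Set Q) := by
    intro d hd
    rw [mem_centralizer_iff]
    intro k hk
    have hdH : d ∈ H := (hX hd.1).1
    have hdR : d ∈ centralizer (R : Set Q) := hXR hd.1
    -- [d,k] = d k d⁻¹ k⁻¹
    have h1 : k⁻¹ * (d * k * d⁻¹) ∈ K := K.mul_mem (K.inv_mem hk) ((mem_normalizer_iff.mp (hHK hdH) k).mp hk)
    have hkR : k ∈ normalizer ((centralizer (R : Set Q) : Subgroup Q) : Set Q) := by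
      have : normalizer (R : Set Q) ≤ normalizer ((centralizer (R : Set Q) : Subgroup Q) : Set Q) := by
        intro g hg
        have key : ∀ g ∈ normalizer (R : Set Q), ∀ c ∈ centralizer (R : Set Q), g * c * g⁻¹ ∈ centralizer (R : Set Q) := by
          intro g hg c hc
          rw [mem_centralizer_iff]
          intro r hr
          have h1 : g⁻¹ * r * g ∈ R := (mem_normalizer_iff'.mp hg (g⁻¹ * r)).mpr (by rwa [mul_inv_cancel_left])
          have h2 := mem_centralizer_iff.mp hc _ h1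
          calc r * (g * c * g⁻¹) = g * ((g⁻¹ * r * g) * c) * g⁻¹ := by group
            _ = g * (c * (g⁻¹ * r * g)) * g⁻¹ := by rw [h2]
            _ = _ := by group
        rw [mem_normalizer_iff]
        intro c
        refine ⟨key g hg c, fun h => ?_⟩
        have := key g⁻¹ (inv_mem hg) _ h
        have e : g⁻¹ * (g * c * g⁻¹) * g⁻¹⁻¹ = c := by group
        rwa [e] at this
      exact this (hHR (hKH hk))
    have h2 : k⁻¹ * (d * k * d⁻¹) ∈ centralizer (R : Set Q) := by
      have h3 : k⁻¹ * d * k ∈ centralizer (R : Set Q) := by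
        have := (mem_normalizer_iff.mp (inv_mem hkR) d).mp hdR
        rwa [inv_inv] at this
      have e : k⁻¹ * (d * k * d⁻¹) = (k⁻¹ * d * k) * d⁻¹ := by group
      rw [e]
      exact mul_mem h3 (inv_mem hdR)
    have h3 : k⁻¹ * (d * k * d⁻¹) ∈ R := hCR ⟨h1, h2⟩
    obtain ⟨r, hr⟩ : ∃ r, r = k⁻¹ * (d * k * d⁻¹) := ⟨_, rfl⟩
    rw [← hr] at h3
    have hdr : d * r * d⁻¹ = r := by
      rw [← mem_centralizer_iff.mp hdR r h3]; group
    have hkr : d * k * d⁻¹ = k * r := by rw [hr]; group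
    have hpow : ∀ n : ℕ, d ^ n * k * (d ^ n)⁻¹ = k * r ^ n := by
      intro n
      induction n with
      | zero => simp
      | succ n ih =>
        have e : d ^ (n + 1) * k * (d ^ (n + 1))⁻¹ = d * (d ^ n * k * (d ^ n)⁻¹) * d⁻¹ := by
          rw [pow_succ']; group
        rw [e, ih]
        calc d * (k * r ^ n) * d⁻¹ = (d * k * d⁻¹) * (d * r ^ n * d⁻¹) := by group
          _ = (k * r) * (d * r * d⁻¹) ^ n := by rw [hkr, conj_pow]
          _ = k * r ^ (n + 1) := by rw [hdr, pow_succ', mul_assoc]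
    have h4 := hpow (orderOf d)
    rw [pow_orderOf_eq_one] at h4
    have h5 : r ^ orderOf d = 1 := by
      have : k = k * r ^ orderOf d := by simpa using h4
      exact (left_eq_mul.mp this)
    have h6 : orderOf r ∣ orderOf d := orderOf_dvd_of_pow_eq_one h5
    have h7 : (orderOf d).Coprime q := by
      refine Nat.Coprime.coprime_dvd_left ?_ hXq
      have := orderOf_dvd_natCard (⟨d, hd.1⟩ : X)
      rwa [Subgroup.orderOf_mk] at this
    have h8 : r = 1 := by
      obtain ⟨j, hj⟩ := IsPGroup.iff_orderOf.mp hRq ⟨r, h3⟩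
      rw [Subgroup.orderOf_mk] at hj
      have : (orderOf r).Coprime (orderOf r) := by
        conv_rhs => rw [hj]
        exact Nat.Coprime.pow_right _ (Nat.Coprime.coprime_dvd_left h6 h7)
      rw [Nat.coprime_self] at this
      exact orderOf_eq_one_iff.mp this
    rw [h8, mul_one] at hkr
    have := mul_inv_eq_iff_eq_mul.mp hkr
    exact this.symm
  have hM := hcore (Y ⊓ centralizer (K : Set Q)) (inf_le_left.trans (hY.trans inf_le_left)) (by
    rw [← hHKC]
    refine sup_le ?_ ?_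
    · intro k hk
      have key : ∀ k ∈ K, ∀ y ∈ Y ⊓ centralizer (K : Set Q), k * y * k⁻¹ = y := by
        intro k hk y hy
        rw [mem_centralizer_iff.mp hy.2 k hk]; group
      rw [mem_normalizer_iff]
      intro y
      constructor
      · intro hy
        rw [key k hk y hy]; exact hy
      · intro hy
        have := key k⁻¹ (K.inv_mem hk) _ hy
        have e : k⁻¹ * (k * y * k⁻¹) * k⁻¹⁻¹ = y := by group
        rw [e] at this
        rw [this]; exact hy
    · intro c hc
      have key : ∀ c ∈ H ⊓ centralizer (P : Set Q), ∀ y ∈ Y ⊓ centralizer (K : Set Q), c * y * c⁻¹ ∈ Y ⊓ centralizer (K : Set Q) := by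
        intro c hc y hy
        refine mem_inf.mpr ⟨(mem_normalizer_iff.mp (hYn hc) y).mp hy.1, ?_⟩
        rw [mem_centralizer_iff]
        intro r hr
        have h1 : c⁻¹ * r * c ∈ K := (mem_normalizer_iff'.mp (hHK hc.1) (c⁻¹ * r)).mpr (by rwa [mul_inv_cancel_left])
        have h2 := mem_centralizer_iff.mp hy.2 _ h1
        calc r * (c * y * c⁻¹) = c * ((c⁻¹ * r * c) * y) * c⁻¹ := by group
          _ = c * (y * (c⁻¹ * r * c)) * c⁻¹ := by rw [h2]
          _ = _ := by group
      rw [mem_normalizer_iff]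
      intro y
      refine ⟨key c hc y, fun h => ?_⟩
      have := key c⁻¹ (inv_mem hc) _ h
      have e : c⁻¹ * (c * y * c⁻¹) * c⁻¹⁻¹ = y := by group
      rwa [e] at this) (Nat.Coprime.coprime_dvd_left (card_dvd_of_le inf_le_left) hYq)
  rw [eq_bot_iff, ← hM]
  exact le_inf inf_le_right hDK

/-- Let G be a finite group with Sylow p-subgroup P and H = O_{p'}(G), and suppose G = PH and the commutator subgroup [H, P] is solvable. Let q be a prime and z an element of q-power order of C_H(P). Then (O_{q'}(C_H(z)) ∩ O_{q'}(C_H(P))) · [O_{q'}(C_H(z)), P] ≤ O_{q'}(H). -/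
theorem result {G : Type*} [Group G] [Finite G] {p : ℕ} [Fact p.Prime]
    (P : Sylow p G) (hPH : Cfsg.pPrimeCore p G ⊔ (P : Subgroup G) = ⊤)
    (hsol : Group.IsSolvable ↥⁅Cfsg.pPrimeCore p G, (P : Subgroup G)⁆)
    {q : ℕ} [Fact q.Prime] (z : G) (hzH : z ∈ Cfsg.pPrimeCore p G) (hzP : z ∈ Subgroup.centralizer ((P : Subgroup G) : Set G))
    (hz : ∃ k : ℕ, orderOf z = q ^ k) :
    ((Cfsg.pPrimeCore q ↥(Cfsg.pPrimeCore p G ⊓ Subgroup.centralizer ({z} : Set G))).map
        (Cfsg.pPrimeCore p G ⊓ Subgroup.centralizer ({z} : Set G)).subtype ⊓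
      (Cfsg.pPrimeCore q ↥(Cfsg.pPrimeCore p G ⊓ Subgroup.centralizer ((P : Subgroup G) : Set G))).map
        (Cfsg.pPrimeCore p G ⊓ Subgroup.centralizer ((P : Subgroup G) : Set G)).subtype) ⊔
    ⁅(Cfsg.pPrimeCore q ↥(Cfsg.pPrimeCore p G ⊓ Subgroup.centralizer ({z} : Set G))).map
        (Cfsg.pPrimeCore p G ⊓ Subgroup.centralizer ({z} : Set G)).subtype, (P : Subgroup G)⁆ ≤
    (Cfsg.pPrimeCore q ↥(Cfsg.pPrimeCore p G)).map (Cfsg.pPrimeCore p G).subtype := by
  have hp : p.Prime := Fact.out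
  have hq : q.Prime := Fact.out
  have hHch := Cfsg.Agent.Lib.Cores.pPrimeCore_characteristic (G := G) p
  have hHc := Cfsg.Agent.Lib.Cores.pPrimeCore_coprime (G := G) p
  obtain ⟨H, hH⟩ : ∃ H, H = Cfsg.pPrimeCore p G := ⟨_, rfl⟩
  rw [← hH] at hHch hHc hsol hzH ⊢
  have hHn : H.Normal := inferInstance
  have hNch := Cfsg.Agent.Lib.Cores.pPrimeCore_characteristic (G := H) q
  obtain ⟨N, hN⟩ : ∃ N, N = (Cfsg.pPrimeCore q H).map H.subtype := ⟨_, rfl⟩
  rw [← hN]
  have hNH : N ≤ H := hN ▸ map_subtype_le _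
  have hNn : N.Normal := by rw [hN]; infer_instance
  have hNq : (Nat.card N).Coprime q := by
    rw [hN, card_map_of_injective H.subtype_injective]
    exact Cfsg.Agent.Lib.Cores.pPrimeCore_coprime q
  obtain ⟨π, hπ⟩ : ∃ π, π = QuotientGroup.mk' N := ⟨_, rfl⟩
  have hπs : Function.Surjective π := hπ ▸ QuotientGroup.mk'_surjective N
  have hker : π.ker = N := by rw [hπ, QuotientGroup.ker_mk']
  have hmem : ∀ x, π x = 1 ↔ x ∈ N := fun x => by rw [← MonoidHom.mem_ker, hker]
  have hcP : (Nat.card (P : Subgroup G)).Coprime (Nat.card H) := by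
    obtain ⟨k, hk⟩ := IsPGroup.iff_card.mp P.isPGroup'
    rw [hk]
    exact (Nat.Coprime.pow_left _ hHc.symm)
  have hPH' : (P : Subgroup G) ≤ normalizer (H : Set G) := by rw [normalizer_eq_top]; exact le_top
  have hPs : Group.IsSolvable (P : Subgroup G) := Cfsg.Agent.Lib.CoprimeB.isSolvable_of_isPGroup P.isPGroup'
  -- centralizers
  have hcent : ∀ A : Subgroup G, (Nat.card A).Coprime (Nat.card N) → Group.IsSolvable A →
      H.map π ⊓ centralizer ((A.map π : Subgroup (G ⧸ N)) : Set (G ⧸ N)) ≤ (H ⊓ centralizer (A : Set G)).map π := by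
    rintro A hA hAs x ⟨⟨h, hh, rfl⟩, hx⟩
    have hAN : A ≤ normalizer (N : Set G) := by rw [normalizer_eq_top]; exact le_top
    obtain ⟨d, hd, hc⟩ := Cfsg.Agent.Lib.Coprime.exists_mem_centralizer_coset hAN hA (Or.inl hAs) h (by
      intro a ha
      rw [← hmem]
      have h1 := mem_centralizer_iff.mp hx (π a) ⟨a, ha, rfl⟩
      rw [map_mul, map_mul, map_mul, map_inv, map_inv, h1]
      group)
    refine ⟨h * d, mem_inf.mpr ⟨H.mul_mem hh (hNH hd), hc⟩, ?_⟩
    rw [map_mul, (hmem d).mpr hd, mul_one]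
  have hcent' : ∀ A : Subgroup G, (H ⊓ centralizer (A : Set G)).map π ≤ H.map π ⊓ centralizer ((A.map π : Subgroup (G ⧸ N)) : Set (G ⧸ N)) := by
    rintro A _ ⟨x, hx, rfl⟩
    refine mem_inf.mpr ⟨⟨x, hx.1, rfl⟩, ?_⟩
    rw [mem_centralizer_iff]
    rintro _ ⟨a, ha, rfl⟩
    rw [← map_mul, ← map_mul, mem_centralizer_iff.mp hx.2 a ha]
  have hzc : ∀ A : Subgroup G, zpowers z = A → H ⊓ centralizer {z} = H ⊓ centralizer (A : Set G) := by
    rintro A rfl
    rw [zpowers_eq_closure, centralizer_closure]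
  have hzc' : centralizer {π z} = centralizer (((zpowers z).map π : Subgroup (G ⧸ N)) : Set (G ⧸ N)) := by
    rw [MonoidHom.map_zpowers, zpowers_eq_closure, centralizer_closure]
  have hzq : IsPGroup q (zpowers z) := by
    obtain ⟨k, hk⟩ := hz
    rw [IsPGroup.iff_card]
    exact ⟨k, by rw [Nat.card_zpowers, hk]⟩
  -- X and Y
  obtain ⟨Cz, hCz⟩ : ∃ C, C = H ⊓ centralizer {z} := ⟨_, rfl⟩
  obtain ⟨CP, hCP⟩ : ∃ C, C = H ⊓ centralizer ((P : Subgroup G) : Set G) := ⟨_, rfl⟩
  rw [← hCz, ← hCP]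
  have hXch := Cfsg.Agent.Lib.Cores.pPrimeCore_characteristic (G := Cz) q
  have hYch := Cfsg.Agent.Lib.Cores.pPrimeCore_characteristic (G := CP) q
  have hXq := Cfsg.Agent.Lib.Cores.pPrimeCore_coprime (G := Cz) q
  have hYq := Cfsg.Agent.Lib.Cores.pPrimeCore_coprime (G := CP) q
  have hXn := Cfsg.Agent.Lib.MinAct.normalizer_le_normalizer_char (P := Cz) (Cfsg.pPrimeCore q Cz)
  have hYn := Cfsg.Agent.Lib.MinAct.normalizer_le_normalizer_char (P := CP) (Cfsg.pPrimeCore q CP)
  have hXle : (Cfsg.pPrimeCore q Cz).map Cz.subtype ≤ Cz := map_subtype_le _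
  have hYle : (Cfsg.pPrimeCore q CP).map CP.subtype ≤ CP := map_subtype_le _
  rw [← card_map_of_injective Cz.subtype_injective] at hXq
  rw [← card_map_of_injective CP.subtype_injective] at hYq
  obtain ⟨X, hX⟩ : ∃ X, X = (Cfsg.pPrimeCore q Cz).map Cz.subtype := ⟨_, rfl⟩
  obtain ⟨Y, hY⟩ : ∃ Y, Y = (Cfsg.pPrimeCore q CP).map CP.subtype := ⟨_, rfl⟩
  rw [← hX] at hXn hXle hXq ⊢
  rw [← hY] at hYn hYle hYq ⊢
  have hcoreQ : ∀ M : Subgroup (G ⧸ N), M ≤ H.map π → H.map π ≤ normalizer (M : Set (G ⧸ N)) → (Nat.card M).Coprime q → M = ⊥ := by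
    intro M hM hMn hMq
    have h1 : M.comap π ≤ H := by
      intro x hx
      obtain ⟨h, hh, hhx⟩ := hM hx
      have h2 : h⁻¹ * x ∈ N := by
        rw [← hmem, map_mul, map_inv, hhx, inv_mul_cancel]
      have h3 : x = h * (h⁻¹ * x) := by group
      rw [h3]
      exact H.mul_mem hh (hNH h2)
    have h2 : ((M.comap π).subgroupOf H).Normal := by
      constructor
      intro m hm h
      rw [mem_subgroupOf, mem_comap] at hm ⊢
      have h3 : π ((h * m * h⁻¹ : H) : G) = π h * π m * (π h)⁻¹ := by push_cast; rw [map_mul, map_mul, map_inv]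
      rw [h3]
      exact (mem_normalizer_iff.mp (hMn ⟨h, h.2, rfl⟩) _).mp hm
    have h3 : (Nat.card ((M.comap π).subgroupOf H)).Coprime q := by
      rw [Nat.card_congr (subgroupOfEquivOfLe h1).toEquiv, Cfsg.Agent.Lib.Cores.card_comap_eq π hπs, hker]
      exact Nat.Coprime.mul_left (by assumption) (by assumption)
    have h4 := Cfsg.Agent.Lib.Cores.le_pPrimeCore h2 h3
    have h5 : M.comap π ≤ N := by
      refine le_trans ?_ hN.ge
      intro x hx
      exact ⟨⟨x, h1 hx⟩, h4 (by rw [mem_subgroupOf]; exact hx), rfl⟩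
    rw [eq_bot_iff]
    intro x hx
    obtain ⟨g, rfl⟩ := hπs x
    exact (hmem g).mpr (h5 hx)
  have hfin := coreL (Q := G ⧸ N) (q := q) (H := H.map π) (P := (P : Subgroup G).map π)
    ((map_mono hPH').trans (le_normalizer_map _))
    (Nat.Coprime.coprime_dvd_left (card_map_dvd _ _) (Nat.Coprime.coprime_dvd_right (card_map_dvd _ _) hcP))
    (Cfsg.Agent.Lib.CoprimeB.isSolvable_of_isPGroup (P.isPGroup'.map π))
    (by
      rw [← map_commutator]
      exact solvable_of_surjective (MonoidHom.subgroupMap_surjective π ⁅H, (P : Subgroup G)⁆))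
    hcoreQ (z := π z) ⟨z, hzH, rfl⟩ (by rw [← MonoidHom.map_zpowers]; exact hzq.map π)
    (X := X.map π) (Y := Y.map π)
    (by
      rw [hzc']
      refine le_trans (map_mono (hXle.trans ?_)) (hcent' (zpowers z))
      rw [hCz, hzc _ rfl])
    (by
      rw [hzc']
      refine (hcent (zpowers z) ?_ (Cfsg.Agent.Lib.CoprimeB.isSolvable_of_isPGroup hzq)).trans ?_
      · obtain ⟨k, hk⟩ := IsPGroup.iff_card.mp hzq
        rw [hk]
        exact (Nat.Coprime.pow_left _ hNq.symm)
      · rw [← hzc _ rfl, ← hCz]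
        exact (map_mono (le_normalizer.trans hXn)).trans (le_normalizer_map _))
    (by
      refine le_trans (map_mono (le_trans ?_ hXn)) (le_normalizer_map _)
      rw [hCz]
      have h1 : (P : Subgroup G) ≤ normalizer ((centralizer {z} : Subgroup G) : Set G) := by
        refine le_trans ?_ le_normalizer
        intro x hx
        rw [mem_centralizer_singleton_iff]
        exact mem_centralizer_iff.mp hzP x hx
      intro b hb
      rw [mem_normalizer_iff]
      intro g
      rw [mem_inf, mem_inf]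
      exact and_congr (mem_normalizer_iff.mp (hPH' hb) g) (mem_normalizer_iff.mp (h1 hb) g))
    (Nat.Coprime.coprime_dvd_left (card_map_dvd _ _) hXq)
    (by
      refine le_trans (map_mono (hYle.trans ?_)) (hcent' (P : Subgroup G))
      rw [hCP])
    (by
      refine (hcent (P : Subgroup G) (Nat.Coprime.coprime_dvd_right (card_dvd_of_le hNH) hcP) hPs).trans ?_
      rw [← hCP]
      exact (map_mono (le_normalizer.trans hYn)).trans (le_normalizer_map _))
    (Nat.Coprime.coprime_dvd_left (card_map_dvd _ _) hYq)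
  have hfin' : ((X ⊓ Y) ⊔ ⁅X, (P : Subgroup G)⁆).map π ≤ ⊥ := by
    rw [Subgroup.map_sup, map_commutator, ← hfin]
    exact sup_le_sup_right (map_inf_le _ _ _) _
  intro x hx
  have h1 := hfin' ⟨x, hx, rfl⟩
  rw [mem_bot] at h1
  exact (hmem x).mp h1

end Cfsg.Agent.S3819
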