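import Cfsg.Statements.S3820


set_option autoImplicit false
open Cfsg

namespace Cfsg.Agent.S3820

open Subgroup

/-- Call a subgroup H of G pronormal if H and gHg⁻¹ are conjugate inside ⟨H, gHg⁻¹⟩ for every g ∈ G. Let S ≤ H ≤ G be subgroups of a finite group with S pronormal in G (for instance S a Sylow subgroup). Then H is pronormal in G if and only if H and gHg⁻¹ are conjugate inside ⟨H, gHg⁻¹⟩ for every g ∈ N_G(S). In particular H is pronormal whenever N_G(S) ≤ H. -/
theorem result {G : Type*} [Group G] [Finite G] (S H : Subgroup G) (hSH : S ≤ H)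
    (hS : Cfsg.IsPronormal S) :
    Cfsg.IsPronormal H ↔
      ∀ g ∈ Subgroup.normalizer (S : Set G), ∃ w ∈ H ⊔ H.map (MulAut.conj g).toMonoidHom,
        H.map (MulAut.conj g).toMonoidHom = H.map (MulAut.conj w).toMonoidHom := by
  have hmm : ∀ (K : Subgroup G) (g h : G), (K.map (MulAut.conj h).toMonoidHom).map (MulAut.conj g).toMonoidHom =
      K.map (MulAut.conj (g * h)).toMonoidHom := by
    intro K g h
    rw [map_map]
    congr 1
    ext y
    change g * (h * y * h⁻¹) * g⁻¹ = (g * h) * y * (g * h)⁻¹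
    group
  have hmn : ∀ g : G, S.map (MulAut.conj g).toMonoidHom = S → g ∈ normalizer (S : Set G) := by
    intro g hg
    rw [mem_normalizer_iff]
    intro y
    constructor
    · intro hy
      rw [← hg]
      exact ⟨y, hy, rfl⟩
    · intro hy
      rw [← hg] at hy
      obtain ⟨w, hw, hwy⟩ := hy
      have : g * w * g⁻¹ = g * y * g⁻¹ := hwy
      rwa [← mul_left_cancel (mul_right_cancel this)]
  constructor
  · intro h g _
    exact h g
  · intro h g
    obtain ⟨w₁, hw₁, hS₁⟩ := hS g
    set J := H ⊔ H.map (MulAut.conj g).toMonoidHom with hJ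
    have hSJ : S ⊔ S.map (MulAut.conj g).toMonoidHom ≤ J :=
      sup_le (hSH.trans le_sup_left) ((map_mono hSH).trans le_sup_right)
    have hw₁J : w₁ ∈ J := hSJ hw₁
    have hN : w₁⁻¹ * g ∈ normalizer (S : Set G) := by
      apply hmn
      rw [← hmm, hS₁, hmm, inv_mul_cancel]
      ext y
      simp
    obtain ⟨w₂, hw₂, hH₂⟩ := h _ hN
    have hle : H ⊔ H.map (MulAut.conj (w₁⁻¹ * g)).toMonoidHom ≤ J := by
      apply sup_le le_sup_left
      rw [← hmm]
      rintro _ ⟨y, hy, rfl⟩
      have hyJ : y ∈ J := (le_sup_right : H.map (MulAut.conj g).toMonoidHom ≤ J) hy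
      change w₁⁻¹ * y * w₁⁻¹⁻¹ ∈ J
      exact mul_mem (mul_mem (inv_mem hw₁J) hyJ) (inv_mem (inv_mem hw₁J))
    refine ⟨w₁ * w₂, mul_mem hw₁J (hle hw₂), ?_⟩
    rw [← hmm, ← hH₂, hmm]
    congr 2
    group

end Cfsg.Agent.S3820
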