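import Cfsg.Statements.S3821


set_option autoImplicit false
open Cfsg

namespace Cfsg.Agent.S3821

open Subgroup

/-- Let A be a normal subgroup of the finite group G and H a subgroup of A. Then H is pronormal in G (H and gHg⁻¹ conjugate inside ⟨H, gHg⁻¹⟩ for every g ∈ G) if and only if H is pronormal in A and G = A · N_G(H). -/
theorem result {G : Type*} [Group G] [Finite G] (A H : Subgroup G) [A.Normal] (hHA : H ≤ A) :
    Cfsg.IsPronormal H ↔ (Cfsg.IsPronormal (H.subgroupOf A) ∧ A ⊔ Subgroup.normalizer (H : Set G) = ⊤) := by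
  have hmm : ∀ (K : Subgroup G) (g h : G), (K.map (MulAut.conj h).toMonoidHom).map (MulAut.conj g).toMonoidHom =
      K.map (MulAut.conj (g * h)).toMonoidHom := by
    intro K g h
    rw [map_map]
    congr 1
    ext y
    change g * (h * y * h⁻¹) * g⁻¹ = (g * h) * y * (g * h)⁻¹
    group
  have hmn : ∀ g : G, H.map (MulAut.conj g).toMonoidHom = H ↔ g ∈ normalizer (H : Set G) := by
    intro g
    rw [mem_normalizer_iff]
    constructor
    · intro hg y
      constructor
      · intro hy
        rw [← hg]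
        exact ⟨y, hy, rfl⟩
      · intro hy
        rw [← hg] at hy
        obtain ⟨w, hw, hwy⟩ := hy
        have : g * w * g⁻¹ = g * y * g⁻¹ := hwy
        rwa [← mul_left_cancel (mul_right_cancel this)]
    · intro hg
      ext y
      constructor
      · rintro ⟨w, hw, rfl⟩
        exact (hg w).mp hw
      · intro hy
        refine ⟨g⁻¹ * y * g, ?_, ?_⟩
        · apply (hg _).mpr
          have e : g * (g⁻¹ * y * g) * g⁻¹ = y := by group
          rw [e]; exact hy
        · change g * (g⁻¹ * y * g) * g⁻¹ = y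
          group
  have hAn : A.Normal := inferInstance
  have hleA : ∀ g : G, H ⊔ H.map (MulAut.conj g).toMonoidHom ≤ A := by
    intro g
    apply sup_le hHA
    rintro _ ⟨y, hy, rfl⟩
    exact hAn.conj_mem y (hHA hy) g
  have hsub : ∀ a : A, ((H.subgroupOf A).map (MulAut.conj a).toMonoidHom).map A.subtype =
      H.map (MulAut.conj (a : G)).toMonoidHom := by
    intro a
    rw [map_map]
    ext y
    constructor
    · rintro ⟨w, hw, rfl⟩
      exact ⟨w, hw, rfl⟩
    · rintro ⟨w, hw, rfl⟩
      exact ⟨⟨w, hHA hw⟩, hw, rfl⟩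
  have hsub0 : (H.subgroupOf A).map A.subtype = H := by
    rw [subgroupOf_map_subtype, inf_eq_left.mpr hHA]
  constructor
  · intro h
    constructor
    · intro a
      obtain ⟨w, hw, hHw⟩ := h a
      have hwA : w ∈ A := hleA _ hw
      refine ⟨⟨w, hwA⟩, ?_, ?_⟩
      · have h1 : (⟨w, hwA⟩ : A) ∈ (H ⊔ H.map (MulAut.conj (a : G)).toMonoidHom).subgroupOf A := hw
        rw [← hsub, ← hsub0, ← Subgroup.map_sup] at h1
        obtain ⟨v, hv, hvw⟩ := h1
        have : v = (⟨w, hwA⟩ : A) := Subtype.ext hvw
        rw [← this]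
        have h2 : (((H.subgroupOf A).map A.subtype).subgroupOf A) = H.subgroupOf A := by rw [hsub0]
        rw [h2] at hv
        exact hv
      · apply map_injective A.subtype_injective
        rw [hsub, hsub]
        exact hHw
    · rw [eq_top_iff]
      intro g _
      obtain ⟨w, hw, hHw⟩ := h g
      have hwA : w ∈ A := hleA _ hw
      have hn : w⁻¹ * g ∈ normalizer (H : Set G) := by
        rw [← hmn, ← hmm, hHw, hmm, inv_mul_cancel]
        ext y
        simp
      have h1 := mul_mem (mem_sup_left (T := normalizer (H : Set G)) hwA) (mem_sup_right (S := A) hn)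
      rwa [mul_inv_cancel_left] at h1
  · rintro ⟨h1, h2⟩ g
    obtain ⟨a, ha, n, hn, rfl⟩ := mem_sup_of_normal_left.mp (show g ∈ A ⊔ normalizer (H : Set G) by
      rw [h2]; trivial)
    have hH : H.map (MulAut.conj (a * n)).toMonoidHom = H.map (MulAut.conj a).toMonoidHom := by
      rw [← hmm, (hmn n).mpr hn]
    obtain ⟨w, hw, hHw⟩ := h1 ⟨a, ha⟩
    refine ⟨w, ?_, ?_⟩
    · rw [hH]
      have h3 : ((H.subgroupOf A) ⊔ (H.subgroupOf A).map (MulAut.conj (⟨a, ha⟩ : A)).toMonoidHom).map
          A.subtype = H ⊔ H.map (MulAut.conj a).toMonoidHom := by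
        rw [Subgroup.map_sup, hsub, hsub0]
      rw [← h3]
      exact ⟨w, hw, rfl⟩
    · rw [hH]
      have h3 := congrArg (Subgroup.map A.subtype) hHw
      rw [hsub, hsub] at h3
      exact h3

end Cfsg.Agent.S3821
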