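import Cfsg.Statements.S3825
import Cfsg.Agent.Lib.Cores
import Mathlib.GroupTheory.FixedPointFree

set_option autoImplicit false
open Cfsg

namespace Cfsg.Agent.S3825

open scoped commutatorElement

/-- Let U be a subgroup of a finite group H and w an involution of H normalizing U and commuting with exactly two elements of U, the identity and y. If V is a non-cyclic elementary abelian 2-subgroup of U containing y which is normal in U and invariant under w, then V is a Sylow 2-subgroup of U, V has order 4, and U/V is abelian. -/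
theorem result {H : Type*} [Group H] [Finite H] (U : Subgroup H) (w : H) (hw : orderOf w = 2)
    (hwU : w ∈ Subgroup.normalizer (U : Set H)) (y : H) (hy : y ≠ 1) (hyU : y ∈ U)
    (hfix : ∀ u ∈ U, w * u * w⁻¹ = u ↔ (u = 1 ∨ u = y))
    (V : Subgroup H) (hVU : V ≤ U) (hVn : (V.subgroupOf U).Normal) (hVw : ∀ v ∈ V, w * v * w⁻¹ ∈ V)
    (hVe : Cfsg.IsElementaryAbelian 2 V) (hVc : ¬ IsCyclic ↥V) (hyV : y ∈ V) :
    ¬ 2 ∣ V.relIndex U ∧ Nat.card ↥V = 4 ∧ ⁅U, U⁆ ≤ V := by
  have hw2 : w * w = 1 := by rw [← sq, ← hw]; exact pow_orderOf_eq_one w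
  have hwi : w⁻¹ = w := inv_eq_of_mul_eq_one_left hw2
  have hVsq : ∀ v ∈ V, v * v = 1 := fun v hv => by rw [← sq]; exact hVe.2 v hv
  have hVab : ∀ a ∈ V, ∀ b ∈ V, a * b = b * a := fun a ha b hb => congrArg Subtype.val (hVe.1.is_comm.comm (⟨a, ha⟩ : V) ⟨b, hb⟩)
  have hfixV : ∀ u ∈ V, w * u * w⁻¹ = u → u = 1 ∨ u = y := fun u hu h => (hfix u (hVU hu)).1 h
  have hwy : w * y * w⁻¹ = y := (hfix y hyU).2 (Or.inr rfl)
  -- commutators with `w` lying in `V`
  have ht : ∀ u : H, u⁻¹ * (w * u * w⁻¹) ∈ V → u⁻¹ * (w * u * w⁻¹) = 1 ∨ u⁻¹ * (w * u * w⁻¹) = y := by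
    intro u hu
    apply hfixV _ hu
    have h1 : w * (u⁻¹ * (w * u * w⁻¹)) * w⁻¹ = (u⁻¹ * (w * u * w⁻¹))⁻¹ := by
      rw [hwi]
      have h2 : w * (u⁻¹ * (w * u * w)) * w = w * u⁻¹ * w * u * (w * w) := by group
      rw [h2, hw2, mul_one, mul_inv_rev, inv_inv, mul_inv_rev, mul_inv_rev, hwi]
      group
    rw [h1]
    exact inv_eq_of_mul_eq_one_left (hVsq _ hu)
  obtain ⟨v, hv, hvw⟩ : ∃ v ∈ V, w * v * w⁻¹ ≠ v := by
    by_contra hcon
    push Not at hcon
    apply hVc
    refine ⟨⟨⟨y, hyV⟩, fun u => ?_⟩⟩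
    rcases hfixV u u.2 (hcon u u.2) with h1 | h1
    · have : u = 1 := Subtype.ext h1
      rw [this]; exact Subgroup.one_mem (Subgroup.zpowers (⟨y, hyV⟩ : V))
    · have : u = ⟨y, hyV⟩ := Subtype.ext h1
      rw [this]; exact Subgroup.mem_zpowers _
  have hvt : v⁻¹ * (w * v * w⁻¹) = y := by
    rcases ht v (V.mul_mem (V.inv_mem hv) (hVw v hv)) with h1 | h1
    · exfalso
      apply hvw
      exact (inv_mul_eq_one.1 h1).symm
    · exact h1
  have hkey : ∀ u ∈ U, u⁻¹ * (w * u * w⁻¹) ∈ V → u = 1 ∨ u = y ∨ u = v ∨ u = y * v := by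
    intro u hu huV
    rcases ht u huV with h1 | h1
    · have h2 : w * u * w⁻¹ = u := (inv_mul_eq_one.1 h1).symm
      rcases (hfix u hu).1 h2 with h3 | h3
      · exact Or.inl h3
      · exact Or.inr (Or.inl h3)
    · have e1 : w * u * w⁻¹ = u * y := by rw [← h1]; group
      have e2 : w * v * w⁻¹ = v * y := by rw [← hvt]; group
      have h2 : w * (u * v⁻¹) * w⁻¹ = u * v⁻¹ := by
        have : w * (u * v⁻¹) * w⁻¹ = (w * u * w⁻¹) * (w * v * w⁻¹)⁻¹ := by group
        rw [this, e1, e2]; group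
      rcases (hfix _ (U.mul_mem hu (U.inv_mem (hVU hv)))).1 h2 with h3 | h3
      · exact Or.inr (Or.inr (Or.inl (mul_inv_eq_one.1 h3)))
      · exact Or.inr (Or.inr (Or.inr (mul_inv_eq_iff_eq_mul.1 h3)))
  have hkeyV : ∀ u ∈ U, u⁻¹ * (w * u * w⁻¹) ∈ V → u ∈ V := by
    intro u hu huV
    rcases hkey u hu huV with h1 | h1 | h1 | h1
    · rw [h1]; exact V.one_mem
    · rw [h1]; exact hyV
    · rw [h1]; exact hv
    · rw [h1]; exact V.mul_mem hyV hv
  have hv1 : v ≠ 1 := by
    rintro rfl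
    apply hvw
    group
  have hvy : v ≠ y := by
    rintro rfl
    exact hvw hwy
  -- the quotient
  set Vu := V.subgroupOf U with hVu
  let c : U →* U :=
    { toFun := fun u => ⟨w * u * w⁻¹, (Subgroup.mem_normalizer_iff.1 hwU u).1 u.2⟩
      map_one' := Subtype.ext (by show w * 1 * w⁻¹ = 1; group)
      map_mul' := fun a b => Subtype.ext (by show w * (a * b : H) * w⁻¹ = (w * a * w⁻¹) * (w * b * w⁻¹); group) }
  have hc : ∀ u : U, ((c u : U) : H) = w * u * w⁻¹ := fun _ => rfl
  have hle : Vu ≤ Vu.comap c := fun u hu => hVw _ hu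
  let φ : U ⧸ Vu →* U ⧸ Vu := QuotientGroup.map Vu Vu c hle
  have hφ : ∀ u : U, φ (QuotientGroup.mk u) = QuotientGroup.mk (c u) := fun _ => rfl
  have hfp : MonoidHom.FixedPointFree φ := by
    intro g hg
    obtain ⟨u, rfl⟩ := QuotientGroup.mk_surjective g
    rw [hφ] at hg
    have h1 := QuotientGroup.eq.1 hg.symm
    exact (QuotientGroup.eq_one_iff u).2 (hkeyV u u.2 h1)
  have hinv : Function.Involutive φ := by
    intro g
    obtain ⟨u, rfl⟩ := QuotientGroup.mk_surjective g
    rw [hφ, hφ]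
    congr 1
    apply Subtype.ext
    rw [hc, hc, hwi]
    have : w * (w * (u : H) * w) * w = (w * w) * u * (w * w) := by group
    rw [this, hw2, one_mul, mul_one]
  refine ⟨?_, ?_, ?_⟩
  · have h1 := hfp.odd_card_of_involutive hinv
    rw [← Subgroup.index_eq_card] at h1
    intro h2
    exact (Nat.not_even_iff_odd.2 h1) (even_iff_two_dvd.2 h2)
  · classical
    have hset : (V : Set H) = (({1, y, v, y * v} : Finset H) : Set H) := by
      ext u
      simp only [SetLike.mem_coe, Finset.coe_insert, Finset.coe_singleton, Set.mem_insert_iff, Set.mem_singleton_iff]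
      constructor
      · intro hu
        exact hkey u (hVU hu) (V.mul_mem (V.inv_mem hu) (hVw u hu))
      · rintro (h1 | h1 | h1 | h1)
        · rw [h1]; exact V.one_mem
        · rw [h1]; exact hyV
        · rw [h1]; exact hv
        · rw [h1]; exact V.mul_mem hyV hv
    have h1 : Nat.card V = (V : Set H).ncard := rfl
    rw [h1, hset, Set.ncard_coe_finset]
    have hyy : y * y = 1 := hVsq y hyV
    have d1 : y * v ≠ 1 := fun h => hvy (by
      have : v = y⁻¹ := (inv_eq_of_mul_eq_one_right h).symm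
      rw [this]; exact inv_eq_of_mul_eq_one_left hyy)
    have d2 : y * v ≠ y := fun h => hv1 (mul_eq_left.1 h)
    have d3 : y * v ≠ v := fun h => hy (mul_eq_right.1 h)
    rw [Finset.card_insert_of_notMem, Finset.card_insert_of_notMem, Finset.card_insert_of_notMem, Finset.card_singleton]
    · rw [Finset.mem_singleton]; exact fun h => d3 h.symm
    · rw [Finset.mem_insert, Finset.mem_singleton]; rintro (h | h)
      · exact hvy h.symm
      · exact d2 h.symm
    · rw [Finset.mem_insert, Finset.mem_insert, Finset.mem_singleton]; rintro (h | h | h)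
      · exact hy h.symm
      · exact hv1 h.symm
      · exact d1 h.symm
  · rw [Subgroup.commutator_le]
    intro a ha b hb
    have h1 := hfp.commute_all_of_involutive hinv (QuotientGroup.mk (⟨a, ha⟩ : U)) (QuotientGroup.mk (⟨b, hb⟩ : U))
    have h2 : (QuotientGroup.mk' Vu) ⁅(⟨a, ha⟩ : U), (⟨b, hb⟩ : U)⁆ = 1 := by
      rw [map_commutatorElement, commutatorElement_eq_one_iff_mul_comm]
      exact h1.eq
    have h3 : ⁅(⟨a, ha⟩ : U), (⟨b, hb⟩ : U)⁆ ∈ Vu := (QuotientGroup.eq_one_iff _).1 h2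
    exact h3

end Cfsg.Agent.S3825
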