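import Cfsg.Statements.S3835
import Cfsg.Agent.Lib.QdE
import Cfsg.Agent.Lib.Involve

set_option autoImplicit false
open Cfsg

namespace Cfsg.Agent.S3835

open Subgroup Cfsg.Agent.Lib Cfsg.Agent.Lib.DickB Cfsg.Agent.Lib.DickC Cfsg.Agent.Lib.DickD Cfsg.Agent.Lib.QdA Cfsg.Agent.Lib.QdD Cfsg.Agent.Lib.QdE

theorem units_odd {u : ℤˣ} {p : ℕ} (hp : ¬ 2 ∣ p) (h : u ^ p = 1) : u = 1 := by
  rcases Int.units_eq_one_or u with h1 | h1
  · exact h1
  · rw [h1, Odd.neg_one_pow (Nat.odd_iff.mpr (by omega))] at h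
    exact absurd h (by decide)

theorem hom_trivial {p : ℕ} [Fact p.Prime] (hp : p ≠ 2) (ψ : Cfsg.qd p →* ℤˣ) (x : Cfsg.qd p) : ψ x = 1 := by
  have hp2 : ¬ 2 ∣ p := fun h => hp ((Nat.prime_dvd_prime_iff_eq Nat.prime_two Fact.out).mp h).symm
  have htr : ∀ a b : ZMod p, ψ (tran a b) = 1 := by
    intro a b
    apply units_odd hp2
    rw [← map_pow]
    have h : ∀ n : ℕ, (tran a b : Cfsg.qd p) ^ n = tran ((n : ZMod p) * a) ((n : ZMod p) * b) := by
      intro n
      induction n with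
      | zero =>
        rw [pow_zero, Nat.cast_zero, zero_mul, zero_mul]
        exact (A0 p).zero.symm
      | succ n ih =>
        rw [pow_succ, ih]
        have := (A0 p).add ((n : ZMod p) * a) ((n : ZMod p) * b) a b
        rw [Nat.cast_succ, add_mul, add_mul, one_mul, one_mul]
        exact this.symm
    rw [h p, ZMod.natCast_self, zero_mul, zero_mul]
    rw [show (tran 0 0 : Cfsg.qd p) = 1 from (A0 p).zero, map_one]
  obtain ⟨χ, hχ⟩ : ∃ χ : S (ZMod p) →* ℤˣ, ∀ g, χ g = ψ ⟨aff g 0 0, aff_mem g 0 0⟩ := by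
    refine ⟨MonoidHom.mk' (fun g => ψ ⟨aff g 0 0, aff_mem g 0 0⟩) ?_, fun g => rfl⟩
    intro g h
    rw [← map_mul]
    congr 1
    refine Subtype.ext ?_
    show aff (g * h) 0 0 = aff g 0 0 * aff h 0 0
    rw [aff_mul]
    congr 1 <;> simp
  have ht : ∀ b : ZMod p, χ (SL2.t b) = 1 := by
    intro b
    apply units_odd hp2
    rw [← map_pow, SL2.t_pow, ZMod.natCast_self, zero_mul, SL2.t_zero, map_one]
  have hs : ∀ b : ZMod p, χ (SL2.s b) = 1 := by
    intro b
    have h1 := SL2.w_conj_t (F := ZMod p) (-b)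
    rw [neg_neg] at h1
    rw [← h1, map_mul, map_mul, ht, mul_one, ← map_mul, mul_inv_cancel, map_one]
  have hker : χ.ker = ⊤ := SL2.closure_t_s (fun b => MonoidHom.mem_ker.mpr (ht b)) (fun b => MonoidHom.mem_ker.mpr (hs b))
  have h1 : x = tran (x.1.1 0 2) (x.1.1 1 2) * ⟨aff (linv x) 0 0, aff_mem _ 0 0⟩ := by
    refine Subtype.ext ?_
    show x.1 = aff 1 _ _ * aff (linv x) 0 0
    rw [aff_mul]
    conv_lhs => rw [eq_aff x]
    congr 1 <;> simp
  rw [h1, map_mul, htr, one_mul, ← hχ]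
  have h2 : linv x ∈ χ.ker := by rw [hker]; exact mem_top _
  exact MonoidHom.mem_ker.mp h2

/-- the affine action -/
theorem exists_perm {p : ℕ} [Fact p.Prime] : ∃ f : Cfsg.qd p →* Equiv.Perm (ZMod p × ZMod p), Function.Injective f := by
  letI act : MulAction (Cfsg.qd p) (ZMod p × ZMod p) :=
    { smul := fun q v => (q.1.1 0 0 * v.1 + q.1.1 0 1 * v.2 + q.1.1 0 2, q.1.1 1 0 * v.1 + q.1.1 1 1 * v.2 + q.1.1 1 2)
      one_smul := by
        rintro ⟨a, b⟩
        refine Prod.ext ?_ ?_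
        · show (1 : Matrix (Fin 3) (Fin 3) (ZMod p)) 0 0 * a + (1 : Matrix (Fin 3) (Fin 3) (ZMod p)) 0 1 * b + (1 : Matrix (Fin 3) (Fin 3) (ZMod p)) 0 2 = a
          simp
        · show (1 : Matrix (Fin 3) (Fin 3) (ZMod p)) 1 0 * a + (1 : Matrix (Fin 3) (Fin 3) (ZMod p)) 1 1 * b + (1 : Matrix (Fin 3) (Fin 3) (ZMod p)) 1 2 = b
          simp
      mul_smul := by
        rintro q r ⟨a, b⟩
        obtain ⟨h1, h2, h3⟩ := mem_qd.1 r.2
        have hm : ∀ i j, (q * r).1.1 i j = q.1.1 i 0 * r.1.1 0 j + q.1.1 i 1 * r.1.1 1 j + q.1.1 i 2 * r.1.1 2 j := by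
          intro i j
          show (q.1.1 * r.1.1) i j = _
          rw [Matrix.mul_apply, Fin.sum_univ_three]
        refine Prod.ext ?_ ?_
        · show (q * r).1.1 0 0 * a + (q * r).1.1 0 1 * b + (q * r).1.1 0 2 = q.1.1 0 0 * (r.1.1 0 0 * a + r.1.1 0 1 * b + r.1.1 0 2) + q.1.1 0 1 * (r.1.1 1 0 * a + r.1.1 1 1 * b + r.1.1 1 2) + q.1.1 0 2
          rw [hm, hm, hm, h1, h2, h3]; ring
        · show (q * r).1.1 1 0 * a + (q * r).1.1 1 1 * b + (q * r).1.1 1 2 = q.1.1 1 0 * (r.1.1 0 0 * a + r.1.1 0 1 * b + r.1.1 0 2) + q.1.1 1 1 * (r.1.1 1 0 * a + r.1.1 1 1 * b + r.1.1 1 2) + q.1.1 1 2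
          rw [hm, hm, hm, h1, h2, h3]; ring }
  refine ⟨MulAction.toPermHom (Cfsg.qd p) (ZMod p × ZMod p), ?_⟩
  rw [injective_iff_map_eq_one]
  intro q hq
  have hact : ∀ v : ZMod p × ZMod p, q • v = v := fun v => by
    have := congrArg (fun σ : Equiv.Perm (ZMod p × ZMod p) => σ v) hq
    exact this
  have hsm : ∀ a b : ZMod p, (q.1.1 0 0 * a + q.1.1 0 1 * b + q.1.1 0 2, q.1.1 1 0 * a + q.1.1 1 1 * b + q.1.1 1 2) = (a, b) := fun a b => hact (a, b)
  have h00 := hsm 0 0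
  have h10 := hsm 1 0
  have h01 := hsm 0 1
  simp only [mul_zero, mul_one, zero_add, add_zero, Prod.mk.injEq] at h00 h10 h01
  obtain ⟨h1, h2, h3⟩ := mem_qd.1 q.2
  refine Subtype.ext (Subtype.ext ?_)
  ext i j
  have e02 := h00.1
  have e12 := h00.2
  have e00 : q.1.1 0 0 = 1 := by have := h10.1; rw [e02, add_zero] at this; exact this
  have e10 : q.1.1 1 0 = 0 := by have := h10.2; rw [e12, add_zero] at this; exact this
  have e01 : q.1.1 0 1 = 0 := by have := h01.1; rw [e02, add_zero] at this; exact this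
  have e11 : q.1.1 1 1 = 1 := by have := h01.2; rw [e12, add_zero] at this; exact this
  fin_cases i <;> fin_cases j <;> simp [e00, e01, e02, e10, e11, e12, h1, h2, h3]

theorem sylow_comm {p : ℕ} [hp : Fact p.Prime] {n : ℕ} (hn : n < p ^ 2) (P : Sylow p (alternatingGroup (Fin n))) : ∀ a b : P, a * b = b * a := by
  intro a b
  have hfix : ∀ x : Fin n, (a * b * (b * a)⁻¹ : P) • x = x := by
    intro x
    obtain ⟨St, hSt⟩ : ∃ St, St = MulAction.stabilizer P x := ⟨_, rfl⟩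
    have hidx : St.index ≤ n := by
      rw [hSt, MulAction.index_stabilizer]
      have := Set.ncard_le_card (MulAction.orbit P x)
      rwa [Nat.card_fin] at this
    obtain ⟨j, hj⟩ := P.isPGroup'.index St
    have hj1 : j < 2 := by
      by_contra hj2
      have := Nat.pow_le_pow_right hp.out.pos (show 2 ≤ j by omega)
      omega
    have hmem : a * b * (b * a)⁻¹ ∈ St := by
      rcases (show j = 0 ∨ j = 1 by omega) with h0 | h0
      · rw [h0, pow_zero] at hj
        rw [index_eq_one.mp hj]; exact mem_top _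
      · rw [h0, pow_one] at hj
        haveI hn : St.Normal := by
          apply Subgroup.normal_of_index_eq_minFac_card
          obtain ⟨m, hm⟩ := IsPGroup.iff_card.mp P.isPGroup'
          have hm0 : m ≠ 0 := by
            rintro rfl
            rw [pow_zero] at hm
            have h1 := St.index_dvd_card
            rw [hm, hj] at h1
            exact hp.out.one_lt.ne' (Nat.dvd_one.mp h1)
          rw [hj, hm, hp.out.pow_minFac hm0]
        have hc : Nat.card (P ⧸ St) = p := hj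
        haveI : IsCyclic (P ⧸ St) := isCyclic_of_prime_card hc
        letI := IsCyclic.commGroup (α := P ⧸ St)
        rw [← QuotientGroup.eq_one_iff]
        change ((a : P ⧸ St) * b) * ((b : P ⧸ St) * a)⁻¹ = 1
        rw [mul_comm (b : P ⧸ St) a, mul_inv_cancel]
    rw [hSt] at hmem
    exact hmem
  have h1 : (a * b * (b * a)⁻¹ : P) = 1 := by
    refine Subtype.ext (Subtype.ext ?_)
    ext x
    exact congrArg Fin.val (hfix x)
  exact mul_inv_eq_one.mp h1

theorem not_inv {p : ℕ} [Fact p.Prime] {n : ℕ} (hn : n < p ^ 2) : ¬ Cfsg.Involves ↥(Cfsg.qd p) ↥(alternatingGroup (Fin n)) := by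
  intro h
  obtain ⟨P⟩ := (inferInstance : Nonempty (Sylow p (alternatingGroup (Fin n))))
  have h1 := Involve.involves_sylow T1_pgroup (Involve.involves_trans (Involve.involves_subgroup (T1 p)) h) P
  obtain ⟨K, f, hf⟩ := Involve.involves_iff.1 h1
  obtain ⟨x, hx⟩ := hf (mkT 1 0 0)
  obtain ⟨y, hy⟩ := hf (mkT 0 0 1)
  have h2 : x * y = y * x := Subtype.ext (sylow_comm hn P x y)
  have h3 : mkT (p := p) 1 0 0 * mkT 0 0 1 = mkT 0 0 1 * mkT 1 0 0 := by
    rw [← hx, ← hy, ← map_mul, h2, map_mul]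
  rw [mkT_mul, mkT_mul] at h3
  have h4 := (aff_inj (congrArg (fun z : T1 p => ((z : Cfsg.qd p) : Matrix.SpecialLinearGroup (Fin 3) (ZMod p))) h3)).2.1
  simp at h4

theorem exists_sub {p : ℕ} [Fact p.Prime] (hp : p ≠ 2) {n : ℕ} (hn : p ^ 2 ≤ n) : ∃ H : Subgroup (alternatingGroup (Fin n)), Nonempty (↥H ≃* ↥(Cfsg.qd p)) := by
  classical
  obtain ⟨f, hf⟩ := exists_perm (p := p)
  have hc : Fintype.card (ZMod p × ZMod p) ≤ Fintype.card (Fin n) := by
    rw [Fintype.card_prod, ZMod.card, Fintype.card_fin, ← pow_two]; exact hn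
  obtain ⟨e⟩ := Function.Embedding.nonempty_of_card_le hc
  obtain ⟨F, hF, hFi⟩ : ∃ F : Cfsg.qd p →* Equiv.Perm (Fin n), (∀ x, F x ∈ alternatingGroup (Fin n)) ∧ Function.Injective F := by
    refine ⟨(Equiv.Perm.viaEmbeddingHom e).comp f, ?_, (Equiv.Perm.viaEmbeddingHom_injective e).comp hf⟩
    intro x
    rw [Equiv.Perm.mem_alternatingGroup]
    exact hom_trivial hp (Equiv.Perm.sign.comp ((Equiv.Perm.viaEmbeddingHom e).comp f)) x
  let F' : Cfsg.qd p →* alternatingGroup (Fin n) := F.codRestrict _ hF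
  have hF' : Function.Injective F' := fun x y h => hFi (congrArg Subtype.val h)
  exact ⟨F'.range, ⟨(MonoidHom.ofInjective hF').symm⟩⟩

/-- Let p be an odd prime and n a natural number. The alternating group of degree n has a subgroup isomorphic to Qd(p) (the natural semidirect product of an elementary abelian group of order p² by SL₂(p)) if and only if n ≥ p²; and if n < p² then Qd(p) is not even involved in it. -/
theorem result {p : ℕ} [Fact p.Prime] (hp : p ≠ 2) (n : ℕ) : ((∃ H : Subgroup (alternatingGroup (Fin n)), Nonempty (↥H ≃* ↥(Cfsg.qd p))) ↔ p ^ 2 ≤ n) ∧ (n < p ^ 2 → ¬ Cfsg.Involves ↥(Cfsg.qd p) ↥(alternatingGroup (Fin n))) := by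
  refine ⟨⟨?_, exists_sub hp⟩, not_inv⟩
  rintro ⟨H, ⟨e⟩⟩
  by_contra hn
  exact not_inv (p := p) (not_le.mp hn) (Involve.involves_of_inj (H.subtype.comp e.symm.toMonoidHom) (H.subtype_injective.comp e.symm.injective))

end Cfsg.Agent.S3835
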