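import Cfsg.Statements.S3836
import Cfsg.Agent.Lib.Cores


set_option autoImplicit false
open Cfsg

namespace Cfsg.Agent.S3836

open Subgroup

/-- Let G be a finite group that is p-stable in the normalizer form: for every p-subgroup Q and every x ∈ N_G(Q) with [Q, x, x] = 1, the image of x in N_G(Q)/C_G(Q) lies in O_p(N_G(Q)/C_G(Q)). Then every subgroup of G is p-stable in the same sense. -/
theorem result {G : Type*} [Group G] [Finite G] {p : ℕ} [Fact p.Prime] (hst : Cfsg.IsNormalizerPStable p G) (H : Subgroup G) : Cfsg.IsNormalizerPStable p ↥H := by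
  intro P hP g hg hcomm
  set P' : Subgroup G := P.map H.subtype with hP'
  have hmem : ∀ x : H, (x : G) ∈ P' ↔ x ∈ P := by
    intro x
    exact mem_map_iff_mem H.subtype_injective
  have hN : ∀ x : H, (x : G) ∈ normalizer (P' : Set G) ↔ x ∈ normalizer (P : Set H) := by
    intro x
    rw [mem_normalizer_iff, mem_normalizer_iff]
    constructor
    · intro h y
      rw [← hmem, ← hmem]
      exact h y
    · intro h y
      constructor
      · rintro ⟨z, hz, rfl⟩
        exact ⟨x * z * x⁻¹, (h z).1 hz, rfl⟩
      · rintro ⟨z, hz, hzy⟩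
        have h2 : y = (x : G)⁻¹ * (z : G) * x := by
          have : (z : G) = x * y * (x : G)⁻¹ := hzy
          rw [this]; group
        refine ⟨x⁻¹ * z * x, (h _).2 ?_, by rw [h2]; rfl⟩
        have : x * (x⁻¹ * z * x) * x⁻¹ = z := by group
        rwa [this]
  have hC : ∀ x : H, (x : G) ∈ centralizer (P' : Set G) ↔ x ∈ centralizer (P : Set H) := by
    intro x
    rw [mem_centralizer_iff, mem_centralizer_iff]
    constructor
    · intro h y hy
      exact Subtype.ext (h y ((hmem y).2 hy))
    · rintro h _ ⟨y, hy, rfl⟩
      exact congrArg H.subtype (h y hy)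
  have hP2 : IsPGroup p P' := hP.map _
  have hcomm' : ⁅⁅P', zpowers (g : G)⁆, zpowers (g : G)⁆ = ⊥ := by
    have h1 : (zpowers g).map H.subtype = zpowers (g : G) := by
      rw [MonoidHom.map_zpowers]; rfl
    rw [hP', ← h1, ← map_commutator, ← map_commutator, hcomm, Subgroup.map_bot]
  have h1 := hst P' hP2 (g : G) ((hN g).2 hg) hcomm'
  -- homomorphism N_H(P)/C_H(P) → N_G(P')/C_G(P')
  let f : normalizer (P : Set H) →* normalizer (P' : Set G) :=
    { toFun := fun x => ⟨(x : H), (hN x).2 x.2⟩
      map_one' := rfl
      map_mul' := fun _ _ => rfl }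
  have : ((centralizer (P : Set H)).subgroupOf (normalizer (P : Set H))).Normal := inferInstance
  have : ((centralizer (P' : Set G)).subgroupOf (normalizer (P' : Set G))).Normal := inferInstance
  let F : normalizer (P : Set H) ⧸ (centralizer (P : Set H)).subgroupOf (normalizer (P : Set H)) →*
      normalizer (P' : Set G) ⧸ (centralizer (P' : Set G)).subgroupOf (normalizer (P' : Set G)) :=
    QuotientGroup.map _ _ f (by
      intro x hx
      rw [mem_subgroupOf] at hx
      show f x ∈ (centralizer (P' : Set G)).subgroupOf (normalizer (P' : Set G))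
      rw [mem_subgroupOf]
      exact (hC x).2 hx)
  have hF : Function.Injective F := by
    rw [injective_iff_map_eq_one]
    intro x
    induction x using QuotientGroup.induction_on with
    | H x =>
      intro hx
      have h2 : ((f x : normalizer (P' : Set G)) :
        normalizer (P' : Set G) ⧸ (centralizer (P' : Set G)).subgroupOf (normalizer (P' : Set G))) = 1 := hx
      rw [QuotientGroup.eq_one_iff, mem_subgroupOf] at h2
      rw [QuotientGroup.eq_one_iff, mem_subgroupOf]
      exact (hC x).1 h2
  have hn : (pCore p (normalizer (P' : Set G) ⧸ (centralizer (P' : Set G)).subgroupOf (normalizer (P' : Set G)))).Normal :=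
    Lib.Cores.pCore_normal p
  have h3 : (pCore p (normalizer (P' : Set G) ⧸ (centralizer (P' : Set G)).subgroupOf (normalizer (P' : Set G)))).comap F ≤ pCore p _ := by
    refine Lib.Cores.le_pCore (hn.comap F) ?_
    exact (Lib.Cores.pCore_isPGroup p).comap_of_injective F hF
  exact h3 h1

end Cfsg.Agent.S3836
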