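import Cfsg.Statements.S3838
import Mathlib
import Cfsg.Agent.H2.PNilX

set_option autoImplicit false
open Cfsg

namespace Cfsg.Agent.S3838

open Subgroup
open scoped commutatorElement

/-- Let G be a finite group with Sylow p-subgroup P such that N_G(P) has a normal p-complement. Then N_G(Q) has a normal p-complement for every subgroup Q with [P, P] ≤ Q ≤ Φ(P). -/
theorem result {G : Type*} [Group G] [Finite G] {p : ℕ} [Fact p.Prime] (P : Sylow p G) (hN : Cfsg.HasNormalPComplement p ↥(Subgroup.normalizer ((P : Subgroup G) : Set G))) (Q : Subgroup G) (h1 : (commutator ↥(P : Subgroup G)).map (P : Subgroup G).subtype ≤ Q) (h2 : Q ≤ (frattini ↥(P : Subgroup G)).map (P : Subgroup G).subtype) : Cfsg.HasNormalPComplement p ↥(Subgroup.normalizer (Q : Set G)) := by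
  open Subgroup Cfsg.Agent.Lib.PNilp Cfsg.Agent.H2.PNilX in
  rw [hasNormalPComplement_iff] at hN ⊢
  have hQP : Q ≤ P := h2.trans (Subgroup.map_subtype_le _)
  have hPQ : (P : Subgroup G) ≤ normalizer (Q : Set G) := by
    intro x hx
    rw [mem_normalizer_iff]
    have key : ∀ x ∈ (P : Subgroup G), ∀ y ∈ Q, x * y * x⁻¹ ∈ Q := by
      intro x hx y hy
      have h3 : ⁅(⟨x, hx⟩ : (P : Subgroup G)), (⟨y, hQP hy⟩ : (P : Subgroup G))⁆ ∈ commutator (P : Subgroup G) :=
        commutator_mem_commutator (mem_top _) (mem_top _)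
      have h4 := h1 (mem_map_of_mem (P : Subgroup G).subtype h3)
      have h5 : (P : Subgroup G).subtype ⁅(⟨x, hx⟩ : (P : Subgroup G)), (⟨y, hQP hy⟩ : (P : Subgroup G))⁆ =
        x * y * x⁻¹ * y⁻¹ := rfl
      rw [h5] at h4
      have h6 := (Q).mul_mem h4 hy
      rwa [inv_mul_cancel_right] at h6
    intro y
    constructor
    · exact key x hx y
    · intro hy
      have := key x⁻¹ ((P : Subgroup G).inv_mem hx) _ hy
      have h6 : x⁻¹ * (x * y * x⁻¹) * x⁻¹⁻¹ = y := by group
      rwa [h6] at this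
  haveI : (Q.subgroupOf (normalizer (Q : Set G))).Normal := normal_in_normalizer
  apply pNil_of_between (P.subtype hPQ) (Q.subgroupOf (normalizer (Q : Set G)))
  · have h3 : (normalizer ((P : Subgroup G) : Set G)).subgroupOf (normalizer (Q : Set G)) =
        normalizer (((P.subtype hPQ : Sylow p ↥(normalizer (Q : Set G))) : Subgroup ↥(normalizer (Q : Set G))) :
          Set ↥(normalizer (Q : Set G))) := subgroupOf_normalizer_eq hPQ
    rw [← h3]
    let f : ↥((normalizer ((P : Subgroup G) : Set G)).subgroupOf (normalizer (Q : Set G))) →*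
        ↥(normalizer ((P : Subgroup G) : Set G)) :=
      { toFun := fun x => ⟨x.1.1, x.2⟩
        map_one' := rfl
        map_mul' := fun _ _ => rfl }
    apply hN.of_injective f
    intro a b hab
    have := congrArg Subtype.val hab
    exact Subtype.ext (Subtype.ext this)
  · intro x hx y hy
    have h3 : ⁅(⟨(x : G), hx⟩ : (P : Subgroup G))⁻¹, (⟨(y : G), hy⟩ : (P : Subgroup G))⁻¹⁆ ∈ commutator (P : Subgroup G) :=
        commutator_mem_commutator (mem_top _) (mem_top _)
    have h4 := h1 (mem_map_of_mem (P : Subgroup G).subtype h3)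
    have h5 : (P : Subgroup G).subtype ⁅(⟨(x : G), hx⟩ : (P : Subgroup G))⁻¹, (⟨(y : G), hy⟩ : (P : Subgroup G))⁻¹⁆ =
        (x : G)⁻¹ * (y : G)⁻¹ * x * y := by
      rw [commutatorElement_def]
      show (x : G)⁻¹ * (y : G)⁻¹ * (x : G)⁻¹⁻¹ * (y : G)⁻¹⁻¹ = _
      rw [inv_inv, inv_inv]
    rw [h5] at h4
    exact h4
  · exact (nonGen_of_frattini h2).subgroupOf hPQ

end Cfsg.Agent.S3838
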