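import Cfsg.Statements.S3857
import Mathlib
import Cfsg.Agent.H2.PGraph

set_option autoImplicit false
open Cfsg

namespace Cfsg.Agent.S3857

open Subgroup Cfsg.Agent.Lib Cfsg.Agent.Lib.Cores Cfsg.Agent.H2.PGraph

/-- A finite solvable group whose prime graph (prime divisors of the order, two distinct primes joined when there is an element of order their product) is disconnected is a Frobenius group or a 2-Frobenius group (it has normal subgroups H < K with K a Frobenius group with kernel H and G/H a Frobenius group with kernel K/H). -/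
theorem result {G : Type*} [Group G] [Finite G] (hsol : Group.IsSolvable G)
    (hdisc : (∃ A : Set ℕ, (∃ a ∈ A, a.Prime ∧ a ∣ Nat.card G) ∧ (∃ b ∉ A, b.Prime ∧ b ∣ Nat.card G) ∧
      ∀ a ∈ A, ∀ b ∉ A, a.Prime → b.Prime → a ∣ Nat.card G → b ∣ Nat.card G → ¬ ∃ g : G, orderOf g = a * b)) :
    (∃ C : Subgroup G, Cfsg.IsFrobeniusComplement C) ∨
    (∃ (H K : Subgroup G) (_ : H.Normal), K.Normal ∧ H < K ∧
      (∃ C : Subgroup ↥K, Cfsg.IsFrobeniusComplement C ∧ Cfsg.frobeniusKernel C = (H.subgroupOf K : Set ↥K)) ∧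
      (∃ C : Subgroup (G ⧸ H), Cfsg.IsFrobeniusComplement C ∧ Cfsg.frobeniusKernel C = (K.map (QuotientGroup.mk' H) : Set (G ⧸ H)))) := by
  classical
  haveI := hsol
  obtain ⟨A₀, ⟨a₀, ha₀, ha₀p, ha₀d⟩, ⟨b₀, hb₀, hb₀p, hb₀d⟩, hA₀⟩ := hdisc
  have hNE₀ : NE G A₀ := by
    rintro a ha b hb hap hbp ⟨g, hg⟩
    exact hA₀ a ha b hb hap hbp ((Dvd.intro _ rfl).trans (hg ▸ orderOf_dvd_natCard g)) ((Dvd.intro_left _ rfl).trans (hg ▸ orderOf_dvd_natCard g)) ⟨g, hg⟩
  -- choose the side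
  obtain ⟨A, hNE, ⟨a, haA, hap, had⟩, ⟨b, hbA, hbp, hbd⟩, p, hp, hpA, hpO⟩ : ∃ A : Set ℕ, NE G A ∧ (∃ a ∈ A, a.Prime ∧ a ∣ Nat.card G) ∧
      (∃ b ∉ A, b.Prime ∧ b ∣ Nat.card G) ∧ ∃ p : ℕ, p.Prime ∧ p ∈ A ∧ Cfsg.pCore p G ≠ ⊥ := by
    obtain ⟨p, hp, hpO⟩ : ∃ p, p.Prime ∧ Cfsg.pCore p G ≠ ⊥ := by
      by_contra hcon
      push Not at hcon
      have h1 := Cfsg.Agent.H2.CND.card_one_of_fitting hsol (fitting_eq_bot_iff.mpr fun p hp => hcon p hp)
      rw [h1] at ha₀d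
      exact ha₀p.one_lt.ne' (Nat.dvd_one.mp ha₀d)
    by_cases hpA : p ∈ A₀
    · exact ⟨A₀, hNE₀, ⟨a₀, ha₀, ha₀p, ha₀d⟩, ⟨b₀, hb₀, hb₀p, hb₀d⟩, p, hp, hpA, hpO⟩
    · exact ⟨A₀ᶜ, hNE₀.compl, ⟨b₀, hb₀, hb₀p, hb₀d⟩, ⟨a₀, fun h => h ha₀, ha₀p, ha₀d⟩, p, hp, hpA, hpO⟩
  haveI : Fact p.Prime := ⟨hp⟩
  obtain ⟨N, hNn, hNA, hNmax⟩ := exists_max (G := G) A
  haveI := hNn
  have hN1 : N ≠ ⊥ := by
    intro h
    apply hpO
    rw [eq_bot_iff, ← h]
    apply hNmax _ (Cfsg.Agent.Lib.Cores.pCore_normal (G := G) p)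
    obtain ⟨n, hn⟩ := IsPGroup.iff_card.mp (Cfsg.Agent.Lib.Cores.pCore_isPGroup (G := G) p)
    intro q hq hd
    rw [hn] at hd
    rw [(Nat.prime_dvd_prime_iff_eq hq hp).mp (hq.dvd_of_dvd_pow hd)]; exact hpA
  have hf := QuotientGroup.mk'_surjective N
  have hNEb : NE (G ⧸ N) A := hNE.quotient N
  have hcard := Subgroup.card_eq_card_quotient_mul_card_subgroup N
  have hbq : b ∣ Nat.card (G ⧸ N) := by
    have h1 : b ∣ Nat.card (G ⧸ N) * Nat.card N := hcard ▸ hbd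
    rcases hbp.dvd_mul.mp h1 with h | h
    · exact h
    · exact absurd (hNA b hbp h) hbA
  have hno : ∀ M : Subgroup (G ⧸ N), M.Normal → Pi A (Nat.card M) → M = ⊥ := by
    intro M hM hMA
    have h1 : M.comap (QuotientGroup.mk' N) ≤ N := by
      apply hNmax _ (hM.comap _)
      rw [card_comap_eq _ hf, QuotientGroup.ker_mk']
      exact hNA.mul hMA
    rw [eq_bot_iff]
    intro x hx
    obtain ⟨x, rfl⟩ := hf x
    exact mem_bot.mpr ((QuotientGroup.eq_one_iff x).mpr (h1 (mem_comap.mpr hx)))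
  obtain ⟨B, hBn, hBA, hBmax⟩ := exists_max (G := G ⧸ N) Aᶜ
  haveI := hBn
  have hB1 : B ≠ ⊥ := by
    apply max_ne_bot (G := G ⧸ N) (A := Aᶜ) inferInstance ?_ hBmax ?_
    · intro h; rw [h] at hbq; exact hbp.one_lt.ne' (Nat.dvd_one.mp hbq)
    · rw [compl_compl]; exact hno
  by_cases hBt : B = ⊤
  · left
    have hi : Pi Aᶜ N.index := by
      have h1 : N.index = Nat.card B := by rw [hBt, card_top]; rfl
      rw [h1]; exact hBA
    have hNt : N ≠ ⊤ := by
      intro h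
      rw [h, index_top] at hi
      have h2 : Nat.card (G ⧸ N) = 1 := by
        have : N.index = 1 := by rw [h, index_top]
        exact this
      rw [h2] at hbq
      exact hbp.one_lt.ne' (Nat.dvd_one.mp hbq)
    obtain ⟨C, -, hC, -⟩ := frob_of_coprime hNE hNA hN1 hi hNt
    exact ⟨C, hC⟩
  right
  -- the preimage
  obtain ⟨M, hM⟩ : ∃ M, M = B.comap (QuotientGroup.mk' N) := ⟨_, rfl⟩
  haveI hMn : M.Normal := hM ▸ hBn.comap _
  have hNM : N ≤ M := by
    intro x hx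
    rw [hM, mem_comap]
    have : QuotientGroup.mk' N x = 1 := (QuotientGroup.eq_one_iff x).mpr hx
    rw [this]; exact one_mem _
  have hMab : ∀ x ∈ M, QuotientGroup.mk' N x ∈ B := by
    intro x hx
    rw [hM] at hx
    exact mem_comap.mp hx
  have hMcard : Nat.card M = Nat.card N * Nat.card B := by
    rw [hM, card_comap_eq _ hf, QuotientGroup.ker_mk']
  obtain ⟨K, hK⟩ : ∃ K, K = N.subgroupOf M := ⟨_, rfl⟩
  haveI hKn : K.Normal := hK ▸ inferInstance
  have hKcard : Nat.card K = Nat.card N := by rw [hK]; exact Nat.card_congr (subgroupOfEquivOfLe hNM).toEquiv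
  have hKidx : K.index = Nat.card B := by
    have h1 := K.card_mul_index
    rw [hKcard, hMcard] at h1
    exact Nat.eq_of_mul_eq_mul_left Nat.card_pos h1
  have hK1 : K ≠ ⊥ := by
    intro h
    apply hN1
    rw [h, card_bot] at hKcard
    exact card_eq_one.mp hKcard.symm
  have hKt : K ≠ ⊤ := by
    intro h
    apply hB1
    rw [h, index_top] at hKidx
    exact card_eq_one.mp hKidx.symm
  obtain ⟨C, hCc, hCf, hCk, hCfp, hCA⟩ := frob_of_coprime (hNE.subgroup M) (N := K) (hKcard ▸ hNA) hK1 (hKidx ▸ hBA) hKt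
  have hCcard : Nat.card C = Nat.card B := by rw [← hCc.symm.index_eq_card, hKidx]
  -- the isomorphism
  obtain ⟨φ, hφ⟩ : ∃ φ : C →* B, ∀ a, ((φ a : B) : G ⧸ N) = QuotientGroup.mk' N ((a : M) : G) :=
    ⟨(((QuotientGroup.mk' N).comp M.subtype).comp C.subtype).codRestrict B (fun a => hMab _ (a : M).2), fun a => rfl⟩
  have hφi : Function.Injective φ := by
    rw [injective_iff_map_eq_one]
    intro a ha
    have h1 : QuotientGroup.mk' N ((a : M) : G) = 1 := by rw [← hφ, ha]; rfl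
    have h2 : (a : M) ∈ K ⊓ C := mem_inf.mpr ⟨hK ▸ mem_subgroupOf.mpr ((QuotientGroup.eq_one_iff _).mp h1), a.2⟩
    rw [hCc.disjoint.eq_bot] at h2
    exact Subtype.ext (mem_bot.mp h2)
  have hφb : Function.Bijective φ := by
    rw [Nat.bijective_iff_injective_and_card]
    exact ⟨hφi, hCcard⟩
  let e : C ≃* B := MulEquiv.ofBijective φ hφb
  have hpi := second (G := G ⧸ N) inferInstance hNEb hBA hB1 hBmax hBt (by
    intro q hq P
    haveI := hq
    let P' : Sylow q C := P.mapSurjective (f := e.symm.toMonoidHom) e.symm.surjective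
    have e1 : P ≃* P' := (P : Subgroup B).equivMapOfInjective e.symm.toMonoidHom e.symm.injective
    rcases @Cfsg.Agent.S0040.result M _ _ K C hKn hCc hK1 hCfp q hq P' with h | ⟨n, ⟨e2⟩⟩
    · exact Or.inl (e1.isCyclic.mpr h)
    · exact Or.inr ⟨n, ⟨e1.trans e2⟩⟩) (by
    intro h2
    obtain ⟨⟨s, hsC, hso, hsu, -⟩, -⟩ := Cfsg.Agent.S0068.result K C hCc hK1 hCfp (hCcard ▸ h2)
    refine ⟨QuotientGroup.mk' N (s : G), ?_, ?_, ?_⟩
    · rw [← hφ ⟨s, hsC⟩]; exact (φ _).2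
    · intro h
      have h8 : φ ⟨s, hsC⟩ = 1 := Subtype.ext (by rw [hφ]; exact h)
      have h9 := hφi (h8.trans (map_one φ).symm)
      have h10 : s = 1 := congrArg Subtype.val h9
      rw [h10, orderOf_one] at hso; omega
    · intro g
      have h3 : QuotientGroup.mk' N (s : G) ∈ B := by rw [← hφ ⟨s, hsC⟩]; exact (φ _).2
      have h4 : g * QuotientGroup.mk' N (s : G) * g⁻¹ ∈ B := hBn.conj_mem _ h3 g
      obtain ⟨t, ht⟩ := hφb.2 ⟨_, h4⟩
      have hto : orderOf (t : M) = 2 := by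
        have e1 : orderOf (t : M) = orderOf t := Subgroup.orderOf_coe t
        have e2 : orderOf t = orderOf (φ t) := (orderOf_injective φ hφi t).symm
        have e3 : orderOf (φ t) = orderOf (g * QuotientGroup.mk' N (s : G) * g⁻¹) := by rw [ht, ← Subgroup.orderOf_coe]
        have e4 : orderOf (g * QuotientGroup.mk' N (s : G) * g⁻¹) = orderOf (QuotientGroup.mk' N (s : G)) := by
          rw [show g * QuotientGroup.mk' N (s : G) * g⁻¹ = MulAut.conj g (QuotientGroup.mk' N (s : G)) from rfl, MulEquiv.orderOf_eq]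
        have e5 : orderOf (QuotientGroup.mk' N (s : G)) = orderOf (⟨s, hsC⟩ : C) := by
          rw [← hφ ⟨s, hsC⟩, Subgroup.orderOf_coe, orderOf_injective φ hφi]
        have e6 : orderOf (⟨s, hsC⟩ : C) = 2 := by rw [← Subgroup.orderOf_coe]; exact hso
        rw [e1, e2, e3, e4, e5, e6]
      have h5 := hsu t t.2 hto
      have h7 := congrArg Subtype.val ht
      rw [hφ, h5] at h7
      exact h7.symm)
  obtain ⟨C₂, -, hC₂f, hC₂k, -⟩ := frob_of_coprime (G := G ⧸ N) hNEb.compl hBA hB1 (by rw [compl_compl]; exact hpi) hBt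
  refine ⟨N, M, hNn, hMn, lt_of_le_of_ne hNM ?_, ⟨C, hCf, ?_⟩, C₂, hC₂f, ?_⟩
  · intro h
    apply hKt
    rw [hK, subgroupOf_eq_top]
    exact h.symm.le
  · rw [hCk, hK]
  · rw [hC₂k, hM, map_comap_eq_self_of_surjective hf]

end Cfsg.Agent.S3857
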