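import Cfsg.Statements.S3859
import Mathlib
import Cfsg.Agent.H2.PUtil

set_option autoImplicit false
open Cfsg

namespace Cfsg.Agent.S3859

open Subgroup

/-- `N_G(R ∩ T)` is proper -/
theorem norm_ne {G : Type*} [Group G] [Finite G] (T : Subgroup G) [T.Normal] (hT : IsSimpleGroup T)
    (hna : ¬ IsMulCommutative T) {r : ℕ} [Fact r.Prime] (D : Subgroup G) (hD : IsPGroup r D)
    (hDT : D ≤ T) (hD0 : D ≠ ⊥) : normalizer (D : Set G) ≠ ⊤ := by
  intro h
  rw [normalizer_eq_top_iff] at h
  have h1 : (D.subgroupOf T).Normal := inferInstance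
  rcases h1.eq_bot_or_eq_top with h2 | h2
  · apply hD0
    rw [subgroupOf_eq_bot] at h2
    exact disjoint_self.1 (h2.mono_right hDT)
  · rw [subgroupOf_eq_top] at h2
    have h3 : IsPGroup r T := hD.to_le h2
    have h4 : Group.IsNilpotent T := h3.isNilpotent
    have h5 : center T ≠ ⊥ := Group.IsNilpotent.center_ne_bot _
    have h6 : (center T) = ⊤ := (inferInstance : (center T).Normal).eq_bot_or_eq_top.resolve_left h5
    apply hna
    exact ⟨⟨fun a b => by
      have : b ∈ center T := by rw [h6]; trivial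
      exact (mem_center_iff.1 this a)⟩⟩

/-- Let G be a finite group with a normal non-abelian simple subgroup T whose centralizer is trivial (G almost simple with socle T), r a prime and R a Sylow r-subgroup of G meeting T nontrivially. If R lies in exactly one maximal subgroup of G, then G/T is an r-group. -/
theorem result {G : Type*} [Group G] [Finite G] (T : Subgroup G) [T.Normal] (hT : IsSimpleGroup T) (hna : ¬ IsMulCommutative T)
    (hC : Subgroup.centralizer (T : Set G) = ⊥) {r : ℕ} [Fact r.Prime] (R : Sylow r G) (hR0 : (R : Subgroup G) ⊓ T ≠ ⊥)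
    (huniq : ∃! M : Subgroup G, IsCoatom M ∧ (R : Subgroup G) ≤ M) : IsPGroup r (G ⧸ T) := by
  have hTsub : (R : Subgroup G) ⊓ T ≤ T := inf_le_right
  obtain ⟨M, ⟨hM, hRM⟩, hu⟩ := huniq
  have hex : ∀ K : Subgroup G, K ≠ ⊤ → (R : Subgroup G) ≤ K → K ≤ M := by
    intro K hK hRK
    have h0 : K = ⊤ ∨ ∃ U, IsCoatom U ∧ K ≤ U := eq_top_or_exists_le_coatom K
    obtain ⟨U, hU, hKU⟩ := h0.resolve_left hK
    rw [← hu U ⟨hU, hRK.trans hKU⟩]
    exact hKU
  have hN := norm_ne T hT hna ((R : Subgroup G) ⊓ T) (R.isPGroup'.to_le inf_le_left) inf_le_right hR0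
  have hRN : (R : Subgroup G) ≤ normalizer (((R : Subgroup G) ⊓ T : Subgroup G) : Set G) := by
    intro x hx
    apply H2.PUtil.mem_normalizer_of_conj_mem
    rintro y ⟨hy1, hy2⟩
    exact ⟨(R : Subgroup G).mul_mem ((R : Subgroup G).mul_mem hx hy1) ((R : Subgroup G).inv_mem hx),
      (inferInstance : T.Normal).conj_mem y hy2 x⟩
  have hNM := hex _ hN hRN
  have hTR : (T ⊔ (R : Subgroup G) : Subgroup G) = ⊤ := by
    by_contra hne
    have h1 := hex _ hne le_sup_right
    have h2 : T ≤ M := le_sup_left.trans h1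
    -- Frattini
    obtain ⟨S, hS⟩ := H2.PUtil.exists_sylow_subgroupOf R T
    have h6 := Sylow.normalizer_sup_eq_top S
    have h7 : (S : Subgroup T).map T.subtype = (R : Subgroup G) ⊓ T := by
      rw [hS, subgroupOf_map_subtype]
    rw [h7] at h6
    apply hM.1
    rw [eq_top_iff, ← h6]
    exact sup_le hNM h2
  have h8 : (R : Subgroup G).map (QuotientGroup.mk' T) = ⊤ := by
    have h9 : (T ⊔ (R : Subgroup G) : Subgroup G).map (QuotientGroup.mk' T) = ⊤ := by
      rw [hTR]; exact Subgroup.map_top_of_surjective _ (QuotientGroup.mk'_surjective T)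
    rw [Subgroup.map_sup, QuotientGroup.map_mk'_self, bot_sup_eq] at h9
    exact h9
  have h9 := R.isPGroup'.map (QuotientGroup.mk' T)
  rw [h8] at h9
  exact h9.of_equiv Subgroup.topEquiv

end Cfsg.Agent.S3859
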