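import Cfsg.Statements.S3858
import Mathlib
import Cfsg.Agent.S3859

set_option autoImplicit false
open Cfsg

namespace Cfsg.Agent.S3858

open Subgroup

/-- Let G be a finite group with a normal non-abelian simple subgroup T whose centralizer is trivial (G almost simple with socle T), r a prime and R a Sylow r-subgroup of G meeting T nontrivially. Then R lies in exactly one maximal subgroup of G if and only if G has exactly one conjugacy class of maximal subgroups whose index is prime to r. -/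
theorem result {G : Type*} [Group G] [Finite G] (T : Subgroup G) [T.Normal] (hT : IsSimpleGroup T) (hna : ¬ IsMulCommutative T)
    (hC : Subgroup.centralizer (T : Set G) = ⊥) {r : ℕ} [Fact r.Prime] (R : Sylow r G) (hR0 : (R : Subgroup G) ⊓ T ≠ ⊥) :
    (∃! M : Subgroup G, IsCoatom M ∧ (R : Subgroup G) ≤ M) ↔
      ((∃ M : Subgroup G, IsCoatom M ∧ ¬ r ∣ M.index) ∧
        ∀ M₁ M₂ : Subgroup G, IsCoatom M₁ → ¬ r ∣ M₁.index → IsCoatom M₂ → ¬ r ∣ M₂.index → ∃ g : G, M₂ = M₁.map (MulAut.conj g).toMonoidHom) := by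
  have hD0 := hR0
  have hN := S3859.norm_ne T hT hna ((R : Subgroup G) ⊓ T) (R.isPGroup'.to_le inf_le_left) inf_le_right hR0
  -- N_G(R) ≠ ⊤
  have hNR : normalizer ((R : Subgroup G) : Set G) ≠ ⊤ := by
    intro h
    apply hN
    rw [normalizer_eq_top_iff] at h ⊢
    infer_instance
  have hidx : ∀ M : Subgroup G, (R : Subgroup G) ≤ M → ¬ r ∣ M.index := fun M hM hd =>
    R.not_dvd_index (hd.trans (index_dvd_of_le hM))
  -- a subgroup of index prime to r contains a conjugate of R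
  have hconj : ∀ M : Subgroup G, ¬ r ∣ M.index → ∃ g : G, (R : Subgroup G) ≤ M.map (MulAut.conj g).toMonoidHom := by
    intro M hM
    obtain ⟨S⟩ := (inferInstance : Nonempty (Sylow r M))
    have hS : IsPGroup r ((S : Subgroup M).map M.subtype) := S.isPGroup'.map _
    have hSi : ¬ r ∣ ((S : Subgroup M).map M.subtype).index := by
      have h1 : ((S : Subgroup M).map M.subtype).index = (S : Subgroup M).index * M.index := by
        rw [index_map_subtype]
      rw [h1, (Fact.out : r.Prime).dvd_mul]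
      rintro (h2 | h2)
      · exact S.not_dvd_index h2
      · exact hM h2
    let S' : Sylow r G := hS.toSylow hSi
    obtain ⟨g, hg⟩ := MulAction.exists_smul_eq G S' R
    refine ⟨g, ?_⟩
    rw [← hg]
    rintro x ⟨y, hy, rfl⟩
    obtain ⟨z, hz, rfl⟩ := hy
    exact ⟨z, z.2, rfl⟩
  have hcoat : ∀ (M : Subgroup G) (g : G), IsCoatom M → IsCoatom (M.map (MulAut.conj g).toMonoidHom) := by
    intro M g hM
    exact (OrderIso.isCoatom_iff ((MulAut.conj g).mapSubgroup) M).2 hM
  constructor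
  · rintro ⟨M, ⟨hM, hRM⟩, hu⟩
    refine ⟨⟨M, hM, hidx M hRM⟩, ?_⟩
    intro M₁ M₂ h1 h1' h2 h2'
    obtain ⟨g₁, hg₁⟩ := hconj M₁ h1'
    obtain ⟨g₂, hg₂⟩ := hconj M₂ h2'
    have e1 := hu _ ⟨hcoat M₁ g₁ h1, hg₁⟩
    have e2 := hu _ ⟨hcoat M₂ g₂ h2, hg₂⟩
    refine ⟨g₂⁻¹ * g₁, ?_⟩
    have e3 : M₂.map (MulAut.conj g₂).toMonoidHom = M₁.map (MulAut.conj g₁).toMonoidHom := e2.trans e1.symm
    have e4 := congrArg (Subgroup.map (MulAut.conj g₂⁻¹).toMonoidHom) e3
    rw [Subgroup.map_map, Subgroup.map_map] at e4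
    have e5 : (MulAut.conj g₂⁻¹).toMonoidHom.comp (MulAut.conj g₂).toMonoidHom = MonoidHom.id G := by
      ext x; simp [mul_assoc]
    have e6 : (MulAut.conj g₂⁻¹).toMonoidHom.comp (MulAut.conj g₁).toMonoidHom = (MulAut.conj (g₂⁻¹ * g₁)).toMonoidHom := by
      ext x; simp [mul_assoc]
    rw [e5, e6, Subgroup.map_id] at e4
    exact e4
  · rintro ⟨_, hcl⟩
    have h0 : normalizer ((R : Subgroup G) : Set G) = ⊤ ∨ ∃ U, IsCoatom U ∧ normalizer ((R : Subgroup G) : Set G) ≤ U :=
      eq_top_or_exists_le_coatom _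
    obtain ⟨M, hM, hNM⟩ := h0.resolve_left hNR
    have hRM : (R : Subgroup G) ≤ M := le_normalizer.trans hNM
    refine ⟨M, ⟨hM, hRM⟩, ?_⟩
    rintro U ⟨hU, hRU⟩
    -- M = U^g
    obtain ⟨g, hg⟩ := hcl U M hU (hidx U hRU) hM (hidx M hRM)
    obtain ⟨l, hl, hn⟩ := H2.PUtil.frattini_rel R hRM (g := g) (fun x hx => by
      rw [hg]; exact ⟨x, hRU hx, rfl⟩)
    have h1 := hNM hn
    have h2 : g ∈ M := by
      have := M.mul_mem (M.inv_mem hl) h1
      rwa [inv_mul_cancel_left] at this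
    ext x
    constructor
    · intro hx
      have h3 : g * x * g⁻¹ ∈ M := by rw [hg]; exact ⟨x, hx, rfl⟩
      have := M.mul_mem (M.mul_mem (M.inv_mem h2) h3) h2
      have e : g⁻¹ * (g * x * g⁻¹) * g = x := by group
      rwa [e] at this
    · intro hx
      have h3 : g * x * g⁻¹ ∈ M := M.mul_mem (M.mul_mem h2 hx) (M.inv_mem h2)
      rw [hg] at h3
      obtain ⟨y, hy, hyx⟩ := h3
      have : g * y * g⁻¹ = g * x * g⁻¹ := hyx
      have e : y = x := by simpa using this
      rw [← e]; exact hy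

end Cfsg.Agent.S3858
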