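import Cfsg.Statements.S3861
import Cfsg.Agent.H2.RealElt

set_option autoImplicit false
open Cfsg

namespace Cfsg.Agent.S3861

/-- A finite group G has no non-identity element of odd order that is conjugate to its inverse if and only if the Sylow 2-subgroups of G are normal. -/
theorem result {G : Type*} [Group G] [Finite G] (P : Sylow 2 G) : (∀ x : G, x ≠ 1 → Odd (orderOf x) → ¬ IsConj x x⁻¹) ↔ (P : Subgroup G).Normal := by
  constructor
  · intro h
    exact Cfsg.Agent.H2.RealElt.sylow_two_normal h P
  · intro hP x hx1 hodd hconj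
    apply hx1
    have hG : Odd (Nat.card (G ⧸ (P : Subgroup G))) := by
      have := P.not_dvd_index
      rw [← Nat.not_even_iff_odd, even_iff_two_dvd]
      exact this
    have h1 : (QuotientGroup.mk x : G ⧸ (P : Subgroup G)) = 1 := by
      apply Cfsg.Agent.H2.RealElt.eq_one_of_real hG
      obtain ⟨c, hc⟩ := isConj_iff.mp hconj
      refine isConj_iff.mpr ⟨QuotientGroup.mk c, ?_⟩
      rw [← QuotientGroup.mk_inv, ← QuotientGroup.mk_inv, ← QuotientGroup.mk_mul,
        ← QuotientGroup.mk_mul, hc]
    rw [QuotientGroup.eq_one_iff] at h1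
    obtain ⟨k, hk⟩ := (IsPGroup.iff_orderOf.mp P.isPGroup') ⟨x, h1⟩
    rw [← Subgroup.orderOf_coe] at hk
    change orderOf x = 2 ^ k at hk
    rw [hk] at hodd
    rcases Nat.eq_zero_or_pos k with rfl | hpos
    · rw [pow_zero] at hk
      exact orderOf_eq_one_iff.mp hk
    · exact absurd hodd (by rw [Nat.not_odd_iff_even]; exact (Nat.even_pow.mpr ⟨even_two, hpos.ne'⟩))

end Cfsg.Agent.S3861
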