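import Cfsg.Statements.S3862
import Mathlib
import Cfsg.Agent.Lib.PNilp
import Cfsg.Agent.Lib.MinNil
import Cfsg.Agent.Lib.Nilp

set_option autoImplicit false
open Cfsg

namespace Cfsg.Agent.S3862

open Subgroup Cfsg.Agent.Lib.Basic Cfsg.Agent.Lib.Cores Cfsg.Agent.Lib.Coprime Cfsg.Agent.Lib.CoprimeB Cfsg.Agent.Lib.PNilp
open scoped Pointwise commutatorElement

universe u

/-- the hypothesis -/
def Hyp (G : Type u) [Group G] : Prop := ∀ x : G, (∃ j : ℕ, orderOf x = 2 ^ j) → IsConj x x⁻¹ → x ∈ Subgroup.center G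

theorem Hyp.subgroup {G : Type u} [Group G] (h : Hyp G) (H : Subgroup G) : Hyp H := by
  rintro ⟨x, hx⟩ ⟨j, hj⟩ hc
  have h1 : x ∈ center G := by
    apply h x ⟨j, by rw [← hj, Subgroup.orderOf_mk]⟩
    obtain ⟨c, hc⟩ := isConj_iff.1 hc
    exact isConj_iff.2 ⟨c, congrArg Subtype.val hc⟩
  rw [mem_center_iff]
  intro g
  exact Subtype.ext (mem_center_iff.1 h1 g)

theorem step {G : Type u} [Group G] [Finite G] (h : Hyp G) (h2 : ∀ H : Subgroup G, H ≠ ⊤ → PNil 2 H) : PNil 2 G := by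
  haveI : Fact (Nat.Prime 2) := ⟨Nat.prime_two⟩
  by_contra h1
  obtain ⟨P, hPn, q, hq, hq2, x, ⟨k, hk⟩, hxP, htop⟩ := Cfsg.Agent.Lib.MinNil.ito_structure h1 h2
  set X := zpowers x with hX
  have hcop : (Nat.card X).Coprime 2 := by
    rw [hX, Nat.card_zpowers, hk]
    exact Nat.Coprime.pow_left k ((Nat.coprime_primes hq Nat.prime_two).2 hq2)
  obtain ⟨a, ha⟩ := P.isPGroup'.exists_card_eq
  have hcopP : (Nat.card X).Coprime (Nat.card P) := by rw [ha]; exact hcop.pow_right a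
  have hnorm : ∀ Y : Subgroup G, Y ≤ normalizer ((P : Subgroup G) : Set G) := fun Y => by
    rw [normalizer_eq_top]; exact le_top
  -- proper invariant subgroups are centralized
  have hA : ∀ Q : Subgroup G, Q ≤ P → x ∈ normalizer (Q : Set G) → Q ≠ P → x ∈ centralizer (Q : Set G) := by
    intro Q hQP hxQ hne
    have hne' : Q ⊔ X ≠ ⊤ := by
      intro ht
      apply hne
      apply le_antisymm hQP
      intro y hy
      have h3 : y ∈ Q ⊔ X := by rw [ht]; exact mem_top y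
      obtain ⟨a, ha, b, hb, rfl⟩ := (mem_sup_iff_left (zpowers_le.2 hxQ)).1 h3
      have h4 : b ∈ X ⊓ P := ⟨hb, by
        have := (P : Subgroup G).mul_mem ((P : Subgroup G).inv_mem (hQP ha)) hy
        rwa [inv_mul_cancel_left] at this⟩
      rw [(disjoint_of_coprime_natCard hcopP).eq_bot, mem_bot] at h4
      rw [h4, mul_one]
      exact ha
    exact centralizes_of_pNil (P.isPGroup'.to_le hQP) le_sup_left
      (sup_le le_normalizer (zpowers_le.2 hxQ)) (h2 _ hne') (mem_sup_right (mem_zpowers x)) (by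
        rw [← Nat.card_zpowers]; exact hcop)
  have hsolP : Group.IsSolvable (P : Subgroup G) := isSolvable_of_isPGroup P.isPGroup'
  -- `[P, x] = P`
  have hB : ⁅(P : Subgroup G), X⁆ = P := by
    by_contra hne
    have h3 := hA ⁅(P : Subgroup G), X⁆ (commutator_le_left _ _)
      (le_normalizer_commutator_right X P (mem_zpowers x)) hne
    have h4 : X ≤ centralizer ((⁅(P : Subgroup G), X⁆ : Subgroup G) : Set G) := zpowers_le.2 h3
    have h5 : ⁅⁅(P : Subgroup G), X⁆, X⁆ = ⊥ := by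
      rw [commutator_comm]
      exact commutator_eq_bot_iff_le_centralizer.2 h4
    rw [commutator_commutator_eq (hnorm X) hcopP (Or.inr hsolP), commutator_comm,
      commutator_eq_bot_iff_le_centralizer] at h5
    exact hxP (h5 (mem_zpowers x))
  -- the Frattini subgroup
  set F : Subgroup G := (frattini (P : Subgroup G)).map (P : Subgroup G).subtype with hF
  haveI hFn : F.Normal := inferInstance
  have hFP : F ≤ P := map_subtype_le _
  have hP1 : (P : Subgroup G) ≠ ⊥ := by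
    intro h3
    apply hxP
    rw [h3, mem_centralizer_iff]
    intro y hy
    have : y = 1 := hy
    rw [this, one_mul, mul_one]
  have hFne : F ≠ P := by
    intro h3
    have h4 : frattini (P : Subgroup G) = ⊤ := by
      rw [eq_top_iff]
      rintro ⟨y, hy⟩ _
      rw [← h3] at hy
      obtain ⟨z, hz, hzy⟩ := hy
      have : (⟨y, hFP ⟨z, hz, hzy⟩⟩ : (P : Subgroup G)) = z := Subtype.ext hzy.symm
      rw [this]
      exact hz
    have h5 : (⊤ : Subgroup (P : Subgroup G)) ≠ ⊥ := by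
      intro h6
      apply hP1
      rw [eq_bot_iff]
      intro y hy
      have h7 : (⟨y, hy⟩ : (P : Subgroup G)) ∈ (⊤ : Subgroup (P : Subgroup G)) := mem_top _
      rw [h6] at h7
      exact congrArg Subtype.val (mem_bot.1 h7)
    rcases eq_top_or_exists_le_coatom (⊥ : Subgroup (P : Subgroup G)) with h6 | ⟨M, hM, -⟩
    · exact h5 h6.symm
    · have h7 := frattini_le_coatom hM
      rw [h4] at h7
      exact hM.1 (top_le_iff.1 h7)
  have hFx : x ∈ centralizer (F : Set G) := hA F hFP (by rw [normalizer_eq_top]; exact mem_top x) hFne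
  have hFX : ⁅X, F⁆ = ⊥ := commutator_eq_bot_iff_le_centralizer.2 (zpowers_le.2 hFx)
  have hFPc : ⁅(P : Subgroup G), F⁆ = ⊥ := by
    have h3 : ⁅⁅X, F⁆, (P : Subgroup G)⁆ = ⊥ := by rw [hFX]; exact commutator_bot_left _
    have h4 : ⁅⁅F, (P : Subgroup G)⁆, X⁆ = ⊥ := by
      rw [eq_bot_iff, ← hFX, commutator_comm X F]
      exact commutator_mono (commutator_le_left _ _) le_rfl
    have h5 := three_subgroups h3 h4
    rwa [hB] at h5
  have hFZ : F ≤ center G := by
    have h3 : (P : Subgroup G) ≤ centralizer (F : Set G) := commutator_eq_bot_iff_le_centralizer.1 hFPc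
    have h4 : (⊤ : Subgroup G) ≤ centralizer (F : Set G) := by
      rw [← htop]
      exact sup_le h3 (zpowers_le.2 hFx)
    intro f hf
    rw [mem_center_iff]
    intro g
    exact (mem_centralizer_iff.1 (h4 (mem_top g)) f hf).symm
  have hcF : ∀ a ∈ (P : Subgroup G), ∀ b ∈ (P : Subgroup G), a * b * a⁻¹ * b⁻¹ ∈ F := by
    intro a ha b hb
    have h3 : ⁅(⟨a, ha⟩ : (P : Subgroup G)), (⟨b, hb⟩ : (P : Subgroup G))⁆ ∈ commutator (P : Subgroup G) :=
      commutator_mem_commutator (mem_top _) (mem_top _)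
    exact ⟨_, Cfsg.Agent.Lib.Nilp.commutator_le_frattini P.isPGroup' h3, rfl⟩
  have hsF : ∀ a ∈ (P : Subgroup G), a * a ∈ F := by
    intro a ha
    have h3 := Cfsg.Agent.Lib.Nilp.pow_mem_frattini P.isPGroup' (⟨a, ha⟩ : (P : Subgroup G))
    exact ⟨_, h3, by show a ^ 2 = a * a; rw [pow_two]⟩
  -- a non-centralized element
  apply hxP
  rw [mem_centralizer_iff]
  intro y hy
  by_contra hyx
  have hcomm : ∀ f ∈ F, ∀ g : G, g * f = f * g := fun f hf g => mem_center_iff.1 (hFZ hf) g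
  let N : Subgroup G :=
    { carrier := {n | ∃ g ∈ (P : Subgroup G), n = y * g * y⁻¹ * g⁻¹}
      one_mem' := ⟨1, one_mem _, by group⟩
      mul_mem' := by
        rintro _ _ ⟨g, hg, rfl⟩ ⟨h, hh, rfl⟩
        refine ⟨g * h, mul_mem hg hh, ?_⟩
        have h3 := hcomm _ (hcF y hy h hh) g⁻¹
        calc y * g * y⁻¹ * g⁻¹ * (y * h * y⁻¹ * h⁻¹) = y * g * y⁻¹ * (g⁻¹ * (y * h * y⁻¹ * h⁻¹)) := by group
          _ = y * g * y⁻¹ * ((y * h * y⁻¹ * h⁻¹) * g⁻¹) := by rw [h3]
          _ = y * (g * h) * y⁻¹ * (g * h)⁻¹ := by group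
      inv_mem' := by
        rintro _ ⟨g, hg, rfl⟩
        refine ⟨g⁻¹, inv_mem hg, ?_⟩
        have h3 := hcomm _ (hcF y hy g⁻¹ (inv_mem hg)) g
        calc (y * g * y⁻¹ * g⁻¹)⁻¹ = g * (y * g⁻¹ * y⁻¹ * g⁻¹⁻¹) * g⁻¹ := by group
          _ = y * g⁻¹ * y⁻¹ * g⁻¹⁻¹ := by rw [h3]; group }
  have hNF : N ≤ F := by
    rintro _ ⟨g, hg, rfl⟩
    exact hcF y hy g hg
  haveI hNn : N.Normal := ⟨fun n hn g => by
    rw [hcomm n (hNF hn) g, mul_inv_cancel_right]
    exact hn⟩
  set π := QuotientGroup.mk' N with hπ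
  have hπN : ∀ n, n ∈ N ↔ π n = 1 := fun n => (QuotientGroup.eq_one_iff n).symm
  set W : Subgroup G := P ⊓ (centralizer (((P : Subgroup G).map π : Subgroup (G ⧸ N)) : Set (G ⧸ N))).comap π with hW
  haveI : ((P : Subgroup G).map π).Normal := Normal.map hPn _ (QuotientGroup.mk'_surjective N)
  haveI hWn : W.Normal := inferInstance
  have hyW : y ∈ W := by
    refine ⟨hy, ?_⟩
    show π y ∈ centralizer _
    rw [mem_centralizer_iff]
    rintro _ ⟨g, hg, rfl⟩
    rw [← map_mul, ← map_mul]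
    apply QuotientGroup.eq.2
    have h3 : (y * g⁻¹ * y⁻¹ * g⁻¹⁻¹) ∈ N := ⟨g⁻¹, inv_mem hg, rfl⟩
    have h4 := hcomm _ (hNF (inv_mem h3)) y⁻¹
    have h5 : (g * y)⁻¹ * (y * g) = (y * g⁻¹ * y⁻¹ * g⁻¹⁻¹)⁻¹ := by
      calc (g * y)⁻¹ * (y * g) = (y⁻¹ * (y * g⁻¹ * y⁻¹ * g⁻¹⁻¹)⁻¹) * y := by group
        _ = (y * g⁻¹ * y⁻¹ * g⁻¹⁻¹)⁻¹ := by rw [h4]; group
    rw [h5]
    exact inv_mem h3
  have hWP : W = P := by
    by_contra hne
    have h3 := hA W inf_le_left (by rw [normalizer_eq_top]; exact mem_top x) hne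
    exact hyx (mem_centralizer_iff.1 h3 y hyW)
  have hab : ∀ a ∈ (P : Subgroup G), ∀ b ∈ (P : Subgroup G), π a * π b = π b * π a := by
    intro a ha b hb
    have h3 : b ∈ W := by rw [hWP]; exact hb
    exact mem_centralizer_iff.1 h3.2 (π a) ⟨a, ha, rfl⟩
  let T : Subgroup G :=
    { carrier := {t | t ∈ (P : Subgroup G) ∧ π t * π t = 1}
      one_mem' := ⟨one_mem _, by simp⟩
      mul_mem' := by
        rintro a b ⟨ha, ha2⟩ ⟨hb, hb2⟩
        refine ⟨mul_mem ha hb, ?_⟩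
        rw [map_mul]
        calc π a * π b * (π a * π b) = π a * (π b * π a) * π b := by group
          _ = π a * (π a * π b) * π b := by rw [hab b hb a ha]
          _ = (π a * π a) * (π b * π b) := by group
          _ = 1 := by rw [ha2, hb2, one_mul]
      inv_mem' := by
        rintro a ⟨ha, ha2⟩
        refine ⟨inv_mem ha, ?_⟩
        rw [map_inv, ← mul_inv_rev, ha2, inv_one] }
  have hT : ⁅(P : Subgroup G), X⁆ ≤ T := by
    rw [commutator_le]
    intro g hg z hz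
    have hu : z * g⁻¹ * z⁻¹ ∈ (P : Subgroup G) := hPn.conj_mem _ (inv_mem hg) z
    have h3 : ⁅g, z⁆ = g * (z * g⁻¹ * z⁻¹) := by rw [commutatorElement_def]; group
    rw [h3]
    refine ⟨mul_mem hg hu, ?_⟩
    have h4 : (z * g⁻¹ * z⁻¹) * (z * g⁻¹ * z⁻¹) = (g * g)⁻¹ := by
      have h5 := hcomm _ (inv_mem (hsF g hg)) z
      calc (z * g⁻¹ * z⁻¹) * (z * g⁻¹ * z⁻¹) = z * (g * g)⁻¹ * z⁻¹ := by group
        _ = (g * g)⁻¹ := by rw [h5]; group
    rw [map_mul]
    calc π g * π (z * g⁻¹ * z⁻¹) * (π g * π (z * g⁻¹ * z⁻¹))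
        = π g * (π (z * g⁻¹ * z⁻¹) * π g) * π (z * g⁻¹ * z⁻¹) := by group
      _ = π g * (π g * π (z * g⁻¹ * z⁻¹)) * π (z * g⁻¹ * z⁻¹) := by rw [hab _ hu g hg]
      _ = (π g * π g) * (π (z * g⁻¹ * z⁻¹) * π (z * g⁻¹ * z⁻¹)) := by group
      _ = 1 := by rw [← map_mul, ← map_mul, h4, ← map_mul, mul_inv_cancel, map_one]
  have hyT : y ∈ T := hT (by rw [hB]; exact hy)
  have hyN : y * y ∈ N := by
    rw [hπN, map_mul]
    exact hyT.2
  obtain ⟨g, hg, hyg⟩ := hyN
  have h3 : y = g * y⁻¹ * g⁻¹ := by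
    have h4 : y * y = y * (g * y⁻¹ * g⁻¹) := by rw [hyg]; group
    exact mul_left_cancel h4
  have h4 : IsConj y y⁻¹ := (isConj_iff.2 ⟨g, h3.symm⟩ : IsConj y⁻¹ y).symm
  obtain ⟨j, hj⟩ := (IsPGroup.iff_orderOf.1 P.isPGroup') ⟨y, hy⟩
  rw [Subgroup.orderOf_mk] at hj
  exact hyx (mem_center_iff.1 (h y ⟨j, hj⟩ h4) x).symm

theorem aux (n : ℕ) : ∀ (G : Type u) [Group G] [Finite G], Nat.card G ≤ n → Hyp G → PNil 2 G := by
  induction n with
  | zero =>
    intro G _ _ h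
    have : 0 < Nat.card G := Nat.card_pos
    omega
  | succ n ih =>
    intro G _ _ hc h
    apply step h
    intro H hH
    apply ih H _ (h.subgroup H)
    have := card_lt_of_ne_top hH
    omega

/-- If every 2-element of the finite group G that is conjugate to its inverse lies in the centre of G, then G has a normal 2-complement. -/
theorem result {G : Type*} [Group G] [Finite G] (h : ∀ x : G, (∃ j : ℕ, orderOf x = 2 ^ j) → IsConj x x⁻¹ → x ∈ Subgroup.center G) : Cfsg.HasNormalPComplement 2 G := by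
  haveI : Fact (Nat.Prime 2) := ⟨Nat.prime_two⟩
  rw [Cfsg.Agent.Lib.PNilp.hasNormalPComplement_iff]
  exact aux _ G le_rfl h

end Cfsg.Agent.S3862
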