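import Cfsg.Statements.S3866
import Mathlib

set_option autoImplicit false
open Cfsg

namespace Cfsg.Agent.S3866

open Subgroup
open scoped commutatorElement

/-- Let A be a commutative normal subgroup of the finite group G with G generated by A and an element x. Then a ↦ x a x⁻¹ a⁻¹ is a surjective homomorphism from A onto the commutator subgroup of G whose kernel is the centralizer of x in A; in particular the commutator subgroup has order equal to the index in A of that centralizer. -/
theorem result {G : Type*} [Group G] [Finite G] (A : Subgroup G) [A.Normal] (hA : IsMulCommutative A) (x : G) (hgen : A ⊔ Subgroup.zpowers x = ⊤) : (∀ a ∈ A, x * a * x⁻¹ * a⁻¹ ∈ commutator G) ∧ (∀ c ∈ commutator G, ∃ a ∈ A, x * a * x⁻¹ * a⁻¹ = c) ∧ (∀ a ∈ A, ∀ b ∈ A, x * (a * b) * x⁻¹ * (a * b)⁻¹ = (x * a * x⁻¹ * a⁻¹) * (x * b * x⁻¹ * b⁻¹)) ∧ Nat.card (commutator G) * Nat.card ↥(A ⊓ Subgroup.centralizer ({x} : Set G)) = Nat.card A := by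
  have hAn : A.Normal := inferInstance
  have hAc : ∀ a ∈ A, ∀ b ∈ A, a * b = b * a := fun a ha b hb => by
    have := hA.is_comm.comm (⟨a, ha⟩ : A) ⟨b, hb⟩
    exact congrArg Subtype.val this
  have hxA : ∀ a ∈ A, x * a * x⁻¹ ∈ A := fun a ha => hAn.conj_mem a ha x
  have hmul : ∀ a ∈ A, ∀ b ∈ A, x * (a * b) * x⁻¹ * (a * b)⁻¹ =
      (x * a * x⁻¹ * a⁻¹) * (x * b * x⁻¹ * b⁻¹) := by
    intro a ha b hb
    have h1 : x * (a * b) * x⁻¹ * (a * b)⁻¹ = (x * a * x⁻¹) * ((x * b * x⁻¹ * b⁻¹) * a⁻¹) := by group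
    rw [h1, hAc _ (A.mul_mem (hxA b hb) (A.inv_mem hb)) _ (A.inv_mem ha)]
    group
  let f : A →* A :=
    { toFun := fun a => ⟨x * a * x⁻¹ * (a : G)⁻¹, A.mul_mem (hxA a a.2) (A.inv_mem a.2)⟩
      map_one' := by ext; simp
      map_mul' := fun a b => Subtype.ext (hmul a a.2 b b.2) }
  set B : Subgroup G := f.range.map A.subtype with hB
  have hmemB : ∀ c, c ∈ B ↔ ∃ a ∈ A, x * a * x⁻¹ * a⁻¹ = c := by
    intro c
    constructor
    · rintro ⟨_, ⟨a, rfl⟩, rfl⟩
      exact ⟨a, a.2, rfl⟩
    · rintro ⟨a, ha, rfl⟩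
      exact ⟨f ⟨a, ha⟩, ⟨⟨a, ha⟩, rfl⟩, rfl⟩
  have hBA : B ≤ A := map_subtype_le _
  have hBn : B.Normal := by
    rw [← normalizer_eq_top_iff, eq_top_iff, ← hgen, sup_le_iff]
    constructor
    · intro a ha
      rw [mem_normalizer_iff]
      intro c
      constructor
      · intro hc
        rw [hAc a ha c (hBA hc), mul_inv_cancel_right]; exact hc
      · intro hc
        have h1 : c ∈ A := by
          have := hAn.conj_mem _ (hBA hc) a⁻¹
          have h2 : a⁻¹ * (a * c * a⁻¹) * a⁻¹⁻¹ = c := by group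
          rwa [h2] at this
        rwa [hAc a ha c h1, mul_inv_cancel_right] at hc
    · rw [zpowers_le, mem_normalizer_iff]
      intro c
      rw [hmemB, hmemB]
      constructor
      · rintro ⟨a, ha, rfl⟩
        exact ⟨x * a * x⁻¹, hxA a ha, by group⟩
      · rintro ⟨a, ha, h⟩
        refine ⟨x⁻¹ * a * x⁻¹⁻¹, hAn.conj_mem a ha x⁻¹, ?_⟩
        have h2 : c = x⁻¹ * (x * c * x⁻¹) * x := by group
        rw [h2, ← h]; group
  have hcomm : commutator G ≤ B := by
    have h0 : ∀ g : G ⧸ B, g ∈ center (G ⧸ B) := by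
      have hq := QuotientGroup.mk'_surjective B
      have h1 : (A.map (QuotientGroup.mk' B)) ⊔ zpowers (x : G ⧸ B) = ⊤ := by
        have h2 : zpowers (x : G ⧸ B) = (zpowers x).map (QuotientGroup.mk' B) := by
          rw [MonoidHom.map_zpowers]; rfl
        rw [h2, ← Subgroup.map_sup, hgen, Subgroup.map_top_of_surjective _ hq]
      have h3 : ∀ a ∈ A, (x : G ⧸ B) * a = a * x := by
        intro a ha
        rw [← QuotientGroup.mk_mul, ← QuotientGroup.mk_mul]
        have h4 : x * a * x⁻¹ * a⁻¹ ∈ B := (hmemB _).2 ⟨a, ha, rfl⟩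
        rw [eq_comm, QuotientGroup.eq]
        have h5 := hBn.conj_mem _ h4 (a * x)⁻¹
        have h6 : (a * x)⁻¹ * (x * a * x⁻¹ * a⁻¹) * (a * x)⁻¹⁻¹ = (a * x)⁻¹ * (x * a) := by group
        rwa [h6] at h5
      have hA' : A.map (QuotientGroup.mk' B) ≤ center (G ⧸ B) := by
        rintro _ ⟨a, ha, rfl⟩
        have h7 : (⊤ : Subgroup (G ⧸ B)) ≤ centralizer {(a : G ⧸ B)} := by
          rw [← h1, sup_le_iff]
          constructor
          · rintro _ ⟨b, hb, rfl⟩
            rw [mem_centralizer_singleton_iff]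
            show ((b : G ⧸ B)) * a = a * b
            rw [← QuotientGroup.mk_mul, ← QuotientGroup.mk_mul, hAc b hb a ha]
          · rw [zpowers_le, mem_centralizer_singleton_iff]
            exact h3 a ha
        rw [mem_center_iff]
        intro g
        exact mem_centralizer_singleton_iff.1 (h7 (mem_top g))
      have hx' : (x : G ⧸ B) ∈ center (G ⧸ B) := by
        have h7 : (⊤ : Subgroup (G ⧸ B)) ≤ centralizer {(x : G ⧸ B)} := by
          rw [← h1, sup_le_iff]
          constructor
          · rintro _ ⟨b, hb, rfl⟩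
            rw [mem_centralizer_singleton_iff]
            exact (h3 b hb).symm
          · rw [zpowers_le, mem_centralizer_singleton_iff]
        rw [mem_center_iff]
        intro g
        exact mem_centralizer_singleton_iff.1 (h7 (mem_top g))
      intro g
      have : (⊤ : Subgroup (G ⧸ B)) ≤ center (G ⧸ B) := by
        rw [← h1, sup_le_iff, zpowers_le]; exact ⟨hA', hx'⟩
      exact this (mem_top g)
    rw [commutator_def, commutator_le]
    intro a _ b _
    rw [← QuotientGroup.eq_one_iff]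
    have := mem_center_iff.1 (h0 a) b
    have h9 : ((⁅a, b⁆ : G) : G ⧸ B) = ⁅(a : G ⧸ B), (b : G ⧸ B)⁆ := rfl
    rw [h9, commutatorElement_eq_one_iff_mul_comm]
    exact this.symm
  have hBc : B ≤ commutator G := by
    intro c hc
    obtain ⟨a, _, rfl⟩ := (hmemB c).1 hc
    exact commutator_mem_commutator (mem_top x) (mem_top a)
  have hBe : commutator G = B := le_antisymm hcomm hBc
  refine ⟨fun a ha => hBc ((hmemB _).2 ⟨a, ha, rfl⟩), fun c hc => (hmemB c).1 (hcomm hc), hmul, ?_⟩
  rw [hBe]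
  have h1 := f.ker.card_mul_index
  rw [Subgroup.index_ker] at h1
  have h2 : Nat.card f.range = Nat.card B :=
    (Nat.card_congr (f.range.equivMapOfInjective A.subtype A.subtype_injective).toEquiv)
  have h3 : Nat.card f.ker = Nat.card (A ⊓ centralizer ({x} : Set G) : Subgroup G) := by
    have h4 : f.ker.map A.subtype = A ⊓ centralizer ({x} : Set G) := by
      ext y
      constructor
      · rintro ⟨a, ha, rfl⟩
        refine ⟨a.2, ?_⟩
        show (a : G) ∈ centralizer ({x} : Set G)
        rw [mem_centralizer_singleton_iff]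
        have h5 : x * a * x⁻¹ * (a : G)⁻¹ = 1 := congrArg Subtype.val ha
        have h6 : x * (a : G) = a * x := by
          calc x * (a : G) = (x * a * x⁻¹ * (a : G)⁻¹) * (a * x) := by group
            _ = _ := by rw [h5, one_mul]
        exact h6.symm
      · rintro ⟨hy, hy'⟩
        refine ⟨⟨y, hy⟩, ?_, rfl⟩
        replace hy' := mem_centralizer_singleton_iff.1 hy'
        show f ⟨y, hy⟩ = 1
        apply Subtype.ext
        show x * y * x⁻¹ * y⁻¹ = 1
        rw [← hy']; group
    rw [← h4]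
    exact Nat.card_congr (f.ker.equivMapOfInjective A.subtype A.subtype_injective).toEquiv
  rw [← h2, ← h3, mul_comm]; exact h1

end Cfsg.Agent.S3866
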