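import Cfsg.Statements.S3867
import Mathlib
import Cfsg.Agent.H2.PUtil

set_option autoImplicit false
open Cfsg

namespace Cfsg.Agent.S3867

open Subgroup
open scoped Pointwise

theorem count {G : Type*} [Group G] [Finite G] (p : ℕ) [Fact p.Prime] (M : Subgroup G) [M.Normal]
    (P : Sylow p G) : Nat.card (Sylow p (G ⧸ M)) * Nat.card (normalizer (((P : Subgroup G) ⊔ M : Subgroup G) : Set G)) = Nat.card G := by
  have hs := QuotientGroup.mk'_surjective M
  obtain ⟨Q, hQ⟩ : ∃ Q : Sylow p (G ⧸ M), (Q : Subgroup (G ⧸ M)) = (P : Subgroup G).map (QuotientGroup.mk' M) :=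
    ⟨P.mapSurjective hs, rfl⟩
  rw [Sylow.card_eq_index_normalizer Q]
  have h1 := Subgroup.comap_normalizer_eq_of_surjective ((P : Subgroup G).map (QuotientGroup.mk' M)) hs
  have h2 : ((P : Subgroup G).map (QuotientGroup.mk' M)).comap (QuotientGroup.mk' M) = (P : Subgroup G) ⊔ M := by
    rw [comap_map_eq, QuotientGroup.ker_mk']
  have h3 : (normalizer ((Q : Subgroup (G ⧸ M)) : Set (G ⧸ M))).index = (normalizer (((P : Subgroup G) ⊔ M : Subgroup G) : Set G)).index := by
    rw [hQ, ← h2, ← h1, index_comap_of_surjective _ hs]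
  have h4 : (normalizer ((Q : Set (G ⧸ M)))) = (normalizer ((Q : Subgroup (G ⧸ M)) : Set (G ⧸ M))) := rfl
  rw [h4, h3]
  exact index_mul_card _

/-- Let M and N be nontrivial normal subgroups of the finite group G with M ⊓ N trivial, and let p be a prime. Writing n(X) for the number of Sylow p-subgroups of a group X, one has n(G) · n(G/MN) = n(G/M) · n(G/N). -/
theorem result {G : Type*} [Group G] [Finite G] (p : ℕ) [Fact p.Prime] (M N : Subgroup G) [M.Normal] [N.Normal] (hM : M ≠ ⊥) (hN : N ≠ ⊥) (hMN : M ⊓ N = ⊥) : Nat.card (Sylow p G) * Nat.card (Sylow p (G ⧸ (M ⊔ N))) = Nat.card (Sylow p (G ⧸ M)) * Nat.card (Sylow p (G ⧸ N)) := by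
  obtain ⟨P⟩ := (inferInstance : Nonempty (Sylow p G))
  have c1 := count p M P
  have c2 := count p N P
  have c3 := count p (M ⊔ N) P
  have c0 : Nat.card (Sylow p G) * Nat.card (normalizer ((P : Subgroup G) : Set G)) = Nat.card G := by
    rw [Sylow.card_eq_index_normalizer P]; exact index_mul_card _
  set H := normalizer (((P : Subgroup G) ⊔ M : Subgroup G) : Set G) with hH
  set K := normalizer (((P : Subgroup G) ⊔ N : Subgroup G) : Set G) with hK
  set L := normalizer (((P : Subgroup G) ⊔ (M ⊔ N) : Subgroup G) : Set G) with hL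
  have hPn : ∀ (X : Subgroup G) [X.Normal], normalizer ((P : Subgroup G) : Set G) ≤
      normalizer (((P : Subgroup G) ⊔ X : Subgroup G) : Set G) := by
    intro X _ g hg
    apply H2.PUtil.mem_normalizer_of_conj_mem
    intro x hx
    obtain ⟨a, ha, b, hb, rfl⟩ := mem_sup_of_normal_right.1 hx
    have e : g * (a * b) * g⁻¹ = (g * a * g⁻¹) * (g * b * g⁻¹) := by group
    rw [e]
    exact mul_mem_sup ((mem_normalizer_iff.1 hg a).1 ha) ((inferInstance : X.Normal).conj_mem b hb g)
  -- PM ∩ PN = P
  have hPMN : ((P : Subgroup G) ⊔ M) ⊓ ((P : Subgroup G) ⊔ N) = P := by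
    apply le_antisymm _ (le_inf le_sup_left le_sup_left)
    -- PM ∩ PN is a p-group
    have hcomm : ∀ m ∈ M, ∀ n ∈ N, m * n = n * m := by
      intro m hm n hn
      have h1 : ⁅M, N⁆ ≤ M ⊓ N := Subgroup.commutator_le_inf M N
      rw [hMN] at h1
      have := h1 (commutator_mem_commutator hm hn)
      rw [mem_bot] at this
      exact commutatorElement_eq_one_iff_mul_comm.1 this
    have hp : IsPGroup p (((P : Subgroup G) ⊔ M) ⊓ ((P : Subgroup G) ⊔ N) : Subgroup G) := by
      -- the map to G/M × G/N is injective with p-group image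
      let f : (((P : Subgroup G) ⊔ M) ⊓ ((P : Subgroup G) ⊔ N) : Subgroup G) →*
          ((P : Subgroup G).map (QuotientGroup.mk' M)) × ((P : Subgroup G).map (QuotientGroup.mk' N)) :=
        { toFun := fun x => (⟨QuotientGroup.mk' M x, by
              obtain ⟨a, ha, b, hb, h⟩ := mem_sup_of_normal_right.1 x.2.1
              refine ⟨a, ha, ?_⟩
              rw [← h]
              show (QuotientGroup.mk a : G ⧸ M) = QuotientGroup.mk (a * b)
              rw [QuotientGroup.eq]
              simpa using hb⟩, ⟨QuotientGroup.mk' N x, by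
              obtain ⟨a, ha, b, hb, h⟩ := mem_sup_of_normal_right.1 x.2.2
              refine ⟨a, ha, ?_⟩
              rw [← h]
              show (QuotientGroup.mk a : G ⧸ N) = QuotientGroup.mk (a * b)
              rw [QuotientGroup.eq]
              simpa using hb⟩)
          map_one' := by ext <;> simp
          map_mul' := fun x y => by ext <;> simp }
      have hf : Function.Injective f := by
        rw [injective_iff_map_eq_one]
        intro x hx
        have h1 : QuotientGroup.mk' M (x : G) = 1 := congrArg (fun z => (z.1 : G ⧸ M)) hx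
        have h2 : QuotientGroup.mk' N (x : G) = 1 := congrArg (fun z => (z.2 : G ⧸ N)) hx
        have h3 : (x : G) ∈ M ⊓ N := ⟨(QuotientGroup.eq_one_iff _).1 h1, (QuotientGroup.eq_one_iff _).1 h2⟩
        rw [hMN, mem_bot] at h3
        exact Subtype.ext h3
      have hq : IsPGroup p (((P : Subgroup G).map (QuotientGroup.mk' M)) × ((P : Subgroup G).map (QuotientGroup.mk' N))) := by
        rintro ⟨a, b⟩
        obtain ⟨k, hk⟩ := (P.isPGroup'.map (QuotientGroup.mk' M)) a
        obtain ⟨l, hl⟩ := (P.isPGroup'.map (QuotientGroup.mk' N)) b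
        refine ⟨k + l, ?_⟩
        ext1
        · show a ^ p ^ (k + l) = 1
          rw [pow_add, pow_mul, hk, one_pow]
        · show b ^ p ^ (k + l) = 1
          rw [pow_add, mul_comm, pow_mul, hl, one_pow]
      exact hq.of_injective f hf
    exact (P.is_maximal' hp (le_inf le_sup_left le_sup_left)).le
  have hHK : H ⊓ K = normalizer ((P : Subgroup G) : Set G) := by
    apply le_antisymm _ (le_inf (hPn M) (hPn N))
    rintro g ⟨hg1, hg2⟩
    apply H2.PUtil.mem_normalizer_of_conj_mem
    intro x hx
    have : g * x * g⁻¹ ∈ ((P : Subgroup G) ⊔ M) ⊓ ((P : Subgroup G) ⊔ N) :=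
      ⟨(mem_normalizer_iff.1 hg1 x).1 ((le_sup_left : (P : Subgroup G) ≤ _) hx),
        (mem_normalizer_iff.1 hg2 x).1 ((le_sup_left : (P : Subgroup G) ≤ _) hx)⟩
    rw [hPMN] at this
    exact this
  have hset : ((H : Set G) * (K : Set G)) = (L : Set G) := by
    ext g
    constructor
    · rintro ⟨a, ha, b, hb, rfl⟩
      have key : ∀ (X Y : Subgroup G) [X.Normal] [Y.Normal], ∀ a ∈ normalizer (((P : Subgroup G) ⊔ X : Subgroup G) : Set G),
          a ∈ normalizer (((P : Subgroup G) ⊔ (X ⊔ Y) : Subgroup G) : Set G) := by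
        intro X Y _ _ a ha
        apply H2.PUtil.mem_normalizer_of_conj_mem
        intro x hx
        rw [← sup_assoc] at hx ⊢
        obtain ⟨u, hu, v, hv, rfl⟩ := mem_sup_of_normal_right.1 hx
        have e : a * (u * v) * a⁻¹ = (a * u * a⁻¹) * (a * v * a⁻¹) := by group
        rw [e]
        exact mul_mem_sup ((mem_normalizer_iff.1 ha u).1 hu) ((inferInstance : Y.Normal).conj_mem v hv a)
      refine L.mul_mem (key M N a ha) ?_
      have := key N M b hb
      rw [sup_comm N M] at this
      exact this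
    · intro hg
      obtain ⟨l, hl, hn⟩ := H2.PUtil.frattini_rel P (L := (P : Subgroup G) ⊔ (M ⊔ N)) le_sup_left (g := g)
        (fun x hx => (mem_normalizer_iff.1 hg x).1 ((le_sup_left : (P : Subgroup G) ≤ _) hx))
      -- g = l⁻¹ n, l⁻¹ = a m n'
      have hl' := inv_mem hl
      rw [sup_comm (P : Subgroup G)] at hl'
      obtain ⟨y, hy, c, hc, hyc⟩ := mem_sup_of_normal_left.1 hl'
      obtain ⟨m, hm, n, hn', hmn⟩ := mem_sup_of_normal_right.1 hy
      refine ⟨m, ?_, n * c * (l * g), ?_, ?_⟩
      · exact le_normalizer (mem_sup_right hm)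
      · refine K.mul_mem (K.mul_mem (le_normalizer (mem_sup_right hn')) (le_normalizer (mem_sup_left hc))) (hPn N hn)
      · show m * (n * c * (l * g)) = g
        calc m * (n * c * (l * g)) = (m * n) * c * l * g := by group
          _ = g := by rw [hmn, hyc]; group
  have hcard := Lib.Basic.card_mul_mul_card_inf H K
  rw [hset, hHK] at hcard
  have hcard' : Nat.card L * Nat.card (normalizer ((P : Subgroup G) : Set G)) = Nat.card H * Nat.card K := hcard
  have hpos : 0 < Nat.card H * Nat.card K := Nat.mul_pos Nat.card_pos Nat.card_pos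
  apply Nat.eq_of_mul_eq_mul_right hpos
  calc Nat.card (Sylow p G) * Nat.card (Sylow p (G ⧸ (M ⊔ N))) * (Nat.card H * Nat.card K)
      = (Nat.card (Sylow p G) * Nat.card (normalizer ((P : Subgroup G) : Set G))) * (Nat.card (Sylow p (G ⧸ (M ⊔ N))) * Nat.card L) := by
        rw [← hcard']; ring
    _ = Nat.card G * Nat.card G := by rw [c0, c3]
    _ = (Nat.card (Sylow p (G ⧸ M)) * Nat.card H) * (Nat.card (Sylow p (G ⧸ N)) * Nat.card K) := by rw [c1, c2]
    _ = _ := by ring

end Cfsg.Agent.S3867
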