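import Cfsg.Statements.S3878
import Cfsg.Agent.H2.HallExist

set_option autoImplicit false
open Cfsg

namespace Cfsg.Agent.S3878

open Subgroup Cfsg.Agent.H2.HallExist
theorem e_imp (π : Set ℕ) (hE : ∀ (G : Type) [Group G] [Finite G], Cfsg.IsEPiGroup π G) :
    (∀ p q : ℕ, p.Prime → q.Prime → p ∈ π → q ∈ π → p = q) ∨ ∀ p : ℕ, p.Prime → p ∈ π := by
  classical
  by_contra hcon
  push Not at hcon
  obtain ⟨⟨a, b, ha, hb, haπ, hbπ, hab⟩, r₁, hr₁, hr₁π⟩ := hcon
  -- the two smallest primes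
  have hex : ∃ n, n.Prime ∧ n ∈ π := ⟨a, ha, haπ⟩
  obtain ⟨p, hpd⟩ : ∃ p, p = Nat.find hex := ⟨_, rfl⟩
  have hp : p.Prime ∧ p ∈ π := hpd ▸ Nat.find_spec hex
  have hpmin : ∀ n, n.Prime → n ∈ π → p ≤ n := fun n hn hnπ => hpd ▸ Nat.find_min' hex ⟨hn, hnπ⟩
  have hex2 : ∃ n, n.Prime ∧ n ∈ π ∧ n ≠ p := by
    by_cases h : a = p
    · exact ⟨b, hb, hbπ, fun h2 => hab (h.trans h2.symm)⟩
    · exact ⟨a, ha, haπ, h⟩
  obtain ⟨q, hqd⟩ : ∃ q, q = Nat.find hex2 := ⟨_, rfl⟩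
  have hq : q.Prime ∧ q ∈ π ∧ q ≠ p := hqd ▸ Nat.find_spec hex2
  have hqmin : ∀ n, n.Prime → n ∈ π → n ≠ p → q ≤ n := fun n hn hnπ hnp => hqd ▸ Nat.find_min' hex2 ⟨hn, hnπ, hnp⟩
  have hpq : p < q := lt_of_le_of_ne (hpmin q hq.1 hq.2.1) hq.2.2.symm
  by_cases h1 : p + 1 < q
  · obtain ⟨H, hH1, hH2⟩ := hE (Equiv.Perm (Fin q))
    refine sym_case hp.1 hq.1 h1 H ?_ (hH2 p hp.1 hp.2) (hH2 q hq.1 hq.2.1)
    intro s hs hsd
    by_cases hsp : s = p
    · exact Or.inl hsp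
    · right
      have h2 := hqmin s hs (hH1 s hs hsd) hsp
      have h3 : s ∣ Nat.card (Equiv.Perm (Fin q)) := hsd.trans H.card_subgroup_dvd_card
      rw [Nat.card_perm, Nat.card_fin, hs.dvd_factorial] at h3
      omega
  · -- `p = 2`, `q = 3`
    have h2 : q = p + 1 := by omega
    have hp2 : p = 2 := by
      rcases hp.1.eq_two_or_odd with h | h
      · exact h
      · rcases hq.1.eq_two_or_odd with h' | h'
        · have := hp.1.two_le; omega
        · omega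
    subst hp2
    have hex3 : ∃ n, n.Prime ∧ n ∉ π := ⟨r₁, hr₁, hr₁π⟩
    obtain ⟨r, hrd⟩ : ∃ r, r = Nat.find hex3 := ⟨_, rfl⟩
    have hr : r.Prime ∧ r ∉ π := hrd ▸ Nat.find_spec hex3
    have hrmin : ∀ n, n.Prime → n ∉ π → r ≤ n := fun n hn hnπ => hrd ▸ Nat.find_min' hex3 ⟨hn, hnπ⟩
    have hr2 : r ≠ 2 := fun h => hr.2 (h ▸ hp.2)
    have hr3 : r ≠ 3 := fun h => hr.2 (by rw [h]; have := hq.2.1; rwa [h2] at this)
    have hr4 : r ≠ 4 := fun h => by rw [h] at hr; exact absurd hr.1 (by norm_num)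
    have hr5 : 5 ≤ r := by have := hr.1.two_le; omega
    obtain ⟨H, hH1, hH2⟩ := hE (alternatingGroup (Fin (r + 1)))
    refine alt_case hr.1 hr5 H (fun h => hr.2 (hH1 r hr.1 h)) ?_
    intro s hs hsd
    have h3 : s ∉ π := fun h => hH2 s hs h hsd
    have h4 := hrmin s hs h3
    haveI : Nontrivial (Fin (r + 1)) := by
      rw [Fin.nontrivial_iff_two_le]; omega
    have h5 : s ∣ 2 * Nat.card (alternatingGroup (Fin (r + 1))) := (hsd.trans H.index_dvd_card).mul_left _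
    rw [two_mul_nat_card_alternatingGroup, Nat.card_perm, Nat.card_fin, hs.dvd_factorial] at h5
    by_contra hne
    have h6 : s = r + 1 := by omega
    rcases hs.eq_two_or_odd with h | h
    · omega
    · rcases hr.1.eq_two_or_odd with h' | h' <;> omega

theorem e_of (π : Set ℕ) (h : (∀ p q : ℕ, p.Prime → q.Prime → p ∈ π → q ∈ π → p = q) ∨ ∀ p : ℕ, p.Prime → p ∈ π)
    (G : Type) [Group G] [Finite G] : Cfsg.IsEPiGroup π G := by
  rcases h with h | h
  · by_cases h1 : ∃ p, p.Prime ∧ p ∈ π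
    · obtain ⟨p, hp, hpπ⟩ := h1
      haveI : Fact p.Prime := ⟨hp⟩
      obtain ⟨P⟩ := (inferInstance : Nonempty (Sylow p G))
      refine ⟨P, ?_, ?_⟩
      · intro s hs hsd
        obtain ⟨n, hn⟩ := IsPGroup.iff_card.mp P.isPGroup'
        rw [hn] at hsd
        rw [(Nat.prime_dvd_prime_iff_eq hs hp).mp (hs.dvd_of_dvd_pow hsd)]
        exact hpπ
      · intro s hs hsπ
        rw [h s p hs hp hsπ hpπ]
        exact P.not_dvd_index
    · refine ⟨⊥, ?_, ?_⟩
      · intro s hs hsd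
        rw [card_bot] at hsd
        exact absurd (Nat.dvd_one.mp hsd) hs.one_lt.ne'
      · intro s hs hsπ
        exact absurd ⟨s, hs, hsπ⟩ h1
  · refine ⟨⊤, fun s hs _ => h s hs, ?_⟩
    intro s hs _ hd
    rw [index_top] at hd
    exact hs.one_lt.ne' (Nat.dvd_one.mp hd)

theorem exists_max {π : Set ℕ} {G : Type} [Group G] [Finite G] {K : Subgroup G} (hK : Cfsg.IsPiSubgroup π K) :
    ∃ M : Subgroup G, K ≤ M ∧ Maximal (Cfsg.IsPiSubgroup π) M :=
  (Set.toFinite {M : Subgroup G | Cfsg.IsPiSubgroup π M}).exists_le_maximal hK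

theorem d_imp (π : Set ℕ) (G : Type) [Group G] [Finite G] (hD : Cfsg.IsDPiGroup π G) : Cfsg.IsEPiGroup π G := by
  obtain ⟨H, -, hH⟩ := exists_max (π := π) (G := G) (K := ⊥) (by
    intro s hs hsd
    rw [card_bot] at hsd
    exact absurd (Nat.dvd_one.mp hsd) hs.one_lt.ne')
  refine ⟨H, hH.prop, ?_⟩
  intro s hs hsπ hsd
  haveI : Fact s.Prime := ⟨hs⟩
  obtain ⟨S⟩ := (inferInstance : Nonempty (Sylow s G))
  obtain ⟨K, hSK, hK⟩ := exists_max (π := π) (G := G) (K := (S : Subgroup G)) (by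
    intro t ht htd
    obtain ⟨n, hn⟩ := IsPGroup.iff_card.mp S.isPGroup'
    rw [hn] at htd
    rw [(Nat.prime_dvd_prime_iff_eq ht hs).mp (ht.dvd_of_dvd_pow htd)]
    exact hsπ)
  obtain ⟨g, hg⟩ := hD H K hH hK
  have h1 : Nat.card K = Nat.card H := by
    rw [hg]; exact Nat.card_congr (H.equivMapOfInjective _ (MulAut.conj g).injective).symm.toEquiv
  have h2 : H.index = K.index := by
    have e1 := H.card_mul_index
    have e2 := K.card_mul_index
    rw [h1] at e2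
    exact Nat.eq_of_mul_eq_mul_left Nat.card_pos (e1.trans e2.symm)
  exact S.not_dvd_index ((h2 ▸ hsd).trans (index_dvd_of_le hSK))

theorem d_of (π : Set ℕ) (h : (∀ p q : ℕ, p.Prime → q.Prime → p ∈ π → q ∈ π → p = q) ∨ ∀ p : ℕ, p.Prime → p ∈ π)
    (G : Type) [Group G] [Finite G] : Cfsg.IsDPiGroup π G := by
  intro H K hH hK
  have hid : H = K → ∃ g : G, K = H.map (MulAut.conj g).toMonoidHom := by
    rintro rfl
    refine ⟨1, ?_⟩
    rw [map_one]
    exact (Subgroup.map_id H).symm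
  rcases h with h | h
  · by_cases h1 : ∃ p, p.Prime ∧ p ∈ π
    · obtain ⟨p, hp, hpπ⟩ := h1
      haveI : Fact p.Prime := ⟨hp⟩
      have hpg : ∀ L : Subgroup G, Cfsg.IsPiSubgroup π L → IsPGroup p L := by
        intro L hL
        exact IsPGroup.of_card (Nat.eq_prime_pow_of_unique_prime_dvd Nat.card_pos.ne' (fun {d} hd hdd => h d p hd hp (hL d hd hdd) hpπ))
      have hsyl : ∀ L : Subgroup G, Maximal (Cfsg.IsPiSubgroup π) L → ∃ P : Sylow p G, (P : Subgroup G) = L := by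
        intro L hL
        obtain ⟨P, hP⟩ := (hpg L hL.prop).exists_le_sylow
        refine ⟨P, le_antisymm (hL.le_of_ge ?_ hP) hP⟩
        intro s hs hsd
        obtain ⟨n, hn⟩ := IsPGroup.iff_card.mp P.isPGroup'
        rw [hn] at hsd
        rw [(Nat.prime_dvd_prime_iff_eq hs hp).mp (hs.dvd_of_dvd_pow hsd)]
        exact hpπ
      obtain ⟨P, hP⟩ := hsyl H hH
      obtain ⟨Q, hQ⟩ := hsyl K hK
      obtain ⟨g, hg⟩ := MulAction.exists_smul_eq G P Q
      refine ⟨g, ?_⟩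
      rw [← hQ, ← hg, ← hP, Sylow.coe_subgroup_smul]
      rfl
    · have hb : ∀ L : Subgroup G, Cfsg.IsPiSubgroup π L → L = ⊥ := by
        intro L hL
        by_contra hne
        obtain ⟨s, hs, hsd⟩ := Nat.exists_prime_and_dvd (fun h => hne (card_eq_one.mp h))
        exact h1 ⟨s, hs, hL s hs hsd⟩
      exact hid ((hb H hH.prop).trans (hb K hK.prop).symm)
  · have ht : ∀ L : Subgroup G, Maximal (Cfsg.IsPiSubgroup π) L → L = ⊤ := by
      intro L hL
      exact top_le_iff.mp (hL.le_of_ge (fun s hs _ => h s hs) le_top)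
    exact hid ((ht H hH).trans (ht K hK).symm)

/-- For a set of primes π the following are equivalent: every finite group has a Hall π-subgroup; in every finite group the maximal π-subgroups are pairwise conjugate; π contains at most one prime or contains every prime. -/
theorem result (π : Set ℕ) :
    ((∀ (G : Type) [Group G] [Finite G], Cfsg.IsEPiGroup π G) ↔
      ((∀ p q : ℕ, p.Prime → q.Prime → p ∈ π → q ∈ π → p = q) ∨ ∀ p : ℕ, p.Prime → p ∈ π)) ∧
    ((∀ (G : Type) [Group G] [Finite G], Cfsg.IsDPiGroup π G) ↔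
      ((∀ p q : ℕ, p.Prime → q.Prime → p ∈ π → q ∈ π → p = q) ∨ ∀ p : ℕ, p.Prime → p ∈ π)) := by
  refine ⟨⟨fun hE => e_imp π (fun G _ _ => hE G), fun h G _ _ => e_of π h G⟩, ⟨fun hD => e_imp π (fun G _ _ => d_imp π G (hD G)), fun h G _ _ => d_of π h G⟩⟩

end Cfsg.Agent.S3878
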