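import Cfsg.Statements.S3883
import Cfsg.Agent.H2.MetacD

set_option autoImplicit false
open Cfsg

namespace Cfsg.Agent.S3883

open Cfsg.Agent.H2.Metac Cfsg.Agent.H2.MetacB Cfsg.Agent.H2.MetacC Cfsg.Agent.H2.MetacD

/-- Let p be an odd prime and G a finite metacyclic p-group (G has a cyclic normal subgroup with cyclic quotient). Suppose G is non-abelian. Then an element g of G lies outside the Frattini subgroup if and only if its centralizer C_G(g) is abelian. -/
theorem result {G : Type*} [Group G] [Finite G] {p : ℕ} [Fact p.Prime] (hp : p ≠ 2) (hG : IsPGroup p G) (hmc : Cfsg.IsMetacyclic G) (hna : ¬ IsMulCommutative G) (g : G) :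
    g ∉ frattini G ↔ IsMulCommutative ↥(Subgroup.centralizer ({g} : Set G)) := by
  have hpp : p.Prime := Fact.out
  obtain ⟨D⟩ := exists_mcData hG hmc
  have hc : 1 ≤ cc D := by
    by_contra hne
    have h0 : cc D = 0 := by omega
    apply hna
    have h1 := (index_center D hp)
    rw [h0, pow_zero, one_pow, Subgroup.index_eq_one] at h1
    refine ⟨⟨fun x y => ?_⟩⟩
    have : y ∈ Subgroup.center G := by rw [h1]; trivial
    exact Subgroup.mem_center_iff.mp this x
  rw [frattini_eq D hp hG hc, mem_Gs, abelian_iff_card D hp]
  obtain ⟨k, hk⟩ := index_centralizer_pow D hG g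
  have h1 := (Subgroup.centralizer {g}).card_mul_index
  have h2 := (commutator G).card_mul_index
  rw [← h2, card_commutator D, hk] at h1
  rw [hk, not_le, Nat.pow_lt_pow_iff_right hpp.one_lt]
  have hpos : 0 < (commutator G).index := Nat.pos_of_ne_zero Subgroup.FiniteIndex.index_ne_zero
  have hpos2 : 0 < Nat.card (Subgroup.centralizer ({g} : Set G)) := Nat.card_pos
  constructor
  · intro h
    by_contra hlt
    push_neg at hlt
    have h3 : p ^ cc D ≤ p ^ k := Nat.pow_le_pow_right hpp.pos (by omega)
    have h4 : p ^ cc D * (commutator G).index <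
        Nat.card (Subgroup.centralizer ({g} : Set G)) * p ^ k := by
      calc p ^ cc D * (commutator G).index ≤ p ^ k * (commutator G).index :=
            Nat.mul_le_mul_right _ h3
        _ < p ^ k * Nat.card (Subgroup.centralizer ({g} : Set G)) :=
            Nat.mul_lt_mul_of_pos_left hlt (pow_pos hpp.pos _)
        _ = _ := mul_comm _ _
    omega
  · intro h
    by_contra hlt
    push_neg at hlt
    have h3 : p ^ k < p ^ cc D := Nat.pow_lt_pow_right hpp.one_lt (by omega)
    have h4 : Nat.card (Subgroup.centralizer ({g} : Set G)) * p ^ k <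
        p ^ cc D * (commutator G).index := by
      calc Nat.card (Subgroup.centralizer ({g} : Set G)) * p ^ k ≤
          (commutator G).index * p ^ k := Nat.mul_le_mul_right _ h
        _ < (commutator G).index * p ^ cc D := Nat.mul_lt_mul_of_pos_left h3 hpos
        _ = _ := mul_comm _ _
    omega

end Cfsg.Agent.S3883
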