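import Cfsg.Statements.S3886
import Cfsg.Agent.H2.MetacE

set_option autoImplicit false
open Cfsg

namespace Cfsg.Agent.S3886

open Cfsg.Agent.H2.Metac Cfsg.Agent.H2.MetacB Cfsg.Agent.H2.MetacC Cfsg.Agent.H2.MetacD Cfsg.Agent.H2.MetacE

/-- Let p be an odd prime and G a finite metacyclic p-group (G has a cyclic normal subgroup with cyclic quotient). Then the largest value of |R| · |Z(R)| over subgroups R of G is |G : G'|², and the subgroups attaining it (the centrally large subgroups) are exactly the non-abelian subgroups together with the maximal abelian subgroups of G. -/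
theorem result {G : Type*} [Group G] [Finite G] {p : ℕ} [Fact p.Prime] (hp : p ≠ 2) (hG : IsPGroup p G) (hmc : Cfsg.IsMetacyclic G) : Cfsg.maxCentralProduct G = (commutator G).index ^ 2 ∧
    ∀ R : Subgroup G, Cfsg.IsCentrallyLarge R ↔ (¬ IsMulCommutative ↥R ∨ Maximal (fun K : Subgroup G => IsMulCommutative ↥K) R) := by
  obtain ⟨D⟩ := exists_mcData hG hmc
  have habe : ∀ R : Subgroup G, IsMulCommutative R →
      Nat.card R * Nat.card (Subgroup.center ↥R) = Nat.card R ^ 2 := by
    intro R hR
    have h1 : Subgroup.center ↥R = ⊤ := by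
      rw [eq_top_iff]
      intro x _
      rw [Subgroup.mem_center_iff]
      intro y
      exact hR.is_comm.comm y x
    rw [h1, Subgroup.card_top, sq]
  have hnab : ∀ R : Subgroup G, ¬ IsMulCommutative R →
      Nat.card R * Nat.card (Subgroup.center ↥R) = (commutator G).index ^ 2 := by
    intro R hR
    rw [card_center_subgroup, card_mul_card_center D hp R hR]
  have hle : ∀ R : Subgroup G, Nat.card R * Nat.card (Subgroup.center ↥R) ≤
      (commutator G).index ^ 2 := by
    intro R
    by_cases hR : IsMulCommutative R
    · rw [habe R hR]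
      exact Nat.pow_le_pow_left ((abelian_iff_card D hp R).mp hR) 2
    · exact (hnab R hR).le
  have htop : Nat.card (⊤ : Subgroup G) * Nat.card (Subgroup.center ↥(⊤ : Subgroup G)) =
      (commutator G).index ^ 2 := by
    rw [card_center_subgroup, Subgroup.card_top, ← card_mul_center_top D hp]
    congr 2
    rw [top_inf_eq, Subgroup.coe_top, Subgroup.centralizer_univ]
  have hmax : Cfsg.maxCentralProduct G = (commutator G).index ^ 2 := by
    unfold Cfsg.maxCentralProduct
    apply IsGreatest.csSup_eq
    refine ⟨⟨⊤, htop⟩, ?_⟩
    rintro _ ⟨R, rfl⟩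
    exact hle R
  refine ⟨hmax, ?_⟩
  intro R
  unfold Cfsg.IsCentrallyLarge
  rw [hmax, maximal_abelian_iff_card D hp]
  constructor
  · intro h
    by_cases hR : IsMulCommutative R
    · right
      rw [habe R hR] at h
      exact Nat.pow_left_injective (by norm_num) h
    · left; exact hR
  · rintro (h | h)
    · exact hnab R h
    · have hR : IsMulCommutative R := (abelian_iff_card D hp R).mpr h.le
      rw [habe R hR, h]

end Cfsg.Agent.S3886
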