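import Cfsg.Statements.S3897
import Mathlib
import Cfsg.Agent.H2.KPi
import Cfsg.Agent.Lib.PNilp
import Cfsg.Agent.Lib.Wiel

set_option autoImplicit false
open Cfsg

namespace Cfsg.Agent.S3897

open Subgroup Cfsg.Agent.Lib

/-- Let p be an odd prime and G a finite group with Sylow p-subgroup P, and write k_p(G) for the number of conjugacy classes of G consisting of p-elements (elements of p-power order, the identity included). Then k_p(G) > (p + 1)|P|/(2p) if and only if G has a normal p-complement and P is abelian. -/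
theorem result {G : Type*} [Group G] [Finite G] {p : ℕ} [Fact p.Prime] (hp : p ≠ 2) (P : Sylow p G) :
    (p + 1) * Nat.card ↥(P : Subgroup G) < 2 * p * Nat.card {c : ConjClasses G // ∀ x ∈ c.carrier, ∃ k : ℕ, orderOf x = p ^ k} ↔
      Cfsg.HasNormalPComplement p G ∧ IsMulCommutative ↥(P : Subgroup G) := by
  classical
  haveI hpf : Fact p.Prime := inferInstance
  constructor
  · intro h
    obtain ⟨h1, h2⟩ := Cfsg.Agent.H2.KPi.main P h
    exact ⟨PNilp.hasNormalPComplement_iff.2 (Wiel.pNil_of_normalizer_le_centralizer P h1), h2⟩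
  · rintro ⟨h1, h2⟩
    have hp2 : 2 < p := lt_of_le_of_ne hpf.out.two_le (Ne.symm hp)
    have h3 := PNilp.hasNormalPComplement_iff.1 h1
    obtain ⟨N, hN, hNP⟩ := (PNilp.exists_complement_iff P).2 h3
    have hinj : Function.Injective (Cfsg.Agent.H2.KPi.clsMap P) := by
      intro a b hab
      have h4 : ConjClasses.mk (a : G) = ConjClasses.mk (b : G) := congrArg Subtype.val hab
      rw [ConjClasses.mk_eq_mk_iff_isConj] at h4
      obtain ⟨g, hg⟩ := isConj_iff.1 h4
      obtain ⟨u, hu, hu2⟩ := Wiel.control_of_exists_complement hNP a.2 g (by rw [hg]; exact b.2)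
      apply Subtype.ext
      rw [← hg, hu2]
      have h5 : u * (a : G) = a * u :=
        congrArg Subtype.val (h2.is_comm.comm (⟨u, hu⟩ : (P : Subgroup G)) a)
      rw [h5]; group
    have h5 := Nat.card_le_card_of_injective _ hinj
    have h6 : 0 < Nat.card ↥(P : Subgroup G) := Nat.card_pos
    nlinarith

end Cfsg.Agent.S3897
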