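import Cfsg.Statements.S3899
import Mathlib
import Cfsg.Agent.H2.KPi
import Cfsg.Agent.Lib.PNilp
import Cfsg.Agent.Lib.Wiel
import Cfsg.Agent.Lib.Hall

set_option autoImplicit false
open Cfsg

namespace Cfsg.Agent.S3899

open Subgroup Cfsg.Agent.Lib

theorem comm_of_nilpotent {H : Type*} [Group H] [Finite H] (h : Group.IsNilpotent H)
    (hs : ∀ (r : ℕ) (_ : Fact r.Prime) (Q : Sylow r H), IsMulCommutative (Q : Subgroup H)) :
    ∀ a b : H, a * b = b * a := by
  obtain ⟨e⟩ := (Group.isNilpotent_of_finite_tfae (G := H)).out 0 4 |>.1 h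
  intro a b
  apply e.symm.injective
  rw [map_mul, map_mul]
  funext p P
  haveI : Fact (p : ℕ).Prime := ⟨Nat.prime_of_mem_primeFactors p.2⟩
  exact (hs p this P).is_comm.comm _ _

/-- Let π be a finite non-empty set of odd primes with smallest member p and G a finite group. Write k_π(G) for the number of conjugacy classes of G consisting of π-elements (elements all of whose order's prime divisors lie in π) and |G|_π for the π-part of the order of G. If k_π(G) > (p + 1)|G|_π/(2p), then G has a normal π-complement (a normal subgroup of order prime to π whose index is a π-number) and an abelian Hall π-subgroup. -/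
theorem result {G : Type*} [Group G] [Finite G] (π : Finset ℕ) (hπ : ∀ r ∈ π, r.Prime) (h2 : 2 ∉ π) (p : ℕ) (hp : p ∈ π)
    (hmin : ∀ r ∈ π, p ≤ r) (hk : (p + 1) * π.prod (fun r => r ^ (Nat.card G).factorization r) < 2 * p * Nat.card {c : ConjClasses G // ∀ x ∈ c.carrier, ∀ r : ℕ, r.Prime → r ∣ orderOf x → r ∈ π}) :
    (∃ N : Subgroup G, N.Normal ∧ (∀ r : ℕ, r.Prime → r ∣ Nat.card ↥N → r ∉ π) ∧ ∀ r : ℕ, r.Prime → r ∣ N.index → r ∈ π) ∧ ∃ H : Subgroup G, Cfsg.IsPiHall (↑π : Set ℕ) H ∧ IsMulCommutative ↥H := by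
  classical
  -- each prime
  have key : ∀ q ∈ π, ∀ (hq : Fact q.Prime) (Q : Sylow q G),
      normalizer (Q : Set G) ≤ centralizer (Q : Set G) ∧ IsMulCommutative ↥(Q : Subgroup G) := by
    intro q hqπ hq Q
    apply Cfsg.Agent.H2.KPi.main Q
    have hins : (insert q ((π.erase q : Finset ℕ) : Set ℕ)) = (π : Set ℕ) := by
      rw [← Finset.coe_insert, Finset.insert_erase hqπ]
    set M := (π.erase q).prod (fun r => r ^ (Nat.card G).factorization r) with hM
    have h1 : Cfsg.Agent.H2.KPi.kk (π : Set ℕ) G ≤ Cfsg.Agent.H2.KPi.kk {q} G * M := by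
      rw [← hins]
      apply Cfsg.Agent.H2.KPi.kk_insert_le hq.out
      intro x
      refine (Cfsg.Agent.H2.KPi.kk_le (π.erase q) (fun r hr => hπ r (Finset.mem_of_mem_erase hr)) _).trans ?_
      apply Finset.prod_le_prod'
      intro r hr
      apply Nat.pow_le_pow_right (hπ r (Finset.mem_of_mem_erase hr)).pos
      exact (Nat.factorization_le_iff_dvd Nat.card_pos.ne' Nat.card_pos.ne').2
        (card_subgroup_dvd_card _) r
    have h2 : π.prod (fun r => r ^ (Nat.card G).factorization r) = q ^ (Nat.card G).factorization q * M :=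
      (Finset.mul_prod_erase π _ hqπ).symm
    rw [Cfsg.Agent.H2.KPi.kk_single hq.out] at h1
    have h3 : Cfsg.Agent.H2.KPi.kk (π : Set ℕ) G = Nat.card {c : ConjClasses G // ∀ x ∈ c.carrier, ∀ r : ℕ, r.Prime → r ∣ orderOf x → r ∈ π} := rfl
    rw [h2, ← h3] at hk
    rw [Q.card_eq_multiplicity]
    set k := Nat.card {c : ConjClasses G // ∀ x ∈ c.carrier, ∃ k : ℕ, orderOf x = q ^ k}
    set a := q ^ (Nat.card G).factorization q
    have hMpos : 0 < M := Finset.prod_pos fun r hr => pow_pos (hπ r (Finset.mem_of_mem_erase hr)).pos _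
    have h4 : (p + 1) * a * M < 2 * p * k * M := by
      calc (p + 1) * a * M = (p + 1) * (a * M) := by ring
        _ < 2 * p * Cfsg.Agent.H2.KPi.kk (π : Set ℕ) G := hk
        _ ≤ 2 * p * (k * M) := Nat.mul_le_mul_left _ h1
        _ = 2 * p * k * M := by ring
    have h5 : (p + 1) * a < 2 * p * k := Nat.lt_of_mul_lt_mul_right h4
    have hpq := hmin q hqπ
    have hppos := (hπ p hp).pos
    have h6 : p * ((q + 1) * a) < p * (2 * q * k) := by nlinarith
    exact Nat.lt_of_mul_lt_mul_left h6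
  -- normal complement
  have h1 : ∀ S : Finset ℕ, S ⊆ π → ∃ N : Subgroup G, N.Normal ∧ (∀ r ∈ S, ¬ r ∣ Nat.card N) ∧
      ∀ r : ℕ, r.Prime → r ∣ N.index → r ∈ π := by
    intro S
    induction S using Finset.induction_on with
    | empty =>
      intro _
      refine ⟨⊤, inferInstance, by simp, ?_⟩
      intro r hr hd
      rw [index_top, Nat.dvd_one] at hd
      exact absurd hd hr.ne_one
    | insert q S hqS ih =>
      intro hS
      obtain ⟨N, hN, hN1, hN2⟩ := ih (fun r hr => hS (Finset.mem_insert_of_mem hr))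
      have hqπ : q ∈ π := hS (Finset.mem_insert_self _ _)
      haveI hq : Fact q.Prime := ⟨hπ q hqπ⟩
      obtain ⟨Q⟩ : Nonempty (Sylow q G) := inferInstance
      obtain ⟨K, hK, hK1, k, hK2⟩ := Wiel.pNil_of_normalizer_le_centralizer Q (key q hqπ hq Q).1
      refine ⟨N ⊓ K, inferInstance, ?_, ?_⟩
      · intro r hr hd
        rcases Finset.mem_insert.1 hr with rfl | hr
        · have : r ∣ Nat.card K := hd.trans (card_dvd_of_le inf_le_right)
          exact (Nat.Prime.coprime_iff_not_dvd hq.out).1 hK1.symm this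
        · exact hN1 r hr (hd.trans (card_dvd_of_le inf_le_left))
      · intro r hr hd
        rw [← relIndex_mul_index (inf_le_right : N ⊓ K ≤ K), inf_relIndex_right] at hd
        rcases hr.dvd_mul.1 hd with h | h
        · exact hN2 r hr (h.trans (relIndex_dvd_index_of_normal N K))
        · rw [hK2] at h
          rw [(Nat.prime_dvd_prime_iff_eq hr hq.out).1 (hr.dvd_of_dvd_pow h)]
          exact hqπ
  obtain ⟨N, hN, hN1, hN2⟩ := h1 π (Finset.Subset.refl _)
  refine ⟨⟨N, hN, fun r hr hd hrπ => hN1 r hrπ hd, hN2⟩, ?_⟩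
  have hcop : (Nat.card N).Coprime N.index := by
    rw [Nat.coprime_iff_gcd_eq_one]
    by_contra hne
    obtain ⟨r, hr, hd⟩ := Nat.exists_prime_and_dvd hne
    exact hN1 r (hN2 r hr (hd.trans (Nat.gcd_dvd_right _ _))) (hd.trans (Nat.gcd_dvd_left _ _))
  obtain ⟨H, hH⟩ := exists_right_complement'_of_coprime hcop
  have hHc : Nat.card H = N.index := by
    have e1 := hH.card_mul
    have e2 := N.card_mul_index
    exact Nat.eq_of_mul_eq_mul_left Nat.card_pos (e1.trans e2.symm)
  have hHi : H.index = Nat.card N := by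
    have e1 := hH.card_mul
    have e2 := H.card_mul_index
    rw [← e1, mul_comm] at e2
    exact Nat.eq_of_mul_eq_mul_right Nat.card_pos e2
  refine ⟨H, ⟨fun r hr hd => hN2 r hr (hHc ▸ hd), fun r hr hrπ hd => hN1 r hrπ (hHi ▸ hd)⟩, ?_⟩
  have hnil : Group.IsNilpotent H := by
    apply PNilp.isNilpotent_of_forall_pNil
    intro r hr
    haveI : Fact r.Prime := ⟨hr⟩
    by_cases hrπ : r ∈ π
    · obtain ⟨Q⟩ : Nonempty (Sylow r G) := inferInstance
      exact (Wiel.pNil_of_normalizer_le_centralizer Q (key r hrπ this Q).1).subgroup H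
    · apply PNilp.pNil_of_coprime
      rw [Nat.coprime_comm, Nat.Prime.coprime_iff_not_dvd hr]
      intro hd
      exact hrπ (hN2 r hr (hHc ▸ hd))
  have hcomm := comm_of_nilpotent hnil (by
    intro r hr Q
    by_cases hrπ : r ∈ π
    · have hp : IsPGroup r ((Q : Subgroup H).map H.subtype) := Q.isPGroup'.map _
      obtain ⟨R, hR⟩ := hp.exists_le_sylow
      have hc := (key r hrπ hr R).2
      refine ⟨⟨fun a b => ?_⟩⟩
      have h7 : (⟨((a : H) : G), hR ⟨_, a.2, rfl⟩⟩ : (R : Subgroup G)) * ⟨((b : H) : G), hR ⟨_, b.2, rfl⟩⟩ =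
        ⟨((b : H) : G), hR ⟨_, b.2, rfl⟩⟩ * (⟨((a : H) : G), hR ⟨_, a.2, rfl⟩⟩ : (R : Subgroup G)) :=
        hc.is_comm.comm _ _
      have h8 : ((a : H) : G) * ((b : H) : G) = ((b : H) : G) * ((a : H) : G) := congrArg Subtype.val h7
      exact Subtype.ext (Subtype.ext h8)
    · have : Subsingleton (Q : Subgroup H) := by
        obtain ⟨k, hk⟩ := Q.isPGroup'.exists_card_eq
        apply Finite.card_le_one_iff_subsingleton.1
        rcases Nat.eq_zero_or_pos k with rfl | hkpos
        · rw [hk, pow_zero]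
        · exfalso
          apply hrπ
          apply hN2 r hr.out
          rw [← hHc]
          exact ((dvd_pow_self r hkpos.ne').trans (dvd_of_eq hk.symm)).trans (card_subgroup_dvd_card _)
      exact ⟨⟨fun a b => Subsingleton.elim _ _⟩⟩)
  exact ⟨⟨hcomm⟩⟩

end Cfsg.Agent.S3899
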