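import Cfsg.Statements.S3904
import Mathlib
import Cfsg.Agent.H2.MaxCentE

set_option autoImplicit false
open Cfsg

namespace Cfsg.Agent.S3904

open Subgroup Cfsg.Agent.H2.MaxCent
open scoped Pointwise commutatorElement

/-- Let G be a non-abelian finite group in which the centralizer of every non-central element is a maximal subgroup. Then G/Z(G) is either an elementary abelian p-group for some prime p, or a minimal non-abelian group (non-abelian with all proper subgroups abelian) of order p^a · q for distinct primes p, q with a normal Sylow p-subgroup. -/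
theorem result {G : Type*} [Group G] [Finite G] (hna : ¬ IsMulCommutative G)
    (h : ∀ x : G, x ∉ Subgroup.center G → IsCoatom (Subgroup.centralizer ({x} : Set G))) :
    (∃ p : ℕ, p.Prime ∧ Cfsg.IsElementaryAbelian p (⊤ : Subgroup (G ⧸ Subgroup.center G))) ∨
    (¬ IsMulCommutative (G ⧸ Subgroup.center G) ∧ (∀ H : Subgroup (G ⧸ Subgroup.center G), H ≠ ⊤ → IsMulCommutative ↥H) ∧
      ∃ p q a : ℕ, p.Prime ∧ q.Prime ∧ p ≠ q ∧ Nat.card (G ⧸ Subgroup.center G) = p ^ a * q ∧
        ∀ P : Subgroup (G ⧸ Subgroup.center G), Nat.card ↥P = p ^ a → P.Normal) := by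
  have hct : centralizer ((⊤ : Subgroup G) : Set G) = center G := centralizer_univ
  have hyp : Hyp (⊤ : Subgroup G) := fun x _ hxc => h x (by rwa [hct] at hxc)
  obtain ⟨π, hπ⟩ : ∃ π, π = QuotientGroup.mk' (center G) := ⟨_, rfl⟩
  have hπs : Function.Surjective π := hπ ▸ QuotientGroup.mk'_surjective _
  have hc1 : ∀ n : G, π n = 1 ↔ n ∈ centralizer ((⊤ : Subgroup G) : Set G) := by
    intro n
    rw [hct, hπ, QuotientGroup.mk'_apply, QuotientGroup.eq_one_iff]
  have hcomm : ∀ a b : G, π a * π b = π b * π a ↔ a * b * a⁻¹ * b⁻¹ ∈ centralizer ((⊤ : Subgroup G) : Set G) := by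
    intro a b
    rw [← hc1, map_mul, map_mul, map_mul, map_inv, map_inv]
    constructor
    · intro h; rw [h]; group
    · intro h
      exact mul_inv_eq_iff_eq_mul.mp (mul_inv_eq_one.mp h)
  have hab : ¬ (⊤ : Subgroup G) ≤ centralizer ((⊤ : Subgroup G) : Set G) := by
    intro h1
    apply hna
    exact ⟨⟨fun a b => (mem_centralizer_iff.mp (h1 (mem_top b)) a (mem_top a))⟩⟩
  by_cases hn : Group.IsNilpotent (⊤ : Subgroup G)
  · left
    obtain ⟨p, hp, h1, h2⟩ := nilp_case hyp hn hab
    refine ⟨p, hp, ?_, ?_⟩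
    · rw [Cfsg.Agent.Lib.Nilp.isMulCommutative_iff_forall]
      intro a _ b _
      obtain ⟨a, rfl⟩ := hπs a
      obtain ⟨b, rfl⟩ := hπs b
      exact (hcomm a b).mpr (h2 a (mem_top a) b (mem_top b))
    · intro a _
      obtain ⟨a, rfl⟩ := hπs a
      rw [← map_pow]
      exact (hc1 (a ^ p)).mpr (h1 a (mem_top a))
  · right
    obtain ⟨F, hFn, hFN, hFne, hFnc, hZF, hchief, r, q, hr, hq, hrq, hFr, hFab, hNq, hNab, hfix⟩ := main hyp hn
    rw [top_inf_eq] at hZF hchief
    obtain ⟨K, hK⟩ : ∃ K, K = F.map π := ⟨_, rfl⟩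
    have hKn : K.Normal := by
      rw [hK]
      exact Subgroup.Normal.map hFn π hπs
    have hKmem : ∀ n : G, π n ∈ K ↔ n ∈ F := by
      intro n
      rw [hK]
      constructor
      · rintro ⟨m, hm, hmn⟩
        have h1 : π (m⁻¹ * n) = 1 := by rw [map_mul, map_inv, hmn, inv_mul_cancel]
        have h2 : m⁻¹ * n ∈ F := hZF ((hc1 _).mp h1)
        have h3 : n = m * (m⁻¹ * n) := by group
        rw [h3]
        exact F.mul_mem hm h2
      · intro hn
        exact ⟨n, hn, rfl⟩
    have : Fact q.Prime := ⟨hq⟩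
    obtain ⟨Q⟩ : Nonempty (Sylow q (G ⧸ center G)) := inferInstance
    have hKfix : ∀ y : G ⧸ center G, y ∉ K → ∀ k ∈ K, k * y = y * k → k = 1 := by
      intro y hy k hk hky
      obtain ⟨y, rfl⟩ := hπs y
      obtain ⟨k, rfl⟩ := hπs k
      rw [hKmem] at hy hk
      exact (hc1 k).mpr (hfix y (mem_top y) hy k hk ((hcomm k y).mp hky))
    have hK0 : K ≠ ⊥ := by
      intro h1
      apply hFnc
      intro f hf
      have h2 : π f ∈ K := (hKmem _).mpr hf
      rw [h1, mem_bot] at h2
      exact (hc1 _).mp h2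
    have hKt : K ≠ ⊤ := by
      intro h1
      apply hFne
      apply le_antisymm hFN
      intro n hn
      have h2 : π n ∈ K := h1 ▸ mem_top _
      exact (hKmem _).mp h2
    have hKr : ∀ k ∈ K, k ^ r = 1 := by
      intro k hk
      obtain ⟨k, rfl⟩ := hπs k
      rw [hKmem] at hk
      rw [← map_pow]
      exact (hc1 _).mpr (hFr k hk)
    have hQK : ∀ a b : G ⧸ center G, a * b * a⁻¹ * b⁻¹ ∈ K := by
      intro a b
      obtain ⟨a, rfl⟩ := hπs a
      obtain ⟨b, rfl⟩ := hπs b
      rw [← map_inv, ← map_inv, ← map_mul, ← map_mul, ← map_mul, hKmem]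
      exact hNab a (mem_top a) b (mem_top b)
    have hKab : ∀ a ∈ K, ∀ b ∈ K, a * b = b * a := by
      intro a ha b hb
      obtain ⟨a, rfl⟩ := hπs a
      obtain ⟨b, rfl⟩ := hπs b
      rw [hKmem] at ha hb
      exact (hcomm a b).mpr (hFab a ha b hb)
    obtain ⟨h1, h2, h3, h4, h5⟩ := cyc hr hq hrq hK0 hKt hKr (by
      intro x
      obtain ⟨x, rfl⟩ := hπs x
      rw [← map_pow, hKmem]
      exact hNq x (mem_top x)) hQK hKfix (Q : Subgroup (G ⧸ center G)) Q.isPGroup' Q.not_dvd_index
    have : Fact r.Prime := ⟨hr⟩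
    obtain ⟨a, ha⟩ := IsPGroup.iff_card.mp h5
    have hcard : Nat.card (G ⧸ center G) = r ^ a * q := by
      have h6 := Cfsg.Agent.Lib.Basic.card_sup_of_inf_eq_bot (N := K) (H := (Q : Subgroup (G ⧸ center G)))
        (by rw [normalizer_eq_top]; exact le_top) h1
      rw [h2, card_top, ha, h4] at h6
      exact h6
    have hKi : K.index = q := by
      have h6 := K.card_mul_index
      rw [hcard, ha] at h6
      exact Nat.eq_of_mul_eq_mul_left (pow_pos hr.pos a) h6
    refine ⟨?_, ?_, r, q, a, hr, hq, hrq, hcard, ?_⟩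
    · intro hc
      obtain ⟨⟨y, hy⟩, hy1⟩ := Subgroup.ne_bot_iff_exists_ne_one.mp h3
      obtain ⟨⟨k, hk⟩, hk1⟩ := Subgroup.ne_bot_iff_exists_ne_one.mp hK0
      apply hk1
      apply Subtype.ext
      refine hKfix y (fun hyK => hy1 ?_) k hk (hc.is_comm.comm k y)
      have : y ∈ K ⊓ (Q : Subgroup (G ⧸ center G)) := ⟨hyK, hy⟩
      rw [h1, mem_bot] at this
      exact Subtype.ext this
    · intro H hH
      rw [Cfsg.Agent.Lib.Nilp.isMulCommutative_iff_forall]
      by_cases hHK : H ≤ K
      · exact fun a ha b hb => hKab a (hHK ha) b (hHK hb)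
      obtain ⟨y, hyH, hyK⟩ := SetLike.not_le_iff_exists.mp hHK
      -- K⟨y⟩ = ⊤
      have hKy : K ⊔ zpowers y = ⊤ := by
        have h6 : (K ⊔ zpowers y).index ∣ q := by rw [← hKi]; exact index_dvd_of_le le_sup_left
        rcases (Nat.dvd_prime hq).mp h6 with h7 | h7
        · exact index_eq_one.mp h7
        · exfalso
          have h8 : K ⊔ zpowers y ≤ K := by
            rw [← relIndex_eq_one]
            have h9 := relIndex_mul_index (le_sup_left : K ≤ K ⊔ zpowers y)
            rw [h7, hKi] at h9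
            exact Nat.eq_of_mul_eq_mul_right hq.pos (by rw [h9, one_mul])
          exact hyK (h8 (mem_sup_right (mem_zpowers y)))
      have hMn : (H ⊓ K).Normal := by
        rw [← normalizer_eq_top_iff, eq_top_iff, ← hKy]
        refine sup_le ?_ ?_
        · intro k hk
          have key : ∀ k ∈ K, ∀ m ∈ H ⊓ K, k * m * k⁻¹ = m := by
            intro k hk m hm
            rw [hKab k hk m hm.2]; group
          rw [mem_normalizer_iff]
          intro m
          constructor
          · intro hm
            rw [key k hk m hm]; exact hm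
          · intro hm
            have := key k⁻¹ (K.inv_mem hk) _ hm
            have e : k⁻¹ * (k * m * k⁻¹) * k⁻¹⁻¹ = m := by group
            rw [e] at this
            rw [this]; exact hm
        · rw [zpowers_le]
          have h6 : y ∈ normalizer (H : Set (G ⧸ center G)) := le_normalizer hyH
          have h7 : y ∈ normalizer (K : Set (G ⧸ center G)) := by rw [normalizer_eq_top]; exact mem_top y
          rw [mem_normalizer_iff]
          intro m
          rw [mem_inf, mem_inf]
          exact and_congr (mem_normalizer_iff.mp h6 m) (mem_normalizer_iff.mp h7 m)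
      have hLn : ((H ⊓ K).comap π).Normal := hMn.comap π
      have hZL : centralizer ((⊤ : Subgroup G) : Set G) ≤ (H ⊓ K).comap π := by
        intro z hz
        rw [mem_comap, (hc1 z).mpr hz]
        exact one_mem _
      have hLF : (H ⊓ K).comap π ≤ F := by
        intro x hx
        exact (hKmem x).mp hx.2
      rcases hchief _ hLn hZL hLF with h6 | h6
      · -- trivial intersection
        have h7 : ∀ x ∈ H ⊓ K, x = 1 := by
          intro x hx
          obtain ⟨x, rfl⟩ := hπs x
          have : x ∈ (H ⊓ K).comap π := hx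
          rw [h6] at this
          exact (hc1 x).mpr this
        intro a ha b hb
        have h8 := h7 (a * b * a⁻¹ * b⁻¹) (mem_inf.mpr ⟨H.mul_mem (H.mul_mem (H.mul_mem ha hb) (H.inv_mem ha)) (H.inv_mem hb), hQK a b⟩)
        exact mul_inv_eq_iff_eq_mul.mp (mul_inv_eq_one.mp h8)
      · exfalso
        apply hH
        rw [eq_top_iff, ← hKy]
        refine sup_le ?_ (zpowers_le.mpr hyH)
        intro k hk
        obtain ⟨k, rfl⟩ := hπs k
        rw [hKmem, ← h6] at hk
        exact hk.1
    · intro P hP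
      have hPr : IsPGroup r P := IsPGroup.iff_card.mpr ⟨a, hP⟩
      have hKr' : ¬ r ∣ K.index := by
        rw [hKi]
        intro hd
        exact hrq ((Nat.prime_dvd_prime_iff_eq hr hq).mp hd)
      have h6 : P ≤ K := by
        obtain ⟨S, hS⟩ := hPr.exists_le_sylow
        have h7 : ((h5.toSylow hKr' : Sylow r (G ⧸ center G)) : Subgroup (G ⧸ center G)).Normal := hKn
        have := Sylow.unique_of_normal _ h7
        rw [Subsingleton.elim S (h5.toSylow hKr')] at hS
        exact hS
      have h7 : P = K := Subgroup.eq_of_le_of_card_ge h6 (by rw [hP, ha])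
      rw [h7]; exact hKn

end Cfsg.Agent.S3904
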