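import Cfsg.Statements.S3905
import Mathlib
import Cfsg.Agent.H2.MaxCentE
import Cfsg.Agent.Lib.FrobGrp

set_option autoImplicit false
open Cfsg

namespace Cfsg.Agent.S3905

open Subgroup Cfsg.Agent.H2.MaxCent
open scoped Pointwise commutatorElement

/-- Let N be a normal subgroup of the finite group G such that for every element x of N outside the center of N the centralizer C_G(x) is a maximal subgroup of G. Then N/Z(N) is either an elementary abelian p-group for some prime p, or a Frobenius group whose kernel is an elementary abelian normal subgroup and whose complement has prime order. -/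
theorem result {G : Type*} [Group G] [Finite G] (N : Subgroup G) [N.Normal]
    (h : ∀ x : G, x ∈ N → x ∉ Subgroup.centralizer (N : Set G) → IsCoatom (Subgroup.centralizer ({x} : Set G))) :
    (∃ p : ℕ, p.Prime ∧ Cfsg.IsElementaryAbelian p (⊤ : Subgroup (↥N ⧸ Subgroup.center ↥N))) ∨
    (∃ (Q K : Subgroup (↥N ⧸ Subgroup.center ↥N)) (p : ℕ), p.Prime ∧ Cfsg.IsFrobeniusComplement Q ∧ (Nat.card ↥Q).Prime ∧
      K.Normal ∧ (K : Set (↥N ⧸ Subgroup.center ↥N)) = Cfsg.frobeniusKernel Q ∧ Cfsg.IsElementaryAbelian p K) := by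
  have hyp : Hyp N := fun x hx hxc => h x hx hxc
  have hc1 : ∀ n : N, (QuotientGroup.mk' (center N) n = 1) ↔ (n : G) ∈ centralizer (N : Set G) := by
    intro n
    rw [QuotientGroup.mk'_apply, QuotientGroup.eq_one_iff, mem_center_iff, mem_centralizer_iff]
    constructor
    · intro h1 g hg
      exact congrArg Subtype.val (h1 ⟨g, hg⟩)
    · intro h1 g
      exact Subtype.ext (h1 g g.2)
  by_cases hab : N ≤ centralizer (N : Set G)
  · left
    refine ⟨2, Nat.prime_two, ?_, ?_⟩
    · rw [Cfsg.Agent.Lib.Nilp.isMulCommutative_iff_forall]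
      intro a _ b _
      obtain ⟨a, rfl⟩ := QuotientGroup.mk'_surjective _ a
      obtain ⟨b, rfl⟩ := QuotientGroup.mk'_surjective _ b
      rw [(hc1 a).mpr (hab a.2), one_mul, mul_one]
    · intro a _
      obtain ⟨a, rfl⟩ := QuotientGroup.mk'_surjective _ a
      rw [(hc1 a).mpr (hab a.2), one_pow]
  by_cases hn : Group.IsNilpotent N
  · left
    obtain ⟨p, hp, h1, h2⟩ := nilp_case hyp hn hab
    refine ⟨p, hp, ?_, ?_⟩
    · rw [Cfsg.Agent.Lib.Nilp.isMulCommutative_iff_forall]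
      intro a _ b _
      obtain ⟨a, rfl⟩ := QuotientGroup.mk'_surjective _ a
      obtain ⟨b, rfl⟩ := QuotientGroup.mk'_surjective _ b
      have h3 := (hc1 (a * b * a⁻¹ * b⁻¹)).mpr (h2 a a.2 b b.2)
      rw [map_mul, map_mul, map_mul, map_inv, map_inv] at h3
      exact mul_inv_eq_iff_eq_mul.mp (mul_inv_eq_one.mp h3)
    · intro a _
      obtain ⟨a, rfl⟩ := QuotientGroup.mk'_surjective _ a
      rw [← map_pow]
      exact (hc1 (a ^ p)).mpr (h1 a a.2)
  · right
    obtain ⟨F, hFn, hFN, hFne, hFnc, hZF, hchief, r, q, hr, hq, hrq, hFr, hFab, hNq, hNab, hfix⟩ := main hyp hn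
    obtain ⟨π, hπ⟩ : ∃ π, π = QuotientGroup.mk' (center N) := ⟨_, rfl⟩
    have hπs : Function.Surjective π := hπ ▸ QuotientGroup.mk'_surjective _
    rw [← hπ] at hc1
    obtain ⟨K, hK⟩ : ∃ K, K = (F.subgroupOf N).map π := ⟨_, rfl⟩
    have hKn : K.Normal := by
      rw [hK]
      exact Subgroup.Normal.map inferInstance π hπs
    have hKmem : ∀ n : N, π n ∈ K ↔ (n : G) ∈ F := by
      intro n
      rw [hK]
      constructor
      · rintro ⟨m, hm, hmn⟩
        have h1 : π (m⁻¹ * n) = 1 := by rw [map_mul, map_inv, hmn, inv_mul_cancel]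
        have h2 : ((m⁻¹ * n : N) : G) ∈ F := hZF (mem_inf.mpr ⟨(m⁻¹ * n).2, (hc1 _).mp h1⟩)
        have h3 : (n : G) = m * ((m⁻¹ * n : N) : G) := by push_cast; group
        rw [h3]
        exact F.mul_mem hm h2
      · intro hn
        exact ⟨n, hn, rfl⟩
    have hcomm : ∀ a b : N, π a * π b = π b * π a → (a : G) * b * (a : G)⁻¹ * (b : G)⁻¹ ∈ centralizer (N : Set G) := by
      intro a b hab
      have h1 : π (a * b * a⁻¹ * b⁻¹) = 1 := by
        rw [map_mul, map_mul, map_mul, map_inv, map_inv, hab]; group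
      exact (hc1 _).mp h1
    have : Fact q.Prime := ⟨hq⟩
    obtain ⟨Q⟩ : Nonempty (Sylow q (N ⧸ center N)) := inferInstance
    have hKfix : ∀ y : N ⧸ center N, y ∉ K → ∀ k ∈ K, k * y = y * k → k = 1 := by
      intro y hy k hk hky
      obtain ⟨y, rfl⟩ := hπs y
      obtain ⟨k, rfl⟩ := hπs k
      rw [hKmem] at hy hk
      exact (hc1 k).mpr (hfix y y.2 hy k hk (hcomm k y hky))
    have hK0 : K ≠ ⊥ := by
      intro h1
      apply hFnc
      intro f hf
      have h2 : π ⟨f, hFN hf⟩ ∈ K := (hKmem _).mpr hf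
      rw [h1, mem_bot] at h2
      exact (hc1 _).mp h2
    have hKt : K ≠ ⊤ := by
      intro h1
      apply hFne
      apply le_antisymm hFN
      intro n hn
      have h2 : π ⟨n, hn⟩ ∈ K := h1 ▸ mem_top _
      exact (hKmem _).mp h2
    have hKr : ∀ k ∈ K, k ^ r = 1 := by
      intro k hk
      obtain ⟨k, rfl⟩ := hπs k
      rw [hKmem] at hk
      rw [← map_pow]
      exact (hc1 _).mpr (hFr k hk)
    obtain ⟨h1, h2, h3, h4, h5⟩ := cyc hr hq hrq hK0 hKt hKr (by
      intro x
      obtain ⟨x, rfl⟩ := hπs x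
      rw [← map_pow, hKmem]
      exact hNq x x.2) (by
      intro a b
      obtain ⟨a, rfl⟩ := hπs a
      obtain ⟨b, rfl⟩ := hπs b
      rw [← map_inv, ← map_inv, ← map_mul, ← map_mul, ← map_mul, hKmem]
      exact hNab a a.2 b b.2) hKfix (Q : Subgroup (N ⧸ center N)) Q.isPGroup' Q.not_dvd_index
    have h6 := Cfsg.Agent.Lib.FrobGrp.frobenius_of_complement (N := K) (H := (Q : Subgroup (N ⧸ center N))) h1 h2 hK0 h3 (by
      intro y hy hy1 k hk hky
      refine hKfix y (fun hyK => hy1 ?_) k hk hky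
      have : y ∈ K ⊓ (Q : Subgroup (N ⧸ center N)) := ⟨hyK, hy⟩
      rwa [h1, mem_bot] at this)
    refine ⟨Q, K, r, hr, h6.1, by rw [h4]; exact hq, hKn, h6.2.symm, ?_, hKr⟩
    rw [Cfsg.Agent.Lib.Nilp.isMulCommutative_iff_forall]
    intro a ha b hb
    obtain ⟨a, rfl⟩ := hπs a
    obtain ⟨b, rfl⟩ := hπs b
    rw [hKmem] at ha hb
    have h3 := (hc1 (a * b * a⁻¹ * b⁻¹)).mpr (hFab a ha b hb)
    rw [map_mul, map_mul, map_mul, map_inv, map_inv] at h3
    exact mul_inv_eq_iff_eq_mul.mp (mul_inv_eq_one.mp h3)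

end Cfsg.Agent.S3905
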