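import Cfsg.Statements.S3908
import Cfsg.Agent.H2.AbConj
import Cfsg.Agent.Lib.PGrpF

set_option autoImplicit false
open Cfsg

namespace Cfsg.Agent.S3908

/-- Let G be a finite group in which any two abelian subgroups of the same order are conjugate. Then a Sylow 2-subgroup of G is cyclic, elementary abelian or generalized quaternion, and for an odd prime p a Sylow p-subgroup of G is cyclic or has exponent dividing p. -/
theorem result {G : Type*} [Group G] [Finite G] (hB : ∀ A B : Subgroup G, IsMulCommutative ↥A → IsMulCommutative ↥B → Nat.card ↥A = Nat.card ↥B → ∃ g : G, B = A.map (MulAut.conj g).toMonoidHom) :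
    (∀ P : Sylow 2 G, IsCyclic ↥(P : Subgroup G) ∨ Cfsg.IsElementaryAbelian 2 (P : Subgroup G) ∨ ∃ k : ℕ, Nonempty (↥(P : Subgroup G) ≃* QuaternionGroup (2 ^ k))) ∧
    ∀ (p : ℕ) [Fact p.Prime], p ≠ 2 → ∀ P : Sylow p G, IsCyclic ↥(P : Subgroup G) ∨ ∀ x ∈ (P : Subgroup G), x ^ p = 1 := by
  refine ⟨fun P => ?_, fun p _ hp P => ?_⟩
  · haveI : Fact (Nat.Prime 2) := ⟨Nat.prime_two⟩
    by_cases h : ∀ x y : P, orderOf x = 2 → orderOf y = 2 → x ∈ Subgroup.zpowers y
    · rcases Cfsg.Agent.Lib.PGrpF.unique_imp P.2 h with h1 | ⟨-, h1⟩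
      · exact Or.inl h1
      · exact Or.inr (Or.inr h1)
    · right; left
      have h1 := Cfsg.Agent.H2.AbConj.exp_of hB P h
      have h2 : ∀ x ∈ (P : Subgroup G), ∀ y ∈ (P : Subgroup G), x * y = y * x := by
        intro x hx y hy
        have hx' : x = x⁻¹ := by rw [eq_inv_iff_mul_eq_one, ← sq]; exact h1 x hx
        have hy' : y = y⁻¹ := by rw [eq_inv_iff_mul_eq_one, ← sq]; exact h1 y hy
        have hxy' : x * y = (x * y)⁻¹ := by rw [eq_inv_iff_mul_eq_one, ← sq]; exact h1 _ (mul_mem hx hy)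
        rw [hxy', mul_inv_rev, ← hx', ← hy']
      exact ⟨⟨⟨fun a b => Subtype.ext (h2 a a.2 b b.2)⟩⟩, h1⟩
  · by_cases h : ∀ x y : P, orderOf x = p → orderOf y = p → x ∈ Subgroup.zpowers y
    · rcases Cfsg.Agent.Lib.PGrpF.unique_imp P.2 h with h1 | ⟨h1, -⟩
      · exact Or.inl h1
      · exact absurd h1 hp
    · exact Or.inr (Cfsg.Agent.H2.AbConj.exp_of hB P h)

end Cfsg.Agent.S3908
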