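import Cfsg.Statements.S3909
import Mathlib
import Cfsg.Agent.H2.PUtil

set_option autoImplicit false
open Cfsg

namespace Cfsg.Agent.S3909

open Subgroup

/-- Let G be a finite group in which any two abelian subgroups of the same order are conjugate. Let M be a normal subgroup of G. If M contains an element of the same order as a ∈ G, then a ∈ M; and if M is elementary abelian of order p^t with p prime and t ≥ 2, then M is the unique Sylow p-subgroup of G. -/
theorem result {G : Type*} [Group G] [Finite G] (hB : ∀ A B : Subgroup G, IsMulCommutative ↥A → IsMulCommutative ↥B → Nat.card ↥A = Nat.card ↥B → ∃ g : G, B = A.map (MulAut.conj g).toMonoidHom) (M : Subgroup G) [M.Normal] :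
    (∀ a : G, (∃ m ∈ M, orderOf m = orderOf a) → a ∈ M) ∧
    ∀ (p t : ℕ) [Fact p.Prime], 2 ≤ t → Nat.card ↥M = p ^ t → Cfsg.IsElementaryAbelian p M → ∀ P : Sylow p G, (P : Subgroup G) = M := by
  classical
  have hMn : M.Normal := inferInstance
  have part1 : ∀ a : G, (∃ m ∈ M, orderOf m = orderOf a) → a ∈ M := by
    rintro a ⟨m, hm, hma⟩
    obtain ⟨g, hg⟩ := hB (zpowers m) (zpowers a) inferInstance inferInstance
      (by rw [Nat.card_zpowers, Nat.card_zpowers, hma])
    have h1 : a ∈ (zpowers m).map (MulAut.conj g).toMonoidHom := by rw [← hg]; exact mem_zpowers a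
    obtain ⟨x, hx, rfl⟩ := h1
    have hxM : x ∈ M := (zpowers_le.2 hm) hx
    exact hMn.conj_mem x hxM g
  refine ⟨part1, ?_⟩
  intro p t hp' ht hM hel P
  have hp : p.Prime := hp'.out
  have hMp : IsPGroup p M := IsPGroup.of_card hM
  have hMP : M ≤ P := by
    obtain ⟨Q, hQ⟩ := hMp.exists_le_sylow
    obtain ⟨g, rfl⟩ := MulAction.exists_smul_eq G Q P
    intro x hx
    refine ⟨g⁻¹ * x * g, hQ ?_, ?_⟩
    · have := hMn.conj_mem x hx g⁻¹
      rwa [inv_inv] at this
    · show g * (g⁻¹ * x * g) * g⁻¹ = x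
      group
  by_contra hne
  have hlt : M < (P : Subgroup G) := lt_of_le_of_ne hMP (Ne.symm hne)
  -- an element x ∈ P \ M with x ^ p ∈ M
  obtain ⟨y, hyP, hyM⟩ := SetLike.exists_of_lt hlt
  obtain ⟨k, hk⟩ := P.isPGroup' ⟨y, hyP⟩
  have hk' : y ^ p ^ k ∈ M := by
    have : y ^ p ^ k = 1 := congrArg Subtype.val hk
    rw [this]; exact M.one_mem
  have hex : ∃ k, y ^ p ^ k ∈ M := ⟨k, hk'⟩
  set n := Nat.find hex with hn
  have hn0 : n ≠ 0 := by
    intro h
    have := Nat.find_spec hex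
    rw [← hn, h, pow_zero, pow_one] at this
    exact hyM this
  obtain ⟨m, hm⟩ := Nat.exists_eq_succ_of_ne_zero hn0
  set x := y ^ p ^ m with hx
  have hxM : x ∉ M := Nat.find_min hex (by rw [← hn, hm]; exact Nat.lt_succ_self m)
  have hxpM : x ^ p ∈ M := by
    have := Nat.find_spec hex
    rw [← hn, hm, Nat.succ_eq_add_one, pow_succ, pow_mul] at this
    exact this
  have hxp2 : x ^ p ^ 2 = 1 := by
    rw [pow_two, pow_mul]; exact hel.2 _ hxpM
  have hM1 : M ≠ ⊥ := by
    rintro rfl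
    rw [Subgroup.card_bot] at hM
    have : 1 < p ^ t := Nat.one_lt_pow (by omega) hp.one_lt
    omega
  obtain ⟨⟨z, hzM⟩, hz0⟩ := (M.ne_bot_iff_exists_ne_one).1 hM1
  have hz1 : z ≠ 1 := fun h => hz0 (Subtype.ext h)
  have hzo : orderOf z = p := orderOf_eq_prime (hel.2 z hzM) hz1
  have hxo : orderOf x = p ^ 2 := by
    apply orderOf_eq_prime_pow
    · intro h
      rw [pow_one] at h
      apply hxM
      by_cases hx1 : x = 1
      · rw [hx1]; exact M.one_mem
      · exact part1 x ⟨z, hzM, by rw [hzo, orderOf_eq_prime h hx1]⟩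
    · exact hxp2
  -- subgroup of order p^2 in M
  obtain ⟨E, hE⟩ := Sylow.exists_subgroup_card_pow_prime (G := M) p (n := 2) (by rw [hM]; exact pow_dvd_pow p ht)
  have hEc : ∀ a ∈ E.map M.subtype, ∀ b ∈ E.map M.subtype, a * b = b * a := by
    rintro _ ⟨a, _, rfl⟩ _ ⟨b, _, rfl⟩
    exact congrArg M.subtype (hel.1.is_comm.comm a b)
  obtain ⟨g, hg⟩ := hB (E.map M.subtype) (zpowers x) (H2.PUtil.isMulCommutative_iff.2 hEc) inferInstance (by
    rw [Nat.card_zpowers, hxo, ← hE]
    exact (Nat.card_congr (E.equivMapOfInjective M.subtype M.subtype_injective).toEquiv).symm)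
  have h1 : x ∈ (E.map M.subtype).map (MulAut.conj g).toMonoidHom := by rw [← hg]; exact mem_zpowers x
  obtain ⟨w, ⟨v, _, rfl⟩, hw⟩ := h1
  apply hxM
  rw [← hw]
  exact hMn.conj_mem _ v.2 g

end Cfsg.Agent.S3909
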