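import Cfsg.Statements.S3910
import Mathlib
import Cfsg.Agent.H2.PUtil
import Cfsg.Agent.S3976
import Cfsg.Agent.S3977

set_option autoImplicit false
open Cfsg

namespace Cfsg.Agent.S3910

open Subgroup

/-- A finite nilpotent group in which any two abelian subgroups of the same order are conjugate is cyclic. -/
theorem result {G : Type*} [Group G] [Finite G] (hB : ∀ A B : Subgroup G, IsMulCommutative ↥A → IsMulCommutative ↥B → Nat.card ↥A = Nat.card ↥B → ∃ g : G, B = A.map (MulAut.conj g).toMonoidHom) (hnil : Group.IsNilpotent G) : IsCyclic G := by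
  classical
  suffices hz : IsZGroup G by infer_instance
  refine ⟨fun p hp P => ?_⟩
  have hp' : Fact p.Prime := ⟨hp⟩
  obtain ⟨k, hk⟩ := IsPGroup.iff_card.1 P.isPGroup'
  have hcomm : ∀ s ≤ 2, ∀ H : Subgroup G, Nat.card H = p ^ s → IsMulCommutative H := by
    intro s hs H hH
    interval_cases s
    · rw [pow_zero] at hH
      rw [Subgroup.card_eq_one.1 hH]; infer_instance
    · rw [pow_one] at hH
      have := isCyclic_of_prime_card hH
      exact inferInstance
    · have := IsPGroup.commutative_of_card_eq_prime_sq hH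
      exact ⟨⟨this⟩⟩
  have huniq : ∀ s ≤ 2, s ≤ k → ∀ H L : Subgroup (P : Subgroup G), Nat.card H = p ^ s → Nat.card L = p ^ s → H = L := by
    intro s hs hsk
    have hcount := S3976.result (G := (P : Subgroup G)) p k s hp hk hsk
    have hne : Nonempty {H : Subgroup (P : Subgroup G) // H.Normal ∧ Nat.card H = p ^ s} := by
      by_contra h
      rw [not_nonempty_iff] at h
      rw [Nat.card_of_isEmpty] at hcount
      have := (Nat.modEq_iff_dvd' (by norm_num)).1 hcount
      exact hp.one_lt.ne' (Nat.dvd_one.1 this)
    obtain ⟨N, hN, hNc⟩ := hne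
    have hN' : (N.map (P : Subgroup G).subtype).Normal := by
      apply H2.PUtil.normal_of_sylow_normal hnil P (map_subtype_le N)
      intro x hx
      apply H2.PUtil.mem_normalizer_of_conj_mem
      rintro _ ⟨y, hy, rfl⟩
      exact ⟨⟨x, hx⟩ * y * ⟨x, hx⟩⁻¹, hN.conj_mem y hy _, rfl⟩
    have hcm : ∀ H : Subgroup (P : Subgroup G), Nat.card (H.map (P : Subgroup G).subtype) = Nat.card H := fun H =>
      (Nat.card_congr (H.equivMapOfInjective _ (subtype_injective _)).toEquiv).symm
    have key : ∀ H : Subgroup (P : Subgroup G), Nat.card H = p ^ s → H = N := by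
      intro H hH
      obtain ⟨g, hg⟩ := hB (N.map (P : Subgroup G).subtype) (H.map (P : Subgroup G).subtype)
        (hcomm s hs _ (by rw [hcm, hNc])) (hcomm s hs _ (by rw [hcm, hH])) (by rw [hcm, hcm, hNc, hH])
      have h1 : (N.map (P : Subgroup G).subtype).map (MulAut.conj g).toMonoidHom = N.map (P : Subgroup G).subtype := by
        ext x
        constructor
        · rintro ⟨y, hy, rfl⟩; exact hN'.conj_mem y hy g
        · intro hx
          refine ⟨g⁻¹ * x * g, ?_, by simp [mul_assoc]⟩
          have := hN'.conj_mem x hx g⁻¹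
          rwa [inv_inv] at this
      rw [h1] at hg
      exact Subgroup.map_injective (subtype_injective _) hg
    intro H L hH hL
    rw [key H hH, key L hL]
  rcases Nat.lt_or_ge 2 k with h3 | h3
  · exact S3977.result (G := (P : Subgroup G)) p k 2 hp hk (by norm_num) h3 (Or.inr le_rfl)
      (huniq 2 le_rfl h3.le)
  · by_contra hnc
    obtain ⟨q, hq, E, hE, he⟩ := Lib.Partition.exists_elementary_of_not_isCyclic
      (A := (P : Subgroup G)) (hcomm k h3 _ hk) hnc
    -- q = p, E = ⊤
    have hqk : q ^ 2 ∣ p ^ k := by rw [← hE, ← hk]; exact card_subgroup_dvd_card E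
    have hqp : q = p := (Nat.prime_dvd_prime_iff_eq hq hp).1 (hq.dvd_of_dvd_pow ((dvd_pow_self q two_ne_zero).trans hqk))
    subst hqp
    have hk2 : k = 2 := by
      have := (Nat.pow_dvd_pow_iff_le_right hp.one_lt).1 hqk
      omega
    subst hk2
    have hall : ∀ x : (P : Subgroup G), x ^ q = 1 := by
      have : E = ⊤ := by rw [← Subgroup.card_eq_iff_eq_top, hE, hk]
      intro x
      exact he x (by rw [this]; trivial)
    have h4 := Lib.Partition.card_primeSubgroups_sq (A := (P : Subgroup G)) hp hk hall
    have h5 : (Lib.Partition.primeSubgroups (P : Subgroup G)).card ≤ 1 := by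
      rw [Finset.card_le_one]
      intro A hA B hB
      have hA' := Lib.Partition.mem_primeSubgroups.mp hA
      have hB' := Lib.Partition.mem_primeSubgroups.mp hB
      have key : ∀ C : Subgroup (P : Subgroup G), (Nat.card C).Prime → Nat.card C = q ^ 1 := by
        intro C hC
        have h6 : Nat.card C ∣ q ^ 2 := hk ▸ card_subgroup_dvd_card C
        rw [pow_one]
        exact (Nat.prime_dvd_prime_iff_eq hC hp).mp (hC.dvd_of_dvd_pow h6)
      exact huniq 1 (by norm_num) (by norm_num) A B (key A hA') (key B hB')
    have := hp.one_lt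
    omega

end Cfsg.Agent.S3910
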