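import Cfsg.Statements.S3917
import Mathlib
import Cfsg.Agent.H2.PUtil
import Cfsg.Agent.Lib.Partition

set_option autoImplicit false
open Cfsg

namespace Cfsg.Agent.S3917

open Subgroup

/-- Say that a group has self-centralizing non-cyclic subgroups when every non-cyclic subgroup H satisfies C_G(H) ≤ H. A finite abelian group with self-centralizing non-cyclic subgroups is cyclic or elementary abelian of order p² for a prime p. -/
theorem result {G : Type*} [CommGroup G] [Finite G] (hX : (∀ H : Subgroup G, ¬ IsCyclic ↥H → Subgroup.centralizer (H : Set G) ≤ H)) :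
    IsCyclic G ∨ ∃ p : ℕ, p.Prime ∧ Nat.card G = p ^ 2 ∧ Monoid.exponent G = p := by
  by_cases hc : IsCyclic G
  · exact Or.inl hc
  right
  obtain ⟨p, hp, E, hE, he⟩ := Lib.Partition.exists_elementary_of_not_isCyclic_comm hc
  have h1 : ¬ IsCyclic E := H2.PUtil.not_cyclic_of_exp hp hE (fun x => Subtype.ext (he x x.2))
  have h2 := hX E h1
  have h3 : E = ⊤ := by
    rw [eq_top_iff]
    intro x _
    apply h2
    rw [mem_centralizer_iff]
    intro y _
    exact mul_comm y x
  subst h3
  refine ⟨p, hp, ?_, ?_⟩
  · rw [← hE, Subgroup.card_top]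
  · have h4 : Monoid.exponent G ∣ p := Monoid.exponent_dvd_of_forall_pow_eq_one (fun x => he x trivial)
    rcases (Nat.dvd_prime hp).1 h4 with h5 | h5
    · exfalso
      have := Monoid.exp_eq_one_iff.1 h5
      rw [Subgroup.card_top, Nat.card_of_subsingleton (1 : G)] at hE
      have : 1 < p ^ 2 := Nat.one_lt_pow (by norm_num) hp.one_lt
      omega
    · exact h5

end Cfsg.Agent.S3917
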