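import Cfsg.Statements.S3918
import Mathlib
import Cfsg.Agent.H2.NormElem

set_option autoImplicit false
open Cfsg

namespace Cfsg.Agent.S3918

open Subgroup

/-- Say that a group has self-centralizing non-cyclic subgroups when every non-cyclic subgroup H satisfies C_G(H) ≤ H. For an odd prime p, a finite non-abelian p-group has self-centralizing non-cyclic subgroups if and only if it has order p³. -/
theorem result {G : Type*} [Group G] [Finite G] {p : ℕ} [Fact p.Prime] (hp : p ≠ 2) (hG : IsPGroup p G) (hna : ¬ IsMulCommutative G) :
    (∀ H : Subgroup G, ¬ IsCyclic ↥H → Subgroup.centralizer (H : Set G) ≤ H) ↔ Nat.card G = p ^ 3 := by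
  have hp' : p.Prime := Fact.out
  constructor
  · intro h
    have hnc : ¬ IsCyclic G := by
      intro hc
      exact hna inferInstance
    obtain ⟨N, hN, hNc, hNcard, hNp⟩ := H2.NormElem.exists_normal_elementary hp' hp hG hnc
    have hNnc : ¬ IsCyclic N := H2.PUtil.not_cyclic_of_exp hp' hNcard (fun x => Subtype.ext (hNp x x.2))
    have hC : centralizer (N : Set G) = N := le_antisymm (h N hNnc) (le_centralizer_iff_isMulCommutative.2 hNc)
    have h1 := H2.PUtil.card_le_cube hG hN hC hNcard.le
    obtain ⟨k, hk⟩ := IsPGroup.iff_card.1 hG
    rw [hk] at h1 ⊢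
    have h2 : k ≤ 3 := (Nat.pow_le_pow_iff_right hp'.one_lt).1 h1
    have h3 : 3 ≤ k := by
      by_contra hlt
      apply hna
      have : k = 0 ∨ k = 1 ∨ k = 2 := by omega
      rcases this with rfl | rfl | rfl
      · rw [pow_zero] at hk
        have := (Nat.card_eq_one_iff_unique.1 hk).1
        exact ⟨⟨fun a b => Subsingleton.elim _ _⟩⟩
      · rw [pow_one] at hk
        have := isCyclic_of_prime_card hk
        infer_instance
      · exact IsPGroup.isMulCommutative_of_card_eq_prime_sq hk
    have : k = 3 := by omega
    rw [this]
  · intro hcard H hH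
    have hHp : IsPGroup p H := hG.to_subgroup H
    obtain ⟨k, hk⟩ := IsPGroup.iff_card.1 hHp
    have hk3 : k ≤ 3 := by
      have h1 : Nat.card H ∣ Nat.card G := card_subgroup_dvd_card H
      rw [hk, hcard] at h1
      exact (Nat.pow_dvd_pow_iff_le_right hp'.one_lt).1 h1
    have hk2 : k = 2 ∨ k = 3 := by
      by_contra hlt
      apply hH
      have : k = 0 ∨ k = 1 := by omega
      rcases this with rfl | rfl
      · rw [pow_zero] at hk
        have := (Nat.card_eq_one_iff_unique.1 hk).1
        infer_instance
      · rw [pow_one] at hk
        exact isCyclic_of_prime_card hk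
    rcases hk2 with rfl | rfl
    · have hHc := IsPGroup.isMulCommutative_of_card_eq_prime_sq hk
      have hle : H ≤ centralizer (H : Set G) := le_centralizer_iff_isMulCommutative.2 hHc
      have hnt : centralizer (H : Set G) ≠ ⊤ := by
        intro ht
        apply hna
        have hHZ : H ≤ center G := by
          intro x hx
          rw [mem_center_iff]
          intro g
          have : g ∈ centralizer (H : Set G) := by rw [ht]; trivial
          exact (mem_centralizer_iff.1 this x hx).symm
        have h5 : Nat.card (G ⧸ H) = p := by
          have h6 := H.card_mul_index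
          rw [hk, hcard] at h6
          have h7 : H.index = p := by
            apply Nat.eq_of_mul_eq_mul_left (Nat.pow_pos (n := 2) hp'.pos)
            rw [h6]; ring
          exact h7
        have hHn : H.Normal := ⟨by
          intro n hn g
          have : g * n * g⁻¹ = n := by rw [mem_center_iff.1 (hHZ hn) g]; group
          rw [this]; exact hn⟩
        have hcy : IsCyclic (G ⧸ H) := isCyclic_of_prime_card h5
        exact MonoidHom.isMulCommutative_of_isCyclic_of_ker_le_center (QuotientGroup.mk' H)
          (by rw [QuotientGroup.ker_mk']; exact hHZ)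
      have h1 := H2.PUtil.card_le_of_lt (n := 2) (H := centralizer (H : Set G)) (K := ⊤) (hG.to_subgroup _)
        (lt_top_iff_ne_top.2 hnt) (by rw [Subgroup.card_top, hcard])
      exact (eq_of_le_of_card_ge hle (by rw [hk]; exact h1)).symm.le
    · have : H = ⊤ := by rw [← Subgroup.card_eq_iff_eq_top, hk, hcard]
      rw [this]; exact le_top

end Cfsg.Agent.S3918
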