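import Cfsg.Statements.S3919
import Mathlib
import Cfsg.Agent.Lib.PGrpI
import Cfsg.Agent.Lib.PGrpK
import Cfsg.Agent.Lib.NilpB

set_option autoImplicit false
open Cfsg

namespace Cfsg.Agent.S3919

universe u
open Subgroup Cfsg.Agent.Lib

theorem inv_unique {A : Type*} [Group A] [Finite A] (h : IsCyclic A) (u v : A) (hu : orderOf u = 2) (hv : orderOf v = 2) : u = v := by
  classical
  cases nonempty_fintype A
  by_contra hne
  have h1 := IsCyclic.card_pow_eq_one_le (α := A) (n := 2) (by norm_num)
  have h2 : ({1, u, v} : Finset A) ⊆ Finset.univ.filter (fun a : A => a ^ 2 = 1) := by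
    intro x hx
    simp only [Finset.mem_insert, Finset.mem_singleton] at hx
    rw [Finset.mem_filter]
    refine ⟨Finset.mem_univ _, ?_⟩
    rcases hx with rfl | rfl | rfl
    · exact one_pow 2
    · exact hu ▸ pow_orderOf_eq_one x
    · exact hv ▸ pow_orderOf_eq_one x
  have h3 : ({1, u, v} : Finset A).card = 3 := by
    apply Finset.card_eq_three.mpr
    refine ⟨1, u, v, ?_, ?_, hne, rfl⟩
    · rintro rfl; rw [orderOf_one] at hu; omega
    · rintro rfl; rw [orderOf_one] at hv; omega
  have h4 := Finset.card_le_card h2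
  rw [h3] at h4
  have h5 : (Finset.univ.filter (fun a : A => a ^ 2 = 1)).card ≤ 2 := by
    convert h1
  omega

theorem class_of_cent {X : Type u} [Group X] [Finite X] {n : ℕ} (hX : Nat.card X = 2 ^ n) (hna : ¬ IsMulCommutative X)
    (h : ∀ H : Subgroup X, ¬ IsCyclic ↥H → Subgroup.centralizer (H : Set X) ≤ H) : Group.nilpotencyClass X = n - 1 := by
  haveI : Fact (Nat.Prime 2) := ⟨Nat.prime_two⟩
  have hXp : IsPGroup 2 X := IsPGroup.of_card hX
  by_cases hu : ∀ x y : X, orderOf x = 2 → orderOf y = 2 → x = y
  · rcases PGrpD.cyclic_or_quaternion hXp hu with hcyc | ⟨m, a, b, hm, ha, hb, hba, hbn, hc⟩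
    · exfalso
      apply hna
      haveI := hcyc
      exact IsCyclic.isMulCommutative
    · have ho : orderOf b = 2 ^ 2 := by
        apply orderOf_eq_prime_pow
        · rw [pow_one, hb]
          intro h1
          have h2 := Nat.le_of_dvd (by positivity) (orderOf_dvd_of_pow_eq_one h1)
          rw [ha] at h2
          have h3 : 2 ^ m < 2 ^ (m + 1) := Nat.pow_lt_pow_right (by norm_num) (by omega)
          omega
        · rw [show 2 ^ (1 + 1) = 2 * 2 by norm_num, pow_mul, hb, ← pow_mul, ← pow_succ, ← ha, pow_orderOf_eq_one]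
      have hidx : (zpowers a).index = 2 := by
        have h1 := card_mul_index (zpowers a)
        rw [Nat.card_zpowers, ha, hc, pow_succ 2 (m + 1)] at h1
        exact Nat.eq_of_mul_eq_mul_left (by positivity) h1
      have hin : ∀ g ∈ zpowers a, g * b = b * g → g ∈ zpowers b := by
        intro g hg hgb
        obtain ⟨k, rfl⟩ := mem_zpowers_iff.mp hg
        have h1 : b * a ^ k * b⁻¹ = (a ^ k)⁻¹ := by
          have := map_zpow (MulAut.conj b) a k
          rw [MulAut.conj_apply, MulAut.conj_apply, hba] at this
          rw [this, inv_zpow]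
        rw [← hgb, mul_inv_cancel_right] at h1
        have h2 : a ^ (2 * k) = 1 := by
          rw [two_mul, zpow_add]
          nth_rewrite 1 [h1]
          exact inv_mul_cancel _
        have h3 := orderOf_dvd_iff_zpow_eq_one.mpr h2
        rw [ha] at h3
        obtain ⟨j, hj⟩ := h3
        have h4 : k = (2 ^ m : ℕ) * j := by
          push_cast at hj ⊢
          rw [pow_succ] at hj
          linarith
        rw [h4, zpow_mul, zpow_natCast, ← hb]
        exact zpow_mem (pow_mem (mem_zpowers b) 2) j
      have hcen : centralizer (zpowers b : Set X) = zpowers b := by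
        apply le_antisymm
        · intro g hg
          have h1 : b * g = g * b := mem_centralizer_iff.mp hg b (mem_zpowers b)
          by_cases hga : g ∈ zpowers a
          · exact hin g hga h1.symm
          · have h2 : g * b⁻¹ ∈ zpowers a := (mul_mem_iff_of_index_two hidx).mpr (iff_of_false hga (fun h => hbn (inv_mem_iff.mp h)))
            have h3 := hin _ h2 (by rw [inv_mul_cancel_right, ← mul_assoc, h1, mul_inv_cancel_right])
            have h4 := mul_mem h3 (mem_zpowers b)
            rwa [inv_mul_cancel_right] at h4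
        · intro g hg
          rw [mem_centralizer_iff]
          intro y hy
          obtain ⟨k, rfl⟩ := mem_zpowers_iff.mp hg
          obtain ⟨l, rfl⟩ := mem_zpowers_iff.mp hy
          rw [← zpow_add, ← zpow_add, add_comm]
      exact PGrpI.maxClass_of_self_centralizing n X hX (zpowers b) (by rw [Nat.card_zpowers, ho]) hcen
  · push Not at hu
    obtain ⟨x, y, hx, hy, hxy⟩ := hu
    haveI : Nontrivial X := ⟨x, y, hxy⟩
    haveI := hXp.center_nontrivial
    obtain ⟨z, hz, hzo⟩ : ∃ z : X, z ∈ center X ∧ orderOf z = 2 := by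
      have h1 : 2 ∣ Nat.card (center X) := by
        obtain ⟨k, hk, hk2⟩ := (hXp.to_subgroup (center X)).nontrivial_iff_card.mp inferInstance
        rw [hk2]
        exact dvd_pow_self 2 hk.ne'
      obtain ⟨z, hz⟩ := exists_prime_orderOf_dvd_card' 2 h1
      exact ⟨z, z.2, by rw [orderOf_coe]; exact hz⟩
    obtain ⟨t, ht, htz⟩ : ∃ t : X, orderOf t = 2 ∧ t ≠ z := by
      by_cases hxz : x = z
      · exact ⟨y, hy, fun h => hxy (hxz.trans h.symm)⟩
      · exact ⟨x, hx, hxz⟩
    have hzp : ∀ v ∈ zpowers z, v = 1 ∨ v = z := by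
      intro v hv
      obtain ⟨k, rfl⟩ := mem_zpowers_iff.mp hv
      have hz2' : z ^ (2 : ℤ) = 1 := by
        have : z ^ 2 = 1 := hzo ▸ pow_orderOf_eq_one z
        exact_mod_cast this
      rcases Int.even_or_odd' k with ⟨l, rfl | rfl⟩
      · left; rw [zpow_mul, hz2', one_zpow]
      · right; rw [zpow_add, zpow_mul, hz2', one_zpow, one_mul, zpow_one]
    have hz2 : z ^ 2 = 1 := hzo ▸ pow_orderOf_eq_one z
    have ht2 : t ^ 2 = 1 := ht ▸ pow_orderOf_eq_one t
    obtain ⟨W, hW1, htW, hWc, hW2⟩ := PGrpK.extend (V := zpowers z) (n := 2) (by rw [Nat.card_zpowers, hzo]) (by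
      intro v hv
      rcases hzp v hv with rfl | rfl
      · exact one_pow 2
      · exact hz2) ht2 (by
      intro hmem
      rcases hzp t hmem with h1 | h1
      · rw [h1, orderOf_one] at ht; omega
      · exact htz h1) (by
      intro v hv
      rcases hzp v hv with rfl | rfl
      · simp
      · exact (mem_center_iff.mp hz t).symm)
    have hWn : ¬ IsCyclic W := by
      intro hcyc
      obtain ⟨g, hg⟩ := hcyc.exists_generator
      have h1 : orderOf g = Nat.card W := orderOf_eq_card_of_forall_mem_zpowers hg
      have h2 : orderOf g ∣ 2 := orderOf_dvd_of_pow_eq_one (Subtype.ext (hW2 g g.2))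
      rw [h1, hWc] at h2
      omega
    have hcen : centralizer (W : Set X) = W := by
      apply le_antisymm (h W hWn)
      intro g hg
      rw [mem_centralizer_iff]
      intro y hy
      exact PGrpK.comm_of_sq hW2 y hy g hg
    exact PGrpI.maxClass_of_self_centralizing n X hX W (by rw [hWc]; norm_num) hcen

/-- Say that a group has self-centralizing non-cyclic subgroups when every non-cyclic subgroup H satisfies C_G(H) ≤ H. A finite non-abelian 2-group G of order 2^n has self-centralizing non-cyclic subgroups if and only if G has nilpotency class n − 1 (that is, G is dihedral, semidihedral or generalized quaternion). -/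
theorem result {G : Type*} [Group G] [Finite G] (hna : ¬ IsMulCommutative G) (n : ℕ) (hG : Nat.card G = 2 ^ n) :
    (∀ H : Subgroup G, ¬ IsCyclic ↥H → Subgroup.centralizer (H : Set G) ≤ H) ↔ (⊤ : Subgroup G).lowerCentralSeries (n - 2) ≠ ⊥ := by
  classical
  haveI : Fact (Nat.Prime 2) := ⟨Nat.prime_two⟩
  have hGp : IsPGroup 2 G := IsPGroup.of_card hG
  haveI : Group.IsNilpotent G := hGp.isNilpotent
  have hn3 : 3 ≤ n := by
    by_contra hcon
    apply hna
    have : Nat.card G = 1 ∨ Nat.card G = 2 ∨ Nat.card G = 2 ^ 2 := by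
      have : n = 0 ∨ n = 1 ∨ n = 2 := by omega
      rcases this with rfl | rfl | rfl <;> simp [hG]
    rcases this with h1 | h1 | h1
    · haveI := (Nat.card_eq_one_iff_unique.mp h1).1
      exact ⟨⟨fun a b => Subsingleton.elim _ _⟩⟩
    · haveI := isCyclic_of_prime_card h1
      exact IsCyclic.isMulCommutative
    · exact IsPGroup.isMulCommutative_of_card_eq_prime_sq h1
  have hcl : Group.nilpotencyClass G = n - 1 ↔ (⊤ : Subgroup G).lowerCentralSeries (n - 2) ≠ ⊥ := by
    have h1 := Cfsg.Agent.Lib.NilpB.nilpotencyClass_le_of_card n G hG (by omega)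
    have h2 : (⊤ : Subgroup G).lowerCentralSeries (n - 2) = ⊥ ↔ Group.nilpotencyClass G ≤ n - 2 :=
      _root_.lowerCentralSeries_eq_bot_iff_nilpotencyClass_le
    rw [Ne, h2]
    omega
  rw [← hcl]
  constructor
  · exact class_of_cent hG hna
  · intro hc H hH
    obtain ⟨A, hA, hA2⟩ := Cfsg.Agent.Lib.PGrpH.cyclic_of_maxClass n G hn3 hG hc
    obtain ⟨hZ, -, -⟩ := Cfsg.Agent.Lib.PGrpH.card_center_of_maxClass hn3 hG hc
    haveI : A.Normal := normal_of_index_eq_two hA2
    have hAc : ∀ u ∈ A, ∀ v ∈ A, u * v = v * u := by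
      intro u hu v hv
      haveI := hA
      exact congrArg Subtype.val (IsCyclic.isMulCommutative.is_comm.comm (⟨u, hu⟩ : A) ⟨v, hv⟩)
    have hHA : ¬ H ≤ A := by
      intro hle
      haveI := hA
      exact hH (isCyclic_of_injective (Subgroup.inclusion hle) (Subgroup.inclusion_injective hle))
    obtain ⟨x, hxH, hxA⟩ := SetLike.not_le_iff_exists.mp hHA
    -- elements of `A` commuting with `x` are central
    have hcx : ∀ u ∈ A, u * x = x * u → u ∈ center G := by
      intro u hu hux
      rw [mem_center_iff]
      intro g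
      by_cases hg : g ∈ A
      · exact hAc g hg u hu
      · have h1 : g * x⁻¹ ∈ A := (mul_mem_iff_of_index_two hA2).mpr (iff_of_false hg (fun h => hxA (inv_mem_iff.mp h)))
        have h2 := hAc _ h1 u hu
        calc g * u = (g * x⁻¹) * (x * u) := by group
          _ = (g * x⁻¹) * u * x := by rw [← hux]; group
          _ = u * g := by rw [h2]; group
    have hZA : center G ≤ A := by
      intro u hu
      by_contra huA
      apply hna
      refine ⟨⟨fun a b => ?_⟩⟩
      have key : ∀ g : G, g ∈ A ∨ ∃ a ∈ A, g = a * u := by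
        intro g
        by_cases hg : g ∈ A
        · exact Or.inl hg
        · exact Or.inr ⟨g * u⁻¹, (mul_mem_iff_of_index_two hA2).mpr (iff_of_false hg (fun h => huA (inv_mem_iff.mp h))), by group⟩
      have huc := mem_center_iff.mp hu
      rcases key a with ha | ⟨a', ha', rfl⟩ <;> rcases key b with hb | ⟨b', hb', rfl⟩
      · exact hAc a ha b hb
      · rw [← mul_assoc, hAc a ha b' hb', mul_assoc, huc a, mul_assoc]
      · rw [← mul_assoc, ← hAc a' ha' b hb, mul_assoc, ← huc b, mul_assoc]
      · have e1 := hAc a' ha' b' hb'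
        calc a' * u * (b' * u) = a' * (u * b') * u := by simp only [mul_assoc]
          _ = (a' * b') * u * u := by rw [← huc b']; simp only [mul_assoc]
          _ = b' * (a' * u) * u := by rw [e1]; simp only [mul_assoc]
          _ = b' * u * (a' * u) := by rw [mul_assoc b' u, ← mul_assoc u a' u, ← huc a', mul_assoc b']
    have hZH : center G ≤ H := by
      -- `H ∩ A` is non-trivial
      have h1 : H ⊓ A ≠ ⊥ := by
        intro h0
        apply hH
        have h2 : H.relIndex A * 1 = H.relIndex A := mul_one _
        have h3 : Nat.card H ≤ 2 := by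
          have e1 := (A.relIndex_dvd_index_of_normal H)
          rw [hA2] at e1
          have e2 : Nat.card (H ⊓ A : Subgroup G) * A.relIndex H = Nat.card H := by
            have e3 := card_mul_index (A.subgroupOf H)
            have e4 : Nat.card (A.subgroupOf H) = Nat.card (H ⊓ A : Subgroup G) := by
              rw [inf_comm, ← Nat.card_congr (subgroupOfEquivOfLe (inf_le_right : A ⊓ H ≤ H)).toEquiv, inf_subgroupOf_right]
            rw [e4] at e3
            exact e3
          rw [h0, card_bot, one_mul] at e2
          rw [← e2]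
          exact Nat.le_of_dvd (by norm_num) e1
        have h4 : Nat.card H ∣ Nat.card G := card_subgroup_dvd_card H
        have h5 := Nat.card_pos (α := H)
        rcases (show Nat.card H = 1 ∨ Nat.card H = 2 by omega) with h6 | h6
        · haveI := (Nat.card_eq_one_iff_unique.mp h6).1
          infer_instance
        · exact isCyclic_of_prime_card h6
      have h7 : 2 ∣ Nat.card (H ⊓ A : Subgroup G) := by
        obtain ⟨k, hk⟩ := IsPGroup.iff_card.mp (hGp.to_subgroup (H ⊓ A))
        rw [hk]
        apply dvd_pow_self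
        rintro rfl
        rw [pow_zero] at hk
        exact h1 (card_eq_one.mp hk)
      obtain ⟨v, hv⟩ := exists_prime_orderOf_dvd_card' 2 h7
      rw [← orderOf_coe] at hv
      obtain ⟨w, hw⟩ := exists_prime_orderOf_dvd_card' 2 (show 2 ∣ Nat.card (center G) by rw [hZ])
      rw [← orderOf_coe] at hw
      have h8 : (v : G) = w := congrArg Subtype.val (inv_unique hA (⟨v, (mem_inf.mp v.2).2⟩ : A) ⟨w, hZA w.2⟩
        (by rw [← orderOf_coe]; exact hv) (by rw [← orderOf_coe]; exact hw))
      have h9 : zpowers (w : G) = center G := by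
        apply Subgroup.eq_of_le_of_card_ge (zpowers_le.mpr w.2)
        rw [hZ, Nat.card_zpowers, hw]
      rw [← h9, zpowers_le, ← h8]
      exact (mem_inf.mp v.2).1
    intro y hy
    rw [mem_centralizer_iff] at hy
    have hyx := hy x hxH
    by_cases hyA : y ∈ A
    · exact hZH (hcx y hyA hyx.symm)
    · have h1 : y * x⁻¹ ∈ A := (mul_mem_iff_of_index_two hA2).mpr (iff_of_false hyA (fun h => hxA (inv_mem_iff.mp h)))
      have h2 := hcx _ h1 (by rw [inv_mul_cancel_right, ← mul_assoc, hyx, mul_inv_cancel_right])
      have h3 := mul_mem (hZH h2) hxH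
      rwa [inv_mul_cancel_right] at h3

end Cfsg.Agent.S3919
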