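import Cfsg.Statements.S3920
import Mathlib
import Cfsg.Agent.H2.PUtil
import Cfsg.Agent.Lib.Cyc

set_option autoImplicit false
open Cfsg

namespace Cfsg.Agent.S3920

open Subgroup DihedralGroup

/-- Say that a group has self-centralizing non-cyclic subgroups when every non-cyclic subgroup H satisfies C_G(H) ≤ H. For n ≥ 3, the dihedral group of order 2n has self-centralizing non-cyclic subgroups if and only if n is odd or a power of 2. -/
theorem result (n : ℕ) (hn : 3 ≤ n) : (∀ H : Subgroup (DihedralGroup n), ¬ IsCyclic ↥H → Subgroup.centralizer (H : Set (DihedralGroup n)) ≤ H) ↔ (Odd n ∨ ∃ k : ℕ, n = 2 ^ k) := by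
  have : NeZero n := ⟨by omega⟩
  constructor
  · intro h
    by_contra hcon
    push Not at hcon
    obtain ⟨hodd, hpow⟩ := hcon
    -- n = 2^k * m with m odd, m > 1, k ≥ 1
    obtain ⟨k, m, hm, hk⟩ := Nat.exists_eq_two_pow_mul_odd (show n ≠ 0 by omega)
    have hm1 : m ≠ 1 := by
      rintro rfl
      exact hpow k (by rw [hk, mul_one])
    have hk0 : k ≠ 0 := by
      rintro rfl
      apply hodd
      rw [hk, pow_zero, one_mul]; exact hm
    have hm3 : 3 ≤ m := by
      obtain ⟨t, ht⟩ := hm
      omega
    set d : ZMod n := ((2 ^ k : ℕ) : ZMod n) with hd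
    let H : Subgroup (DihedralGroup n) :=
      { carrier := {x | ∃ j : ZMod n, x = r (d * j) ∨ x = sr (d * j)}
        one_mem' := ⟨0, Or.inl (by rw [mul_zero]; rfl)⟩
        mul_mem' := by
          rintro a b ⟨i, rfl | rfl⟩ ⟨j, rfl | rfl⟩
          · exact ⟨i + j, Or.inl (by rw [r_mul_r]; congr 1; ring)⟩
          · exact ⟨j - i, Or.inr (by rw [r_mul_sr]; congr 1; ring)⟩
          · exact ⟨i + j, Or.inr (by rw [sr_mul_r]; congr 1; ring)⟩
          · exact ⟨j - i, Or.inl (by rw [sr_mul_sr]; congr 1; ring)⟩
        inv_mem' := by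
          rintro a ⟨i, rfl | rfl⟩
          · exact ⟨-i, Or.inl (by rw [inv_r]; congr 1; ring)⟩
          · exact ⟨i, Or.inr (by rw [inv_sr])⟩ }
    have hdn : (2 ^ k : ℕ) ∣ n := ⟨m, hk⟩
    -- H is not commutative
    have hnc : ¬ IsCyclic H := by
      intro hc
      have hc' : IsMulCommutative H := inferInstance
      have h1 := H2.PUtil.isMulCommutative_iff.1 hc' (r (d * 1)) ⟨1, Or.inl rfl⟩ (sr (d * 0)) ⟨0, Or.inr rfl⟩
      rw [r_mul_sr, sr_mul_r] at h1
      have h2 : (d * 0 - d * 1 : ZMod n) = d * 0 + d * 1 := by injection h1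
      have h3 : ((2 * 2 ^ k : ℕ) : ZMod n) = 0 := by
        rw [Nat.cast_mul, ← hd]; push_cast; linear_combination -h2
      rw [ZMod.natCast_eq_zero_iff, hk, mul_comm 2] at h3
      have h4 : m ∣ 2 := (Nat.mul_dvd_mul_iff_left (by positivity)).1 h3
      have := Nat.le_of_dvd (by norm_num) h4
      omega
    -- r (n/2) central but not in H
    set z : ZMod n := ((n / 2 : ℕ) : ZMod n) with hz
    have h2n : 2 ∣ n := (dvd_pow_self 2 hk0).trans hdn
    have hz2 : 2 * z = 0 := by
      have : ((2 * (n / 2) : ℕ) : ZMod n) = 0 := by
        rw [Nat.mul_div_cancel' h2n]; exact ZMod.natCast_self n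
      rw [Nat.cast_mul, ← hz] at this
      exact this
    have h1 : (r z : DihedralGroup n) ∈ centralizer (H : Set (DihedralGroup n)) := by
      rw [mem_centralizer_iff]
      rintro _ ⟨j, rfl | rfl⟩
      · rw [r_mul_r, r_mul_r, add_comm]
      · rw [sr_mul_r, r_mul_sr]; congr 1; linear_combination hz2
    have h2 := h H hnc h1
    obtain ⟨j, h3 | h3⟩ := h2
    · have h4 : z = d * j := by injection h3
      -- reduce mod 2^k
      have h5 := congrArg (ZMod.castHom hdn (ZMod (2 ^ k))) h4
      rw [map_mul, hd, map_natCast, map_natCast, ZMod.natCast_self, zero_mul, ZMod.natCast_eq_zero_iff] at h5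
      obtain ⟨k', rfl⟩ := Nat.exists_eq_succ_of_ne_zero hk0
      have h6 : n / 2 = 2 ^ k' * m := by
        rw [hk, Nat.succ_eq_add_one, pow_succ]
        have : 2 ^ k' * 2 * m = 2 * (2 ^ k' * m) := by ring
        rw [this]; simp
      rw [h6, Nat.succ_eq_add_one, pow_succ] at h5
      have h7 : 2 ∣ m := (Nat.mul_dvd_mul_iff_left (by positivity)).1 h5
      exact (Nat.not_even_iff_odd.2 hm) (even_iff_two_dvd.2 h7)
    · exact absurd h3 (by simp)
  · intro hcase H hH
    -- H contains a reflection
    have hrefl : ∃ i, (sr i : DihedralGroup n) ∈ H := by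
      by_contra hcon
      push Not at hcon
      apply hH
      -- H ≤ rotations, cyclic
      let f : H →* Multiplicative (ZMod n) :=
        { toFun := fun x => match (x : DihedralGroup n) with
            | r a => Multiplicative.ofAdd a
            | sr _ => 1
          map_one' := rfl
          map_mul' := by
            rintro ⟨a | a, ha⟩ ⟨b | b, hb⟩
            · rfl
            · exact absurd hb (hcon b)
            · exact absurd ha (hcon a)
            · exact absurd ha (hcon a) }
      have hf : Function.Injective f := by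
        rintro ⟨a | a, ha⟩ ⟨b | b, hb⟩ hab
        · have : a = b := hab
          subst this; rfl
        · exact absurd hb (hcon b)
        · exact absurd ha (hcon a)
        · exact absurd ha (hcon a)
      have : IsCyclic (Multiplicative (ZMod n)) := inferInstance
      exact isCyclic_of_injective f hf
    obtain ⟨i, hi⟩ := hrefl
    -- a nontrivial rotation
    have hrot : ∃ j : ZMod n, j ≠ 0 ∧ (r j : DihedralGroup n) ∈ H := by
      by_contra hcon
      push Not at hcon
      apply hH
      have hgen : ∀ x ∈ H, x ∈ zpowers (sr i : DihedralGroup n) := by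
        rintro (a | a) ha
        · by_cases h0 : a = 0
          · rw [h0]; exact one_mem _
          · exact absurd ha (hcon a h0)
        · have h1 := H.mul_mem hi ha
          rw [sr_mul_sr] at h1
          have h2 : a - i = 0 := by
            by_contra hne
            exact hcon _ hne h1
          rw [sub_eq_zero.1 h2]; exact mem_zpowers _
      have hle : H ≤ zpowers (sr i : DihedralGroup n) := hgen
      exact Subgroup.isCyclic_of_le hle
    obtain ⟨j, hj0, hj⟩ := hrot
    -- elements centralizing H
    have hc1 : ∀ x ∈ centralizer (H : Set (DihedralGroup n)), ∃ c : ZMod n, 2 * c = 0 ∧ (x = r c ∨ x = sr (i + c)) := by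
      rintro (a | a) ha
      · have h1 := mem_centralizer_iff.1 ha _ hi
        rw [sr_mul_r, r_mul_sr] at h1
        have h2 : i + a = i - a := by injection h1
        exact ⟨a, by linear_combination h2, Or.inl rfl⟩
      · have h1 := mem_centralizer_iff.1 ha _ hi
        rw [sr_mul_sr, sr_mul_sr] at h1
        have h2 : a - i = i - a := by injection h1
        refine ⟨a - i, by linear_combination h2, Or.inr (by rw [add_sub_cancel])⟩
    -- r c ∈ H for 2 c = 0
    have hc2 : ∀ c : ZMod n, 2 * c = 0 → (r c : DihedralGroup n) ∈ H := by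
      intro c hc
      by_cases hc0 : c = 0
      · rw [hc0]; exact H.one_mem
      rcases hcase with hodd | ⟨k, rfl⟩
      · exfalso
        apply hc0
        obtain ⟨m, hm⟩ := hodd
        have h7 : ((2 * m + 1 : ℕ) : ZMod n) = 0 := by rw [← hm]; exact ZMod.natCast_self n
        push_cast at h7
        linear_combination c * h7 - m * hc
      · -- n = 2^k : c = 2^(k-1), j generates a subgroup containing it
        have hcyc : IsCyclic (Multiplicative (ZMod (2 ^ k))) := inferInstance
        let J : Subgroup (Multiplicative (ZMod (2 ^ k))) := zpowers (Multiplicative.ofAdd j)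
        let C : Subgroup (Multiplicative (ZMod (2 ^ k))) := zpowers (Multiplicative.ofAdd c)
        have hCc : Nat.card C = 2 := by
          rw [Nat.card_zpowers]
          apply orderOf_eq_prime
          · show Multiplicative.ofAdd (2 • c) = 1
            rw [two_nsmul, ← two_mul, hc]; rfl
          · intro h; exact hc0 h
        have hJ2 : Nat.card C ∣ Nat.card J := by
          rw [hCc]
          have h8 : Nat.card J ∣ 2 ^ k := by
            have := card_subgroup_dvd_card J
            rwa [Nat.card_eq_fintype_card (α := Multiplicative (ZMod (2 ^ k))), Fintype.card_multiplicative, ZMod.card] at this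
          obtain ⟨t, _, ht⟩ := (Nat.dvd_prime_pow Nat.prime_two).1 h8
          have ht0 : t ≠ 0 := by
            rintro rfl
            rw [pow_zero, Nat.card_zpowers, orderOf_eq_one_iff] at ht
            exact hj0 ht
          rw [ht]; exact dvd_pow_self 2 ht0
        have h9 := Lib.Cyc.le_of_card_dvd hJ2 (mem_zpowers _)
        obtain ⟨t, ht⟩ := h9
        have h10 : (t : ℤ) • j = c := ht
        have h11 := H.zpow_mem hj t
        have h12 : (r j : DihedralGroup (2 ^ k)) ^ t = r c := by
          rw [← h10, r_zpow]
          congr 1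
          rw [zsmul_eq_mul, mul_comm]
        rwa [h12] at h11
    intro x hx
    obtain ⟨c, hc, rfl | rfl⟩ := hc1 x hx
    · exact hc2 c hc
    · have := H.mul_mem hi (hc2 c hc)
      rwa [sr_mul_r] at this

end Cfsg.Agent.S3920
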