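import Cfsg.Statements.S3949
import Mathlib

set_option autoImplicit false
open Cfsg

namespace Cfsg.Agent.S3949

open Subgroup

/-- Let G be a finite group and α an automorphism of G of order 2 such that the elements g·α(g)⁻¹ generate G. Let j be a positive integer such that 2^j divides the order of no element inverted by α. Then the set of values of the j-th iterate of the map c ↦ c·α(c)⁻¹ is exactly the set of elements of odd order inverted by α. -/
theorem result {G : Type*} [Group G] [Finite G] (α : MulAut G) (hα : orderOf α = 2) (hG : Subgroup.closure (Set.range (fun c : G => c * (α c)⁻¹)) = ⊤)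
    (j : ℕ) (hj : ∀ g : G, α g = g⁻¹ → ¬ 2 ^ j ∣ orderOf g) :
    Set.range ((fun c : G => c * (α c)⁻¹)^[j]) = {g : G | Odd (orderOf g) ∧ α g = g⁻¹} := by
  classical
  have hα2 : ∀ g, α (α g) = g := by
    intro g
    have h1 : α ^ 2 = 1 := by rw [← hα]; exact pow_orderOf_eq_one α
    rw [pow_two] at h1
    exact congrArg (fun f : MulAut G => f g) h1
  have hinv : ∀ c, α (c * (α c)⁻¹) = (c * (α c)⁻¹)⁻¹ := by
    intro c
    rw [map_mul, map_inv, hα2]; group
  have hsq : ∀ g, α g = g⁻¹ → g * (α g)⁻¹ = g ^ 2 := by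
    intro g hg
    rw [hg, inv_inv, pow_two]
  have hit : ∀ (n : ℕ) (g : G), α g = g⁻¹ → (fun c : G => c * (α c)⁻¹)^[n] g = g ^ 2 ^ n := by
    intro n
    induction n with
    | zero => intro g _; simp
    | succ n ih =>
      intro g hg
      rw [Function.iterate_succ_apply, ih]
      · show (g * (α g)⁻¹) ^ 2 ^ n = _
        rw [hsq g hg, ← pow_mul, pow_succ, mul_comm]
      · exact hinv g
  have hj0 : j ≠ 0 := by
    rintro rfl
    exact hj 1 (by simp) (by simp)
  obtain ⟨i, rfl⟩ := Nat.exists_eq_succ_of_ne_zero hj0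
  ext g
  constructor
  · rintro ⟨c, rfl⟩
    rw [Function.iterate_succ_apply, hit i _ (hinv c)]
    set h := c * (α c)⁻¹ with hh
    have hc : α h = h⁻¹ := hinv c
    refine ⟨?_, ?_⟩
    · rw [orderOf_pow]
      have h1 := hj h hc
      obtain ⟨k, m, hm, hk⟩ := Nat.exists_eq_two_pow_mul_odd (orderOf_pos h).ne'
      rw [hk] at h1 ⊢
      have hki : k ≤ i := by
        by_contra hlt
        push Not at hlt
        exact h1 (Dvd.dvd.mul_right (pow_dvd_pow 2 hlt) m)
      have h2 : (2 ^ k * m).gcd (2 ^ i) = 2 ^ k := by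
        have h3 : m.Coprime (2 ^ i) := (hm.coprime_two_right).pow_right i
        rw [Nat.Coprime.gcd_mul_right_cancel _ h3]
        exact Nat.gcd_eq_left (pow_dvd_pow 2 hki)
      rw [h2, Nat.mul_div_cancel_left m (by positivity)]
      exact hm
    · rw [map_pow, hc, inv_pow]
  · rintro ⟨ho, hg⟩
    have hcop : (2 ^ (i + 1)).Coprime (orderOf g) := (ho.coprime_two_left).pow_left _
    obtain ⟨m, hm⟩ := exists_pow_eq_self_of_coprime hcop
    refine ⟨g ^ m, ?_⟩
    rw [hit (i + 1) _ (by rw [map_pow, hg, inv_pow]), ← pow_mul, mul_comm, pow_mul]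
    exact hm

end Cfsg.Agent.S3949
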