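import Cfsg.Statements.S3982
import Mathlib
import Cfsg.Agent.H2.PUtil
import Cfsg.Agent.H3.Sylow
import Cfsg.Agent.Lib.Coprime

set_option autoImplicit false
open Cfsg

namespace Cfsg.Agent.S3982

open Subgroup
open scoped commutatorElement

/-- fixed-point-free involution inverts -/
theorem inverts {G : Type*} [Group G] [Finite G] {Q : Subgroup G} {y : G} (hy2 : y * y = 1)
    (hyQ : y ∈ normalizer (Q : Set G)) (hf : ∀ q ∈ Q, y * q * y⁻¹ = q → q = 1) :
    ∀ q ∈ Q, y * q * y⁻¹ = q⁻¹ := by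
  have hyq : ∀ q ∈ Q, y * q * y⁻¹ ∈ Q := fun q hq => (mem_normalizer_iff.1 hyQ q).1 hq
  let f : Q → Q := fun q => ⟨(q : G)⁻¹ * (y * q * y⁻¹), Q.mul_mem (Q.inv_mem q.2) (hyq q q.2)⟩
  have hinj : Function.Injective f := by
    intro a b hab
    have h1 : (a : G)⁻¹ * (y * a * y⁻¹) = (b : G)⁻¹ * (y * b * y⁻¹) := congrArg Subtype.val hab
    have h2 : (b : G) * (a : G)⁻¹ = 1 := by
      apply hf _ (Q.mul_mem b.2 (Q.inv_mem a.2))
      calc y * ((b : G) * (a : G)⁻¹) * y⁻¹ = b * ((b : G)⁻¹ * (y * b * y⁻¹)) * (y * a * y⁻¹)⁻¹ := by group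
        _ = b * ((a : G)⁻¹ * (y * a * y⁻¹)) * (y * a * y⁻¹)⁻¹ := by rw [h1]
        _ = _ := by group
    exact Subtype.ext (mul_inv_eq_one.1 h2).symm
  have hsurj := Finite.surjective_of_injective hinj
  intro q hq
  obtain ⟨x, hx⟩ := hsurj ⟨q, hq⟩
  have hx' : (x : G)⁻¹ * (y * x * y⁻¹) = q := congrArg Subtype.val hx
  have hyinv : y⁻¹ = y := inv_eq_of_mul_eq_one_left hy2
  rw [← hx']
  have e : y * ((x : G)⁻¹ * (y * x * y⁻¹)) * y⁻¹ = (y * (x : G)⁻¹ * y⁻¹) * (y * y) * x * (y * y)⁻¹ := by group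
  rw [e, hy2]
  group

/-- Let p be an odd prime and G a finite group of even order divisible by p in which the centralizer of every non-identity p-element has odd order. If some nontrivial p-subgroup of G has a normalizer of even order, then the normalizer of every Sylow p-subgroup of G has even order. -/
theorem result {G : Type*} [Group G] [Finite G] (p : ℕ) [Fact p.Prime] (hp2 : p ≠ 2) (hpG : p ∣ Nat.card G) (h2G : 2 ∣ Nat.card G) (hC : ∀ g : G, g ≠ 1 → (∃ k : ℕ, orderOf g = p ^ k) → Odd (Nat.card ↥(Subgroup.centralizer ({g} : Set G)))) (Q : Subgroup G) (hQ : IsPGroup p ↥Q) (hQ1 : Q ≠ ⊥) (hev : Even (Nat.card ↥(Subgroup.normalizer (Q : Set G)))) (P : Sylow p G) : Even (Nat.card ↥(Subgroup.normalizer ((P : Subgroup G) : Set G))) := by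
  classical
  have hp : p.Prime := Fact.out
  -- an involution y normalizing Q
  obtain ⟨y', hy'⟩ := exists_prime_orderOf_dvd_card' (G := normalizer (Q : Set G)) 2 hev.two_dvd
  obtain ⟨y, hydef⟩ : ∃ y : G, y = (y' : G) := ⟨_, rfl⟩
  have hyo : orderOf y = 2 := by rw [hydef, Subgroup.orderOf_coe]; exact hy'
  have hyQ : y ∈ normalizer (Q : Set G) := by rw [hydef]; exact y'.2
  have hy2 : y * y = 1 := by rw [← pow_two, ← hyo]; exact pow_orderOf_eq_one y
  -- maximal
  obtain ⟨M, hM⟩ := (Set.toFinite {R : Subgroup G | IsPGroup p R ∧ Q ≤ R ∧ y ∈ normalizer (R : Set G)}).exists_maximal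
    ⟨Q, hQ, le_rfl, hyQ⟩
  obtain ⟨hMp, hQM, hyM⟩ := hM.prop
  have hMmax : ∀ R : Subgroup G, IsPGroup p R → M ≤ R → y ∈ normalizer (R : Set G) → R = M := fun R h1 h2 h3 =>
    le_antisymm (hM.le_of_ge ⟨h1, hQM.trans h2, h3⟩ h2) h2
  have hM1 : M ≠ ⊥ := fun h => hQ1 (le_bot_iff.1 (h ▸ hQM))
  have hporder : ∀ g ∈ M, ∃ k : ℕ, orderOf g = p ^ k := fun g hg => H3.Sylow.isPGroup_orderOf hMp hg
  -- y has no fixed points on M
  have hfix : ∀ q ∈ M, y * q * y⁻¹ = q → q = 1 := by
    intro q hq hyq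
    by_contra hq1
    have h1 := hC q hq1 (hporder q hq)
    have h2 : y ∈ centralizer ({q} : Set G) := by
      rw [mem_centralizer_singleton_iff]
      calc y * q = y * q * y⁻¹ * y := by group
        _ = _ := by rw [hyq]
    have h3 : 2 ∣ Nat.card (centralizer ({q} : Set G)) := by
      rw [← hyo]
      have := orderOf_dvd_natCard (⟨y, h2⟩ : centralizer ({q} : Set G))
      rwa [Subgroup.orderOf_mk] at this
    exact (Nat.not_even_iff_odd.2 h1) (even_iff_two_dvd.2 h3)
  have hinv := inverts hy2 hyM hfix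
  have hMcomm : ∀ a ∈ M, ∀ b ∈ M, a * b = b * a := by
    intro a ha b hb
    have h1 := hinv _ (M.mul_mem ha hb)
    have h2 : y * (a * b) * y⁻¹ = (y * a * y⁻¹) * (y * b * y⁻¹) := by group
    rw [h2, hinv a ha, hinv b hb, mul_inv_rev] at h1
    have h3 := congrArg (fun z => z⁻¹) h1
    simp only [mul_inv_rev, inv_inv] at h3
    exact h3.symm
  set C := centralizer (M : Set G) with hCdef
  -- |C| is odd
  have hCodd : Odd (Nat.card C) := by
    obtain ⟨⟨g, hg⟩, hg1⟩ := (M.ne_bot_iff_exists_ne_one).1 hM1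
    have h1 := hC g (fun h => hg1 (Subtype.ext h)) (hporder g hg)
    have h2 : C ≤ centralizer ({g} : Set G) := centralizer_le (by simpa using hg)
    exact h1.of_dvd_nat (card_dvd_of_le h2)
  have hCn : normalizer (M : Set G) ≤ normalizer (C : Set G) := by
    intro n hn
    apply H2.PUtil.mem_normalizer_of_conj_mem
    intro c hc
    rw [mem_centralizer_iff]
    intro m hm
    have h1 := mem_centralizer_iff.1 hc (n⁻¹ * m * n⁻¹⁻¹) ((mem_normalizer_iff.1 ((normalizer (M : Set G)).inv_mem hn) m).1 hm)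
    calc m * (n * c * n⁻¹) = n * ((n⁻¹ * m * n⁻¹⁻¹) * c) * n⁻¹ := by group
      _ = n * (c * (n⁻¹ * m * n⁻¹⁻¹)) * n⁻¹ := by rw [h1]
      _ = _ := by group
  -- M is a Sylow subgroup
  have hsyl : ∀ P₀ : Sylow p G, M ≤ P₀ → (P₀ : Subgroup G) = M := by
    intro P₀ hP₀
    by_contra hne
    have hlt : M < (P₀ : Subgroup G) := lt_of_le_of_ne hP₀ (Ne.symm hne)
    have hlt2 := H3.Sylow.lt_inf_normalizer P₀.isPGroup' hlt
    set P₁ := (P₀ : Subgroup G) ⊓ normalizer (M : Set G) with hP₁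
    have hP₁p : IsPGroup p P₁ := P₀.isPGroup'.to_le inf_le_left
    have hP₁C : P₁ ≤ normalizer (C : Set G) := inf_le_right.trans hCn
    set L := C ⊔ P₁ with hL
    have hLodd : Odd (Nat.card L) := by
      have h1 := Lib.Cores.card_sup_dvd hP₁C
      obtain ⟨k, hk⟩ := IsPGroup.iff_card.1 hP₁p
      refine Odd.of_dvd_nat ?_ h1
      rw [hk]
      exact hCodd.mul ((hp.odd_of_ne_two hp2).pow)
    have hyL : zpowers y ≤ normalizer (L : Set G) := by
      rw [zpowers_le]
      apply H2.PUtil.mem_normalizer_of_conj_mem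
      intro l hl
      have h1 : L ≤ L.comap (MulAut.conj y).toMonoidHom := by
        rw [hL, sup_le_iff]
        constructor
        · intro c hc
          exact (le_sup_left : C ≤ _) ((mem_normalizer_iff.1 (hCn hyM) c).1 hc)
        · intro n hn
          show y * n * y⁻¹ ∈ C ⊔ P₁
          have h2 : ⁅y, n⁆ ∈ C := by
            rw [mem_centralizer_iff]
            intro m hm
            have hnM := hn.2
            -- compute: ⁅y,n⁆ centralizes m
            have k1 : ∀ m ∈ M, (y * n * y⁻¹ * n⁻¹) * m * (y * n * y⁻¹ * n⁻¹)⁻¹ = m := by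
              intro m hm
              have a1 : n⁻¹ * m * n⁻¹⁻¹ ∈ M := (mem_normalizer_iff.1 ((normalizer (M : Set G)).inv_mem hnM) m).1 hm
              have a2 := hinv _ a1
              have hyinv : y⁻¹ = y := inv_eq_of_mul_eq_one_left hy2
              have a3 : y⁻¹ * (n⁻¹ * m * n⁻¹⁻¹) * y = (n⁻¹ * m * n⁻¹⁻¹)⁻¹ := by
                have := a2
                rw [hyinv] at this
                rw [hyinv]; exact this
              calc (y * n * y⁻¹ * n⁻¹) * m * (y * n * y⁻¹ * n⁻¹)⁻¹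
                  = y * (n * (y⁻¹ * (n⁻¹ * m * n⁻¹⁻¹) * y) * n⁻¹) * y⁻¹ := by group
                _ = y * m⁻¹ * y⁻¹ := by rw [a3]; group
                _ = (m⁻¹)⁻¹ := hinv _ (M.inv_mem hm)
                _ = m := inv_inv m
            have k2 := k1 m hm
            rw [commutatorElement_def]
            calc m * (y * n * y⁻¹ * n⁻¹) = ((y * n * y⁻¹ * n⁻¹) * m * (y * n * y⁻¹ * n⁻¹)⁻¹) * (y * n * y⁻¹ * n⁻¹) := by rw [k2]
              _ = _ := by group
          have h3 : y * n * y⁻¹ = ⁅y, n⁆ * n := by rw [commutatorElement_def]; group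
          rw [h3]
          exact mul_mem_sup h2 hn
      exact h1 hl
    obtain ⟨S, hMS, hSy⟩ := Lib.Coprime.invariant_le_invariant_sylow hyL (by
        rw [Nat.card_zpowers, hyo]; exact hLodd.coprime_two_left) (Or.inl inferInstance) p M
      (by
        refine le_trans ?_ (le_sup_left : C ≤ L)
        intro m hm
        rw [mem_centralizer_iff]
        intro m' hm'
        exact hMcomm m' hm' m hm) hMp (zpowers_le.2 hyM)
    have hSM : (S : Subgroup L).map L.subtype = M :=
      hMmax _ (S.isPGroup'.map _) hMS (hSy (mem_zpowers y))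
    -- P₁ has order at most |S|
    have h4 : Nat.card P₁ ≤ Nat.card M := by
      have h5 : IsPGroup p (P₁.subgroupOf L) := hP₁p.comap_of_injective L.subtype L.subtype_injective
      have h6 := H8.Sylow.card_le_sylow S h5
      have h7 : Nat.card (P₁.subgroupOf L) = Nat.card P₁ := Nat.card_congr (subgroupOfEquivOfLe le_sup_right).toEquiv
      have h8 : Nat.card ((S : Subgroup L).map L.subtype) = Nat.card S :=
        (Nat.card_congr ((S : Subgroup L).equivMapOfInjective L.subtype L.subtype_injective).toEquiv).symm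
      rw [← hSM, h8, ← h7]; exact h6
    have h9 := Lib.Basic.card_lt_card_of_lt hlt2
    omega
  obtain ⟨P₀, hP₀⟩ := hMp.exists_le_sylow
  have hP₀M := hsyl P₀ hP₀
  obtain ⟨g, hg⟩ := MulAction.exists_smul_eq G P₀ P
  have h1 : orderOf (g * y * g⁻¹) = 2 := by
    rw [← hyo]
    exact orderOf_injective (MulAut.conj g).toMonoidHom (MulAut.conj g).injective y
  have h2 : g * y * g⁻¹ ∈ normalizer ((P : Subgroup G) : Set G) := by
    apply H2.PUtil.mem_normalizer_of_conj_mem
    intro x hx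
    rw [← hg] at hx ⊢
    obtain ⟨z, hz, rfl⟩ := hx
    have hz' : z ∈ (P₀ : Subgroup G) := hz
    refine ⟨y * z * y⁻¹, ?_, ?_⟩
    · show y * z * y⁻¹ ∈ (P₀ : Subgroup G)
      rw [hP₀M] at hz' ⊢
      exact (mem_normalizer_iff.1 hyM z).1 hz'
    · show g * (y * z * y⁻¹) * g⁻¹ = g * y * g⁻¹ * (g * z * g⁻¹) * (g * y * g⁻¹)⁻¹
      group
  rw [even_iff_two_dvd, ← h1]
  have := orderOf_dvd_natCard (⟨_, h2⟩ : normalizer ((P : Subgroup G) : Set G))
  rwa [Subgroup.orderOf_mk] at this

end Cfsg.Agent.S3982
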