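import Cfsg.Statements.S3983
import Cfsg.Agent.Lib.Coprime

set_option autoImplicit false
open scoped Pointwise
open Cfsg

namespace Cfsg.Agent.S3983

open Subgroup
open scoped Pointwise

/-- Let P be a Sylow p-subgroup of the finite group G that meets each conjugate g P g⁻¹ with g outside N_G(P) trivially, and let U be a subgroup of G of order divisible by p. Then a Sylow p-subgroup Q of U has the same property inside U: Q meets each conjugate u Q u⁻¹ with u ∈ U outside N_U(Q) trivially. -/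
theorem result {G : Type*} [Group G] [Finite G] (p : ℕ) [Fact p.Prime] (P : Sylow p G) (hTI : ∀ g : G, g ∉ Subgroup.normalizer ((P : Subgroup G) : Set G) → (P : Subgroup G) ⊓ (MulAut.conj g • (P : Subgroup G)) = ⊥) (U : Subgroup G) (hU : p ∣ Nat.card ↥U) (Q : Sylow p ↥U) : ∀ u : ↥U, u ∉ Subgroup.normalizer ((Q : Subgroup ↥U) : Set ↥U) → (Q : Subgroup ↥U) ⊓ (MulAut.conj u • (Q : Subgroup ↥U)) = ⊥ := by
  intro u hu
  by_contra hne
  obtain ⟨⟨x, hx⟩, hx1⟩ := Subgroup.ne_bot_iff_exists_ne_one.mp hne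
  obtain ⟨hxQ, hxuQ⟩ := mem_inf.mp hx
  have hx1' : (x : G) ≠ 1 := fun h => hx1 (Subtype.ext (Subtype.ext h))
  -- `Q ≤ P^c`
  obtain ⟨R, hR⟩ := (Q.isPGroup'.map U.subtype).exists_le_sylow
  obtain ⟨c, hc⟩ := MulAction.exists_smul_eq G P R
  have hR' : ∀ y, y ∈ (R : Subgroup G) ↔ c⁻¹ * y * c ∈ (P : Subgroup G) := by
    intro y
    rw [← hc, Sylow.coe_subgroup_smul, Cfsg.Agent.Lib.SchurZas.mem_conj_smul_iff]
  have hxR : (x : G) ∈ (R : Subgroup G) := hR ⟨x, hxQ, rfl⟩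
  rw [Cfsg.Agent.Lib.SchurZas.mem_conj_smul_iff] at hxuQ
  have hyR : (u : G)⁻¹ * x * u ∈ (R : Subgroup G) := hR ⟨u⁻¹ * x * u, hxuQ, rfl⟩
  -- `g = c⁻¹ u c` normalizes `P`
  have hg : c⁻¹ * u * c ∈ normalizer ((P : Subgroup G) : Set G) := by
    by_contra hno
    have h1 := hTI _ hno
    have h2 : c⁻¹ * x * c ∈ (P : Subgroup G) ⊓ (MulAut.conj (c⁻¹ * u * c) • (P : Subgroup G)) := by
      refine mem_inf.mpr ⟨(hR' _).mp hxR, ?_⟩
      rw [Cfsg.Agent.Lib.SchurZas.mem_conj_smul_iff]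
      have h3 := (hR' _).mp hyR
      have e : (c⁻¹ * (u : G) * c)⁻¹ * (c⁻¹ * x * c) * (c⁻¹ * u * c) =
        c⁻¹ * ((u : G)⁻¹ * x * u) * c := by group
      rw [e]; exact h3
    rw [h1, mem_bot] at h2
    apply hx1'
    have e : (x : G) = c * (c⁻¹ * x * c) * c⁻¹ := by group
    rw [e, h2]; group
  have hQR : (Q : Subgroup U) = (R : Subgroup G).subgroupOf U := by
    have h1 : IsPGroup p ((R : Subgroup G).subgroupOf U) := R.isPGroup'.comap_subtype
    exact (Q.is_maximal' h1 (fun y hy => hR ⟨y, hy, rfl⟩)).symm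
  apply hu
  rw [hQR]
  have key : ∀ w : G, w ∈ normalizer ((R : Subgroup G) : Set G) ↔
      c⁻¹ * w * c ∈ normalizer ((P : Subgroup G) : Set G) := by
    intro w
    rw [mem_normalizer_iff, mem_normalizer_iff]
    constructor
    · intro h y
      have h1 := h (c * y * c⁻¹)
      rw [hR', hR'] at h1
      have e1 : c⁻¹ * (c * y * c⁻¹) * c = y := by group
      have e2 : c⁻¹ * (w * (c * y * c⁻¹) * w⁻¹) * c = c⁻¹ * w * c * y * (c⁻¹ * w * c)⁻¹ := by group
      rw [e1, e2] at h1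
      exact h1
    · intro h y
      have h1 := h (c⁻¹ * y * c)
      rw [hR', hR']
      have e2 : c⁻¹ * w * c * (c⁻¹ * y * c) * (c⁻¹ * w * c)⁻¹ = c⁻¹ * (w * y * w⁻¹) * c := by group
      rw [e2] at h1
      exact h1
  have huR := (key u).mpr hg
  rw [mem_normalizer_iff] at huR ⊢
  intro y
  exact huR y

end Cfsg.Agent.S3983
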