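import Cfsg.Statements.S3984
import Cfsg.Agent.Lib.Coprime
import Cfsg.Agent.Lib.CoprimeLift

set_option autoImplicit false
open scoped Pointwise
open Cfsg

namespace Cfsg.Agent.S3984

open Subgroup
open scoped Pointwise

/-- Let P be a Sylow p-subgroup of the finite group G that meets each conjugate g P g⁻¹ with g outside N_G(P) trivially, and let N be a normal subgroup of G of order prime to p. Then every Sylow p-subgroup Q of G ⧸ N meets each conjugate x Q x⁻¹ with x outside its normalizer trivially. -/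
theorem result {G : Type*} [Group G] [Finite G] (p : ℕ) [Fact p.Prime] (P : Sylow p G) (hTI : ∀ g : G, g ∉ Subgroup.normalizer ((P : Subgroup G) : Set G) → (P : Subgroup G) ⊓ (MulAut.conj g • (P : Subgroup G)) = ⊥) (N : Subgroup G) [N.Normal] (hN : (Nat.card ↥N).Coprime p) (Q : Sylow p (G ⧸ N)) : ∀ x : G ⧸ N, x ∉ Subgroup.normalizer ((Q : Subgroup (G ⧸ N)) : Set (G ⧸ N)) → (Q : Subgroup (G ⧸ N)) ⊓ (MulAut.conj x • (Q : Subgroup (G ⧸ N))) = ⊥ := by
  have hpp : p.Prime := Fact.out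
  intro x hx
  by_contra hne
  obtain ⟨⟨y, hy⟩, hy1⟩ := Subgroup.ne_bot_iff_exists_ne_one.mp hne
  obtain ⟨hyQ, hyxQ⟩ := mem_inf.mp hy
  have hy1' : y ≠ 1 := fun h => hy1 (Subtype.ext h)
  obtain ⟨g, rfl⟩ := QuotientGroup.mk_surjective x
  -- a Sylow subgroup `R` of `G` over `Q`
  let P' : Sylow p (G ⧸ N) := P.mapSurjective (QuotientGroup.mk'_surjective N)
  obtain ⟨c', hc'⟩ := MulAction.exists_smul_eq (G ⧸ N) P' Q
  obtain ⟨c, rfl⟩ := QuotientGroup.mk_surjective c'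
  let R : Sylow p G := c • P
  have hRQ : (R : Subgroup G).map (QuotientGroup.mk' N) = (Q : Subgroup (G ⧸ N)) := by
    rw [← hc', Sylow.coe_subgroup_smul, Sylow.coe_subgroup_smul,
      Cfsg.Agent.Lib.SchurZas.map_conj_smul]
    rfl
  have hTIR : ∀ g : G, g ∉ normalizer ((R : Subgroup G) : Set G) →
      (R : Subgroup G) ⊓ (MulAut.conj g • (R : Subgroup G)) = ⊥ := by
    intro g hg
    have hR' : ∀ y, y ∈ (R : Subgroup G) ↔ c⁻¹ * y * c ∈ (P : Subgroup G) := by
      intro y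
      rw [Sylow.coe_subgroup_smul, Cfsg.Agent.Lib.SchurZas.mem_conj_smul_iff]
    have h1 : c⁻¹ * g * c ∉ normalizer ((P : Subgroup G) : Set G) := by
      intro h
      apply hg
      rw [mem_normalizer_iff] at h ⊢
      intro y
      have h1 := h (c⁻¹ * y * c)
      rw [hR', hR']
      have e2 : c⁻¹ * g * c * (c⁻¹ * y * c) * (c⁻¹ * g * c)⁻¹ = c⁻¹ * (g * y * g⁻¹) * c := by group
      rw [e2] at h1
      exact h1
    rw [eq_bot_iff]
    intro w hw
    obtain ⟨w1, w2⟩ := mem_inf.mp hw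
    rw [Cfsg.Agent.Lib.SchurZas.mem_conj_smul_iff, hR'] at w2
    rw [hR'] at w1
    have h2 : c⁻¹ * w * c ∈ (P : Subgroup G) ⊓ (MulAut.conj (c⁻¹ * g * c) • (P : Subgroup G)) := by
      refine mem_inf.mpr ⟨w1, ?_⟩
      rw [Cfsg.Agent.Lib.SchurZas.mem_conj_smul_iff]
      have e : (c⁻¹ * g * c)⁻¹ * (c⁻¹ * w * c) * (c⁻¹ * g * c) = c⁻¹ * (g⁻¹ * w * g) * c := by group
      rw [e]; exact w2
    rw [hTI _ h1, mem_bot] at h2
    rw [mem_bot]
    have e : w = c * (c⁻¹ * w * c) * c⁻¹ := by group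
    rw [e, h2]; group
  -- lift `y`
  rw [← hRQ] at hyQ
  obtain ⟨r, hr, hry⟩ := hyQ
  rw [Cfsg.Agent.Lib.SchurZas.mem_conj_smul_iff, ← hRQ] at hyxQ
  obtain ⟨s, hs, hsy⟩ := hyxQ
  -- `g s g⁻¹` and `r` agree mod `N`; both are `p`-elements
  have hcop : ∀ w ∈ (R : Subgroup G), (orderOf w).Coprime (Nat.card N) := by
    intro w hw
    obtain ⟨k, hk⟩ := (IsPGroup.iff_orderOf.mp R.isPGroup') ⟨w, hw⟩
    rw [← orderOf_coe] at hk
    change orderOf w = p ^ k at hk
    rw [hk]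
    exact Nat.Coprime.pow_left _ hN.symm
  have hmod : (QuotientGroup.mk (g * s * g⁻¹) : G ⧸ N) = QuotientGroup.mk r := by
    have h1 : (QuotientGroup.mk r : G ⧸ N) = y := hry
    have h2 : (QuotientGroup.mk s : G ⧸ N) = (QuotientGroup.mk g)⁻¹ * y * QuotientGroup.mk g := hsy
    rw [QuotientGroup.mk_mul, QuotientGroup.mk_mul, QuotientGroup.mk_inv, h1, h2]
    group
  obtain ⟨n, hn, hconj⟩ := Cfsg.Agent.Lib.CoprimeLift.exists_conj N (hcop s hs) (hcop r hr) g hmod
  have hr1 : r ≠ 1 := by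
    rintro rfl
    exact hy1' (hry.symm.trans (map_one _))
  have hng : n * g ∈ normalizer ((R : Subgroup G) : Set G) := by
    by_contra hno
    have h1 := hTIR _ hno
    have h2 : r ∈ (R : Subgroup G) ⊓ (MulAut.conj (n * g) • (R : Subgroup G)) := by
      refine mem_inf.mpr ⟨hr, ?_⟩
      rw [Cfsg.Agent.Lib.SchurZas.mem_conj_smul_iff, ← hconj]
      have e : (n * g)⁻¹ * (n * g * s * (n * g)⁻¹) * (n * g) = s := by group
      rw [e]; exact hs
    rw [h1, mem_bot] at h2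
    exact hr1 h2
  apply hx
  have h1 := le_normalizer_map (QuotientGroup.mk' N) (mem_map_of_mem (QuotientGroup.mk' N) hng)
  rw [hRQ] at h1
  have h2 : QuotientGroup.mk' N (n * g) = QuotientGroup.mk g := by
    rw [map_mul]
    have : QuotientGroup.mk' N n = 1 := (QuotientGroup.eq_one_iff _).mpr hn
    rw [this, one_mul]
    rfl
  rw [h2] at h1
  exact h1

end Cfsg.Agent.S3984
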