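import Cfsg.Statements.S3985
import Cfsg.Agent.Lib.CoprimeB
import Cfsg.Agent.Lib.BlockPP
import Cfsg.Agent.Lib.SubCount

set_option autoImplicit false
open scoped Pointwise
open Cfsg

namespace Cfsg.Agent.S3985

open Subgroup Cfsg.Agent.Lib.BlockPP
open scoped Pointwise

/-- Let P be a cyclic Sylow p-subgroup of the finite group G. Then P meets each conjugate g P g⁻¹ with g outside N_G(P) trivially if and only if P is weakly self-centralizing: C_G(x) = C_G(P) for every non-identity x ∈ P. -/
theorem result {G : Type*} [Group G] [Finite G] (p : ℕ) [Fact p.Prime] (P : Sylow p G) (hcyc : IsCyclic ↥(P : Subgroup G)) : (∀ g : G, g ∉ Subgroup.normalizer ((P : Subgroup G) : Set G) → (P : Subgroup G) ⊓ (MulAut.conj g • (P : Subgroup G)) = ⊥) ↔ ∀ x : G, x ∈ (P : Subgroup G) → x ≠ 1 → Subgroup.centralizer ({x} : Set G) = Subgroup.centralizer ((P : Subgroup G) : Set G) := by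
  have hpp : p.Prime := Fact.out
  have hcom : ∀ a ∈ (P : Subgroup G), ∀ b ∈ (P : Subgroup G), a * b = b * a := by
    intro a ha b hb
    obtain ⟨g, hg⟩ := hcyc.exists_generator
    obtain ⟨i, hi⟩ := hg ⟨a, ha⟩
    obtain ⟨j, hj⟩ := hg ⟨b, hb⟩
    have hi' : (g : G) ^ i = a := congrArg Subtype.val hi
    have hj' : (g : G) ^ j = b := congrArg Subtype.val hj
    rw [← hi', ← hj']
    exact (Commute.zpow_zpow_self (g : G) i j).eq
  constructor
  · intro hTI x hx hx1
    apply le_antisymm
    · intro g hg
      rw [mem_centralizer_singleton_iff] at hg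
      have hgx : Commute g x := hg
      -- all powers of g normalize `P`
      have hnorm : ∀ h : G, Commute h x → h ∈ normalizer ((P : Subgroup G) : Set G) := by
        intro h hh
        by_contra hno
        have h1 := hTI h hno
        have h2 : x ∈ (P : Subgroup G) ⊓ (MulAut.conj h • (P : Subgroup G)) := by
          refine mem_inf.mpr ⟨hx, ?_⟩
          rw [Cfsg.Agent.Lib.SchurZas.mem_conj_smul_iff]
          have e : h⁻¹ * x * h = x := by
            rw [mul_assoc, ← hh.eq, inv_mul_cancel_left]
          rw [e]; exact hx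
        rw [h1, mem_bot] at h2
        exact hx1 h2
      -- the p-part
      have hpp1 : pp p g ∈ centralizer ((P : Subgroup G) : Set G) := by
        have hc1 : Commute (pp p g) x := by
          unfold pp; exact hgx.pow_left _
        have h1 := hnorm _ hc1
        have h2 : IsPGroup p (zpowers (pp p g)) :=
          (isPGroup_zpowers_iff hpp _).mpr (exists_orderOf_pp hpp g)
        have h3 : IsPGroup p ((P : Subgroup G) ⊔ zpowers (pp p g) : Subgroup G) :=
          P.isPGroup'.to_sup_of_normal_left' h2 (by rw [zpowers_le]; exact h1)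
        have h4 := P.is_maximal' h3 le_sup_left
        have h5 : pp p g ∈ (P : Subgroup G) := by
          rw [← h4]
          exact mem_sup_right (mem_zpowers _)
        rw [mem_centralizer_iff]
        intro y hy
        exact hcom y hy _ h5
      have hpq1 : pq p g ∈ centralizer ((P : Subgroup G) : Set G) := by
        have hc1 : Commute (pq p g) x := by
          unfold pq
          apply Commute.mul_left _ hgx
          apply Commute.inv_left
          unfold pp; exact hgx.pow_left _
        have h1 := hnorm _ hc1
        have hA : zpowers (pq p g) ≤ normalizer ((P : Subgroup G) : Set G) := by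
          rw [zpowers_le]; exact h1
        have hcop : (Nat.card (zpowers (pq p g))).Coprime (Nat.card (P : Subgroup G)) := by
          rw [Nat.card_zpowers]
          obtain ⟨k, hk⟩ := P.isPGroup'.exists_card_eq
          rw [hk]
          exact Nat.Coprime.pow_right k ((hpp.coprime_iff_not_dvd).mpr (not_dvd_orderOf_pq hpp g)).symm
        have hab : IsMulCommutative (P : Subgroup G) :=
          Cfsg.Agent.Lib.Nilp.isMulCommutative_iff_forall.mpr hcom
        have h2 := Cfsg.Agent.Lib.CoprimeB.abelian_inf_eq_bot hab hA hcop
        -- P cyclic: two subgroups meeting trivially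
        have h3 : (P : Subgroup G) ⊓ centralizer (zpowers (pq p g) : Set G) ≠ ⊥ := by
          intro hbot
          have h4 : x ∈ (P : Subgroup G) ⊓ centralizer (zpowers (pq p g) : Set G) := by
            refine mem_inf.mpr ⟨hx, ?_⟩
            rw [mem_centralizer_iff]
            rintro _ ⟨j, rfl⟩
            exact (hc1.zpow_left j).eq
          rw [hbot, mem_bot] at h4
          exact hx1 h4
        have h5 : ⁅(P : Subgroup G), zpowers (pq p g)⁆ = ⊥ := by
          by_contra h6
          have hle : ⁅(P : Subgroup G), zpowers (pq p g)⁆ ≤ (P : Subgroup G) :=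
            Cfsg.Agent.Lib.Coprime.commutator_le_of_normalizes hA
          -- both contain the elements of order p
          have hfind : ∀ H : Subgroup G, H ≤ P → H ≠ ⊥ → ∃ y ∈ H, orderOf y = p := by
            intro H hH hne
            have h7 : p ∣ Nat.card H := by
              obtain ⟨k, hk⟩ := (P.isPGroup'.to_le hH).exists_card_eq
              rw [hk]
              apply dvd_pow_self
              rintro rfl
              rw [pow_zero] at hk
              exact hne (card_eq_one.mp hk)
            obtain ⟨y, hy⟩ := exists_prime_orderOf_dvd_card' p h7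
            exact ⟨y, y.2, by rw [orderOf_coe]; exact hy⟩
          obtain ⟨y, hy, hyo⟩ := hfind _ inf_le_left h3
          obtain ⟨w, hw, hwo⟩ := hfind _ hle h6
          have hyP : y ∈ (P : Subgroup G) := (mem_inf.mp hy).1
          have hwP : w ∈ (P : Subgroup G) := hle hw
          have h8 : zpowers (⟨y, hyP⟩ : (P : Subgroup G)) = zpowers (⟨w, hwP⟩ : (P : Subgroup G)) := by
            have c1 : Nat.card (zpowers (⟨y, hyP⟩ : (P : Subgroup G))) = p := by
              rw [Nat.card_zpowers, ← orderOf_coe]; exact hyo
            have c2 : Nat.card (zpowers (⟨w, hwP⟩ : (P : Subgroup G))) = p := by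
              rw [Nat.card_zpowers, ← orderOf_coe]; exact hwo
            have hd : p ∣ Nat.card (P : Subgroup G) :=
              (dvd_of_eq c1.symm).trans (card_subgroup_dvd_card _)
            have hu := Nat.card_eq_one_iff_unique.mp
              (Cfsg.Agent.Lib.SubCount.card_subgroups_cyclic (C := (P : Subgroup G)) p hd)
            exact congrArg Subtype.val (hu.1.elim ⟨_, c1⟩ ⟨_, c2⟩)
          have h9 : y ∈ zpowers w := by
            have : (⟨y, hyP⟩ : (P : Subgroup G)) ∈ zpowers (⟨w, hwP⟩ : (P : Subgroup G)) := by
              rw [← h8]; exact mem_zpowers _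
            obtain ⟨j, hj⟩ := this
            exact ⟨j, congrArg Subtype.val hj⟩
          have h10 : y ∈ ((P : Subgroup G) ⊓ centralizer (zpowers (pq p g) : Set G)) ⊓
              ⁅(P : Subgroup G), zpowers (pq p g)⁆ :=
            mem_inf.mpr ⟨hy, (zpowers_le.mpr hw) h9⟩
          rw [h2, mem_bot] at h10
          rw [h10, orderOf_one] at hyo
          exact hpp.one_lt.ne hyo
        have h6 := (commutator_eq_bot_iff_le_centralizer.mp h5)
        rw [mem_centralizer_iff]
        intro y hy
        exact (mem_centralizer_iff.mp (h6 hy) _ (mem_zpowers _)).symm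
      rw [← pp_mul_pq p g]
      exact mul_mem hpp1 hpq1
    · intro g hg
      rw [mem_centralizer_singleton_iff]
      exact (mem_centralizer_iff.mp hg x hx).symm
  · intro h g hg
    by_contra hne
    obtain ⟨⟨x, hx⟩, hx1⟩ := Subgroup.ne_bot_iff_exists_ne_one.mp hne
    obtain ⟨hxP, hxQ⟩ := mem_inf.mp hx
    have hx1' : x ≠ 1 := fun h => hx1 (Subtype.ext h)
    rw [Cfsg.Agent.Lib.SchurZas.mem_conj_smul_iff] at hxQ
    have h1 : (MulAut.conj g • (P : Subgroup G)) ≤ centralizer ((P : Subgroup G) : Set G) := by
      rw [← h x hxP hx1']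
      intro y hy
      rw [Cfsg.Agent.Lib.SchurZas.mem_conj_smul_iff] at hy
      rw [mem_centralizer_singleton_iff]
      have h2 := hcom _ hy _ hxQ
      have h3 : g * (g⁻¹ * y * g * (g⁻¹ * x * g)) * g⁻¹ = g * (g⁻¹ * x * g * (g⁻¹ * y * g)) * g⁻¹ := by
        rw [h2]
      calc y * x = g * (g⁻¹ * y * g * (g⁻¹ * x * g)) * g⁻¹ := by group
        _ = _ := h3
        _ = x * y := by group
    have h2 : IsPGroup p ((P : Subgroup G) ⊔ (MulAut.conj g • (P : Subgroup G)) : Subgroup G) := by
      apply P.isPGroup'.to_sup_of_normal_left'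
      · exact P.isPGroup'.map _
      · exact h1.trans (centralizer_le_normalizer _)
    have h3 := P.is_maximal' h2 le_sup_left
    have h4 : (MulAut.conj g • (P : Subgroup G)) ≤ P := by
      have h5 : (MulAut.conj g • (P : Subgroup G)) ≤ (P : Subgroup G) ⊔ (MulAut.conj g • (P : Subgroup G)) :=
        le_sup_right
      exact h5.trans h3.le
    apply hg
    apply Cfsg.Agent.Lib.Coprime.mem_normalizer_of_conj_smul_eq
    apply Subgroup.eq_of_le_of_card_ge h4
    rw [Cfsg.Agent.Lib.SchurZas.card_conj_smul]

end Cfsg.Agent.S3985
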