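import Cfsg.Statements.S3986
import Cfsg.Agent.Lib.ConjCover

set_option autoImplicit false
open Cfsg

namespace Cfsg.Agent.S3986

open Subgroup Cfsg.Agent.Lib.BlockPP

theorem mem_of_direct {G : Type*} [Group G] [Finite G] {p : ℕ} [Fact p.Prime] (P : Sylow p G)
    (K : Subgroup G) (hP : (P : Subgroup G).Normal) (hK : K.Normal) (hi : (P : Subgroup G) ⊓ K = ⊥)
    (hs : (P : Subgroup G) ⊔ K = ⊤) : (∀ x : G, (∃ a, orderOf x = p ^ a) → x ∈ (P : Subgroup G)) ∧
    (∀ y : G, (∃ q b : ℕ, q.Prime ∧ q ≠ p ∧ orderOf y = q ^ b) → y ∈ K) ∧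
    (∀ x ∈ (P : Subgroup G), ∀ y ∈ K, x * y = y * x) := by
  have hpp : p.Prime := Fact.out
  refine ⟨?_, ?_, ?_⟩
  · rintro x ⟨a, ha⟩
    have h1 : IsPGroup p (zpowers x) := (isPGroup_zpowers_iff hpp x).mpr ⟨a, ha⟩
    obtain ⟨Q, hQ⟩ := h1.exists_le_sylow
    obtain ⟨g, hg⟩ := MulAction.exists_smul_eq G P Q
    rw [Sylow.smul_eq_of_normal] at hg
    rw [hg]
    exact hQ (mem_zpowers x)
  · rintro y ⟨q, b, hq, hqp, hb⟩
    rw [← QuotientGroup.eq_one_iff]
    have h1 : Nat.card (G ⧸ K) = Nat.card (P : Subgroup G) := by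
      have hc : IsComplement' (P : Subgroup G) K := by
        apply isComplement'_of_disjoint_and_mul_eq_univ (disjoint_iff.mpr hi)
        rw [← mul_normal, hs]
        rfl
      rw [← index_eq_card]
      exact hc.index_eq_card
    obtain ⟨k, hk⟩ := P.isPGroup'.exists_card_eq
    have h2 : orderOf (QuotientGroup.mk y : G ⧸ K) ∣ p ^ k := by
      rw [← hk, ← h1]; exact orderOf_dvd_natCard _
    have h3 : orderOf (QuotientGroup.mk y : G ⧸ K) ∣ q ^ b := by
      rw [← hb]; exact orderOf_map_dvd (QuotientGroup.mk' K) y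
    have h4 : Nat.Coprime (p ^ k) (q ^ b) := Nat.Coprime.pow _ _ ((Nat.coprime_primes hpp hq).mpr hqp.symm)
    rw [← orderOf_eq_one_iff]
    exact Nat.eq_one_of_dvd_coprimes h4 h2 h3
  · intro x hx y hy
    exact commute_of_normal_of_disjoint _ _ hP hK (disjoint_iff.mpr hi) x y hx hy

theorem direct_of_commute {G : Type*} [Group G] [Finite G] {p : ℕ} [Fact p.Prime]
    (h : ∀ x y : G, (∃ a : ℕ, orderOf x = p ^ a) → (∃ q b : ℕ, q.Prime ∧ q ≠ p ∧ orderOf y = q ^ b) →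
      x * y = y * x) (P : Sylow p G) :
    (P : Subgroup G) ⊔ centralizer ((P : Subgroup G) : Set G) = ⊤ := by
  apply Cfsg.Agent.Lib.Cores.eq_top_of_sylow_le
  intro q hq
  have : Fact q.Prime := ⟨hq⟩
  by_cases hqp : q = p
  · subst hqp
    exact ⟨P, le_sup_left⟩
  · obtain ⟨Q⟩ := (inferInstance : Nonempty (Sylow q G))
    refine ⟨Q, le_trans ?_ le_sup_right⟩
    intro y hy
    rw [mem_centralizer_iff]
    intro x hx
    obtain ⟨a, ha⟩ := (IsPGroup.iff_orderOf.mp P.isPGroup') ⟨x, hx⟩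
    obtain ⟨b, hb⟩ := (IsPGroup.iff_orderOf.mp Q.isPGroup') ⟨y, hy⟩
    rw [← orderOf_coe] at ha hb
    exact h x y ⟨a, ha⟩ ⟨q, b, hq, hqp, hb⟩

/-- Let p be a prime and G a finite group. Then some Sylow p-subgroup of G is a direct factor of G (it is normal and has a normal complement) if and only if every element of p-power order commutes with every element whose order is a power of a prime other than p. -/
theorem result {G : Type*} [Group G] [Finite G] (p : ℕ) [Fact p.Prime] : (∃ (P : Sylow p G) (K : Subgroup G), (P : Subgroup G).Normal ∧ K.Normal ∧ (P : Subgroup G) ⊓ K = ⊥ ∧ (P : Subgroup G) ⊔ K = ⊤) ↔ ∀ x y : G, (∃ a : ℕ, orderOf x = p ^ a) → (∃ q b : ℕ, q.Prime ∧ q ≠ p ∧ orderOf y = q ^ b) → x * y = y * x := by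
  constructor
  · rintro ⟨P, K, hP, hK, hi, hs⟩ x y hx hy
    obtain ⟨h1, h2, h3⟩ := mem_of_direct P K hP hK hi hs
    exact h3 x (h1 x hx) y (h2 y hy)
  · intro h
    obtain ⟨P⟩ := (inferInstance : Nonempty (Sylow p G))
    obtain ⟨h1, K, h2, -, h3, h4⟩ := Cfsg.Agent.Lib.ConjCover.direct_factor P (direct_of_commute h P)
    exact ⟨P, K, h1, h2, h3, h4⟩

end Cfsg.Agent.S3986
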