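import Cfsg.Statements.S3987
import Cfsg.Agent.Lib.ConjCover
import Cfsg.Agent.Lib.ClassSizes
import Cfsg.Agent.Lib.Basic
import Cfsg.Agent.S3986

set_option autoImplicit false
open Cfsg

namespace Cfsg.Agent.S3987

open Subgroup Cfsg.Agent.Lib.BlockPP

theorem commute_of_index {G : Type*} [Group G] [Finite G] {x y : G}
    (h : (centralizer ({x * y} : Set G)).index = (centralizer ({x} : Set G)).index *
      (centralizer ({y} : Set G)).index) : x * y = y * x := by
  classical
  rw [Cfsg.Agent.Lib.ClassSizes.index_centralizer_eq, Cfsg.Agent.Lib.ClassSizes.index_centralizer_eq,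
    Cfsg.Agent.Lib.ClassSizes.index_centralizer_eq, ← Nat.card_prod] at h
  have hex : ∀ w : {w : G // IsConj (x * y) w}, ∃ c : G, c * (x * y) * c⁻¹ = w :=
    fun w => isConj_iff.mp w.2
  choose c hc using hex
  let s : {w : G // IsConj (x * y) w} → {a : G // IsConj x a} × {b : G // IsConj y b} := fun w =>
    (⟨c w * x * (c w)⁻¹, isConj_iff.mpr ⟨_, rfl⟩⟩, ⟨c w * y * (c w)⁻¹, isConj_iff.mpr ⟨_, rfl⟩⟩)
  have hs : ∀ w, ((s w).1 : G) * (s w).2 = w := by
    intro w
    change c w * x * (c w)⁻¹ * (c w * y * (c w)⁻¹) = w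
    rw [← hc w]; group
  have hinj : Function.Injective s := by
    intro a b hab
    apply Subtype.ext
    rw [← hs a, ← hs b, hab]
  have hbij : Function.Bijective s := by
    have : Fintype {w : G // IsConj (x * y) w} := Fintype.ofFinite _
    have : Fintype ({a : G // IsConj x a} × {b : G // IsConj y b}) := Fintype.ofFinite _
    rw [Fintype.bijective_iff_injective_and_card]
    refine ⟨hinj, ?_⟩
    rw [Nat.card_eq_fintype_card, Nat.card_eq_fintype_card] at h
    exact h
  obtain ⟨w₁, hw₁⟩ := hbij.2 (⟨x, IsConj.refl x⟩, ⟨y, IsConj.refl y⟩)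
  obtain ⟨w₂, hw₂⟩ := hbij.2 (⟨(x * y) * x * (x * y)⁻¹, isConj_iff.mpr ⟨_, rfl⟩⟩,
    ⟨(x * y) * y * (x * y)⁻¹, isConj_iff.mpr ⟨_, rfl⟩⟩)
  have h1 := hs w₁
  have h2 := hs w₂
  rw [hw₁] at h1
  rw [hw₂] at h2
  change x * y = (w₁ : G) at h1
  change (x * y) * x * (x * y)⁻¹ * ((x * y) * y * (x * y)⁻¹) = (w₂ : G) at h2
  have h3 : w₁ = w₂ := by
    apply Subtype.ext
    rw [← h1, ← h2]; group
  rw [h3, hw₂] at hw₁
  have h4 : (x * y) * x * (x * y)⁻¹ = x := congrArg (fun z => (z.1 : G)) hw₁
  have h5 : x * (y * x) = x * (x * y) := by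
    rw [← mul_assoc]
    exact mul_inv_eq_iff_eq_mul.mp h4
  exact (mul_left_cancel h5).symm

/-- Let p be a prime and G a finite group. Then some Sylow p-subgroup of G is a direct factor of G (normal with a normal complement) if and only if for every element x of p-power order and every element y whose order is a power of a prime other than p, the conjugacy class of x y has as many elements as the product of the sizes of the classes of x and of y. -/
theorem result {G : Type*} [Group G] [Finite G] (p : ℕ) [Fact p.Prime] : (∃ (P : Sylow p G) (K : Subgroup G), (P : Subgroup G).Normal ∧ K.Normal ∧ (P : Subgroup G) ⊓ K = ⊥ ∧ (P : Subgroup G) ⊔ K = ⊤) ↔ ∀ x y : G, (∃ a : ℕ, orderOf x = p ^ a) → (∃ q b : ℕ, q.Prime ∧ q ≠ p ∧ orderOf y = q ^ b) → (Subgroup.centralizer ({x * y} : Set G)).index = (Subgroup.centralizer ({x} : Set G)).index * (Subgroup.centralizer ({y} : Set G)).index := by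
  have hpp : p.Prime := Fact.out
  constructor
  · rintro ⟨P, K, hP, hK, hi, hs⟩ x y hx hy
    obtain ⟨h1, h2, h3⟩ := Cfsg.Agent.S3986.mem_of_direct P K hP hK hi hs
    have hxP := h1 x hx
    have hyK := h2 y hy
    have hc : Commute x y := h3 x hxP y hyK
    obtain ⟨a, ha⟩ := hx
    obtain ⟨q, b, hq, hqp, hb⟩ := hy
    rw [Cfsg.Agent.Lib.ClassSizes.centralizer_mul_of_coprime hc (by
      rw [ha, hb]; exact Nat.Coprime.pow _ _ ((Nat.coprime_primes hpp hq).mpr hqp.symm))]
    apply Cfsg.Agent.Lib.Basic.card_inf_of_coprime_index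
    have hcomp : IsComplement' (P : Subgroup G) K := by
      apply isComplement'_of_disjoint_and_mul_eq_univ (disjoint_iff.mpr hi)
      rw [← mul_normal, hs]
      rfl
    have i1 : (centralizer ({x} : Set G)).index ∣ Nat.card (P : Subgroup G) := by
      rw [← hcomp.index_eq_card]
      apply index_dvd_of_le
      intro k hk
      rw [mem_centralizer_singleton_iff]
      exact (h3 x hxP k hk).symm
    have i2 : (centralizer ({y} : Set G)).index ∣ (P : Subgroup G).index := by
      apply index_dvd_of_le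
      intro k hk
      rw [mem_centralizer_singleton_iff]
      exact (h3 k hk y hyK)
    have i3 : (Nat.card (P : Subgroup G)).Coprime (P : Subgroup G).index := by
      obtain ⟨k, hk⟩ := P.isPGroup'.exists_card_eq
      rw [hk]
      apply Nat.Coprime.pow_left
      exact (hpp.coprime_iff_not_dvd).mpr P.not_dvd_index
    exact Nat.Coprime.coprime_dvd_left i1 (Nat.Coprime.coprime_dvd_right i2 i3)
  · intro h
    obtain ⟨P⟩ := (inferInstance : Nonempty (Sylow p G))
    obtain ⟨h1, K, h2, -, h3, h4⟩ := Cfsg.Agent.Lib.ConjCover.direct_factor P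
      (Cfsg.Agent.S3986.direct_of_commute (fun x y hx hy => commute_of_index (h x y hx hy)) P)
    exact ⟨P, K, h1, h2, h3, h4⟩

end Cfsg.Agent.S3987
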