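import Cfsg.Statements.S4010
import Cfsg.Agent.H2.PLinDl

set_option autoImplicit false
open Cfsg

namespace Cfsg.Agent.S4010

open Module in
theorem aux_toEnd {P : Type*} [Group P] {K : Type*} [Field K] (n : ℕ) (σ : P →* Matrix.GeneralLinearGroup (Fin n) K)
    (hσ : Function.Injective σ) : ∃ ρ : P →* End K (Fin n → K), Function.Injective ρ := by
  let f : Matrix (Fin n) (Fin n) K →* End K (Fin n → K) := (Matrix.toLinAlgEquiv' (R := K) (n := Fin n)).toMonoidHom
  refine ⟨(f.comp (Units.coeHom _)).comp σ, ?_⟩
  intro a b hab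
  apply hσ
  apply Units.ext
  exact (Matrix.toLinAlgEquiv' (R := K) (n := Fin n)).injective hab

/-- Let F be a field, n ≥ 1, and P a finite p-group (p a prime) admitting an injective homomorphism into the general linear group of degree n over F. Then the derived length of P is at most ⌊log₂ n⌋ + 1: that term of the derived series of P is trivial. -/
theorem result {P : Type*} [Group P] [Finite P] (p : ℕ) [Fact p.Prime] (hP : IsPGroup p P) (F : Type*) [Field F] (n : ℕ) (hn : 1 ≤ n) (ρ : P →* Matrix.GeneralLinearGroup (Fin n) F) (hρ : Function.Injective ρ) : derivedSeries P (Nat.log 2 n + 1) = ⊥ := by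
  have hlog : n < 2 ^ (Nat.log 2 n + 1) := Nat.lt_pow_succ_log_self (by norm_num) n
  rw [eq_bot_iff]
  intro g hg
  rw [Subgroup.mem_bot]
  by_cases hpF : (p : F) = 0
  · haveI : CharP F p := ringChar.of_eq (CharP.ringChar_of_prime_eq_zero (Fact.out : p.Prime) hpF)
    obtain ⟨τ, hτ⟩ := aux_toEnd n ρ hρ
    have h1 := Cfsg.Agent.H2.PLinDl.mainB (p := p) (Nat.log 2 n + 1) hP τ (by simpa using hlog.le) g hg
    exact hτ (by rw [h1, map_one])
  · let K := AlgebraicClosure F
    have hpK : (p : K) ≠ 0 := by
      intro h
      apply hpF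
      have h1 : algebraMap F K (p : F) = 0 := by rw [map_natCast]; exact h
      exact (map_eq_zero_iff _ (algebraMap F K).injective).1 h1
    let σ : P →* Matrix.GeneralLinearGroup (Fin n) K := (Matrix.GeneralLinearGroup.map (algebraMap F K)).comp ρ
    have hσ : Function.Injective σ := by
      intro a b hab
      apply hρ
      apply Units.ext
      ext i j
      have h1 := congrArg (fun M : Matrix.GeneralLinearGroup (Fin n) K => (M : Matrix (Fin n) (Fin n) K) i j) hab
      exact (algebraMap F K).injective h1
    obtain ⟨τ, hτ⟩ := aux_toEnd n σ hσ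
    have h1 := Cfsg.Agent.H2.PLinDl.mainA (p := p) hpK n hP τ (Nat.log 2 n + 1) (by simp) hlog g hg
    exact hτ (by rw [h1, map_one])

end Cfsg.Agent.S4010
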