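import Cfsg.Statements.S4013
import Mathlib
import Cfsg.Agent.H2.PUtil
import Cfsg.Agent.Lib.ClassSizes

set_option autoImplicit false
open Cfsg

namespace Cfsg.Agent.S4013

open Subgroup

/-- Let G be a finite p-group (p prime) and N < M normal subgroups of G such that for some g ∈ M ∖ N the conjugacy class of g is exactly M ∖ N. Then p = 2 and N has index 2 in M. -/
theorem result {G : Type*} [Group G] [Finite G] (p : ℕ) [Fact p.Prime] (hG : IsPGroup p G) (N M : Subgroup G) [N.Normal] [M.Normal] (hNM : N < M) (g : G) (hgM : g ∈ M) (hgN : g ∉ N) (hcl : {h : G | IsConj g h} = (M : Set G) \ (N : Set G)) : p = 2 ∧ N.relIndex M = 2 := by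
  classical
  have hp : p.Prime := Fact.out
  have h1 : Nat.card {h : G | IsConj g h} = (centralizer ({g} : Set G)).index := by
    rw [Lib.ClassSizes.index_centralizer_eq_card_carrier]
    have h2 : {h : G | IsConj g h} = ConjClasses.carrier (ConjClasses.mk g) := by
      ext h
      rw [ConjClasses.mem_carrier_iff_mk_eq, ConjClasses.mk_eq_mk_iff_isConj]
      exact ⟨fun h => h.symm, fun h => h.symm⟩
    rw [h2]
  have h3 : Nat.card ((M : Set G) \ (N : Set G) : Set G) + Nat.card N = Nat.card M := by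
    have h4 : ((M : Set G) \ (N : Set G)).ncard + (N : Set G).ncard = (M : Set G).ncard :=
      Set.ncard_sdiff_add_ncard_of_subset (show (N : Set G) ⊆ M from hNM.le)
    exact h4
  rw [← hcl, h1] at h3
  obtain ⟨a, ha⟩ := hG.index (centralizer ({g} : Set G))
  have h5 := Lib.Basic.relIndex_mul_card hNM.le
  obtain ⟨b, hb⟩ := IsPGroup.iff_card.1 (hG.to_subgroup M)
  obtain ⟨c, hc⟩ := IsPGroup.iff_card.1 (hG.to_subgroup N)
  have hlt := Lib.Basic.card_lt_card_of_lt hNM
  rw [ha, hb, hc] at h3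
  rw [hb, hc] at h5 hlt
  have hcb : c < b := (Nat.pow_lt_pow_iff_right hp.one_lt).1 hlt
  obtain ⟨d, rfl⟩ : ∃ d, b = c + 1 + d := ⟨b - (c + 1), by omega⟩
  have h6 : N.relIndex M = p ^ (1 + d) := by
    apply Nat.eq_of_mul_eq_mul_right (Nat.pow_pos (n := c) hp.pos)
    rw [h5]; ring
  -- p^a = p^c (p^(1+d) - 1)
  have h7 : p ^ a + p ^ c = p ^ c * p ^ (1 + d) := by rw [h3]; ring
  have hca : c ≤ a := by
    by_contra hlt
    push Not at hlt
    obtain ⟨e, rfl⟩ : ∃ e, c = a + 1 + e := ⟨c - (a + 1), by omega⟩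
    have h8 : 1 + p ^ (1 + e) = p ^ (1 + e) * p ^ (1 + d) := by
      apply Nat.eq_of_mul_eq_mul_left (Nat.pow_pos (n := a) hp.pos)
      calc p ^ a * (1 + p ^ (1 + e)) = p ^ a + p ^ (a + 1 + e) := by ring
        _ = _ := by rw [h7]; ring
    have h9 : p ∣ 1 := by
      have h10 : p ∣ p ^ (1 + e) * p ^ (1 + d) := by
        rw [pow_add p 1 e, pow_one]; exact ⟨p ^ e * p ^ (1 + d), by ring⟩
      rw [← h8] at h10
      exact (Nat.dvd_add_left (by rw [pow_add, pow_one]; exact dvd_mul_right _ _)).1 h10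
    exact hp.one_lt.ne' (Nat.dvd_one.1 h9)
  obtain ⟨e, rfl⟩ := Nat.exists_eq_add_of_le hca
  have h8 : p ^ e + 1 = p ^ (1 + d) := by
    apply Nat.eq_of_mul_eq_mul_left (Nat.pow_pos (n := c) hp.pos)
    rw [← h7]; ring
  rcases Nat.eq_zero_or_pos e with h9 | h9
  · rw [h9, pow_zero] at h8
    have h10 : p ∣ 2 := by
      have : 2 = p ^ (1 + d) := h8
      rw [this, pow_add, pow_one]; exact dvd_mul_right _ _
    have h11 : p = 2 := (Nat.prime_dvd_prime_iff_eq hp Nat.prime_two).1 h10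
    exact ⟨h11, by rw [h6, ← h8]⟩
  · exfalso
    have h10 : p ∣ p ^ e + 1 := by rw [h8, pow_add, pow_one]; exact dvd_mul_right _ _
    have h11 : p ∣ 1 := (Nat.dvd_add_right (dvd_pow_self p h9.ne')).1 h10
    exact hp.one_lt.ne' (Nat.dvd_one.1 h11)

end Cfsg.Agent.S4013
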