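import Cfsg.Statements.S4014
import Mathlib
import Cfsg.Agent.Lib.Nilp

set_option autoImplicit false
open Cfsg

namespace Cfsg.Agent.S4014

open Subgroup

theorem derived_succ_le {G : Type*} [Group G] (M : Subgroup G) (hM : commutator G ≤ M) (j : ℕ) :
    derivedSeries G (j + 1) ≤ (derivedSeries M j).map M.subtype := by
  induction j with
  | zero =>
    rw [Nat.zero_add, derivedSeries_one, derivedSeries_zero]
    intro x hx
    exact ⟨⟨x, hM hx⟩, mem_top _, rfl⟩
  | succ j ih =>
    rw [derivedSeries_succ G (j + 1), derivedSeries_succ M j, map_commutator]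
    exact commutator_mono ih ih

theorem derived_le_of_index {p : ℕ} [hp : Fact p.Prime] (j : ℕ) : ∀ (P : Type) [Group P] [Finite P], IsPGroup p P →
    ∀ H : Subgroup P, H.index = p ^ j → derivedSeries P j ≤ H := by
  induction j with
  | zero =>
    intro P _ _ _ H hH
    rw [pow_zero, index_eq_one] at hH
    rw [hH]; exact le_top
  | succ j ih =>
    intro P _ _ hP H hH
    have hne : H ≠ ⊤ := by
      rintro rfl
      rw [index_top] at hH
      exact (Nat.one_lt_pow (by omega) hp.out.one_lt).ne hH
    obtain ⟨M, hM, hHM⟩ := (eq_top_or_exists_le_coatom H).resolve_left hne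
    have hMi := Cfsg.Agent.Lib.Nilp.index_eq_prime_of_coatom hP hM
    haveI hMn : M.Normal := by
      haveI := hP.isNilpotent
      exact Cfsg.Agent.Lib.Nilp.coatom_normal_of_nilpotent hM
    have hcom : commutator P ≤ M := by
      haveI : IsCyclic (P ⧸ M) := isCyclic_of_prime_card (p := p) (by rw [← index_eq_card]; exact hMi)
      rw [_root_.commutator_def, commutator_le]
      intro a _ b _
      rw [← QuotientGroup.eq_one_iff]
      have h1 : (QuotientGroup.mk a : P ⧸ M) * QuotientGroup.mk b = QuotientGroup.mk b * QuotientGroup.mk a :=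
        IsCyclic.isMulCommutative.is_comm.comm _ _
      have h2 := commutatorElement_eq_one_iff_mul_comm.mpr h1
      exact h2
    have h1 : (H.subgroupOf M).index = p ^ j := by
      have h2 := relIndex_mul_index hHM
      rw [hMi, hH, pow_succ] at h2
      exact Nat.eq_of_mul_eq_mul_right hp.out.pos h2
    have h2 := ih M (hP.to_subgroup M) (H.subgroupOf M) h1
    refine (derived_succ_le M hcom j).trans ?_
    rintro _ ⟨x, hx, rfl⟩
    exact h2 hx

theorem wreath_derived {D Q : Type} [Group D] [Group Q] {q : Q} (hq : q ≠ 1) (j : ℕ) (h : derivedSeries D j ≠ ⊥) :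
    derivedSeries (RegularWreathProduct D Q) (j + 1) ≠ ⊥ := by
  classical
  let B : Subgroup (RegularWreathProduct D Q) := (RegularWreathProduct.rightHom : RegularWreathProduct D Q →* Q).ker
  have hB : ∀ b : B, (b : RegularWreathProduct D Q).right = 1 := fun b => b.2
  let ev : B →* D :=
    { toFun := fun w => (w : RegularWreathProduct D Q).left 1
      map_one' := rfl
      map_mul' := by
        intro a b
        change ((a : RegularWreathProduct D Q) * (b : RegularWreathProduct D Q)).left 1 = _
        rw [RegularWreathProduct.mul_left, hB a, inv_one]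
        simp }
  have key : ∀ j, derivedSeries D j ≤ ((derivedSeries (RegularWreathProduct D Q) (j + 1)).subgroupOf B).map ev := by
    intro j
    induction j with
    | zero =>
      intro d _
      let f : Q → D := Pi.mulSingle 1 d
      let w1 : RegularWreathProduct D Q := ⟨f, 1⟩
      let w2 : RegularWreathProduct D Q := ⟨1, q⟩
      have h1 : (w1 * w2 * w1⁻¹ * w2⁻¹).right = 1 := by
        simp [w1, w2]
      have h2 : (w1 * w2 * w1⁻¹ * w2⁻¹).left 1 = d := by
        simp [w1, w2, f, RegularWreathProduct.mul_left, RegularWreathProduct.inv_left]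
        exact Pi.mulSingle_eq_of_ne (M := fun _ : Q => D) (inv_ne_one.mpr hq) d
      have h3 : w1 * w2 * w1⁻¹ * w2⁻¹ ∈ derivedSeries (RegularWreathProduct D Q) (0 + 1) := by
        rw [Nat.zero_add, derivedSeries_one]
        exact commutator_mem_commutator (mem_top _) (mem_top _)
      exact ⟨⟨_, h1⟩, mem_subgroupOf.mpr h3, h2⟩
    | succ j ih =>
      rw [derivedSeries_succ]
      refine (commutator_mono ih ih).trans ?_
      rw [← map_commutator]
      apply map_mono
      rw [commutator_le]
      intro a ha b hb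
      rw [mem_subgroupOf] at ha hb ⊢
      rw [derivedSeries_succ]
      exact commutator_mem_commutator ha hb
  intro h0
  apply h
  rw [eq_bot_iff]
  refine (key j).trans ?_
  rw [h0]
  rintro _ ⟨x, hx, rfl⟩
  have : x = 1 := Subtype.ext (mem_bot.mp (mem_subgroupOf.mp hx))
  rw [this, map_one]
  exact one_mem _

theorem exists_wreath (p : ℕ) [hp : Fact p.Prime] (k : ℕ) : ∃ (W : Type) (_ : Group W) (_ : Finite W) (Λ : Type) (_ : Finite Λ)
    (f : W →* Equiv.Perm Λ), Function.Injective f ∧ Nat.card Λ = p ^ (k + 1) ∧ IsPGroup p W ∧ derivedSeries W k ≠ ⊥ := by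
  induction k with
  | zero =>
    haveI : NeZero p := ⟨hp.out.ne_zero⟩
    refine ⟨Multiplicative (ZMod p), inferInstance, inferInstance, Multiplicative (ZMod p), inferInstance,
      MulAction.toPermHom _ _, MulAction.toPerm_injective, by simp, ?_, ?_⟩
    · apply IsPGroup.of_card (n := 1)
      simp
    · rw [derivedSeries_zero]
      haveI : Nontrivial (Multiplicative (ZMod p)) := by
        haveI := Fact.mk hp.out.one_lt
        infer_instance
      exact top_ne_bot
  | succ k ih =>
    obtain ⟨W, _, _, Λ, _, f, hf, hΛ, hW, hd⟩ := ih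
    haveI : NeZero p := ⟨hp.out.ne_zero⟩
    letI : MulAction W Λ := MulAction.compHom Λ f
    haveI : FaithfulSMul W Λ := ⟨fun h => hf (Equiv.ext h)⟩
    haveI : Nonempty Λ := (Nat.card_pos_iff.mp (by rw [hΛ]; exact pow_pos hp.out.pos _)).1
    refine ⟨RegularWreathProduct W (Multiplicative (ZMod p)), inferInstance, inferInstance, Λ × Multiplicative (ZMod p), inferInstance,
      RegularWreathProduct.toPerm W (Multiplicative (ZMod p)) Λ, RegularWreathProduct.toPermInj _ _ _, ?_, ?_, ?_⟩
    · rw [Nat.card_prod, hΛ]
      simp [pow_succ]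
    · obtain ⟨m, hm⟩ := IsPGroup.iff_card.mp hW
      apply IsPGroup.of_card (n := m * p + 1)
      rw [RegularWreathProduct.card, hm]
      simp [pow_succ, pow_mul]
    · apply wreath_derived (q := Multiplicative.ofAdd (1 : ZMod p)) ?_ k hd
      haveI := Fact.mk hp.out.one_lt
      intro h
      exact one_ne_zero (α := ZMod p) (Multiplicative.ofAdd.injective h)

/-- Let p be a prime, n ≥ 1, and P a Sylow p-subgroup of the symmetric group on n letters. Then the derived length of P is exactly k = ⌊log_p n⌋ (the largest k with p^k ≤ n): the k-th derived subgroup of P is trivial and, when k ≥ 1, the (k−1)-st is not. -/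
theorem result (p : ℕ) [Fact p.Prime] (n : ℕ) (hn : 1 ≤ n) (P : Sylow p (Equiv.Perm (Fin n))) : derivedSeries ↥(P : Subgroup (Equiv.Perm (Fin n))) (Nat.log p n) = ⊥ ∧ (1 ≤ Nat.log p n → derivedSeries ↥(P : Subgroup (Equiv.Perm (Fin n))) (Nat.log p n - 1) ≠ ⊥) := by
  classical
  have hP := P.isPGroup'
  constructor
  · rw [eq_bot_iff]
    intro x hx
    rw [mem_bot]
    apply Subtype.ext
    apply Equiv.ext
    intro i
    -- the stabilizer of `i`
    let S : Subgroup (P : Subgroup (Equiv.Perm (Fin n))) := MulAction.stabilizer _ i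
    obtain ⟨j, hj⟩ := (hP.index S)
    have hjn : p ^ j ≤ n := by
      rw [← hj]
      have h1 : S.index = Nat.card (MulAction.orbit (P : Subgroup (Equiv.Perm (Fin n))) i) := MulAction.index_stabilizer _ i
      rw [h1]
      calc Nat.card (MulAction.orbit (P : Subgroup (Equiv.Perm (Fin n))) i) ≤ Nat.card (Fin n) := Nat.card_le_card_of_injective Subtype.val Subtype.val_injective
        _ = n := Nat.card_fin n
    have hjl : j ≤ Nat.log p n := (Nat.le_log_iff_pow_le (Fact.out : p.Prime).one_lt (by omega)).mpr hjn
    have h2 := derived_le_of_index j (P : Subgroup (Equiv.Perm (Fin n))) hP S hj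
    exact h2 (derivedSeries_antitone _ hjl hx)
  · intro hk
    obtain ⟨W, _, _, Λ, _, f, hf, hΛ, hW, hd⟩ := exists_wreath p (Nat.log p n - 1)
    rw [Nat.sub_add_cancel hk] at hΛ
    have hle : p ^ Nat.log p n ≤ n := Nat.pow_log_le_self p (by omega)
    -- embed `Λ` in `Fin n`
    obtain ⟨e⟩ : Nonempty (Λ ↪ Fin n) := by
      cases nonempty_fintype Λ
      apply Function.Embedding.nonempty_of_card_le
      rw [← Nat.card_eq_fintype_card, hΛ, Fintype.card_fin]
      exact hle
    let g : W →* Equiv.Perm (Fin n) := (Equiv.Perm.viaEmbeddingHom e).comp f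
    have hg : Function.Injective g := (Equiv.Perm.viaEmbeddingHom_injective e).comp hf
    have hgp : IsPGroup p g.range := by
      exact hW.of_surjective g.rangeRestrict g.rangeRestrict_surjective
    obtain ⟨Q, hQ⟩ := hgp.exists_le_sylow
    intro h0
    apply hd
    -- `P ≃ Q`
    let e2 := P.equiv Q
    have h1 : derivedSeries (Q : Subgroup (Equiv.Perm (Fin n))) (Nat.log p n - 1) = ⊥ := by
      rw [← map_derivedSeries_eq (f := e2.toMonoidHom) e2.surjective, h0, Subgroup.map_bot]
    let g2 : W →* (Q : Subgroup (Equiv.Perm (Fin n))) := g.codRestrict _ (fun w => hQ ⟨w, rfl⟩)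
    rw [eq_bot_iff]
    intro w hw
    have h2 := map_derivedSeries_le_derivedSeries g2 (Nat.log p n - 1) (mem_map_of_mem _ hw)
    rw [h1, mem_bot] at h2
    rw [mem_bot]
    exact hg ((congrArg Subtype.val h2).trans (map_one g).symm)

end Cfsg.Agent.S4014
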