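import Cfsg.Statements.S4027
import Cfsg.Agent.H2.RealElt

set_option autoImplicit false
open Cfsg

namespace Cfsg.Agent.S4027

/-- Let G be a finite group in which every element x of odd order satisfies N_G(⟨x⟩) = C_G(x). Then the Sylow 2-subgroups of G are normal. -/
theorem result {G : Type*} [Group G] [Finite G]
    (hirr : ∀ x : G, (∀ r : ℕ, r.Prime → r ∣ orderOf x → r ≠ 2) →
      Subgroup.normalizer ((Subgroup.zpowers x : Subgroup G) : Set G) ≤ Subgroup.centralizer {x}) (P : Sylow 2 G) :
    (P : Subgroup G).Normal := by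
  apply Cfsg.Agent.H2.RealElt.sylow_two_normal
  intro x hx1 hodd hconj
  obtain ⟨c, hc⟩ := isConj_iff.mp hconj
  have h1 := hirr x (by
    rintro r hr hd rfl
    have := Odd.of_dvd_nat hodd hd
    exact absurd this (by decide))
  have hc1 : c ∈ Subgroup.normalizer ((Subgroup.zpowers x : Subgroup G) : Set G) := by
    rw [Subgroup.mem_normalizer_iff]
    have key : ∀ y : G, y ∈ Subgroup.zpowers x → c * y * c⁻¹ ∈ Subgroup.zpowers x := by
      rintro _ ⟨j, rfl⟩
      change c * x ^ j * c⁻¹ ∈ _
      rw [← conj_zpow, hc]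
      exact zpow_mem (inv_mem (Subgroup.mem_zpowers x)) j
    have key2 : ∀ y : G, y ∈ Subgroup.zpowers x → c⁻¹ * y * c ∈ Subgroup.zpowers x := by
      rintro _ ⟨j, rfl⟩
      change c⁻¹ * x ^ j * c ∈ _
      have h2 : c⁻¹ * x * c = x⁻¹ := by
        have : x = c⁻¹ * (c * x * c⁻¹) * c := by group
        rw [hc] at this
        have h3 : x⁻¹ = c⁻¹ * x * c := by
          nth_rewrite 1 [this]
          group
        exact h3.symm
      have h3 : c⁻¹ * x ^ j * c = (c⁻¹ * x * c) ^ j := by
        have := conj_zpow (a := c⁻¹) (b := x) (i := j)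
        rw [inv_inv] at this
        exact this.symm
      rw [h3, h2]
      exact zpow_mem (inv_mem (Subgroup.mem_zpowers x)) j
    intro y
    constructor
    · exact key y
    · intro hy
      have := key2 _ hy
      have e : c⁻¹ * (c * y * c⁻¹) * c = y := by group
      rwa [e] at this
  have h2 := Subgroup.mem_centralizer_singleton_iff.mp (h1 hc1)
  rw [h2, mul_inv_cancel_right] at hc
  apply hx1
  apply Cfsg.Agent.H2.RealElt.eq_one_of_sq_odd _ hodd
  rw [sq]
  nth_rewrite 1 [hc]
  exact inv_mul_cancel x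

end Cfsg.Agent.S4027
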