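import Cfsg.Statements.S4028
import Cfsg.Agent.H2.Metac
import Cfsg.Agent.Lib.BlockPP
import Cfsg.Agent.Lib.SchurZas

set_option autoImplicit false
open Cfsg

namespace Cfsg.Agent.S4028

open Subgroup Cfsg.Agent.Lib.BlockPP
open scoped Pointwise

/-- an element of odd order normalizing a cyclic `2`-group centralizes it -/
theorem odd_centralizes {G : Type*} [Group G] [Finite G] {x n : G} {k : ℕ} (hx : orderOf x = 2 ^ k)
    (hn : Odd (orderOf n)) (h : n * x * n⁻¹ ∈ zpowers x) : n * x * n⁻¹ = x := by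
  obtain ⟨R, hR⟩ := (isOfFinOrder_of_finite x).mem_powers_iff_mem_zpowers.mpr h
  have hR' : n * x * n⁻¹ = x ^ R := hR.symm
  rcases Nat.eq_zero_or_pos k with rfl | hk
  · rw [pow_zero, orderOf_eq_one_iff] at hx
    rw [hx]; group
  -- `R` is odd
  have hRc : Nat.Coprime R (2 ^ k) := by
    have h1 : orderOf (x ^ R) = 2 ^ k := by
      rw [← hR', ← hx]
      exact orderOf_injective (MulAut.conj n).toMonoidHom (MulAut.conj n).injective x
    by_contra hne
    have h2 : 2 ∣ R := by
      by_contra h3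
      exact hne (Nat.Coprime.pow_right k (Nat.coprime_two_right.mpr (Nat.odd_iff.mpr (by omega))))
    obtain ⟨t, rfl⟩ := h2
    have h3 : (x ^ (2 * t)) ^ (2 ^ (k - 1)) = 1 := by
      rw [← pow_mul, show 2 * t * 2 ^ (k - 1) = 2 ^ k * t by
        have : 2 ^ k = 2 * 2 ^ (k - 1) := by rw [← pow_succ']; congr 1; omega
        rw [this]; ring, pow_mul, ← hx, pow_orderOf_eq_one, one_pow]
    have h4 := orderOf_dvd_of_pow_eq_one h3
    rw [h1] at h4
    have := (Nat.pow_dvd_pow_iff_le_right (by norm_num : 1 < 2)).mp h4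
    omega
  have h1 : ∀ j : ℕ, n ^ j * x * (n ^ j)⁻¹ = x ^ (R ^ j) := by
    intro j
    induction j with
    | zero => simp
    | succ j ih =>
      have h2 : n ^ (j + 1) * x * (n ^ (j + 1))⁻¹ = n * (n ^ j * x * (n ^ j)⁻¹) * n⁻¹ := by
        rw [pow_succ']; group
      rw [h2, ih, ← conj_pow, hR', ← pow_mul, pow_succ']
  have h2 := h1 (orderOf n)
  rw [pow_orderOf_eq_one, one_mul, inv_one, mul_one] at h2
  have h3 : R ^ orderOf n ≡ 1 [MOD 2 ^ k] := by
    rw [← hx, ← pow_eq_pow_iff_modEq, pow_one]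
    exact h2.symm
  -- in the unit group
  let u : (ZMod (2 ^ k))ˣ := ZMod.unitOfCoprime R hRc
  have hu1 : u ^ orderOf n = 1 := by
    apply Units.ext
    rw [Units.val_pow_eq_pow_val, ZMod.coe_unitOfCoprime, Units.val_one]
    have := (ZMod.natCast_eq_natCast_iff _ _ _).mpr h3
    push_cast at this
    exact this
  have hu2 : u ^ (Nat.card (ZMod (2 ^ k))ˣ) = 1 := pow_card_eq_one'
  have hcard : Nat.card (ZMod (2 ^ k))ˣ = 2 ^ (k - 1) := by
    have : NeZero (2 ^ k) := ⟨by positivity⟩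
    rw [Nat.card_eq_fintype_card, ZMod.card_units_eq_totient, Nat.totient_prime_pow Nat.prime_two hk]
    norm_num
  rw [hcard] at hu2
  have hu : u = 1 := by
    rw [← orderOf_eq_one_iff]
    exact Nat.eq_one_of_dvd_coprimes (Nat.Coprime.pow_left (k - 1) (Nat.coprime_two_left.mpr hn))
      (orderOf_dvd_of_pow_eq_one hu2) (orderOf_dvd_of_pow_eq_one hu1)
  have hR1 : R ≡ 1 [MOD 2 ^ k] := by
    rw [← ZMod.natCast_eq_natCast_iff]
    have := congrArg (fun v : (ZMod (2 ^ k))ˣ => (v : ZMod (2 ^ k))) hu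
    simpa [u] using this
  rw [hR']
  conv_rhs => rw [← pow_one x]
  rw [pow_eq_pow_iff_modEq, hx]
  exact hR1

/-- Let G be a finite group with Sylow 2-subgroup P. Then N_G(⟨x⟩) = C_G(x) holds for every 2-element x of G if and only if N_P(⟨y⟩) = C_P(y) holds for every y ∈ P (computed inside P). -/
theorem result {G : Type*} [Group G] [Finite G] (P : Sylow 2 G) :
    (∀ x : G, (∀ r : ℕ, r.Prime → r ∣ orderOf x → r = 2) →
      Subgroup.normalizer ((Subgroup.zpowers x : Subgroup G) : Set G) ≤ Subgroup.centralizer {x}) ↔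
    (∀ y : ↥(P : Subgroup G), Subgroup.normalizer ((Subgroup.zpowers y : Subgroup ↥(P : Subgroup G)) : Set ↥(P : Subgroup G)) ≤
        Subgroup.centralizer {y}) := by
  constructor
  · intro h y n hn
    have h1 : (n : G) ∈ normalizer ((zpowers (y : G) : Subgroup G) : Set G) := by
      rw [mem_normalizer_iff] at hn ⊢
      intro w
      have hiff : ∀ v : (P : Subgroup G), v ∈ zpowers y ↔ (v : G) ∈ zpowers (y : G) := by
        intro v
        constructor
        · rintro ⟨j, hj⟩
          exact ⟨j, congrArg Subtype.val hj⟩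
        · rintro ⟨j, hj⟩
          exact ⟨j, Subtype.ext hj⟩
      have hyP : ∀ w : G, w ∈ zpowers (y : G) → w ∈ (P : Subgroup G) := fun w hw =>
        (zpowers_le.mpr y.2) hw
      constructor
      · intro hw
        have := (hn ⟨w, hyP w hw⟩).mp ((hiff _).mpr hw)
        exact (hiff _).mp this
      · intro hw
        have hwP : w ∈ (P : Subgroup G) := by
          have h2 := hyP _ hw
          have h3 := mul_mem (mul_mem (inv_mem n.2) h2) n.2
          have e : (n : G)⁻¹ * ((n : G) * w * (n : G)⁻¹) * n = w := by group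
          rwa [e] at h3
        have := (hn ⟨w, hwP⟩).mpr ((hiff _).mpr hw)
        exact (hiff _).mp this
    have h2 := h (y : G) (by
      intro r hr hd
      obtain ⟨k, hk⟩ := (IsPGroup.iff_orderOf.mp P.isPGroup') y
      rw [orderOf_coe, hk] at hd
      exact (Nat.prime_dvd_prime_iff_eq hr Nat.prime_two).mp (hr.dvd_of_dvd_pow hd)) h1
    rw [mem_centralizer_singleton_iff] at h2 ⊢
    exact Subtype.ext h2
  · intro h x hx n hn
    have hx2 : ∃ k, orderOf x = 2 ^ k :=
      ⟨_, Nat.eq_prime_pow_of_unique_prime_dvd (orderOf_pos x).ne' (fun {d} hd hdx => hx d hd hdx)⟩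
    obtain ⟨k, hk⟩ := hx2
    have hmem : ∀ m : G, m ∈ zpowers n → m * x * m⁻¹ ∈ zpowers x := by
      intro m hm
      have : m ∈ normalizer ((zpowers x : Subgroup G) : Set G) := (zpowers_le.mpr hn) hm
      exact (mem_normalizer_iff.mp this x).mp (mem_zpowers x)
    have hodd : Odd (orderOf (pq 2 n)) := by
      rw [← Nat.not_even_iff_odd, even_iff_two_dvd]
      exact not_dvd_orderOf_pq Nat.prime_two n
    have hppz : pp 2 n ∈ zpowers n := by unfold pp; exact pow_mem (mem_zpowers n) _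
    have hpqz : pq 2 n ∈ zpowers n := by
      unfold pq; exact mul_mem (inv_mem hppz) (mem_zpowers n)
    have h1 : pq 2 n * x * (pq 2 n)⁻¹ = x := odd_centralizes hk hodd (hmem _ hpqz)
    have h2 : pp 2 n * x * (pp 2 n)⁻¹ = x := by
      -- inside a Sylow subgroup
      have hp1 : IsPGroup 2 (zpowers x) := (isPGroup_zpowers_iff Nat.prime_two x).mpr ⟨k, hk⟩
      have hp2 : IsPGroup 2 (zpowers (pp 2 n)) :=
        (isPGroup_zpowers_iff Nat.prime_two _).mpr (exists_orderOf_pp Nat.prime_two n)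
      have hnn : zpowers (pp 2 n) ≤ normalizer ((zpowers x : Subgroup G) : Set G) :=
        (zpowers_le.mpr ((zpowers_le.mpr hn) hppz))
      obtain ⟨Q, hQ⟩ := (hp1.to_sup_of_normal_left' hp2 hnn).exists_le_sylow
      obtain ⟨c, hc⟩ := MulAction.exists_smul_eq G P Q
      have hQ' : ∀ y, y ∈ (Q : Subgroup G) → c⁻¹ * y * c ∈ (P : Subgroup G) := by
        intro y hy
        rw [← hc, Sylow.coe_subgroup_smul, Cfsg.Agent.Lib.SchurZas.mem_conj_smul_iff] at hy
        exact hy
      have hxP : c⁻¹ * x * c ∈ (P : Subgroup G) := hQ' _ (hQ (mem_sup_left (mem_zpowers x)))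
      have hmP : c⁻¹ * pp 2 n * c ∈ (P : Subgroup G) := hQ' _ (hQ (mem_sup_right (mem_zpowers _)))
      have h3 : (⟨c⁻¹ * pp 2 n * c, hmP⟩ : (P : Subgroup G)) ∈
          normalizer ((zpowers (⟨c⁻¹ * x * c, hxP⟩ : (P : Subgroup G)) : Subgroup (P : Subgroup G)) :
            Set (P : Subgroup G)) := by
        have hconj : ∀ (i : ℤ), (c⁻¹ * x * c) ^ i = c⁻¹ * x ^ i * c := by
          intro i
          have := conj_zpow (a := c⁻¹) (b := x) (i := i)
          rw [inv_inv] at this
          exact this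
        have hle : ∀ w : (P : Subgroup G), w ∈ zpowers (⟨c⁻¹ * x * c, hxP⟩ : (P : Subgroup G)) →
            (⟨c⁻¹ * pp 2 n * c, hmP⟩ : (P : Subgroup G)) * w * (⟨c⁻¹ * pp 2 n * c, hmP⟩)⁻¹ ∈
            zpowers (⟨c⁻¹ * x * c, hxP⟩ : (P : Subgroup G)) := by
          rintro _ ⟨i, rfl⟩
          have hm := (mem_normalizer_iff.mp (hnn (mem_zpowers _)) (x ^ i)).mp ⟨i, rfl⟩
          obtain ⟨j, hj⟩ := hm
          have hj' : x ^ j = pp 2 n * x ^ i * (pp 2 n)⁻¹ := hj
          refine ⟨j, Subtype.ext ?_⟩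
          change (c⁻¹ * x * c) ^ j = (c⁻¹ * pp 2 n * c) * (c⁻¹ * x * c) ^ i * (c⁻¹ * pp 2 n * c)⁻¹
          rw [hconj, hconj, hj']
          group
        have hmap : (zpowers (⟨c⁻¹ * x * c, hxP⟩ : (P : Subgroup G))).map
            (MulAut.conj (⟨c⁻¹ * pp 2 n * c, hmP⟩ : (P : Subgroup G))).toMonoidHom =
            zpowers (⟨c⁻¹ * x * c, hxP⟩ : (P : Subgroup G)) := by
          apply Subgroup.eq_of_le_of_card_ge
          · rintro _ ⟨z, hz, rfl⟩
            exact hle z hz
          · rw [card_map_of_injective (MulAut.conj _).injective]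
        rw [mem_normalizer_iff]
        intro z
        constructor
        · exact hle z
        · intro hz
          rw [← hmap] at hz
          obtain ⟨w, hw, hwz⟩ := hz
          have : (⟨c⁻¹ * pp 2 n * c, hmP⟩ : (P : Subgroup G)) * w * (⟨c⁻¹ * pp 2 n * c, hmP⟩)⁻¹ =
            (⟨c⁻¹ * pp 2 n * c, hmP⟩ : (P : Subgroup G)) * z * (⟨c⁻¹ * pp 2 n * c, hmP⟩)⁻¹ := hwz
          have hwz' := mul_left_cancel (mul_right_cancel this)
          rwa [← hwz']
      have h4 := mem_centralizer_singleton_iff.mp (h _ h3)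
      have h5 : (c⁻¹ * pp 2 n * c) * (c⁻¹ * x * c) = (c⁻¹ * x * c) * (c⁻¹ * pp 2 n * c) :=
        congrArg Subtype.val h4
      have h6 : pp 2 n * x = x * pp 2 n := by
        calc pp 2 n * x = c * ((c⁻¹ * pp 2 n * c) * (c⁻¹ * x * c)) * c⁻¹ := by group
          _ = c * ((c⁻¹ * x * c) * (c⁻¹ * pp 2 n * c)) * c⁻¹ := by rw [h5]
          _ = x * pp 2 n := by group
      rw [h6, mul_inv_cancel_right]
    rw [mem_centralizer_singleton_iff]
    have h7 : pp 2 n * x = x * pp 2 n := mul_inv_eq_iff_eq_mul.mp h2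
    have h8 : pq 2 n * x = x * pq 2 n := mul_inv_eq_iff_eq_mul.mp h1
    have h9 : Commute (pp 2 n * pq 2 n) x := Commute.mul_left h7 h8
    rw [pp_mul_pq] at h9
    exact h9.eq

end Cfsg.Agent.S4028
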