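import Cfsg.Statements.S4029
import Mathlib
import Cfsg.Agent.Lib.CharTable
import Cfsg.Agent.Lib.CharLin
import Cfsg.Agent.Lib.Nilp

set_option autoImplicit false
open Cfsg

namespace Cfsg.Agent.S4029

open Subgroup Cfsg.Agent.Lib.CharBasic Cfsg.Agent.Lib.CharLin

theorem pow_two_eq {P : Type*} [Group P] [Finite P] (hP : IsPGroup 2 P) (g : P ⧸ frattini P) : g * g = 1 := by
  obtain ⟨x, rfl⟩ := QuotientGroup.mk_surjective g
  have := Cfsg.Agent.Lib.Nilp.pow_mem_frattini (p := 2) hP x
  rw [← QuotientGroup.eq_one_iff, QuotientGroup.mk_pow, pow_two] at this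
  exact this

/-- characters of `P / Φ(P)` as real irreducible characters -/
noncomputable def toReal {P : Type*} [Group P] [Finite P] (hP : IsPGroup 2 P) (l : (P ⧸ frattini P) →* ℂˣ) :
    {χ : IrrCharacter P // ∀ g : P, (χ.1 g).im = 0} :=
  ⟨⟨linFn (l.comp (QuotientGroup.mk' (frattini P))), linFn_isIrr _⟩, by
    intro g
    show ((l (QuotientGroup.mk' (frattini P) g) : ℂˣ) : ℂ).im = 0
    have h1 : l (QuotientGroup.mk' (frattini P) g) * l (QuotientGroup.mk' (frattini P) g) = 1 := by
      rw [← map_mul, pow_two_eq hP, map_one]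
    have h2 : ((l (QuotientGroup.mk' (frattini P) g) : ℂˣ) : ℂ) * (l (QuotientGroup.mk' (frattini P) g) : ℂˣ) = 1 := by
      rw [← Units.val_mul, h1, Units.val_one]
    rcases mul_self_eq_one_iff.1 h2 with h | h <;> rw [h] <;> simp⟩

theorem toReal_injective {P : Type*} [Group P] [Finite P] (hP : IsPGroup 2 P) :
    Function.Injective (toReal hP) := by
  intro a b hab
  have h1 : linFn (a.comp (QuotientGroup.mk' (frattini P))) = linFn (b.comp (QuotientGroup.mk' (frattini P))) :=
    congrArg (fun x => x.1.1) hab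
  have h2 := linFn_injective h1
  ext x
  exact congrArg Units.val (DFunLike.congr_fun h2 x)

theorem first {P : Type*} [Group P] [Finite P] (hP : IsPGroup 2 P)
    (hirr : ∀ y : P, Subgroup.normalizer ((Subgroup.zpowers y : Subgroup P) : Set P) ≤ Subgroup.centralizer {y}) :
    Nat.card (P ⧸ frattini P) ≤ Nat.card {c : ConjClasses P // ∃ y : P, ConjClasses.mk y = c ∧ orderOf y = 2} + 1 := by
  classical
  haveI : Fintype P := Fintype.ofFinite P
  have hc : commutator (P ⧸ frattini P) = ⊥ := by
    rw [commutator_eq_bot_iff_center_eq_top, eq_top_iff]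
    intro x _
    rw [mem_center_iff]
    intro y
    have h1 := pow_two_eq hP (y * x)
    have h2 := pow_two_eq hP y
    have h3 := pow_two_eq hP x
    calc y * x = (y * x)⁻¹ := (inv_eq_of_mul_eq_one_left h1).symm
      _ = x⁻¹ * y⁻¹ := by group
      _ = x * y := by rw [inv_eq_of_mul_eq_one_left h2, inv_eq_of_mul_eq_one_left h3]
  have h1 : Nat.card (P ⧸ frattini P) = Nat.card ((P ⧸ frattini P) →* ℂˣ) := by
    rw [card_hom_units, hc, index_bot]
  rw [h1]
  refine (Nat.card_le_card_of_injective _ (toReal_injective hP)).trans ?_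
  rw [Cfsg.Agent.Lib.CharTable.card_real_irr]
  -- real classes
  let f : {C : ConjClasses P // ∀ g : P, ConjClasses.mk g = C → IsConj g g⁻¹} →
      Option {c : ConjClasses P // ∃ y : P, ConjClasses.mk y = c ∧ orderOf y = 2} := fun C =>
    if h : ∃ y : P, ConjClasses.mk y = C.1 ∧ orderOf y = 2 then some ⟨C.1, h⟩ else none
  have hf : Function.Injective f := by
    have key : ∀ C : {C : ConjClasses P // ∀ g : P, ConjClasses.mk g = C → IsConj g g⁻¹},
        (¬ ∃ y : P, ConjClasses.mk y = C.1 ∧ orderOf y = 2) → C.1 = 1 := by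
      rintro ⟨C, hC⟩ hno
      obtain ⟨g, rfl⟩ := ConjClasses.mk_surjective C
      have h2 := hC g rfl
      rw [isConj_iff] at h2
      obtain ⟨c, hc⟩ := h2
      have h3 : c ∈ normalizer ((zpowers g : Subgroup P) : Set P) := by
        rw [mem_normalizer_iff]
        intro h
        constructor
        · rintro ⟨k, rfl⟩
          refine ⟨-k, ?_⟩
          show g ^ (-k) = c * g ^ k * c⁻¹
          rw [← conj_zpow, hc, inv_zpow, zpow_neg]
        · rintro ⟨k, hk⟩
          refine ⟨-k, ?_⟩
          show g ^ (-k) = h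
          have h4 : g ^ k = c * h * c⁻¹ := hk
          have h5 : h = c⁻¹ * g ^ k * c := by rw [h4]; group
          have h6 : c⁻¹ * g * c = g⁻¹ := by
            have h7 : g = c⁻¹ * g⁻¹ * c := by rw [← hc]; group
            calc c⁻¹ * g * c = (c⁻¹ * g⁻¹ * c)⁻¹ := by group
              _ = g⁻¹ := by rw [← h7]
          have h7 : (c⁻¹ * g * c⁻¹⁻¹) ^ k = c⁻¹ * g ^ k * c⁻¹⁻¹ := conj_zpow
          rw [inv_inv, h6, inv_zpow] at h7
          rw [h5, zpow_neg, h7]
      have h4 := mem_centralizer_singleton_iff.1 (hirr g h3)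
      have h5 : g⁻¹ = g := by rw [← hc, h4]; group
      have h6 : g * g = 1 := by rw [← h5]; nth_rewrite 1 [h5]; exact mul_inv_cancel g
      by_contra hne
      apply hno
      refine ⟨g, rfl, ?_⟩
      rw [orderOf_eq_iff (by norm_num)]
      refine ⟨by rw [pow_two]; exact h6, ?_⟩
      intro m hm hm0
      have : m = 1 := by omega
      rw [this, pow_one]
      rintro rfl
      exact hne rfl
    intro C D hCD
    by_cases h2 : ∃ y : P, ConjClasses.mk y = C.1 ∧ orderOf y = 2
    · by_cases h3 : ∃ y : P, ConjClasses.mk y = D.1 ∧ orderOf y = 2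
      · simp only [f, dif_pos h2, dif_pos h3, Option.some.injEq, Subtype.mk.injEq] at hCD
        exact Subtype.ext hCD
      · simp only [f, dif_pos h2, dif_neg h3] at hCD
        exact absurd hCD (by simp)
    · by_cases h3 : ∃ y : P, ConjClasses.mk y = D.1 ∧ orderOf y = 2
      · simp only [f, dif_neg h2, dif_pos h3] at hCD
        exact absurd hCD (by simp)
      · exact Subtype.ext ((key C h2).trans (key D h3).symm)
  refine (Nat.card_le_card_of_injective f hf).trans ?_
  rw [Finite.card_option]

/-- Let P be a finite 2-group in which N_P(⟨y⟩) = C_P(y) for every y ∈ P. If s is the number of conjugacy classes of involutions of P, then #(P/Φ(P)) ≤ s + 1; in particular the subgroup generated by the involutions of P has order at least #(P/Φ(P)). -/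
theorem result {P : Type*} [Group P] [Finite P] (hP : IsPGroup 2 P)
    (hirr : ∀ y : P, Subgroup.normalizer ((Subgroup.zpowers y : Subgroup P) : Set P) ≤ Subgroup.centralizer {y}) :
    Nat.card (P ⧸ frattini P) ≤ Nat.card {c : ConjClasses P // ∃ y : P, ConjClasses.mk y = c ∧ orderOf y = 2} + 1 ∧
    Nat.card (P ⧸ frattini P) ≤ Nat.card (Subgroup.closure {y : P | orderOf y = 2}) := by
  refine ⟨first hP hirr, (first hP hirr).trans ?_⟩
  classical
  have hch : ∀ c : {c : ConjClasses P // ∃ y : P, ConjClasses.mk y = c ∧ orderOf y = 2},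
    ∃ y : P, ConjClasses.mk y = c.1 ∧ orderOf y = 2 := fun c => c.2
  choose y hy hy2 using hch
  rw [← Finite.card_option]
  let f : Option {c : ConjClasses P // ∃ y : P, ConjClasses.mk y = c ∧ orderOf y = 2} →
      Subgroup.closure {y : P | orderOf y = 2} := fun o => match o with
    | none => 1
    | some c => ⟨y c, Subgroup.subset_closure (hy2 c)⟩
  apply Nat.card_le_card_of_injective f
  intro a b hab
  rcases a with _ | a <;> rcases b with _ | b
  · rfl
  · exfalso
    have h1 : (1 : P) = y b := congrArg Subtype.val hab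
    have := hy2 b
    rw [← h1, orderOf_one] at this
    omega
  · exfalso
    have h1 : y a = (1 : P) := congrArg Subtype.val hab
    have := hy2 a
    rw [h1, orderOf_one] at this
    omega
  · have h1 : y a = y b := congrArg Subtype.val hab
    congr 1
    apply Subtype.ext
    rw [← hy a, ← hy b, h1]

end Cfsg.Agent.S4029
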