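import Cfsg.Statements.S4032
import Cfsg.Agent.Lib.CoprimeLift
import Cfsg.Agent.Lib.Basic

set_option autoImplicit false
open Cfsg

namespace Cfsg.Agent.S4032

open Subgroup

/-- Let π be a set of primes and G a finite group in which N_G(⟨x⟩) = C_G(x) for every π-element x. If N is a normal subgroup of G whose order is divisible by no prime of π, then G/N has the same property: N_{G/N}(⟨y⟩) = C_{G/N}(y) for every π-element y of G/N. -/
theorem result {G : Type*} [Group G] [Finite G] (π : Set ℕ)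
    (hirr : ∀ x : G, (∀ r : ℕ, r.Prime → r ∣ orderOf x → r ∈ π) →
      Subgroup.normalizer ((Subgroup.zpowers x : Subgroup G) : Set G) ≤ Subgroup.centralizer {x})
    (N : Subgroup G) [N.Normal] (hN : ∀ r : ℕ, r.Prime → r ∣ Nat.card N → r ∉ π) :
    ∀ y : G ⧸ N, (∀ r : ℕ, r.Prime → r ∣ orderOf y → r ∈ π) →
      Subgroup.normalizer ((Subgroup.zpowers y : Subgroup (G ⧸ N)) : Set (G ⧸ N)) ≤ Subgroup.centralizer {y} := by
  intro y hy n hn
  have hcopn : ∀ m : ℕ, (∀ r : ℕ, r.Prime → r ∣ m → r ∈ π) → Nat.Coprime m (Nat.card N) := by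
    intro m hm
    by_contra hne
    obtain ⟨r, hr, hd1, hd2⟩ := Nat.Prime.not_coprime_iff_dvd.mp hne
    exact hN r hr hd2 (hm r hr hd1)
  obtain ⟨x, hxy, hox⟩ := Cfsg.Agent.Lib.CoprimeLift.exists_lift N y (hcopn _ hy)
  obtain ⟨g, rfl⟩ := QuotientGroup.mk_surjective n
  have h1 : (QuotientGroup.mk g : G ⧸ N) * y * (QuotientGroup.mk g : G ⧸ N)⁻¹ ∈ zpowers y :=
    (mem_normalizer_iff.mp hn y).mp (mem_zpowers y)
  obtain ⟨j, hj⟩ := h1
  have hj' : y ^ j = (QuotientGroup.mk g : G ⧸ N) * y * (QuotientGroup.mk g : G ⧸ N)⁻¹ := hj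
  have hcx : (orderOf x).Coprime (Nat.card N) := by rw [hox]; exact hcopn _ hy
  obtain ⟨n', hn', hconj⟩ := Cfsg.Agent.Lib.CoprimeLift.exists_conj N (x := x) (y := x ^ j) hcx
    (Nat.Coprime.coprime_dvd_left (orderOf_dvd_of_mem_zpowers (zpow_mem (mem_zpowers x) j)) hcx) g (by
      rw [QuotientGroup.mk_mul, QuotientGroup.mk_mul, QuotientGroup.mk_inv, QuotientGroup.mk_zpow, hxy, hj'])
  have hnorm : n' * g ∈ normalizer ((zpowers x : Subgroup G) : Set G) := by
    have hle : ∀ z ∈ zpowers x, (n' * g) * z * (n' * g)⁻¹ ∈ zpowers x := by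
      rintro _ ⟨i, rfl⟩
      change (n' * g) * x ^ i * (n' * g)⁻¹ ∈ _
      rw [← conj_zpow, hconj]
      exact zpow_mem (zpow_mem (mem_zpowers x) j) i
    have hmap : (zpowers x).map (MulAut.conj (n' * g)).toMonoidHom = zpowers x := by
      apply Subgroup.eq_of_le_of_card_ge
      · rintro _ ⟨z, hz, rfl⟩
        exact hle z hz
      · rw [card_map_of_injective (MulAut.conj (n' * g)).injective]
    rw [mem_normalizer_iff]
    intro z
    constructor
    · exact hle z
    · intro hz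
      rw [← hmap] at hz
      obtain ⟨w, hw, hwz⟩ := hz
      have : (n' * g) * w * (n' * g)⁻¹ = (n' * g) * z * (n' * g)⁻¹ := hwz
      have hwz' := mul_left_cancel (mul_right_cancel this)
      rwa [← hwz']
  have h2 := hirr x (by rw [hox]; exact hy) hnorm
  rw [mem_centralizer_singleton_iff] at h2 ⊢
  have h3 := congrArg (fun z : G => (QuotientGroup.mk z : G ⧸ N)) h2
  simp only [QuotientGroup.mk_mul, hxy, (QuotientGroup.eq_one_iff n').mpr hn', one_mul] at h3
  exact h3

end Cfsg.Agent.S4032
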