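import Cfsg.Statements.S4034
import Mathlib
import Cfsg.Agent.Lib.ClassSizes
import Cfsg.Agent.Lib.CharBurnside
import Cfsg.Agent.Lib.Nilp
import Cfsg.Agent.Lib.Cores
import Cfsg.Agent.Lib.BlockPP
import Cfsg.Agent.Lib.Wiel
import Cfsg.Agent.Lib.Basic
import Cfsg.Agent.H2.PUtil

set_option autoImplicit false
open Cfsg

namespace Cfsg.Agent.S4034

open Subgroup Cfsg.Agent.Lib Cfsg.Agent.Lib.BlockPP

universe u

def Hyp (p : ℕ) (G : Type u) [Group G] : Prop :=
  ∀ x : G, (orderOf x).Coprime p → ∃ k : ℕ, (centralizer ({x} : Set G)).index = p ^ k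

theorem relIndex_dvd' {G : Type*} [Group G] [Finite G] (C F : Subgroup G) [hF : F.Normal] :
    C.relIndex F ∣ C.index := by
  have h1 := Basic.card_sup_mul_card_inf (N := F) (H := C)
    (by rw [normalizer_eq_top_iff.mpr hF]; exact le_top)
  have h2 := Basic.relIndex_mul_card (inf_le_left : F ⊓ C ≤ F)
  have h3 := (F ⊔ C).index_mul_card
  have h4 := C.index_mul_card
  have h5 : C.relIndex F = (F ⊓ C).relIndex F := by rw [inf_relIndex_left]
  refine ⟨(F ⊔ C).index, ?_⟩
  have hpos : 0 < Nat.card C * Nat.card (F ⊓ C : Subgroup G) := mul_pos Nat.card_pos Nat.card_pos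
  apply Nat.eq_of_mul_eq_mul_right hpos
  rw [h5]
  calc C.index * (Nat.card C * Nat.card (F ⊓ C : Subgroup G))
      = (C.index * Nat.card C) * Nat.card (F ⊓ C : Subgroup G) := by ring
    _ = (F ⊔ C).index * (Nat.card (F ⊔ C : Subgroup G) * Nat.card (F ⊓ C : Subgroup G)) := by
        rw [h4, ← h3]; ring
    _ = (F ⊔ C).index * (Nat.card F * Nat.card C) := by rw [h1]
    _ = (F ⊔ C).index * (((F ⊓ C).relIndex F * Nat.card (F ⊓ C : Subgroup G)) * Nat.card C) := by rw [h2]
    _ = (F ⊓ C).relIndex F * (F ⊔ C).index * (Nat.card C * Nat.card (F ⊓ C : Subgroup G)) := by ring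

theorem Hyp.quot {p : ℕ} (hp : p.Prime) {G : Type u} [Group G] [Finite G] (h : Hyp p G) (N : Subgroup G) [N.Normal] :
    Hyp p (G ⧸ N) := by
  intro x hx
  obtain ⟨g, rfl⟩ := QuotientGroup.mk_surjective x
  have hx' : ¬ p ∣ orderOf ((QuotientGroup.mk' N) g) := (Nat.Prime.coprime_iff_not_dvd hp).1 hx.symm
  have h1 : (QuotientGroup.mk' N) (pq p g) = QuotientGroup.mk' N g := by
    have e1 : (QuotientGroup.mk' N) (pp p g) = pp p ((QuotientGroup.mk' N) g) := (pp_map hp _ _).symm
    have e2 := (pp_eq_one_iff hp ((QuotientGroup.mk' N) g)).2 hx'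
    have e3 : (QuotientGroup.mk' N) (pp p g) * (QuotientGroup.mk' N) (pq p g) = QuotientGroup.mk' N g := by
      rw [← map_mul, pp_mul_pq]
    rwa [e1, e2, one_mul] at e3
  obtain ⟨k, hk⟩ := h (pq p g) ((Nat.Prime.coprime_iff_not_dvd hp).2 (not_dvd_orderOf_pq hp g)).symm
  have h2 := ClassSizes.index_centralizer_quotient_dvd N (pq p g)
  rw [hk] at h2
  have h3 : ((pq p g : G) : G ⧸ N) = (g : G ⧸ N) := h1
  rw [h3] at h2
  obtain ⟨j, _, hj⟩ := (Nat.dvd_prime_pow hp).1 h2
  exact ⟨j, hj⟩

theorem Hyp.normal {p : ℕ} (hp : p.Prime) {G : Type u} [Group G] [Finite G] (h : Hyp p G) (N : Subgroup G) [N.Normal] :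
    Hyp p N := by
  intro x hx
  obtain ⟨k, hk⟩ := h (x : G) (by rwa [Subgroup.orderOf_coe])
  have h2 := ClassSizes.index_centralizer_normal_dvd N x
  rw [hk] at h2
  obtain ⟨j, _, hj⟩ := (Nat.dvd_prime_pow hp).1 h2
  exact ⟨j, hj⟩

theorem aux {p : ℕ} (hp : p.Prime) (n : ℕ) : ∀ (G : Type u) [Group G] [Finite G], Nat.card G ≤ n → Hyp p G →
    Group.IsSolvable G ∧ ∃ H : Subgroup G, IsMulCommutative H ∧ ¬ p ∣ Nat.card H ∧ ∃ k, H.index = p ^ k := by
  induction n with
  | zero =>
    intro G _ _ h _
    have : 0 < Nat.card G := Nat.card_pos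
    omega
  | succ n ih =>
    intro G _ _ hn hG
    haveI : Fact p.Prime := ⟨hp⟩
    by_cases hO : pCore p G = ⊥
    · -- solvable
      have hsolv : Group.IsSolvable G := by
        by_cases hN : ∃ N : Subgroup G, N.Normal ∧ N ≠ ⊥ ∧ N ≠ ⊤
        · obtain ⟨N, hNn, hNb, hNt⟩ := hN
          have h1 : Group.IsSolvable N := (ih N (by
            have := Basic.card_lt_of_ne_top hNt
            omega) (hG.normal hp N)).1
          have h2 : Group.IsSolvable (G ⧸ N) := (ih (G ⧸ N) (by
            have := Basic.card_quotient_lt hNb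
            omega) (hG.quot hp N)).1
          exact Group.isSolvable_of_ker_le_range N.subtype (QuotientGroup.mk' N)
            (by rw [QuotientGroup.ker_mk', Subgroup.range_subtype])
        · by_cases hnt : Nontrivial G
          · have hsimple : IsSimpleGroup G := ⟨fun M hM => by
              by_contra hcon
              push Not at hcon
              exact hN ⟨M, hM, hcon.1, hcon.2⟩⟩
            -- a nontrivial p'-element
            by_cases hx : ∃ x : G, x ≠ 1 ∧ (orderOf x).Coprime p
            · obtain ⟨x, hx1, hx2⟩ := hx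
              obtain ⟨k, hk⟩ := hG x hx2
              have hprime := CharBurnside.prime_card_of_class p k hp x hx1 hk
              haveI : Fact (Nat.card G).Prime := ⟨hprime⟩
              have hcyc : IsCyclic G := isCyclic_of_prime_card (p := Nat.card G) rfl
              exact Group.isSolvable_of_comm (fun a b => by
                let _ := hcyc.commGroup
                exact mul_comm a b)
            · push Not at hx
              have hpg : IsPGroup p G := by
                intro g
                have h1 : pq p g = 1 := by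
                  by_contra hne
                  exact hx _ hne ((Nat.Prime.coprime_iff_not_dvd hp).2 (not_dvd_orderOf_pq hp g)).symm
                have h2 := pp_pow_eq_one hp g
                have h3 : pp p g = g := by
                  have := pp_mul_pq p g
                  rwa [h1, mul_one] at this
                rw [h3] at h2
                exact ⟨_, h2⟩
              haveI := hpg.isNilpotent
              exact inferInstance
          · rw [not_nontrivial_iff_subsingleton] at hnt
            exact Group.isSolvable_of_comm (fun a b => Subsingleton.elim _ _)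
      refine ⟨hsolv, ?_⟩
      set F := fittingSubgroup G with hF
      haveI hFn : F.Normal := Cores.fitting_normal
      have hFnil : Group.IsNilpotent F := Cores.fitting_nilpotent
      have hFp : ¬ p ∣ Nat.card F := by
        intro hd
        obtain ⟨P⟩ : Nonempty (Sylow p F) := inferInstance
        haveI hPn : (P : Subgroup F).Normal := H2.PUtil.sylow_normal_of_nilpotent hFnil P
        have hPc : (P : Subgroup F).Characteristic := P.characteristic_of_normal hPn
        have h1 : ((P : Subgroup F).map F.subtype).Normal := inferInstance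
        have h2 : (P : Subgroup F).map F.subtype ≤ pCore p G := Cores.le_pCore h1 (P.isPGroup'.map _)
        rw [hO, le_bot_iff, Subgroup.map_eq_bot_iff_of_injective _ F.subtype_injective] at h2
        exact P.ne_bot_of_dvd_card hd h2
      have hcen : ∀ x : G, (orderOf x).Coprime p → F ≤ centralizer ({x} : Set G) := by
        intro x hx
        obtain ⟨k, hk⟩ := hG x hx
        have h1 : (centralizer ({x} : Set G)).relIndex F ∣ p ^ k := by
          rw [← hk]
          exact relIndex_dvd' _ _
        have h2 : (centralizer ({x} : Set G)).relIndex F ∣ Nat.card F := relIndex_dvd_card _ _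
        have h3 : (centralizer ({x} : Set G)).relIndex F = 1 := by
          obtain ⟨j, _, hj⟩ := (Nat.dvd_prime_pow hp).1 h1
          rw [hj] at h2 ⊢
          rcases Nat.eq_zero_or_pos j with rfl | hj0
          · rfl
          · exact absurd ((dvd_pow_self p hj0.ne').trans h2) hFp
        exact relIndex_eq_one.1 h3
      have hmem : ∀ x : G, (orderOf x).Coprime p → x ∈ F := by
        intro x hx
        apply Nilp.centralizer_fitting_le
        rw [mem_centralizer_iff]
        intro y hy
        exact ClassSizes.mem_centralizer_singleton.1 (hcen x hx hy)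
      refine ⟨F, ⟨⟨fun a b => ?_⟩⟩, hFp, ?_⟩
      · have hb : (orderOf (b : G)).Coprime p := by
          rw [Nat.coprime_comm, Nat.Prime.coprime_iff_not_dvd hp, Subgroup.orderOf_coe]
          intro h
          exact hFp (h.trans (orderOf_dvd_natCard b))
        exact Subtype.ext (ClassSizes.mem_centralizer_singleton.1 (hcen b hb a.2))
      · refine ⟨_, Nat.eq_prime_pow_of_unique_prime_dvd (index_ne_zero_of_finite) (fun {r} hr hrF => ?_)⟩
        by_contra hne
        haveI : Fact r.Prime := ⟨hr⟩
        obtain ⟨x, hx⟩ := exists_prime_orderOf_dvd_card' (G := G ⧸ F) r hrF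
        obtain ⟨g, rfl⟩ := QuotientGroup.mk_surjective x
        have h1 : pq p g ∈ F := hmem _ ((Nat.Prime.coprime_iff_not_dvd hp).2 (not_dvd_orderOf_pq hp g)).symm
        obtain ⟨k, hk⟩ := exists_orderOf_pp hp g
        have h2 : ((pp p g : G) : G ⧸ F) = (g : G ⧸ F) := by
          conv_rhs => rw [← pp_mul_pq p g, QuotientGroup.mk_mul, (QuotientGroup.eq_one_iff _).2 h1, mul_one]
        rw [← h2] at hx
        have h3 : orderOf ((pp p g : G) : G ⧸ F) ∣ orderOf (pp p g) := orderOf_map_dvd (QuotientGroup.mk' F) _
        rw [hx, hk] at h3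
        exact hne ((Nat.prime_dvd_prime_iff_eq hr hp).1 (hr.dvd_of_dvd_pow h3))
    · haveI hOn : (pCore p G).Normal := Cores.pCore_normal p
      obtain ⟨h1, H, hHc, hHp, k, hk⟩ := ih (G ⧸ pCore p G) (by
            have := Basic.card_quotient_lt hO
            omega) (hG.quot hp _)
      have hOp : IsPGroup p (pCore p G) := Cores.pCore_isPGroup p
      have hsolv : Group.IsSolvable G := by
        haveI : Group.IsSolvable (pCore p G) := by
          haveI := hOp.isNilpotent
          exact inferInstance
        exact Group.isSolvable_of_ker_le_range (pCore p G).subtype (QuotientGroup.mk' (pCore p G))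
            (by rw [QuotientGroup.ker_mk', Subgroup.range_subtype])
      refine ⟨hsolv, ?_⟩
      set N := pCore p G with hN
      set K := H.comap (QuotientGroup.mk' N) with hK
      have hNK : N ≤ K := by
        intro x hx
        show (QuotientGroup.mk' N) x ∈ H
        rw [show (QuotientGroup.mk' N) x = 1 from (QuotientGroup.eq_one_iff x).2 hx]
        exact H.one_mem
      have hmapK : K.map (QuotientGroup.mk' N) = H := map_comap_eq_self_of_surjective (QuotientGroup.mk'_surjective N) H
      have hKc : Nat.card K = Nat.card N * Nat.card H := by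
        rw [hK, Cores.card_comap_eq _ (QuotientGroup.mk'_surjective N), QuotientGroup.ker_mk']
        try ring
      have hKi : K.index = p ^ k := by
        rw [hK, index_comap_of_surjective _ (QuotientGroup.mk'_surjective N), hk]
      obtain ⟨a, ha⟩ := hOp.exists_card_eq
      have hNc' : Nat.card (N.subgroupOf K) = Nat.card N := Nat.card_congr (subgroupOfEquivOfLe hNK).toEquiv
      have hNi : (N.subgroupOf K).index = Nat.card H := by
        have e1 := (N.subgroupOf K).card_mul_index
        rw [hNc', hKc] at e1
        exact Nat.eq_of_mul_eq_mul_left Nat.card_pos e1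
      have hcop : (Nat.card (N.subgroupOf K)).Coprime (N.subgroupOf K).index := by
        rw [hNc', hNi, ha]
        exact ((Nat.Prime.coprime_iff_not_dvd hp).2 hHp).pow_left _
      obtain ⟨L, hL⟩ := exists_right_complement'_of_coprime hcop
      have hLc : Nat.card L = Nat.card H := by
        have e1 := hL.card_mul_card
        rw [hNc', hKc] at e1
        exact Nat.eq_of_mul_eq_mul_left Nat.card_pos e1
      have hLinf : N ⊓ L.map K.subtype = ⊥ := by
        rw [eq_bot_iff]
        rintro x ⟨hx1, y, hy, rfl⟩
        have : y ∈ N.subgroupOf K ⊓ L := ⟨hx1, hy⟩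
        rw [hL.isCompl.inf_eq_bot, mem_bot] at this
        rw [this]; simp
      have hLc' : Nat.card (L.map K.subtype) = Nat.card H := by
        rw [← hLc]; exact (Nat.card_congr (L.equivMapOfInjective K.subtype K.subtype_injective).toEquiv).symm
      refine ⟨L.map K.subtype, ⟨⟨fun x y => ?_⟩⟩, by rw [hLc']; exact hHp, ?_⟩
      · have hx : (QuotientGroup.mk' N) x.1 ∈ H := by
          have : x.1 ∈ K := map_subtype_le L x.2
          exact this
        have hy : (QuotientGroup.mk' N) y.1 ∈ H := by
          have : y.1 ∈ K := map_subtype_le L y.2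
          exact this
        have h5 : (QuotientGroup.mk' N) x.1 * (QuotientGroup.mk' N) y.1 = (QuotientGroup.mk' N) y.1 * (QuotientGroup.mk' N) x.1 := by
          have h7 : (⟨_, hx⟩ : H) * ⟨_, hy⟩ = ⟨_, hy⟩ * ⟨_, hx⟩ := hHc.is_comm.comm _ _
          exact congrArg Subtype.val h7
        have h6 : x.1 * y.1 * (y.1 * x.1)⁻¹ ∈ N ⊓ L.map K.subtype := by
          refine ⟨?_, ?_⟩
          · have : (QuotientGroup.mk' N) (x.1 * y.1 * (y.1 * x.1)⁻¹) = 1 := by
              rw [map_mul, map_inv, map_mul, map_mul, h5, mul_inv_cancel]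
            exact (QuotientGroup.eq_one_iff _).1 this
          · exact (L.map K.subtype).mul_mem ((L.map K.subtype).mul_mem x.2 y.2) ((L.map K.subtype).inv_mem ((L.map K.subtype).mul_mem y.2 x.2))
        rw [hLinf, mem_bot, mul_inv_eq_one] at h6
        exact Subtype.ext h6
      · have e1 := (L.map K.subtype).card_mul_index
        rw [hLc', ← K.card_mul_index, hKc, hKi, ha] at e1
        refine ⟨a + k, ?_⟩
        have hpos : 0 < Nat.card H := Nat.card_pos
        apply Nat.eq_of_mul_eq_mul_left hpos
        rw [e1]; ring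

/-- Let G be a finite group and p a prime. Every conjugacy class of p-regular elements of G (elements of order prime to p) has p-power size if and only if G has an abelian p-complement, i.e. an abelian subgroup of order prime to p and p-power index. -/
theorem result {G : Type*} [Group G] [Finite G] {p : ℕ} (hp : p.Prime) :
    (∀ x : G, (orderOf x).Coprime p → ∃ k : ℕ, (ConjClasses.mk x).carrier.ncard = p ^ k) ↔
    (∃ H : Subgroup G, IsMulCommutative H ∧ ¬ p ∣ Nat.card H ∧ ∃ k : ℕ, H.index = p ^ k) := by
  haveI : Fact p.Prime := ⟨hp⟩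
  constructor
  · intro h
    refine (aux hp (Nat.card G) G le_rfl ?_).2
    intro x hx
    obtain ⟨k, hk⟩ := h x hx
    refine ⟨k, ?_⟩
    rw [ClassSizes.index_centralizer_eq_card_carrier, ← hk]
    rfl
  · rintro ⟨H, hc, hHp, k, hk⟩ x hx
    have hnil : Group.IsNilpotent H := by
      have : ∀ a b : H, a * b = b * a := fun a b => hc.is_comm.comm a b
      letI : CommGroup H := { (inferInstance : Group H) with mul_comm := this }
      exact CommGroup.isNilpotent
    obtain ⟨g, hg⟩ := Wiel.wielandt H (zpowers x) hnil (by
        rw [hk]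
        exact (((Nat.Prime.coprime_iff_not_dvd hp).2 hHp).symm.pow_right _)) (by
        intro r hr hd
        rw [Nat.card_zpowers] at hd
        have h1 : r ∣ Nat.card H * H.index := by
          rw [H.card_mul_index]; exact hd.trans (orderOf_dvd_natCard x)
        rw [hk] at h1
        rcases hr.dvd_mul.1 h1 with h | h
        · exact h
        · exfalso
          have h2 := (Nat.prime_dvd_prime_iff_eq hr hp).1 (hr.dvd_of_dvd_pow h)
          rw [h2] at hd
          exact (Nat.Prime.coprime_iff_not_dvd hp).1 hx.symm hd)
    have hxg := hg (mem_zpowers x)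
    obtain ⟨y, hy, hyx⟩ := hxg
    have hle : H.map (MulAut.conj g).toMonoidHom ≤ centralizer ({x} : Set G) := by
      rintro _ ⟨z, hz, rfl⟩
      rw [ClassSizes.mem_centralizer_singleton, ← hyx]
      have h7 : (⟨z, hz⟩ : H) * ⟨y, hy⟩ = ⟨y, hy⟩ * ⟨z, hz⟩ := hc.is_comm.comm _ _
      have h8 : z * y = y * z := congrArg Subtype.val h7
      show MulAut.conj g z * MulAut.conj g y = MulAut.conj g y * MulAut.conj g z
      rw [← map_mul, h8, map_mul]
    have h9 := index_dvd_of_le hle
    have h10 : (H.map (MulAut.conj g).toMonoidHom).index = p ^ k := by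
      rw [← hk]
      exact index_map_of_bijective (MulAut.conj g).bijective H
    rw [h10] at h9
    obtain ⟨j, _, hj⟩ := (Nat.dvd_prime_pow hp).1 h9
    refine ⟨j, ?_⟩
    rw [← hj, ClassSizes.index_centralizer_eq_card_carrier]
    rfl

end Cfsg.Agent.S4034
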