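import Cfsg.Statements.S4035
import Cfsg.Agent.Lib.ConjCover
import Cfsg.Agent.Lib.ClassSizes

set_option autoImplicit false
open Cfsg

namespace Cfsg.Agent.S4035

open Subgroup Cfsg.Agent.Lib.BlockPP
open scoped Pointwise

/-- Let G be a finite group and p a prime such that p divides the size of no conjugacy class of p-regular elements (elements of order prime to p). Then G is the internal direct product of a Sylow p-subgroup P and a normal subgroup H of order prime to p: P is normal, P ⊓ H = 1 and PH = G. -/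
theorem result {G : Type*} [Group G] [Finite G] {p : ℕ} [Fact p.Prime]
    (h : ∀ x : G, (orderOf x).Coprime p → ¬ p ∣ (ConjClasses.mk x).carrier.ncard) (P : Sylow p G) :
    (P : Subgroup G).Normal ∧ ∃ H : Subgroup G, H.Normal ∧ ¬ p ∣ Nat.card H ∧
      (P : Subgroup G) ⊓ H = ⊥ ∧ (P : Subgroup G) ⊔ H = ⊤ := by
  have hpp : p.Prime := Fact.out
  apply Cfsg.Agent.Lib.ConjCover.direct_factor
  apply Cfsg.Agent.Lib.ConjCover.eq_top_of_conj_cover
  intro g
  set z := pq p g with hz
  set y := pp p g with hy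
  have hzp : ¬ p ∣ orderOf z := not_dvd_orderOf_pq hpp g
  have hidx : ¬ p ∣ (centralizer ({z} : Set G)).index := by
    rw [Cfsg.Agent.Lib.ClassSizes.index_centralizer_eq_card_carrier]
    exact h z ((hpp.coprime_iff_not_dvd.mpr hzp).symm)
  have hyC : y ∈ centralizer ({z} : Set G) := by
    rw [mem_centralizer_singleton_iff]
    exact (pp_commute_pq p g).eq
  obtain ⟨k, hk⟩ := exists_orderOf_pp hpp g
  have hyp : IsPGroup p (zpowers (⟨y, hyC⟩ : centralizer ({z} : Set G))) := by
    rw [isPGroup_zpowers_iff hpp]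
    exact ⟨k, by rw [← orderOf_coe]; exact hk⟩
  obtain ⟨Q, hQ⟩ := hyp.exists_le_sylow
  have hcard : Nat.card ((Q : Subgroup (centralizer ({z} : Set G))).map (centralizer ({z} : Set G)).subtype) =
      p ^ (Nat.card G).factorization p := by
    rw [card_subtype]
    have h1 : Nat.card (Q : Subgroup (centralizer ({z} : Set G))) =
      p ^ (Nat.card (centralizer ({z} : Set G))).factorization p := Q.card_eq_multiplicity
    rw [h1, ← (centralizer ({z} : Set G)).card_mul_index,
      Nat.factorization_mul Nat.card_pos.ne' FiniteIndex.index_ne_zero, Finsupp.add_apply,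
      Nat.factorization_eq_zero_of_not_dvd hidx, add_zero]
  let Q' : Sylow p G := Sylow.ofCard _ hcard
  obtain ⟨c, hc⟩ := MulAction.exists_smul_eq G P Q'
  have hQ' : ∀ x, x ∈ (Q : Subgroup (centralizer ({z} : Set G))).map
      (centralizer ({z} : Set G)).subtype ↔ c⁻¹ * x * c ∈ (P : Subgroup G) := by
    intro x
    have h1 : ((c • P : Sylow p G) : Subgroup G) = (Q : Subgroup (centralizer ({z} : Set G))).map
      (centralizer ({z} : Set G)).subtype := by rw [hc]; rfl
    rw [← h1, Sylow.coe_subgroup_smul]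
    constructor
    · rintro ⟨w, hw, rfl⟩
      change c⁻¹ * (c * w * c⁻¹) * c ∈ (P : Subgroup G)
      have e : c⁻¹ * (c * w * c⁻¹) * c = w := by group
      rw [e]; exact hw
    · intro hx
      refine ⟨c⁻¹ * x * c, hx, ?_⟩
      change c * (c⁻¹ * x * c) * c⁻¹ = x
      group
  refine ⟨c, ?_⟩
  have hg : c⁻¹ * g * c = (c⁻¹ * y * c) * (c⁻¹ * z * c) := by
    have : g = y * z := (pp_mul_pq p g).symm
    nth_rewrite 1 [this]
    group
  rw [hg]
  apply mul_mem
  · apply mem_sup_left
    rw [← hQ']
    exact ⟨⟨y, hyC⟩, hQ (mem_zpowers _), rfl⟩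
  · apply mem_sup_right
    rw [mem_centralizer_iff]
    intro w hw
    have h1 : c * w * c⁻¹ ∈ (Q : Subgroup (centralizer ({z} : Set G))).map
        (centralizer ({z} : Set G)).subtype := by
      rw [hQ']
      have e : c⁻¹ * (c * w * c⁻¹) * c = w := by group
      rw [e]; exact hw
    obtain ⟨v, hv, hvw⟩ := h1
    have h2 := mem_centralizer_singleton_iff.mp v.2
    have h3 : (v : G) = c * w * c⁻¹ := hvw
    rw [h3] at h2
    have h4 : c⁻¹ * ((c * w * c⁻¹) * z) * c = c⁻¹ * (z * (c * w * c⁻¹)) * c := by rw [h2]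
    calc w * (c⁻¹ * z * c) = c⁻¹ * ((c * w * c⁻¹) * z) * c := by group
      _ = c⁻¹ * (z * (c * w * c⁻¹)) * c := h4
      _ = c⁻¹ * z * c * w := by group

end Cfsg.Agent.S4035
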