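import Cfsg.Statements.S4036
import Mathlib
import Cfsg.Agent.H2.PUtil

set_option autoImplicit false
open Cfsg

namespace Cfsg.Agent.S4036

open Subgroup

/-- Let P be a finite abelian p-group and K a group of automorphisms of P (a subgroup of Aut P) whose order is divisible by p. If all non-identity elements of K have the same fixed-point subgroup on P, then K has no non-trivial normal subgroup of order prime to p. -/
theorem result {P : Type*} [CommGroup P] [Finite P] {p : ℕ}
    [Fact p.Prime] (hP : IsPGroup p P) (K : Subgroup (MulAut P)) (hK : p ∣ Nat.card K)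
    (hfix : ∀ x y : MulAut P, x ∈ K → y ∈ K → x ≠ 1 → y ≠ 1 → ∀ v : P, x v = v ↔ y v = v) :
    ∀ N : Subgroup ↥K, N.Normal → ¬ p ∣ Nat.card N → N = ⊥ := by
  classical
  intro N hN hNp
  have hp : p.Prime := Fact.out
  have := Fintype.ofFinite N
  have := Fintype.ofFinite K
  -- norm map
  let nm : P → P := fun v => ∏ n : N, ((n : K) : MulAut P) v
  have nm_mul : ∀ v w, nm (v * w) = nm v * nm w := by
    intro v w
    simp only [nm, map_mul, Finset.prod_mul_distrib]
  have nm_one : nm 1 = 1 := by simp [nm]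
  -- nm (n v) = nm v
  have nm_act : ∀ (m : N) v, nm (((m : K) : MulAut P) v) = nm v := by
    intro m v
    show ∏ n : N, ((n : K) : MulAut P) (((m : K) : MulAut P) v) = ∏ n : N, ((n : K) : MulAut P) v
    refine Fintype.prod_equiv (Equiv.mulRight m) _ _ ?_
    intro n
    rfl
  -- k nm v = nm (k v)
  have nm_k : ∀ (k : K) v, (k : MulAut P) (nm v) = nm ((k : MulAut P) v) := by
    intro k v
    show (k : MulAut P) (∏ n : N, ((n : K) : MulAut P) v) = ∏ n : N, ((n : K) : MulAut P) ((k : MulAut P) v)
    rw [map_prod]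
    let e : N ≃ N := (MulAut.conjNormal k : MulAut N).toEquiv
    refine Fintype.prod_equiv e _ _ ?_
    intro n
    have h1 : (((e n : N) : K) : MulAut P) = (k : MulAut P) * ((n : K) : MulAut P) * (k : MulAut P)⁻¹ := rfl
    rw [h1]
    show (k : MulAut P) (((n : K) : MulAut P) v) = (k : MulAut P) (((n : K) : MulAut P) ((k : MulAut P)⁻¹ ((k : MulAut P) v)))
    rw [MulAut.inv_apply_self]
  by_contra hNb
  obtain ⟨n₀, hn₀⟩ := (N.ne_bot_iff_exists_ne_one).1 hNb
  -- T = kernel of norm
  let T : Subgroup P :=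
    { carrier := {v | nm v = 1}
      one_mem' := nm_one
      mul_mem' := by
        intro a b ha hb
        show nm (a * b) = 1
        rw [nm_mul, show nm a = 1 from ha, show nm b = 1 from hb, one_mul]
      inv_mem' := by
        intro a ha
        show nm a⁻¹ = 1
        have h1 : nm (a * a⁻¹) = nm a * nm a⁻¹ := nm_mul a a⁻¹
        rw [mul_inv_cancel, nm_one, show nm a = 1 from ha, one_mul] at h1
        exact h1.symm }
  -- y of order p
  obtain ⟨y, hy⟩ := exists_prime_orderOf_dvd_card' (G := K) p hK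
  have hy1 : y ≠ 1 := by
    rintro rfl
    rw [orderOf_one] at hy
    exact hp.one_lt.ne hy
  have hyT : ∀ v ∈ T, (y : MulAut P) v ∈ T := by
    intro v hv
    show nm ((y : MulAut P) v) = 1
    rw [← nm_k, show nm v = 1 from hv, map_one]
  -- the fixed points of y on T are trivial
  have hfixT : ∀ v ∈ T, (y : MulAut P) v = v → v = 1 := by
    intro v hv hyv
    have h1 : ∀ n : N, ((n : K) : MulAut P) v = v := by
      intro n
      by_cases hn : n = 1
      · rw [hn]; rfl
      · have hn' : ((n : K) : MulAut P) ≠ 1 := fun h => hn (Subtype.ext (Subtype.ext h))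
        have hy' : (y : MulAut P) ≠ 1 := fun h => hy1 (Subtype.ext h)
        exact (hfix y n y.2 n.1.2 hy' hn' v).1 hyv
    have h2 : nm v = v ^ Nat.card N := by
      show ∏ n : N, ((n : K) : MulAut P) v = _
      rw [Finset.prod_congr rfl (fun n _ => h1 n), Finset.prod_const, Finset.card_univ, Nat.card_eq_fintype_card]
    have h3 : v ^ Nat.card N = 1 := by rw [← h2]; exact hv
    obtain ⟨k, hk⟩ := IsPGroup.iff_orderOf.1 hP v
    have h4 : orderOf v ∣ Nat.card N := orderOf_dvd_of_pow_eq_one h3
    rw [hk] at h4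
    have hk0 : k = 0 := by
      by_contra hne
      exact hNp ((dvd_pow_self p hne).trans h4)
    rw [hk0, pow_zero, orderOf_eq_one_iff] at hk
    exact hk
  -- action of ⟨y⟩ on T
  have hZ : IsPGroup p (zpowers y) := by
    apply IsPGroup.of_card (n := 1)
    rw [Nat.card_zpowers, hy, pow_one]
  have hinv : ∀ k ∈ zpowers y, ∀ v ∈ T, (k : MulAut P) v ∈ T := by
    intro k hk v hv
    show nm ((k : MulAut P) v) = 1
    rw [← nm_k, show nm v = 1 from hv, map_one]
  letI : MulAction (zpowers y) T :=
    { smul := fun k v => ⟨((k : K) : MulAut P) v, hinv k k.2 v v.2⟩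
      one_smul := fun v => rfl
      mul_smul := fun k l v => rfl }
  have hmod := hZ.card_modEq_card_fixedPoints T
  have hfp : Nat.card (MulAction.fixedPoints (zpowers y) T) = 1 := by
    rw [Nat.card_eq_one_iff_unique]
    constructor
    · constructor
      rintro ⟨a, ha⟩ ⟨b, hb⟩
      have h1 : ∀ c : T, c ∈ MulAction.fixedPoints (zpowers y) T → c = 1 := by
        intro c hc
        apply Subtype.ext
        exact hfixT c c.2 (congrArg Subtype.val (hc ⟨y, mem_zpowers y⟩))
      exact Subtype.ext ((h1 a ha).trans (h1 b hb).symm)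
    · refine ⟨⟨1, ?_⟩⟩
      intro k
      apply Subtype.ext
      exact map_one ((k : K) : MulAut P)
  rw [hfp] at hmod
  have hTp : IsPGroup p T := hP.to_subgroup T
  obtain ⟨k, hk⟩ := IsPGroup.iff_card.1 hTp
  have hk0 : k = 0 := by
    by_contra hne
    rw [hk] at hmod
    have h1 : p ∣ p ^ k := dvd_pow_self p hne
    have h2 : 1 ≡ 0 [MOD p] := hmod.symm.trans (Nat.modEq_zero_iff_dvd.2 h1)
    exact hp.one_lt.ne' (Nat.dvd_one.1 (Nat.modEq_zero_iff_dvd.1 h2))
  rw [hk0, pow_zero] at hk
  have hT1 : T = ⊥ := Subgroup.card_eq_one.1 hk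
  apply hn₀
  apply Subtype.ext
  apply Subtype.ext
  apply MulEquiv.ext
  intro v
  have h5 : ((n₀ : K) : MulAut P) v * v⁻¹ ∈ T := by
    show nm (((n₀ : K) : MulAut P) v * v⁻¹) = 1
    rw [nm_mul, nm_act, ← nm_mul, mul_inv_cancel, nm_one]
  rw [hT1, mem_bot, mul_inv_eq_one] at h5
  exact h5

end Cfsg.Agent.S4036
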