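import Cfsg.Statements.S4039
import Mathlib
import Cfsg.Agent.H2.MaxNil

set_option autoImplicit false
open Cfsg

namespace Cfsg.Agent.S4039

/-- A finite group possessing a maximal subgroup that is nilpotent of class at most 2 is solvable. -/
theorem result {G : Type*} [Group G] [Finite G]
    (M : Subgroup G) (hmax : IsCoatom M) (hnil : Group.IsNilpotent M) (hcl : Group.nilpotencyClass ↥M ≤ 2) :
    Group.IsSolvable G := by
  refine Cfsg.Agent.H2.MaxNil.main (Nat.card G) G le_rfl M hmax hnil ?_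
  intro x hx y hy z hz _ _ _
  haveI := hnil
  have h1 : (⊤ : Subgroup M).lowerCentralSeries 2 = ⊥ := Subgroup.lowerCentralSeries_eq_bot_iff_nilpotencyClass_le.mpr hcl
  obtain ⟨a, ha⟩ : ∃ a : M, a = ⟨x, hx⟩ := ⟨_, rfl⟩
  obtain ⟨b, hb⟩ : ∃ b : M, b = ⟨y, hy⟩ := ⟨_, rfl⟩
  obtain ⟨c, hc⟩ : ∃ c : M, c = ⟨z, hz⟩ := ⟨_, rfl⟩
  have h2 : a * b * a⁻¹ * b⁻¹ ∈ (⊤ : Subgroup M).lowerCentralSeries 1 := Subgroup.commutator_mem_commutator (Subgroup.mem_top _) (Subgroup.mem_top _)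
  have h3 : (a * b * a⁻¹ * b⁻¹) * c * (a * b * a⁻¹ * b⁻¹)⁻¹ * c⁻¹ ∈ (⊤ : Subgroup M).lowerCentralSeries 2 := Subgroup.commutator_mem_commutator h2 (Subgroup.mem_top _)
  rw [h1, Subgroup.mem_bot] at h3
  rw [ha, hb, hc] at h3
  have h4 : (x * y * x⁻¹ * y⁻¹) * z * (x * y * x⁻¹ * y⁻¹)⁻¹ * z⁻¹ = 1 := congrArg Subtype.val h3
  exact mul_inv_eq_iff_eq_mul.mp (mul_inv_eq_one.mp h4)

end Cfsg.Agent.S4039
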