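import Cfsg.Statements.S4040
import Mathlib
import Cfsg.Agent.H2.MaxNil

set_option autoImplicit false
open Cfsg

namespace Cfsg.Agent.S4040

/-- A finite group possessing a maximal subgroup that is nilpotent of odd order is solvable. -/
theorem result {G : Type*} [Group G] [Finite G]
    (M : Subgroup G) (hmax : IsCoatom M) (hnil : Group.IsNilpotent M) (hodd : Odd (Nat.card M)) :
    Group.IsSolvable G := by
  have key : ∀ x ∈ M, (∃ k, x ^ 2 ^ k = 1) → x = 1 := by
    rintro x hx ⟨k, hk⟩
    have h1 : orderOf x ∣ 2 ^ k := orderOf_dvd_of_pow_eq_one hk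
    have h2 : orderOf x ∣ Nat.card M := Subgroup.orderOf_dvd_natCard M hx
    have h3 : (Nat.card M).Coprime (2 ^ k) := Nat.Coprime.pow_right k (Nat.Coprime.symm (Nat.coprime_two_left.mpr hodd))
    have h4 := Nat.dvd_gcd h2 h1
    rw [h3] at h4
    exact orderOf_eq_one_iff.mp (Nat.dvd_one.mp h4)
  refine Cfsg.Agent.H2.MaxNil.main (Nat.card G) G le_rfl M hmax hnil ?_
  intro x hx y hy z hz hx2 _ _
  rw [key x hx hx2]
  group

end Cfsg.Agent.S4040
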