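import Cfsg.Statements.S4043
import Mathlib
import Cfsg.Agent.H2.Qk

set_option autoImplicit false
open Cfsg

namespace Cfsg.Agent.S4043

open Subgroup Cfsg.Agent.Lib.Basic Cfsg.Agent.Lib.Cores Cfsg.Agent.Lib.PNilp
open scoped Pointwise commutatorElement

/-- data of a `p`-complement of the complement -/
theorem data {G : Type*} [Group G] [Finite G] {p : ℕ} [Fact p.Prime] (N : Subgroup G) [N.Normal] (hN : IsPGroup p N)
    (A : Subgroup G) (hA : A.IsComplement' N) (hAp : Cfsg.HasNormalPComplement p A)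
    (hC : ∀ n : G, n ∈ N → (∀ a : G, a ∈ A → a * n * a⁻¹ = n) → n = 1) :
    ∃ K : Subgroup G, (Nat.card K).Coprime p ∧ (N ⊔ K).Normal ∧ (∃ k, (N ⊔ K).index = p ^ k) ∧
      normalizer (K : Set G) = A := by
  obtain ⟨K', hK'n, hK'c, k, hk⟩ := hasNormalPComplement_iff.1 hAp
  have hsup : N ⊔ A = ⊤ := by rw [sup_comm]; exact hA.sup_eq_top
  have hinf : N ⊓ A = ⊥ := by rw [inf_comm]; exact hA.disjoint.eq_bot
  set K : Subgroup G := K'.map A.subtype with hKdef
  have hKA : K ≤ A := map_subtype_le _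
  have hKc : (Nat.card K).Coprime p := by
    rw [hKdef, Nat.card_congr (K'.equivMapOfInjective _ A.subtype_injective).toEquiv.symm]
    exact hK'c
  have hAK : A ≤ normalizer (K : Set G) := by
    intro a ha
    rw [mem_normalizer_iff]
    intro x
    constructor
    · rintro ⟨y, hy, rfl⟩
      exact ⟨⟨a, ha⟩ * y * ⟨a, ha⟩⁻¹, hK'n.conj_mem y hy ⟨a, ha⟩, rfl⟩
    · rintro ⟨y, hy, hyx⟩
      refine ⟨⟨a, ha⟩⁻¹ * y * ⟨a, ha⟩, ?_, ?_⟩
      · have := hK'n.conj_mem y hy ⟨a, ha⟩⁻¹
        rwa [inv_inv] at this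
      · show a⁻¹ * (y : G) * a = x
        have h1 : (y : G) = a * x * a⁻¹ := hyx
        rw [h1]; group
  have hAN : A ≤ normalizer (N : Set G) := by rw [normalizer_eq_top]; exact le_top
  have hnorm : (N ⊔ K).Normal := by
    rw [← normalizer_eq_top_iff, eq_top_iff, ← hsup]
    exact sup_le (le_sup_left.trans le_normalizer) (Cfsg.Agent.Lib.Subnorm.le_normalizer_sup hAN hAK)
  -- index
  have hidx : ∃ k, (N ⊔ K).index = p ^ k := by
    haveI := hnorm
    have h1 : (N ⊔ K).index ∣ p ^ k := by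
      have h2 : (N ⊔ K).relIndex A = (N ⊔ K).index := by
        rw [← relIndex_top_right, ← relIndex_sup_right]
        congr 1
        rw [eq_top_iff, ← hsup]
        exact sup_le (le_sup_left.trans le_sup_right) le_sup_left
      rw [← h2, ← hk]
      have h3 : K.relIndex A = K'.index := by
        unfold relIndex
        congr 1
        rw [hKdef]
        exact comap_map_eq_self_of_injective A.subtype_injective K'
      rw [← h3]
      exact relIndex_dvd_of_le_left A le_sup_right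
    obtain ⟨m, -, hm⟩ := (Nat.dvd_prime_pow Fact.out).mp h1
    exact ⟨m, hm⟩
  refine ⟨K, hKc, hnorm, hidx, ?_⟩
  apply le_antisymm _ hAK
  -- the fixed points
  have hD : N ⊓ normalizer (K : Set G) = ⊥ := by
    by_contra hne
    obtain ⟨Q⟩ : Nonempty (Sylow p A) := inferInstance
    set D := N ⊓ normalizer (K : Set G) with hDdef
    have hDK : ∀ d ∈ D, ∀ x ∈ K, x * d * x⁻¹ = d := by
      intro d hd x hx
      have h1 : x * d * x⁻¹ * d⁻¹ ∈ N ⊓ K := by
        constructor
        · exact (N).mul_mem (Normal.conj_mem inferInstance d hd.1 x) ((N).inv_mem hd.1)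
        · have h2 : d * x⁻¹ * d⁻¹ ∈ K := (mem_normalizer_iff.1 hd.2 x⁻¹).1 ((K).inv_mem hx)
          have : x * d * x⁻¹ * d⁻¹ = x * (d * x⁻¹ * d⁻¹) := by group
          rw [this]
          exact (K).mul_mem hx h2
      have h3 : N ⊓ K ≤ ⊥ := by rw [← hinf]; exact inf_le_inf_left _ hKA
      have h4 := mem_bot.1 (h3 h1)
      exact mul_inv_eq_one.1 h4
    obtain ⟨d, hdD, hd1, hdQ⟩ := Cfsg.Agent.H2.Qk.exists_fixed (Q := (Q : Subgroup A).map A.subtype) (D := D)
      (Q.isPGroup'.map _) (hN.to_le inf_le_left)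
      (Cfsg.Agent.Lib.SchurZas.le_normalizer_inf ((map_subtype_le _).trans hAN)
        (((map_subtype_le _).trans hAK).trans le_normalizer)) hne
    apply hd1
    apply hC d hdD.1
    -- `A = K Q`
    have h5 := (isComplement'_of_pNil hK'c ⟨k, hk⟩ Q).sup_eq_top
    intro a ha
    have h6 : (⟨a, ha⟩ : A) ∈ K' ⊔ (Q : Subgroup A) := by rw [h5]; exact mem_top _
    have h7 : K' ⊔ (Q : Subgroup A) ≤ (centralizer ({d} : Set G)).subgroupOf A := by
      apply sup_le
      · intro x hx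
        rw [mem_subgroupOf, mem_centralizer_singleton_iff]
        have := hDK d hdD x ⟨x, hx, rfl⟩
        rw [← mul_inv_eq_iff_eq_mul]
        exact this
      · intro x hx
        rw [mem_subgroupOf, mem_centralizer_singleton_iff]
        have := hdQ x ⟨x, hx, rfl⟩
        rw [← mul_inv_eq_iff_eq_mul]
        exact this
    have h8 := h7 h6
    rw [mem_subgroupOf, mem_centralizer_singleton_iff] at h8
    rw [mul_inv_eq_iff_eq_mul]
    exact h8
  intro x hx
  have h1 : x ∈ N ⊔ A := by rw [hsup]; exact mem_top _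
  obtain ⟨n, hn, a, ha, rfl⟩ := (mem_sup_iff_left hAN).1 h1
  have h2 : n ∈ N ⊓ normalizer (K : Set G) := by
    refine ⟨hn, ?_⟩
    have h3 := (normalizer (K : Set G)).mul_mem hx ((normalizer (K : Set G)).inv_mem (hAK ha))
    rwa [mul_inv_cancel_right] at h3
  rw [hD, mem_bot] at h2
  rw [h2, one_mul]
  exact ha

/-- Let G be a finite group that is the semidirect product of a normal p-subgroup N by a subgroup A, and also of N by a subgroup A₁, where p is a prime and A and A₁ both have normal p-complements. If C_N(A) = C_N(A₁) = 1, then A₁ is conjugate to A by an element of N. -/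
theorem result {G : Type*} [Group G] [Finite G] {p : ℕ}
    [Fact p.Prime] (N : Subgroup G) [N.Normal] (hN : IsPGroup p N) (A A₁ : Subgroup G)
    (hA : A.IsComplement' N) (hA₁ : A₁.IsComplement' N)
    (hAp : Cfsg.HasNormalPComplement p A) (hA₁p : Cfsg.HasNormalPComplement p A₁)
    (hC : ∀ n : G, n ∈ N → (∀ a : G, a ∈ A → a * n * a⁻¹ = n) → n = 1)
    (hC₁ : ∀ n : G, n ∈ N → (∀ a : G, a ∈ A₁ → a * n * a⁻¹ = n) → n = 1) :
    ∃ n : G, n ∈ N ∧ A₁ = A.map (MulAut.conj n).toMonoidHom := by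
  open Subgroup in
  obtain ⟨K, hKc, hKn, hKi, hKA⟩ := data N hN A hA hAp hC
  obtain ⟨K₁, hK₁c, hK₁n, hK₁i, hK₁A⟩ := data N hN A₁ hA₁ hA₁p hC₁
  have h1 : K₁ ≤ N ⊔ K := Cfsg.Agent.H2.Qk.le_of_index_pow hK₁c hKi
  have h2 : K ≤ N ⊔ K₁ := Cfsg.Agent.H2.Qk.le_of_index_pow hKc hK₁i
  have hsup : N ⊔ K = N ⊔ K₁ := le_antisymm (sup_le le_sup_left h2) (sup_le le_sup_left h1)
  obtain ⟨k, hk⟩ := hN.exists_card_eq
  obtain ⟨n, hn, hconj⟩ := Cfsg.Agent.Lib.SchurZas.conj_of_coprime' (N := N) (A := K) (B := K₁)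
    (by rw [Subgroup.normalizer_eq_top]; exact le_top) (by rw [hk]; exact hKc.pow_right k)
    (by rw [hk]; exact hK₁c.pow_right k) hsup
    (Or.inr (Cfsg.Agent.Lib.CoprimeB.isSolvable_of_isPGroup hN))
  refine ⟨n, hn, ?_⟩
  rw [← hK₁A, ← hKA, ← hconj]
  exact (Subgroup.map_equiv_normalizer_eq K (MulAut.conj n)).symm

end Cfsg.Agent.S4043
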