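import Cfsg.Statements.S4049
import Cfsg.Agent.H2.RealElt

set_option autoImplicit false
open Cfsg

namespace Cfsg.Agent.S4049

/-- Let G be a finite group such that N_G(H)/C_G(H) has odd order for every nontrivial subgroup H of odd order. Then the Sylow 2-subgroups of G are normal. -/
theorem result {G : Type*} [Group G] [Finite G]
    (hhom : ∀ H : Subgroup G, H ≠ ⊥ → ¬ 2 ∣ Nat.card ↥H →
        ¬ 2 ∣ (Subgroup.centralizer (H : Set G)).relIndex (Subgroup.normalizer (H : Set G))) (P : Sylow 2 G) :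
    (P : Subgroup G).Normal := by
  apply Cfsg.Agent.H2.RealElt.sylow_two_normal
  intro x hx1 hodd hconj
  obtain ⟨c, hc⟩ := isConj_iff.mp hconj
  have hz : Subgroup.zpowers x ≠ ⊥ := by
    rw [Ne, Subgroup.zpowers_eq_bot]; exact hx1
  have h1 := hhom (Subgroup.zpowers x) hz (by
    rw [Nat.card_zpowers]
    intro hd
    exact absurd (Odd.of_dvd_nat hodd hd) (by decide))
  have hcinv : c * x⁻¹ * c⁻¹ = x := by
    have : c * x⁻¹ * c⁻¹ = (c * x * c⁻¹)⁻¹ := by group
    rw [this, hc, inv_inv]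
  have key : ∀ y : G, y ∈ Subgroup.zpowers x → c * y * c⁻¹ ∈ Subgroup.zpowers x := by
    rintro _ ⟨j, rfl⟩
    change c * x ^ j * c⁻¹ ∈ _
    rw [← conj_zpow, hc]
    exact zpow_mem (inv_mem (Subgroup.mem_zpowers x)) j
  have hc1 : c ∈ Subgroup.normalizer ((Subgroup.zpowers x : Subgroup G) : Set G) := by
    rw [Subgroup.mem_normalizer_iff]
    have key2 : ∀ y : G, y ∈ Subgroup.zpowers x → c⁻¹ * y * c ∈ Subgroup.zpowers x := by
      rintro _ ⟨j, rfl⟩
      change c⁻¹ * x ^ j * c ∈ _
      have h2 : c⁻¹ * x * c = x⁻¹ := by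
        nth_rewrite 1 [← hcinv]
        group
      have h3 : c⁻¹ * x ^ j * c = (c⁻¹ * x * c) ^ j := by
        have := conj_zpow (a := c⁻¹) (b := x) (i := j)
        rw [inv_inv] at this
        exact this.symm
      rw [h3, h2]
      exact zpow_mem (inv_mem (Subgroup.mem_zpowers x)) j
    intro y
    constructor
    · exact key y
    · intro hy
      have := key2 _ hy
      have e : c⁻¹ * (c * y * c⁻¹) * c = y := by group
      rwa [e] at this
  -- an odd power of `c` centralizes `x`
  set k := (Subgroup.centralizer ((Subgroup.zpowers x : Subgroup G) : Set G)).relIndex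
    (Subgroup.normalizer ((Subgroup.zpowers x : Subgroup G) : Set G)) with hk
  have hkodd : Odd k := by rw [← Nat.not_even_iff_odd, even_iff_two_dvd]; exact h1
  have hn : ((Subgroup.centralizer ((Subgroup.zpowers x : Subgroup G) : Set G)).subgroupOf
      (Subgroup.normalizer ((Subgroup.zpowers x : Subgroup G) : Set G))).Normal := by
    constructor
    intro y hy g
    rw [Subgroup.mem_subgroupOf, Subgroup.mem_centralizer_iff] at hy ⊢
    intro z hz
    have hg := g.2
    rw [Subgroup.mem_normalizer_iff] at hg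
    have hz' : (g : G)⁻¹ * z * g ∈ Subgroup.zpowers x := by
      rw [hg]
      have e : (g : G) * ((g : G)⁻¹ * z * g) * (g : G)⁻¹ = z := by group
      rw [e]; exact hz
    have h3 := hy _ hz'
    change z * ((g : G) * y * (g : G)⁻¹) = ((g : G) * y * (g : G)⁻¹) * z
    have e1 : z * ((g : G) * y * (g : G)⁻¹) = g * (((g : G)⁻¹ * z * g) * y) * (g : G)⁻¹ := by group
    rw [e1, h3]
    group
  have hck : c ^ k ∈ Subgroup.centralizer ((Subgroup.zpowers x : Subgroup G) : Set G) := by
    have := Subgroup.pow_index_mem ((Subgroup.centralizer ((Subgroup.zpowers x : Subgroup G) : Set G)).subgroupOf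
      (Subgroup.normalizer ((Subgroup.zpowers x : Subgroup G) : Set G))) ⟨c, hc1⟩
    exact this
  have hpow : ∀ j : ℕ, c ^ (2 * j) * x * (c ^ (2 * j))⁻¹ = x := by
    intro j
    induction j with
    | zero => simp
    | succ j ih =>
      have : c ^ (2 * (j + 1)) * x * (c ^ (2 * (j + 1)))⁻¹ =
          c ^ (2 * j) * (c * (c * x * c⁻¹) * c⁻¹) * (c ^ (2 * j))⁻¹ := by
        rw [Nat.mul_succ, pow_add, sq]; group
      rw [this, hc, hcinv, ih]
  obtain ⟨j, hj⟩ := hkodd
  have h5 : c ^ k * x * (c ^ k)⁻¹ = x⁻¹ := by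
    have : c ^ k * x * (c ^ k)⁻¹ = c * (c ^ (2 * j) * x * (c ^ (2 * j))⁻¹) * c⁻¹ := by
      rw [hj, pow_succ']; group
    rw [this, hpow, hc]
  have h6 := Subgroup.mem_centralizer_iff.mp hck x (Subgroup.mem_zpowers x)
  rw [← h6, mul_inv_cancel_right] at h5
  apply hx1
  apply Cfsg.Agent.H2.RealElt.eq_one_of_sq_odd _ hodd
  rw [sq]
  nth_rewrite 1 [h5]
  exact inv_mul_cancel x

end Cfsg.Agent.S4049
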