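import Cfsg.Statements.S4050
import Cfsg.Agent.H2.PiHom

set_option autoImplicit false
open Cfsg

namespace Cfsg.Agent.S4050


theorem fin_to_sep {G : Type*} [Group G] (π : Set ℕ)
    (h : ∃ (n : ℕ) (H : Fin (n + 1) → Subgroup G), H 0 = ⊥ ∧ H (Fin.last n) = ⊤ ∧ Monotone H ∧ (∀ i, (H i).Normal) ∧
      ∀ i : Fin n, (∀ q : ℕ, q.Prime → q ∣ (H i.castSucc).relIndex (H i.succ) → q ∈ π) ∨
        (∀ q : ℕ, q.Prime → q ∣ (H i.castSucc).relIndex (H i.succ) → q ∉ π)) : Cfsg.Agent.H2.PiHom.Sep π G := by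
  obtain ⟨n, H, h0, h1, hm, hn, hc⟩ := h
  refine ⟨n, fun i => if h : i < n + 1 then H ⟨i, h⟩ else ⊤, ?_, ?_, ?_, ?_, ?_⟩
  · simp only [Nat.succ_pos, dif_pos]
    exact h0
  · simp only [Nat.lt_succ_self, dif_pos]
    exact h1
  · intro i hi
    have h2 : i < n + 1 := by omega
    have h3 : i + 1 < n + 1 := by omega
    simp only [dif_pos h2, dif_pos h3]
    exact hm (by simp [Fin.le_def])
  · intro i
    by_cases h2 : i < n + 1
    · simp only [dif_pos h2]; exact hn _
    · simp only [dif_neg h2]; infer_instance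
  · intro i hi
    have h2 : i < n + 1 := by omega
    have h3 : i + 1 < n + 1 := by omega
    simp only [dif_pos h2, dif_pos h3]
    exact hc ⟨i, hi⟩

/-- Let π be a set of primes and G a finite group. The π-elements of G (elements whose order is divisible only by primes of π) form a subgroup if and only if G is π-separable (it has a chain of normal subgroups from 1 to G with each successive index divisible only by primes in π or only by primes outside π) and N_G(H)/C_G(H) is a π'-group for every nontrivial π'-subgroup H of G. -/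
theorem result {G : Type*} [Group G] [Finite G] (π : Set ℕ)
    (hπ : ∀ p ∈ π, p.Prime) :
    (∃ K : Subgroup G, ∀ x : G, x ∈ K ↔ ∀ p : ℕ, p.Prime → p ∣ orderOf x → p ∈ π) ↔
    ((∃ (n : ℕ) (H : Fin (n + 1) → Subgroup G), H 0 = ⊥ ∧ H (Fin.last n) = ⊤ ∧ Monotone H ∧ (∀ i, (H i).Normal) ∧
      ∀ i : Fin n, (∀ q : ℕ, q.Prime → q ∣ (H i.castSucc).relIndex (H i.succ) → q ∈ π) ∨
        (∀ q : ℕ, q.Prime → q ∣ (H i.castSucc).relIndex (H i.succ) → q ∉ π)) ∧
     (∀ H : Subgroup G, H ≠ ⊥ → (∀ p : ℕ, p.Prime → p ∣ Nat.card ↥H → p ∉ π) →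
        ∀ p : ℕ, p.Prime → p ∣ (Subgroup.centralizer (H : Set G)).relIndex (Subgroup.normalizer (H : Set G)) → p ∉ π)) := by
  constructor
  · rintro ⟨K, hK⟩
    obtain ⟨hKn, hKc, hKi⟩ := Cfsg.Agent.H2.PiHom.of_closed (π := π) hK
    constructor
    · refine ⟨2, ![⊥, K, ⊤], rfl, rfl, ?_, ?_, ?_⟩
      · intro i j hij
        fin_cases i <;> fin_cases j <;> simp_all
      · intro i
        fin_cases i
        · exact (inferInstance : (⊥ : Subgroup G).Normal)
        · exact hKn
        · exact (inferInstance : (⊤ : Subgroup G).Normal)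
      · intro i
        fin_cases i
        · left
          show ∀ q : ℕ, q.Prime → q ∣ (⊥ : Subgroup G).relIndex K → q ∈ π
          rw [Subgroup.relIndex_bot_left]
          exact hKc
        · right
          show ∀ q : ℕ, q.Prime → q ∣ K.relIndex (⊤ : Subgroup G) → q ∉ π
          rw [Subgroup.relIndex_top_right]
          exact hKi
    · intro H _ hH p hp hd hpπ
      haveI : Fact p.Prime := ⟨hp⟩
      obtain ⟨S⟩ : Nonempty (Sylow p (Subgroup.normalizer (H : Set G))) := inferInstance
      have h1 : (S : Subgroup (Subgroup.normalizer (H : Set G))) ≤ (Subgroup.centralizer (H : Set G)).subgroupOf (Subgroup.normalizer (H : Set G)) := by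
        intro s hs
        rw [Subgroup.mem_subgroupOf, Subgroup.mem_centralizer_iff]
        intro h hh
        have hsK : (s : G) ∈ K := by
          rw [hK]
          obtain ⟨k, hk⟩ := S.2 ⟨s, hs⟩
          have h3 : (s : G) ^ p ^ k = 1 := congrArg (fun z : S => ((z : Subgroup.normalizer (H : Set G)) : G)) hk
          exact (Cfsg.Agent.H2.PiHom.Nm.pow hp hpπ k).of_dvd (_root_.orderOf_dvd_of_pow_eq_one h3)
        have h2 : (s : G) * h * (s : G)⁻¹ ∈ H := (Subgroup.mem_normalizer_iff.1 s.2 h).1 hh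
        have h3 : (s : G) * h * (s : G)⁻¹ * h⁻¹ ∈ H := H.mul_mem h2 (H.inv_mem hh)
        have h4 : (s : G) * h * (s : G)⁻¹ * h⁻¹ ∈ K := by
          have h5 := K.mul_mem hsK (hKn.conj_mem _ (K.inv_mem hsK) h)
          have h6 : (s : G) * (h * (s : G)⁻¹ * h⁻¹) = (s : G) * h * (s : G)⁻¹ * h⁻¹ := by group
          rwa [h6] at h5
        have h5 : orderOf ((s : G) * h * (s : G)⁻¹ * h⁻¹) = 1 := by
          by_contra hne
          obtain ⟨q, hq, hqd⟩ := Nat.exists_prime_and_dvd hne
          have h6 := (hK _).1 h4 q hq hqd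
          have h7 : orderOf ((s : G) * h * (s : G)⁻¹ * h⁻¹) ∣ Nat.card H := by
            have := orderOf_dvd_natCard (⟨_, h3⟩ : H)
            rwa [← Subgroup.orderOf_coe] at this
          exact hH q hq (hqd.trans h7) h6
        have h6 := orderOf_eq_one_iff.1 h5
        rw [mul_inv_eq_one, mul_inv_eq_iff_eq_mul] at h6
        exact h6.symm
      exact S.not_dvd_index (hd.trans (Subgroup.index_dvd_of_le h1))
  · rintro ⟨hs, hhom⟩
    exact Cfsg.Agent.H2.PiHom.closed (fin_to_sep π hs) hhom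

end Cfsg.Agent.S4050
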