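import Cfsg.Statements.S4051
import Cfsg.Agent.H2.PiHom

set_option autoImplicit false
open Cfsg

namespace Cfsg.Agent.S4051

/-- Let π be a set of primes and G a finite group such that N_G(H)/C_G(H) is a π'-group for every nontrivial π'-subgroup H of G. If K is a normal subgroup of G such that the π-elements of K form a subgroup and the π-elements of G/K form a subgroup, then the π-elements of G form a subgroup. -/
theorem result {G : Type*} [Group G] [Finite G] (π : Set ℕ)
    (hπ : ∀ p ∈ π, p.Prime) (hhom : (∀ H : Subgroup G, H ≠ ⊥ → (∀ p : ℕ, p.Prime → p ∣ Nat.card ↥H → p ∉ π) →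
        ∀ p : ℕ, p.Prime → p ∣ (Subgroup.centralizer (H : Set G)).relIndex (Subgroup.normalizer (H : Set G)) → p ∉ π))
    (K : Subgroup G) [K.Normal]
    (hK : ∃ L : Subgroup ↥K, ∀ x : ↥K, x ∈ L ↔ ∀ p : ℕ, p.Prime → p ∣ orderOf x → p ∈ π)
    (hQ : ∃ L : Subgroup (G ⧸ K), ∀ x : G ⧸ K, x ∈ L ↔ ∀ p : ℕ, p.Prime → p ∣ orderOf x → p ∈ π) :
    (∃ K : Subgroup G, ∀ x : G, x ∈ K ↔ ∀ p : ℕ, p.Prime → p ∣ orderOf x → p ∈ π) := by
  obtain ⟨L, hL⟩ := hK
  obtain ⟨M, hM⟩ := hQ
  obtain ⟨hLn, hLc, hLi⟩ := Cfsg.Agent.H2.PiHom.of_closed (π := π) hL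
  obtain ⟨hMn, hMc, hMi⟩ := Cfsg.Agent.H2.PiHom.of_closed (π := π) hM
  set σ := QuotientGroup.mk' K with hσ
  have hσs : Function.Surjective σ := QuotientGroup.mk'_surjective K
  have hLK : L.map K.subtype ≤ K := Subgroup.map_subtype_le L
  have hA : (L.map K.subtype).Normal := by
    refine ⟨?_⟩
    rintro _ ⟨l, hl, rfl⟩ g
    have h1 : g * (l : G) * g⁻¹ ∈ K := Subgroup.Normal.conj_mem inferInstance _ l.2 g
    refine ⟨⟨_, h1⟩, ?_, rfl⟩
    rw [SetLike.mem_coe, hL] at hl ⊢
    have h2 : orderOf (⟨g * (l : G) * g⁻¹, h1⟩ : K) = orderOf l := by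
      rw [← Subgroup.orderOf_coe, ← Subgroup.orderOf_coe l]
      exact orderOf_injective (MulAut.conj g).toMonoidHom (MulAut.conj g).injective (l : G)
    rw [h2]; exact hl
  have hKB : K ≤ M.comap σ := fun x hx => by
    show σ x ∈ M
    rw [show σ x = 1 from (QuotientGroup.eq_one_iff _).2 hx]
    exact M.one_mem
  let C : ℕ → Subgroup G := fun i => match i with
    | 0 => ⊥
    | 1 => L.map K.subtype
    | 2 => K
    | 3 => M.comap σ
    | _ => ⊤
  apply Cfsg.Agent.H2.PiHom.closed (π := π) _ hhom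
  refine ⟨4, C, rfl, rfl, ?_, ?_, ?_⟩
  · intro i hi
    interval_cases i
    · exact bot_le
    · exact hLK
    · exact hKB
    · exact le_top
  · intro i
    match i with
    | 0 => exact (inferInstance : (⊥ : Subgroup G).Normal)
    | 1 => exact hA
    | 2 => exact (inferInstance : K.Normal)
    | 3 => exact hMn.comap σ
    | (n + 4) => exact (inferInstance : (⊤ : Subgroup G).Normal)
  · intro i hi
    interval_cases i
    · left
      show Cfsg.Agent.H2.PiHom.Nm π ((⊥ : Subgroup G).relIndex (L.map K.subtype))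
      rw [Subgroup.relIndex_bot_left, Subgroup.card_map_of_injective K.subtype_injective]
      exact hLc
    · right
      show Cfsg.Agent.H2.PiHom.Nm πᶜ ((L.map K.subtype).relIndex K)
      have h1 : (L.map K.subtype).relIndex K = L.index := by
        show ((L.map K.subtype).subgroupOf K).index = L.index
        congr 1
        exact Subgroup.comap_map_eq_self_of_injective K.subtype_injective L
      rw [h1]; exact hLi
    · left
      show Cfsg.Agent.H2.PiHom.Nm π (K.relIndex (M.comap σ))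
      have h1 := Cfsg.Agent.H2.PiHom.card_rel hKB
      rw [Cfsg.Agent.Lib.Cores.card_comap_eq σ hσs, QuotientGroup.ker_mk'] at h1
      rw [Nat.eq_of_mul_eq_mul_left Nat.card_pos h1]
      exact hMc
    · right
      show Cfsg.Agent.H2.PiHom.Nm πᶜ ((M.comap σ).relIndex (⊤ : Subgroup G))
      rw [Subgroup.relIndex_top_right, Subgroup.index_comap_of_surjective M hσs]
      exact hMi

end Cfsg.Agent.S4051
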