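import Cfsg.Statements.S4056
import Mathlib
import Cfsg.Agent.H2.PUtil
import Cfsg.Agent.H2.UniqSub

set_option autoImplicit false
open Cfsg

namespace Cfsg.Agent.S4056

open Subgroup
open scoped commutatorElement

/-- In a finite 2-group of nilpotency class at most 2 and exponent dividing 4, the Frattini subgroup lies in the centre and is elementary abelian. -/
theorem result {P : Type*} [Group P] [Finite P] (hP : IsPGroup 2 P)
    (hcl : Group.nilpotencyClass P ≤ 2) (hexp : Monoid.exponent P ∣ 4) :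
    frattini P ≤ Subgroup.center P ∧ Cfsg.IsElementaryAbelian 2 (frattini P) := by
  classical
  -- commutators are central
  have hcent : ∀ x y : P, ⁅x, y⁆ ∈ center P := by
    have h1 : Subgroup.upperCentralSeries P 2 = ⊤ := by
      have : Group.IsNilpotent P := hP.isNilpotent
      rw [← Subgroup.upperCentralSeries_eq_top_iff_nilpotencyClass_le] at hcl
      exact hcl
    intro x y
    have h2 : x ∈ Subgroup.upperCentralSeries P 2 := by rw [h1]; trivial
    have h3 := (Subgroup.mem_upperCentralSeries_succ_iff (n := 1)).1 h2 y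
    rw [Subgroup.upperCentralSeries_one] at h3
    exact h3
  have h4 : ∀ x : P, x ^ 4 = 1 := fun x => by
    obtain ⟨k, hk⟩ := hexp
    rw [hk, pow_mul, Monoid.pow_exponent_eq_one, one_pow]
  have hyx : ∀ x y : P, y * x = ⁅y, x⁆ * (x * y) := by
    intro x y
    rw [commutatorElement_def]; group
  have hc2 : ∀ x y : P, ⁅y, x⁆ ^ 2 = 1 := by
    intro x y
    have h5 := H2.UniqSub.mul_pow_of_central (c := ⁅y, x⁆)
      (fun z => (mem_center_iff.1 (hcent y x) z).symm) (hyx x y) 4
    rw [h4, h4, h4, one_mul, one_mul] at h5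
    have h6 : Nat.choose 4 2 = 4 + 2 := by decide
    rw [h6, pow_add, h4, one_mul] at h5
    exact h5.symm
  have hsq : ∀ x : P, x ^ 2 ∈ center P := by
    intro x
    rw [mem_center_iff]
    intro y
    have hc := fun z => mem_center_iff.1 (hcent y x) z
    calc y * x ^ 2 = (y * x) * x := by rw [pow_two]; group
      _ = ⁅y, x⁆ * (x * (y * x)) := by rw [hyx x y]; group
      _ = ⁅y, x⁆ * (x * (⁅y, x⁆ * (x * y))) := by rw [← hyx x y]
      _ = ⁅y, x⁆ * (x * ⁅y, x⁆) * (x * y) := by group
      _ = ⁅y, x⁆ ^ 2 * (x ^ 2 * y) := by rw [hc x, pow_two, pow_two]; group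
      _ = x ^ 2 * y := by rw [hc2, one_mul]
  let N : Subgroup P :=
    { carrier := {z | z ∈ center P ∧ z ^ 2 = 1}
      one_mem' := ⟨one_mem _, one_pow 2⟩
      mul_mem' := by
        rintro a b ⟨ha, ha'⟩ ⟨hb, hb'⟩
        refine ⟨mul_mem ha hb, ?_⟩
        have : Commute a b := (mem_center_iff.1 hb a)
        rw [this.mul_pow, ha', hb', one_mul]
      inv_mem' := by
        rintro a ⟨ha, ha'⟩
        exact ⟨inv_mem ha, by rw [inv_pow, ha', inv_one]⟩ }
  have hN : N.Normal := ⟨by
    rintro n ⟨hn, hn'⟩ g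
    have : g * n * g⁻¹ = n := by rw [mem_center_iff.1 hn g]; group
    rw [this]; exact ⟨hn, hn'⟩⟩
  have hle : frattini P ≤ N := by
    apply Lib.Nilp.frattini_le_of_elementary_quotient (p := 2) N
    · rw [commutator_def, commutator_le]
      intro a _ b _
      exact ⟨hcent a b, hc2 b a⟩
    · intro x
      refine ⟨hsq x, ?_⟩
      rw [← pow_mul]; exact h4 x
  refine ⟨fun x hx => (hle hx).1, ?_, fun a ha => (hle ha).2⟩
  rw [H2.PUtil.isMulCommutative_iff]
  intro a ha b hb
  exact mem_center_iff.1 (hle hb).1 a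

end Cfsg.Agent.S4056
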