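import Cfsg.Statements.S4065
import Mathlib

set_option autoImplicit false
open Cfsg

namespace Cfsg.Agent.S4065

theorem sl_ct {F : Type*} [Field F] (a b c : Matrix.SpecialLinearGroup (Fin 2) F)
    (ha : a ∉ Subgroup.center (Matrix.SpecialLinearGroup (Fin 2) F)) (hab : a * b = b * a) (hac : a * c = c * a) :
    b * c = c * b := by
  have e1 := congrArg (fun m : Matrix.SpecialLinearGroup (Fin 2) F => (m : Matrix (Fin 2) (Fin 2) F)) hab
  have e2 := congrArg (fun m : Matrix.SpecialLinearGroup (Fin 2) F => (m : Matrix (Fin 2) (Fin 2) F)) hac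
  simp only [Matrix.SpecialLinearGroup.coe_mul] at e1 e2
  have b00 := congrFun (congrFun e1 0) 0
  have b01 := congrFun (congrFun e1 0) 1
  have b10 := congrFun (congrFun e1 1) 0
  have c00 := congrFun (congrFun e2 0) 0
  have c01 := congrFun (congrFun e2 0) 1
  have c10 := congrFun (congrFun e2 1) 0
  simp only [Matrix.mul_apply, Fin.sum_univ_two] at b00 b01 b10 c00 c01 c10
  have hne : (a : Matrix (Fin 2) (Fin 2) F) 0 1 ≠ 0 ∨ (a : Matrix (Fin 2) (Fin 2) F) 1 0 ≠ 0 ∨
      (a : Matrix (Fin 2) (Fin 2) F) 0 0 - (a : Matrix (Fin 2) (Fin 2) F) 1 1 ≠ 0 := by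
    by_contra hno
    push Not at hno
    obtain ⟨h1, h2, h3⟩ := hno
    apply ha
    rw [Matrix.SpecialLinearGroup.mem_center_iff]
    have hd := a.2
    rw [Matrix.det_fin_two, h1, h2] at hd
    refine ⟨(a : Matrix (Fin 2) (Fin 2) F) 0 0, ?_, ?_⟩
    · rw [Fintype.card_fin]
      linear_combination hd + (a : Matrix (Fin 2) (Fin 2) F) 0 0 * h3
    · ext i j
      fin_cases i <;> fin_cases j
      · simp
      · simp [h1]
      · simp [h2]
      · simp; linear_combination h3
  -- v × w = 0
  have key : (b : Matrix (Fin 2) (Fin 2) F) 0 1 * (c : Matrix (Fin 2) (Fin 2) F) 1 0 = (c : Matrix (Fin 2) (Fin 2) F) 0 1 * (b : Matrix (Fin 2) (Fin 2) F) 1 0 ∧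
      (b : Matrix (Fin 2) (Fin 2) F) 0 1 * ((c : Matrix (Fin 2) (Fin 2) F) 0 0 - (c : Matrix (Fin 2) (Fin 2) F) 1 1) =
        (c : Matrix (Fin 2) (Fin 2) F) 0 1 * ((b : Matrix (Fin 2) (Fin 2) F) 0 0 - (b : Matrix (Fin 2) (Fin 2) F) 1 1) ∧
      (b : Matrix (Fin 2) (Fin 2) F) 1 0 * ((c : Matrix (Fin 2) (Fin 2) F) 0 0 - (c : Matrix (Fin 2) (Fin 2) F) 1 1) =
        (c : Matrix (Fin 2) (Fin 2) F) 1 0 * ((b : Matrix (Fin 2) (Fin 2) F) 0 0 - (b : Matrix (Fin 2) (Fin 2) F) 1 1) := by
    generalize (a : Matrix (Fin 2) (Fin 2) F) 0 0 = p at *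
    generalize (a : Matrix (Fin 2) (Fin 2) F) 0 1 = q at *
    generalize (a : Matrix (Fin 2) (Fin 2) F) 1 0 = r at *
    generalize (a : Matrix (Fin 2) (Fin 2) F) 1 1 = s at *
    generalize (b : Matrix (Fin 2) (Fin 2) F) 0 0 = p' at *
    generalize (b : Matrix (Fin 2) (Fin 2) F) 0 1 = q' at *
    generalize (b : Matrix (Fin 2) (Fin 2) F) 1 0 = r' at *
    generalize (b : Matrix (Fin 2) (Fin 2) F) 1 1 = s' at *
    generalize (c : Matrix (Fin 2) (Fin 2) F) 0 0 = p'' at *
    generalize (c : Matrix (Fin 2) (Fin 2) F) 0 1 = q'' at *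
    generalize (c : Matrix (Fin 2) (Fin 2) F) 1 0 = r'' at *
    generalize (c : Matrix (Fin 2) (Fin 2) F) 1 1 = s'' at *
    have B1 : q * r' = q' * r := by linear_combination b00
    have B2 : q * (p' - s') = q' * (p - s) := by linear_combination -b01
    have B3 : r * (p' - s') = r' * (p - s) := by linear_combination b10
    have C1 : q * r'' = q'' * r := by linear_combination c00
    have C2 : q * (p'' - s'') = q'' * (p - s) := by linear_combination -c01
    have C3 : r * (p'' - s'') = r'' * (p - s) := by linear_combination c10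
    rcases hne with hq | hr | hs
    · have G1 : q' * r'' = q'' * r' := mul_left_cancel₀ hq (by linear_combination q' * C1 - q'' * B1)
      refine ⟨G1, mul_left_cancel₀ hq ?_, mul_left_cancel₀ hq ?_⟩
      · linear_combination q' * C2 - q'' * B2
      · linear_combination r' * C2 - r'' * B2 - (p - s) * G1
    · have G1 : q' * r'' = q'' * r' := mul_left_cancel₀ hr (by linear_combination r' * C1 - r'' * B1)
      refine ⟨G1, mul_left_cancel₀ hr ?_, mul_left_cancel₀ hr ?_⟩
      · linear_combination q' * C3 - q'' * B3 + (p - s) * G1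
      · linear_combination r' * C3 - r'' * B3
    · have G3 : r' * (p'' - s'') = r'' * (p' - s') := mul_left_cancel₀ hs (by linear_combination (p' - s') * C3 - (p'' - s'') * B3)
      refine ⟨mul_left_cancel₀ hs ?_, mul_left_cancel₀ hs ?_, G3⟩
      · linear_combination r' * C2 - r'' * B2 - q * G3
      · linear_combination (p' - s') * C2 - (p'' - s'') * B2
  obtain ⟨k1, k2, k3⟩ := key
  apply Subtype.ext
  ext i j
  simp only [Matrix.SpecialLinearGroup.coe_mul, Matrix.mul_apply, Fin.sum_univ_two]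
  fin_cases i <;> fin_cases j
  · simp only [Fin.zero_eta]; linear_combination k1
  · simp only [Fin.zero_eta, Fin.mk_one]; linear_combination -k2
  · simp only [Fin.zero_eta, Fin.mk_one]; linear_combination k3
  · simp only [Fin.mk_one]; linear_combination -k1

theorem center_bot {F : Type*} [Field F] [CharP F 2] : Subgroup.center (Matrix.SpecialLinearGroup (Fin 2) F) = ⊥ := by
  rw [eq_bot_iff]
  intro A hA
  rw [Matrix.SpecialLinearGroup.mem_center_iff] at hA
  obtain ⟨r, hr, hrA⟩ := hA
  rw [Fintype.card_fin] at hr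
  have h2 : (2 : F) = 0 := CharP.cast_eq_zero F 2
  have h1 : (r - 1) ^ 2 = 0 := by linear_combination hr + (1 - r) * h2
  have h3 : r = 1 := by
    have := pow_eq_zero_iff (two_ne_zero) |>.mp h1
    exact sub_eq_zero.mp this
  rw [Subgroup.mem_bot]
  apply Subtype.ext
  rw [← hrA, h3, map_one]
  rfl

/-- Let F be a finite field with 2ⁿ elements, n ≥ 2. In PSL₂(F) the centralizer of every element meets each of its conjugates by elements outside its normalizer trivially. -/
theorem result (n : ℕ) (hn : 2 ≤ n)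
    (x : Matrix.ProjectiveSpecialLinearGroup (Fin 2) (GaloisField 2 n)) :
    Cfsg.IsTISubset (Subgroup.centralizer ({x} : Set (Matrix.ProjectiveSpecialLinearGroup (Fin 2) (GaloisField 2 n))) :
      Set (Matrix.ProjectiveSpecialLinearGroup (Fin 2) (GaloisField 2 n))) := by
  obtain ⟨F, hF⟩ : ∃ F, F = GaloisField 2 n := ⟨_, rfl⟩
  have hcb := center_bot (F := GaloisField 2 n)
  -- commutative transitivity
  have hlift : ∀ a b : Matrix.SpecialLinearGroup (Fin 2) (GaloisField 2 n),
      ((QuotientGroup.mk a : Matrix.ProjectiveSpecialLinearGroup (Fin 2) (GaloisField 2 n)) * QuotientGroup.mk b = QuotientGroup.mk b * QuotientGroup.mk a) →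
      a * b = b * a := by
    intro a b h
    rw [← QuotientGroup.mk_mul, ← QuotientGroup.mk_mul, QuotientGroup.eq, hcb, Subgroup.mem_bot, inv_mul_eq_one] at h
    exact h
  have hct : ∀ a b c : Matrix.ProjectiveSpecialLinearGroup (Fin 2) (GaloisField 2 n), a ≠ 1 → a * b = b * a → a * c = c * a → b * c = c * b := by
    intro a b c ha hab hac
    obtain ⟨a, rfl⟩ := QuotientGroup.mk_surjective a
    obtain ⟨b, rfl⟩ := QuotientGroup.mk_surjective b
    obtain ⟨c, rfl⟩ := QuotientGroup.mk_surjective c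
    have h1 := sl_ct a b c (fun h => ha ((QuotientGroup.eq_one_iff a).mpr h)) (hlift a b hab) (hlift a c hac)
    rw [← QuotientGroup.mk_mul, h1, QuotientGroup.mk_mul]
  intro g hg y hy hgy
  by_contra hy1
  apply hg
  by_cases hx1 : x = 1
  · subst hx1
    have h1 : (Subgroup.centralizer ({1} : Set (Matrix.ProjectiveSpecialLinearGroup (Fin 2) (GaloisField 2 n)))) = ⊤ := by
      rw [eq_top_iff]
      intro u _
      rw [Subgroup.mem_centralizer_singleton_iff, mul_one, one_mul]
    rw [h1, Subgroup.normalizer_eq_top]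
    exact Subgroup.mem_top g
  have hy' : y * x = x * y := Subgroup.mem_centralizer_singleton_iff.mp hy
  have hgy' : g * y * g⁻¹ * x = x * (g * y * g⁻¹) := Subgroup.mem_centralizer_singleton_iff.mp hgy
  have hgy1 : g * y * g⁻¹ ≠ 1 := by
    intro h
    apply hy1
    have : y = g⁻¹ * (g * y * g⁻¹) * g := by group
    rw [this, h]; group
  have hX : ∀ w : Matrix.ProjectiveSpecialLinearGroup (Fin 2) (GaloisField 2 n), w ≠ 1 → w * x = x * w →
      ∀ u, (u * w = w * u ↔ u * x = x * u) := by
    intro w hw hwx u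
    constructor
    · intro h
      exact hct w u x hw h.symm hwx
    · intro h
      exact hct x u w hx1 h.symm hwx.symm
  change g ∈ Subgroup.normalizer _
  rw [Subgroup.mem_normalizer_iff]
  intro u
  rw [Subgroup.mem_centralizer_singleton_iff, Subgroup.mem_centralizer_singleton_iff]
  rw [← hX y hy1 hy' u, ← hX (g * y * g⁻¹) hgy1 hgy' (g * u * g⁻¹)]
  constructor
  · intro h
    calc g * u * g⁻¹ * (g * y * g⁻¹) = g * (u * y) * g⁻¹ := by group
      _ = g * (y * u) * g⁻¹ := by rw [h]
      _ = _ := by group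
  · intro h
    calc u * y = g⁻¹ * (g * u * g⁻¹ * (g * y * g⁻¹)) * g := by group
      _ = g⁻¹ * (g * y * g⁻¹ * (g * u * g⁻¹)) * g := by rw [h]
      _ = _ := by group

end Cfsg.Agent.S4065
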