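import Cfsg.Statements.S4066
import Cfsg.Agent.Lib.Cores
import Cfsg.Agent.Lib.BaerSuzuki
import Cfsg.Agent.H2.RealElt

set_option autoImplicit false
open Cfsg

namespace Cfsg.Agent.S4066

open Subgroup
open scoped Pointwise

theorem ti_aux {G : Type*} [Group G] {x z g : G}
    (h : Cfsg.IsTISubset (centralizer ({x} : Set G) : Set G)) (hz : z ≠ 1)
    (h1 : z ∈ centralizer ({x} : Set G)) (h2 : g * z * g⁻¹ ∈ centralizer ({x} : Set G)) :
    g ∈ normalizer (centralizer ({x} : Set G) : Set G) := by
  by_contra hg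
  exact hz (h g hg z h1 h2)

/-- Let G be a finite group in which the centralizer of every element meets each of its conjugates by elements outside its normalizer trivially. Then any two distinct Sylow p-subgroups of G, for any prime p, intersect trivially. -/
theorem result {G : Type*} [Group G] [Finite G] (hTI : ∀ x : G, Cfsg.IsTISubset (Subgroup.centralizer ({x} : Set G) : Set G))
    {p : ℕ} [Fact p.Prime] (P Q : Sylow p G) (hPQ : P ≠ Q) : (P : Subgroup G) ⊓ (Q : Subgroup G) = ⊥ := by
  have hpp : p.Prime := Fact.out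
  by_contra hne
  obtain ⟨⟨x, hx⟩, hx1⟩ := Subgroup.ne_bot_iff_exists_ne_one.mp hne
  obtain ⟨hxP, hxQ⟩ := mem_inf.mp hx
  have hx1' : x ≠ 1 := fun h => hx1 (Subtype.ext h)
  have hPnt : Nontrivial (P : Subgroup G) := ⟨⟨x, hxP⟩, 1, fun h => hx1' (congrArg Subtype.val h)⟩
  have hcn : Nontrivial (center (P : Subgroup G)) := P.isPGroup'.center_nontrivial
  obtain ⟨⟨⟨z, hzP⟩, hzc⟩, hz1⟩ := exists_ne (1 : center (P : Subgroup G))
  have hz1' : z ≠ 1 := fun h => hz1 (Subtype.ext (Subtype.ext h))
  have hzc' : ∀ y ∈ (P : Subgroup G), y * z = z * y := fun y hy =>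
    congrArg Subtype.val (mem_center_iff.mp hzc ⟨y, hy⟩)
  obtain ⟨g, hg⟩ := MulAction.exists_smul_eq G P Q
  have hQ : ∀ y, y ∈ (Q : Subgroup G) → g⁻¹ * y * g ∈ (P : Subgroup G) := by
    intro y hy
    rw [← hg, Sylow.coe_subgroup_smul] at hy
    obtain ⟨w, hw, hwy⟩ := hy
    have : g * w * g⁻¹ = y := hwy
    rw [← this]
    have e : g⁻¹ * (g * w * g⁻¹) * g = w := by group
    rw [e]; exact hw
  -- `g` normalizes `C(z)`
  have hgN : g ∈ normalizer (centralizer ({z} : Set G) : Set G) := by
    apply ti_aux (hTI z) (z := g⁻¹ * x * g)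
    · intro h
      apply hx1'
      have e : x = g * (g⁻¹ * x * g) * g⁻¹ := by group
      rw [e, h]; group
    · rw [mem_centralizer_singleton_iff]
      exact hzc' _ (hQ x hxQ)
    · have e : g * (g⁻¹ * x * g) * g⁻¹ = x := by group
      rw [e, mem_centralizer_singleton_iff]
      exact hzc' _ hxP
  set C := centralizer ({z} : Set G) with hC
  have hPC : (P : Subgroup G) ≤ C := by
    intro y hy
    rw [hC, mem_centralizer_singleton_iff]
    exact hzc' y hy
  have hQC : (Q : Subgroup G) ≤ C := by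
    intro y hy
    have h1 := hPC (hQ y hy)
    have h2 := (mem_normalizer_iff.mp hgN _).mp h1
    have e : g * (g⁻¹ * y * g) * g⁻¹ = y := by group
    rwa [e] at h2
  -- `C` normalizes `C(y)` for `y ∈ C`
  have hnorm : ∀ y ∈ C, ∀ c ∈ C, c ∈ normalizer (centralizer ({y} : Set G) : Set G) := by
    intro y hy c hc
    rw [hC, mem_centralizer_singleton_iff] at hy hc
    apply ti_aux (hTI y) (z := z) hz1'
    · rw [mem_centralizer_singleton_iff]; exact hy.symm
    · have e : c * z * c⁻¹ = z := by rw [hc, mul_inv_cancel_right]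
      rw [e, mem_centralizer_singleton_iff]; exact hy.symm
  -- conjugates of `y` in `C` commute
  have hcomm : ∀ y ∈ C, ∀ c ∈ C, (c * y * c⁻¹) * y = y * (c * y * c⁻¹) := by
    intro y hy c hc
    have h1 := (mem_normalizer_iff.mp (hnorm y hy c hc) y).mp
      (by rw [mem_centralizer_singleton_iff])
    rw [mem_centralizer_singleton_iff] at h1
    exact h1
  have hp : ∀ y : C, (∃ k, orderOf y = p ^ k) → y ∈ pCore p C := by
    rintro y ⟨k, hk⟩
    apply Cfsg.Agent.Lib.BaerSuzuki.mem_pCore
    intro c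
    have hcom : Commute (c * y * c⁻¹) y := Subtype.ext (hcomm y y.2 c c.2)
    have hy1 : y ^ (p ^ k) = 1 := by rw [← hk]; exact pow_orderOf_eq_one y
    have hn : zpowers (c * y * c⁻¹) ≤ normalizer ((zpowers y : Subgroup C) : Set C) := by
      rw [zpowers_le, mem_normalizer_iff]
      have key : ∀ w ∈ zpowers y, (c * y * c⁻¹) * w = w * (c * y * c⁻¹) := by
        rintro _ ⟨j, rfl⟩
        exact (hcom.zpow_right j).eq
      intro w
      constructor
      · intro hw
        rw [key w hw, mul_inv_cancel_right]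
        exact hw
      · intro hw
        have h1 := key _ hw
        have h2 : (c * y * c⁻¹) * w * (c * y * c⁻¹)⁻¹ = w := by
          have h3 : (c * y * c⁻¹) * ((c * y * c⁻¹) * w * (c * y * c⁻¹)⁻¹) = (c * y * c⁻¹) * w := by
            rw [h1]; group
          exact mul_left_cancel h3
        rwa [h2] at hw
    have hsup : IsPGroup p (zpowers y ⊔ zpowers (c * y * c⁻¹) : Subgroup C) :=
      (Cfsg.Agent.H2.RealElt.isPGroup_zpowers hy1).to_sup_of_normal_left'
        (Cfsg.Agent.H2.RealElt.isPGroup_zpowers (k := k)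
          (by rw [conj_pow, hy1, mul_one, mul_inv_cancel])) hn
    apply hsup.to_le
    rw [closure_le]
    rintro w (rfl | rfl)
    · exact mem_sup_left (mem_zpowers _)
    · exact mem_sup_right (mem_zpowers _)
  have hsyl : ∀ R : Sylow p G, (R : Subgroup G) ≤ C → (R : Subgroup G) = (pCore p C).map C.subtype := by
    intro R hR
    have h1 : (R : Subgroup G) ≤ (pCore p C).map C.subtype := by
      intro y hy
      obtain ⟨k, hk⟩ := (IsPGroup.iff_orderOf.mp R.isPGroup') ⟨y, hy⟩
      rw [← orderOf_coe] at hk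
      exact ⟨⟨y, hR hy⟩, hp ⟨y, hR hy⟩ ⟨k, by rw [← orderOf_coe]; exact hk⟩, rfl⟩
    have h2 : IsPGroup p ((pCore p C).map C.subtype) :=
      (Cfsg.Agent.Lib.Cores.pCore_isPGroup p).map _
    exact (R.is_maximal' h2 h1).symm
  apply hPQ
  exact Sylow.ext ((hsyl P hPC).trans (hsyl Q hQC).symm)

end Cfsg.Agent.S4066
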