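import Cfsg.Statements.S4067
import Mathlib
import Cfsg.Agent.H2.AutOrb

set_option autoImplicit false
open Cfsg

namespace Cfsg.Agent.S4067

open Subgroup Cfsg.Agent.Lib Cfsg.Agent.H2.AutOrb Cfsg.Agent.Lib.PGrpA
open scoped commutatorElement

theorem cent_facts {G : Type*} [Group G] [Finite G] {p : ℕ} (hp : p.Prime) (hmin : ∀ d, d ∣ Nat.card G → d ≠ 1 → p ≤ d)
    (hG' : Nat.card (_root_.commutator G) = p) (hGZ : _root_.commutator G ≤ center G) {x : G} (hx : x ∉ center G) :
    (centralizer ({x} : Set G)).Normal ∧ (centralizer ({x} : Set G)).index = p ∧ center G ≤ centralizer ({x} : Set G) ∧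
      center G ≠ centralizer ({x} : Set G) := by
  refine ⟨⟨?_⟩, index_cent hmin hG' hx, center_le_centralizer _, ?_⟩
  · intro c hc g
    have h1 : g * c * g⁻¹ = (g * c * g⁻¹ * c⁻¹) * c := by group
    rw [h1]
    exact mul_mem (center_le_centralizer _ (hGZ (commutator_mem_commutator (mem_top _) (mem_top _)))) hc
  · intro h
    apply hx
    rw [h, mem_centralizer_iff]
    intro y hy
    rw [Set.mem_singleton_iff] at hy
    rw [hy]

theorem eq_of_card_two {G : Type*} [Group G] {N : Subgroup G} (hN : Nat.card N = 2) {a b : G} (ha : a ∈ N) (hb : b ∈ N)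
    (ha1 : a ≠ 1) (hb1 : b ≠ 1) : a = b := by
  classical
  haveI : Finite N := Nat.finite_of_card_ne_zero (by rw [hN]; norm_num)
  cases nonempty_fintype N
  by_contra hne
  have h3 : ({1, ⟨a, ha⟩, ⟨b, hb⟩} : Finset N).card = 3 := by
    apply Finset.card_eq_three.mpr
    refine ⟨1, ⟨a, ha⟩, ⟨b, hb⟩, fun h => ha1 (congrArg Subtype.val h).symm, fun h => hb1 (congrArg Subtype.val h).symm,
      fun h => hne (congrArg Subtype.val h), rfl⟩
  have h4 := Finset.card_le_univ ({1, ⟨a, ha⟩, ⟨b, hb⟩} : Finset N)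
  rw [h3, ← Nat.card_eq_fintype_card, hN] at h4
  omega

theorem exists_odd {G : Type*} [Group G] [Finite G] {p : ℕ} (hp : p.Prime) (hp2 : p ≠ 2) (hcl2 : Class2 G)
    (hcp : ∀ x y : G, ⁅x, y⁆ ^ p = 1) (hxp : ∀ x : G, x ^ p ∈ center G)
    (hA : ∀ w ∈ center G, w ^ p = 1 → w ∈ _root_.commutator G) (hG' : Nat.card (_root_.commutator G) = p)
    (hbig : p ^ 2 * Nat.card (center G) ≤ Nat.card G) : ∃ w : G, w ∉ center G ∧ ∀ g, g ∉ centralizer ({w} : Set G) → (g * w) ^ p = g ^ p := by
  have hmul : ∀ x y : G, (x * y) ^ p = x ^ p * y ^ p := by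
    intro x y
    rw [hcl2.mul_pow]
    obtain ⟨m, hm⟩ := odd_dvd_choose_two hp hp2 (dvd_refl p)
    rw [hm, pow_mul, hcp, one_pow, mul_one]
  let π : G →* G := { toFun := fun x => x ^ p, map_one' := one_pow p, map_mul' := hmul }
  have h1 : Nat.card π.range ≤ Nat.card (center G) := by
    apply card_le_of_le
    rintro _ ⟨x, rfl⟩
    exact hxp x
  have h2 : Nat.card π.ker * Nat.card π.range = Nat.card G := by
    rw [← index_ker π]
    exact card_mul_index _
  have h3 : ¬ π.ker ≤ center G := by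
    intro h
    have h4 : π.ker ≤ _root_.commutator G := fun x hx => hA x (h hx) hx
    have h5 := card_le_of_le h4
    rw [hG'] at h5
    have h6 : Nat.card G ≤ p * Nat.card (center G) := by rw [← h2]; exact Nat.mul_le_mul h5 h1
    have h7 := Nat.card_pos (α := center G)
    have h8 := hp.two_le
    nlinarith
  obtain ⟨w, hw1, hw2⟩ := SetLike.not_le_iff_exists.mp h3
  refine ⟨w, hw2, ?_⟩
  intro g _
  rw [hmul, show w ^ p = 1 from hw1, mul_one]

theorem exists_two {G : Type*} [Group G] [Finite G] (hcl2 : Class2 G)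
    (hcp : ∀ x y : G, ⁅x, y⁆ ^ 2 = 1) (hxp : ∀ x : G, x ^ 2 ∈ center G)
    (hA : ∀ w ∈ center G, w ^ 2 = 1 → w ∈ _root_.commutator G) (hG' : Nat.card (_root_.commutator G) = 2)
    {x y : G} (hxy : x * y ≠ y * x) : ∃ w : G, w ∉ center G ∧ ∀ g, g ∉ centralizer ({w} : Set G) → (g * w) ^ 2 = g ^ 2 := by
  classical
  obtain ⟨z, hz⟩ : ∃ z, z = ⁅y, x⁆ := ⟨_, rfl⟩
  have hzG : z ∈ _root_.commutator G := hz ▸ commutator_mem_commutator (mem_top _) (mem_top _)
  have hz1 : z ≠ 1 := fun h => hxy (commutatorElement_eq_one_iff_mul_comm.mp (hz ▸ h)).symm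
  have hz2 : z ^ 2 = 1 := hz ▸ hcp y x
  have hzc : z ∈ center G := hz ▸ hcl2 y x
  let σ : center G →* center G :=
    { toFun := fun c => c ^ 2
      map_one' := one_pow 2
      map_mul' := fun a b => (show Commute a b from Subtype.ext (mem_center_iff.mp b.2 a)).mul_pow 2 }
  have hker : Nat.card σ.ker ≤ 2 := by
    rw [← hG']
    apply Nat.card_le_card_of_injective (fun c : σ.ker => (⟨((c : center G) : G), hA _ c.1.2 (congrArg Subtype.val (show (c : center G) ^ 2 = 1 from c.2))⟩ : _root_.commutator G))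
    intro a b hab
    exact Subtype.ext (Subtype.ext (congrArg (fun t : _root_.commutator G => (t : G)) hab))
  have hidx : σ.range.index ≤ 2 := by
    have h1 : Nat.card σ.range * σ.range.index = Nat.card (center G) := card_mul_index _
    have h2 : Nat.card σ.ker * Nat.card σ.range = Nat.card (center G) := by
      rw [← index_ker σ]
      exact card_mul_index _
    rw [← h2, mul_comm] at h1
    have h3 := Nat.eq_of_mul_eq_mul_right Nat.card_pos h1
    rw [h3]; exact hker
  have hdich : ∀ a b : center G, a ∉ σ.range → b ∉ σ.range → a * b ∈ σ.range := by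
    intro a b ha hb
    have h1 : σ.range.index ≠ 0 := index_ne_zero_of_finite
    have h2 : σ.range.index ≠ 1 := by
      intro h
      rw [index_eq_one] at h
      exact ha (h ▸ mem_top a)
    exact (mul_mem_iff_of_index_two (by omega)).mpr (iff_of_false ha hb)
  -- a good element
  obtain ⟨u, hu, c, hc, huc⟩ : ∃ u : G, u ∉ center G ∧ ∃ c ∈ center G, u ^ 2 * z = c ^ 2 := by
    have hx : x ∉ center G := fun h => hxy (mem_center_iff.mp h y).symm
    have hy : y ∉ center G := fun h => hxy (mem_center_iff.mp h x)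
    have hxy' : x * y ∉ center G := by
      intro h
      apply hxy
      have h1 := mem_center_iff.mp h y
      have h2 : y * x * y = x * y * y := by rw [mul_assoc]; exact h1
      exact (mul_right_cancel h2).symm
    by_cases ha : (⟨x ^ 2 * z, mul_mem (hxp x) hzc⟩ : center G) ∈ σ.range
    · obtain ⟨c, hc⟩ := ha
      exact ⟨x, hx, c, c.2, (congrArg Subtype.val hc).symm⟩
    by_cases hb : (⟨y ^ 2 * z, mul_mem (hxp y) hzc⟩ : center G) ∈ σ.range
    · obtain ⟨c, hc⟩ := hb
      exact ⟨y, hy, c, c.2, (congrArg Subtype.val hc).symm⟩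
    obtain ⟨c, hc⟩ := hdich _ _ ha hb
    refine ⟨x * y, hxy', c, c.2, ?_⟩
    have h1 : (c : G) ^ 2 = (x ^ 2 * z) * (y ^ 2 * z) := congrArg Subtype.val hc
    rw [h1, hcl2.mul_pow, ← hz]
    have h2 : z * y ^ 2 = y ^ 2 * z := (mem_center_iff.mp hzc (y ^ 2)).symm
    have h3 : Nat.choose 2 2 = 1 := rfl
    rw [h3, pow_one]
    calc x ^ 2 * y ^ 2 * z * z = x ^ 2 * (y ^ 2 * z) * z := by simp only [mul_assoc]
      _ = x ^ 2 * (z * y ^ 2) * z := by rw [h2]
      _ = x ^ 2 * z * (y ^ 2 * z) := by simp only [mul_assoc]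
  have hcc := mem_center_iff.mp hc
  have hwZ : u * c⁻¹ ∉ center G := fun h => hu ((mul_mem_cancel_right (inv_mem hc)).mp h)
  have hw2 : (u * c⁻¹) ^ 2 = z := by
    rw [((show Commute u c from hcc u).inv_right).mul_pow, inv_pow, ← huc, mul_inv_rev, ← mul_assoc]
    have h1 : u ^ 2 * z⁻¹ = z⁻¹ * u ^ 2 := mem_center_iff.mp (inv_mem hzc) (u ^ 2)
    rw [h1, mul_inv_cancel_right]
    exact inv_eq_of_mul_eq_one_left (by rw [← sq]; exact hz2)
  refine ⟨u * c⁻¹, hwZ, ?_⟩
  intro g hg
  have h1 : ⁅u * c⁻¹, g⁆ = z := by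
    apply eq_of_card_two hG' (commutator_mem_commutator (mem_top _) (mem_top _)) hzG _ hz1
    intro h
    apply hg
    rw [mem_centralizer_iff]
    intro y hy
    rw [Set.mem_singleton_iff] at hy
    rw [hy]
    exact commutatorElement_eq_one_iff_mul_comm.mp h
  have h3 : Nat.choose 2 2 = 1 := rfl
  rw [hcl2.mul_pow, h1, h3, pow_one, hw2, mul_assoc, ← sq, hz2, mul_one]

/-- Let G be a finite non-abelian group and p the least prime dividing its order. Then the automorphism group of G has at most #G/p orbits on G. -/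
theorem result {G : Type*} [Group G] [Finite G] (hna : ¬ IsMulCommutative G) :
    Nat.card (MulAction.orbitRel.Quotient (MulAut G) G) ≤ Nat.card G / (Nat.card G).minFac := by
  classical
  -- the least prime divisor
  have hnt : Nat.card G ≠ 1 := by
    intro h
    apply hna
    haveI := (Nat.card_eq_one_iff_unique.mp h).1
    exact ⟨⟨fun a b => Subsingleton.elim _ _⟩⟩
  obtain ⟨p, hpdef⟩ : ∃ p, p = (Nat.card G).minFac := ⟨_, rfl⟩
  have hp : p.Prime := hpdef ▸ Nat.minFac_prime hnt
  have hmin : ∀ d, d ∣ Nat.card G → d ≠ 1 → p ≤ d := by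
    intro d hd hd1
    rw [hpdef]
    rcases Nat.lt_or_ge 1 d with h | h
    · exact Nat.minFac_le_of_dvd h hd
    · exfalso
      have : d ≠ 0 := by
        rintro rfl
        exact Nat.card_pos.ne' (Nat.zero_dvd.mp hd)
      omega
  rw [← hpdef, Nat.le_div_iff_mul_le hp.pos, mul_comm]
  have hG'1 : Nat.card (_root_.commutator G) ≠ 1 := by
    intro h
    apply hna
    have h1 := card_eq_one.mp h
    refine ⟨⟨fun a b => ?_⟩⟩
    have h2 : a * b * a⁻¹ * b⁻¹ ∈ _root_.commutator G := commutator_mem_commutator (mem_top _) (mem_top _)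
    rw [h1, mem_bot] at h2
    exact mul_inv_eq_iff_eq_mul.mp (mul_inv_eq_one.mp h2)
  have hG'p : p ≤ Nat.card (_root_.commutator G) := hmin _ (card_subgroup_dvd_card _) hG'1
  rcases Nat.lt_or_ge p (Nat.card (_root_.commutator G)) with hlt | hge
  · -- class number bound
    have h1 := card_classes_bound hp.two_le hmin hlt
    refine le_trans (Nat.mul_le_mul_left _ ?_) h1
    haveI : Finite (ConjClasses G) := inferInstance
    apply Nat.card_le_card_of_surjective (fun c : ConjClasses G => Quotient.liftOn c (fun g => (Quotient.mk'' g : MulAction.orbitRel.Quotient (MulAut G) G)) (by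
      intro a b hab
      obtain ⟨y, hy⟩ := isConj_iff.mp hab
      apply Quotient.sound'
      refine ⟨(MulAut.conj y)⁻¹, ?_⟩
      change (MulAut.conj y)⁻¹ b = a
      rw [← hy, MulAut.conj_inv_apply]; group))
    intro q
    induction q using Quotient.inductionOn' with
    | _ g => exact ⟨ConjClasses.mk g, rfl⟩
  have hG' : Nat.card (_root_.commutator G) = p := le_antisymm hge hG'p
  have hGZ : _root_.commutator G ≤ center G := central_of_card hmin _ hG'
  have hcl2 : Class2 G := class2_iff.mpr hGZ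
  haveI : Fact p.Prime := ⟨hp⟩
  -- p-th powers
  have hcp : ∀ x y : G, ⁅x, y⁆ ^ p = 1 := by
    intro x y
    have h1 : ⁅x, y⁆ ∈ _root_.commutator G := commutator_mem_commutator (mem_top _) (mem_top _)
    have h2 : (⟨_, h1⟩ : _root_.commutator G) ^ p = 1 := by rw [← hG']; exact pow_card_eq_one'
    exact congrArg Subtype.val h2
  have hxp : ∀ x : G, x ^ p ∈ center G := by
    intro x
    rw [mem_center_iff]
    intro y
    have h1 := hcl2.pow_left x y p
    rw [hcp] at h1
    exact (commutatorElement_eq_one_iff_mul_comm.mp h1).symm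
  -- a noncentral element
  obtain ⟨x₀, y₀, hxy₀⟩ : ∃ x y : G, x * y ≠ y * x := by
    by_contra hcon
    push Not at hcon
    exact hna ⟨⟨hcon⟩⟩
  have hx₀ : x₀ ∉ center G := fun h => hxy₀ (mem_center_iff.mp h y₀).symm
  by_cases hA : ∃ w ∈ center G, w ^ p = 1 ∧ w ∉ _root_.commutator G
  · obtain ⟨w, hwZ, hwp, hwG⟩ := hA
    obtain ⟨h1, h2, h3, h4⟩ := cent_facts hp hmin hG' hGZ hx₀
    haveI := h1
    apply count hp hmin hG' (centralizer {x₀}) h2 h3 h4 (h3 hwZ) (fun c _ => (mem_center_iff.mp hwZ c).symm) hwG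
    intro g _
    rw [(show Commute g w from mem_center_iff.mp hwZ g).mul_pow, hwp, mul_one]
  push Not at hA
  -- it remains to find a good noncentral element
  have hkey : ∃ w : G, w ∉ center G ∧ ∀ g, g ∉ centralizer ({w} : Set G) → (g * w) ^ p = g ^ p := by
    by_cases hp2 : p = 2
    · subst hp2
      exact exists_two hcl2 hcp hxp hA hG' hxy₀
    · apply exists_odd hp hp2 hcl2 hcp hxp hA hG'
      obtain ⟨-, h2, h3, h4⟩ := cent_facts hp hmin hG' hGZ hx₀
      have h5 : Nat.card (centralizer ({x₀} : Set G)) * p = Nat.card G := by rw [← h2, card_mul_index]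
      have h6 : p * Nat.card (center G) ≤ Nat.card (centralizer ({x₀} : Set G)) := by
        obtain ⟨r, hr⟩ := Subgroup.card_dvd_of_le h3
        have h7 : r ∣ Nat.card G := (hr ▸ dvd_mul_left r _ : r ∣ Nat.card (centralizer ({x₀} : Set G))).trans (card_subgroup_dvd_card _)
        have h8 : r ≠ 1 := by
          rintro rfl
          exact h4 (Subgroup.eq_of_le_of_card_ge h3 (by rw [hr, mul_one]))
        rw [hr, mul_comm]
        exact Nat.mul_le_mul_left _ (hmin r h7 h8)
      rw [← h5, sq, mul_assoc, mul_comm]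
      exact Nat.mul_le_mul_right _ h6
  obtain ⟨w, hw, hpow⟩ := hkey
  obtain ⟨h1, h2, h3, h4⟩ := cent_facts hp hmin hG' hGZ hw
  haveI := h1
  apply count hp hmin hG' (centralizer {w}) h2 h3 h4 ?_ ?_ (fun h => hw (hGZ h)) hpow
  · rw [mem_centralizer_iff]
    intro y hy
    rw [Set.mem_singleton_iff] at hy
    rw [hy]
  · intro c hc
    exact mem_centralizer_iff.mp hc w rfl

end Cfsg.Agent.S4067
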