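import Cfsg.Statements.S4068
import Mathlib
import Cfsg.Agent.H2.FourOrb

set_option autoImplicit false
open Cfsg

namespace Cfsg.Agent.S4068

/-- A finite non-solvable group on which its automorphism group has exactly four orbits is isomorphic to the alternating group of degree 5. -/
theorem result {G : Type*} [Group G] [Finite G] (hns : ¬ Group.IsSolvable G)
    (h4 : Nat.card (MulAction.orbitRel.Quotient (MulAut G) G) = 4) : Nonempty (G ≃* alternatingGroup (Fin 5)) := by
  exact Cfsg.Agent.H2.FourOrb.main hns h4

end Cfsg.Agent.S4068
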