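import Cfsg.Statements.S4071
import Mathlib
import Cfsg.Agent.Lib.Wiel
import Cfsg.Agent.Lib.Nilp
import Cfsg.Agent.Lib.Hall
import Cfsg.Agent.Lib.CoprimeB

set_option autoImplicit false
open Cfsg

namespace Cfsg.Agent.S4071

open Subgroup Cfsg.Agent.Lib.Basic
open scoped commutatorElement Pointwise

theorem pcompl_core {M : Type*} [Group M] [Finite M] (hs : Group.IsSolvable M) (hab : ∀ a b : M, a * b = b * a) {p : ℕ} [hp : Fact p.Prime] :
    ∃ k : ℕ, (Cfsg.pPrimeCore p M).index = p ^ k := by
  obtain ⟨H, hH⟩ := Cfsg.Agent.Lib.Hall.exists_isHall (Cfsg.Agent.Lib.Hall.sep_of_solvable ({p}ᶜ : Set ℕ) hs)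
  have hHn : H.Normal := ⟨fun h hh g => by rw [hab g h, mul_inv_cancel_right]; exact hh⟩
  have h1 : (Nat.card H).Coprime p := by
    rw [Nat.coprime_comm, hp.out.coprime_iff_not_dvd]
    intro h
    exact hH.1 p hp.out h rfl
  have h2 := Cfsg.Agent.Lib.Cores.le_pPrimeCore hHn h1
  have h3 : (Cfsg.pPrimeCore p M).index ∣ H.index := index_dvd_of_le h2
  have h4 : ∀ q : ℕ, q.Prime → q ∣ (Cfsg.pPrimeCore p M).index → q = p := by
    intro q hq hqd
    by_contra hne
    exact hH.2 q hq hne (hqd.trans h3)
  exact ⟨_, Nat.eq_prime_pow_of_unique_prime_dvd (index_ne_zero_of_finite) (fun hq hd => h4 _ hq hd)⟩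

/-- Let G be a finite solvable non-nilpotent group. Every non-abelian subgroup of G is self-normalizing if and only if G is a semidirect product ⟨x⟩ ⋉ A in which ⟨x⟩ is a p-group for some prime p, A is a normal abelian subgroup of order prime to p, x^p is central in G, and x acts fixed-point-freely on A (no non-identity element of A commutes with x). -/
theorem result {G : Type*} [Group G] [Finite G]
    [Group.IsSolvable G] (hnn : ¬ Group.IsNilpotent G) :
    (∀ H : Subgroup G, ¬ IsMulCommutative H → Subgroup.normalizer (H : Set G) = H) ↔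
    ∃ (x : G) (A : Subgroup G) (p : ℕ), p.Prime ∧ A.Normal ∧ IsMulCommutative A ∧ (∃ k : ℕ, orderOf x = p ^ k) ∧
      ¬ p ∣ Nat.card A ∧ (Subgroup.zpowers x).IsComplement' A ∧ x ^ p ∈ Subgroup.center G ∧
      ∀ a : G, a ∈ A → a ≠ 1 → x * a * x⁻¹ ≠ a := by
  have hcomm_iff : ∀ H : Subgroup G, IsMulCommutative H ↔ ∀ a ∈ H, ∀ b ∈ H, a * b = b * a :=
    fun H => Cfsg.Agent.Lib.Nilp.isMulCommutative_iff_forall
  constructor
  · intro h
    have hnt : Nontrivial G := by
      by_contra hnt
      rw [not_nontrivial_iff_subsingleton] at hnt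
      exact hnn (by infer_instance)
    obtain ⟨M, hMn, hMp⟩ := Cfsg.Agent.Lib.Wiel.exists_normal_prime_index (G := G) inferInstance
    obtain ⟨p, hpdef⟩ : ∃ p, p = M.index := ⟨_, rfl⟩
    rw [← hpdef] at hMp
    have hp : Fact p.Prime := ⟨hMp⟩
    have hMab : IsMulCommutative M := by
      by_contra hna
      have h1 := h M hna
      rw [normalizer_eq_top] at h1
      rw [← h1, index_top] at hpdef
      exact hMp.one_lt.ne' hpdef
    have hMc := (hcomm_iff M).mp hMab
    obtain ⟨P⟩ : Nonempty (Sylow p G) := inferInstance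
    have hPM : ¬ (P : Subgroup G) ≤ M := by
      intro hle
      have h1 : p ∣ (P : Subgroup G).index := by
        have h2 : M.index ∣ (P : Subgroup G).index := index_dvd_of_le hle
        rwa [← hpdef] at h2
      exact P.not_dvd_index h1
    obtain ⟨x, hxP, hxM⟩ := SetLike.not_le_iff_exists.mp hPM
    have hxo : ∃ k, orderOf x = p ^ k := by
      obtain ⟨k, hk⟩ := IsPGroup.iff_orderOf.mp P.isPGroup' ⟨x, hxP⟩
      rw [Subgroup.orderOf_mk] at hk
      exact ⟨k, hk⟩
    -- the p-complement
    obtain ⟨k, hk⟩ := pcompl_core (M := M) inferInstance (fun a b => Subtype.ext (hMc a a.2 b b.2)) (p := p)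
    have hch := Cfsg.Agent.Lib.Cores.pPrimeCore_characteristic (G := M) p
    have hAcop := Cfsg.Agent.Lib.Cores.pPrimeCore_coprime (G := M) p
    obtain ⟨A, hA⟩ : ∃ A, A = (Cfsg.pPrimeCore p M).map M.subtype := ⟨_, rfl⟩
    have hAn : A.Normal := by rw [hA]; infer_instance
    have hAM : A ≤ M := hA ▸ map_subtype_le _
    have hAp : (Nat.card A).Coprime p := by rw [hA, card_map_of_injective M.subtype_injective]; exact hAcop
    have hAi : A.index = p ^ (k + 1) := by
      rw [hA, index_map_subtype, hk, ← hpdef, pow_succ]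
    have hAab : IsMulCommutative A := Cfsg.Agent.Lib.Nilp.isMulCommutative_of_le hAM hMab
    have hcop : (Nat.card (zpowers x)).Coprime (Nat.card A) := by
      rw [Nat.card_zpowers]
      obtain ⟨j, hj⟩ := hxo
      rw [hj]
      exact Nat.Coprime.pow_left _ hAp.symm
    have hxA : zpowers x ≤ normalizer (A : Set G) := by rw [normalizer_eq_top]; exact le_top
    have hMx : M ⊔ zpowers x = ⊤ := by
      have h1 : (M ⊔ zpowers x).index ∣ p := by rw [hpdef]; exact index_dvd_of_le le_sup_left
      rcases (Nat.dvd_prime hMp).mp h1 with h2 | h2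
      · exact index_eq_one.mp h2
      · exfalso
        have h3 : M ⊔ zpowers x ≤ M := by
          rw [← relIndex_eq_one]
          have h4 := relIndex_mul_index (le_sup_left : M ≤ M ⊔ zpowers x)
          rw [h2, ← hpdef] at h4
          exact Nat.eq_of_mul_eq_mul_right hMp.pos (by rw [h4, one_mul])
        exact hxM (h3 (mem_sup_right (mem_zpowers x)))
    have hne : ⁅A, zpowers x⁆ ≠ ⊥ := by
      intro hb
      have h1 := Cfsg.Agent.Lib.Coprime.commutator_eq_bot_iff_le_centralizer'.mp hb
      have h2 : A ≤ center G := by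
        intro a ha
        rw [mem_center_iff]
        intro g
        have h3 : (⊤ : Subgroup G) ≤ centralizer {a} := by
          rw [← hMx]
          refine sup_le ?_ ?_
          · intro m hm
            rw [mem_centralizer_singleton_iff]
            exact hMc m hm a (hAM ha)
          · rw [zpowers_le, mem_centralizer_singleton_iff]
            exact (mem_centralizer_iff.mp (h1 (mem_zpowers x)) a ha).symm
        exact (mem_centralizer_singleton_iff.mp (h3 (mem_top g)))
      have h4 : IsPGroup p (G ⧸ A) := by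
        rw [IsPGroup.iff_card]
        exact ⟨k + 1, hAi⟩
      have h5 : Group.IsNilpotent (G ⧸ A) := h4.isNilpotent
      exact hnn (_root_.isNilpotent_of_ker_le_center (QuotientGroup.mk' A) (by rw [QuotientGroup.ker_mk']; exact h2))
    have hnonab : ∀ B : Subgroup G, ⁅A, zpowers x⁆ ≤ B → zpowers x ≤ B → ¬ IsMulCommutative B := by
      intro B h1 h2 hBab
      have h3 := (hcomm_iff B).mp hBab
      have h4 := Cfsg.Agent.Lib.Coprime.commutator_commutator_eq hxA hcop (Or.inl inferInstance)
      apply hne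
      rw [← h4, Cfsg.Agent.Lib.Coprime.commutator_eq_bot_iff_le_centralizer']
      intro y hy
      rw [mem_centralizer_iff]
      intro b hb
      exact h3 b (h1 hb) y (h2 hy)
    -- A ⟨x⟩ = G
    have hAx : A ⊔ zpowers x = ⊤ := by
      have h1 := h (A ⊔ zpowers x) (hnonab _ ((Cfsg.Agent.Lib.Coprime.commutator_le_of_normalizes hxA).trans le_sup_left) le_sup_right)
      by_contra hlt
      have h4 : IsPGroup p (G ⧸ A) := by
        rw [IsPGroup.iff_card]
        exact ⟨k + 1, hAi⟩
      have h5 : Group.IsNilpotent (G ⧸ A) := h4.isNilpotent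
      have h6 : ((A ⊔ zpowers x).map (QuotientGroup.mk' A)).comap (QuotientGroup.mk' A) = A ⊔ zpowers x := by
        rw [comap_map_eq, QuotientGroup.ker_mk']
        exact sup_eq_left.mpr le_sup_left
      have h7 : (A ⊔ zpowers x).map (QuotientGroup.mk' A) < ⊤ := by
        rw [lt_top_iff_ne_top]
        intro h8
        rw [h8, comap_top] at h6
        exact hlt h6.symm
      have h8 := Group.normalizerCondition_of_isNilpotent (G := G ⧸ A) _ h7
      have h9 := comap_normalizer_eq_of_surjective ((A ⊔ zpowers x).map (QuotientGroup.mk' A)) (QuotientGroup.mk'_surjective A)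
      have h10 : ((normalizer (((A ⊔ zpowers x).map (QuotientGroup.mk' A) : Subgroup (G ⧸ A)) : Set (G ⧸ A))).comap (QuotientGroup.mk' A)) = A ⊔ zpowers x := by
        rw [h9]
        have h11 : (((A ⊔ zpowers x).map (QuotientGroup.mk' A)).comap (QuotientGroup.mk' A) : Subgroup G) = A ⊔ zpowers x := h6
        rw [h11, h1]
      have h12 := h8.ne
      apply h12
      apply Subgroup.comap_injective (QuotientGroup.mk'_surjective A)
      rw [h6, h10]
    refine ⟨x, A, p, hMp, hAn, hAab, hxo, ?_, ?_, ?_, ?_⟩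
    · rw [← hMp.coprime_iff_not_dvd]; exact hAp.symm
    · apply isComplement'_of_disjoint_and_mul_eq_univ (disjoint_of_coprime_natCard hcop)
      rw [← mul_normal, sup_comm, hAx, coe_top]
    · rw [mem_center_iff]
      intro g
      have h1 : x ^ p ∈ M := by
        have h2 : (QuotientGroup.mk' M x) ^ p = 1 := by
          have : Nat.card (G ⧸ M) = p := hpdef.symm
          rw [← this]
          exact pow_card_eq_one'
        rw [← map_pow] at h2
        exact (QuotientGroup.eq_one_iff _).mp h2
      have h3 : (⊤ : Subgroup G) ≤ centralizer {x ^ p} := by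
        rw [← hAx]
        refine sup_le ?_ ?_
        · intro m hm
          rw [mem_centralizer_singleton_iff]
          exact hMc m (hAM hm) _ h1
        · rw [zpowers_le, mem_centralizer_singleton_iff]
          exact (Commute.refl x).pow_right p
      exact (mem_centralizer_singleton_iff.mp (h3 (mem_top g)))
    · intro c hc hc1 hxc
      have hc' : x * c = c * x := by
        have := mul_inv_eq_iff_eq_mul.mp hxc
        exact this
      have hBA : ⁅A, zpowers x⁆ ≤ A := Cfsg.Agent.Lib.Coprime.commutator_le_of_normalizes hxA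
      have h1 := h (⁅A, zpowers x⁆ ⊔ zpowers x) (hnonab _ le_sup_left le_sup_right)
      have hAc := (hcomm_iff A).mp hAab
      have h2 : c ∈ centralizer ((⁅A, zpowers x⁆ ⊔ zpowers x : Subgroup G) : Set G) := by
        have : ⁅A, zpowers x⁆ ⊔ zpowers x ≤ centralizer {c} := by
          refine sup_le ?_ ?_
          · intro b hb
            rw [mem_centralizer_singleton_iff]
            exact hAc b (hBA hb) c hc
          · rw [zpowers_le, mem_centralizer_singleton_iff]
            exact hc'
        rw [mem_centralizer_iff]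
        intro y hy
        exact mem_centralizer_singleton_iff.mp (this hy)
      have h3 : c ∈ ⁅A, zpowers x⁆ ⊔ zpowers x := by
        rw [← h1]
        exact centralizer_le_normalizer _ h2
      have hxn : zpowers x ≤ normalizer ((⁅A, zpowers x⁆ : Subgroup G) : Set G) :=
        Cfsg.Agent.Lib.Coprime.le_normalizer_commutator_right _ _
      obtain ⟨b, hb, y, hy, hbc⟩ := (mem_sup_iff_left hxn).mp h3
      have h4 : y ∈ zpowers x ⊓ A := by
        refine ⟨hy, ?_⟩
        have : y = b⁻¹ * c := by rw [← hbc]; group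
        rw [this]
        exact A.mul_mem (A.inv_mem (hBA hb)) hc
      rw [disjoint_iff.mp (disjoint_of_coprime_natCard hcop), mem_bot] at h4
      rw [h4, mul_one] at hbc
      have h5 := Cfsg.Agent.Lib.CoprimeB.abelian_inf_eq_bot hAab hxA hcop
      have h6 : c ∈ (A ⊓ centralizer ((zpowers x : Subgroup G) : Set G)) ⊓ ⁅A, zpowers x⁆ := by
        refine ⟨⟨hc, ?_⟩, hbc ▸ hb⟩
        show c ∈ centralizer ((zpowers x : Subgroup G) : Set G)
        rw [zpowers_eq_closure, centralizer_closure, mem_centralizer_singleton_iff]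
        exact hc'.symm
      rw [h5, mem_bot] at h6
      exact hc1 h6
  · rintro ⟨x, A, p, hp, hAn, hAab, ⟨k, hk⟩, hpA, hcompl, hxp, hfix⟩ H hH
    have : Fact p.Prime := ⟨hp⟩
    have hAc := (hcomm_iff A).mp hAab
    have hform : ∀ g : G, ∃ a ∈ A, ∃ i : ℤ, g = x ^ i * a := by
      intro g
      have : g ∈ (zpowers x : Set G) * (A : Set G) := by rw [hcompl.mul_eq]; trivial
      obtain ⟨y, hy, a, ha, rfl⟩ := this
      obtain ⟨i, rfl⟩ := mem_zpowers_iff.mp hy
      exact ⟨a, ha, i, rfl⟩
    -- an element outside A⟨x^p⟩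
    have hout : ∃ a ∈ A, ∃ i : ℤ, x ^ i * a ∈ H ∧ ¬ (p : ℤ) ∣ i := by
      by_contra hno
      push Not at hno
      apply hH
      rw [hcomm_iff]
      intro g hg g' hg'
      obtain ⟨a, ha, i, rfl⟩ := hform g
      obtain ⟨b, hb, j, rfl⟩ := hform g'
      obtain ⟨i', rfl⟩ := hno a ha i hg
      obtain ⟨j', rfl⟩ := hno b hb j hg'
      have hz : ∀ i : ℤ, x ^ ((p : ℤ) * i) ∈ center G := by
        intro i
        rw [zpow_mul, zpow_natCast]
        exact zpow_mem hxp i
      have h1 := mem_center_iff.mp (hz i')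
      have h2 := mem_center_iff.mp (hz j')
      calc x ^ ((p : ℤ) * i') * a * (x ^ ((p : ℤ) * j') * b) = x ^ ((p : ℤ) * i') * (a * x ^ ((p : ℤ) * j')) * b := by group
        _ = x ^ ((p : ℤ) * i') * (x ^ ((p : ℤ) * j') * a) * b := by rw [h2]
        _ = (x ^ ((p : ℤ) * i') * x ^ ((p : ℤ) * j')) * (a * b) := by group
        _ = (x ^ ((p : ℤ) * j') * x ^ ((p : ℤ) * i')) * (b * a) := by rw [h2, hAc a ha b hb]
        _ = x ^ ((p : ℤ) * j') * (x ^ ((p : ℤ) * i') * b) * a := by group
        _ = x ^ ((p : ℤ) * j') * (b * x ^ ((p : ℤ) * i')) * a := by rw [h1]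
        _ = _ := by group
    obtain ⟨a, ha, i, hiH, hpi⟩ := hout
    -- p-element
    obtain ⟨m, hm⟩ : ∃ m, m = Nat.card A := ⟨_, rfl⟩
    obtain ⟨y, hy⟩ : ∃ y, y = (x ^ i * a) ^ m := ⟨_, rfl⟩
    have hyH : y ∈ H := hy ▸ pow_mem hiH m
    have hcardG : Nat.card G = p ^ k * m := by
      rw [← hcompl.card_mul, Nat.card_zpowers, hk, hm]
    have hyo : y ^ (p ^ k) = 1 := by
      rw [hy, ← pow_mul, mul_comm m, ← hcardG]
      exact pow_card_eq_one'
    have hyform : ∃ b ∈ A, y = x ^ (i * m) * b := by
      have : (QuotientGroup.mk' A y) = QuotientGroup.mk' A (x ^ (i * (m : ℤ))) := by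
        rw [hy, map_pow, map_mul, (show QuotientGroup.mk' A a = 1 from (QuotientGroup.eq_one_iff a).mpr ha), mul_one,
          ← map_pow, zpow_mul, zpow_natCast]
      rw [eq_comm, QuotientGroup.mk'_apply, QuotientGroup.mk'_apply, QuotientGroup.eq] at this
      exact ⟨_, this, by group⟩
    obtain ⟨b, hb, hyb⟩ := hyform
    have hpim : IsCoprime (i * (m : ℤ)) (p : ℤ) := by
      rw [isCoprime_comm, Prime.coprime_iff_not_dvd (Nat.prime_iff_prime_int.mp hp)]
      intro hd
      rcases (Nat.prime_iff_prime_int.mp hp).dvd_or_dvd hd with h1 | h1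
      · exact hpi h1
      · exact hpA (hm ▸ Int.natCast_dvd_natCast.mp h1)
    -- fixed points of y on A
    have hyfix : ∀ c ∈ A, y * c = c * y → c = 1 := by
      intro c hc hyc
      by_contra hc1
      apply hfix c hc hc1
      have h1 : x ^ (i * (m : ℤ)) * c = c * x ^ (i * (m : ℤ)) := by
        have h2 : x ^ (i * (m : ℤ)) = y * b⁻¹ := by rw [hyb]; group
        have h3 : b⁻¹ * c = c * b⁻¹ := hAc _ (A.inv_mem hb) c hc
        rw [h2, mul_assoc, h3, ← mul_assoc, hyc, mul_assoc]
      obtain ⟨u, v, huv⟩ := hpim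
      have h4 : Commute (x ^ (i * (m : ℤ))) c := h1
      have h5 : Commute (x ^ p) c := (mem_center_iff.mp hxp c).symm
      have h6 : x = (x ^ (i * (m : ℤ))) ^ u * (x ^ p) ^ v := by
        rw [← zpow_natCast x p, ← zpow_mul, ← zpow_mul, ← zpow_add, mul_comm _ u, mul_comm _ v, huv, zpow_one]
      have h7 : Commute x c := by
        rw [h6]
        exact (h4.zpow_left u).mul_left (h5.zpow_left v)
      rw [h7.eq]; group
    -- A⟨y⟩ = G
    have hAy : ∀ g : G, ∃ c ∈ A, ∃ j : ℤ, g = c * y ^ j := by
      have hyA : zpowers y ≤ normalizer (A : Set G) := by rw [normalizer_eq_top]; exact le_top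
      have hxin : x ∈ A ⊔ zpowers y := by
        have h1 : IsCoprime (i * (m : ℤ)) ((p ^ k : ℕ) : ℤ) := by
          push_cast
          exact hpim.pow_right
        obtain ⟨u, v, huv⟩ := h1
        have h2 : x = (x ^ (i * (m : ℤ))) ^ u := by
          have h3 : x ^ ((p ^ k : ℕ) : ℤ) = 1 := by rw [zpow_natCast, ← hk, pow_orderOf_eq_one]
          conv_lhs => rw [← zpow_one x, ← huv, zpow_add, mul_comm v, zpow_mul x _ v, h3, one_zpow, mul_one, mul_comm u, zpow_mul]
        have h4 : x ^ (i * (m : ℤ)) ∈ A ⊔ zpowers y := by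
          have h2 : x ^ (i * (m : ℤ)) = y * b⁻¹ := by rw [hyb]; group
          rw [h2]
          exact mul_mem (mem_sup_right (mem_zpowers y)) (mem_sup_left (A.inv_mem hb))
        rw [h2]
        exact zpow_mem h4 u
      intro g
      have h1 : g ∈ A ⊔ zpowers y := by
        obtain ⟨a', ha', i', rfl⟩ := hform g
        exact mul_mem (zpow_mem hxin i') (mem_sup_left ha')
      obtain ⟨c, hc, z, hz, hcz⟩ := (mem_sup_iff_left hyA).mp h1
      obtain ⟨j, rfl⟩ := mem_zpowers_iff.mp hz
      exact ⟨c, hc, j, hcz.symm⟩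
    apply le_antisymm _ le_normalizer
    intro g hg
    obtain ⟨c, hc, j, rfl⟩ := hAy g
    have hcn : c ∈ normalizer (H : Set G) := by
      have h1 : y ^ (-j) ∈ normalizer (H : Set G) := le_normalizer (zpow_mem hyH _)
      have h2 : c = (c * y ^ j) * y ^ (-j) := by group
      rw [h2]
      exact mul_mem hg h1
    refine H.mul_mem ?_ (zpow_mem hyH j)
    have hyn : zpowers y ≤ normalizer ((H ⊓ A : Subgroup G) : Set G) := by
      intro z hz
      rw [mem_normalizer_iff]
      intro w
      rw [mem_inf, mem_inf]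
      have hzH : z ∈ H := (zpowers_le.mpr hyH) hz
      exact and_congr (mem_normalizer_iff.mp (le_normalizer hzH) w) (by
        have : z ∈ normalizer (A : Set G) := by rw [normalizer_eq_top]; exact mem_top z
        exact mem_normalizer_iff.mp this w)
    have hyp : IsPGroup p (zpowers y) := by
      intro z
      obtain ⟨z, hz⟩ := z
      obtain ⟨j, rfl⟩ := mem_zpowers_iff.mp hz
      refine ⟨k, Subtype.ext ?_⟩
      push_cast
      rw [← zpow_natCast, zpow_comm, zpow_natCast, hyo, one_zpow]
    have hycop : (Nat.card (zpowers y)).Coprime (Nat.card (H ⊓ A : Subgroup G)) := by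
      obtain ⟨k', hk'⟩ := IsPGroup.iff_card.mp hyp
      rw [hk']
      refine Nat.Coprime.pow_left _ ?_
      rw [hp.coprime_iff_not_dvd]
      intro hd
      exact hpA (hd.trans (card_dvd_of_le inf_le_right))
    obtain ⟨d, hd, hcd⟩ := Cfsg.Agent.Lib.Coprime.exists_mem_centralizer_coset hyn hycop (Or.inl inferInstance) c (by
      intro z hz
      have hzH : z ∈ H := (zpowers_le.mpr hyH) hz
      refine mem_inf.mpr ⟨?_, ?_⟩
      · have h1 : c⁻¹ * z * c ∈ H := (mem_normalizer_iff'.mp hcn (c⁻¹ * z)).mpr (by rwa [mul_inv_cancel_left])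
        have h2 : c⁻¹ * (z * c * z⁻¹) = (c⁻¹ * z * c) * z⁻¹ := by group
        rw [h2]
        exact H.mul_mem h1 (H.inv_mem hzH)
      · exact A.mul_mem (A.inv_mem hc) (hAn.conj_mem c hc z))
    have h1 : c * d = 1 := by
      apply hyfix _ (A.mul_mem hc hd.2)
      exact (mem_centralizer_iff.mp hcd y (mem_zpowers y))
    have h2 : c = d⁻¹ := mul_eq_one_iff_eq_inv.mp h1
    rw [h2]
    exact H.inv_mem hd.1

end Cfsg.Agent.S4071
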