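import Cfsg.Statements.S4072
import Mathlib
import Cfsg.Agent.H2.CNC
import Cfsg.Agent.Lib.PNilp

set_option autoImplicit false
open Cfsg

namespace Cfsg.Agent.S4072

open Subgroup Cfsg.Agent.Lib Cfsg.Agent.Lib.Cores Cfsg.Agent.Lib.PNilp

/-- A finite group in which every non-abelian subgroup is self-normalizing is solvable or simple. -/
theorem result {G : Type*} [Group G] [Finite G] (hS : ∀ H : Subgroup G, ¬ IsMulCommutative H → Subgroup.normalizer (H : Set G) = H) :
    Group.IsSolvable G ∨ IsSimpleGroup G := by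
  classical
  by_contra hcon
  push Not at hcon
  obtain ⟨hns, hnsim⟩ := hcon
  haveI hnt : Nontrivial G := by
    by_contra h
    rw [not_nontrivial_iff_subsingleton] at h
    haveI := h
    exact hns inferInstance
  have hab : ∀ N : Subgroup G, N.Normal → N ≠ ⊤ → IsMulCommutative N := by
    intro N hN hNt
    by_contra h
    apply hNt
    rw [← hS N h, normalizer_eq_top_iff.mpr hN]
  obtain ⟨N₀, hN₀n, hN₀1, hN₀t⟩ : ∃ N : Subgroup G, N.Normal ∧ N ≠ ⊥ ∧ N ≠ ⊤ := by
    by_contra h
    push Not at h
    apply hnsim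
    exact { exists_pair_ne := hnt.exists_pair_ne, eq_bot_or_eq_top_of_normal := fun H hH => by
              by_cases hb : H = ⊥
              · exact Or.inl hb
              · exact Or.inr (h H hH hb) }
  obtain ⟨N, ⟨hNn, hN0, hNt⟩, hNmax⟩ := (Set.toFinite {M : Subgroup G | M.Normal ∧ N₀ ≤ M ∧ M ≠ ⊤}).exists_maximal ⟨N₀, hN₀n, le_rfl, hN₀t⟩
  haveI := hNn
  have hN1 : N ≠ ⊥ := fun h => hN₀1 (by rw [h, le_bot_iff] at hN0; exact hN0)
  have hNab := hab N hNn hNt
  have hNs : Group.IsSolvable N := CoprimeB.isSolvable_of_comm hNab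
  have hmaxN : ∀ M : Subgroup G, M.Normal → N ≤ M → M ≠ N → M = ⊤ := by
    intro M hM hNM hne
    by_contra hMt
    exact hne (le_antisymm (hNmax ⟨hM, hN0.trans hNM, hMt⟩ hNM) hNM)
  have hqs : ¬ Group.IsSolvable (G ⧸ N) := by
    intro h
    apply hns
    exact Group.isSolvable_of_ker_le_range N.subtype (QuotientGroup.mk' N) (by rw [QuotientGroup.ker_mk', range_subtype])
  have hf := QuotientGroup.mk'_surjective N
  have hNC : N ≤ centralizer (N : Set G) := le_centralizer_iff_isMulCommutative.mpr hNab
  by_cases hCN : centralizer (N : Set G) = N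
  · -- cyclic subgroups of the quotient are self-normalising
    have hself : ∀ x : G ⧸ N, x ≠ 1 → normalizer ((zpowers x : Subgroup (G ⧸ N)) : Set (G ⧸ N)) = zpowers x := by
      intro x hx
      obtain ⟨x, rfl⟩ := hf x
      obtain ⟨H, hH⟩ : ∃ H, H = (zpowers (QuotientGroup.mk' N x)).comap (QuotientGroup.mk' N) := ⟨_, rfl⟩
      have hxH : x ∈ H := hH ▸ mem_comap.mpr (mem_zpowers _)
      have hNH : N ≤ H := by
        intro n hn
        rw [hH, mem_comap]
        have : QuotientGroup.mk' N n = 1 := (QuotientGroup.eq_one_iff n).mpr hn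
        rw [this]; exact one_mem _
      have h1 : ¬ IsMulCommutative H := by
        intro h
        apply hx
        apply (QuotientGroup.eq_one_iff x).mpr
        rw [← hCN, mem_centralizer_iff]
        intro n hn
        exact congrArg Subtype.val (h.is_comm.comm ⟨n, hNH hn⟩ ⟨x, hxH⟩)
      have h2 := hS H h1
      rw [hH] at h2
      have h3 : (normalizer ((zpowers (QuotientGroup.mk' N x) : Subgroup (G ⧸ N)) : Set (G ⧸ N))).comap (QuotientGroup.mk' N) = (zpowers (QuotientGroup.mk' N x)).comap (QuotientGroup.mk' N) := by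
        rw [comap_normalizer_eq_of_surjective _ hf]; exact h2
      exact comap_injective hf h3
    haveI hntq : Nontrivial (G ⧸ N) := QuotientGroup.nontrivial_iff.mpr hNt
    obtain ⟨p, hp, hpd⟩ := Nat.exists_prime_and_dvd (Finite.one_lt_card (α := G ⧸ N)).ne'
    haveI : Fact p.Prime := ⟨hp⟩
    have hpn : PNil p (G ⧸ N) := by
      apply pNil_of_local
      intro Q hQ hQ1
      haveI := (nontrivial_iff_ne_bot Q).mpr hQ1
      haveI := hQ.center_nontrivial
      obtain ⟨z, hz1⟩ := exists_ne (1 : center Q)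
      have hz1' : ((z : Q) : G ⧸ N) ≠ 1 := fun h => hz1 (Subtype.ext (Subtype.ext h))
      have h1 := hself _ hz1'
      have h2 : Q ≤ zpowers ((z : Q) : G ⧸ N) := by
        rw [← h1]
        intro q hq
        apply Cfsg.Agent.H2.SixElt.mem_norm_fin
        rintro _ ⟨k, rfl⟩
        have h3 : (q : G ⧸ N) * ((z : Q) : G ⧸ N) = ((z : Q) : G ⧸ N) * q := congrArg Subtype.val (mem_center_iff.mp z.2 ⟨q, hq⟩)
        have h4 := ((show Commute (q : G ⧸ N) ((z : Q) : G ⧸ N) from h3).zpow_right k).eq
        change q * ((z : Q) : G ⧸ N) ^ k * q⁻¹ ∈ _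
        rw [h4, mul_inv_cancel_right]
        exact ⟨k, rfl⟩
      have h3 : Q = zpowers ((z : Q) : G ⧸ N) := le_antisymm h2 (zpowers_le.mpr (z : Q).2)
      rw [h3, h1, ← h3]
      exact pNil_of_isPGroup hQ
    have hcore := pNil_iff_core.mp hpn
    have hc : Cfsg.pPrimeCore p (G ⧸ N) = ⊥ := by
      haveI := pPrimeCore_normal (G := G ⧸ N) p
      by_contra hne
      have h1 : (Cfsg.pPrimeCore p (G ⧸ N)).comap (QuotientGroup.mk' N) = ⊤ := by
        apply hmaxN _ (this.comap _)
        · intro n hn
          rw [mem_comap]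
          have : QuotientGroup.mk' N n = 1 := (QuotientGroup.eq_one_iff n).mpr hn
          rw [this]; exact one_mem _
        · intro h
          apply hne
          rw [← map_comap_eq_self_of_surjective hf (Cfsg.pPrimeCore p (G ⧸ N)), h]
          exact (Subgroup.map_eq_bot_iff N).mpr (by rw [QuotientGroup.ker_mk'])
      have h2 : Cfsg.pPrimeCore p (G ⧸ N) = ⊤ := by
        rw [← map_comap_eq_self_of_surjective hf (Cfsg.pPrimeCore p (G ⧸ N)), h1]
        exact map_top_of_surjective _ hf
      have h3 := pPrimeCore_not_dvd (G := G ⧸ N) p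
      rw [h2, card_top] at h3
      exact h3 hpd
    obtain ⟨k, hk⟩ := hcore
    rw [hc, index_bot] at hk
    apply hqs
    haveI := (IsPGroup.of_card hk).isNilpotent
    infer_instance
  · have hCt : centralizer (N : Set G) = ⊤ := hmaxN _ inferInstance hNC hCN
    have hcen : ∀ n ∈ N, ∀ g : G, n * g = g * n := by
      intro n hn g
      exact mem_centralizer_iff.mp (hCt ▸ mem_top g) n hn
    -- nonabelian subgroups contain `N`
    have hcont : ∀ H : Subgroup G, ¬ IsMulCommutative H → N ≤ H := by
      intro H hH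
      rw [← hS H hH]
      intro n hn
      apply Cfsg.Agent.H2.SixElt.mem_norm_fin
      intro h hh
      rw [hcen n hn, mul_inv_cancel_right]; exact hh
    obtain ⟨p, hp, hpd⟩ := Nat.exists_prime_and_dvd (fun h => hN1 (card_eq_one.mp h) : Nat.card N ≠ 1)
    haveI : Fact p.Prime := ⟨hp⟩
    obtain ⟨n, hn⟩ := exists_prime_orderOf_dvd_card' (G := N) p hpd
    -- `G` is not `p`-nilpotent
    have hnp : ¬ PNil p G := by
      intro h
      have hcore := pNil_iff_core.mp h
      obtain ⟨k, hk⟩ := hcore
      haveI := pPrimeCore_normal (G := G) p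
      have h1 : Cfsg.pPrimeCore p G ≠ ⊤ := by
        intro h1
        have h3 := pPrimeCore_not_dvd (G := G) p
        rw [h1, card_top] at h3
        exact h3 (hpd.trans (card_subgroup_dvd_card N))
      haveI h2 : Group.IsSolvable (Cfsg.pPrimeCore p G) := CoprimeB.isSolvable_of_comm (hab _ this h1)
      haveI h3 : Group.IsSolvable (G ⧸ Cfsg.pPrimeCore p G) := by
        haveI := (IsPGroup.of_card (G := G ⧸ Cfsg.pPrimeCore p G) hk).isNilpotent
        infer_instance
      apply hns
      exact Group.isSolvable_of_ker_le_range (Cfsg.pPrimeCore p G).subtype (QuotientGroup.mk' (Cfsg.pPrimeCore p G)) (by rw [QuotientGroup.ker_mk', range_subtype])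
    rw [pNil_iff_frobCond] at hnp
    unfold FrobCond at hnp
    push Not at hnp
    obtain ⟨U, hUp, y, hyU, hyo, hyc⟩ := hnp
    by_cases hUab : IsMulCommutative U
    · have hAU : zpowers y ≤ normalizer (U : Set G) := zpowers_le.mpr hyU
      obtain ⟨i, hi⟩ := IsPGroup.iff_card.mp hUp
      have hcop : (Nat.card (zpowers y)).Coprime (Nat.card U) := by
        rw [Nat.card_zpowers, hi]; exact Nat.Coprime.pow_right i hyo
      have h1 := CoprimeB.abelian_inf_eq_bot (A := zpowers y) (V := U) hUab hAU hcop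
      obtain ⟨V, hV⟩ : ∃ V, V = ⁅U, zpowers y⁆ := ⟨_, rfl⟩
      rw [← hV] at h1
      have hAV : zpowers y ≤ normalizer (V : Set G) := hV ▸ Coprime.le_normalizer_commutator_right (zpowers y) U
      have hV1 : V ≠ ⊥ := by
        intro h
        apply hyc
        rw [hV, commutator_comm, commutator_eq_bot_iff_le_centralizer] at h
        exact h (mem_zpowers y)
      have hVV : ⁅V, zpowers y⁆ = V := by
        rw [hV]
        exact Coprime.commutator_commutator_eq hAU hcop (Or.inl inferInstance)
      have hVU : V ≤ U := hV ▸ Coprime.commutator_le_of_normalizes hAU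
      have hnab : ¬ IsMulCommutative (V ⊔ zpowers y : Subgroup G) := by
        intro h
        apply hV1
        rw [← hVV, commutator_eq_bot_iff_le_centralizer]
        intro v hv
        rw [mem_centralizer_iff]
        intro a ha
        exact congrArg Subtype.val (h.is_comm.comm ⟨a, (le_sup_right : zpowers y ≤ _) ha⟩ ⟨v, (le_sup_left : V ≤ _) hv⟩)
      have hNH := hcont _ hnab
      have hnH : (n : G) ∈ V ⊔ zpowers y := hNH n.2
      -- `n ∈ V`
      have hrel : (V.relIndex (V ⊔ zpowers y)) ∣ Nat.card (zpowers y) := by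
        have e1 := Cfsg.Agent.Lib.Basic.relIndex_mul_card (le_sup_left : V ≤ V ⊔ zpowers y)
        have e2 := card_sup_dvd (N := V) (H := zpowers y) hAV
        rw [← e1, mul_comm (Nat.card V)] at e2
        exact Nat.dvd_of_mul_dvd_mul_right Nat.card_pos e2
      have hnV : (n : G) ∈ V := by
        haveI : (V.subgroupOf (V ⊔ zpowers y)).Normal := normal_subgroupOf_of_le_normalizer (sup_le le_normalizer hAV)
        have h2 : (n : G) ^ V.relIndex (V ⊔ zpowers y) ∈ V := Subgroup.pow_index_mem (V.subgroupOf (V ⊔ zpowers y)) (⟨(n : G), hnH⟩ : (V ⊔ zpowers y : Subgroup G))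
        have h3 : (V.relIndex (V ⊔ zpowers y)).Coprime (orderOf (n : G)) := by
          rw [Subgroup.orderOf_coe, hn]
          apply Nat.Coprime.coprime_dvd_left hrel
          rw [Nat.card_zpowers]; exact hyo
        obtain ⟨j, hj⟩ := _root_.exists_pow_eq_self_of_coprime (x := (n : G)) h3
        have h4 : ((n : G) ^ V.relIndex (V ⊔ zpowers y)) ^ j ∈ V := pow_mem h2 j
        rwa [hj] at h4
      have h5 : (n : G) ∈ (U ⊓ centralizer ((zpowers y : Subgroup G) : Set G)) ⊓ V := by
        refine mem_inf.mpr ⟨mem_inf.mpr ⟨hVU hnV, ?_⟩, hnV⟩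
        rw [mem_centralizer_iff]
        intro a _
        exact (hcen n n.2 a).symm
      rw [h1, mem_bot] at h5
      have h6 : n = 1 := Subtype.ext h5
      rw [h6, orderOf_one] at hn
      exact hp.one_lt.ne hn
    · have h1 := hS U hUab
      rw [h1] at hyU
      apply hyc
      obtain ⟨k, hk⟩ := hUp ⟨y, hyU⟩
      have h2 : y ^ p ^ k = 1 := congrArg Subtype.val hk
      have h3 : orderOf y ∣ 1 := by
        have h4 := Nat.dvd_gcd (dvd_refl (orderOf y)) (_root_.orderOf_dvd_of_pow_eq_one h2)
        rwa [Nat.Coprime.pow_right k hyo] at h4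
      have h5 : y = 1 := orderOf_eq_one_iff.mp (Nat.dvd_one.mp h3)
      rw [h5]; exact one_mem _

end Cfsg.Agent.S4072
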