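import Cfsg.Statements.S4074
import Mathlib
import Cfsg.Agent.H2.PUtil

set_option autoImplicit false
open Cfsg

namespace Cfsg.Agent.S4074

open Subgroup DihedralGroup

theorem conj_r_sr {n : ℕ} (k i : ZMod n) : (r k : DihedralGroup n) * sr i * (r k)⁻¹ = sr (i - 2 * k) := by
  rw [inv_r, r_mul_sr, sr_mul_r]; congr 1; ring

/-- a nonabelian subgroup contains a reflection and a nontrivial rotation -/
theorem exists_of_nonab {n : ℕ} (H : Subgroup (DihedralGroup n)) (hH : ¬ IsMulCommutative H) :
    ∃ i, (sr i : DihedralGroup n) ∈ H := by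
  by_contra h
  push Not at h
  apply hH
  rw [H2.PUtil.isMulCommutative_iff]
  rintro (a | a) ha (b | b) hb
  · rw [r_mul_r, r_mul_r, add_comm]
  · exact absurd hb (h b)
  · exact absurd ha (h a)
  · exact absurd ha (h a)

/-- For n > 2, every non-abelian subgroup of the dihedral group of order 2n is self-normalizing if and only if n = 4 or n is odd. -/
theorem result (n : ℕ) (hn : 2 < n) :
    (∀ H : Subgroup (DihedralGroup n), ¬ IsMulCommutative H → Subgroup.normalizer (H : Set (DihedralGroup n)) = H) ↔
    (n = 4 ∨ Odd n) := by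
  have : NeZero n := ⟨by omega⟩
  constructor
  · intro h
    by_contra hcon
    push Not at hcon
    obtain ⟨hn4, hodd⟩ := hcon
    rw [Nat.not_odd_iff_even] at hodd
    obtain ⟨m, hm⟩ := hodd
    -- H = {r (2j), sr (2j)}
    let H : Subgroup (DihedralGroup n) :=
      { carrier := {x | ∃ j : ZMod n, x = r (2 * j) ∨ x = sr (2 * j)}
        one_mem' := ⟨0, Or.inl (by rw [mul_zero]; rfl)⟩
        mul_mem' := by
          rintro a b ⟨i, rfl | rfl⟩ ⟨j, rfl | rfl⟩
          · exact ⟨i + j, Or.inl (by rw [r_mul_r]; congr 1; ring)⟩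
          · exact ⟨j - i, Or.inr (by rw [r_mul_sr]; congr 1; ring)⟩
          · exact ⟨i + j, Or.inr (by rw [sr_mul_r]; congr 1; ring)⟩
          · exact ⟨j - i, Or.inl (by rw [sr_mul_sr]; congr 1; ring)⟩
        inv_mem' := by
          rintro a ⟨i, rfl | rfl⟩
          · exact ⟨-i, Or.inl (by rw [inv_r]; congr 1; ring)⟩
          · exact ⟨i, Or.inr (by rw [inv_sr])⟩ }
    have hr1 : (r 1 : DihedralGroup n) ∉ H := by
      rintro ⟨j, h1 | h1⟩
      · have h2 : (1 : ZMod n) = 2 * j := by injection h1
        have hd : 2 ∣ n := ⟨m, by omega⟩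
        have h3 := congrArg (ZMod.castHom hd (ZMod 2)) h2
        rw [map_one, map_mul, map_ofNat] at h3
        have h4 : (OfNat.ofNat 2 : ZMod 2) = 0 := rfl
        rw [h4, zero_mul] at h3
        exact absurd h3 (by decide)
      · exact absurd h1 (by simp)
    have hna : ¬ IsMulCommutative H := by
      intro hc
      have h1 := H2.PUtil.isMulCommutative_iff.1 hc (r (2 * 1)) ⟨1, Or.inl rfl⟩ (sr (2 * 0)) ⟨0, Or.inr rfl⟩
      rw [r_mul_sr, sr_mul_r] at h1
      have h2 : (2 * 0 - 2 * 1 : ZMod n) = 2 * 0 + 2 * 1 := by injection h1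
      have h3 : ((4 : ℕ) : ZMod n) = 0 := by push_cast; linear_combination -h2
      rw [ZMod.natCast_eq_zero_iff] at h3
      have := Nat.le_of_dvd (by norm_num) h3
      interval_cases n <;> omega
    have h2 := h H hna
    apply hr1
    rw [← h2]
    apply H2.PUtil.mem_normalizer_of_conj_mem
    rintro _ ⟨j, rfl | rfl⟩
    · exact ⟨j, Or.inl (by rw [r_mul_r, inv_r, r_mul_r]; congr 1; ring)⟩
    · exact ⟨j - 1, Or.inr (by rw [conj_r_sr]; congr 1; ring)⟩
  · rintro hcase H hH
    obtain ⟨i, hi⟩ := exists_of_nonab H hH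
    rcases hcase with rfl | hodd
    · -- n = 4
      have hcG : Nat.card (DihedralGroup 4) = 8 := by rw [DihedralGroup.nat_card]
      have hd : Nat.card H ∣ 8 := by rw [← hcG]; exact card_subgroup_dvd_card H
      have hle : Nat.card H ≤ 8 := Nat.le_of_dvd (by norm_num) hd
      have h8 : Nat.card H = 8 := by
        by_contra hne
        apply hH
        have hpos : 0 < Nat.card H := Nat.card_pos
        have hcases : Nat.card H = 1 ∨ Nat.card H = 2 ∨ Nat.card H = 4 := by
          interval_cases hh : Nat.card H <;> simp_all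
        rcases hcases with h1 | h1 | h1
        · have := (Nat.card_eq_one_iff_unique.1 h1).1
          exact ⟨⟨fun a b => Subsingleton.elim _ _⟩⟩
        · have : Fact (Nat.Prime 2) := ⟨Nat.prime_two⟩
          have := isCyclic_of_prime_card h1
          infer_instance
        · have : Fact (Nat.Prime 2) := ⟨Nat.prime_two⟩
          exact IsPGroup.isMulCommutative_of_card_eq_prime_sq (p := 2) (by rw [h1]; norm_num)
      have ht : H = ⊤ := by rw [← Subgroup.card_eq_iff_eq_top, h8, hcG]
      rw [ht, normalizer_eq_top_iff]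
      infer_instance
    · apply le_antisymm _ le_normalizer
      intro g hg
      have key : ∀ k : ZMod n, (r k : DihedralGroup n) ∈ normalizer (H : Set (DihedralGroup n)) → r k ∈ H := by
        intro k hk
        have h1 := (mem_normalizer_iff.1 hk _).1 hi
        rw [conj_r_sr] at h1
        have h2 := H.mul_mem h1 hi
        rw [sr_mul_sr] at h2
        have h3 : i - (i - 2 * k) = 2 * k := by ring
        rw [h3] at h2
        obtain ⟨m, hm⟩ := hodd
        have h4 := H.pow_mem h2 (m + 1)
        rw [r_pow] at h4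
        have h5 : ((m + 1 : ℕ) : ZMod n) * (2 * k) = k := by
          have h6 : ((n : ℕ) : ZMod n) = 0 := ZMod.natCast_self n
          have h7 : ((2 * m + 1 : ℕ) : ZMod n) = 0 := by rw [← hm]; exact h6
          push_cast at h7 ⊢
          linear_combination k * h7
        rw [mul_comm] at h5
        rwa [h5] at h4
      rcases g with k | k
      · exact key k hg
      · have h1 : (r (k - i) : DihedralGroup n) ∈ normalizer (H : Set (DihedralGroup n)) := by
          have h2 := mul_mem (le_normalizer hi) hg
          rwa [sr_mul_sr] at h2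
        have h2 := key _ h1
        have h3 := H.mul_mem hi h2
        rw [sr_mul_r] at h3
        rwa [add_sub_cancel] at h3

end Cfsg.Agent.S4074
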