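import Cfsg.Statements.S4075
import Mathlib
import Cfsg.Agent.H2.PUtil
import Cfsg.Agent.Lib.Cores

set_option autoImplicit false
open Cfsg

namespace Cfsg.Agent.S4075

open Subgroup

/-- Let G be a finite nilpotent group. Every non-abelian subgroup of G is self-normalizing if and only if G is abelian or G is a minimal non-abelian p-group for some prime p (non-abelian of prime-power order with every proper subgroup abelian). -/
theorem result {G : Type*} [Group G] [Finite G]
    [Group.IsNilpotent G] :
    (∀ H : Subgroup G, ¬ IsMulCommutative H → Subgroup.normalizer (H : Set G) = H) ↔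
    (IsMulCommutative G ∨ (IsPrimePow (Nat.card G) ∧ ¬ IsMulCommutative G ∧ ∀ H : Subgroup G, H ≠ ⊤ → IsMulCommutative H)) := by
  classical
  constructor
  · intro h
    by_cases hab : IsMulCommutative G
    · exact Or.inl hab
    right
    have hprop : ∀ H : Subgroup G, H ≠ ⊤ → IsMulCommutative H := by
      intro H hH
      by_contra hn
      exact hH (normalizerCondition_iff_only_full_group_self_normalizing.1
        Group.normalizerCondition_of_isNilpotent H (h H hn))
    refine ⟨?_, hab, hprop⟩
    by_contra hpp
    apply hab
    -- all Sylow subgroups are proper so abelian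
    have hsyl : ∀ (p : ℕ) [Fact p.Prime] (P : Sylow p G), IsMulCommutative (P : Subgroup G) := by
      intro p _ P
      apply hprop
      intro ht
      apply hpp
      have h1 : IsPGroup p (⊤ : Subgroup G) := by rw [← ht]; exact P.isPGroup'
      have h2 : IsPGroup p G := h1.of_equiv Subgroup.topEquiv
      obtain ⟨k, hk⟩ := IsPGroup.iff_card.1 h2
      rw [hk]
      have hk0 : k ≠ 0 := by
        rintro rfl
        rw [pow_zero] at hk
        apply hab
        have := (Nat.card_eq_one_iff_unique.1 hk).1
        exact ⟨⟨fun a b => Subsingleton.elim _ _⟩⟩
      exact (Fact.out : p.Prime).isPrimePow.pow hk0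
    have hcen : ∀ (p : ℕ) (_ : Fact p.Prime) (P : Sylow p G), (P : Subgroup G) ≤ center G := by
      intro p hp P
      have h3 : centralizer ((P : Subgroup G) : Set G) = ⊤ := by
        apply H2.PUtil.eq_top_of_sylow
        intro q hq Q
        by_cases hpq : p = q
        · subst hpq
          have := Sylow.unique_of_normal P (H2.PUtil.sylow_normal_of_nilpotent inferInstance P)
          rw [Subsingleton.elim Q P]
          exact le_centralizer_iff_isMulCommutative.2 (hsyl p P)
        · exact H2.PUtil.sylow_commute_of_nilpotent inferInstance hpq P Q
      intro x hx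
      rw [mem_center_iff]
      intro g
      have : g ∈ centralizer ((P : Subgroup G) : Set G) := by rw [h3]; trivial
      exact (mem_centralizer_iff.1 this x hx).symm
    have htop : center G = ⊤ := H2.PUtil.eq_top_of_sylow _ hcen
    exact ⟨⟨fun a b => by
      have : b ∈ center G := by rw [htop]; trivial
      exact mem_center_iff.1 this a⟩⟩
  · rintro (h | ⟨_, h1, h2⟩) H hH
    · exfalso
      apply hH
      exact ⟨⟨fun a b => Subtype.ext (h.is_comm.comm a.1 b.1)⟩⟩
    · have : H = ⊤ := by
        by_contra hne
        exact hH (h2 H hne)
      rw [this]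
      rw [normalizer_eq_top_iff]; infer_instance

end Cfsg.Agent.S4075
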