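import Cfsg.Statements.S4084
import Mathlib

set_option autoImplicit false
open Cfsg

namespace Cfsg.Agent.S4084

theorem key {G H : Type*} [Group G] [Finite G] [Group H] [Finite H] (e : G ≃ H)
    (he : ∀ x y : G, Commute x y ↔ Commute (e x) (e y))
    {p q : ℕ} (hp : p.Prime) (hq : q.Prime) (hpq : p ≠ q)
    (h : ∃ g : G, orderOf g = p * q) : ∃ h : H, orderOf h = p * q := by
  obtain ⟨g, hg⟩ := h
  -- double centralizers
  let DG : Subgroup G := Subgroup.centralizer (Subgroup.centralizer ({g} : Set G) : Set G)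
  let DH : Subgroup H := Subgroup.centralizer (Subgroup.centralizer ({e g} : Set H) : Set H)
  have hDG : ∀ z, z ∈ DG ↔ ∀ y, Commute g y → Commute y z := by
    intro z
    simp only [DG, Subgroup.mem_centralizer_iff, SetLike.mem_coe, Set.mem_singleton_iff, forall_eq]
    rfl
  have hDH : ∀ z, z ∈ DH ↔ ∀ y, Commute (e g) y → Commute y z := by
    intro z
    simp only [DH, Subgroup.mem_centralizer_iff, SetLike.mem_coe, Set.mem_singleton_iff, forall_eq]
    rfl
  have hcard : Nat.card DG = Nat.card DH := by
    refine Nat.card_congr (e.subtypeEquiv fun z => ?_)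
    change z ∈ DG ↔ e z ∈ DH
    rw [hDG, hDH]
    constructor
    · intro h y hy
      obtain ⟨y, rfl⟩ := e.surjective y
      exact (he _ _).1 (h y ((he _ _).2 hy))
    · intro h y hy
      exact (he _ _).2 (h _ ((he _ _).1 hy))
  have hgD : g ∈ DG := (hDG g).2 fun y hy => hy.symm
  have hdvd : p * q ∣ Nat.card DH := by
    rw [← hcard, ← hg]
    have := orderOf_dvd_natCard (⟨g, hgD⟩ : DG)
    rwa [Subgroup.orderOf_mk] at this
  have hcomm : ∀ a ∈ DH, ∀ b ∈ DH, Commute a b := by
    intro a ha b hb
    rw [hDH] at ha hb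
    exact hb a (ha (e g) (Commute.refl _)).symm.symm
  haveI : Fact p.Prime := ⟨hp⟩
  haveI : Fact q.Prime := ⟨hq⟩
  obtain ⟨a, ha⟩ := exists_prime_orderOf_dvd_card' (G := DH) p ((dvd_mul_right p q).trans hdvd)
  obtain ⟨b, hb⟩ := exists_prime_orderOf_dvd_card' (G := DH) q ((dvd_mul_left q p).trans hdvd)
  refine ⟨a * b, ?_⟩
  rw [← Subgroup.orderOf_coe] at ha hb
  rw [(hcomm a a.2 b b.2).orderOf_mul_eq_mul_orderOf_of_coprime, ha, hb]
  rw [ha, hb]
  exact (Nat.coprime_primes hp hq).2 hpq

/-- Let G and H be finite groups whose commuting graphs are isomorphic: there is a bijection e : G → H with x, y commuting exactly when e(x), e(y) commute. Then G and H have the same prime graph: for distinct primes p, q, G has an element of order pq if and only if H does (and #G = #H, so the prime divisors agree). -/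
theorem result {G H : Type*} [Group G] [Finite G] [Group H] [Finite H] (e : G ≃ H)
    (he : ∀ x y : G, Commute x y ↔ Commute (e x) (e y))
    {p q : ℕ} (hp : p.Prime) (hq : q.Prime) (hpq : p ≠ q) :
    (∃ g : G, orderOf g = p * q) ↔ (∃ h : H, orderOf h = p * q) := by
  refine ⟨key e he hp hq hpq, key e.symm (fun x y => ?_) hp hq hpq⟩
  rw [he]; simp

end Cfsg.Agent.S4084
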