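import Cfsg.Statements.S4086
import Mathlib
import Cfsg.Agent.H3.Cyc

set_option autoImplicit false
open Cfsg

namespace Cfsg.Agent.S4086

open Cfsg.Agent.H3.Cyc

/-- For a finite group G the following are equivalent: every non-identity element has prime-power order; whenever two elements generate a cyclic subgroup, one of them is a power of the other (the enhanced power graph of G coincides with its power graph). -/
theorem result {G : Type*} [Group G] [Finite G] :
    (∀ g : G, g ≠ 1 → IsPrimePow (orderOf g)) ↔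
    (∀ x y : G, IsCyclic ↥(Subgroup.closure ({x, y} : Set G)) → (x ∈ Subgroup.zpowers y ∨ y ∈ Subgroup.zpowers x)) := by
  constructor
  · intro h x y hc
    by_cases hx1 : x = 1
    · left; rw [hx1]; exact Subgroup.one_mem _
    by_cases hy1 : y = 1
    · right; rw [hy1]; exact Subgroup.one_mem _
    obtain ⟨z, hz⟩ := hc.exists_generator
    have hxz : (x : G) ∈ Subgroup.zpowers (z : G) := by
      obtain ⟨n, hn⟩ := hz ⟨x, Subgroup.subset_closure (by simp)⟩
      exact ⟨n, congrArg (fun w : ↥(Subgroup.closure ({x, y} : Set G)) => (w : G)) hn⟩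
    have hyz : (y : G) ∈ Subgroup.zpowers (z : G) := by
      obtain ⟨n, hn⟩ := hz ⟨y, Subgroup.subset_closure (by simp)⟩
      exact ⟨n, congrArg (fun w : ↥(Subgroup.closure ({x, y} : Set G)) => (w : G)) hn⟩
    have hz1 : (z : G) ≠ 1 := by
      intro hz1
      rw [hz1, Subgroup.zpowers_one_eq_bot, Subgroup.mem_bot] at hxz
      exact hx1 hxz
    obtain ⟨p, k, hp, hk, hpk⟩ := h _ hz1
    have hp' := hp.nat_prime
    have key : ∀ a b : G, a ∈ Subgroup.zpowers (z : G) → b ∈ Subgroup.zpowers (z : G) →
        orderOf a ∣ orderOf b → a ∈ Subgroup.zpowers b := fun a b ha hb hab =>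
      mem_zpowers_of_orderOf_dvd ha hb hab
    have hxd : orderOf x ∣ p ^ k := by rw [hpk]; exact orderOf_dvd_of_mem_zpowers hxz
    have hyd : orderOf y ∣ p ^ k := by rw [hpk]; exact orderOf_dvd_of_mem_zpowers hyz
    obtain ⟨a, _, ha⟩ := (Nat.dvd_prime_pow hp').1 hxd
    obtain ⟨b, _, hb⟩ := (Nat.dvd_prime_pow hp').1 hyd
    rcases le_total a b with hab | hab
    · left
      exact key x y hxz hyz (by rw [ha, hb]; exact pow_dvd_pow p hab)
    · right
      exact key y x hyz hxz (by rw [ha, hb]; exact pow_dvd_pow p hab)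
  · intro h g hg
    by_contra hcon
    have hn1 : orderOf g ≠ 1 := fun e => hg (orderOf_eq_one_iff.1 e)
    have hn0 := (orderOf_pos g).ne'
    let p := (orderOf g).minFac
    have hp : p.Prime := Nat.minFac_prime hn1
    obtain ⟨k, m, hm, hkm⟩ := Nat.exists_eq_pow_mul_and_not_dvd hn0 p hp.ne_one
    have hk : k ≠ 0 := by
      rintro rfl
      rw [pow_zero, one_mul] at hkm
      exact hm (hkm ▸ Nat.minFac_dvd _)
    have hm1 : m ≠ 1 := by
      rintro rfl
      apply hcon
      rw [hkm, mul_one]
      exact hp.isPrimePow.pow hk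
    have hcyc : IsCyclic ↥(Subgroup.closure ({g ^ (p ^ k), g ^ m} : Set G)) := by
      have hle : Subgroup.closure ({g ^ (p ^ k), g ^ m} : Set G) ≤ Subgroup.zpowers g := by
        rw [Subgroup.closure_le]
        rintro z (rfl | rfl)
        · exact Subgroup.npow_mem_zpowers _ _
        · exact Subgroup.npow_mem_zpowers _ _
      exact isCyclic_of_injective (Subgroup.inclusion hle) (Subgroup.inclusion_injective hle)
    have o1 : orderOf (g ^ (p ^ k)) = m := by
      rw [orderOf_pow_of_dvd (pow_ne_zero _ hp.ne_zero) (by rw [hkm]; exact Dvd.intro _ rfl), hkm,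
        Nat.mul_div_cancel_left _ (pow_pos hp.pos k)]
    have hm0 : m ≠ 0 := by rintro rfl; exact hm (dvd_zero _)
    have o2 : orderOf (g ^ m) = p ^ k := by
      rw [orderOf_pow_of_dvd hm0 (by rw [hkm]; exact Dvd.intro_left _ rfl), hkm,
        Nat.mul_div_cancel _ (Nat.pos_of_ne_zero hm0)]
    have hcop : m.Coprime (p ^ k) := ((hp.coprime_iff_not_dvd.2 hm).symm).pow_right k
    rcases h _ _ hcyc with h1 | h1
    · have h2 := orderOf_dvd_of_mem_zpowers h1
      rw [o1, o2] at h2
      exact hm1 (Nat.Coprime.eq_one_of_dvd hcop h2)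
    · have h2 := orderOf_dvd_of_mem_zpowers h1
      rw [o1, o2] at h2
      have h3 := Nat.Coprime.eq_one_of_dvd hcop.symm h2
      have : 1 < p ^ k := Nat.one_lt_pow hk hp.one_lt
      omega

end Cfsg.Agent.S4086
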