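import Cfsg.Statements.S4092
import Mathlib
import Cfsg.Agent.H3.Sylow

set_option autoImplicit false
open Cfsg

namespace Cfsg.Agent.S4092

open Subgroup Cfsg.Agent.H3.Count Cfsg.Agent.H3.Sylow

/-- Let G be a finite group, p a prime and P a Sylow p-subgroup of G that is not normal in G. Then G has at least p·#P elements of p-power order (the identity included). -/
theorem result {G : Type*} [Group G] [Finite G] (p : ℕ) [Fact p.Prime]
    (P : Sylow p G) (hP : ¬ (P : Subgroup G).Normal) :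
    p * Nat.card (P : Subgroup G) ≤ Nat.card {g : G // ∃ k : ℕ, orderOf g = p ^ k} := by
  classical
  have hcard : Nat.card (Sylow p G) ≠ 1 := by
    intro h
    apply hP
    have hsub : Subsingleton (Sylow p G) := (Nat.card_eq_one_iff_unique.1 h).1
    exact P.normal_of_subsingleton
  obtain ⟨D, s, hs, hD, hint⟩ := exists_sunflower hcard
  haveI := Fintype.ofFinite G
  have hcQ : ∀ Q : Sylow p G, Nat.card (Q : Subgroup G) = Nat.card (P : Subgroup G) := fun Q => by
    rw [Q.card_eq_multiplicity, P.card_eq_multiplicity]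
  -- disjoint pieces
  have hpd : ∀ Q ∈ s, Nat.card {x : G // x ∈ (Q : Subgroup G) ∧ x ∉ D} + Nat.card D = Nat.card (P : Subgroup G) := by
    intro Q hQ
    rw [← hcQ Q]
    have h1 : Nat.card (Q : Subgroup G) = Nat.card {x : (Q : Subgroup G) // (x : G) ∈ D} + Nat.card {x : (Q : Subgroup G) // ¬ (x : G) ∈ D} := by
      rw [← Nat.card_sum]
      exact Nat.card_congr (Equiv.sumCompl (fun x : (Q : Subgroup G) => (x : G) ∈ D)).symm
    rw [h1, add_comm]
    congr 1
    · exact Nat.card_congr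
        { toFun := fun x => ⟨⟨x.1, (hD Q hQ).le x.2⟩, x.2⟩
          invFun := fun x => ⟨x.1.1, x.2⟩
          left_inv := fun _ => rfl
          right_inv := fun _ => rfl }
    · exact Nat.card_congr
        { toFun := fun x => ⟨⟨x.1, x.2.1⟩, x.2.2⟩
          invFun := fun x => ⟨x.1.1, x.1.2, x.2⟩
          left_inv := fun _ => rfl
          right_inv := fun _ => rfl }
  have hinj : Nat.card (D ⊕ (Σ Q : s, {x : G // x ∈ ((Q : Sylow p G) : Subgroup G) ∧ x ∉ D})) ≤
      Nat.card {g : G // ∃ k : ℕ, orderOf g = p ^ k} := by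
    obtain ⟨Q0, hQ0⟩ : s.Nonempty := by
      rw [← Finset.card_pos]; omega
    refine Nat.card_le_card_of_injective (Sum.elim
      (fun d => ⟨d.1, exists_orderOf_of_mem Q0 ((hD Q0 hQ0).le d.2)⟩)
      (fun z => ⟨z.2.1, exists_orderOf_of_mem z.1.1 z.2.2.1⟩)) ?_
    rintro (d | z) (d' | z') h
    · have h1 : (d : G) = d' := congrArg (fun z : {g : G // ∃ k : ℕ, orderOf g = p ^ k} => z.1) h
      exact congrArg Sum.inl (Subtype.ext h1)
    · exfalso
      have h1 : (d : G) = z'.2.1 := congrArg (fun z : {g : G // ∃ k : ℕ, orderOf g = p ^ k} => z.1) h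
      apply z'.2.2.2
      rw [← h1]; exact d.2
    · exfalso
      have h1 : z.2.1 = (d' : G) := congrArg (fun z : {g : G // ∃ k : ℕ, orderOf g = p ^ k} => z.1) h
      apply z.2.2.2
      rw [h1]; exact d'.2
    · have h1 : z.2.1 = z'.2.1 := congrArg (fun z : {g : G // ∃ k : ℕ, orderOf g = p ^ k} => z.1) h
      have h2 : z.1 = z'.1 := by
        by_contra hne
        have h3 := hint z.1.1 z.1.2 z'.1.1 z'.1.2 (fun h => hne (Subtype.ext h))
        have h4 : z.2.1 ∈ ((z.1.1 : Subgroup G) ⊓ z'.1.1 : Subgroup G) := ⟨z.2.2.1, by rw [h1]; exact z'.2.2.1⟩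
        rw [h3] at h4
        exact z.2.2.2 h4
      obtain ⟨Q, x, hx⟩ := z
      obtain ⟨Q', x', hx'⟩ := z'
      change Q = Q' at h2
      subst h2
      change x = x' at h1
      subst h1
      rfl
  refine le_trans ?_ hinj
  rw [Nat.card_sum, Nat.card_sigma]
  have h1 : ∑ Q : s, Nat.card {x : G // x ∈ ((Q : Sylow p G) : Subgroup G) ∧ x ∉ D} =
      s.card * (Nat.card (P : Subgroup G) - Nat.card D) := by
    calc _ = ∑ _Q : s, (Nat.card (P : Subgroup G) - Nat.card D) :=
          Finset.sum_congr rfl fun Q _ => by have := hpd Q.1 Q.2; omega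
      _ = _ := by rw [Finset.sum_const, Finset.card_univ, Fintype.card_coe, smul_eq_mul]
  rw [h1]
  obtain ⟨Q0, hQ0⟩ : s.Nonempty := by
    rw [← Finset.card_pos]; omega
  have hDc : p * Nat.card D ≤ Nat.card (P : Subgroup G) := by
    rw [← hcQ Q0]
    obtain ⟨i, hi⟩ := IsPGroup.iff_card.1 (Q0.isPGroup'.to_le (hD Q0 hQ0).le)
    obtain ⟨j, hj⟩ := IsPGroup.iff_card.1 Q0.isPGroup'
    have hlt : Nat.card D < Nat.card (Q0 : Subgroup G) := Cfsg.Agent.Lib.Basic.card_lt_card_of_lt (hD Q0 hQ0)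
    rw [hi, hj] at hlt ⊢
    have hp1 : 1 < p := (Fact.out : p.Prime).one_lt
    have hij : i < j := (Nat.pow_lt_pow_iff_right hp1).1 hlt
    rw [← pow_succ']
    exact Nat.pow_le_pow_right (by omega) hij
  have hp0 : 0 < p := (Fact.out : p.Prime).pos
  have hle : Nat.card D ≤ Nat.card (P : Subgroup G) := by
    calc Nat.card D ≤ p * Nat.card D := Nat.le_mul_of_pos_left _ hp0
      _ ≤ _ := hDc
  obtain ⟨c, hc⟩ := Nat.exists_eq_add_of_le hle
  have h2 : (p + 1) * (Nat.card (P : Subgroup G) - Nat.card D) ≤ s.card * (Nat.card (P : Subgroup G) - Nat.card D) :=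
    Nat.mul_le_mul_right _ hs
  refine le_trans ?_ (Nat.add_le_add_left h2 _)
  rw [hc] at hDc ⊢
  rw [Nat.add_sub_cancel_left]
  nlinarith

end Cfsg.Agent.S4092
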