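import Cfsg.Statements.S4093
import Mathlib
import Cfsg.Agent.H3.Count

set_option autoImplicit false
open scoped BigOperators
open Cfsg

namespace Cfsg.Agent.S4093

open Subgroup Cfsg.Agent.H3.Count Cfsg.Agent.Lib.ClassSizes Cfsg.Agent.Lib.Basic

/-- Let G be a finite group with a normal subgroup N complementing a Sylow p-subgroup P (a normal p-complement). Then the number of elements of G of p-power order equals the sum over x ∈ P of the index of C_N(x) in N. -/
theorem result {G : Type*} [Group G] [Finite G] (p : ℕ) [Fact p.Prime]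
    (P : Sylow p G) (N : Subgroup G) [N.Normal] (hNP : N.IsComplement' (P : Subgroup G)) :
    Nat.card {g : G // ∃ k : ℕ, orderOf g = p ^ k} =
      ∑ᶠ x : (P : Subgroup G), Nat.card N / Nat.card ↥(N ⊓ Subgroup.centralizer ({(x : G)} : Set G)) := by
  classical
  haveI := Fintype.ofFinite G
  haveI := Fintype.ofFinite (P : Subgroup G)
  rw [finsum_eq_sum_of_fintype]
  have hdec : ∀ g : G, ∃ n ∈ N, ∃ y ∈ (P : Subgroup G), g = n * y := by
    intro g
    obtain ⟨⟨n, y⟩, h⟩ := hNP.2 g
    exact ⟨n, n.2, y, y.2, h.symm⟩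
  have hint : ∀ x, x ∈ N → x ∈ (P : Subgroup G) → x = 1 := by
    intro x h1 h2
    have := hNP.disjoint.le_bot ⟨h1, h2⟩
    simpa using this
  -- every p-element is N-conjugate to an element of P
  have hconj : ∀ g : G, (∃ k : ℕ, orderOf g = p ^ k) → ∃ n ∈ N, ∃ x ∈ (P : Subgroup G), g = n * x * n⁻¹ := by
    rintro g ⟨k, hk⟩
    have hpg : IsPGroup p (Subgroup.zpowers g) := by
      rw [IsPGroup.iff_card]
      exact ⟨k, by rw [Nat.card_zpowers, hk]⟩
    obtain ⟨Q, hQ⟩ := hpg.exists_le_sylow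
    have hgQ : g ∈ (Q : Subgroup G) := hQ (Subgroup.mem_zpowers g)
    obtain ⟨h, hh⟩ := MulAction.exists_smul_eq G P Q
    have hQe : (Q : Subgroup G) = (P : Subgroup G).map (MulAut.conj h).toMonoidHom := by
      rw [← hh]; rfl
    rw [hQe] at hgQ
    obtain ⟨z, hz, hzg⟩ := hgQ
    obtain ⟨n, hn, y, hy, rfl⟩ := hdec h
    refine ⟨n, hn, y * z * y⁻¹, (P : Subgroup G).mul_mem ((P : Subgroup G).mul_mem hy hz) ((P : Subgroup G).inv_mem hy), ?_⟩
    rw [← hzg]
    change n * y * z * (n * y)⁻¹ = _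
    group
  have hP : ∀ x : (P : Subgroup G), ∃ k : ℕ, orderOf (x : G) = p ^ k := by
    intro x
    have := (IsPGroup.iff_orderOf.1 P.isPGroup') x
    rwa [← Subgroup.orderOf_coe] at this
  -- the classes N-conj of x
  have hcount : ∀ x : (P : Subgroup G), Nat.card N / Nat.card ↥(N ⊓ Subgroup.centralizer ({(x : G)} : Set G)) =
      Nat.card {y : G // ∃ n ∈ N, y = n * x * n⁻¹} := by
    intro x
    have h1 : Nat.card {y : G // ∃ n ∈ N, y = n * x * n⁻¹} = (N ⊓ Subgroup.centralizer ({(x : G)} : Set G)).relIndex N := by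
      unfold Subgroup.relIndex
      rw [Subgroup.index_eq_card]
      symm
      refine Nat.card_congr (Equiv.ofBijective
        (Quotient.lift (fun n : N => (⟨n * x * (n : G)⁻¹, n, n.2, rfl⟩ : {y : G // ∃ n ∈ N, y = n * x * n⁻¹})) ?_) ?_)
      · intro a b hab
        have h2 := QuotientGroup.leftRel_apply.1 hab
        rw [mem_subgroupOf] at h2
        have h3 := mem_centralizer_singleton'.1 h2.2
        apply Subtype.ext
        change (a : G) * x * (a : G)⁻¹ = b * x * (b : G)⁻¹
        have h4 : ((a⁻¹ * b : N) : G) = (a : G)⁻¹ * b := rfl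
        rw [h4] at h3
        calc (a : G) * x * (a : G)⁻¹ = a * ((a : G)⁻¹ * b * x * ((a : G)⁻¹ * b)⁻¹) * (a : G)⁻¹ := by rw [h3]
          _ = _ := by group
      · constructor
        · intro a b hab
          induction a using Quotient.inductionOn with | h a => ?_
          induction b using Quotient.inductionOn with | h b => ?_
          have h2 : (a : G) * x * (a : G)⁻¹ = b * x * (b : G)⁻¹ := congrArg Subtype.val hab
          refine Quotient.sound (QuotientGroup.leftRel_apply.2 ?_)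
          rw [mem_subgroupOf]
          refine ⟨(a⁻¹ * b).2, mem_centralizer_singleton'.2 ?_⟩
          change (a : G)⁻¹ * b * x * ((a : G)⁻¹ * b)⁻¹ = x
          calc (a : G)⁻¹ * b * x * ((a : G)⁻¹ * b)⁻¹ = (a : G)⁻¹ * (b * x * (b : G)⁻¹) * a := by group
            _ = x := by rw [← h2]; group
        · rintro ⟨_, n, hn, rfl⟩
          exact ⟨Quotient.mk'' ⟨n, hn⟩, rfl⟩
    rw [h1]
    have h2 : Nat.card ↥(N ⊓ Subgroup.centralizer ({(x : G)} : Set G)) * (N ⊓ Subgroup.centralizer ({(x : G)} : Set G)).relIndex N = Nat.card N :=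
      card_mul_relIndex inf_le_left
    rw [← h2, Nat.mul_div_cancel_left _ Nat.card_pos]
  rw [Finset.sum_congr rfl (fun x _ => hcount x), ← Nat.card_sigma]
  symm
  refine Nat.card_congr (Equiv.ofBijective
    (fun z : (Σ x : (P : Subgroup G), {y : G // ∃ n ∈ N, y = n * x * n⁻¹}) => (⟨z.2.1, ?_⟩ : {g : G // ∃ k : ℕ, orderOf g = p ^ k})) ⟨?_, ?_⟩)
  · obtain ⟨x, y, n, hn, hy⟩ := z
    obtain ⟨k, hk⟩ := hP x
    refine ⟨k, ?_⟩
    change orderOf y = p ^ k
    rw [hy, ← hk, ← MulAut.conj_apply]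
    exact MulEquiv.orderOf_eq _ _
  · rintro ⟨x, y, n, hn, hy⟩ ⟨x', y', n', hn', hy'⟩ h
    have h1 : y = y' := congrArg Subtype.val h
    subst h1
    have h2 : (x : G) = x' := by
      -- same image modulo N
      have h3 : (x : G)⁻¹ * x' ∈ N := by
        have e1 : ((x : G) : G ⧸ N) = (y : G ⧸ N) := by
          rw [hy, QuotientGroup.mk_mul, QuotientGroup.mk_mul, QuotientGroup.mk_inv, (QuotientGroup.eq_one_iff n).2 hn]
          simp
        have e2 : ((x' : G) : G ⧸ N) = (y : G ⧸ N) := by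
          rw [hy', QuotientGroup.mk_mul, QuotientGroup.mk_mul, QuotientGroup.mk_inv, (QuotientGroup.eq_one_iff n').2 hn']
          simp
        exact QuotientGroup.eq.1 (e1.trans e2.symm)
      have h4 := hint _ h3 ((P : Subgroup G).mul_mem ((P : Subgroup G).inv_mem x.2) x'.2)
      exact (inv_mul_eq_one.1 h4)
    have h5 : x = x' := Subtype.ext h2
    subst h5
    rfl
  · rintro ⟨g, hg⟩
    obtain ⟨n, hn, x, hx, hgx⟩ := hconj g hg
    exact ⟨⟨⟨x, hx⟩, ⟨g, n, hn, hgx⟩⟩, rfl⟩

end Cfsg.Agent.S4093
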