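import Cfsg.Statements.S4106
import Mathlib
import Cfsg.Agent.H3.Sylow

set_option autoImplicit false
open Cfsg

namespace Cfsg.Agent.S4106

open Subgroup Cfsg.Agent.H3.Count Cfsg.Agent.H3.Sylow Cfsg.Agent.Lib.Basic Cfsg.Agent.Lib.ClassSizes

universe u

/-- the predicate: all elements of `C` have order divisible only by primes in `S`. -/
def PiClass {G : Type u} [Group G] (S : Finset ℕ) (C : ConjClasses G) : Prop :=
  ∀ g : G, ConjClasses.mk g = C → ∀ q : ℕ, q.Prime → q ∣ orderOf g → q ∈ S

theorem main (S : Finset ℕ) : (∀ q ∈ S, q.Prime) → ∀ (G : Type u) [Group G] [Finite G],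
    Nat.card {C : ConjClasses G // PiClass S C} ≤ ∏ q ∈ S, q ^ (Nat.card G).factorization q := by
  classical
  induction S using Finset.induction_on with
  | empty =>
    intro _ G _ _
    rw [Finset.prod_empty]
    have : Subsingleton {C : ConjClasses G // PiClass ∅ C} := by
      constructor
      rintro ⟨C, hC⟩ ⟨D, hD⟩
      have key : ∀ C : ConjClasses G, PiClass ∅ C → C = ConjClasses.mk 1 := by
        intro C hC
        obtain ⟨g, rfl⟩ := ConjClasses.exists_rep C
        have h1 : orderOf g = 1 := by
          by_contra hne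
          obtain ⟨q, hq, hqd⟩ := Nat.exists_prime_and_dvd hne
          exact absurd (hC g rfl q hq hqd) (Finset.notMem_empty q)
        rw [orderOf_eq_one_iff.1 h1]
      exact Subtype.ext ((key C hC).trans (key D hD).symm)
    exact Finite.card_le_one_iff_subsingleton.2 this
  | insert p T hpT ih =>
    intro hprime G _ _
    have hp : p.Prime := hprime p (Finset.mem_insert_self _ _)
    haveI : Fact p.Prime := ⟨hp⟩
    have ih' := ih (fun q hq => hprime q (Finset.mem_insert_of_mem hq))
    obtain ⟨P⟩ : Nonempty (Sylow p G) := inferInstance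
    haveI := Fintype.ofFinite G
    haveI := Fintype.ofFinite (P : Subgroup G)
    rw [Finset.prod_insert hpT]
    -- choose representatives
    have hrep : ∀ C : {C : ConjClasses G // PiClass (insert p T) C}, ∃ (y : (P : Subgroup G)) (z : centralizer ({(y : G)} : Set G)),
        ConjClasses.mk ((y : G) * (z : G)) = C.1 ∧ ∀ q : ℕ, q.Prime → q ∣ orderOf (z : G) → q ∈ T := by
      rintro ⟨C, hC⟩
      obtain ⟨x, rfl⟩ := ConjClasses.exists_rep C
      obtain ⟨a, b, hab, ha, hb⟩ := exists_ppart p x
      obtain ⟨Q, hQ⟩ := exists_sylow_mem ha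
      obtain ⟨h, hh⟩ := MulAction.exists_smul_eq G Q P
      have hPe : (P : Subgroup G) = (Q : Subgroup G).map (MulAut.conj h).toMonoidHom := by
        rw [← hh]; rfl
      have hy : h * x ^ a * h⁻¹ ∈ (P : Subgroup G) := by
        rw [hPe]; exact ⟨x ^ a, hQ, rfl⟩
      have hz : h * x ^ b * h⁻¹ ∈ centralizer ({h * x ^ a * h⁻¹} : Set G) := by
        rw [Cfsg.Agent.Lib.ClassSizes.mem_centralizer_singleton]
        have hc : x ^ b * x ^ a = x ^ a * x ^ b := (Commute.refl x).pow_pow b a
        calc h * x ^ b * h⁻¹ * (h * x ^ a * h⁻¹) = h * (x ^ b * x ^ a) * h⁻¹ := by group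
          _ = _ := by rw [hc]; group
      refine ⟨⟨_, hy⟩, ⟨_, hz⟩, ?_, ?_⟩
      · change ConjClasses.mk (h * x ^ a * h⁻¹ * (h * x ^ b * h⁻¹)) = ConjClasses.mk x
        rw [ConjClasses.mk_eq_mk_iff_isConj, isConj_comm, isConj_iff]
        refine ⟨h, ?_⟩
        conv_lhs => rw [← hab]
        group
      · intro q hq hqd
        have h1 : orderOf (h * x ^ b * h⁻¹) = orderOf (x ^ b) := by
          rw [← MulAut.conj_apply]; exact MulEquiv.orderOf_eq _ _
        change q ∣ orderOf (h * x ^ b * h⁻¹) at hqd
        rw [h1] at hqd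
        have h2 : q ∣ orderOf x := hqd.trans (orderOf_pow_dvd b)
        have h3 := hC x rfl q hq h2
        rcases Finset.mem_insert.1 h3 with h4 | h4
        · exfalso; rw [h4] at hqd; exact hb hqd
        · exact h4
    choose Y Z hYZ hZ using hrep
    have hinj : Nat.card {C : ConjClasses G // PiClass (insert p T) C} ≤
        Nat.card (Σ y : (P : Subgroup G), {C : ConjClasses (centralizer ({(y : G)} : Set G)) // PiClass T C}) := by
      refine Nat.card_le_card_of_injective (fun C => ⟨Y C, ⟨ConjClasses.mk (Z C), ?_⟩⟩) ?_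
      · intro g hg q hq hqd
        apply hZ C q hq
        rw [ConjClasses.mk_eq_mk_iff_isConj] at hg
        obtain ⟨w, hw⟩ := isConj_iff.1 hg
        have h1 : orderOf (Z C) = orderOf g := by
          rw [← hw, ← MulAut.conj_apply]; exact MulEquiv.orderOf_eq _ _
        rw [Subgroup.orderOf_coe, h1]; exact hqd
      · intro C D hCD
        apply Subtype.ext
        rw [← hYZ C, ← hYZ D]
        -- dependent equality
        have key : ∀ (y y' : (P : Subgroup G)) (z : centralizer ({(y : G)} : Set G)) (z' : centralizer ({(y' : G)} : Set G))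
            (h : PiClass T (ConjClasses.mk z)) (h' : PiClass T (ConjClasses.mk z')),
            (⟨y, ⟨ConjClasses.mk z, h⟩⟩ : Σ y : (P : Subgroup G), {C : ConjClasses (centralizer ({(y : G)} : Set G)) // PiClass T C}) = ⟨y', ⟨ConjClasses.mk z', h'⟩⟩ →
            ConjClasses.mk ((y : G) * (z : G)) = ConjClasses.mk ((y' : G) * (z' : G)) := by
          intro y y' z z' h h' heq
          have h1 : y = y' := congrArg Sigma.fst heq
          subst h1
          have h2 : (⟨ConjClasses.mk z, h⟩ : {C : ConjClasses (centralizer ({(y : G)} : Set G)) // PiClass T C}) = ⟨ConjClasses.mk z', h'⟩ := by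
            simpa using heq
          have h3 : ConjClasses.mk z = ConjClasses.mk z' := congrArg Subtype.val h2
          rw [ConjClasses.mk_eq_mk_iff_isConj] at h3 ⊢
          obtain ⟨w, hw⟩ := isConj_iff.1 h3
          refine isConj_iff.2 ⟨w, ?_⟩
          have h4 : (w : G) * z * (w : G)⁻¹ = z' := congrArg Subtype.val hw
          have h5 := Cfsg.Agent.Lib.ClassSizes.mem_centralizer_singleton'.1 w.2
          calc (w : G) * (y * z) * (w : G)⁻¹ = (w * y * (w : G)⁻¹) * (w * z * (w : G)⁻¹) := by group
            _ = _ := by rw [h4, h5]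
        exact key _ _ _ _ _ _ hCD
    refine hinj.trans ?_
    rw [Nat.card_sigma]
    calc ∑ y : (P : Subgroup G), Nat.card {C : ConjClasses (centralizer ({(y : G)} : Set G)) // PiClass T C}
        ≤ ∑ _y : (P : Subgroup G), ∏ q ∈ T, q ^ (Nat.card G).factorization q := by
          refine Finset.sum_le_sum fun y _ => (ih' _).trans ?_
          refine Finset.prod_le_prod' fun q hq => ?_
          refine Nat.pow_le_pow_right (hprime q (Finset.mem_insert_of_mem hq)).pos ?_
          exact (Nat.factorization_le_iff_dvd Nat.card_pos.ne' Nat.card_pos.ne').2 (card_subgroup_dvd_card _) q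
      _ = p ^ (Nat.card G).factorization p * ∏ q ∈ T, q ^ (Nat.card G).factorization q := by
          rw [Finset.sum_const, Finset.card_univ, smul_eq_mul, ← Nat.card_eq_fintype_card, P.card_eq_multiplicity]

/-- Let G be a finite group, π a set of primes and m the π-part of the order of G. Then the number of conjugacy classes of G consisting of π-elements (elements whose order is divisible only by primes in π) is at most m. -/
theorem result {G : Type*} [Group G] [Finite G]
    (π : Set ℕ) (hπ : ∀ q ∈ π, q.Prime)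
    (m : ℕ) (hm : m ∣ Nat.card G) (hmπ : ∀ q : ℕ, q.Prime → q ∣ m → q ∈ π)
    (hm' : ∀ q ∈ π, ¬ q ∣ Nat.card G / m) :
    Nat.card {C : ConjClasses G // ∀ q : ℕ, q.Prime → (∃ g : G, ConjClasses.mk g = C ∧ q ∣ orderOf g) → q ∈ π} ≤ m := by
  classical
  set S : Finset ℕ := (Nat.card G).primeFactors.filter (fun q => q ∈ π) with hS
  have hSp : ∀ q ∈ S, q.Prime := fun q hq => Nat.prime_of_mem_primeFactors (Finset.mem_filter.1 hq).1
  have h1 := main S hSp G
  have h2 : Nat.card {C : ConjClasses G // ∀ q : ℕ, q.Prime → (∃ g : G, ConjClasses.mk g = C ∧ q ∣ orderOf g) → q ∈ π} ≤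
      Nat.card {C : ConjClasses G // PiClass S C} := by
    refine Nat.card_le_card_of_injective (fun C => ⟨C.1, ?_⟩) ?_
    · intro g hg q hq hqd
      refine Finset.mem_filter.2 ⟨?_, C.2 q hq ⟨g, hg, hqd⟩⟩
      exact Nat.mem_primeFactors.2 ⟨hq, hqd.trans (orderOf_dvd_natCard g), Nat.card_pos.ne'⟩
    · intro C D hCD
      exact Subtype.ext (congrArg (fun z : {C : ConjClasses G // PiClass S C} => z.1) hCD)
  refine h2.trans (h1.trans ?_)
  apply Nat.le_of_dvd (Nat.pos_of_dvd_of_pos hm Nat.card_pos)
  refine Finset.prod_dvd_of_isRelPrime ?_ ?_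
  · intro q hq r hr hqr
    exact Nat.coprime_iff_isRelPrime.1 (Nat.Coprime.pow _ _ ((Nat.coprime_primes (hSp q hq) (hSp r hr)).2 hqr))
  · intro q hq
    have hqp := hSp q hq
    have hqπ := (Finset.mem_filter.1 hq).2
    obtain ⟨c, hc⟩ := hm
    have hm0 : m ≠ 0 := by rintro rfl; rw [zero_mul] at hc; exact Nat.card_pos.ne' hc
    have hcard : Nat.card G / m = c := by rw [hc]; exact Nat.mul_div_cancel_left _ (Nat.pos_of_ne_zero hm0)
    have h3 := hm' q hqπ
    rw [hcard] at h3
    have h4 : q ^ (Nat.card G).factorization q ∣ m * c := by rw [← hc]; exact Nat.ordProj_dvd _ _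
    exact (Nat.Coprime.pow_left _ ((Nat.Prime.coprime_iff_not_dvd hqp).2 h3)).dvd_of_dvd_mul_right h4

end Cfsg.Agent.S4106
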