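import Cfsg.Statements.S4108
import Mathlib
import Cfsg.Agent.Lib.FrobGrp

set_option autoImplicit false
open Cfsg

namespace Cfsg.Agent.S4108

open Subgroup Cfsg.Agent.Lib.FrobGrp

/-- Let G be a finite group, p a prime and N a proper non-trivial normal p-subgroup such that for every x outside N all elements of the coset xN have the same order as x. Then every non-trivial subgroup H of G of order prime to p acts fixed-point-freely on N: NH is a Frobenius group with complement H and kernel N. -/
theorem result {G : Type*} [Group G] [Finite G] (N : Subgroup G) [N.Normal] (hN1 : N ≠ ⊥) (hN2 : N ≠ ⊤)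
    (heq : ∀ x : G, x ∉ N → ∀ n ∈ N, orderOf (x * n) = orderOf x)
    (p : ℕ) [Fact p.Prime] (hNp : IsPGroup p N) :
    ∀ H : Subgroup G, H ≠ ⊥ → (Nat.card H).Coprime p →
      Cfsg.IsFrobeniusComplement (H.subgroupOf (N ⊔ H)) ∧ Cfsg.frobeniusKernel (H.subgroupOf (N ⊔ H)) = (N.subgroupOf (N ⊔ H) : Set ↥(N ⊔ H)) := by
  intro H hH1 hHp
  have hcop : (Nat.card N).Coprime (Nat.card H) := by
    obtain ⟨n, hn⟩ := IsPGroup.iff_card.1 hNp
    rw [hn]
    exact (Nat.Coprime.pow_right n hHp).symm
  have hinf : N ⊓ H = ⊥ := inf_eq_bot_of_coprime hcop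
  have hNle : N ≤ N ⊔ H := le_sup_left
  have hHle : H ≤ N ⊔ H := le_sup_right
  haveI : (N.subgroupOf (N ⊔ H)).Normal := inferInstance
  apply frobenius_of_complement
  · rw [← Subgroup.comap_subtype, ← Subgroup.comap_subtype, ← Subgroup.comap_inf, hinf]
    rw [eq_bot_iff]
    intro x hx
    have h1 : (x : G) = 1 := by
      have : (x : G) ∈ (⊥ : Subgroup G) := hx
      exact mem_bot.1 this
    rw [mem_bot]; exact Subtype.ext h1
  · rw [← Subgroup.subgroupOf_sup hNle hHle, Subgroup.subgroupOf_self]
  · intro h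
    apply hN1
    rw [Subgroup.subgroupOf_eq_bot] at h
    rw [eq_bot_iff]
    intro x hx
    exact h.le_bot ⟨hx, hNle hx⟩
  · intro h
    apply hH1
    rw [Subgroup.subgroupOf_eq_bot] at h
    rw [eq_bot_iff]
    intro x hx
    exact h.le_bot ⟨hx, hHle hx⟩
  · intro h hh h1 n hn hc
    have hh' : (h : G) ∈ H := hh
    have hn' : (n : G) ∈ N := hn
    have hc' : (n : G) * h = h * n := congrArg (fun z : ↥(N ⊔ H) => (z : G)) hc
    have hne : (h : G) ≠ 1 := fun e => h1 (Subtype.ext e)
    have hnN : (h : G) ∉ N := by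
      intro hN
      have : (h : G) ∈ N ⊓ H := ⟨hN, hh'⟩
      rw [hinf, mem_bot] at this
      exact hne this
    have h2 := heq h hnN n hn'
    have hoc : (orderOf (h : G)).Coprime (orderOf (n : G)) := by
      have h3 : orderOf (h : G) ∣ Nat.card H := Subgroup.orderOf_dvd_natCard H hh'
      have h4 : orderOf (n : G) ∣ Nat.card N := Subgroup.orderOf_dvd_natCard N hn'
      exact Nat.Coprime.coprime_dvd_left h3 (Nat.Coprime.coprime_dvd_right h4 hcop.symm)
    have h5 := Commute.orderOf_mul_eq_mul_orderOf_of_coprime (x := (h : G)) (y := n) hc'.symm hoc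
    rw [h2] at h5
    have h6 : orderOf (n : G) = 1 := by
      have := orderOf_pos (h : G)
      nlinarith
    exact Subtype.ext (orderOf_eq_one_iff.1 h6)

end Cfsg.Agent.S4108
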