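import Cfsg.Statements.S4112
import Mathlib
import Cfsg.Agent.H3.Sylow
import Cfsg.Agent.H3.Basic
import Cfsg.Agent.Lib.Nilp
import Cfsg.Agent.Lib.Components

set_option autoImplicit false
open Cfsg

namespace Cfsg.Agent.S4112

open Subgroup Cfsg.Agent.H3.Count Cfsg.Agent.H3.Sylow Cfsg.Agent.Lib.Basic Cfsg.Agent.Lib.ClassSizes

/-- Let G be a finite group and M ≤ N non-trivial proper normal subgroups such that for every g outside N the conjugacy class of g is a union of cosets of M (equivalently gm is conjugate to g for every m ∈ M). Then (1) and (2) below are equivalent, and they imply (3): (1) every g outside N acts fixed-point-freely on M, that is C_G(x) ≤ N for every x ∈ M, x ≠ 1; (2) the index of N in G is coprime to the order of M; (3) there is a subgroup H of G with HN = G and H ∩ M = 1. -/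
theorem result {G : Type*} [Group G] [Finite G] (N M : Subgroup G) [N.Normal] [M.Normal] (hMN : M ≤ N) (hM1 : M ≠ ⊥) (hN2 : N ≠ ⊤)
    (hcam : ∀ g : G, g ∉ N → ∀ m ∈ M, ∃ x : G, x * g * x⁻¹ = g * m) :
    ((∀ x ∈ M, x ≠ 1 → Subgroup.centralizer ({x} : Set G) ≤ N) ↔ N.index.Coprime (Nat.card M)) ∧
    ((∀ x ∈ M, x ≠ 1 → Subgroup.centralizer ({x} : Set G) ≤ N) → ∃ H : Subgroup G, H ⊔ N = ⊤ ∧ H ⊓ M = ⊥) := by
  have key : (∀ x ∈ M, x ≠ 1 → Subgroup.centralizer ({x} : Set G) ≤ N) ↔ N.index.Coprime (Nat.card M) := by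
    constructor
    · intro h
      by_contra hcop
      rw [Nat.Prime.not_coprime_iff_dvd] at hcop
      obtain ⟨p, hp, hpN, hpM⟩ := hcop
      haveI : Fact p.Prime := ⟨hp⟩
      obtain ⟨P⟩ : Nonempty (Sylow p G) := inferInstance
      have hPM : M.subgroupOf (P : Subgroup G) ≠ ⊥ := by
        intro hb
        have h1 : ((P : Subgroup G).subgroupOf M).index ∣ (P : Subgroup G).index :=
          Cfsg.Agent.H3.Basic.relIndex_dvd_index_of_normal_right (P : Subgroup G) M
        have h2 : (P : Subgroup G).subgroupOf M = ⊥ := by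
          rw [subgroupOf_eq_bot] at hb ⊢; exact hb.symm
        rw [h2, index_bot] at h1
        exact P.not_dvd_index (hpM.trans h1)
      have hPnil : Group.IsNilpotent (P : Subgroup G) := P.isPGroup'.isNilpotent
      have h3 := Cfsg.Agent.Lib.Nilp.normal_inf_center_ne_bot _ hPM
      rw [Subgroup.ne_bot_iff_exists_ne_one] at h3
      obtain ⟨⟨z, hz⟩, hz1⟩ := h3
      have hz1' : (z : ↥(P : Subgroup G)) ≠ 1 := fun h => hz1 (Subtype.ext h)
      have hz1'' : ((z : ↥(P : Subgroup G)) : G) ≠ 1 := fun h => hz1' (Subtype.ext h)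
      have h4 := h _ hz.1 hz1''
      have h5 : (P : Subgroup G) ≤ N := by
        refine le_trans ?_ h4
        intro x hx
        rw [Cfsg.Agent.Lib.ClassSizes.mem_centralizer_singleton]
        exact congrArg Subtype.val (mem_center_iff.1 hz.2 ⟨x, hx⟩)
      exact P.not_dvd_index (hpN.trans (index_dvd_of_le h5))
    · intro hcop x hx hx1 g hg
      by_contra hgN
      have hgx : Commute g x := (Cfsg.Agent.Lib.ClassSizes.mem_centralizer_singleton.1 hg)
      have hn1 : orderOf (g : G ⧸ N) ≠ 1 := by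
        rw [Ne, orderOf_eq_one_iff, QuotientGroup.eq_one_iff]; exact hgN
      obtain ⟨r, hr, hrd⟩ := Nat.exists_prime_and_dvd hn1
      haveI : Fact r.Prime := ⟨hr⟩
      obtain ⟨a, b, hab, ha, hb⟩ := exists_ppart r g
      have hga : g ^ a ∉ N := by
        intro hga
        have h1 : (g : G ⧸ N) = ((g ^ b : G) : G ⧸ N) := by
          conv_lhs => rw [← hab]
          rw [QuotientGroup.mk_mul, (QuotientGroup.eq_one_iff _).2 hga, one_mul]
        rw [h1] at hrd
        exact hb (hrd.trans (orderOf_map_dvd (QuotientGroup.mk' N) _))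
      have hrN : r ∣ N.index := by
        rw [index_eq_card]
        exact hrd.trans (orderOf_dvd_natCard _)
      have hrM : ¬ r ∣ Nat.card M := by
        intro h
        have : r ∣ 1 := by rw [← hcop]; exact Nat.dvd_gcd hrN h
        exact hr.one_lt.ne' (Nat.dvd_one.1 this)
      have hox : orderOf x ≠ 1 := by rw [Ne, orderOf_eq_one_iff]; exact hx1
      obtain ⟨s, hs, hsd⟩ := Nat.exists_prime_and_dvd hox
      obtain ⟨c, hc⟩ := hsd
      have hc0 : c ≠ 0 := by
        rintro rfl
        rw [mul_zero] at hc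
        exact (orderOf_pos x).ne' hc
      have hxs : orderOf (x ^ c) = s := by
        rw [orderOf_pow_of_dvd hc0 ⟨s, by rw [hc, mul_comm]⟩, hc]
        exact Nat.mul_div_cancel _ (Nat.pos_of_ne_zero hc0)
      have hsM : s ∣ Nat.card M := by
        rw [← hxs]
        have := orderOf_dvd_natCard (⟨x ^ c, M.pow_mem hx c⟩ : M)
        rwa [Subgroup.orderOf_mk] at this
      have hrs : r ≠ s := by rintro rfl; exact hrM hsM
      obtain ⟨y, hy⟩ := hcam (g ^ a) hga (x ^ c) (M.pow_mem hx c)
      have h1 : orderOf (g ^ a * x ^ c) = orderOf (g ^ a) := by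
        rw [← hy, ← MulAut.conj_apply]; exact MulEquiv.orderOf_eq _ _
      obtain ⟨k, hk⟩ := ha
      have h2 : orderOf (g ^ a * x ^ c) = orderOf (g ^ a) * orderOf (x ^ c) := by
        apply (hgx.pow_pow a c).orderOf_mul_eq_mul_orderOf_of_coprime
        rw [hk, hxs]
        exact Nat.Coprime.pow_left _ ((Nat.coprime_primes hr hs).2 hrs)
      rw [h1, hxs] at h2
      have h3 := orderOf_pos (g ^ a)
      have h4 := hs.one_lt
      nlinarith
  refine ⟨key, fun h => ?_⟩
  have hcop := key.1 h
  obtain ⟨H, hH, hmin⟩ := Cfsg.Agent.Lib.Components.exists_minimal_subgroup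
    (fun H : Subgroup G => H ⊔ N = ⊤) ⟨⊤, by simp⟩
  refine ⟨H, hH, ?_⟩
  have hfr : N.subgroupOf H ≤ frattini H := by
    refine le_iInf₂ fun K hK => ?_
    by_contra hcon
    have h1 : K ⊔ N.subgroupOf H = ⊤ := by
      apply hK.2
      refine lt_of_le_of_ne le_sup_left ?_
      intro h2
      apply hcon
      rw [h2]; exact le_sup_right
    have h2 : K.map H.subtype ⊔ N = ⊤ := by
      rw [eq_top_iff, ← hH]
      refine sup_le ?_ le_sup_right
      have h3 := congrArg (Subgroup.map H.subtype) h1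
      rw [Subgroup.map_sup, ← MonoidHom.range_eq_map, range_subtype] at h3
      refine (le_of_eq h3.symm).trans ?_
      refine sup_le_sup le_rfl ?_
      rintro _ ⟨y, hy, rfl⟩; exact hy
    have h3 := hmin _ (map_subtype_le K) h2
    apply hK.1
    rw [eq_top_iff]
    intro y _
    have h4 : (y : G) ∈ K.map H.subtype := by rw [h3]; exact y.2
    obtain ⟨w, hw, hwy⟩ := h4
    have : w = y := Subtype.ext hwy
    rw [← this]; exact hw
  have hdiv : (frattini H).index ∣ N.index := by
    refine (index_dvd_of_le hfr).trans ?_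
    change N.relIndex H ∣ N.index
    have h1 : N.relIndex (H ⊔ N) = N.relIndex H := relIndex_sup_right H N
    rw [← h1, hH, relIndex_top_right]
  have hcop2 : (Nat.card H).Coprime (Nat.card M) := by
    by_contra hc
    rw [Nat.Prime.not_coprime_iff_dvd] at hc
    obtain ⟨p, hp, hpH, hpM⟩ := hc
    have h1 := (Cfsg.Agent.Lib.Nilp.prime_dvd_index_frattini hp hpH).trans hdiv
    have : p ∣ 1 := by rw [← hcop]; exact Nat.dvd_gcd h1 hpM
    exact hp.one_lt.ne' (Nat.dvd_one.1 this)
  rw [← card_eq_one]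
  have h1 := card_dvd_of_le (inf_le_left : H ⊓ M ≤ H)
  have h2 := card_dvd_of_le (inf_le_right : H ⊓ M ≤ M)
  have := Nat.dvd_gcd h1 h2
  rw [hcop2] at this
  exact Nat.dvd_one.1 this

end Cfsg.Agent.S4112
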