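import Cfsg.Statements.S4116
import Mathlib
import Cfsg.Agent.Lib.Hall
import Cfsg.Agent.Lib.FrobGrp
import Cfsg.Agent.Lib.Cores
import Cfsg.Prelude.Def_Solvable

set_option autoImplicit false
open Cfsg

namespace Cfsg.Agent.S4116

open Subgroup Cfsg Cfsg.Agent.Lib.Hall Cfsg.Agent.Lib.FrobGrp Cfsg.Agent.Lib.Basic Cfsg.Agent.Lib.SchurZas
open scoped Pointwise

/-- Let G be a finite group with a subgroup H whose order is coprime to its index (a Hall subgroup) and which meets each of its conjugates by elements outside N_G(H) trivially. Then every subgroup of G whose order is divisible only by primes dividing the order of H lies in a conjugate of H. -/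
theorem result {G : Type*} [Group G] [Finite G] (H : Subgroup G)
    (hHall : (Nat.card H).Coprime H.index) (hTI : Cfsg.IsTISubset (H : Set G))
    (K : Subgroup G) (hK : ∀ q : ℕ, q.Prime → q ∣ Nat.card K → q ∣ Nat.card H) :
    ∃ g : G, K ≤ H.map (MulAut.conj g).toMonoidHom := by
  classical
  by_contra hcon
  push Not at hcon
  have hmapsmul : ∀ g : G, H.map (MulAut.conj g).toMonoidHom = MulAut.conj g • H := fun g => rfl
  set π : Set ℕ := {q | q ∣ Nat.card H} with hπ
  have hHH : IsHall π H := by
    refine ⟨fun q _ hd => hd, fun q hq hd hi => ?_⟩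
    have h1 : q ∣ Nat.gcd (Nat.card H) H.index := Nat.dvd_gcd hd hi
    rw [hHall] at h1
    exact hq.one_lt.ne' (Nat.dvd_one.1 h1)
  -- two conjugates of `H` with nontrivial intersection agree
  have hTI' : ∀ a b x : G, x ≠ 1 → x ∈ MulAut.conj a • H → x ∈ MulAut.conj b • H →
      MulAut.conj a • H = MulAut.conj b • H := by
    intro a b x hx1 hxa hxb
    rw [mem_conj_smul] at hxa hxb
    have h1 : b⁻¹ * a ∈ normalizer (H : Set G) := by
      by_contra hn
      have h2 := hTI (b⁻¹ * a) hn (a⁻¹ * x * a) hxa (by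
        have h3 : b⁻¹ * a * (a⁻¹ * x * a) * (b⁻¹ * a)⁻¹ = b⁻¹ * x * b := by group
        rw [h3]; exact hxb)
      apply hx1
      have h3 : x = a * (a⁻¹ * x * a) * a⁻¹ := by group
      rw [h3, h2]; group
    have h2 : (H.map (MulAut.conj (b⁻¹ * a)).toMonoidHom) = H := mem_normalizer_iff_map_conj_eq.1 h1
    have h3 : MulAut.conj (b⁻¹ * a) • H = H := h2
    rw [map_mul, map_inv, mul_smul, inv_smul_eq_iff] at h3
    exact h3
  -- `π`-elements normalising a conjugate lie in it
  have hnorm : ∀ g k : G, k ∈ K → k ∈ normalizer ((MulAut.conj g • H : Subgroup G) : Set G) →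
      k ∈ MulAut.conj g • H := by
    intro g k hk hn
    have h1 : zpowers k ≤ normalizer ((MulAut.conj g • H : Subgroup G) : Set G) := by rwa [zpowers_le]
    have h2 := Cfsg.Agent.Lib.Cores.card_sup_dvd h1
    have h3 := (hHH.conj g).eq_of_le (K := MulAut.conj g • H ⊔ zpowers k) (by
      intro q hq hd
      rcases (hq.dvd_mul).1 (hd.trans h2) with h | h
      · rw [card_conj_smul] at h; exact h
      · refine hK q hq (h.trans (card_dvd_of_le ?_))
        rwa [zpowers_le]) le_sup_left
    rw [h3]
    exact mem_sup_right (mem_zpowers k)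
  -- intersection of `K` with a conjugate
  let L : G → Subgroup K := fun g => (MulAut.conj g • H).subgroupOf K
  have hfrob : ∀ g : G, L g ≠ ⊥ → IsFrobeniusComplement (L g) := by
    intro g hg
    refine ⟨hg, ?_, ?_⟩
    · intro h
      rw [subgroupOf_eq_top] at h
      exact hcon g h
    · intro k hk
      rw [eq_bot_iff]
      rintro x ⟨hx1, hx2⟩
      rw [mem_bot]
      by_contra hx
      have hx2' : k⁻¹ * x * k ∈ L g := mem_conj_smul.1 hx2
      apply hk
      have h1 : (x : G) ∈ MulAut.conj g • H := hx1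
      have h2 : (x : G) ∈ MulAut.conj ((k : G) * g) • H := by
        rw [mem_conj_smul]
        have h3 : (k : G)⁻¹ * x * k ∈ MulAut.conj g • H := hx2'
        rw [mem_conj_smul] at h3
        have h4 : ((k : G) * g)⁻¹ * x * (k * g) = g⁻¹ * ((k : G)⁻¹ * x * k) * g := by group
        rw [h4]; exact h3
      have h3 := hTI' g ((k : G) * g) x (fun h => hx (Subtype.ext h)) h1 h2
      have h4 : (k : G) ∈ normalizer ((MulAut.conj g • H : Subgroup G) : Set G) := by
        rw [mem_normalizer_iff_map_conj_eq]
        change MulAut.conj (k : G) • (MulAut.conj g • H) = _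
        rw [← mul_smul, ← map_mul]
        exact h3.symm
      exact hnorm g k k.2 h4
  -- each Sylow subgroup of `K` lies in a conjugate
  have hsyl : ∀ q : ℕ, q.Prime → q ∣ Nat.card K → ∃ g : G, L g ≠ ⊥ ∧ q ^ (Nat.card K).factorization q ∣ Nat.card (L g) := by
    intro q hq hqd
    haveI : Fact q.Prime := ⟨hq⟩
    obtain ⟨R⟩ := (inferInstance : Nonempty (Sylow q K))
    obtain ⟨S⟩ := (inferInstance : Nonempty (Sylow q H))
    have hSi : ¬ q ∣ ((S : Subgroup H).map H.subtype).index := by
      rw [index_map, ker_subtype, sup_bot_eq, range_subtype]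
      intro h
      rcases hq.dvd_mul.1 h with h | h
      · exact S.not_dvd_index h
      · exact hHH.2 q hq (hK q hq hqd) h
    let S' : Sylow q G := IsPGroup.toSylow (S.2.map H.subtype) hSi
    obtain ⟨T, hT⟩ := (R.2.map K.subtype).exists_le_sylow
    obtain ⟨g, hg⟩ := MulAction.exists_smul_eq G S' T
    have h1 : (R : Subgroup K).map K.subtype ≤ MulAut.conj g • H := by
      refine hT.trans ?_
      rw [← hg]
      intro x hx
      have h2 : ((g • S' : Sylow q G) : Subgroup G) = MulAut.conj g • (S' : Subgroup G) := rfl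
      rw [h2, mem_conj_smul] at hx
      rw [mem_conj_smul]
      exact map_subtype_le _ hx
    have h2 : (R : Subgroup K) ≤ L g := by
      intro x hx
      exact h1 ⟨x, hx, rfl⟩
    have h3 : q ^ (Nat.card K).factorization q ∣ Nat.card (L g) := by
      rw [← R.card_eq_multiplicity]
      exact card_dvd_of_le h2
    refine ⟨g, fun h => ?_, h3⟩
    rw [h, card_bot, Nat.dvd_one] at h3
    have h4 : (Nat.card K).factorization q ≠ 0 :=
      (hq.factorization_pos_of_dvd Nat.card_pos.ne' hqd).ne'
    have h5 : 1 < q ^ (Nat.card K).factorization q := Nat.one_lt_pow h4 hq.one_lt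
    omega
  -- all nontrivial intersections have the same order
  have hcount : ∀ a b : G, L a ≠ ⊥ → L b ≠ ⊥ → Nat.card (L a) = Nat.card (L b) := by
    intro a b ha hb
    by_contra hne
    have hfa := hfrob a ha
    have hfb := hfrob b hb
    have hcover : (frobeniusKernel (L a) : Set K) ∪ frobeniusKernel (L b) = Set.univ := by
      rw [Set.eq_univ_iff_forall]
      intro x
      by_contra hx
      rw [Set.mem_union, mem_frobeniusKernel, mem_frobeniusKernel] at hx
      push Not at hx
      obtain ⟨⟨hx1, g0, hg0⟩, -, g1, hg1⟩ := hx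
      apply hne
      have h1 : (x : G) ∈ MulAut.conj ((g0 : G) * a) • H := by
        have h2 : (g0 : G)⁻¹ * x * g0 ∈ MulAut.conj a • H := hg0
        rw [mem_conj_smul] at h2 ⊢
        have h4 : ((g0 : G) * a)⁻¹ * x * (g0 * a) = a⁻¹ * ((g0 : G)⁻¹ * x * g0) * a := by group
        rw [h4]; exact h2
      have h2 : (x : G) ∈ MulAut.conj ((g1 : G) * b) • H := by
        have h2 : (g1 : G)⁻¹ * x * g1 ∈ MulAut.conj b • H := hg1
        rw [mem_conj_smul] at h2 ⊢
        have h4 : ((g1 : G) * b)⁻¹ * x * (g1 * b) = b⁻¹ * ((g1 : G)⁻¹ * x * g1) * b := by group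
        rw [h4]; exact h2
      have h3 := hTI' _ _ x (fun h => hx1 (Subtype.ext h)) h1 h2
      have h4 : ∀ (k : K) (c : G), Nat.card (L ((k : G) * c)) = Nat.card (L c) := by
        intro k c
        have h5 : L ((k : G) * c) = MulAut.conj k • L c := by
          ext y
          rw [mem_conj_smul]
          change (y : G) ∈ MulAut.conj ((k : G) * c) • H ↔ ((k⁻¹ * y * k : K) : G) ∈ MulAut.conj c • H
          rw [mem_conj_smul, mem_conj_smul]
          have h6 : ((k : G) * c)⁻¹ * y * (k * c) = c⁻¹ * ((k⁻¹ * y * k : K) : G) * c := by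
            push_cast; group
          rw [h6]
        rw [h5, card_conj_smul]
      have h5 : L ((g0 : G) * a) = L ((g1 : G) * b) := by
        change (MulAut.conj ((g0 : G) * a) • H).subgroupOf K = _
        rw [h3]
      rw [← h4 g0 a, h5, h4 g1 b]
    have h1 : (Set.univ : Set K).ncard ≤ (frobeniusKernel (L a)).ncard + (frobeniusKernel (L b)).ncard - 1 := by
      have h2 := Set.ncard_union_add_ncard_inter (frobeniusKernel (L a)) (frobeniusKernel (L b)) (Set.toFinite _) (Set.toFinite _)
      have h3 : 0 < (frobeniusKernel (L a) ∩ frobeniusKernel (L b)).ncard :=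
        (Set.ncard_pos (Set.toFinite _)).2 ⟨1, Or.inl rfl, Or.inl rfl⟩
      rw [hcover] at h2
      omega
    rw [Set.ncard_univ] at h1
    have h2 : (frobeniusKernel (L a)).ncard = (L a).index := card_frobeniusKernel hfa
    have h3 : (frobeniusKernel (L b)).ncard = (L b).index := card_frobeniusKernel hfb
    have h4 : ∀ M : Subgroup K, M ≠ ⊥ → 2 * M.index ≤ Nat.card K := by
      intro M hM
      rw [← M.card_mul_index]
      apply Nat.mul_le_mul_right
      exact (one_lt_card_iff_ne_bot M).2 hM
    have h5 := h4 _ ha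
    have h6 := h4 _ hb
    have h7 : 0 < Nat.card K := Nat.card_pos
    omega
  have hK1 : Nat.card K ≠ 1 := by
    intro h
    rw [card_eq_one] at h
    apply hcon 1
    rw [h]; exact bot_le
  obtain ⟨r, hr, hrd⟩ := Nat.exists_prime_and_dvd hK1
  obtain ⟨g0, hg0, -⟩ := hsyl r hr hrd
  have hdvd : Nat.card K ∣ Nat.card (L g0) := by
    rw [← Nat.factorization_le_iff_dvd Nat.card_pos.ne' Nat.card_pos.ne']
    intro q
    by_cases hq : q.Prime
    · by_cases hqd : q ∣ Nat.card K
      · obtain ⟨g, hg, hgd⟩ := hsyl q hq hqd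
        rw [hcount g g0 hg hg0] at hgd
        exact (hq.pow_dvd_iff_le_factorization Nat.card_pos.ne').1 hgd
      · rw [Nat.factorization_eq_zero_of_not_dvd hqd]; exact Nat.zero_le _
    · rw [Nat.factorization_eq_zero_of_not_prime _ hq]; exact Nat.zero_le _
  have htop : L g0 = ⊤ := by
    apply eq_top_of_card_eq
    exact Nat.dvd_antisymm (card_subgroup_dvd_card _) hdvd
  exact hcon g0 (subgroupOf_eq_top.1 htop)

end Cfsg.Agent.S4116
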