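import Cfsg.Statements.S4142
import Mathlib
import Cfsg.Agent.Lib.ClassSizes

set_option autoImplicit false
open Cfsg

namespace Cfsg.Agent.S4142

open Cfsg.Agent.Lib.ClassSizes

/-- Let G be a finite group and N a normal subgroup. Then the conjugacy class of every element g outside N is a union of cosets of N (gn is conjugate to g for all n ∈ N) if and only if for every g outside N the centralizer of g in G has the same order as the centralizer of gN in G/N. -/
theorem result {G : Type*} [Group G] [Finite G] (N : Subgroup G) [N.Normal] :
    (∀ g : G, g ∉ N → ∀ n ∈ N, ∃ x : G, x * g * x⁻¹ = g * n) ↔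
      ∀ g : G, g ∉ N → Nat.card (Subgroup.centralizer ({g} : Set G)) =
        Nat.card (Subgroup.centralizer ({(QuotientGroup.mk g : G ⧸ N)} : Set (G ⧸ N))) := by
  exact forall_congr' fun g => imp_congr_right fun _ => conj_coset_iff_card_centralizer N g

end Cfsg.Agent.S4142
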