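import Cfsg.Statements.S4143
import Mathlib
import Cfsg.Agent.Lib.PGrpI

set_option autoImplicit false
open Cfsg

namespace Cfsg.Agent.S4143

/-- Let X be a finite p-group of order p^n containing a non-abelian subgroup B of order p³ with C_X(B) ≤ B. Then X has nilpotency class n − 1 (maximal class). -/
theorem result {X : Type*} [Group X] [Finite X] {p : ℕ} [Fact p.Prime] (n : ℕ) (hX : Nat.card X = p ^ n)
    (B : Subgroup X) (hB : Nat.card B = p ^ 3) (hBna : ¬ IsMulCommutative B) (hC : Subgroup.centralizer (B : Set X) ≤ B) :
    Group.nilpotencyClass X = n - 1 := by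
  classical
  have hp : p.Prime := Fact.out
  have hXp : IsPGroup p X := IsPGroup.of_card hX
  have hBle : Nat.card B ∣ Nat.card X := Subgroup.card_subgroup_dvd_card B
  have hn3 : 3 ≤ n := by
    rw [hB, hX] at hBle
    exact (Nat.pow_dvd_pow_iff_le_right hp.one_lt).1 hBle
  haveI : Nontrivial X := by
    rw [← Finite.one_lt_card_iff_nontrivial, hX]
    exact Nat.one_lt_pow (by omega) hp.one_lt
  have := hXp.isNilpotent
  -- noncommuting elements of B
  obtain ⟨x, hx, y, hy, hxy⟩ : ∃ x ∈ B, ∃ y ∈ B, x * y ≠ y * x := by
    by_contra hcon
    push Not at hcon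
    exact hBna ⟨⟨fun a b => Subtype.ext (hcon a a.2 b b.2)⟩⟩
  -- generated subgroup is B
  have hgen : Subgroup.closure {x, y} = B := by
    have hle : Subgroup.closure {x, y} ≤ B := by
      rw [Subgroup.closure_le]
      rintro z (rfl | rfl)
      · exact hx
      · exact hy
    apply le_antisymm hle
    by_contra hnle
    have hcd : Nat.card (Subgroup.closure {x, y}) ∣ p ^ 3 := hB ▸ Subgroup.card_dvd_of_le hle
    obtain ⟨k, hk, hk'⟩ := (Nat.dvd_prime_pow hp).1 hcd
    have hk3 : k ≠ 3 := by
      rintro rfl
      apply hnle
      have h1 : Subgroup.closure {x, y} = B := by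
        apply SetLike.coe_injective
        apply Set.eq_of_subset_of_ncard_le hle
        rw [← Nat.card_coe_set_eq, ← Nat.card_coe_set_eq]
        exact (hB.trans hk'.symm).le
      rw [h1]
    have hcomm : ∀ a b : (Subgroup.closure {x, y} : Subgroup X), a * b = b * a := by
      have hk2 : k = 0 ∨ k = 1 ∨ k = 2 := by omega
      rcases hk2 with rfl | rfl | rfl
      · intro a b
        have : Subsingleton (Subgroup.closure {x, y} : Subgroup X) := (Nat.card_eq_one_iff_unique.1 (by rw [hk', pow_zero])).1
        exact Subsingleton.elim _ _
      · intro a b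
        have : IsCyclic (Subgroup.closure {x, y} : Subgroup X) := isCyclic_of_prime_card (by rw [hk', pow_one])
        exact (Cfsg.Agent.Lib.Cyc.isMulCommutative_of_isCyclic this).is_comm.comm a b
      · intro a b
        exact IsPGroup.commutative_of_card_eq_prime_sq hk' a b
    exact hxy (congrArg Subtype.val (hcomm ⟨x, Subgroup.subset_closure (by simp)⟩ ⟨y, Subgroup.subset_closure (by simp)⟩))
  -- the center
  have hZB : Subgroup.center X ≤ B := fun z hz => hC (Subgroup.mem_centralizer_iff.2 fun b _ => Subgroup.mem_center_iff.1 hz b)
  have hZcard : Nat.card (Subgroup.center X) = p := by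
    have h1 : Nat.card (Subgroup.center X) ∣ p ^ 3 := hB ▸ Subgroup.card_dvd_of_le hZB
    obtain ⟨k, hk, hk'⟩ := (Nat.dvd_prime_pow hp).1 h1
    have hk0 : k ≠ 0 := by
      rintro rfl
      rw [pow_zero] at hk'
      have h2 : Nontrivial (Subgroup.center X) := hXp.center_nontrivial
      have h3 := (Nat.card_eq_one_iff_unique.1 hk').1
      exact not_subsingleton _ h3
    have hk1 : k < 2 := by
      by_contra hge
      -- the quotient of `B` by the center would be cyclic
      have hZs : Nat.card ((Subgroup.center X).subgroupOf B) = p ^ k := by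
        rw [← hk']
        exact Nat.card_congr (Subgroup.subgroupOfEquivOfLe hZB).toEquiv
      have hidx := ((Subgroup.center X).subgroupOf B).card_mul_index
      rw [hZs, hB] at hidx
      have hi : ((Subgroup.center X).subgroupOf B).index = p ^ (3 - k) := by
        have h2 : p ^ 3 = p ^ k * p ^ (3 - k) := by rw [← pow_add]; congr 1; omega
        rw [h2] at hidx
        exact Nat.eq_of_mul_eq_mul_left (pow_pos hp.pos _) hidx
      have hcyc : IsCyclic (B ⧸ (Subgroup.center X).subgroupOf B) := by
        have hk23 : k = 2 ∨ k = 3 := by omega
        rcases hk23 with rfl | rfl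
        · exact isCyclic_of_prime_card (p := p) (by rw [← Subgroup.index_eq_card, hi]; norm_num)
        · have : Subsingleton (B ⧸ (Subgroup.center X).subgroupOf B) := by
            apply (Nat.card_eq_one_iff_unique.1 _).1
            rw [← Subgroup.index_eq_card, hi]; norm_num
          infer_instance
      have hker : (QuotientGroup.mk' ((Subgroup.center X).subgroupOf B)).ker ≤ Subgroup.center B := by
        rw [QuotientGroup.ker_mk']
        intro z hz
        rw [Subgroup.mem_center_iff]
        intro b
        apply Subtype.ext
        exact Subgroup.mem_center_iff.1 hz b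
      have hcomm := commutative_of_cyclic_center_quotient (QuotientGroup.mk' ((Subgroup.center X).subgroupOf B)) hker
      exact hxy (congrArg Subtype.val (hcomm ⟨x, hx⟩ ⟨y, hy⟩))
    have : k = 1 := by omega
    rw [hk', this, pow_one]
  have hCB : ∀ c : X, c * x = x * c → c * y = y * c → c ∈ Subgroup.center X := by
    intro c hcx hcy
    have h1 : c ∈ Subgroup.centralizer (B : Set X) := by
      have h0 : Subgroup.closure {x, y} ≤ Subgroup.centralizer ({c} : Set X) := by
        rw [Subgroup.closure_le]
        rintro z (rfl | rfl)
        · rw [SetLike.mem_coe, Subgroup.mem_centralizer_iff]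
          rintro w rfl
          exact hcx
        · rw [SetLike.mem_coe, Subgroup.mem_centralizer_iff]
          rintro w rfl
          exact hcy
      rw [hgen] at h0
      rw [Subgroup.mem_centralizer_iff]
      intro b hb
      exact (Subgroup.mem_centralizer_iff.1 (h0 hb) c rfl).symm
    have h2 := hC h1
    -- the center of B has order p
    have hZB' : Nat.card (Subgroup.center B) = p := by
      have h3 : Nat.card (Subgroup.center B) ∣ p ^ 3 := hB ▸ Subgroup.card_subgroup_dvd_card _
      obtain ⟨k, hk, hk'⟩ := (Nat.dvd_prime_pow hp).1 h3
      have hge : Nat.card (Subgroup.center X) ≤ Nat.card (Subgroup.center B) := by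
        apply Nat.card_le_card_of_injective (fun z : Subgroup.center X => (⟨⟨z.1, hZB z.2⟩, by
          rw [Subgroup.mem_center_iff]
          intro b
          exact Subtype.ext (Subgroup.mem_center_iff.1 z.2 b)⟩ : Subgroup.center B))
        intro z w hzw
        apply Subtype.ext
        exact congrArg (fun t : Subgroup.center B => ((t : B) : X)) hzw
      have hk0 : k ≠ 0 := by
        rintro rfl
        rw [hk', pow_zero, hZcard] at hge
        exact absurd hge (not_le.2 hp.one_lt)
      have hk1 : k < 2 := by
        by_contra hge
        have hidx := (Subgroup.center B).card_mul_index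
        rw [hk', hB] at hidx
        have hi : (Subgroup.center B).index = p ^ (3 - k) := by
          have h2 : p ^ 3 = p ^ k * p ^ (3 - k) := by rw [← pow_add]; congr 1; omega
          rw [h2] at hidx
          exact Nat.eq_of_mul_eq_mul_left (pow_pos hp.pos _) hidx
        have hcyc : IsCyclic (B ⧸ Subgroup.center B) := by
          have hk23 : k = 2 ∨ k = 3 := by omega
          rcases hk23 with rfl | rfl
          · exact isCyclic_of_prime_card (p := p) (by rw [← Subgroup.index_eq_card, hi]; norm_num)
          · have : Subsingleton (B ⧸ Subgroup.center B) := by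
              apply (Nat.card_eq_one_iff_unique.1 _).1
              rw [← Subgroup.index_eq_card, hi]; norm_num
            infer_instance
        have hcomm := commutative_of_cyclic_center_quotient (QuotientGroup.mk' (Subgroup.center B)) (by
          rw [QuotientGroup.ker_mk'])
        exact hxy (congrArg Subtype.val (hcomm ⟨x, hx⟩ ⟨y, hy⟩))
      have : k = 1 := by omega
      rw [hk', this, pow_one]
    -- so the center of B is the center of X
    have h4 : (Subgroup.center X).subgroupOf B = Subgroup.center B := by
      apply SetLike.coe_injective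
      apply Set.eq_of_subset_of_ncard_le
      · intro z hz
        change z ∈ Subgroup.center B
        rw [Subgroup.mem_center_iff]
        intro b
        exact Subtype.ext (Subgroup.mem_center_iff.1 hz b)
      · rw [← Nat.card_coe_set_eq, ← Nat.card_coe_set_eq]
        change Nat.card (Subgroup.center B) ≤ Nat.card ((Subgroup.center X).subgroupOf B)
        rw [hZB', Nat.card_congr (Subgroup.subgroupOfEquivOfLe hZB).toEquiv, hZcard]
      · exact Set.toFinite _
    have h5 : (⟨c, h2⟩ : B) ∈ Subgroup.center B := by
      rw [Subgroup.mem_center_iff]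
      intro b
      apply Subtype.ext
      exact Subgroup.mem_centralizer_iff.1 h1 b b.2
    rw [← h4] at h5
    exact h5
  -- the quotient
  let Q := X ⧸ Subgroup.center X
  let π : X →* Q := QuotientGroup.mk' (Subgroup.center X)
  let A : Subgroup Q := B.map π
  have hAcard : Nat.card A = p ^ 2 := by
    have h1 : (A.comap π) = B := by
      rw [QuotientGroup.comap_map_mk', sup_eq_right.2 hZB]
    have h2 : Nat.card (A.comap π) = Nat.card A * Nat.card (Subgroup.center X) := by
      have h3 := Subgroup.index_comap_of_surjective A (QuotientGroup.mk'_surjective (Subgroup.center X))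
      have h4 := (A.comap π).card_mul_index
      have h5 := A.card_mul_index
      have h6 := (Subgroup.center X).card_mul_index
      rw [Subgroup.index_eq_card] at h6
      have h7 : (A.comap π).index = A.index := h3
      have h8 : A.index ≠ 0 := Subgroup.index_ne_zero_of_finite
      apply Nat.eq_of_mul_eq_mul_right (Nat.pos_of_ne_zero h8)
      rw [← h7, h4, ← h6, h7]
      change Nat.card (Subgroup.center X) * Nat.card Q = _
      rw [← h5]; ring
    rw [h1, hB, hZcard] at h2
    have h3 : p ^ 2 * p = Nat.card A * p := by rw [← h2]; ring
    exact (Nat.eq_of_mul_eq_mul_right hp.pos h3).symm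
  have hQcard : Nat.card Q = p ^ (n - 1) := by
    have h6 := (Subgroup.center X).card_mul_index
    rw [Subgroup.index_eq_card, hZcard, hX] at h6
    have h7 : p ^ n = p * p ^ (n - 1) := by rw [← pow_succ']; congr 1; omega
    rw [h7] at h6
    exact Nat.eq_of_mul_eq_mul_left hp.pos h6
  have hAC : Subgroup.centralizer (A : Set Q) = A := by
    apply le_antisymm
    · -- counting
      have hcomapB : A.comap π = B := by
        rw [QuotientGroup.comap_map_mk', sup_eq_right.2 hZB]
      let C : Subgroup X := (Subgroup.centralizer (A : Set Q)).comap π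
      have hBC : B ≤ C := by
        intro b hb
        rw [Subgroup.mem_comap, Subgroup.mem_centralizer_iff]
        intro w hw
        exact congrArg Subtype.val (IsPGroup.commutative_of_card_eq_prime_sq hAcard ⟨w, hw⟩ ⟨π b, ⟨b, hb, rfl⟩⟩)
      have hCz : ∀ c ∈ C, ∀ b ∈ B, c * b * c⁻¹ * b⁻¹ ∈ Subgroup.center X := by
        intro c hc b hb
        rw [← QuotientGroup.eq_one_iff]
        have h1 := Subgroup.mem_centralizer_iff.1 hc (π b) ⟨b, hb, rfl⟩
        change (π (c * b * c⁻¹ * b⁻¹)) = 1
        rw [map_mul, map_mul, map_mul, map_inv, map_inv, ← h1]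
        group
      -- injection
      have hinj : Nat.card C ≤ Nat.card (Subgroup.center X) * (Nat.card (Subgroup.center X) * Nat.card (Subgroup.center X)) := by
        let F : C ⧸ (Subgroup.center X).subgroupOf C → Subgroup.center X × Subgroup.center X :=
          fun q => (⟨_, hCz (q.out : X) q.out.2 x hx⟩, ⟨_, hCz (q.out : X) q.out.2 y hy⟩)
        have hF : Function.Injective F := by
          intro q q' hqq
          have e1 := congrArg (fun t : Subgroup.center X × Subgroup.center X => (t.1 : X)) hqq
          have e2 := congrArg (fun t : Subgroup.center X × Subgroup.center X => (t.2 : X)) hqq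
          change (q.out : X) * x * (q.out : X)⁻¹ * x⁻¹ = (q'.out : X) * x * (q'.out : X)⁻¹ * x⁻¹ at e1
          change (q.out : X) * y * (q.out : X)⁻¹ * y⁻¹ = (q'.out : X) * y * (q'.out : X)⁻¹ * y⁻¹ at e2
          have e3 := mul_right_cancel e1
          have e4 := mul_right_cancel e2
          have key : ∀ u v w : X, u * w * u⁻¹ = v * w * v⁻¹ → (u⁻¹ * v) * w = w * (u⁻¹ * v) := by
            intro u v w h
            calc (u⁻¹ * v) * w = u⁻¹ * (v * w * v⁻¹) * v := by group
              _ = u⁻¹ * (u * w * u⁻¹) * v := by rw [h]
              _ = w * (u⁻¹ * v) := by group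
          have h5 := hCB _ (key _ _ _ e3) (key _ _ _ e4)
          rw [← Quotient.out_eq' q, ← Quotient.out_eq' q']
          exact QuotientGroup.eq.2 h5
        have h1 := Nat.card_le_card_of_injective F hF
        rw [Nat.card_prod] at h1
        have h2 := ((Subgroup.center X).subgroupOf C).card_mul_index
        rw [Subgroup.index_eq_card] at h2
        rw [← h2]
        apply Nat.mul_le_mul _ h1
        exact Nat.card_le_card_of_injective (fun z => (⟨z.1.1, z.2⟩ : Subgroup.center X)) (by
          intro z w hzw
          apply Subtype.ext
          apply Subtype.ext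
          exact congrArg (fun t : Subgroup.center X => (t : X)) hzw)
      have hCB2 : C = B := by
        symm
        apply SetLike.coe_injective
        apply Set.eq_of_subset_of_ncard_le hBC
        rw [← Nat.card_coe_set_eq, ← Nat.card_coe_set_eq]
        change Nat.card C ≤ Nat.card B
        rw [hB]
        refine hinj.trans (le_of_eq ?_)
        rw [hZcard]; ring
      intro q hq
      obtain ⟨c, rfl⟩ := QuotientGroup.mk'_surjective _ q
      have h1 : c ∈ C := hq
      rw [hCB2] at h1
      exact ⟨c, h1, rfl⟩
    · intro a ha
      rw [Subgroup.mem_centralizer_iff]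
      intro w hw
      exact congrArg Subtype.val (IsPGroup.commutative_of_card_eq_prime_sq hAcard ⟨w, hw⟩ ⟨a, ha⟩)
  have hfin := Cfsg.Agent.Lib.PGrpI.maxClass_of_self_centralizing (n - 1) Q hQcard A hAcard hAC
  change Group.nilpotencyClass (X ⧸ Subgroup.center X) = _ at hfin
  rw [Group.nilpotencyClass_quotient_center] at hfin
  omega

end Cfsg.Agent.S4143
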