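import Cfsg.Statements.S4149
import Mathlib
import Cfsg.Agent.H3.CoverC

set_option autoImplicit false
open Cfsg

namespace Cfsg.Agent.S4149

open Cfsg.Agent.Lib.PNilp Cfsg.Agent.H3.CoverC

/-- Let G be a finite group that has a normal p-complement for at most one prime p dividing its order, and let σ be a natural number such that every conjugacy class size of G has at most σ distinct prime divisors. Then the number of primes dividing at least one conjugacy class size of G is at most 2σ. -/
theorem result {G : Type*} [Group G] [Finite G] (σ : ℕ)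
    (hσ : ∀ x : G, ((Subgroup.centralizer ({x} : Set G)).index).primeFactors.card ≤ σ)
    (hnil : ∀ p q : ℕ, p.Prime → q.Prime → p ∣ Nat.card G → q ∣ Nat.card G →
      Cfsg.HasNormalPComplement p G → Cfsg.HasNormalPComplement q G → p = q) :
    Nat.card {p : ℕ | p.Prime ∧ ∃ x : G, p ∣ (Subgroup.centralizer ({x} : Set G)).index} ≤ 2 * σ := by
  classical
  haveI : Fintype G := Fintype.ofFinite G
  -- the vertices
  set V : Finset ℕ := (Nat.card G).primeFactors.filter (fun p => ∃ x : G, p ∣ (Subgroup.centralizer ({x} : Set G)).index) with hV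
  have hVmem : ∀ p, p ∈ V ↔ p.Prime ∧ ∃ x : G, p ∣ (Subgroup.centralizer ({x} : Set G)).index := by
    intro p
    rw [hV, Finset.mem_filter, Nat.mem_primeFactors]
    constructor
    · rintro ⟨⟨h1, -, -⟩, h2⟩; exact ⟨h1, h2⟩
    · rintro ⟨h1, x, h2⟩
      exact ⟨⟨h1, h2.trans (Subgroup.index_dvd_card _), Nat.card_pos.ne'⟩, x, h2⟩
  have hcard : Nat.card {p : ℕ | p.Prime ∧ ∃ x : G, p ∣ (Subgroup.centralizer ({x} : Set G)).index} = V.card := by
    have h1 : {p : ℕ | p.Prime ∧ ∃ x : G, p ∣ (Subgroup.centralizer ({x} : Set G)).index} = (V : Set ℕ) := by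
      ext p; rw [Set.mem_setOf_eq, Finset.mem_coe, hVmem]
    rw [h1, Nat.card_coe_set_eq, Set.ncard_coe_finset]
  rw [hcard]
  -- count pairs
  let E : ℕ → Finset G := fun p => Finset.univ.filter (fun x => ¬ p ∣ (Subgroup.centralizer ({x} : Set G)).index)
  have hE : ∀ p, (E p).card = Nat.card {x : G // ¬ p ∣ (Subgroup.centralizer ({x} : Set G)).index} := by
    intro p
    rw [Nat.card_eq_fintype_card, Fintype.card_subtype]
  have hsum : ∑ p ∈ V, (E p).card = ∑ x : G, (V.filter (fun p => ¬ p ∣ (Subgroup.centralizer ({x} : Set G)).index)).card := by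
    simp only [E, Finset.card_filter]
    rw [Finset.sum_comm]
  have hlow : (V.card - σ) * Nat.card G ≤ ∑ p ∈ V, (E p).card := by
    rw [hsum, Nat.card_eq_fintype_card, ← Finset.card_univ, mul_comm, ← smul_eq_mul, ← Finset.sum_const]
    apply Finset.sum_le_sum
    intro x _
    have h1 : (V.filter (fun p => ¬ p ∣ (Subgroup.centralizer ({x} : Set G)).index)).card +
        (V.filter (fun p => p ∣ (Subgroup.centralizer ({x} : Set G)).index)).card = V.card := by
      rw [add_comm]; exact Finset.card_filter_add_card_filter_not _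
    have h2 : (V.filter (fun p => p ∣ (Subgroup.centralizer ({x} : Set G)).index)).card ≤ σ := by
      refine le_trans (Finset.card_le_card ?_) (hσ x)
      intro p hp
      rw [Finset.mem_filter, hVmem] at hp
      exact Nat.mem_primeFactors.mpr ⟨hp.1.1, hp.2, Subgroup.index_ne_zero_of_finite⟩
    omega
  have hG : 0 < Nat.card G := Nat.card_pos
  by_cases hex : ∃ p₀ ∈ V, PNil p₀ G
  · obtain ⟨p₀, hp₀, hn₀⟩ := hex
    have hother : ∀ p ∈ V.erase p₀, 2 * (E p).card ≤ Nat.card G := by
      intro p hp
      rw [Finset.mem_erase] at hp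
      haveI : Fact p.Prime := ⟨((hVmem p).mp hp.2).1⟩
      haveI : Fact p₀.Prime := ⟨((hVmem p₀).mp hp₀).1⟩
      rw [hE]
      apply two_mul_card_le'
      intro hn
      obtain ⟨-, x, hx⟩ := (hVmem p).mp hp.2
      obtain ⟨-, y, hy⟩ := (hVmem p₀).mp hp₀
      exact hp.1 (hnil p p₀ Fact.out Fact.out (hx.trans (Subgroup.index_dvd_card _))
        (hy.trans (Subgroup.index_dvd_card _)) (hasNormalPComplement_iff.mpr hn) (hasNormalPComplement_iff.mpr hn₀))
    have h0 : (E p₀).card < Nat.card G := by
      haveI : Fact p₀.Prime := ⟨((hVmem p₀).mp hp₀).1⟩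
      rw [hE]; exact card_lt_of_not_central ((hVmem p₀).mp hp₀).2
    have hup : 2 * ∑ p ∈ V.erase p₀, (E p).card ≤ (V.card - 1) * Nat.card G := by
      rw [Finset.mul_sum, ← Finset.card_erase_of_mem hp₀, ← smul_eq_mul, ← Finset.sum_const]
      exact Finset.sum_le_sum hother
    rw [← Finset.sum_erase_add _ _ hp₀] at hlow
    have hV1 : 1 ≤ V.card := Finset.card_pos.mpr ⟨p₀, hp₀⟩
    by_contra hcon
    push Not at hcon
    obtain ⟨d, hd⟩ : ∃ d, V.card = 2 * σ + 1 + d := ⟨V.card - (2 * σ + 1), by omega⟩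
    have h1 : V.card - σ = σ + 1 + d := by omega
    have h2 : V.card - 1 = 2 * σ + d := by omega
    rw [h1] at hlow
    rw [h2] at hup
    nlinarith
  · push Not at hex
    have hother : ∀ p ∈ V, 2 * (E p).card ≤ Nat.card G := by
      intro p hp
      haveI : Fact p.Prime := ⟨((hVmem p).mp hp).1⟩
      rw [hE]
      exact two_mul_card_le' (hex p hp)
    have hup : 2 * ∑ p ∈ V, (E p).card ≤ V.card * Nat.card G := by
      rw [Finset.mul_sum, ← smul_eq_mul (V.card), ← Finset.sum_const]
      exact Finset.sum_le_sum hother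
    by_contra hcon
    push Not at hcon
    obtain ⟨d, hd⟩ : ∃ d, V.card = 2 * σ + 1 + d := ⟨V.card - (2 * σ + 1), by omega⟩
    have h1 : V.card - σ = σ + 1 + d := by omega
    rw [h1] at hlow
    rw [hd] at hup
    nlinarith

end Cfsg.Agent.S4149
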