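import Cfsg.Statements.S4153
import Mathlib
import Cfsg.Agent.H3.Sylow
import Cfsg.Agent.H3.Basic

set_option autoImplicit false
open Cfsg

namespace Cfsg.Agent.S4153

open Subgroup Cfsg.Agent.H3.Count Cfsg.Agent.H3.Sylow Cfsg.Agent.Lib.Basic

theorem card_sylow_mul {G : Type*} [Group G] [Finite G] (p : ℕ) [Fact p.Prime] (N : Subgroup G) [N.Normal]
    (P : Sylow p G) (Pbar : Sylow p (G ⧸ N)) (PN : Sylow p N) :
    Nat.card (P : Subgroup G) = Nat.card (Pbar : Subgroup (G ⧸ N)) * Nat.card (PN : Subgroup N) := by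
  rw [P.card_eq_multiplicity, Pbar.card_eq_multiplicity, PN.card_eq_multiplicity, ← pow_add,
    Subgroup.card_eq_card_quotient_mul_card_subgroup N, Nat.factorization_mul Nat.card_pos.ne' Nat.card_pos.ne']
  rfl

theorem inf_sylow_card {G : Type*} [Group G] [Finite G] (p : ℕ) [Fact p.Prime] (N : Subgroup G) [N.Normal]
    (R : Sylow p G) (PN : Sylow p N) :
    Nat.card ((R : Subgroup G) ⊓ N : Subgroup G) = Nat.card (PN : Subgroup N) := by
  -- R ∩ N is a Sylow subgroup of N
  have h1 : ((R : Subgroup G).subgroupOf N).index ∣ (R : Subgroup G).index := by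
    have := Cfsg.Agent.H3.Basic.relIndex_dvd_index_of_normal_right (R : Subgroup G) N
    exact this
  have h2 : ¬ p ∣ ((R : Subgroup G).subgroupOf N).index := fun h => R.not_dvd_index (h.trans h1)
  have h3 : IsPGroup p ((R : Subgroup G).subgroupOf N) := by
    refine IsPGroup.of_injective R.isPGroup'
      ({ toFun := fun x => ⟨((x : N) : G), x.2⟩, map_one' := rfl, map_mul' := fun _ _ => rfl } :
        ↥((R : Subgroup G).subgroupOf N) →* ↥(R : Subgroup G)) ?_
    intro a b hab
    exact Subtype.ext (Subtype.ext (congrArg (fun z : (R : Subgroup G) => (z : G)) hab))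
  let S : Sylow p N := h3.toSylow h2
  have h4 : Nat.card (S : Subgroup N) = Nat.card (PN : Subgroup N) := by
    rw [S.card_eq_multiplicity, PN.card_eq_multiplicity]
  rw [← h4]
  have h5 : (S : Subgroup N) = (R : Subgroup G).subgroupOf N := rfl
  rw [h5]
  refine Nat.card_congr
    { toFun := fun x => ⟨⟨x.1, x.2.2⟩, x.2.1⟩
      invFun := fun x => ⟨x.1.1, x.2, x.1.2⟩
      left_inv := fun _ => rfl
      right_inv := fun _ => rfl }

/-- Let G be a finite group, p a prime, N a normal subgroup, P a Sylow p-subgroup of G and P̄ a Sylow p-subgroup of G/N. Count the elements of p-power order, the identity included. Then (number of such elements of G/N)/#P̄ ≤ (number of such elements of G)/#P, stated as a cross-multiplied inequality, with equality when N is central. -/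
theorem result {G : Type*} [Group G] [Finite G] (p : ℕ) [Fact p.Prime] (N : Subgroup G) [N.Normal]
    (P : Sylow p G) (Pbar : Sylow p (G ⧸ N)) :
    Nat.card {g : (G ⧸ N) // ∃ k : ℕ, orderOf g = p ^ k} * Nat.card (P : Subgroup G) ≤ Nat.card {g : G // ∃ k : ℕ, orderOf g = p ^ k} * Nat.card (Pbar : Subgroup (G ⧸ N)) ∧
    (N ≤ Subgroup.center G → Nat.card {g : (G ⧸ N) // ∃ k : ℕ, orderOf g = p ^ k} * Nat.card (P : Subgroup G) = Nat.card {g : G // ∃ k : ℕ, orderOf g = p ^ k} * Nat.card (Pbar : Subgroup (G ⧸ N))) := by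
  classical
  obtain ⟨PN⟩ : Nonempty (Sylow p N) := inferInstance
  have hc := card_sylow_mul p N P Pbar PN
  have hpos : 0 < Nat.card (Pbar : Subgroup (G ⧸ N)) := Nat.card_pos
  let f : {g : G // ∃ k : ℕ, orderOf g = p ^ k} → {g : (G ⧸ N) // ∃ k : ℕ, orderOf g = p ^ k} := fun g =>
    ⟨(g.1 : G ⧸ N), by
      obtain ⟨k, hk⟩ := g.2
      have h1 : orderOf (g.1 : G ⧸ N) ∣ p ^ k := by
        rw [← hk]; exact orderOf_map_dvd (QuotientGroup.mk' N) g.1
      obtain ⟨j, -, hj⟩ := (Nat.dvd_prime_pow Fact.out).1 h1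
      exact ⟨j, hj⟩⟩
  have hfib : ∀ y, Nat.card (PN : Subgroup N) ≤ Nat.card {a // f a = y} := by
    rintro ⟨y, hy⟩
    induction y using QuotientGroup.induction_on with | H y => ?_
    -- lift to a p-element
    obtain ⟨a, b, hab, ha, hb⟩ := exists_ppart p y
    have hyx : ((y ^ a : G) : G ⧸ N) = (y : G ⧸ N) := by
      -- y^b is trivial mod N
      have h1 : ((y ^ b : G) : G ⧸ N) = 1 := by
        obtain ⟨k, hk⟩ := hy
        have h2 : orderOf ((y ^ b : G) : G ⧸ N) ∣ p ^ k := by
          rw [← hk, QuotientGroup.mk_pow]; exact orderOf_pow_dvd b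
        have h3 : orderOf ((y ^ b : G) : G ⧸ N) ∣ orderOf (y ^ b) := orderOf_map_dvd (QuotientGroup.mk' N) _
        have h4 : Nat.Coprime (p ^ k) (orderOf (y ^ b)) :=
          Nat.Coprime.pow_left _ ((Nat.Prime.coprime_iff_not_dvd Fact.out).2 hb)
        have h5 : orderOf ((y ^ b : G) : G ⧸ N) ∣ 1 := by
          rw [← h4]; exact Nat.dvd_gcd h2 h3
        exact orderOf_eq_one_iff.1 (Nat.dvd_one.1 h5)
      have h6 : ((y ^ a * y ^ b : G) : G ⧸ N) = (y : G ⧸ N) := by rw [hab]
      rw [QuotientGroup.mk_mul, h1, mul_one] at h6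
      exact h6
    obtain ⟨R, hR⟩ := exists_sylow_mem ha
    rw [← inf_sylow_card p N R PN]
    refine Nat.card_le_card_of_injective (fun z => ⟨⟨y ^ a * z.1, exists_orderOf_of_mem R ((R : Subgroup G).mul_mem hR z.2.1)⟩, ?_⟩) ?_
    · apply Subtype.ext
      change ((y ^ a * z.1 : G) : G ⧸ N) = (y : G ⧸ N)
      rw [QuotientGroup.mk_mul, hyx, (QuotientGroup.eq_one_iff z.1).2 z.2.2, mul_one]
    · intro z w hzw
      have h7 : y ^ a * z.1 = y ^ a * w.1 := congrArg (fun u => ((u : {a // f a = ⟨(y : G ⧸ N), hy⟩}).1 : G)) hzw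
      exact Subtype.ext (mul_left_cancel h7)
  haveI := Fintype.ofFinite {g : (G ⧸ N) // ∃ k : ℕ, orderOf g = p ^ k}
  have hsum := card_eq_sum_fiber f
  refine ⟨?_, fun hcen => ?_⟩
  · have h1 : Nat.card {g : (G ⧸ N) // ∃ k : ℕ, orderOf g = p ^ k} * Nat.card (PN : Subgroup N) ≤ Nat.card {g : G // ∃ k : ℕ, orderOf g = p ^ k} := by
      rw [hsum]
      calc _ = ∑ _y : {g : (G ⧸ N) // ∃ k : ℕ, orderOf g = p ^ k}, Nat.card (PN : Subgroup N) := by
            rw [Finset.sum_const, Finset.card_univ, smul_eq_mul, Nat.card_eq_fintype_card]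
        _ ≤ _ := Finset.sum_le_sum fun y _ => hfib y
    rw [hc]
    calc _ = (Nat.card {g : (G ⧸ N) // ∃ k : ℕ, orderOf g = p ^ k} * Nat.card (PN : Subgroup N)) * Nat.card (Pbar : Subgroup (G ⧸ N)) := by ring
      _ ≤ _ := Nat.mul_le_mul_right _ h1
  · have hfib' : ∀ y, Nat.card {a // f a = y} = Nat.card (PN : Subgroup N) := by
      intro y
      apply le_antisymm _ (hfib y)
      by_cases hne : Nonempty {a // f a = y}
      · obtain ⟨⟨x0, hx0⟩, hy0⟩ := hne
        refine Nat.card_le_card_of_injective (fun z => ⟨⟨x0⁻¹ * z.1.1, ?_⟩, ?_⟩) ?_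
        · have h1 : (z.1.1 : G ⧸ N) = (x0 : G ⧸ N) :=
            congrArg Subtype.val (z.2.trans hy0.symm)
          exact QuotientGroup.eq.1 h1.symm
        · -- p-element of central N lies in PN
          have h1 : (z.1.1 : G ⧸ N) = (x0 : G ⧸ N) :=
            congrArg Subtype.val (z.2.trans hy0.symm)
          have hn : x0⁻¹ * z.1.1 ∈ N := QuotientGroup.eq.1 h1.symm
          have hcomm : Commute x0 z.1.1 := by
            have h2 := Subgroup.mem_center_iff.1 (hcen hn) x0
            have h3 : x0 * (x0⁻¹ * z.1.1) = z.1.1 := by group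
            rw [h3] at h2
            calc x0 * z.1.1 = x0 * (x0⁻¹ * z.1.1 * x0) := by rw [← h2]
              _ = z.1.1 * x0 := by group
          have hpe : ∃ k : ℕ, orderOf (x0⁻¹ * z.1.1) = p ^ k := by
            obtain ⟨i, hi⟩ := hx0
            obtain ⟨j, hj⟩ := z.1.2
            have h4 : (x0⁻¹ * z.1.1) ^ (p ^ (i + j)) = 1 := by
              rw [hcomm.inv_left.mul_pow, inv_pow, pow_add, pow_mul, ← hi, pow_orderOf_eq_one, one_pow, inv_one, one_mul,
                mul_comm, pow_mul, ← hj, pow_orderOf_eq_one, one_pow]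
            have h5 := orderOf_dvd_of_pow_eq_one h4
            obtain ⟨k, -, hk⟩ := (Nat.dvd_prime_pow Fact.out).1 h5
            exact ⟨k, hk⟩
          have hpe' : ∃ k : ℕ, orderOf (⟨x0⁻¹ * z.1.1, hn⟩ : N) = p ^ k := by
            obtain ⟨k, hk⟩ := hpe
            exact ⟨k, by rw [Subgroup.orderOf_mk, hk]⟩
          obtain ⟨Q, hQ⟩ := exists_sylow_mem hpe'
          have hNc : ∀ a b : N, a * b = b * a := fun a b => Subtype.ext (Subgroup.mem_center_iff.1 (hcen b.2) a)
          have hnorm : (PN : Subgroup N).Normal := ⟨fun n hn g => by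
            have : g * n * g⁻¹ = n := by rw [hNc g n]; group
            rw [this]; exact hn⟩
          haveI := PN.unique_of_normal hnorm
          have hQP : Q = PN := Subsingleton.elim _ _
          rw [← hQP]
          exact hQ
        · intro z w hzw
          have h7 : x0⁻¹ * z.1.1 = x0⁻¹ * w.1.1 := congrArg (fun u => ((u : (PN : Subgroup N)) : G)) hzw
          exact Subtype.ext (Subtype.ext (mul_left_cancel h7))
      · rw [not_nonempty_iff] at hne
        rw [Nat.card_of_isEmpty]; exact Nat.zero_le _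
    have h1 : Nat.card {g : G // ∃ k : ℕ, orderOf g = p ^ k} = Nat.card {g : (G ⧸ N) // ∃ k : ℕ, orderOf g = p ^ k} * Nat.card (PN : Subgroup N) :=
      card_eq_mul_of_fiber_eq f _ hfib'
    rw [hc, h1]; ring

end Cfsg.Agent.S4153
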