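import Cfsg.Statements.S4154
import Mathlib
import Cfsg.Agent.H3.Count

set_option autoImplicit false
open Cfsg

namespace Cfsg.Agent.S4154

open Subgroup Cfsg.Agent.H3.Count Cfsg.Agent.Lib.ClassSizes Cfsg.Agent.Lib.Basic

/-- Let G be a finite group and α an automorphism of G such that every element of G is the product of an element fixed by α and an element of the form g⁻¹α(g). If N is a normal α-invariant subgroup, then the automorphism ᾱ induced on G/N has the same property, and every coset fixed by ᾱ contains an element fixed by α (so the fixed points of ᾱ are the images of the fixed points of α). -/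
theorem result {G : Type*} [Group G] [Finite G] (α : MulAut G)
    (hccp : ∀ x : G, ∃ c g : G, α c = c ∧ x = c * (g⁻¹ * α g))
    (N : Subgroup G) [N.Normal] (hN : ∀ n ∈ N, α n ∈ N) :
    (∀ x : G, ∃ c g : G, c⁻¹ * α c ∈ N ∧ x⁻¹ * (c * (g⁻¹ * α g)) ∈ N) ∧
    (∀ x : G, x⁻¹ * α x ∈ N → ∃ c : G, α c = c ∧ c⁻¹ * x ∈ N) := by
  classical
  refine ⟨fun x => ?_, ?_⟩
  · obtain ⟨c, g, hc, hx⟩ := hccp x
    refine ⟨c, g, ?_, ?_⟩
    · rw [hc]; simp
    · rw [← hx]; simp
  · -- induced automorphism of the quotient
    let φ : G ⧸ N →* G ⧸ N := QuotientGroup.map N N α.toMonoidHom (fun n hn => hN n hn)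
    have hφ : ∀ g : G, φ (g : G ⧸ N) = (α g : G ⧸ N) := fun g => rfl
    -- image of C
    let C : Subgroup G := { carrier := {g | α g = g}
                            one_mem' := map_one α
                            mul_mem' := fun {a b} ha hb => by
                              change α (a * b) = a * b
                              rw [map_mul]
                              exact congrArg₂ (· * ·) ha hb
                            inv_mem' := fun {a} ha => by
                              change α a⁻¹ = a⁻¹
                              rw [map_inv]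
                              exact congrArg _ ha }
    let Cbar : Subgroup (G ⧸ N) := C.map (QuotientGroup.mk' N)
    let D : Subgroup (G ⧸ N) := { carrier := {g | φ g = g}
                                  one_mem' := map_one φ
                                  mul_mem' := fun {a b} ha hb => by
                                    change φ (a * b) = a * b
                                    rw [map_mul]
                                    exact congrArg₂ (· * ·) ha hb
                                  inv_mem' := fun {a} ha => by
                                    change φ a⁻¹ = a⁻¹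
                                    rw [map_inv]
                                    exact congrArg _ ha }
    have hle : Cbar ≤ D := by
      rintro _ ⟨c, hc, rfl⟩
      change φ (c : G ⧸ N) = (c : G ⧸ N)
      rw [hφ]
      exact congrArg (fun g : G => (g : G ⧸ N)) hc
    have hcard := card_range_mul_card_fixed φ
    have hpos : 0 < Nat.card (Set.range fun g : G ⧸ N => g⁻¹ * φ g) := by
      haveI : Nonempty (Set.range fun g : G ⧸ N => g⁻¹ * φ g) := ⟨⟨_, 1, rfl⟩⟩
      exact Nat.card_pos
    have hsurj : Nat.card (G ⧸ N) ≤ Nat.card (Set.range fun g : G ⧸ N => g⁻¹ * φ g) * Nat.card Cbar := by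
      rw [← Nat.card_prod]
      refine Nat.card_le_card_of_surjective (fun z : (Set.range fun g : G ⧸ N => g⁻¹ * φ g) × Cbar => (z.2 : G ⧸ N) * (z.1 : G ⧸ N)) ?_
      intro y
      induction y using QuotientGroup.induction_on with | H y => ?_
      obtain ⟨c, g, hc, hx⟩ := hccp y
      refine ⟨(⟨(g : G ⧸ N)⁻¹ * φ (g : G ⧸ N), (g : G ⧸ N), rfl⟩, ⟨(c : G ⧸ N), ⟨c, hc, rfl⟩⟩), ?_⟩
      change (c : G ⧸ N) * ((g : G ⧸ N)⁻¹ * φ (g : G ⧸ N)) = (y : G ⧸ N)
      rw [hφ]
      conv_rhs => rw [hx]
      rfl
    have hD : Nat.card D ≤ Nat.card Cbar := by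
      have h1 : Nat.card (Set.range fun g : G ⧸ N => g⁻¹ * φ g) * Nat.card D ≤
          Nat.card (Set.range fun g : G ⧸ N => g⁻¹ * φ g) * Nat.card Cbar := by
        calc _ = Nat.card (G ⧸ N) := hcard
          _ ≤ _ := hsurj
      exact Nat.le_of_mul_le_mul_left h1 hpos
    have heq : Cbar = D := Subgroup.eq_of_le_of_card_ge hle hD
    intro x hx
    have hxD : (x : G ⧸ N) ∈ D := by
      change φ (x : G ⧸ N) = (x : G ⧸ N)
      rw [hφ, eq_comm, QuotientGroup.eq]
      exact hx
    rw [← heq] at hxD
    obtain ⟨c, hc, hcx⟩ := hxD
    exact ⟨c, hc, QuotientGroup.eq.1 hcx⟩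

end Cfsg.Agent.S4154
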