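import Cfsg.Statements.S4168
import Mathlib
import Cfsg.Agent.Lib.PComp

set_option autoImplicit false
open Cfsg

namespace Cfsg.Agent.S4168

open Subgroup Cfsg.Agent.Lib.Components Cfsg.Agent.Lib.PComp

/-- Let L be a finite quasisimple group (perfect with L/Z(L) simple). Then every prime dividing the order of the centre Z(L) also divides the order of L/Z(L). -/
theorem result {L : Type*} [Group L] [Finite L] (hL : Cfsg.IsQuasisimple L)
    (p : ℕ) (hp : p.Prime) (hdiv : p ∣ Nat.card (Subgroup.center L)) : p ∣ (Subgroup.center L).index := by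
  haveI : Fact p.Prime := ⟨hp⟩
  by_contra hn
  obtain ⟨P⟩ : Nonempty (Sylow p L) := inferInstance
  refine not_dvd_card_of_central_sylow hL.1.commutator_eq_top P ?_ (hdiv.trans (card_subgroup_dvd_card _))
  have h1 : opp p (⊤ : Subgroup L) ≤ center L := by
    refine opp_le_of_relIndex_coprime ((inferInstance : (center L).Normal).isSubnormal.subgroupOf) ?_
    rw [relIndex_top_right]
    exact ((Nat.Prime.coprime_iff_not_dvd hp).2 hn).symm
  intro x hx
  apply h1
  refine mem_opp (mem_top x) ?_
  have := (IsPGroup.iff_orderOf.1 P.isPGroup') ⟨x, hx⟩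
  rwa [Subgroup.orderOf_mk] at this

end Cfsg.Agent.S4168
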