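import Cfsg.Statements.S4169
import Mathlib
import Cfsg.Agent.H3.SmallClass
import Cfsg.Agent.Lib.Nilp

set_option autoImplicit false
open Cfsg

namespace Cfsg.Agent.S4169

open Cfsg.Agent.H3.SmallClass Cfsg.Agent.Lib.ClassSizes
open scoped commutatorElement

/-- Let P be a finite p-group whose conjugacy classes have exactly two sizes (1 and one other value). Then P has nilpotency class at most 3. -/
theorem result {P : Type*} [Group P] [Finite P] {p : ℕ} [Fact p.Prime] (hP : IsPGroup p P)
    (m : ℕ) (hm : 1 < m) (h : ∀ x : P, (Subgroup.centralizer ({x} : Set P)).index = 1 ∨ (Subgroup.centralizer ({x} : Set P)).index = m) :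
    upperCentralSeries P 3 = ⊤ := by
  classical
  haveI : Group.IsNilpotent P := hP.isNilpotent
  obtain ⟨A, hAmax⟩ := (Set.toFinite {A : Subgroup P | A.Normal ∧ IsMulCommutative A}).exists_maximal
    ⟨⊥, inferInstance, ⟨⟨fun a b => Subsingleton.elim _ _⟩⟩⟩
  haveI hAn : A.Normal := hAmax.prop.1
  have hAc : IsMulCommutative A := hAmax.prop.2
  have hCA : Subgroup.centralizer (A : Set P) = A :=
    Cfsg.Agent.Lib.Nilp.centralizer_eq_of_maximal_abelian_normal A hAc (fun M h1 h2 h3 =>
      le_antisymm (hAmax.2 ⟨h1, h2⟩ h3) h3)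
  have hA' : ∀ a ∈ A, ∀ b ∈ A, a * b = b * a := fun a ha b hb =>
    congrArg Subtype.val (hAc.is_comm.comm ⟨a, ha⟩ ⟨b, hb⟩)
  have hall : ∀ x : P, x ∈ Subgroup.closure {x : P | (Subgroup.centralizer ({x} : Set P)).index = 1 ∨
      (Subgroup.centralizer ({x} : Set P)).index = m} := fun x => Subgroup.subset_closure (h x)
  rw [eq_top_iff]
  intro x _
  change x ∈ Subgroup.upperCentralSeries P (2 + 1)
  rw [Subgroup.mem_upperCentralSeries_succ_iff]
  intro y
  rw [Subgroup.mem_upperCentralSeries_succ_iff]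
  intro z
  rw [Subgroup.mem_upperCentralSeries_succ_iff]
  intro w
  rw [Subgroup.upperCentralSeries_zero, Subgroup.mem_bot]
  refine small A hA' hCA (m := m) ?_ rfl x y z w (hall x) (hall y) (hall z)
  intro x hx
  rcases h x with h1 | h1
  · rw [h1] at hx; exact absurd hx (lt_irrefl _)
  · exact h1.ge

end Cfsg.Agent.S4169
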