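import Cfsg.Statements.S4177
import Mathlib
import Cfsg.Agent.Lib.Basic

set_option autoImplicit false
open Cfsg

namespace Cfsg.Agent.S4177

open Cfsg.Agent.Lib.Basic
open scoped Pointwise

/-- Let k be a field whose characteristic does not divide the order of the finite group H (for instance a field of characteristic zero), and ρ a k-linear representation of H on V. Let a be a vector whose H-orbit spans V. Then the space of H-fixed vectors has dimension at most 1, and every vector b whose H-orbit has size coprime to the size of the orbit of a is fixed by H. -/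
theorem result {k V H : Type*} [Field k] [AddCommGroup V] [Module k V] [Group H] [Finite H]
    (hchar : ¬ ringChar k ∣ Nat.card H) (ρ : Representation k H V) (a : V)
    (hspan : Submodule.span k {u : V | ∃ h : H, ρ h a = u} = ⊤) :
    Module.finrank k ρ.invariants ≤ 1 ∧
    ∀ b : V, (Nat.card {u : V | ∃ h : H, ρ h a = u}).Coprime (Nat.card {u : V | ∃ h : H, ρ h b = u}) → ∀ h : H, ρ h b = b := by
  classical
  haveI := Fintype.ofFinite H
  have hne : ∀ K : Subgroup H, (Nat.card K : k) ≠ 0 := by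
    intro K h
    apply hchar
    exact dvd_trans ((ringChar.spec k _).1 h) (Subgroup.card_subgroup_dvd_card K)
  let s : Subgroup H → V →ₗ[k] V := fun K => ∑ x : K, ρ (x : H)
  have hs : ∀ K v, s K v = ∑ x : K, ρ (x : H) v := fun K v => by simp [s, LinearMap.sum_apply]
  have h1 : ∀ K : Subgroup H, ∀ y ∈ K, ∀ v, s K (ρ y v) = s K v := by
    intro K y hy v
    rw [hs, hs]
    refine Fintype.sum_equiv (Equiv.mulRight (⟨y, hy⟩ : K)) _ _ (fun x => ?_)
    change ρ (x : H) (ρ y v) = ρ ((x : H) * y) v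
    rw [map_mul]; rfl
  have h2 : ∀ K : Subgroup H, ∀ y ∈ K, ∀ v, ρ y (s K v) = s K v := by
    intro K y hy v
    rw [hs, map_sum]
    refine Fintype.sum_equiv (Equiv.mulLeft (⟨y, hy⟩ : K)) _ _ (fun x => ?_)
    change ρ y (ρ (x : H) v) = ρ (y * (x : H)) v
    rw [map_mul]; rfl
  have h3 : ∀ K : Subgroup H, ∀ v, (∀ y ∈ K, ρ y v = v) → s K v = (Nat.card K : k) • v := by
    intro K v hv
    rw [hs, Finset.sum_congr rfl (fun (x : K) _ => hv x x.2), Finset.sum_const, Finset.card_univ,
      ← Nat.card_eq_fintype_card, Nat.cast_smul_eq_nsmul]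
  have h4 : ∀ K : Subgroup H, (∀ h : H, s K (ρ h a) = s K a) → ∀ v, ∃ c : k, s K v = c • s K a := by
    intro K hK v
    have hv : v ∈ Submodule.span k {u : V | ∃ h : H, ρ h a = u} := hspan ▸ Submodule.mem_top
    induction hv using Submodule.span_induction with
    | mem x hx => obtain ⟨h, rfl⟩ := hx; exact ⟨1, by rw [hK, one_smul]⟩
    | zero => exact ⟨0, by rw [map_zero, zero_smul]⟩
    | add x y _ _ hx hy =>
      obtain ⟨c, hc⟩ := hx; obtain ⟨d, hd⟩ := hy
      exact ⟨c + d, by rw [map_add, hc, hd, add_smul]⟩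
    | smul r x _ hx =>
      obtain ⟨c, hc⟩ := hx
      exact ⟨r * c, by rw [map_smul, hc, mul_smul]⟩
  refine ⟨?_, ?_⟩
  · refine finrank_le_one (⟨s ⊤ a, fun g => h2 ⊤ g trivial a⟩ : ρ.invariants) ?_
    rintro ⟨w, hw⟩
    obtain ⟨c, hc⟩ := h4 ⊤ (fun h => h1 ⊤ h trivial a) w
    refine ⟨(Nat.card (⊤ : Subgroup H) : k)⁻¹ * c, ?_⟩
    apply Subtype.ext
    change ((Nat.card (⊤ : Subgroup H) : k)⁻¹ * c) • s ⊤ a = w
    rw [mul_smul, ← hc, h3 ⊤ w (fun y _ => hw y), smul_smul, inv_mul_cancel₀ (hne ⊤), one_smul]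
  · intro b hcop
    letI act : MulAction H V :=
      { smul := fun h v => ρ h v
        one_smul := fun v => by change ρ 1 v = v; rw [map_one]; rfl
        mul_smul := fun g h v => by change ρ (g * h) v = ρ g (ρ h v); rw [map_mul]; rfl }
    have hsm : ∀ (h : H) (v : V), h • v = ρ h v := fun _ _ => rfl
    set A := MulAction.stabilizer H a with hA
    set B := MulAction.stabilizer H b with hB
    have hAi : A.index = Nat.card {u : V | ∃ h : H, ρ h a = u} := MulAction.index_stabilizer H a
    have hBi : B.index = Nat.card {u : V | ∃ h : H, ρ h b = u} := MulAction.index_stabilizer H b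
    rw [← hAi, ← hBi] at hcop
    have hmul := mul_eq_univ_of_coprime_index hcop.symm
    have h5 : ∀ h : H, s B (ρ h a) = s B a := by
      intro h
      have : h ∈ (B : Set H) * (A : Set H) := by rw [hmul]; trivial
      obtain ⟨y, hy, z, hz, rfl⟩ := this
      have hz' : ρ z a = a := hz
      have : ρ (y * z) a = ρ y a := by
        rw [map_mul]; change ρ y (ρ z a) = _; rw [hz']
      change s B (ρ (y * z) a) = _
      rw [this]
      exact h1 B y hy a
    have h6 : s B (s ⊤ a) = (Nat.card (⊤ : Subgroup H) : k) • s B a := by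
      rw [hs ⊤ a, map_sum, Finset.sum_congr rfl (fun (x : (⊤ : Subgroup H)) _ => h5 x), Finset.sum_const,
        Finset.card_univ, ← Nat.card_eq_fintype_card, Nat.cast_smul_eq_nsmul]
    have h7 : s B (s ⊤ a) = (Nat.card B : k) • s ⊤ a := h3 B _ (fun y _ => h2 ⊤ y trivial a)
    have h8 : s B a = ((Nat.card (⊤ : Subgroup H) : k)⁻¹ * Nat.card B) • s ⊤ a := by
      rw [mul_smul, ← h7, h6, smul_smul, inv_mul_cancel₀ (hne ⊤), one_smul]
    obtain ⟨c, hc⟩ := h4 B h5 b
    have h9 : b = ((Nat.card B : k)⁻¹ * (c * ((Nat.card (⊤ : Subgroup H) : k)⁻¹ * Nat.card B))) • s ⊤ a := by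
      rw [mul_smul, mul_smul c, ← h8, ← hc, h3 B b (fun y hy => hy), smul_smul,
        inv_mul_cancel₀ (hne B), one_smul]
    intro h
    rw [h9, map_smul, h2 ⊤ h trivial a]

end Cfsg.Agent.S4177
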