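import Cfsg.Statements.S4178
import Mathlib
import Cfsg.Agent.Lib.Basic

set_option autoImplicit false
open Cfsg

namespace Cfsg.Agent.S4178

open Subgroup

theorem bound {K X : Type*} [Group K] [MulAction K X] [Finite X] (R : Subgroup K) (x x0 : X)
    (hx0 : ∀ h : K, h • x0 = x0) (hx : x ≠ x0) (hR : ∀ h : K, h • x = x → h ∈ R) :
    R.index ≤ Nat.card X - 1 := by
  have h1 : MulAction.stabilizer K x ≤ R := fun h hh => hR h hh
  have h2 : R.index ∣ (MulAction.stabilizer K x).index := index_dvd_of_le h1
  have h3 : (MulAction.stabilizer K x).index = (MulAction.orbit K x).ncard :=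
    MulAction.index_stabilizer K x
  have h4 : 0 < (MulAction.orbit K x).ncard :=
    (Set.ncard_pos (Set.toFinite _)).2 ⟨x, MulAction.mem_orbit_self x⟩
  have h5 : R.index ≤ (MulAction.orbit K x).ncard := by
    rw [← h3]; exact Nat.le_of_dvd (by rw [h3]; exact h4) h2
  have h6 : MulAction.orbit K x ⊆ Set.univ \ {x0} := by
    rintro _ ⟨h, rfl⟩
    refine ⟨trivial, fun hc => ?_⟩
    apply hx
    have hc' : h • x = x0 := hc
    have h7 := hx0 h⁻¹
    rw [← hc', inv_smul_smul] at h7
    rw [h7, hc']
  have h8 := Set.ncard_le_ncard h6 (Set.toFinite _)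
  have h9 : (Set.univ \ {x0} : Set X).ncard + 1 = Nat.card X := by
    rw [Set.ncard_sdiff_singleton_add_one (Set.mem_univ x0) (Set.toFinite _), Set.ncard_univ]
  omega

theorem real_bound {a m N : ℕ} (hm : 0 < m) (h : a ≤ m - 1) (hN : m * m ≤ N) :
    (a : ℝ) ≤ Real.sqrt (N : ℝ) - 1 := by
  have h1 : (m : ℝ) ≤ Real.sqrt (N : ℝ) := by
    apply Real.le_sqrt_of_sq_le
    rw [pow_two]
    exact_mod_cast hN
  have h2 : (a : ℝ) + 1 ≤ m := by
    have : a + 1 ≤ m := by omega
    exact_mod_cast this
  linarith

/-- Let F be a finite field with q elements, V a non-zero finite-dimensional F-space of dimension d, H a group of invertible linear maps of V, and R the subgroup of H generated by the elements of H that fix some non-zero vector (have eigenvalue 1). Then the index of R in H is at most q^d − 1; and if H leaves invariant some proper non-zero subspace, the index is at most q^(d/2) − 1. -/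
theorem result {F V : Type*} [Field F] [Fintype F] [AddCommGroup V] [Module F V] [FiniteDimensional F V] [Nontrivial V]
    (H : Subgroup (V ≃ₗ[F] V)) :
    (Subgroup.closure {h : ↥H | ∃ v : V, v ≠ 0 ∧ (h : V ≃ₗ[F] V) v = v}).index ≤ Fintype.card F ^ Module.finrank F V - 1 ∧
    ((∃ W : Submodule F V, W ≠ ⊥ ∧ W ≠ ⊤ ∧ ∀ h ∈ H, ∀ w ∈ W, h w ∈ W) →
      ((Subgroup.closure {h : ↥H | ∃ v : V, v ≠ 0 ∧ (h : V ≃ₗ[F] V) v = v}).index : ℝ) ≤ Real.sqrt ((Fintype.card F : ℝ) ^ Module.finrank F V) - 1) := by
  classical
  haveI : Finite V := Module.finite_of_finite F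
  set R := Subgroup.closure {h : ↥H | ∃ v : V, v ≠ 0 ∧ (h : V ≃ₗ[F] V) v = v} with hR
  have hq : (Fintype.card F) ^ Module.finrank F V = Nat.card V := by
    rw [Module.natCard_eq_pow_finrank (K := F), Nat.card_eq_fintype_card]
  have hmem : ∀ h : H, (∃ v : V, v ≠ 0 ∧ (h : V ≃ₗ[F] V) v = v) → h ∈ R := fun h hh =>
    subset_closure hh
  refine ⟨?_, ?_⟩
  · rw [hq]
    obtain ⟨v, hv⟩ := exists_ne (0 : V)
    exact bound R v 0 (fun h => map_zero (h : V ≃ₗ[F] V)) hv (fun h hh => hmem h ⟨v, hv, hh⟩)
  · rintro ⟨W, hW0, hW1, hW⟩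
    have hcast : ((Fintype.card F : ℝ) ^ Module.finrank F V) = ((Nat.card V : ℕ) : ℝ) := by
      rw [← hq]; push_cast; rfl
    rw [hcast]
    have hcard : Nat.card V = Nat.card W * Nat.card (V ⧸ W) := Submodule.card_eq_card_quotient_mul_card W
    rcases le_total (Nat.card W) (Nat.card (V ⧸ W)) with hle | hle
    · -- use `W`
      letI act : MulAction H W :=
        { smul := fun h w => ⟨(h : V ≃ₗ[F] V) w, hW h h.2 w w.2⟩
          one_smul := fun w => rfl
          mul_smul := fun g h w => rfl }
      obtain ⟨w, hw, hw0⟩ := (Submodule.ne_bot_iff W).1 hW0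
      refine real_bound Nat.card_pos (bound R (⟨w, hw⟩ : W) 0 (fun h => ?_) ?_ (fun h hh => ?_)) ?_
      · apply Subtype.ext
        exact map_zero (h : V ≃ₗ[F] V)
      · intro hc
        exact hw0 (congrArg Subtype.val hc)
      · exact hmem h ⟨w, hw0, congrArg Subtype.val hh⟩
      · rw [hcard]; exact Nat.mul_le_mul_left _ hle
    · letI act : MulAction H (V ⧸ W) :=
        { smul := fun h x => W.mapQ W ((h : V ≃ₗ[F] V) : V →ₗ[F] V) (fun w hw => hW h h.2 w hw) x
          one_smul := fun x => by
            induction x using Submodule.Quotient.induction_on with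
            | _ x => rfl
          mul_smul := fun g h x => by
            induction x using Submodule.Quotient.induction_on with
            | _ x => rfl }
      obtain ⟨v, hv⟩ : ∃ v, v ∉ W := by
        by_contra hc
        push Not at hc
        exact hW1 (eq_top_iff.2 fun x _ => hc x)
      haveI : Finite (V ⧸ W) := Finite.of_surjective _ (Submodule.mkQ_surjective W)
      refine real_bound Nat.card_pos (bound R (Submodule.Quotient.mk v : V ⧸ W) 0 (fun h => ?_) ?_
        (fun h hh => ?_)) ?_
      · exact map_zero _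
      · intro hc
        exact hv ((Submodule.Quotient.mk_eq_zero W).1 hc)
      · have hh' : (Submodule.Quotient.mk ((h : V ≃ₗ[F] V) v) : V ⧸ W) = Submodule.Quotient.mk v := hh
        rw [Submodule.Quotient.eq] at hh'
        apply hmem
        by_contra hc
        push Not at hc
        -- `h - 1` is injective, hence bijective on `W`
        have hmaps : ∀ w ∈ W, ((h : V ≃ₗ[F] V) : V →ₗ[F] V) w - w ∈ W := fun w hw =>
          W.sub_mem (hW h h.2 w hw) hw
        let f : W →ₗ[F] W := (((h : V ≃ₗ[F] V) : V →ₗ[F] V) - LinearMap.id).restrict hmaps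
        have hf : Function.Injective f := by
          rw [injective_iff_map_eq_zero]
          rintro ⟨w, hw⟩ hw0
          have h1 : (h : V ≃ₗ[F] V) w - w = 0 := congrArg Subtype.val hw0
          apply Subtype.ext
          by_contra hne
          exact hc w hne (sub_eq_zero.1 h1)
        have hfs : Function.Surjective f := Finite.surjective_of_injective hf
        obtain ⟨⟨w, hw⟩, hw2⟩ := hfs ⟨_, hh'⟩
        have h1 : (h : V ≃ₗ[F] V) w - w = (h : V ≃ₗ[F] V) v - v := congrArg Subtype.val hw2
        have h2 : (h : V ≃ₗ[F] V) (v - w) = v - w := by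
          rw [map_sub]
          have := sub_eq_sub_iff_add_eq_add.1 h1
          rw [sub_eq_sub_iff_add_eq_add, ← this]
          abel
        refine hc (v - w) (fun h0 => ?_) h2
        rw [sub_eq_zero] at h0
        exact hv (h0 ▸ hw)
      · rw [hcard]; exact Nat.mul_le_mul_right _ hle

end Cfsg.Agent.S4178
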