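import Cfsg.Statements.S4182
import Mathlib
import Cfsg.Agent.Lib.PComp
import Cfsg.Agent.Lib.SylCount

set_option autoImplicit false
open Cfsg

namespace Cfsg.Agent.S4182

open Subgroup Cfsg.Agent.Lib.PComp Cfsg.Agent.Lib.Basic Cfsg.Agent.Lib.SylCount
open scoped Pointwise

universe u

theorem opp_idem {G : Type u} [Group G] (p : ℕ) (K : Subgroup G) : opp p (opp p K) = opp p K := by
  apply le_antisymm (opp_le _ _)
  have : ∀ x, (x ∈ K ∧ ∃ k : ℕ, orderOf x = p ^ k) → x ∈ opp p (opp p K) := fun x hx =>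
    mem_opp (mem_opp hx.1 hx.2) hx.2
  exact (closure_le _).2 this

theorem opp_map {G : Type u} [Group G] (p : ℕ) (K : Subgroup G) (g : G) :
    opp p (MulAut.conj g • K) = MulAut.conj g • opp p K := by
  have key : ∀ (g : G) (K : Subgroup G), MulAut.conj g • opp p K ≤ opp p (MulAut.conj g • K) := by
    intro g K x hx
    obtain ⟨y, hy, rfl⟩ := hx
    have h1 : opp p K ≤ (opp p (MulAut.conj g • K)).comap (MulAut.conj g).toMonoidHom := by
      rw [opp, closure_le]
      rintro y ⟨hy, k, hk⟩
      refine subset_closure ⟨⟨y, hy, rfl⟩, k, ?_⟩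
      have := (MulAut.conj g).orderOf_eq y
      rw [← hk, ← this]; rfl
    exact h1 hy
  apply le_antisymm _ (key g K)
  have h1 := key g⁻¹ (MulAut.conj g • K)
  rw [map_inv, inv_smul_smul] at h1
  have h2 := Subgroup.pointwise_smul_le_pointwise_smul_iff (a := MulAut.conj g).2 h1
  rwa [smul_inv_smul] at h2

theorem core (p : ℕ) [hp : Fact p.Prime] : ∀ (n : ℕ) (G : Type u) [Group G] [Finite G], Nat.card G = n →
    opp p (⊤ : Subgroup G) = ⊤ → ∀ S : Finset (Subgroup G), (∀ K ∈ S, K ≠ ⊤) →
    (∀ g : G, (∃ k : ℕ, orderOf g = p ^ k) → ∃ K ∈ S, g ∈ K) → p + 1 ≤ S.card := by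
  intro n
  induction n using Nat.strong_induction_on with
  | _ n ih =>
  intro G _ _ hn htop S hS hcov
  classical
  by_contra hlt
  have hSp : S.card ≤ p := by omega
  -- step 1
  have step1 : ∀ M : Subgroup G, M ≠ ⊤ → opp p M = M → ∃ K ∈ S, M ≤ K := by
    intro M hM hMo
    by_contra hc
    push Not at hc
    have h1 := ih (Nat.card M) (by rw [← hn]; exact card_lt_of_ne_top hM) M rfl
      (by
        apply Subgroup.map_injective (subtype_injective M)
        rw [opp_map_subtype, hMo, ← MonoidHom.range_eq_map, range_subtype])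
      (S.image (fun K => K.subgroupOf M))
      (by
        intro K' hK'
        obtain ⟨K, hK, rfl⟩ := Finset.mem_image.1 hK'
        intro htop'
        exact hc K hK (subgroupOf_eq_top.1 htop'))
      (by
        rintro g ⟨k, hk⟩
        obtain ⟨K, hK, hgK⟩ := hcov (g : G) ⟨k, by rw [Subgroup.orderOf_coe]; exact hk⟩
        exact ⟨_, Finset.mem_image_of_mem _ hK, hgK⟩)
    have h2 : (S.image (fun K => K.subgroupOf M)).card ≤ S.card := Finset.card_image_le
    omega
  let Q : Subgroup G → Prop := fun M => M ≠ ⊤ ∧ opp p M = M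
  let ℛ : Set (Subgroup G) := {M | Maximal (fun M => M ∈ {M | Q M}) M}
  have hRsub : ℛ ⊆ ((S.image (opp p) : Finset (Subgroup G)) : Set (Subgroup G)) := by
    intro M hM
    obtain ⟨K, hK, hMK⟩ := step1 M hM.1.1 hM.1.2
    have h1 : opp p K ∈ {M | Q M} := ⟨fun h => hS K hK (eq_top_iff.2 (h ▸ opp_le p K)), opp_idem p K⟩
    have h2 : M ≤ opp p K := by rw [← hM.1.2]; exact opp_mono hMK
    have h3 : M = opp p K := hM.eq_of_le h1 h2
    rw [h3]
    exact Finset.mem_coe.2 (Finset.mem_image_of_mem _ hK)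
  have hRcard : ℛ.ncard ≤ p := by
    calc ℛ.ncard ≤ ((S.image (opp p) : Finset (Subgroup G)) : Set (Subgroup G)).ncard :=
          Set.ncard_le_ncard hRsub (Set.toFinite _)
      _ = (S.image (opp p)).card := Set.ncard_coe_finset _
      _ ≤ S.card := Finset.card_image_le
      _ ≤ p := hSp
  have hQconj : ∀ (g : G) (M : Subgroup G), Q M → Q (MulAut.conj g • M) := by
    rintro g M ⟨h1, h2⟩
    refine ⟨fun h => h1 ?_, by rw [opp_map, h2]⟩
    have := congrArg (fun K : Subgroup G => (MulAut.conj g)⁻¹ • K) h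
    simp only [inv_smul_smul] at this
    rw [this]
    ext x
    rw [Subgroup.mem_pointwise_smul_iff_inv_smul_mem]
    simp
  have hRconj : ∀ (g : G) (M : Subgroup G), M ∈ ℛ → MulAut.conj g • M ∈ ℛ := by
    intro g M hM
    refine ⟨hQconj g M hM.1, ?_⟩
    intro N hN hle
    have h1 := Subgroup.pointwise_smul_le_pointwise_smul_iff (a := (MulAut.conj g)⁻¹).2 hle
    rw [inv_smul_smul, ← map_inv] at h1
    have h2 := hM.2 (hQconj g⁻¹ N hN) h1
    have h3 := Subgroup.pointwise_smul_le_pointwise_smul_iff (a := MulAut.conj g).2 h2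
    rwa [map_inv, smul_inv_smul] at h3
  have hex : ∀ M : Subgroup G, Q M → ∃ M' ∈ ℛ, M ≤ M' := by
    intro M hM
    obtain ⟨M', h1, h2⟩ := (Set.toFinite {M | Q M}).exists_le_maximal hM
    exact ⟨M', h2, h1⟩
  letI act : MulAction G (Subgroup G) := MulAction.compHom (Subgroup G) (MulAut.conj : G →* MulAut G)
  have hact : ∀ (g : G) (M : Subgroup G), g • M = MulAut.conj g • M := fun _ _ => rfl
  have hfix : ∀ a : G, (∃ k : ℕ, orderOf a = p ^ k) → ∀ M ∈ ℛ, a • M = M := by
    rintro a ⟨k, hk⟩ M hM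
    by_contra hne
    have hza : Q (zpowers a) := by
      constructor
      · obtain ⟨K, hK, haK⟩ := hcov a ⟨k, hk⟩
        intro h
        exact hS K hK (eq_top_iff.2 (h ▸ (zpowers_le.2 haK)))
      · exact le_antisymm (opp_le _ _) (zpowers_le.2 (mem_opp (mem_zpowers a) ⟨k, hk⟩))
    obtain ⟨M0, hM0, haM0⟩ := hex _ hza
    have haM : a ∈ M0 := haM0 (mem_zpowers a)
    have hM0fix : ∀ z : zpowers a, z • M0 = M0 := by
      intro z
      exact Subgroup.conj_smul_eq_self_of_mem (haM0 z.2)
    have hidx : (MulAction.stabilizer (zpowers a) M).index = (MulAction.orbit (zpowers a) M).ncard :=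
      MulAction.index_stabilizer _ _
    have hd : (MulAction.stabilizer (zpowers a) M).index ∣ p ^ k := by
      rw [← hk, ← Nat.card_zpowers]; exact index_dvd_card _
    obtain ⟨j, -, hj⟩ := (Nat.dvd_prime_pow hp.out).1 hd
    have hj0 : j ≠ 0 := by
      rintro rfl
      rw [pow_zero, index_eq_one] at hj
      apply hne
      have : (⟨a, mem_zpowers a⟩ : zpowers a) ∈ MulAction.stabilizer (zpowers a) M := by
        rw [hj]; trivial
      exact this
    have hple : p ≤ (MulAction.orbit (zpowers a) M).ncard := by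
      rw [← hidx, hj]
      exact Nat.le_self_pow hj0 p
    have hM0n : M0 ∉ MulAction.orbit (zpowers a) M := by
      rintro ⟨z, hz⟩
      have hz' : z • M = M0 := hz
      have h1 : M = M0 := by
        rw [← inv_smul_smul z M, hz', hM0fix]
      apply hne
      rw [h1]
      exact hM0fix ⟨a, mem_zpowers a⟩
    have hsub : insert M0 (MulAction.orbit (zpowers a) M) ⊆ ℛ := by
      apply Set.insert_subset hM0
      rintro _ ⟨z, rfl⟩
      exact hRconj z M hM
    have h1 := Set.ncard_le_ncard hsub (Set.toFinite _)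
    rw [Set.ncard_insert_of_notMem hM0n (Set.toFinite _)] at h1
    omega
  have hnormal : ∀ M ∈ ℛ, M.Normal := by
    intro M hM
    rw [← normalizer_eq_top_iff, eq_top_iff, ← htop, opp, closure_le]
    rintro a ⟨-, ha⟩
    have h1 : MulAut.conj a • M = M := hfix a ha M hM
    exact mem_normalizer_iff_map_conj_eq.2 h1
  obtain ⟨P⟩ := (inferInstance : Nonempty (Sylow p G))
  by_cases hP : (P : Subgroup G) = ⊤
  · -- `p`-group: count
    have hpG : IsPGroup p G := by
      have := P.2
      rw [hP] at this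
      exact this.of_equiv topEquiv
    haveI := Fintype.ofFinite G
    obtain ⟨k, hk⟩ := IsPGroup.iff_card.1 hpG
    have hS0 : ∃ K ∈ S, (1 : G) ∈ K := hcov 1 ⟨0, by simp⟩
    have hk0 : k ≠ 0 := by
      rintro rfl
      obtain ⟨K, hK, -⟩ := hS0
      apply hS K hK
      rw [pow_zero] at hk
      haveI : Subsingleton G := (Nat.card_eq_one_iff_unique.1 hk).1
      exact Subsingleton.elim _ _
    obtain ⟨m, rfl⟩ := Nat.exists_eq_succ_of_ne_zero hk0
    have hKle : ∀ K ∈ S, Nat.card K ≤ p ^ m := by
      intro K hK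
      have h1 := K.card_mul_index
      obtain ⟨j, -, hj⟩ := (Nat.dvd_prime_pow hp.out).1 (hk ▸ K.index_dvd_card)
      have hj0 : j ≠ 0 := by
        rintro rfl
        rw [pow_zero, index_eq_one] at hj
        exact hS K hK hj
      have h2 : p ≤ K.index := by rw [hj]; exact Nat.le_self_pow hj0 p
      rw [hk, Nat.succ_eq_add_one, pow_succ] at h1
      by_contra hcon
      push Not at hcon
      have : p ^ m * p < Nat.card K * K.index :=
        Nat.mul_lt_mul_of_lt_of_le hcon h2 (lt_of_lt_of_le hp.out.pos h2)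
      omega
    have hcover : (Finset.univ.erase (1 : G)) ⊆ S.biUnion (fun K => (Finset.univ.filter (· ∈ K)).erase 1) := by
      intro x hx
      obtain ⟨K, hK, hxK⟩ := hcov x (IsPGroup.iff_orderOf.1 hpG x)
      rw [Finset.mem_biUnion]
      exact ⟨K, hK, Finset.mem_erase.2 ⟨(Finset.mem_erase.1 hx).1, Finset.mem_filter.2 ⟨Finset.mem_univ _, hxK⟩⟩⟩
    have h1 := Finset.card_le_card hcover
    have h2 : (S.biUnion (fun K => (Finset.univ.filter (· ∈ K)).erase (1 : G))).card ≤ S.card * (p ^ m - 1) := by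
      apply Finset.card_biUnion_le_card_mul
      intro K hK
      rw [Finset.card_erase_of_mem (Finset.mem_filter.2 ⟨Finset.mem_univ _, K.one_mem⟩)]
      have : (Finset.univ.filter (· ∈ K)).card = Nat.card K := by
        rw [Nat.card_eq_fintype_card, Fintype.card_subtype]
      rw [this]
      exact Nat.sub_le_sub_right (hKle K hK) 1
    rw [Finset.card_erase_of_mem (Finset.mem_univ _), Finset.card_univ, ← Nat.card_eq_fintype_card, hk] at h1
    have h3 : S.card * (p ^ m - 1) ≤ p * (p ^ m - 1) := Nat.mul_le_mul_right _ hSp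
    have h4 : 0 < p ^ m := pow_pos hp.out.pos m
    have h5 : p * (p ^ m - 1) = p ^ m.succ - p := by
      rw [Nat.mul_sub, mul_one, Nat.succ_eq_add_one, pow_succ, mul_comm]
    have h6 : p ≤ p ^ m.succ := Nat.le_self_pow (Nat.succ_ne_zero m) p
    have h7 := hp.out.two_le
    omega
  · have hQP : Q (P : Subgroup G) := by
      refine ⟨hP, le_antisymm (opp_le _ _) (fun x hx => mem_opp hx ?_)⟩
      obtain ⟨k, hk⟩ := IsPGroup.iff_orderOf.1 P.2 ⟨x, hx⟩
      exact ⟨k, by rwa [Subgroup.orderOf_mk] at hk⟩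
    obtain ⟨M, hM, hPM⟩ := hex _ hQP
    haveI := hnormal M hM
    apply hM.1.1
    rw [eq_top_iff, ← htop, opp, closure_le]
    rintro a ⟨-, k, hk⟩
    have hi : ¬ p ∣ M.index := fun h => P.not_dvd_index (h.trans (index_dvd_of_le hPM))
    have hz : IsPGroup p (zpowers a) := IsPGroup.of_card (by rw [Nat.card_zpowers, hk])
    exact le_normal_of_not_dvd_index hi hz (mem_zpowers a)

/-- Let p be a prime and G a finite group generated by its p-elements. If a finite family of proper subgroups of G covers the set of p-elements of G (every element of p-power order lies in one of them), then the family has at least p + 1 members. -/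
theorem result {G : Type*} [Group G] [Finite G] (p : ℕ) [Fact p.Prime] (hgen : Subgroup.closure {g : G | ∃ k : ℕ, orderOf g = p ^ k} = ⊤)
    {ι : Type*} [Fintype ι] (K : ι → Subgroup G) (hK : ∀ i, K i ≠ ⊤)
    (hcov : ∀ g : G, (∃ k : ℕ, orderOf g = p ^ k) → ∃ i, g ∈ K i) :
    p + 1 ≤ Fintype.card ι := by
  classical
  have h1 := core p (Nat.card G) G rfl (by
    have h0 : {x : G | x ∈ (⊤ : Subgroup G) ∧ ∃ k : ℕ, orderOf x = p ^ k} =
        {g : G | ∃ k : ℕ, orderOf g = p ^ k} := by
      ext x
      simp only [Set.mem_setOf_eq, mem_top, true_and]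
    rw [opp, h0, hgen]) (Finset.univ.image K)
    (by
      intro M hM
      obtain ⟨i, -, rfl⟩ := Finset.mem_image.1 hM
      exact hK i)
    (by
      intro g hg
      obtain ⟨i, hi⟩ := hcov g hg
      exact ⟨K i, Finset.mem_image_of_mem _ (Finset.mem_univ i), hi⟩)
  exact h1.trans (Finset.card_image_le.trans (by rw [Finset.card_univ]))

end Cfsg.Agent.S4182
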