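import Cfsg.Statements.S4186
import Mathlib

set_option autoImplicit false
open Cfsg

namespace Cfsg.Agent.S4186

/-- Let T and X be subgroups of a group with T a finite 2-group normalizing X but not centralizing it. Then some element of T inverts some non-identity element of X under conjugation. -/
theorem result {G : Type*} [Group G] (T X : Subgroup G) [Finite ↥T] (hT : IsPGroup 2 ↥T) (hTN : T ≤ Subgroup.normalizer (X : Set G)) (hTC : ¬ T ≤ Subgroup.centralizer (X : Set G)) : ∃ t ∈ T, ∃ x ∈ X, x ≠ 1 ∧ t * x * t⁻¹ = x⁻¹ := by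
  obtain ⟨t, ht, htC⟩ := Set.not_subset.1 hTC
  -- the last power of `t` not centralizing `X`
  obtain ⟨n, hn⟩ := hT ⟨t, ht⟩
  have hn' : t ^ 2 ^ n = 1 := by simpa [Subtype.ext_iff] using hn
  have hex : ∃ k, t ^ 2 ^ k ∈ Subgroup.centralizer (X : Set G) := ⟨n, by rw [hn']; exact Subgroup.one_mem _⟩
  classical
  obtain ⟨k, hk, hkmin⟩ : ∃ k, t ^ 2 ^ k ∈ Subgroup.centralizer (X : Set G) ∧ ∀ j < k, t ^ 2 ^ j ∉ Subgroup.centralizer (X : Set G) :=
    ⟨Nat.find hex, Nat.find_spec hex, fun j hj => Nat.find_min hex hj⟩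
  have hk0 : k ≠ 0 := by
    rintro rfl
    apply htC; simpa using hk
  obtain ⟨j, rfl⟩ := Nat.exists_eq_succ_of_ne_zero hk0
  have hj := hkmin j (Nat.lt_succ_self j)
  set s := t ^ 2 ^ j with hs
  have hsT : s ∈ T := T.pow_mem ht _
  have hs2 : s * s ∈ Subgroup.centralizer (X : Set G) := by
    have : s * s = t ^ 2 ^ (j + 1) := by rw [hs, ← pow_add]; congr 1; ring
    rw [this]; exact hk
  rw [Subgroup.mem_centralizer_iff] at hj hs2
  push Not at hj
  obtain ⟨y, hy, hyne⟩ := hj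
  have hsy : s * y * s⁻¹ ∈ X := (Subgroup.mem_normalizer_iff.1 (hTN hsT) y).1 hy
  refine ⟨s, hsT, y⁻¹ * (s * y * s⁻¹), X.mul_mem (X.inv_mem hy) hsy, ?_, ?_⟩
  · intro h
    apply hyne
    rw [inv_mul_eq_one] at h
    nth_rewrite 1 [h]
    group
  · have h2 := hs2 y hy
    have h3 : s * (s * y * s⁻¹) * s⁻¹ = y := by
      calc s * (s * y * s⁻¹) * s⁻¹ = (s * s) * y * (s * s)⁻¹ := by group
        _ = y := by rw [← h2]; group
    calc s * (y⁻¹ * (s * y * s⁻¹)) * s⁻¹ = (s * y * s⁻¹)⁻¹ * (s * (s * y * s⁻¹) * s⁻¹) := by group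
      _ = (y⁻¹ * (s * y * s⁻¹))⁻¹ := by rw [h3]; group

end Cfsg.Agent.S4186
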