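import Cfsg.Statements.S4189
import Mathlib
import Cfsg.Agent.Lib.PGrpJ

set_option autoImplicit false
open Cfsg

namespace Cfsg.Agent.S4189

/-- Let P be a finite non-abelian 2-group whose commutator subgroup has index 4 and whose automorphism group is not a 2-group (some automorphism has order that is not a power of 2). Then P is isomorphic to the quaternion group of order 8. -/
theorem result {P : Type*} [Group P] [Finite P] (hP : IsPGroup 2 P) (hna : ¬ IsMulCommutative P) (h4 : (commutator P).index = 4) (haut : ¬ IsPGroup 2 (MulAut P)) : Nonempty (P ≃* QuaternionGroup 2) := by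
  classical
  obtain ⟨n, hn⟩ := (IsPGroup.iff_card (p := 2)).1 hP
  have hab : Nat.card (P ⧸ commutator P) = 4 := by rw [← Subgroup.index_eq_card, h4]
  have hdvd : Nat.card (P ⧸ commutator P) ∣ Nat.card P := Subgroup.card_quotient_dvd_card _
  rw [hab, hn] at hdvd
  have hn2 : 2 ≤ n := by
    by_contra hlt
    have : n = 0 ∨ n = 1 := by omega
    rcases this with rfl | rfl
    · norm_num at hdvd
    · norm_num at hdvd
  have hn3 : 3 ≤ n := by
    by_contra hlt
    have h5 : n = 2 := by omega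
    apply hna
    rw [h5] at hn
    exact ⟨⟨fun a b => IsPGroup.commutative_of_card_eq_prime_sq hn a b⟩⟩
  have hc := (Cfsg.Agent.Lib.PGrpJ.maxClass_of_card_abelianization n P hn2 hn hab).2 hn3
  have := hP.isNilpotent
  obtain ⟨a, b, ha, hb, -, hcase⟩ := Cfsg.Agent.Lib.PGrpJ.maxClass_generators hn3 hn hc
  by_contra hQ
  apply haut
  -- elements outside the cyclic subgroup
  have hidx : (Subgroup.zpowers a).index = 2 := by
    have h5 := (Subgroup.zpowers a).card_mul_index
    rw [Nat.card_zpowers, ha, hn] at h5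
    have h6 : 2 ^ n = 2 ^ (n - 1) * 2 := by rw [← pow_succ]; congr 1; omega
    rw [h6] at h5
    exact Nat.eq_of_mul_eq_mul_left (by positivity) h5
  have hout : ∀ x : P, x ∉ Subgroup.zpowers a → ∃ i : ℤ, x = a ^ i * b := by
    intro x hx
    have h5 : x * b⁻¹ ∈ Subgroup.zpowers a := by
      have h6 := Subgroup.mul_mem_iff_of_index_two hidx (a := x) (b := b⁻¹)
      rw [h6]
      exact ⟨fun h => absurd h hx, fun h => absurd (inv_mem_iff.1 h) hb⟩
    obtain ⟨i, hi⟩ := Subgroup.mem_zpowers_iff.1 h5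
    exact ⟨i, by rw [hi]; group⟩
  have hconj : ∀ (r : ℤ), b * a * b⁻¹ = a ^ r → ∀ i : ℤ, b * a ^ i * b⁻¹ = a ^ (r * i) := by
    intro r hr i
    have : b * a ^ i * b⁻¹ = (b * a * b⁻¹) ^ i := by
      have := map_zpow (MulAut.conj b) a i
      simpa [MulAut.conj_apply] using this
    rw [this, hr, zpow_mul]
  have hsq : ∀ (r : ℤ), b * a * b⁻¹ = a ^ r → ∀ i : ℤ, (a ^ i * b) ^ 2 = a ^ (i + r * i) * b ^ 2 := by
    intro r hr i
    calc (a ^ i * b) ^ 2 = a ^ i * (b * a ^ i * b⁻¹) * b ^ 2 := by rw [pow_two (a ^ i * b)]; group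
      _ = a ^ (i + r * i) * b ^ 2 := by rw [hconj r hr, zpow_add]
  -- automorphisms preserve the cyclic subgroup
  have hinv : ∀ φ : MulAut P, φ a ∈ Subgroup.zpowers a := by
    intro φ
    by_contra hφ
    obtain ⟨i, hi⟩ := hout _ hφ
    have hord : orderOf (φ a) = 2 ^ (n - 1) := by
      rw [← ha]; exact orderOf_injective φ.toMonoidHom φ.injective a
    rcases hcase with ⟨h5, h6⟩ | ⟨h5, h6⟩ | ⟨h7, h5, h6⟩
    · have h8 := hsq (-1) (by rw [h6, zpow_neg, zpow_one]) i
      have h9 : (φ a) ^ 2 = 1 := by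
        rw [hi, h8, h5]
        have : i + -1 * i = 0 := by ring
        rw [this, zpow_zero, one_mul]
      have h10 := orderOf_dvd_of_pow_eq_one h9
      rw [hord] at h10
      have h11 := Nat.le_of_dvd (by norm_num) h10
      have h12 : 2 ^ 2 ≤ 2 ^ (n - 1) := Nat.pow_le_pow_right (by norm_num) (by omega)
      omega
    · by_cases hn4 : n = 3
      · -- quaternion of order 8
        apply hQ
        have e := Cfsg.Agent.Lib.PGrpD.quaternion_iso (m := 1) (a := a) (b := b) (by
          rw [ha, hn4]) (by rw [h5, hn4]) h6 hb (by rw [hn, hn4])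
        simpa using e
      · have h8 := hsq (-1) (by rw [h6, zpow_neg, zpow_one]) i
        have h9 : (φ a) ^ 4 = 1 := by
          have h10 : (φ a) ^ 2 = b ^ 2 := by
            rw [hi, h8]
            have : i + -1 * i = 0 := by ring
            rw [this, zpow_zero, one_mul]
          have h11 : (φ a) ^ 4 = ((φ a) ^ 2) ^ 2 := by rw [← pow_mul]
          rw [h11, h10, h5, ← pow_mul]
          have h12 : 2 ^ (n - 2) * 2 = orderOf a := by
            rw [ha, ← pow_succ]; congr 1; omega
          rw [h12, pow_orderOf_eq_one]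
        have h10 := orderOf_dvd_of_pow_eq_one h9
        rw [hord] at h10
        have h11 := Nat.le_of_dvd (by norm_num) h10
        have h12 : 2 ^ 3 ≤ 2 ^ (n - 1) := Nat.pow_le_pow_right (by norm_num) (by omega)
        omega
    · have h8 := hsq (2 ^ (n - 2) - 1 : ℕ) (by rw [h6, zpow_natCast]) i
      have h9 : (φ a) ^ 4 = 1 := by
        have h13 : 1 ≤ 2 ^ (n - 2) := Nat.one_le_two_pow
        have h10 : (φ a) ^ 2 = a ^ ((2 ^ (n - 2) : ℕ) * i : ℤ) := by
          rw [hi, h8, h5, mul_one]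
          congr 1
          push_cast [Nat.cast_sub h13]
          ring
        have h11 : (φ a) ^ 4 = ((φ a) ^ 2) ^ 2 := by rw [← pow_mul]
        rw [h11, h10, ← zpow_natCast, ← zpow_mul]
        have h12 : ((2 ^ (n - 2) : ℕ) * i * (2 : ℕ) : ℤ) = (orderOf a : ℤ) * i := by
          rw [ha]
          have h14 : 2 ^ (n - 1) = 2 ^ (n - 2) * 2 := by rw [← pow_succ]; congr 1; omega
          rw [h14]
          push_cast
          ring
        rw [h12, zpow_mul, zpow_natCast, pow_orderOf_eq_one, one_zpow]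
      have h10 := orderOf_dvd_of_pow_eq_one h9
      rw [hord] at h10
      have h11 := Nat.le_of_dvd (by norm_num) h10
      have h12 : 2 ^ 3 ≤ 2 ^ (n - 1) := Nat.pow_le_pow_right (by norm_num) (by omega)
      omega
  -- no automorphisms of odd prime order
  haveI : Finite (MulAut P) := Finite.of_injective (fun f : MulAut P => (f : P → P)) DFunLike.coe_injective
  rw [IsPGroup.iff_card]
  by_contra hnot
  obtain ⟨q, hq, hqd, hq2⟩ : ∃ q : ℕ, q.Prime ∧ q ∣ Nat.card (MulAut P) ∧ q ≠ 2 := by
    by_contra hcon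
    push Not at hcon
    apply hnot
    refine ⟨_, Nat.eq_prime_pow_of_unique_prime_dvd (Nat.card_pos (α := MulAut P)).ne' (fun {d} hd hdd => hcon d hd hdd)⟩
  haveI : Fact q.Prime := ⟨hq⟩
  obtain ⟨φ, hφ⟩ := exists_prime_orderOf_dvd_card' (G := MulAut P) q hqd
  have hq_odd : Odd q := hq.odd_of_ne_two hq2
  -- φ fixes a
  obtain ⟨r, hr⟩ := Subgroup.mem_zpowers_iff.1 (hinv φ)
  have hpow : ∀ k : ℕ, (φ ^ k) a = a ^ (r ^ k) := by
    intro k
    induction k with
    | zero => simp
    | succ k ih =>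
      rw [pow_succ', MulAut.mul_apply, ih, map_zpow, ← hr, ← zpow_mul, pow_succ']
  have hφq : φ ^ q = 1 := by rw [← hφ]; exact pow_orderOf_eq_one φ
  have hrq : (orderOf a : ℤ) ∣ r ^ q - 1 := by
    rw [orderOf_dvd_iff_zpow_eq_one, zpow_sub, zpow_one, ← hpow q, hφq]
    simp
  have hr1 : (orderOf a : ℤ) ∣ r - 1 := by
    -- the odd factor
    have hrodd : Odd r := by
      rw [ha] at hrq
      have h5 : (2 : ℤ) ∣ r ^ q - 1 := by
        refine dvd_trans ?_ hrq
        push_cast
        exact dvd_pow_self 2 (by omega)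
      by_contra he
      rw [Int.not_odd_iff_even] at he
      have h6 : Even (r ^ q) := he.pow_of_ne_zero hq.ne_zero
      have h7 : Odd (r ^ q - 1) := h6.sub_odd odd_one
      exact (Int.not_odd_iff_even.2 (even_iff_two_dvd.2 h5)) h7
    have hfac : r ^ q - 1 = (r - 1) * ∑ i ∈ Finset.range q, r ^ i := by
      rw [mul_comm]; exact (geom_sum_mul r q).symm
    have hodd2 : Odd (∑ i ∈ Finset.range q, r ^ i) := by
      have h5 : ∀ m : ℕ, (∑ i ∈ Finset.range m, r ^ i) % 2 = (m : ℤ) % 2 := by
        intro m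
        induction m with
        | zero => simp
        | succ m ih =>
          rw [Finset.sum_range_succ, Int.add_emod, ih]
          have h6 : r ^ m % 2 = 1 := Int.odd_iff.1 hrodd.pow
          rw [h6]
          push_cast
          omega
      rw [Int.odd_iff, h5]
      have := Nat.odd_iff.1 hq_odd
      omega
    rw [hfac, ha] at hrq
    rw [ha]
    have hcop : IsCoprime (((2 ^ (n - 1) : ℕ)) : ℤ) (∑ i ∈ Finset.range q, r ^ i) := by
      push_cast
      apply IsCoprime.pow_left
      rw [Int.isCoprime_iff_gcd_eq_one]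
      have h6 : ¬ (2 : ℤ) ∣ ∑ i ∈ Finset.range q, r ^ i := by
        intro h
        exact (Int.not_odd_iff_even.2 (even_iff_two_dvd.2 h)) hodd2
      exact (Int.prime_two.coprime_iff_not_dvd.2 h6 |> Int.isCoprime_iff_gcd_eq_one.1)
    exact hcop.dvd_of_dvd_mul_right hrq
  have hfa : φ a = a := by
    rw [← hr]
    have h5 : a ^ (r - 1) = 1 := orderOf_dvd_iff_zpow_eq_one.1 hr1
    have h6 : a ^ r = a ^ (r - 1) * a := by rw [← zpow_add_one]; congr 1; ring
    rw [h6, h5, one_mul]
  -- φ fixes b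
  have hφb : φ b ∉ Subgroup.zpowers a := by
    intro h
    obtain ⟨j, hj⟩ := Subgroup.mem_zpowers_iff.1 h
    have h5 : φ (a ^ j) = φ b := by rw [map_zpow, hfa, hj]
    exact hb (by rw [← φ.injective h5]; exact Subgroup.zpow_mem_zpowers a j)
  obtain ⟨i, hi⟩ := hout _ hφb
  have hpowb : ∀ k : ℕ, (φ ^ k) b = a ^ ((k : ℤ) * i) * b := by
    intro k
    induction k with
    | zero => simp
    | succ k ih =>
      rw [pow_succ', MulAut.mul_apply, ih, map_mul, map_zpow, hfa, hi, ← mul_assoc, ← zpow_add]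
      congr 2
      push_cast; ring
  have hqi : a ^ ((q : ℤ) * i) = 1 := by
    have h5 := hpowb q
    rw [hφq] at h5
    have h6 : a ^ ((q : ℤ) * i) * b = b := h5.symm
    exact mul_eq_right.1 h6
  have hi0 : a ^ i = 1 := by
    rw [← orderOf_dvd_iff_zpow_eq_one] at hqi ⊢
    rw [ha] at hqi ⊢
    have hcop : IsCoprime (((2 ^ (n - 1) : ℕ)) : ℤ) (q : ℤ) := by
      rw [Int.isCoprime_iff_gcd_eq_one]
      rw [Int.gcd_natCast_natCast]
      exact Nat.Coprime.pow_left _ ((Nat.coprime_primes Nat.prime_two hq).2 (Ne.symm hq2))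
    exact hcop.dvd_of_dvd_mul_left hqi
  have hfb : φ b = b := by rw [hi, hi0, one_mul]
  have hφ1 : φ = 1 := by
    ext x
    by_cases hx : x ∈ Subgroup.zpowers a
    · obtain ⟨j, rfl⟩ := Subgroup.mem_zpowers_iff.1 hx
      rw [map_zpow, hfa]; rfl
    · obtain ⟨j, rfl⟩ := hout x hx
      rw [map_mul, map_zpow, hfa, hfb]; rfl
  rw [hφ1, orderOf_one] at hφ
  exact hq.one_lt.ne hφ

end Cfsg.Agent.S4189
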