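import Cfsg.Statements.S4195
import Mathlib
import Cfsg.Agent.Lib.ClassSizes

set_option autoImplicit false
open Cfsg

namespace Cfsg.Agent.S4195

theorem odd_index {G : Type*} [Group G] [Finite G] (K : Subgroup G) (P : Sylow 2 G)
    (h : (P : Subgroup G) ≤ K) : Odd K.index := by
  have h1 : ¬ 2 ∣ (P : Subgroup G).index := P.not_dvd_index
  have h2 := Subgroup.index_dvd_of_le h
  rw [← Nat.not_even_iff_odd, even_iff_two_dvd]
  exact fun h3 => h1 (h3.trans h2)

/-- Let x be a non-identity element of a finite group G whose centralizer contains a Sylow 2-subgroup of G. If x is conjugate to its inverse, then x has order 2. -/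
theorem result {G : Type*} [Group G] [Finite G] (x : G) (hx : x ≠ 1) (P : Sylow 2 G) (hP : (P : Subgroup G) ≤ Subgroup.centralizer ({x} : Set G)) (hreal : IsConj x x⁻¹) : orderOf x = 2 := by
  have hodd : Odd (Subgroup.centralizer ({x} : Set G)).index := odd_index _ P hP
  rw [Cfsg.Agent.Lib.ClassSizes.index_centralizer_eq] at hodd
  obtain ⟨y, hy⟩ := Cfsg.Agent.Lib.ClassSizes.exists_fixed_of_involutive hodd (fun y => ⟨y.1⁻¹, by
    obtain ⟨g, hg⟩ := isConj_iff.1 y.2
    refine hreal.trans (isConj_iff.2 ⟨g, ?_⟩)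
    rw [← hg]; group⟩) (fun y => Subtype.ext (inv_inv _))
  have hy1 : y.1⁻¹ = y.1 := congrArg Subtype.val hy
  obtain ⟨g, hg⟩ := isConj_iff.1 y.2
  have hx2 : x ^ 2 = 1 := by
    have h3 : y.1 ^ 2 = 1 := by rw [sq]; nth_rewrite 1 [← hy1]; group
    rw [← hg, conj_pow] at h3
    have h4 : g⁻¹ * (g * x ^ 2 * g⁻¹) * g = g⁻¹ * 1 * g := by rw [h3]
    simpa [mul_assoc] using h4
  exact orderOf_eq_prime hx2 hx

end Cfsg.Agent.S4195
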