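import Cfsg.Statements.S4196
import Mathlib
import Cfsg.Agent.S4195
import Cfsg.Agent.Lib.ClassSizes

set_option autoImplicit false
open Cfsg

namespace Cfsg.Agent.S4196

/-- A finite group G has elementary abelian Sylow 2-subgroups (commutative with every element squaring to the identity) if and only if every 2-element of G has a Sylow 2-subgroup in its centralizer and is conjugate to its inverse. -/
theorem result {G : Type*} [Group G] [Finite G] (P : Sylow 2 G) :
    (IsMulCommutative (P : Subgroup G) ∧ ∀ x ∈ (P : Subgroup G), x ^ 2 = 1) ↔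
      ∀ x : G, (∃ k : ℕ, orderOf x = 2 ^ k) → (∃ Q : Sylow 2 G, (Q : Subgroup G) ≤ Subgroup.centralizer ({x} : Set G)) ∧ IsConj x x⁻¹ := by
  constructor
  · rintro ⟨hab, hexp⟩ x ⟨k, hk⟩
    -- x lies in some Sylow 2-subgroup
    have hpx : IsPGroup 2 (Subgroup.zpowers x) := by
      rw [IsPGroup.iff_card]
      exact ⟨k, by rw [Nat.card_zpowers, hk]⟩
    obtain ⟨Q, hQ⟩ := hpx.exists_le_sylow
    have hxQ : x ∈ (Q : Subgroup G) := hQ (Subgroup.mem_zpowers x)
    obtain ⟨g, hg⟩ := MulAction.exists_smul_eq G P Q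
    have hQe : (Q : Subgroup G) = (P : Subgroup G).map (MulAut.conj g).toMonoidHom := by
      rw [← hg]; rfl
    have hQ1 : ∀ y ∈ (Q : Subgroup G), y ^ 2 = 1 := by
      intro y hy
      rw [hQe] at hy
      obtain ⟨z, hz, rfl⟩ := hy
      rw [← map_pow, hexp z hz, map_one]
    have hx2 := hQ1 x hxQ
    refine ⟨⟨Q, ?_⟩, ?_⟩
    · intro y hy
      rw [Cfsg.Agent.Lib.ClassSizes.mem_centralizer_singleton]
      have h1 := hQ1 _ ((Q : Subgroup G).mul_mem hy hxQ)
      have h2 := hQ1 y hy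
      have h3 : x⁻¹ = x := by rw [inv_eq_iff_mul_eq_one, ← sq, hx2]
      have h4 : y⁻¹ = y := by rw [inv_eq_iff_mul_eq_one, ← sq, h2]
      have h5 : (y * x)⁻¹ = y * x := by rw [inv_eq_iff_mul_eq_one, ← sq, h1]
      rw [← h5, mul_inv_rev, h3, h4]
    · have h3 : x⁻¹ = x := by rw [inv_eq_iff_mul_eq_one, ← sq, hx2]
      rw [h3]
  · intro h
    have hexp : ∀ x ∈ (P : Subgroup G), x ^ 2 = 1 := by
      intro x hx
      have hk : ∃ k : ℕ, orderOf x = 2 ^ k := by
        have := (IsPGroup.iff_orderOf.1 P.isPGroup') ⟨x, hx⟩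
        rwa [Subgroup.orderOf_mk] at this
      obtain ⟨⟨Q, hQ⟩, hr⟩ := h x hk
      by_cases hx1 : x = 1
      · rw [hx1, one_pow]
      · have := Cfsg.Agent.S4195.result x hx1 Q hQ hr
        rw [← this, pow_orderOf_eq_one]
    refine ⟨⟨⟨?_⟩⟩, hexp⟩
    rintro ⟨x, hx⟩ ⟨y, hy⟩
    apply Subtype.ext
    change x * y = y * x
    have h1 := hexp x hx
    have h2 := hexp y hy
    have h3 := hexp _ ((P : Subgroup G).mul_mem hx hy)
    have h4 : x⁻¹ = x := by rw [inv_eq_iff_mul_eq_one, ← sq, h1]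
    have h5 : y⁻¹ = y := by rw [inv_eq_iff_mul_eq_one, ← sq, h2]
    have h6 : (x * y)⁻¹ = x * y := by rw [inv_eq_iff_mul_eq_one, ← sq, h3]
    rw [← h6, mul_inv_rev, h4, h5]

end Cfsg.Agent.S4196
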