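import Cfsg.Statements.S4230
import Mathlib

set_option autoImplicit false
open Cfsg

namespace Cfsg.Agent.S4230

/-- Let p be an odd prime, q a natural number not divisible by p, and e the multiplicative order of q modulo p. For a natural number f, p divides the value at q of the f-th cyclotomic polynomial if and only if f = e·p^j for some j ≥ 0. -/
theorem result (p q f : ℕ) (hp : p.Prime) (hp2 : p ≠ 2) (hpq : ¬ p ∣ q) :
    ((p : ℤ) ∣ (Polynomial.cyclotomic f ℤ).eval (q : ℤ)) ↔ ∃ j : ℕ, f = orderOf (q : ZMod p) * p ^ j := by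
  haveI : Fact p.Prime := ⟨hp⟩
  have hq0 : (q : ZMod p) ≠ 0 := by
    intro h
    exact hpq ((ZMod.natCast_eq_zero_iff q p).1 h)
  have hfin : 0 < orderOf (q : ZMod p) := by
    rw [orderOf_pos_iff]
    exact isOfFinOrder_iff_pow_eq_one.2 ⟨p - 1, by have := hp.two_le; omega, ZMod.pow_card_sub_one_eq_one hq0⟩
  have h1 : ((p : ℤ) ∣ (Polynomial.cyclotomic f ℤ).eval (q : ℤ)) ↔
      (Polynomial.cyclotomic f (ZMod p)).IsRoot (q : ZMod p) := by
    rw [← ZMod.intCast_zmod_eq_zero_iff_dvd]
    rw [Polynomial.IsRoot.def, ← Polynomial.map_cyclotomic_int f (ZMod p), Polynomial.eval_map,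
      Polynomial.eval₂_at_natCast]
    simp
  rw [h1]
  have hnd : ¬ p ∣ orderOf (q : ZMod p) := by
    intro hd
    have h2 : orderOf (q : ZMod p) ∣ p - 1 := orderOf_dvd_of_pow_eq_one (ZMod.pow_card_sub_one_eq_one hq0)
    have h3 := Nat.le_of_dvd (by have := hp.two_le; omega) (hd.trans h2)
    have := hp.two_le
    omega
  rcases Nat.eq_zero_or_pos f with rfl | hf
  · simp only [Polynomial.cyclotomic_zero, Polynomial.IsRoot.def, Polynomial.eval_one]
    constructor
    · intro h; exact absurd h one_ne_zero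
    · rintro ⟨j, hj⟩
      exfalso
      have : 0 < orderOf (q : ZMod p) * p ^ j := Nat.mul_pos hfin (pow_pos hp.pos j)
      omega
  · obtain ⟨k, m, hm, rfl⟩ := Nat.exists_eq_pow_mul_and_not_dvd hf.ne' p hp.ne_one
    haveI : NeZero (m : ZMod p) := ⟨fun h => hm ((ZMod.natCast_eq_zero_iff m p).1 h)⟩
    rw [Polynomial.isRoot_cyclotomic_prime_pow_mul_iff_of_charP]
    constructor
    · intro h
      exact ⟨k, by rw [← h.eq_orderOf, mul_comm]⟩
    · rintro ⟨j, hj⟩
      have h5 : m = orderOf (q : ZMod p) := by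
        have hcop : ∀ i n, ¬ p ∣ n → (p ^ i * n).factorization p = i := by
          intro i n hn
          have hn0 : n ≠ 0 := by rintro rfl; exact hn (dvd_zero _)
          rw [Nat.factorization_mul (pow_ne_zero _ hp.ne_zero) hn0, Finsupp.add_apply,
            hp.factorization_pow, Finsupp.single_eq_same, Nat.factorization_eq_zero_of_not_dvd hn]
          rfl
        have h6 := hcop k m hm
        rw [hj, mul_comm, hcop j _ hnd] at h6
        subst h6
        rw [mul_comm] at hj
        exact Nat.eq_of_mul_eq_mul_right (pow_pos hp.pos j) hj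
      rw [h5]
      exact IsPrimitiveRoot.orderOf _

end Cfsg.Agent.S4230
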