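import Cfsg.Statements.S4236
import Mathlib
import Cfsg.Agent.H3.SylDouble

set_option autoImplicit false
open Cfsg

namespace Cfsg.Agent.S4236

open Cfsg.Agent.H3.SylDouble

/-- No finite group has exactly 35 Sylow 17-subgroups. -/
theorem result {G : Type*} [Group G] [Finite G] : Nat.card (Sylow 17 G) ≠ 35 := by
  haveI : Fact (Nat.Prime 17) := ⟨by norm_num⟩
  haveI : Fact (Nat.Prime 5) := ⟨by norm_num⟩
  refine reduce (p := 17) (by norm_num) ?_ (Nat.card G) G rfl
  intro H _ _ hnorm _ hd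
  obtain ⟨d, hd6, hodd, hc⟩ := hd
  have hd' : d = 1 := by
    have h1 : d ∣ 2 ^ 4 := by simpa using hd6
    obtain ⟨j, -, rfl⟩ := (Nat.dvd_prime_pow Nat.prime_two).1 h1
    rcases Nat.eq_zero_or_pos j with rfl | hj
    · rfl
    · exfalso
      rw [← Nat.not_even_iff_odd] at hodd
      exact hodd ((Nat.even_pow).2 ⟨even_two, hj.ne'⟩)
  subst hd'
  refine burnside_final (q := 5) (m := 2 * 17 + 1) hnorm (by norm_num) (by norm_num) ?_ ?_ ?_
  · rw [hc]; norm_num
  · rw [hc]; norm_num
  · intro Q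
    have h1 := Subgroup.card_subgroup_dvd_card (Subgroup.normalizer ((Q : Subgroup H) : Set H))
    rw [hc] at h1
    refine Nat.Coprime.coprime_dvd_left h1 ?_
    norm_num

end Cfsg.Agent.S4236
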