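import Cfsg.Statements.S4249
import Mathlib
import Cfsg.Agent.Lib.FpfNilp

set_option autoImplicit false
open Cfsg

namespace Cfsg.Agent.S4249

open Cfsg.Agent.Lib.FpfNilp

/-- Let G be a finite group and p a prime such that G is not a p-group, and suppose the Hughes subgroup H_p(G), generated by all elements g with g^p ≠ 1, is a proper subgroup. Then H_p(G) is nilpotent and has index p in G. -/
theorem result {G : Type*} [Group G] [Finite G] (p : ℕ) (hp : p.Prime) (hG : ¬ IsPGroup p G)
    (hH : Subgroup.closure {g : G | g ^ p ≠ 1} ≠ ⊤) :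
    Group.IsNilpotent (Subgroup.closure {g : G | g ^ p ≠ 1}) ∧ (Subgroup.closure {g : G | g ^ p ≠ 1}).index = p := by
  haveI : Fact p.Prime := ⟨hp⟩
  have hn : (Subgroup.closure {g : G | g ^ p ≠ 1}).Normal := by
    rw [← Subgroup.normalizer_eq_top_iff, eq_top_iff]
    intro g _
    rw [Subgroup.mem_normalizer_iff_map_conj_eq, MonoidHom.map_closure]
    congr 1
    ext x
    constructor
    · rintro ⟨y, hy, rfl⟩ h
      apply hy
      change (g * y * g⁻¹) ^ p = 1 at h
      rw [conj_pow] at h
      have h2 : y ^ p = g⁻¹ * (g * y ^ p * g⁻¹) * g := by group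
      rw [h2, h]; group
    · intro hx
      refine ⟨g⁻¹ * x * g, ?_, ?_⟩
      · intro h
        apply hx
        have h1 : g⁻¹ * x * g = g⁻¹ * x * g⁻¹⁻¹ := by rw [inv_inv]
        rw [h1, conj_pow, inv_inv] at h
        have h2 : x ^ p = g * (g⁻¹ * x ^ p * g) * g⁻¹ := by group
        rw [h2, h]; group
      · change g * (g⁻¹ * x * g) * g⁻¹ = x
        group
  have ho : Out p (Subgroup.closure {g : G | g ^ p ≠ 1}) := by
    intro g hg
    by_contra h
    exact hg (Subgroup.subset_closure h)
  exact ⟨nilp_of_out hn hH ho, index_of_out hn hH ho hG⟩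

end Cfsg.Agent.S4249
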