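import Cfsg.Statements.S4250
import Mathlib
import Cfsg.Agent.Lib.H3Alp
import Cfsg.Agent.Lib.PNilp

set_option autoImplicit false
open Cfsg

namespace Cfsg.Agent.S4250

open scoped commutatorElement

/-- Let P be a Sylow p-subgroup of a finite group G. Call an intersection H = P ∩ Q with a Sylow p-subgroup Q tame when N_P(H) and N_Q(H) are Sylow p-subgroups of N_G(H). Then P ∩ G′ is generated by [P, N_G(P)] together with the commutator subgroups [P ∩ Q, ⟨x⟩] for all tame intersections P ∩ Q and all p-elements x of N_G(P ∩ Q). -/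
theorem result {G : Type*} [Group G] [Finite G] (p : ℕ) [Fact p.Prime] (P : Sylow p G) :
    (P : Subgroup G) ⊓ commutator G =
      ⁅(P : Subgroup G), Subgroup.normalizer ((P : Subgroup G) : Set G)⁆ ⊔
        ⨆ (Q : Sylow p G) (_ : (¬ p ∣ ((P : Subgroup G) ⊓ Subgroup.normalizer (((P : Subgroup G) ⊓ (Q : Subgroup G) : Subgroup G) : Set G)).relIndex (Subgroup.normalizer (((P : Subgroup G) ⊓ (Q : Subgroup G) : Subgroup G) : Set G)) ∧ ¬ p ∣ ((Q : Subgroup G) ⊓ Subgroup.normalizer (((P : Subgroup G) ⊓ (Q : Subgroup G) : Subgroup G) : Set G)).relIndex (Subgroup.normalizer (((P : Subgroup G) ⊓ (Q : Subgroup G) : Subgroup G) : Set G))))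
          (x : G) (_ : x ∈ Subgroup.normalizer (((P : Subgroup G) ⊓ (Q : Subgroup G) : Subgroup G) : Set G) ∧ ∃ k : ℕ, orderOf x = p ^ k),
          ⁅(P : Subgroup G) ⊓ (Q : Subgroup G), Subgroup.zpowers x⁆ := by
  set RHS : Subgroup G := ⁅(P : Subgroup G), Subgroup.normalizer ((P : Subgroup G) : Set G)⁆ ⊔
        ⨆ (Q : Sylow p G) (_ : (¬ p ∣ ((P : Subgroup G) ⊓ Subgroup.normalizer (((P : Subgroup G) ⊓ (Q : Subgroup G) : Subgroup G) : Set G)).relIndex (Subgroup.normalizer (((P : Subgroup G) ⊓ (Q : Subgroup G) : Subgroup G) : Set G)) ∧ ¬ p ∣ ((Q : Subgroup G) ⊓ Subgroup.normalizer (((P : Subgroup G) ⊓ (Q : Subgroup G) : Subgroup G) : Set G)).relIndex (Subgroup.normalizer (((P : Subgroup G) ⊓ (Q : Subgroup G) : Subgroup G) : Set G))))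
          (x : G) (_ : x ∈ Subgroup.normalizer (((P : Subgroup G) ⊓ (Q : Subgroup G) : Subgroup G) : Set G) ∧ ∃ k : ℕ, orderOf x = p ^ k),
          ⁅(P : Subgroup G) ⊓ (Q : Subgroup G), Subgroup.zpowers x⁆ with hR
  apply le_antisymm
  · rw [inf_comm, Cfsg.Agent.Lib.PNilp.commutator_inf_eq_focal _ (Cfsg.Agent.Lib.PNilp.focal_index_coprime_sylow P),
      Subgroup.focalSubgroup_def, Subgroup.closure_le]
    have key : ∀ (A : Set G) (g : G), Cfsg.Agent.Lib.H3Alp.DecR (Cfsg.Agent.Lib.H3Alp.Ok P) A g → ∀ a ∈ A, a⁻¹ * (g⁻¹ * a * g) ∈ RHS := by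
      intro A g h
      induction h with
      | refl A =>
        intro a _
        have : a⁻¹ * (1⁻¹ * a * 1) = 1 := by group
        rw [this]; exact Subgroup.one_mem _
      | step A T x g hA hT _ ih =>
        intro a ha
        have h1 := ih (x⁻¹ * a * x) ⟨a, ha, rfl⟩
        have e1 : a⁻¹ * ((x * g)⁻¹ * a * (x * g)) = (a⁻¹ * (x⁻¹ * a * x)) * ((x⁻¹ * a * x)⁻¹ * (g⁻¹ * (x⁻¹ * a * x) * g)) := by group
        rw [e1]
        refine Subgroup.mul_mem _ ?_ h1
        have e2 : a⁻¹ * (x⁻¹ * a * x) = ⁅a⁻¹, x⁻¹⁆ := by simp only [commutatorElement_def]; group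
        rw [e2]
        obtain ⟨hx, Q, hQ1, hQ2, hQ3, hQ4⟩ := hT
        have haT : a ∈ T := hA ha
        rcases hQ4 with hQ4 | hQ4
        · have hTP : T = (P : Subgroup G) := by rw [← hQ1, hQ4, inf_idem]
          rw [hTP] at haT hx
          exact Subgroup.mem_sup_left (Subgroup.commutator_mem_commutator (Subgroup.inv_mem _ haT) (Subgroup.inv_mem _ hx))
        · refine Subgroup.mem_sup_right ?_
          refine Subgroup.mem_iSup_of_mem Q ?_
          refine Subgroup.mem_iSup_of_mem (by rw [hQ1]; exact ⟨hQ2, hQ3⟩) ?_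
          refine Subgroup.mem_iSup_of_mem x ?_
          refine Subgroup.mem_iSup_of_mem (by rw [hQ1]; exact ⟨hx, hQ4⟩) ?_
          rw [hQ1]
          exact Subgroup.commutator_mem_commutator (Subgroup.inv_mem _ haT) (Subgroup.inv_mem _ (Subgroup.mem_zpowers x))
    rintro _ ⟨hg, x, hx, u, rfl⟩
    have h1 : u * x⁻¹ * u⁻¹ ∈ (P : Subgroup G) := by
      have : u * x⁻¹ * u⁻¹ = x⁻¹ * ⁅x, u⁆ := by rw [commutatorElement_def]; group
      rw [this]; exact Subgroup.mul_mem _ (Subgroup.inv_mem _ hx) hg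
    have h2 := key {x⁻¹} u⁻¹ (Cfsg.Agent.Lib.H3Alp.alperin_tame P {x⁻¹} u⁻¹ (by
      rintro _ rfl; exact Subgroup.inv_mem _ hx) (by
      rintro _ ⟨_, rfl, rfl⟩
      show u⁻¹⁻¹ * x⁻¹ * u⁻¹ ∈ (P : Subgroup G)
      rw [inv_inv]; exact h1)) x⁻¹ rfl
    have e3 : x⁻¹⁻¹ * (u⁻¹⁻¹ * x⁻¹ * u⁻¹) = ⁅x, u⁆ := by simp only [commutatorElement_def]; group
    rw [e3] at h2
    exact h2
  · rw [hR]
    refine sup_le (le_inf ?_ ?_) ?_
    · rw [Subgroup.commutator_comm]
      exact Subgroup.commutator_le.mpr fun a ha b hb => by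
        rw [commutatorElement_def]
        exact Subgroup.mul_mem _ ((Subgroup.mem_normalizer_iff.mp ha b).mp hb) (Subgroup.inv_mem _ hb)
    · exact Subgroup.commutator_mono le_top le_top
    · refine iSup_le fun Q => iSup_le fun _ => iSup_le fun x => iSup_le fun hx => le_inf ?_ (Subgroup.commutator_mono le_top le_top)
      rw [Subgroup.commutator_comm]
      refine Subgroup.commutator_le.mpr fun a ha b hb => ?_
      have ha' : a ∈ Subgroup.normalizer (((P : Subgroup G) ⊓ (Q : Subgroup G) : Subgroup G) : Set G) := (Subgroup.zpowers_le.mpr hx.1) ha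
      rw [commutatorElement_def]
      exact Subgroup.mul_mem _ ((Subgroup.mem_normalizer_iff.mp ha' b).mp hb).1 (Subgroup.inv_mem _ hb.1)

end Cfsg.Agent.S4250
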