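import Cfsg.Statements.S4251
import Mathlib
import Cfsg.Agent.Lib.H3Alp
import Cfsg.Agent.Lib.PNilp

set_option autoImplicit false
open Cfsg

namespace Cfsg.Agent.S4251

open scoped commutatorElement

/-- Let P be a Sylow p-subgroup of a finite group G. Call an intersection H = P ∩ Q with a Sylow p-subgroup Q tame when N_P(H) and N_Q(H) are Sylow p-subgroups of N_G(H). If N_G(H)/C_G(H) is a p-group for every nontrivial tame intersection H = P ∩ Q, then G has a normal p-complement. -/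
theorem result {G : Type*} [Group G] [Finite G] (p : ℕ) [Fact p.Prime] (P : Sylow p G)
    (h : ∀ Q : Sylow p G, (P : Subgroup G) ⊓ (Q : Subgroup G) ≠ ⊥ → (¬ p ∣ ((P : Subgroup G) ⊓ Subgroup.normalizer (((P : Subgroup G) ⊓ (Q : Subgroup G) : Subgroup G) : Set G)).relIndex (Subgroup.normalizer (((P : Subgroup G) ⊓ (Q : Subgroup G) : Subgroup G) : Set G)) ∧ ¬ p ∣ ((Q : Subgroup G) ⊓ Subgroup.normalizer (((P : Subgroup G) ⊓ (Q : Subgroup G) : Subgroup G) : Set G)).relIndex (Subgroup.normalizer (((P : Subgroup G) ⊓ (Q : Subgroup G) : Subgroup G) : Set G))) →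
      IsPGroup p (Subgroup.normalizer (((P : Subgroup G) ⊓ (Q : Subgroup G) : Subgroup G) : Set G) ⧸
        (Subgroup.centralizer (((P : Subgroup G) ⊓ (Q : Subgroup G) : Subgroup G) : Set G)).subgroupOf
          (Subgroup.normalizer (((P : Subgroup G) ⊓ (Q : Subgroup G) : Subgroup G) : Set G)))) :
    Cfsg.HasNormalPComplement p G := by
  have hp : p.Prime := Fact.out
  rw [Cfsg.Agent.Lib.PNilp.hasNormalPComplement_iff]
  -- P controls fusion
  have key : ∀ (A : Set G) (g : G), Cfsg.Agent.Lib.H3Alp.DecR (Cfsg.Agent.Lib.H3Alp.Ok P) A g →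
      ∃ u ∈ (P : Subgroup G), ∀ a ∈ A, g⁻¹ * a * g = u⁻¹ * a * u := by
    intro A g hD
    induction hD with
    | refl A => exact ⟨1, Subgroup.one_mem _, fun a _ => rfl⟩
    | step A T x g hA hT _ ih =>
      obtain ⟨u, hu, hua⟩ := ih
      have hx : ∃ w ∈ (P : Subgroup G), ∀ a ∈ T, x⁻¹ * a * x = w⁻¹ * a * w := by
        obtain ⟨hx, Q, hQ1, hQ2, hQ3, -⟩ := hT
        by_cases hTb : T = ⊥
        · refine ⟨1, Subgroup.one_mem _, fun a ha => ?_⟩
          rw [hTb, Subgroup.mem_bot] at ha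
          rw [ha]; group
        have hpg := h Q (by rw [hQ1]; exact hTb) (by rw [hQ1]; exact ⟨hQ2, hQ3⟩)
        rw [hQ1] at hpg
        set N := Subgroup.normalizer (T : Set G) with hN
        set C := Subgroup.centralizer (T : Set G) with hC
        have hCN : C ≤ N := Subgroup.centralizer_le_normalizer _
        haveI hCn : (C.subgroupOf N).Normal := inferInstance
        -- P ∩ N is Sylow in N
        obtain ⟨R, hR⟩ : ∃ R : Sylow p N, (R : Subgroup N) = ((P : Subgroup G) ⊓ N).subgroupOf N := by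
          have h1 : IsPGroup p (((P : Subgroup G) ⊓ N).subgroupOf N) := by
            rw [Subgroup.inf_subgroupOf_right]
            exact P.isPGroup'.comap_of_injective N.subtype N.subtype_injective
          exact ⟨h1.toSylow hQ2, rfl⟩
        have h2 := Cfsg.Agent.Lib.PNilp.sup_sylow_eq_top (N := C.subgroupOf N) (p := p) (by
          intro g hg
          obtain ⟨k, hk⟩ := hpg (QuotientGroup.mk g)
          rw [← QuotientGroup.mk_pow, QuotientGroup.eq_one_iff] at hk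
          obtain ⟨j, hj⟩ := exists_pow_eq_self_of_coprime (Nat.Coprime.pow_left k hg.symm : (p ^ k).Coprime (orderOf g))
          rw [← hj]
          exact Subgroup.pow_mem _ hk j) R
        have hxT : (⟨x, hx⟩ : N) ∈ (⊤ : Subgroup N) := Subgroup.mem_top _
        rw [← h2, ← SetLike.mem_coe, Subgroup.normal_mul] at hxT
        obtain ⟨c, hc, r, hr, hcr⟩ := hxT
        rw [hR] at hr
        refine ⟨(r : G), hr.1, fun a ha => ?_⟩
        have e1 : x = (c : G) * (r : G) := (congrArg Subtype.val hcr).symm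
        have e2 : a * (c : G) = (c : G) * a := (Subgroup.mem_centralizer_iff.mp hc) a ha
        rw [e1]
        calc ((c : G) * (r : G))⁻¹ * a * ((c : G) * (r : G)) = (r : G)⁻¹ * (c : G)⁻¹ * (a * (c : G)) * (r : G) := by group
          _ = (r : G)⁻¹ * a * (r : G) := by rw [e2]; group
      obtain ⟨w, hw, hwa⟩ := hx
      refine ⟨w * u, Subgroup.mul_mem _ hw hu, fun a ha => ?_⟩
      have h1 := hua (x⁻¹ * a * x) ⟨a, ha, rfl⟩
      have h2 := hwa a (hA ha)
      calc (x * g)⁻¹ * a * (x * g) = g⁻¹ * (x⁻¹ * a * x) * g := by group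
        _ = u⁻¹ * (x⁻¹ * a * x) * u := h1
        _ = u⁻¹ * (w⁻¹ * a * w) * u := by rw [h2]
        _ = _ := by group
  refine Cfsg.Agent.Lib.PNilp.pNil_of_frobCond fun Q hQ g hg hgo => ?_
  -- conjugate Q into P
  obtain ⟨P', hP'⟩ := hQ.exists_le_sylow
  obtain ⟨y, hy⟩ := MulAction.exists_smul_eq G P' P
  have hyP : ∀ a ∈ Q, y * a * y⁻¹ ∈ (P : Subgroup G) := by
    intro a ha
    rw [← hy]
    show y * a * y⁻¹ ∈ ((y • P' : Sylow p G) : Subgroup G)
    rw [Sylow.coe_subgroup_smul]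
    exact ⟨a, hP' ha, rfl⟩
  obtain ⟨u, hu, hua⟩ := key ((fun a => y * a * y⁻¹) '' (Q : Set G)) (y * g * y⁻¹)
    (Cfsg.Agent.Lib.H3Alp.alperin_tame P _ _ (by
      rintro _ ⟨a, ha, rfl⟩; exact hyP a ha) (by
      rintro _ ⟨_, ⟨a, ha, rfl⟩, rfl⟩
      have h1 : g⁻¹ * a * g ∈ Q := (Subgroup.mem_normalizer_iff''.mp hg a).mp ha
      have := hyP _ h1
      have e : (y * g * y⁻¹)⁻¹ * (y * a * y⁻¹) * (y * g * y⁻¹) = y * (g⁻¹ * a * g) * y⁻¹ := by group
      show (y * g * y⁻¹)⁻¹ * (y * a * y⁻¹) * (y * g * y⁻¹) ∈ (P : Subgroup G)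
      rw [e]; exact this))
  set v : G := y⁻¹ * u * y with hv
  have hva : ∀ a ∈ Q, g⁻¹ * a * g = v⁻¹ * a * v := by
    intro a ha
    have h1 := hua _ ⟨a, ha, rfl⟩
    have h2 : (y * g * y⁻¹)⁻¹ * (y * a * y⁻¹) * (y * g * y⁻¹) = u⁻¹ * (y * a * y⁻¹) * u := h1
    calc g⁻¹ * a * g = y⁻¹ * ((y * g * y⁻¹)⁻¹ * (y * a * y⁻¹) * (y * g * y⁻¹)) * y := by group
      _ = y⁻¹ * (u⁻¹ * (y * a * y⁻¹) * u) * y := by rw [h2]
      _ = _ := by rw [hv]; group
  -- order considerations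
  have hvk : ∃ k, v ^ p ^ k = 1 := by
    obtain ⟨k, hk⟩ := P.isPGroup' ⟨u, hu⟩
    refine ⟨k, ?_⟩
    have h1 : u ^ p ^ k = 1 := congrArg Subtype.val hk
    have h2 : v ^ p ^ k = y⁻¹ * u ^ p ^ k * y := by
      have := conj_pow (i := p ^ k) (a := y⁻¹) (b := u)
      rwa [inv_inv] at this
    rw [h2, h1]; group
  obtain ⟨k, hk⟩ := hvk
  have hpow : ∀ n : ℕ, ∀ a ∈ Q, (g ^ n)⁻¹ * a * g ^ n = (v ^ n)⁻¹ * a * v ^ n := by
    intro n
    induction n with
    | zero => intro a _; rw [pow_zero, pow_zero]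
    | succ n ih =>
      intro a ha
      have h1 : g⁻¹ * a * g ∈ Q := (Subgroup.mem_normalizer_iff''.mp hg a).mp ha
      calc (g ^ (n+1))⁻¹ * a * g ^ (n+1) = (g ^ n)⁻¹ * (g⁻¹ * a * g) * g ^ n := by rw [pow_succ']; group
        _ = (v ^ n)⁻¹ * (g⁻¹ * a * g) * v ^ n := ih _ h1
        _ = (v ^ n)⁻¹ * (v⁻¹ * a * v) * v ^ n := by rw [hva a ha]
        _ = _ := by rw [pow_succ']; group
  have hcop : (p ^ k).Coprime (orderOf g) := Nat.Coprime.pow_left k hgo.symm
  obtain ⟨j, hj⟩ := exists_pow_eq_self_of_coprime hcop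
  rw [Subgroup.mem_centralizer_iff]
  intro a ha
  have h1 : ∀ a ∈ Q, (g ^ p ^ k)⁻¹ * a * g ^ p ^ k = a := by
    intro a ha
    rw [hpow _ a ha, hk]; group
  have h2 : g ^ p ^ k ∈ Subgroup.centralizer (Q : Set G) := by
    rw [Subgroup.mem_centralizer_iff]
    intro b hb
    have h3 := h1 b hb
    calc b * g ^ p ^ k = g ^ p ^ k * ((g ^ p ^ k)⁻¹ * b * g ^ p ^ k) := by group
      _ = _ := by rw [h3]
  have h4 : g ∈ Subgroup.centralizer (Q : Set G) := by
    rw [← hj]; exact Subgroup.pow_mem _ h2 j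
  exact (Subgroup.mem_centralizer_iff.mp h4) a ha

end Cfsg.Agent.S4251
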