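import Cfsg.Statements.S4252
import Mathlib

set_option autoImplicit false
open Cfsg

namespace Cfsg.Agent.S4252

open scoped Pointwise

/-- Let a finite group G act on a finite set Ω with more than one point, transitively but not regularly, so that no non-identity element of G fixes two distinct points. Then the stabilizer H of any point is a Frobenius complement in G (nontrivial, proper, meeting its other conjugates trivially), and the Frobenius kernel of G with respect to H (the identity together with the elements lying in no conjugate of H) is exactly the set consisting of the identity and the elements fixing no point. -/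
theorem result {G Ω : Type*} [Group G] [Finite G] [Fintype Ω] [MulAction G Ω] (hΩ : 1 < Fintype.card Ω)
    (htrans : ∀ α β : Ω, ∃ g : G, g • α = β) (hnreg : ∃ g : G, g ≠ 1 ∧ ∃ α : Ω, g • α = α)
    (hfix : ∀ g : G, g ≠ 1 → ∀ α β : Ω, g • α = α → g • β = β → α = β) (α : Ω) :
    Cfsg.IsFrobeniusComplement (MulAction.stabilizer G α) ∧
      Cfsg.frobeniusKernel (MulAction.stabilizer G α) = {g : G | g = 1 ∨ ∀ ω : Ω, g • ω ≠ ω} := by
  classical
  have hconj : ∀ g : G, MulAut.conj g • MulAction.stabilizer G α = MulAction.stabilizer G (g • α) := by
    intro g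
    rw [MulAction.stabilizer_smul_eq_stabilizer_map_conj]; rfl
  refine ⟨⟨?_, ?_, ?_⟩, ?_⟩
  · obtain ⟨g, hg, β, hβ⟩ := hnreg
    obtain ⟨k, hk⟩ := htrans α β
    intro hbot
    have : k⁻¹ * g * k ∈ MulAction.stabilizer G α := by
      rw [MulAction.mem_stabilizer_iff, mul_smul, mul_smul, hk, hβ, ← hk, inv_smul_smul]
    rw [hbot, Subgroup.mem_bot] at this
    apply hg
    have h2 : k * (k⁻¹ * g * k) * k⁻¹ = 1 := by rw [this]; group
    have h3 : k * (k⁻¹ * g * k) * k⁻¹ = g := by group
    rw [← h3, h2]
  · intro htop
    obtain ⟨β, hβ⟩ := Fintype.exists_ne_of_one_lt_card hΩ α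
    obtain ⟨k, hk⟩ := htrans α β
    have : k ∈ MulAction.stabilizer G α := by rw [htop]; trivial
    rw [MulAction.mem_stabilizer_iff, hk] at this
    exact hβ this
  · intro g hg
    rw [hconj, eq_bot_iff]
    intro h hh
    rw [Subgroup.mem_bot]
    by_contra hne
    exact hg ((hfix h hne α (g • α) hh.1 hh.2).symm)
  · ext x
    constructor
    · rintro (hx | hx)
      · exact Or.inl hx
      · right
        intro ω hω
        obtain ⟨k, hk⟩ := htrans α ω
        apply hx k
        rw [hconj, hk]; exact hω
    · rintro (hx | hx)
      · exact Or.inl hx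
      · right
        intro g hg
        rw [hconj] at hg
        exact hx _ hg

end Cfsg.Agent.S4252
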