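import Cfsg.Statements.S4253
import Mathlib

set_option autoImplicit false
open Cfsg

namespace Cfsg.Agent.S4253

open scoped Pointwise

/-- Let H be a Frobenius complement in a finite group G (a nontrivial proper subgroup meeting each conjugate gHg⁻¹ with g outside H trivially). Then in the action of G on the left cosets of H by left multiplication, no non-identity element of G fixes two distinct cosets. -/
theorem result {G : Type*} [Group G] [Finite G] (H : Subgroup G) (hH : Cfsg.IsFrobeniusComplement H)
    (g : G) (hg : g ≠ 1) (a b : G ⧸ H) (ha : g • a = a) (hb : g • b = b) : a = b := by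
  induction a using QuotientGroup.induction_on with | H x => ?_
  induction b using QuotientGroup.induction_on with | H y => ?_
  have hx : x⁻¹ * (g * x) ∈ H := by
    have := QuotientGroup.eq.1 (show ((x : G) : G ⧸ H) = ((g * x : G) : G ⧸ H) from ha.symm)
    exact this
  have hy : y⁻¹ * (g * y) ∈ H := by
    have := QuotientGroup.eq.1 (show ((y : G) : G ⧸ H) = ((g * y : G) : G ⧸ H) from hb.symm)
    exact this
  by_contra hne
  have hxy : x⁻¹ * y ∉ H := fun h => hne (QuotientGroup.eq.2 h)
  have h3 := hH.2.2 _ hxy
  have h4 : x⁻¹ * (g * x) ∈ H ⊓ (MulAut.conj (x⁻¹ * y) • H) := by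
    refine ⟨hx, ?_⟩
    change x⁻¹ * (g * x) ∈ MulAut.conj (x⁻¹ * y) • H
    rw [Subgroup.mem_pointwise_smul_iff_inv_smul_mem]
    have : (MulAut.conj (x⁻¹ * y))⁻¹ • (x⁻¹ * (g * x)) = y⁻¹ * (g * y) := by
      rw [← map_inv, MulAut.smul_def, MulAut.conj_apply]; group
    rw [this]; exact hy
  rw [h3, Subgroup.mem_bot] at h4
  apply hg
  have : g * x = x := by
    have := congrArg (fun z => x * z) h4
    simpa using this
  simpa using this

end Cfsg.Agent.S4253
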