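import Cfsg.Statements.S4261
import Mathlib
import Cfsg.Agent.Lib.NilpB

set_option autoImplicit false
open Cfsg

namespace Cfsg.Agent.S4261

open Subgroup Cfsg.Agent.Lib.NilpB

/-- Let M be a maximal subgroup of a finite solvable group G such that x^[G : M] lies in M for every x in G. Then M is normal in G. -/
theorem result {G : Type*} [Group G] [Finite G] (hG : Group.IsSolvable G) (M : Subgroup G) (hM : IsCoatom M)
    (hexp : ∀ x : G, x ^ M.index ∈ M) : M.Normal := by
  obtain ⟨p, k, hp, hk, hidx⟩ := index_isPrimePow_of_coatom hG hM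
  haveI : Fact p.Prime := ⟨hp.nat_prime⟩
  -- all p'-elements are in M
  have h1 : ∀ x : G, (orderOf x).Coprime p → x ∈ M := by
    intro x hx
    obtain ⟨m, hm⟩ := exists_pow_eq_self_of_coprime (x := x) (n := p ^ k) (Nat.Coprime.pow_left k hx.symm)
    rw [← hm]
    apply Subgroup.pow_mem
    rw [hidx]
    exact hexp x
  let R : Subgroup G := Subgroup.closure {x : G | (orderOf x).Coprime p}
  have hRM : R ≤ M := (Subgroup.closure_le M).2 fun x hx => h1 x hx
  have hRn : R.Normal := by
    constructor
    intro n hn g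
    induction hn using Subgroup.closure_induction with
    | mem x hx =>
      apply Subgroup.subset_closure
      change (orderOf (g * x * g⁻¹)).Coprime p
      have : orderOf (g * x * g⁻¹) = orderOf x := by
        have := orderOf_injective (MulAut.conj g).toMonoidHom (MulAut.conj g).injective x
        simpa using this
      rw [this]; exact hx
    | one => simp
    | mul x y _ _ hx hy =>
      have : g * (x * y) * g⁻¹ = (g * x * g⁻¹) * (g * y * g⁻¹) := by group
      rw [this]; exact R.mul_mem hx hy
    | inv x _ hx =>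
      have : g * x⁻¹ * g⁻¹ = (g * x * g⁻¹)⁻¹ := by group
      rw [this]; exact R.inv_mem hx
  have hGR : IsPGroup p (G ⧸ R) := by
    rw [IsPGroup.iff_orderOf]
    intro y
    obtain ⟨x, rfl⟩ := QuotientGroup.mk_surjective y
    -- x^(p^a) has order prime to p
    obtain ⟨a, b, hb, hab⟩ := Nat.exists_eq_pow_mul_and_not_dvd (orderOf_pos x).ne' p hp.nat_prime.ne_one
    have h2 : x ^ (p ^ a) ∈ R := by
      apply Subgroup.subset_closure
      change (orderOf (x ^ (p ^ a))).Coprime p
      rw [orderOf_pow_of_dvd (pow_ne_zero _ hp.nat_prime.ne_zero) (by rw [hab]; exact Dvd.intro _ rfl), hab,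
        Nat.mul_div_cancel_left _ (pow_pos hp.nat_prime.pos a)]
      exact ((Nat.Prime.coprime_iff_not_dvd hp.nat_prime).2 hb).symm
    have h3 : orderOf (QuotientGroup.mk x : G ⧸ R) ∣ p ^ a := by
      apply orderOf_dvd_of_pow_eq_one
      rw [← QuotientGroup.mk_pow, QuotientGroup.eq_one_iff]
      exact h2
    obtain ⟨c, _, hc⟩ := (Nat.dvd_prime_pow hp.nat_prime).1 h3
    exact ⟨c, hc⟩
  haveI := hGR.isNilpotent
  have h2 := isCoatom_map_mk hM hRM
  have h3 := Cfsg.Agent.Lib.Nilp.coatom_normal_of_nilpotent h2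
  have h4 : M = (M.map (QuotientGroup.mk' R)).comap (QuotientGroup.mk' R) := by
    rw [comap_map_eq, QuotientGroup.ker_mk', sup_eq_left.2 hRM]
  rw [h4]
  exact h3.comap _

end Cfsg.Agent.S4261
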