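import Cfsg.Statements.S4262
import Mathlib
import Cfsg.Agent.H3.SolvOdd
import Cfsg.Agent.Lib.ClassSizes
import Cfsg.Agent.Lib.PGrpA

set_option autoImplicit false
open Cfsg

namespace Cfsg.Agent.S4262

open Subgroup Cfsg Cfsg.Agent.Lib.Basic Cfsg.Agent.Lib.PNilp Cfsg.Agent.Lib.Cores Cfsg.Agent.Lib.ThompsonP Cfsg.Agent.Lib.ThompsonJ

variable {G : Type*} [Group G] [Finite G]

/-- the standing hypothesis -/
def MaxC (G : Type*) [Group G] : Prop :=
  ∀ g : G, g ∉ Subgroup.center G → IsCoatom (Subgroup.centralizer ({g} : Set G))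

theorem mem_cent {g x : G} : x ∈ centralizer ({g} : Set G) ↔ g * x = x * g := by
  rw [mem_centralizer_iff]; simp

/-- `p'`-elements of `C(x)`, `x` a noncentral `p`-element, are central in `C(x)` -/
theorem fact1 (h : MaxC G) {p : ℕ} [hp : Fact p.Prime] {x : G} (hx : x ∉ center G) (hxp : ∃ k, orderOf x = p ^ k)
    {v : G} (hv : x * v = v * x) (hvp : (orderOf v).Coprime p) {m : G} (hm : x * m = m * x) : v * m = m * v := by
  obtain ⟨k, hk⟩ := hxp
  have hc := Cfsg.Agent.Lib.ClassSizes.centralizer_mul_of_coprime (x := x) (y := v) hv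
    (by rw [hk]; exact (Nat.Coprime.pow_right k hvp).symm)
  have h1 := h x hx
  have hxv : x * v ∉ center G := by
    intro hz
    apply h1.1
    rw [eq_top_iff]
    intro g _
    have h5 : g ∈ centralizer ({x * v} : Set G) := mem_cent.mpr (mem_center_iff.mp hz g).symm
    rw [hc] at h5
    exact h5.1
  have h2 := h _ hxv
  have h3 : centralizer ({x * v} : Set G) = centralizer {x} := by
    have h4 : centralizer ({x * v} : Set G) ≤ centralizer {x} := by rw [hc]; exact inf_le_left
    rcases h2.le_iff.mp h4 with h5 | h5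
    · exact absurd h5 h1.1
    · exact h5.symm
  have h4 : m ∈ centralizer ({x} : Set G) := mem_cent.mpr hm
  rw [← h3, hc] at h4
  exact mem_cent.mp h4.2

theorem coprime_of_sylow {M : Type*} [Group M] {r p : ℕ} [Fact r.Prime] (hr : r.Prime) (hp : p.Prime) (hrp : r ≠ p) (R : Sylow r M) {y : M}
    (hy : y ∈ (R : Subgroup M)) : (orderOf y).Coprime p := by
  obtain ⟨k, hk⟩ := IsPGroup.iff_orderOf.1 R.2 ⟨y, hy⟩
  rw [orderOf_mk] at hk
  rw [hk]
  exact Nat.Coprime.pow_left k ((Nat.coprime_primes hr hp).mpr hrp)

theorem sylow_normal (h : MaxC G) {p : ℕ} [hp : Fact p.Prime] {x : G} (hx : x ∉ center G) (hxp : ∃ k, orderOf x = p ^ k)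
    (P0 : Sylow p (centralizer ({x} : Set G))) : (P0 : Subgroup (centralizer ({x} : Set G))).Normal := by
  rw [← normalizer_eq_top_iff]
  apply eq_top_of_sylow_le
  intro r hr
  by_cases hrp : r = p
  · subst hrp; exact ⟨P0, le_normalizer⟩
  · haveI : Fact r.Prime := ⟨hr⟩
    obtain ⟨R⟩ := (inferInstance : Nonempty (Sylow r (centralizer ({x} : Set G))))
    refine ⟨R, fun y hy => ?_⟩
    have hyp : (orderOf (y : G)).Coprime p := by
      rw [orderOf_coe]; exact coprime_of_sylow hr hp.out hrp R hy
    apply centralizer_le_normalizer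
    rw [mem_centralizer_iff]
    intro z _
    exact Subtype.ext (fact1 h hx hxp (mem_cent.mp y.2) hyp (mem_cent.mp z.2)).symm

theorem pNil_centralizer (h : MaxC G) {p : ℕ} [hp : Fact p.Prime] {x : G} (hx : x ∉ center G) (hxp : ∃ k, orderOf x = p ^ k) :
    PNil p (centralizer ({x} : Set G)) := by
  apply pNil_of_frobCond
  intro Q hQ g hg hgo
  rw [mem_centralizer_iff]
  intro z _
  exact Subtype.ext (fact1 h hx hxp (mem_cent.mp g.2) (by rwa [orderOf_coe]) (mem_cent.mp z.2)).symm

theorem main1 (h : MaxC G) {p : ℕ} [hp : Fact p.Prime] (hp2 : p ≠ 2) [hOn : (pCore p G).Normal] :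
    PNil p (G ⧸ pCore p G) := by
  by_cases hZ : ∀ S : Sylow p G, ∀ x ∈ (S : Subgroup G), (∀ y ∈ (S : Subgroup G), x * y = y * x) → x ∈ center G
  · -- all `p`-elements are in `O_p(G)`
    have key : ∀ x : G, (∃ k, orderOf x = p ^ k) → x ∈ pCore p G := by
      intro x hxp
      by_cases hx : x ∈ center G
      · have h1 : (zpowers x).Normal := Cfsg.Agent.Lib.PGrpA.normal_of_center_card (by rw [zpowers_le]; exact hx)
        obtain ⟨k, hk⟩ := hxp
        exact le_pCore h1 (IsPGroup.of_card (n := k) (by rw [Nat.card_zpowers, hk])) (mem_zpowers x)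
      · set M := centralizer ({x} : Set G) with hM
        have hMc : IsCoatom M := h x hx
        obtain ⟨P0⟩ := (inferInstance : Nonempty (Sylow p M))
        have hP0n := sylow_normal h hx hxp P0
        set P := (P0 : Subgroup M).map M.subtype with hP
        have hPp : IsPGroup p P := P0.2.map _
        have hPM : P ≤ M := map_subtype_le _
        have hMP : M ≤ normalizer (P : Set G) := by
          have h1 : P.subgroupOf M = P0 := by
            rw [hP, subgroupOf, comap_map_eq_self_of_injective M.subtype_injective]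
          rw [← normal_subgroupOf_iff_le_normalizer hPM, h1]; exact hP0n
        have hel : ∀ y ∈ M, (∃ k, orderOf y = p ^ k) → y ∈ P := by
          intro y hy hyp
          have h1 : IsPGroup p (zpowers (⟨y, hy⟩ : M)) := by
            obtain ⟨k, hk⟩ := hyp
            exact IsPGroup.of_card (n := k) (by rw [Nat.card_zpowers, orderOf_mk, hk])
          obtain ⟨Q, hQ⟩ := h1.exists_le_sylow
          haveI := P0.unique_of_normal hP0n
          have h2 : Q = P0 := Subsingleton.elim _ _
          rw [h2] at hQ
          exact ⟨⟨y, hy⟩, hQ (mem_zpowers _), rfl⟩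
        have hxP : x ∈ P := hel x (mem_cent.mpr rfl) hxp
        have hnS : ∃ S : Sylow p G, P < (S : Subgroup G) := by
          obtain ⟨S, hS⟩ := hPp.exists_le_sylow
          refine ⟨S, lt_of_le_of_ne hS ?_⟩
          intro he
          apply hx
          apply hZ S x (hS hxP)
          intro y hy
          rw [← he] at hy
          exact mem_cent.mp (hPM hy)
        obtain ⟨S, hS⟩ := hnS
        have hlt := lt_inf_normalizer S.isPGroup'.isNilpotent hS
        obtain ⟨y, hy, hyP⟩ := SetLike.exists_of_lt hlt
        have hyM : y ∉ M := fun hyM => hyP (hel y hyM (by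
          obtain ⟨k, hk⟩ := IsPGroup.iff_orderOf.1 S.2 ⟨y, hy.1⟩
          rw [orderOf_mk] at hk
          exact ⟨k, hk⟩))
        have htop : normalizer (P : Set G) = ⊤ := by
          rcases hMc.le_iff.mp hMP with h1 | h1
          · exact h1
          · exact absurd (h1 ▸ hy.2) hyM
        exact le_pCore (normalizer_eq_top_iff.mp htop) hPp hxP
    have hS : ∀ S : Sylow p G, (S : Subgroup G) = pCore p G := by
      intro S
      apply le_antisymm _ (pCore_le_sylow S)
      intro y hy
      obtain ⟨k, hk⟩ := IsPGroup.iff_orderOf.1 S.2 ⟨y, hy⟩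
      rw [orderOf_mk] at hk
      exact key y ⟨k, hk⟩
    obtain ⟨S⟩ := (inferInstance : Nonempty (Sylow p G))
    apply pNil_of_coprime
    rw [← index_eq_card, ← hS S]
    exact ((Nat.Prime.coprime_iff_not_dvd hp.out).mpr S.not_dvd_index).symm
  · push Not at hZ
    obtain ⟨S, x, hxS, hxc, hx⟩ := hZ
    have hxp : ∃ k, orderOf x = p ^ k := by
      obtain ⟨k, hk⟩ := IsPGroup.iff_orderOf.1 S.2 ⟨x, hxS⟩
      rw [orderOf_mk] at hk
      exact ⟨k, hk⟩
    set M := centralizer ({x} : Set G) with hM
    have hMc : IsCoatom M := h x hx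
    have hSM : (S : Subgroup G) ≤ M := fun y hy => mem_cent.mpr (hxc y hy)
    have hMS : M ≤ normalizer ((S : Subgroup G) : Set G) := by
      rw [← normal_subgroupOf_iff_le_normalizer hSM]
      exact sylow_normal h hx hxp (S.subtype hSM)
    have hMn : PNil p M := pNil_centralizer h hx hxp
    set f := QuotientGroup.mk' (pCore p G) with hf
    have hfs : Function.Surjective f := QuotientGroup.mk'_surjective _
    have hfk : f.ker = pCore p G := QuotientGroup.ker_mk' _
    apply thompson' hp2 (S.mapSurjective hfs)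
    intro X hX hX0 hle
    have hYp : IsPGroup p (X.comap f) := by
      apply IsPGroup.comap_of_ker_isPGroup _ f
      · rw [hfk]; exact pCore_isPGroup p
      · exact (S.mapSurjective hfs).2.to_le hX
    have hMY : M ≤ normalizer ((X.comap f : Subgroup G) : Set G) := by
      intro m hm
      have h1 : f m ∈ normalizer (((S : Subgroup G).map f : Subgroup (G ⧸ pCore p G)) : Set (G ⧸ pCore p G)) :=
        le_normalizer_map f (mem_map_of_mem f (hMS hm))
      have h2 := hle h1
      rw [mem_normalizer_iff]
      intro n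
      rw [mem_comap, mem_comap, map_mul, map_mul, map_inv]
      exact mem_normalizer_iff.mp h2 _
    have hYM : normalizer ((X.comap f : Subgroup G) : Set G) = M := by
      rcases hMc.le_iff.mp hMY with h1 | h1
      · exfalso
        apply hX0
        have h2 : X.comap f ≤ pCore p G := le_pCore (normalizer_eq_top_iff.mp h1) hYp
        rw [eq_bot_iff]
        intro y hy
        obtain ⟨g, rfl⟩ := hfs y
        have h3 : g ∈ pCore p G := h2 hy
        rw [← hfk] at h3
        exact h3
      · exact h1
    rw [← hYM] at hMn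
    exact (hMn.of_surjective _ (f.subgroupMap_surjective _)).of_le (normalizer_le_map_comap f hfs X)

/-- Let G be a finite group in which the centralizer of every non-central element is a maximal subgroup of G. Then G is solvable. -/
theorem result {G : Type*} [Group G] [Finite G]
    (h : ∀ g : G, g ∉ Subgroup.center G → IsCoatom (Subgroup.centralizer ({g} : Set G))) :
    Group.IsSolvable G := by
  exact Cfsg.Agent.H3.SolvOdd.solvable_of_pNil_quotient (fun q _ hq2 _ => main1 h hq2)

end Cfsg.Agent.S4262
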