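import Cfsg.Statements.S4263
import Mathlib
import Cfsg.Agent.Lib.Cores
import Cfsg.Agent.H3.Basic

set_option autoImplicit false
open Cfsg

namespace Cfsg.Agent.S4263

open Cfsg.Agent.H3.Basic Cfsg.Agent.Lib.Cores

theorem mem_sylow_of {G : Type*} [Group G] [Finite G] (p : ℕ) [Fact p.Prime] (x : G)
    (h : ∀ H : Subgroup G, x ^ H.index ∈ H) (hx : ∃ k : ℕ, orderOf x = p ^ k) (P : Sylow p G) :
    x ∈ (P : Subgroup G) := by
  obtain ⟨k, hk⟩ := hx
  have h1 : (Nat.Coprime (orderOf x) (P : Subgroup G).index) := by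
    rw [hk]
    exact Nat.Coprime.pow_left _ ((Nat.Prime.coprime_iff_not_dvd Fact.out).2 P.not_dvd_index)
  obtain ⟨m, hm⟩ := exists_pow_eq_self_of_coprime (x := x) (n := (P : Subgroup G).index) h1.symm
  rw [← hm]
  exact (P : Subgroup G).pow_mem (h _) m

theorem pow_prop {G : Type*} [Group G] (x : G) (n : ℕ)
    (h : ∀ H : Subgroup G, x ^ H.index ∈ H) : ∀ H : Subgroup G, (x ^ n) ^ H.index ∈ H := by
  intro H
  rw [← pow_mul, mul_comm, pow_mul]
  exact H.pow_mem (h H) n

/-- Let G be a finite group. An element x lies in the Fitting subgroup F(G) if and only if, for every subgroup H of G, the power x^[G : H] lies in H. -/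
theorem result {G : Type*} [Group G] [Finite G] (x : G) :
    x ∈ Cfsg.fittingSubgroup G ↔ ∀ H : Subgroup G, x ^ H.index ∈ H := by
  constructor
  · intro hx H
    have hnil := fitting_nilpotent (G := G)
    have hnorm := fitting_normal (G := G)
    have h1 : (⟨x, hx⟩ : Cfsg.fittingSubgroup G) ^ (H.subgroupOf (Cfsg.fittingSubgroup G)).index ∈ H.subgroupOf (Cfsg.fittingSubgroup G) :=
      pow_index_mem_of_isNilpotent _ _
    rw [Subgroup.mem_subgroupOf] at h1
    have h2 : x ^ (H.relIndex (Cfsg.fittingSubgroup G)) ∈ H := h1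
    obtain ⟨c, hc⟩ := relIndex_dvd_index_of_normal_right H (Cfsg.fittingSubgroup G)
    rw [hc, pow_mul]
    exact H.pow_mem h2 c
  · intro h
    -- the order of `x` modulo `F`
    have hnorm := fitting_normal (G := G)
    by_contra hx
    have hpow : ∀ p : ℕ, p.Prime → x ^ (ordCompl[p] (orderOf x)) ∈ Cfsg.fittingSubgroup G := by
      intro p hp
      haveI : Fact p.Prime := ⟨hp⟩
      have hord : ∃ k : ℕ, orderOf (x ^ (ordCompl[p] (orderOf x))) = p ^ k := by
        refine ⟨(orderOf x).factorization p, ?_⟩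
        have hpos : 0 < orderOf x := orderOf_pos x
        rw [orderOf_pow_of_dvd (Nat.ordCompl_pos p hpos.ne').ne' (Nat.ordCompl_dvd _ _)]
        exact Nat.div_eq_of_eq_mul_left (Nat.ordCompl_pos p hpos.ne') (Nat.ordProj_mul_ordCompl_eq_self _ _).symm
      have h1 : x ^ (ordCompl[p] (orderOf x)) ∈ Cfsg.pCore p G := by
        rw [pCore_eq_iInf_sylow, Subgroup.mem_iInf]
        exact fun P => mem_sylow_of p _ (pow_prop x _ h) hord P
      rw [fitting_eq_iSup_pCore]
      exact (le_iSup (fun p : Nat.Primes => Cfsg.pCore (p : ℕ) G) ⟨p, hp⟩) h1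
    -- order of x mod F divides all these, hence is 1
    have hd : ∀ p : ℕ, p.Prime → orderOf (x : G ⧸ Cfsg.fittingSubgroup G) ∣ ordCompl[p] (orderOf x) := by
      intro p hp
      apply orderOf_dvd_of_pow_eq_one
      rw [← QuotientGroup.mk_pow, QuotientGroup.eq_one_iff]
      exact hpow p hp
    have h1 : orderOf (x : G ⧸ Cfsg.fittingSubgroup G) ≠ 1 := by
      intro h1
      rw [orderOf_eq_one_iff, QuotientGroup.eq_one_iff] at h1
      exact hx h1
    obtain ⟨p, hp, hpd⟩ := Nat.exists_prime_and_dvd h1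
    exact Nat.not_dvd_ordCompl hp (orderOf_pos x).ne' (hpd.trans (hd p hp))

end Cfsg.Agent.S4263
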