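import Cfsg.Statements.S4341
import Mathlib
import Cfsg.Agent.Lib.SylCount

set_option autoImplicit false
open Cfsg

namespace Cfsg.Agent.S4341

open Subgroup Cfsg.Agent.Lib.SylCount

/-- Let K be a normal subgroup of a finite group G, p a prime and P a Sylow p-subgroup of G; let N be the normalizer of P ∩ K inside the subgroup PK. Then the number of Sylow p-subgroups of G equals the product of the numbers of Sylow p-subgroups of G/K, of K, and of N/(P ∩ K). (The normality of P ∩ K in N, which always holds, is assumed as a hypothesis so that the quotient can be formed.) -/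
theorem result {G : Type*} [Group G] [Finite G]
    (p : ℕ) [Fact p.Prime] (K : Subgroup G) [K.Normal] (P : Sylow p G) (N : Subgroup G)
    (hN : N = ((P : Subgroup G) ⊔ K) ⊓ Subgroup.normalizer (((P : Subgroup G) ⊓ K : Subgroup G) : Set G))
    [hn : (((P : Subgroup G) ⊓ K).subgroupOf N).Normal] :
    Nat.card (Sylow p G) =
      Nat.card (Sylow p (G ⧸ K)) * Nat.card (Sylow p K) * Nat.card (Sylow p (N ⧸ ((P : Subgroup G) ⊓ K).subgroupOf N)) := by
  rw [card_sylow_eq_mul K P, mul_assoc]
  congr 1
  set X : Subgroup G := (P : Subgroup G) ⊔ K with hX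
  set D : Subgroup G := (P : Subgroup G) ⊓ K with hD
  have hPX : (P : Subgroup G) ≤ X := le_sup_left
  have hKX : K ≤ X := le_sup_right
  have hPD : (P : Subgroup G) ≤ normalizer (D : Set G) := by
    intro x hx
    rw [mem_normalizer_iff]
    intro y
    constructor
    · rintro ⟨h1, h2⟩
      exact ⟨(P : Subgroup G).mul_mem ((P : Subgroup G).mul_mem hx h1) ((P : Subgroup G).inv_mem hx),
        Subgroup.Normal.conj_mem inferInstance y h2 x⟩
    · rintro ⟨h1, h2⟩
      have h3 : x⁻¹ * (x * y * x⁻¹) * x ∈ (P : Subgroup G) :=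
        (P : Subgroup G).mul_mem ((P : Subgroup G).mul_mem ((P : Subgroup G).inv_mem hx) h1) hx
      have h4 := Subgroup.Normal.conj_mem (H := K) inferInstance _ h2 x⁻¹
      have e1 : x⁻¹ * (x * y * x⁻¹) * x = y := by group
      have e2 : x⁻¹ * (x * y * x⁻¹) * x⁻¹⁻¹ = y := by group
      rw [e1] at h3
      rw [e2] at h4
      exact ⟨h3, h4⟩
  have hPN : (P : Subgroup G) ≤ N := by rw [hN]; exact le_inf hPX hPD
  have hNX : N ≤ X := by rw [hN]; exact inf_le_left
  -- `n_p(X) = [X : N_X(P)]`
  have h1 := card_sylow_of_le P hPX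
  have h2 := card_sylow_of_le P hPN
  -- `n_p(K)`
  have hDi : ¬ p ∣ D.relIndex K := by
    rw [hD, inf_relIndex_right]
    intro h
    have h3 : (P : Subgroup G).relIndex K ∣ (P : Subgroup G).index :=
      Cfsg.Agent.H3.Basic.relIndex_dvd_index_of_normal_right _ _
    exact P.not_dvd_index (h.trans h3)
  have hDp : IsPGroup p D := P.2.to_le inf_le_left
  have h3 := card_sylow_eq_relIndex hDp (inf_le_right : D ≤ K) hDi
  -- quotient
  haveI := hn
  have h4 : Nat.card (Sylow p (N ⧸ D.subgroupOf N)) = Nat.card (Sylow p N) := by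
    apply card_sylow_quotient_of_le (D.subgroupOf N) (P.subtype hPN)
    intro x hx
    have hx' : (x : G) ∈ D := hx
    have : x ∈ ((P.subtype hPN : Sylow p N) : Subgroup N) := (inf_le_left : D ≤ _) hx'
    exact le_normalizer this
  rw [h4, h1, h2, h3]
  -- `[X : N_X(P)] = [X : N] [N : N_N(P)]`
  have h5 : (normalizer ((P : Subgroup G) : Set G)) ⊓ X ≤ N := by
    rw [hN]
    refine le_inf inf_le_right ?_
    intro x hx
    have hx1 := hx.1
    rw [mem_normalizer_iff]
    intro y
    have h6 := (mem_normalizer_iff.1 hx1) y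
    have h7 : y ∈ K ↔ x * y * x⁻¹ ∈ K := by
      constructor
      · intro h; exact Subgroup.Normal.conj_mem inferInstance y h x
      · intro h
        have h4 := Subgroup.Normal.conj_mem (H := K) inferInstance _ h x⁻¹
        have e2 : x⁻¹ * (x * y * x⁻¹) * x⁻¹⁻¹ = y := by group
        rwa [e2] at h4
    constructor
    · rintro ⟨a, b⟩; exact ⟨h6.1 a, h7.1 b⟩
    · rintro ⟨a, b⟩; exact ⟨h6.2 a, h7.2 b⟩
  have h6 : (normalizer ((P : Subgroup G) : Set G)).relIndex X =
      (normalizer ((P : Subgroup G) : Set G) ⊓ X).relIndex N * N.relIndex X := by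
    rw [relIndex_mul_relIndex _ _ _ h5 hNX, inf_relIndex_right]
  have h7 : (normalizer ((P : Subgroup G) : Set G) ⊓ X).relIndex N =
      (normalizer ((P : Subgroup G) : Set G)).relIndex N := by
    rw [← inf_relIndex_right, ← inf_relIndex_right (normalizer ((P : Subgroup G) : Set G)) N, inf_assoc, inf_eq_right.2 hNX]
  have h8 : N.relIndex X = (normalizer (D : Set G)).relIndex K := by
    have h9 : N.relIndex X = N.relIndex K := by
      apply relIndex_eq_of_sup_normalizes _ hNX hKX (sup_le_sup_right hPN K)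
      rw [normalizer_eq_top_iff.2 inferInstance]; exact le_top
    rw [h9, ← inf_relIndex_right, ← inf_relIndex_right (normalizer (D : Set G)) K]
    congr 1
    rw [hN, inf_comm X, inf_assoc, inf_eq_right.2 hKX]
  rw [h6, h7, h8, mul_comm]

end Cfsg.Agent.S4341
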