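import Cfsg.Statements.S4303
import Mathlib
import Cfsg.Agent.Lib.SylCount
import Cfsg.Agent.Lib.Coprime
import Cfsg.Agent.S4341

set_option autoImplicit false
universe u
open Cfsg

namespace Cfsg.Agent.S4303

open Subgroup Cfsg.Agent.Lib.SylCount Cfsg.Agent.Lib.Basic Cfsg.Agent.Lib.Coprime

/-- coprime case: the number of fixed conjugates is a product of prime powers congruent to one -/
theorem coprime_case {G : Type u} [Group G] [Finite G] {p : ℕ} [hp : Fact p.Prime] (K : Subgroup G)
    [hK : K.Normal] (P : Sylow p G) (hPK : (P : Subgroup G) ⊓ K = ⊥) (htop : (P : Subgroup G) ⊔ K = ⊤)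
    (q : ℕ) (hq : q.Prime) (hqd : q ∣ Nat.card (Sylow p G)) :
    q ^ (Nat.card (Sylow p G)).factorization q ≡ 1 [MOD p] := by
  classical
  haveI : Fact q.Prime := ⟨hq⟩
  set N := normalizer ((P : Subgroup G) : Set G) with hN
  set C := K ⊓ N with hC
  -- the order of `K` is prime to `p`
  have hKi : ∃ k, K.index = p ^ k := by
    obtain ⟨k, hk⟩ := P.2.exists_card_eq
    refine ⟨k, ?_⟩
    rw [← hk]
    have h1 : IsComplement' K (P : Subgroup G) := by
      apply isComplement'_of_disjoint_and_mul_eq_univ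
      · rw [disjoint_iff, inf_comm]; exact hPK
      · rw [← Subgroup.normal_mul, sup_comm, htop]; rfl
    exact h1.symm.index_eq_card
  have hcopK : (Nat.card K).Coprime p := by
    have h1 : K.relIndex P = 1 ∨ True := Or.inr trivial
    have h2 : IsComplement' K (P : Subgroup G) := by
      apply isComplement'_of_disjoint_and_mul_eq_univ
      · rw [disjoint_iff, inf_comm]; exact hPK
      · rw [← Subgroup.normal_mul, sup_comm, htop]; rfl
    have h3 : (P : Subgroup G).index = Nat.card K := h2.index_eq_card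
    rw [← h3]
    exact (Nat.Prime.coprime_iff_not_dvd hp.out).2 P.not_dvd_index |>.symm
  have hcop : (Nat.card (P : Subgroup G)).Coprime (Nat.card K) := by
    obtain ⟨k, hk⟩ := P.2.exists_card_eq
    rw [hk]
    exact (Nat.Coprime.pow_right k hcopK).symm
  have hPnK : (P : Subgroup G) ≤ normalizer (K : Set G) := by
    rw [normalizer_eq_top_iff.2 hK]; exact le_top
  haveI hPnil : Group.IsNilpotent P := P.2.isNilpotent
  have hsolv : Group.IsSolvable (P : Subgroup G) := inferInstance
  -- `C` commutes with `P`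
  have hcomm : ∀ c ∈ C, ∀ x ∈ (P : Subgroup G), c * x = x * c := by
    rintro c ⟨hcK, hcN⟩ x hx
    have h1 : c * x * c⁻¹ * x⁻¹ ∈ (P : Subgroup G) ⊓ K := by
      refine ⟨(P : Subgroup G).mul_mem ((mem_normalizer_iff.1 hcN x).1 hx) ((P : Subgroup G).inv_mem hx), ?_⟩
      have h2 : x * c⁻¹ * x⁻¹ ∈ K := hK.conj_mem _ (inv_mem hcK) x
      have h3 : c * x * c⁻¹ * x⁻¹ = c * (x * c⁻¹ * x⁻¹) := by group
      rw [h3]; exact mul_mem hcK h2
    rw [hPK, mem_bot] at h1
    rw [mul_inv_eq_one, mul_inv_eq_iff_eq_mul] at h1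
    exact h1
  obtain ⟨U⟩ := (inferInstance : Nonempty (Sylow q C))
  set U' := (U : Subgroup C).map C.subtype with hU'
  have hU'C : U' ≤ C := map_subtype_le _
  have hPU : (P : Subgroup G) ≤ normalizer (U' : Set G) := by
    intro x hx
    rw [mem_normalizer_iff]
    intro y
    constructor
    · intro hy
      have := hcomm y (hU'C hy) x hx
      rw [← this, mul_inv_cancel_right]; exact hy
    · intro hy
      have h1 := hcomm _ (hU'C hy) x hx
      have h2 : x * y * x⁻¹ = y := by
        have h3 : x * y * x⁻¹ * x = x * (x * y * x⁻¹) := h1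
        have h4 : x * y = x * (x * y * x⁻¹) := by rw [← h3]; group
        exact (mul_left_cancel h4).symm
      rwa [h2] at hy
  obtain ⟨Q, hUQ, hQP⟩ := invariant_le_invariant_sylow hPnK hcop (Or.inl hsolv) q U'
    (hU'C.trans inf_le_left) (U.2.map _) hPU
  set Q' := (Q : Subgroup K).map K.subtype with hQ'
  have hQ'K : Q' ≤ K := map_subtype_le _
  -- `Q' ∩ N = U'`
  have hQU : Q' ⊓ N = U' := by
    symm
    apply eq_of_le_of_card_ge (le_inf hUQ (hU'C.trans inf_le_right))
    have h1 : Q' ⊓ N ≤ C := le_inf (inf_le_left.trans hQ'K) inf_le_right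
    have h2 : IsPGroup q ((Q' ⊓ N).subgroupOf C) := ((Q.2.map K.subtype).to_le inf_le_left).comap_subtype
    obtain ⟨R, hR⟩ := h2.exists_le_sylow
    have h3 : Nat.card R = Nat.card U := Nat.card_congr (R.equiv U).toEquiv
    have h4 : Nat.card ((Q' ⊓ N).subgroupOf C) = Nat.card (Q' ⊓ N : Subgroup G) :=
      Nat.card_congr (subgroupOfEquivOfLe h1).toEquiv
    have h5 : Nat.card U' = Nat.card U :=
      Nat.card_congr ((U : Subgroup C).equivMapOfInjective _ C.subtype_injective).toEquiv.symm
    rw [← h4, h5, ← h3]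
    exact Nat.card_le_card_of_injective _ (inclusion_injective hR)
  -- the number of Sylow subgroups
  have hnum : Nat.card (Sylow p G) * Nat.card C = Nat.card K := by
    have h1 : Nat.card (Sylow p G) = N.index := P.card_eq_index_normalizer
    have h2 : N.index = N.relIndex K := by
      rw [← relIndex_top_right]
      apply relIndex_eq_of_sup_normalizes _ le_top le_top
      · rw [← htop]; exact sup_le_sup_right le_normalizer K
      · rw [normalizer_eq_top_iff.2 hK]
    rw [h1, h2, ← inf_relIndex_right, hC, inf_comm K N, mul_comm]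
    exact Cfsg.Agent.H3.Basic.card_mul_relIndex inf_le_right
  -- factorization
  have hCq : Nat.card U = q ^ (Nat.card C).factorization q := U.card_eq_multiplicity
  have hKq : Nat.card Q = q ^ (Nat.card K).factorization q := Q.card_eq_multiplicity
  have hfac : (Nat.card K).factorization q = (Nat.card (Sylow p G)).factorization q +
      (Nat.card C).factorization q := by
    rw [← hnum, Nat.factorization_mul Nat.card_pos.ne' Nat.card_pos.ne', Finsupp.add_apply]
  have hQ'card : Nat.card Q' = Nat.card Q :=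
    Nat.card_congr ((Q : Subgroup K).equivMapOfInjective _ K.subtype_injective).toEquiv.symm
  have hU'card : Nat.card U' = Nat.card U :=
      Nat.card_congr ((U : Subgroup C).equivMapOfInjective _ C.subtype_injective).toEquiv.symm
  have hrel : N.relIndex Q' = q ^ (Nat.card (Sylow p G)).factorization q := by
    have h1 : Nat.card (N ⊓ Q' : Subgroup G) * (N ⊓ Q').relIndex Q' = Nat.card Q' :=
      Cfsg.Agent.H3.Basic.card_mul_relIndex inf_le_right
    rw [inf_relIndex_right, inf_comm, hQU, hU'card, hQ'card, hCq, hKq, hfac, pow_add, mul_comm] at h1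
    exact Nat.eq_of_mul_eq_mul_right (pow_pos hq.pos _) h1
  rw [← hrel]
  -- count Sylow subgroups of `P Q'`
  have hle : (P : Subgroup G) ≤ (P : Subgroup G) ⊔ Q' := le_sup_left
  have h3 : Nat.card (Sylow p ((P : Subgroup G) ⊔ Q' : Subgroup G)) = N.relIndex Q' := by
    rw [card_sylow_of_le P hle, ← inf_relIndex_right]
    have h3 : (N ⊓ ((P : Subgroup G) ⊔ Q')).relIndex ((P : Subgroup G) ⊔ Q') =
        (N ⊓ ((P : Subgroup G) ⊔ Q')).relIndex Q' := by
      apply relIndex_eq_of_sup_normalizes _ inf_le_right le_sup_right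
      · exact sup_le ((le_inf le_normalizer hle).trans le_sup_left) le_sup_right
      · exact sup_le hQP le_normalizer
    have h4 : ((P : Subgroup G) ⊔ Q') ⊓ Q' = Q' := inf_eq_right.2 le_sup_right
    rw [h3, ← inf_relIndex_right, ← inf_relIndex_right N Q', inf_assoc, h4]
  rw [← h3]
  exact card_sylow_modEq_one p _

def Good (p : ℕ) (n : ℕ) : Prop := ∃ l : List ℕ, l.prod = n ∧
      ∀ m ∈ l, (IsPrimePow m ∧ m % p = 1) ∨
        ∃ (S : Type u) (_ : Group S) (_ : Finite S), IsSimpleGroup S ∧ m = Nat.card (Sylow p S)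

theorem Good.mul {p m n : ℕ} (h1 : Good.{u} p m) (h2 : Good.{u} p n) : Good.{u} p (m * n) := by
  obtain ⟨l1, h1, h1'⟩ := h1
  obtain ⟨l2, h2, h2'⟩ := h2
  refine ⟨l1 ++ l2, by rw [List.prod_append, h1, h2], fun m hm => ?_⟩
  rcases List.mem_append.1 hm with h | h
  · exact h1' m h
  · exact h2' m h

theorem good_of_primes {p n : ℕ} [hp : Fact p.Prime] (hn : n ≠ 0)
    (h : ∀ q : ℕ, q.Prime → q ∣ n → q ^ n.factorization q ≡ 1 [MOD p]) : Good.{u} p n := by
  refine ⟨n.primeFactors.toList.map (fun q => q ^ n.factorization q), ?_, ?_⟩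
  · rw [Finset.prod_map_toList]
    exact Nat.prod_factorization_pow_eq_self hn
  · intro m hm
    obtain ⟨q, hq, rfl⟩ := List.mem_map.1 hm
    rw [Finset.mem_toList, Nat.mem_primeFactors] at hq
    left
    refine ⟨⟨q, n.factorization q, hq.1.prime, ?_, rfl⟩, ?_⟩
    · exact hq.1.factorization_pos_of_dvd hn hq.2.1
    · have h1 := h q hq.1 hq.2.1
      rw [Nat.ModEq, Nat.mod_eq_of_lt hp.out.one_lt] at h1
      exact h1

theorem core (p : ℕ) [hp : Fact p.Prime] (n : ℕ) : ∀ (G : Type u) [Group G] [Finite G],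
    Nat.card G = n → Good.{u} p (Nat.card (Sylow p G)) := by
  induction n using Nat.strong_induction_on with
  | _ n ih =>
  intro G _ _ hn
  by_cases hsub : Subsingleton G
  · have h1 : Nat.card (Sylow p G) = 1 := by
      obtain ⟨P⟩ := (inferInstance : Nonempty (Sylow p G))
      rw [P.card_eq_index_normalizer, index_eq_one]
      exact Subsingleton.elim _ _
    rw [h1]; exact ⟨[], rfl, by simp⟩
  rw [not_subsingleton_iff_nontrivial] at hsub
  by_cases hsimple : IsSimpleGroup G
  · exact ⟨[Nat.card (Sylow p G)], by simp, fun m hm => by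
      rw [List.mem_singleton] at hm
      exact Or.inr ⟨G, inferInstance, inferInstance, hsimple, hm⟩⟩
  obtain ⟨K, hKn, hK0, hK1⟩ : ∃ K : Subgroup G, K.Normal ∧ K ≠ ⊥ ∧ K ≠ ⊤ := by
    by_contra hc
    push Not at hc
    apply hsimple
    exact ⟨fun K hK => by
      by_cases h0 : K = ⊥
      · exact Or.inl h0
      · exact Or.inr (hc K hK h0)⟩
  haveI := hKn
  obtain ⟨P⟩ := (inferInstance : Nonempty (Sylow p G))
  have hq := ih _ (by rw [← hn]; exact card_quotient_lt hK0) (G ⧸ K) rfl
  have hk := ih _ (by rw [← hn]; exact card_lt_of_ne_top hK1) K rfl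
  by_cases hcase : (P : Subgroup G) ⊔ K = ⊤ ∧ (P : Subgroup G) ⊓ K = ⊥
  · exact good_of_primes Nat.card_pos.ne' (fun q hq hqd => coprime_case K P hcase.2 hcase.1 q hq hqd)
  · set N := ((P : Subgroup G) ⊔ K) ⊓ Subgroup.normalizer (((P : Subgroup G) ⊓ K : Subgroup G) : Set G) with hN
    have hDN : (P : Subgroup G) ⊓ K ≤ N := le_inf (inf_le_left.trans le_sup_left) le_normalizer
    haveI hn' : (((P : Subgroup G) ⊓ K).subgroupOf N).Normal :=
      (normal_subgroupOf_iff_le_normalizer hDN).2 inf_le_right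
    have h1 := Cfsg.Agent.S4341.result p K P N hN
    rw [h1]
    refine (hq.mul hk).mul (ih _ ?_ _ rfl)
    rw [← hn]
    by_cases hD : (P : Subgroup G) ⊓ K = ⊥
    · have hPK : (P : Subgroup G) ⊔ K ≠ ⊤ := fun h => hcase ⟨h, hD⟩
      have h2 : N ≠ ⊤ := fun h => hPK (top_le_iff.1 (h ▸ inf_le_left))
      refine lt_of_le_of_lt ?_ (card_lt_of_ne_top h2)
      rw [← index_eq_card]
      exact Nat.le_of_dvd Nat.card_pos (index_dvd_card _)
    · have h2 : ((P : Subgroup G) ⊓ K).subgroupOf N ≠ ⊥ := by
        intro h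
        rw [subgroupOf_eq_bot, disjoint_iff, inf_eq_left.2 hDN] at h
        exact hD h
      refine lt_of_lt_of_le (card_quotient_lt h2) ?_
      exact Nat.le_of_dvd Nat.card_pos (card_subgroup_dvd_card _)

/-- For a finite group `G` and a prime `p`, the number of Sylow `p`-subgroups of `G` is a product of natural numbers each of which is either a prime power congruent to 1 modulo `p` or the number of Sylow `p`-subgroups of some finite simple group. -/
theorem result {G : Type u} [Group G] [Finite G]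
    (p : ℕ) [Fact p.Prime] :
    ∃ l : List ℕ, l.prod = Nat.card (Sylow p G) ∧
      ∀ m ∈ l, (IsPrimePow m ∧ m % p = 1) ∨
        ∃ (S : Type u) (_ : Group S) (_ : Finite S), IsSimpleGroup S ∧ m = Nat.card (Sylow p S) := by
  exact core p (Nat.card G) G rfl

end Cfsg.Agent.S4303
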