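import Cfsg.Statements.S4332
import Mathlib
import Cfsg.Agent.Lib.H3S8

set_option autoImplicit false
open Pointwise
open Cfsg

namespace Cfsg.Agent.S4332

/-- In the symmetric group of degree 8, let A be the subgroup generated by a 3-cycle. Then every conjugacy class contains an element g for which A is subnormal in the subgroup generated by A and its conjugate by g, although O_3 of the symmetric group of degree 8 is trivial. -/
theorem result
    (σ : Equiv.Perm (Fin 8)) (hσ : σ.IsThreeCycle) :
    (∀ c : Equiv.Perm (Fin 8), ∃ g : Equiv.Perm (Fin 8), IsConj c g ∧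
      ((Subgroup.zpowers σ).subgroupOf (Subgroup.zpowers σ ⊔ MulAut.conj g • Subgroup.zpowers σ)).IsSubnormal) ∧
    Cfsg.pCore 3 (Equiv.Perm (Fin 8)) = ⊥ := by
  refine ⟨fun c => ?_, Cfsg.Agent.Lib.H3S8.core⟩
  obtain ⟨g, h1, h2⟩ := Cfsg.Agent.Lib.H3S8.main σ hσ c
  exact ⟨g, h1, Cfsg.Agent.Lib.H3S8.subn σ g h2⟩

end Cfsg.Agent.S4332
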