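import Cfsg.Statements.S4337
import Mathlib
import Cfsg.Agent.H3.SwapGraph
import Cfsg.Agent.Lib.CharBurnside

set_option autoImplicit false
open Cfsg

namespace Cfsg.Agent.S4337

open Cfsg.Agent.H3.SwapGraph Equiv

/-- In a finite symmetric group, any three transpositions generate a solvable subgroup. -/
theorem result (n : ℕ) (a b c : Equiv.Perm (Fin n))
    (ha : a.IsSwap) (hb : b.IsSwap) (hc : c.IsSwap) :
    Group.IsSolvable (Subgroup.closure ({a, b, c} : Set (Equiv.Perm (Fin n)))) := by
  let t : Fin 3 → Perm (Fin n) := ![a, b, c]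
  have ht : ∀ i, (t i).IsSwap := by
    intro i
    fin_cases i
    · exact ha
    · exact hb
    · exact hc
  have hr : Set.range t = {a, b, c} := by
    ext x
    simp only [t, Set.mem_range, Set.mem_insert_iff, Set.mem_singleton_iff, Fin.exists_fin_succ]
    simp [eq_comm]
  rw [← hr]
  have hprime : ∀ q : ℕ, q.Prime → q ∣ Nat.card (Subgroup.closure (Set.range t)) → q = 2 ∨ q = 3 := by
    intro q hq hd
    have h1 := prime_le t ht hq hd
    have h2 := hq.two_le
    interval_cases q
    · left; rfl
    · right; rfl
    · exact absurd hq (by norm_num)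
  obtain ⟨i, j, hij⟩ : ∃ i j, Nat.card (Subgroup.closure (Set.range t)) = 2 ^ i * 3 ^ j := by
    have key : ∀ m : ℕ, m ≠ 0 → (∀ q : ℕ, q.Prime → q ∣ m → q = 2 ∨ q = 3) →
        ∃ i j, m = 2 ^ i * 3 ^ j := by
      intro m hm0
      induction m using Nat.strong_induction_on with
      | _ m ih =>
        intro hm
        by_cases h1 : m = 1
        · exact ⟨0, 0, by rw [h1]; norm_num⟩
        · have hp := Nat.minFac_prime h1
          obtain ⟨m', hm'⟩ := Nat.minFac_dvd m
          have hm'0 : m' ≠ 0 := by
            rintro rfl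
            rw [mul_zero] at hm'
            exact hm0 hm'
          have hlt : m' < m := by
            calc m' < m.minFac * m' := lt_mul_of_one_lt_left (Nat.pos_of_ne_zero hm'0) hp.one_lt
              _ = m := hm'.symm
          obtain ⟨i, j, hij⟩ := ih m' hlt hm'0 (fun q hq hd => hm q hq (hm' ▸ Dvd.dvd.mul_left hd _))
          rcases hm _ hp (Nat.minFac_dvd m) with h2 | h2
          · refine ⟨i + 1, j, ?_⟩
            rw [hm', h2, hij]; ring
          · refine ⟨i, j + 1, ?_⟩
            rw [hm', h2, hij]; ring
    exact key _ Nat.card_pos.ne' hprime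
  exact Cfsg.Agent.Lib.CharBurnside.burnside_paqb _ _ 2 3 i j Nat.prime_two Nat.prime_three hij rfl

end Cfsg.Agent.S4337
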