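import Cfsg.Statements.S4342
import Mathlib
import Cfsg.Agent.H3.Sylow

set_option autoImplicit false
open Cfsg

namespace Cfsg.Agent.S4342

open Subgroup Cfsg.Agent.H3.Sylow

/-- Let H be a normal subgroup of a finite group G and p a prime not dividing the index of H. Then the number of Sylow p-subgroups of H/Z(H) equals the number of Sylow p-subgroups of G. -/
theorem result {G : Type*} [Group G] [Finite G]
    (p : ℕ) [Fact p.Prime] (H : Subgroup G) [H.Normal] (hp : ¬ p ∣ H.index) :
    Nat.card (Sylow p (H ⧸ Subgroup.center H)) = Nat.card (Sylow p G) := by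
  -- step 1: Sylow subgroups of `H` and of `G`
  have hle : ∀ Q : Sylow p G, (Q : Subgroup G) ≤ H := by
    intro Q y hy
    by_contra hyH
    obtain ⟨k, hk⟩ := exists_orderOf_of_mem Q hy
    have h1 : orderOf (QuotientGroup.mk y : G ⧸ H) ∣ p ^ k := by
      apply orderOf_dvd_of_pow_eq_one
      rw [← QuotientGroup.mk_pow, ← hk, pow_orderOf_eq_one]; rfl
    have h2 : orderOf (QuotientGroup.mk y : G ⧸ H) ∣ H.index := orderOf_dvd_natCard _
    obtain ⟨j, _, hj⟩ := (Nat.dvd_prime_pow (Fact.out : p.Prime)).1 h1
    rcases Nat.eq_zero_or_pos j with rfl | hjp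
    · rw [pow_zero] at hj
      rw [orderOf_eq_one_iff, QuotientGroup.eq_one_iff] at hj
      exact hyH hj
    · apply hp
      refine (dvd_pow_self p hjp.ne').trans ?_
      rw [← hj]; exact h2
  have hGH : Nat.card (Sylow p G) = Nat.card (Sylow p H) := by
    refine Nat.card_congr (Equiv.ofBijective (fun Q : Sylow p G => Q.subtype (hle Q)) ⟨?_, ?_⟩)
    · intro Q R h
      exact Sylow.subtype_injective h
    · intro R
      obtain ⟨Q, hQ⟩ := IsPGroup.exists_le_sylow (R.2.map H.subtype)
      refine ⟨Q, ?_⟩
      apply Sylow.ext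
      refine R.is_maximal' (Q.subtype (hle Q)).2 ?_
      intro z hz
      exact hQ ⟨z, hz, rfl⟩
  rw [hGH]
  -- step 2: central quotient
  obtain ⟨P⟩ := (inferInstance : Nonempty (Sylow p H))
  let f := QuotientGroup.mk' (center H)
  have hf : Function.Surjective f := QuotientGroup.mk'_surjective _
  let P' : Sylow p (H ⧸ center H) := P.mapSurjective hf
  rw [P'.card_eq_index_normalizer, P.card_eq_index_normalizer]
  change (normalizer ((P' : Subgroup (H ⧸ center H)) : Set (H ⧸ center H))).index =
    (normalizer ((P : Subgroup H) : Set H)).index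
  have hP' : (P' : Subgroup (H ⧸ center H)) = (P : Subgroup H).map f := rfl
  rw [← Subgroup.index_comap_of_surjective _ hf]
  congr 1
  apply le_antisymm
  · intro h hh
    have hh' : f h ∈ normalizer ((P' : Subgroup (H ⧸ center H)) : Set (H ⧸ center H)) := hh
    rw [mem_normalizer_iff] at hh' ⊢
    have key : ∀ g : H, (∀ w, w ∈ (P' : Subgroup (H ⧸ center H)) → f g * w * (f g)⁻¹ ∈ (P' : Subgroup (H ⧸ center H))) →
        ∀ y ∈ (P : Subgroup H), g * y * g⁻¹ ∈ (P : Subgroup H) := by
      intro g hg y hy
      have h1 : f (g * y * g⁻¹) ∈ (P' : Subgroup (H ⧸ center H)) := by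
        rw [map_mul, map_mul, map_inv]
        exact hg _ ⟨y, hy, rfl⟩
      obtain ⟨z, hz, hzy⟩ := h1
      have h2 : z⁻¹ * (g * y * g⁻¹) ∈ center H := QuotientGroup.eq.1 hzy
      set c := z⁻¹ * (g * y * g⁻¹) with hc
      have h3 : g * y * g⁻¹ = z * c := by rw [hc]; group
      -- `g y g⁻¹` is a `p`-element; `z` too; so `c` is
      obtain ⟨a, ha⟩ := exists_orderOf_of_mem P hy
      obtain ⟨b, hb⟩ := exists_orderOf_of_mem P hz
      have h4 : (g * y * g⁻¹) ^ p ^ (a + b) = 1 := by
        have e : (g * y * g⁻¹) ^ p ^ (a + b) = g * y ^ p ^ (a + b) * g⁻¹ := conj_pow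
        rw [e]
        have : y ^ p ^ (a + b) = 1 := by
          rw [pow_add, pow_mul, ← ha, pow_orderOf_eq_one, one_pow]
        rw [this]; simp
      have h5 : z ^ p ^ (a + b) = 1 := by
        rw [add_comm, pow_add, pow_mul, ← hb, pow_orderOf_eq_one, one_pow]
      have hcomm : Commute z c := (Subgroup.mem_center_iff.1 h2 z)
      have h6 : c ^ p ^ (a + b) = 1 := by
        have : (z * c) ^ p ^ (a + b) = 1 := by rw [← h3]; exact h4
        rwa [hcomm.mul_pow, h5, one_mul] at this
      -- `c ∈ P` since central `p`-elements lie in every Sylow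
      have hcP : c ∈ (P : Subgroup H) := by
        have h7 : IsPGroup p (zpowers c) := by
          apply IsPGroup.of_card (n := (Nat.card (zpowers c)).factorization p)
          have hd : Nat.card (zpowers c) ∣ p ^ (a + b) := by
            rw [Nat.card_zpowers]; exact orderOf_dvd_of_pow_eq_one h6
          obtain ⟨j, _, hj⟩ := (Nat.dvd_prime_pow (Fact.out : p.Prime)).1 hd
          rw [hj, (Fact.out : p.Prime).factorization_pow, Finsupp.single_eq_same]
        have hcn : (zpowers c).Normal := by
          constructor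
          rintro _ ⟨n, rfl⟩ w
          have : w * c ^ n * w⁻¹ = c ^ n := by
            have h8 : c ^ n ∈ center H := zpow_mem h2 n
            rw [Subgroup.mem_center_iff.1 h8 w]; group
          change w * c ^ n * w⁻¹ ∈ _
          rw [this]; exact ⟨n, rfl⟩
        have h9 : IsPGroup p ((P : Subgroup H) ⊔ zpowers c : Subgroup H) := IsPGroup.to_sup_of_normal_right P.2 h7
        have h10 := P.is_maximal' h9 le_sup_left
        rw [← SetLike.mem_coe]
        have : c ∈ ((P : Subgroup H) ⊔ zpowers c : Subgroup H) := mem_sup_right (mem_zpowers c)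
        rw [h10] at this
        exact this
      rw [h3]
      exact mul_mem hz hcP
    intro y
    constructor
    · exact key h (fun w hw => (hh' w).1 hw) y
    · intro hy
      have := key h⁻¹ (fun w hw => by
        rw [hh' (f h⁻¹ * w * (f h⁻¹)⁻¹)]
        have e : f h * (f h⁻¹ * w * (f h⁻¹)⁻¹) * (f h)⁻¹ = w := by rw [map_inv]; group
        rw [e]; exact hw) _ hy
      have e : h⁻¹ * (h * y * h⁻¹) * h⁻¹⁻¹ = y := by group
      rwa [e] at this
  · intro h hh
    change f h ∈ normalizer ((P' : Subgroup (H ⧸ center H)) : Set (H ⧸ center H))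
    rw [hP']
    have h1 := Subgroup.le_normalizer_map f ⟨h, hh, rfl⟩
    exact h1

end Cfsg.Agent.S4342
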