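import Cfsg.Statements.S4343
import Mathlib
import Cfsg.Agent.Lib.SylCount
import Cfsg.Agent.H3.SylDouble
import Cfsg.Agent.Lib.Nilp

set_option autoImplicit false
open Cfsg

namespace Cfsg.Agent.S4343

open Subgroup MulAction Cfsg.Agent.Lib.SylCount Cfsg.Agent.H3.SylDouble
open scoped commutatorElement

/-- Brodkey -/
theorem brodkey {G : Type*} [Group G] [Finite G] {p : ℕ} [hp : Fact p.Prime]
    (hab : ∀ P : Sylow p G, ∀ a ∈ (P : Subgroup G), ∀ b ∈ (P : Subgroup G), a * b = b * a) :
    ∃ P Q : Sylow p G, ∀ R : Sylow p G, (P : Subgroup G) ⊓ Q ≤ R := by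
  classical
  obtain ⟨⟨P, Q⟩, hmin⟩ := Finite.exists_min (fun x : Sylow p G × Sylow p G =>
    Nat.card ((x.1 : Subgroup G) ⊓ x.2 : Subgroup G))
  refine ⟨P, Q, fun R => ?_⟩
  set D := (P : Subgroup G) ⊓ Q with hD
  set C := centralizer (D : Set G) with hC
  have hPC : (P : Subgroup G) ≤ C := fun x hx => by
    rw [hC, mem_centralizer_iff]
    intro d hd
    exact hab P d hd.1 x hx
  have hQC : (Q : Subgroup G) ≤ C := fun x hx => by
    rw [hC, mem_centralizer_iff]
    intro d hd
    exact hab Q d hd.2 x hx
  -- Sylow of `C`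
  let PC : Sylow p C := P.subtype hPC
  obtain ⟨S, hS⟩ := IsPGroup.exists_le_sylow (P := (R : Subgroup G).subgroupOf C) (p := p)
    R.2.comap_subtype
  obtain ⟨c, hc⟩ := MulAction.exists_smul_eq C S PC
  -- `c (R ∩ C) c⁻¹ ≤ P`
  have h1 : ∀ x ∈ (R : Subgroup G), x ∈ C → (c : G) * x * (c : G)⁻¹ ∈ (P : Subgroup G) := by
    intro x hx hxC
    have h2 : (⟨x, hxC⟩ : C) ∈ (S : Subgroup C) := hS hx
    have h3 : c * ⟨x, hxC⟩ * c⁻¹ ∈ ((c • S : Sylow p C) : Subgroup C) :=
      Subgroup.smul_mem_pointwise_smul _ (MulAut.conj c) _ h2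
    rw [hc] at h3
    exact h3
  have h2 : (((c : G) • R : Sylow p G) : Subgroup G) ⊓ Q ≤ D := by
    rintro x ⟨hx1, hx2⟩
    refine ⟨?_, hx2⟩
    have hx1 := mem_smul_iff.1 (show x ∈ (((c : G) • R : Sylow p G) : Subgroup G) from hx1)
    have hxC : x ∈ C := hQC hx2
    have h3 := h1 _ hx1 (mul_mem (mul_mem (inv_mem c.2) hxC) c.2)
    have h4 : (c : G) * ((c : G)⁻¹ * x * c) * (c : G)⁻¹ = x := by group
    rwa [h4] at h3
  have h3 := hmin ((c : G) • R, Q)
  have h4 : (((c : G) • R : Sylow p G) : Subgroup G) ⊓ Q = D := eq_of_le_of_card_ge h2 h3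
  intro d hd
  have h5 : d ∈ (((c : G) • R : Sylow p G) : Subgroup G) := by
    rw [← h4] at hd; exact hd.1
  rw [mem_smul_iff] at h5
  have h6 : (c : G)⁻¹ * d * c = d := by
    have h7 : d * (c : G) = c * d := mem_centralizer_iff.1 c.2 d hd
    rw [mul_assoc, h7, inv_mul_cancel_left]
  rwa [h6] at h5

/-- Let S be a finite non-abelian simple group and p a prime dividing its order. If S has fewer than p² Sylow p-subgroups, then its Sylow p-subgroups have order p. -/
theorem result {S : Type*} [Group S] [Finite S]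
    [IsSimpleGroup S] (hS : ¬ IsMulCommutative S) (p : ℕ) [Fact p.Prime] (hp : p ∣ Nat.card S)
    (hn : Nat.card (Sylow p S) < p ^ 2) (P : Sylow p S) : Nat.card P = p := by
  classical
  -- the number is not one
  have hP1 : (P : Subgroup S) ≠ ⊥ := by
    intro h
    have h1 : p ∣ Nat.card (P : Subgroup S) := P.dvd_card_of_dvd_card hp
    rw [h, card_bot, Nat.dvd_one] at h1
    exact (Fact.out : p.Prime).one_lt.ne' h1
  have hinf : ∀ N : Subgroup S, N.Normal → (∀ R : Sylow p S, N ≤ R) → N = ⊥ := by
    intro N hN hR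
    rcases IsSimpleGroup.eq_bot_or_eq_top_of_normal N hN with h | h
    · exact h
    · exfalso
      -- `S` is a `p`-group, simple, so abelian
      have h1 : (P : Subgroup S) = ⊤ := eq_top_iff.2 (h ▸ hR P)
      have hpS : IsPGroup p S := by
        have := P.2
        rw [h1] at this
        exact this.of_equiv topEquiv
      haveI := hpS.isNilpotent
      haveI : Group.IsSolvable S := inferInstance
      apply hS
      have h2 := IsSimpleGroup.comm_iff_isSolvable.2 this
      exact ⟨⟨h2⟩⟩
  have hcomm : ∀ R : Sylow p S, (R : Subgroup S) ≠ ⊥ := by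
    intro R hR
    have h1 := card_sylow_eq R P
    have h2 : Nat.card (R : Subgroup S) = 1 := by rw [hR, card_bot]
    apply hP1
    rw [← card_eq_one]
    exact h1.symm.trans h2
  -- kernel trivial
  have hker : ∀ g : S, (∀ Q : Sylow p S, g • Q = Q) → g = 1 := by
    let K := (MulAction.toPermHom S (Sylow p S)).ker
    have hK : K = ⊥ ∨ K = ⊤ := IsSimpleGroup.eq_bot_or_eq_top_of_normal K inferInstance
    have hKbot : K = ⊥ := by
      rcases hK with h | h
      · exact h
      · exfalso
        have hn : normalizer ((P : Subgroup S) : Set S) = ⊤ := by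
          rw [eq_top_iff]
          intro g _
          have h1 : g ∈ K := by rw [h]; trivial
          have h2 : MulAction.toPermHom S (Sylow p S) g = 1 := h1
          have h3 : g • P = P := congrArg (fun σ : Equiv.Perm (Sylow p S) => σ P) h2
          exact Sylow.smul_eq_iff_mem_normalizer.1 h3
        have hPn : (P : Subgroup S).Normal := normalizer_eq_top_iff.1 hn
        apply hP1
        apply hinf _ hPn
        intro R
        obtain ⟨g, rfl⟩ := MulAction.exists_smul_eq S P R
        have h4 : g • P = P := Sylow.smul_eq_iff_mem_normalizer.2 (by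
          change g ∈ normalizer ((P : Subgroup S) : Set S)
          rw [hn]; trivial)
        rw [h4]
    intro g hg
    have h1 : g ∈ K := by
      change MulAction.toPermHom S (Sylow p S) g = 1
      apply Equiv.ext
      exact hg
    rw [hKbot, mem_bot] at h1
    exact h1
  -- intersections have index `p`
  have hidx : ∀ Q R : Sylow p S, R ≠ Q → (R : Subgroup S).relIndex Q = p := by
    intro Q R h
    have h1 := orbit_ncard Q R
    have h2 : (R : Subgroup S).relIndex Q ∣ Nat.card Q := by
      rw [← inf_relIndex_right]; exact relIndex_dvd_card _ _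
    obtain ⟨k, hk⟩ := Q.2.exists_card_eq
    rw [hk] at h2
    obtain ⟨j, -, hj⟩ := (Nat.dvd_prime_pow (Fact.out : p.Prime)).1 h2
    have h3 : (orbit (Q : Subgroup S) R).ncard < p ^ 2 := by
      refine lt_of_le_of_lt ?_ hn
      rw [← Set.ncard_univ]
      exact Set.ncard_le_ncard (Set.subset_univ _) (Set.toFinite _)
    have hj0 : j ≠ 0 := by
      rintro rfl
      rw [pow_zero, relIndex_eq_one] at hj
      exact h (eq_of_le hj)
    have hj1 : j < 2 := by
      rw [h1, hj] at h3
      exact (Nat.pow_lt_pow_iff_right (Fact.out : p.Prime).one_lt).1 h3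
    have : j = 1 := by omega
    rw [hj, this, pow_one]
  -- commutators lie in every Sylow subgroup
  have hder : ∀ Q R : Sylow p S, ⁅(Q : Subgroup S), (Q : Subgroup S)⁆ ≤ R := by
    intro Q R
    by_cases h : R = Q
    · rw [h]; exact Subgroup.commutator_le_self _
    · have h1 := hidx Q R h
      have h2 : ((R : Subgroup S).subgroupOf Q).Normal := by
        apply Subgroup.normal_of_index_eq_minFac_card
        have h3 : ((R : Subgroup S).subgroupOf (Q : Subgroup S)).index = p := h1
        rw [h3]
        obtain ⟨k, hk⟩ := Q.2.exists_card_eq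
        have hk0 : k ≠ 0 := by
          rintro rfl
          rw [pow_zero] at hk
          exact hcomm Q (card_eq_one.1 hk)
        rw [hk, Nat.Prime.pow_minFac (Fact.out : p.Prime) hk0]
      have h3 : _root_.commutator (Q : Subgroup S) ≤ (R : Subgroup S).subgroupOf Q := by
        haveI := h2
        rw [← Normal.quotient_commutative_iff_commutator_le]
        have h4 : Nat.card ((Q : Subgroup S) ⧸ (R : Subgroup S).subgroupOf Q) = p := by
          rw [← index_eq_card]; exact h1
        haveI := isCyclic_of_prime_card h4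
        exact ⟨⟨fun a b => (IsCyclic.commGroup (α := ((Q : Subgroup S) ⧸ (R : Subgroup S).subgroupOf Q))).mul_comm a b⟩⟩
      rw [commutator_le]
      intro a ha b hb
      have h5 : (⁅(⟨a, ha⟩ : (Q : Subgroup S)), ⟨b, hb⟩⁆ : (Q : Subgroup S)) ∈ _root_.commutator (Q : Subgroup S) :=
        commutator_mem_commutator (mem_top _) (mem_top _)
      exact h3 h5
  have hab : ∀ P : Sylow p S, ∀ a ∈ (P : Subgroup S), ∀ b ∈ (P : Subgroup S), a * b = b * a := by
    intro Q a ha b hb
    have h1 : ⁅a, b⁆ = 1 := by
      apply hker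
      intro R
      rw [Sylow.smul_eq_iff_mem_normalizer]
      exact le_normalizer (H := (R : Subgroup S)) (hder Q R (commutator_mem_commutator ha hb))
    exact commutatorElement_eq_one_iff_mul_comm.1 h1
  obtain ⟨A, B, hAB⟩ := brodkey hab
  have hABbot : (A : Subgroup S) ⊓ B = ⊥ := by
    rw [eq_bot_iff]
    intro d hd
    rw [mem_bot]
    apply hker
    intro R
    rw [Sylow.smul_eq_iff_mem_normalizer]
    exact le_normalizer (H := (R : Subgroup S)) (hAB R hd)
  have hne : B ≠ A := by
    rintro rfl
    rw [inf_idem] at hABbot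
    exact hcomm _ hABbot
  have h1 := hidx A B hne
  rw [← inf_relIndex_right, inf_comm, hABbot, relIndex_bot_left] at h1
  have h2 := card_sylow_eq P A
  exact h2.trans h1

end Cfsg.Agent.S4343
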