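import Cfsg.Statements.S4344
import Mathlib
import Cfsg.Agent.H3.Sylow

set_option autoImplicit false
open Cfsg

namespace Cfsg.Agent.S4344

open Cfsg.Agent.H3.Sylow

/-- Let S be a finite non-abelian simple group, M a maximal subgroup of S and C a cyclic normal subgroup of M. If a Sylow p-subgroup P of S (for a prime p dividing the order of S) is contained in C, then the number of Sylow p-subgroups of S equals the index of M. -/
theorem result {S : Type*} [Group S] [Finite S]
    [IsSimpleGroup S] (hS : ¬ IsMulCommutative S) (p : ℕ) [Fact p.Prime] (hp : p ∣ Nat.card S)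
    (M : Subgroup S) (hM : IsCoatom M) (C : Subgroup S) (hCM : C ≤ M) (hCn : (C.subgroupOf M).Normal)
    (hC : IsCyclic C) (P : Sylow p S) (hP : (P : Subgroup S) ≤ C) :
    Nat.card (Sylow p S) = M.index := by
  have hP1 : (P : Subgroup S) ≠ ⊥ := by
    intro hb
    have h1 := P.dvd_card_of_dvd_card hp
    rw [hb, Subgroup.card_bot] at h1
    exact (Fact.out : p.Prime).one_lt.ne' (Nat.dvd_one.1 h1)
  have h1 : M ≤ Subgroup.normalizer ((P : Subgroup S) : Set S) := by
    have key : ∀ m ∈ M, ∀ x ∈ (P : Subgroup S), m * x * m⁻¹ ∈ (P : Subgroup S) := by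
      intro m hm x hx
      have h2 : m * x * m⁻¹ ∈ C := by
        have := hCn.conj_mem ⟨x, hCM (hP hx)⟩ (hP hx) ⟨m, hm⟩
        exact this
      letI := hC.commGroup
      let P' : Sylow p C := P.subtype hP
      obtain ⟨k, hk⟩ := exists_orderOf_of_mem P hx
      obtain ⟨Q, hQ⟩ := exists_sylow_mem (p := p) (x := (⟨m * x * m⁻¹, h2⟩ : C)) ⟨k, by
        rw [← Subgroup.orderOf_coe]
        have := orderOf_injective (MulAut.conj m).toMonoidHom (MulAut.conj m).injective x
        simp only [MulEquiv.toMonoidHom_eq_coe, MonoidHom.coe_coe, MulAut.conj_apply] at this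
        rw [this, hk]⟩
      have h3 : Q = P' := by
        letI := Sylow.unique_of_normal P' inferInstance
        exact Subsingleton.elim _ _
      rw [h3] at hQ
      exact hQ
    intro m hm
    rw [Subgroup.mem_normalizer_iff]
    intro x
    constructor
    · exact key m hm x
    · intro hx
      have := key m⁻¹ (M.inv_mem hm) _ hx
      have e : m⁻¹ * (m * x * m⁻¹) * m⁻¹⁻¹ = x := by group
      rwa [e] at this
  have h2 : Subgroup.normalizer ((P : Subgroup S) : Set S) = M := by
    rcases hM.le_iff.1 h1 with h | h
    · exfalso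
      have hn : (P : Subgroup S).Normal := Subgroup.normalizer_eq_top_iff.1 h
      rcases hn.eq_bot_or_eq_top with h3 | h3
      · exact hP1 h3
      · apply hS
        have hCt : C = ⊤ := top_le_iff.1 (h3 ▸ hP)
        letI := hC.commGroup
        refine ⟨⟨fun a b => ?_⟩⟩
        have ha : a ∈ C := by rw [hCt]; trivial
        have hb : b ∈ C := by rw [hCt]; trivial
        exact congrArg (fun z : C => (z : S)) (mul_comm (⟨a, ha⟩ : C) ⟨b, hb⟩)
    · exact h
  rw [P.card_eq_index_normalizer]
  exact congrArg Subgroup.index h2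

end Cfsg.Agent.S4344
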