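import Cfsg.Statements.S4345
import Mathlib
import Cfsg.Agent.Lib.SylCount
import Cfsg.Agent.Lib.Nilp

set_option autoImplicit false
open Cfsg

namespace Cfsg.Agent.S4345

open Subgroup Cfsg.Agent.Lib.SylCount Cfsg.Agent.Lib.Basic Cfsg.Agent.Lib.Nilp

universe u

theorem core (p ℓ : ℕ) [hp : Fact p.Prime] (hℓ : ℓ.Prime) (n : ℕ) : ∀ (G : Type u) [Group G] [Finite G]
    (_ : Group.IsSolvable G), Nat.card G = n → ℓ ^ (Nat.card (Sylow p G)).factorization ℓ ≡ 1 [MOD p] := by
  induction n using Nat.strong_induction_on with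
  | _ n ih =>
  intro G _ _ hG hn
  by_cases hsub : Subsingleton G
  · have h1 : Nat.card (Sylow p G) = 1 := by
      obtain ⟨P⟩ := (inferInstance : Nonempty (Sylow p G))
      rw [P.card_eq_index_normalizer]
      rw [index_eq_one]
      exact Subsingleton.elim _ _
    rw [h1]; simp; rfl
  rw [not_subsingleton_iff_nontrivial] at hsub
  obtain ⟨K, hKn, hK0, hKmin⟩ := exists_minimal_normal' (G := G)
  haveI := hKn
  obtain ⟨-, q, hq, hKq⟩ := minimal_normal_solvable_elementary (N := K) inferInstance hK0 hKmin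
  haveI : Fact q.Prime := ⟨hq⟩
  have hKp : IsPGroup q K := fun x => ⟨1, by rw [pow_one]; exact Subtype.ext (hKq x x.2)⟩
  obtain ⟨P⟩ := (inferInstance : Nonempty (Sylow p G))
  have h1 := card_sylow_eq_mul K P
  have h2 := ih (Nat.card (G ⧸ K)) (by rw [← hn]; exact card_quotient_lt hK0) (G ⧸ K) inferInstance rfl
  have hle : (P : Subgroup G) ≤ (P : Subgroup G) ⊔ K := le_sup_left
  have h3 : Nat.card (Sylow p ((P : Subgroup G) ⊔ K : Subgroup G)) =
      (normalizer ((P : Subgroup G) : Set G)).relIndex K := by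
    rw [card_sylow_of_le P hle, ← inf_relIndex_right]
    have h3 : (normalizer ((P : Subgroup G) : Set G) ⊓ ((P : Subgroup G) ⊔ K)).relIndex ((P : Subgroup G) ⊔ K) =
        (normalizer ((P : Subgroup G) : Set G) ⊓ ((P : Subgroup G) ⊔ K)).relIndex K := by
      apply relIndex_eq_of_sup_normalizes _ inf_le_right le_sup_right
      · exact sup_le ((le_inf le_normalizer hle).trans le_sup_left) le_sup_right
      · rw [normalizer_eq_top_iff.2 hKn]; exact le_top
    have h4 : ((P : Subgroup G) ⊔ K) ⊓ K = K := inf_eq_right.2 le_sup_right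
    rw [h3, ← inf_relIndex_right, ← inf_relIndex_right (normalizer ((P : Subgroup G) : Set G)) K, inf_assoc, h4]
  obtain ⟨k, hk⟩ := hKp.exists_card_eq
  have h4 : (normalizer ((P : Subgroup G) : Set G)).relIndex K ∣ q ^ k := by
    rw [← hk]; exact relIndex_dvd_card _ _
  obtain ⟨j, -, hj⟩ := (Nat.dvd_prime_pow hq).1 h4
  have h5 : q ^ j ≡ 1 [MOD p] := by
    rw [← hj, ← h3]; exact card_sylow_modEq_one p _
  have hne1 : Nat.card (Sylow p (G ⧸ K)) ≠ 0 := Nat.card_pos.ne'
  rw [h1, h3, hj, Nat.factorization_mul hne1 (pow_pos hq.pos j).ne', Finsupp.add_apply,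
    pow_add, hq.factorization_pow]
  by_cases hℓq : q = ℓ
  · rw [hℓq, Finsupp.single_eq_same]
    rw [hℓq] at h5
    exact h2.mul h5
  · rw [Finsupp.single_eq_of_ne (Ne.symm hℓq), pow_zero, mul_one]
    exact h2

/-- Let G be a finite solvable group and p, ℓ primes. Then the largest power of ℓ dividing the number of Sylow p-subgroups of G is congruent to 1 modulo p. -/
theorem result {G : Type*} [Group G] [Finite G]
    (hG : Group.IsSolvable G) (p ℓ : ℕ) [Fact p.Prime] (hℓ : ℓ.Prime) :
    ℓ ^ (Nat.card (Sylow p G)).factorization ℓ ≡ 1 [MOD p] := by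
  exact core p ℓ hℓ (Nat.card G) G hG rfl

end Cfsg.Agent.S4345
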