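import Cfsg.Statements.S4354
import Mathlib
import Cfsg.Agent.Lib.ClassSizes
import Cfsg.Agent.Lib.PComp
import Cfsg.Agent.H3.Sylow

set_option autoImplicit false
open Cfsg

namespace Cfsg.Agent.S4354

open Subgroup Cfsg.Agent.Lib.ClassSizes

/-- a conjugate of `x` centralizes the given Sylow subgroup. -/
theorem exists_conj_central {G : Type*} [Group G] [Finite G] {p : ℕ} [Fact p.Prime] (P : Sylow p G) {x : G}
    (hx : ¬ p ∣ (centralizer ({x} : Set G)).index) :
    ∃ g : G, ∀ y ∈ (P : Subgroup G), (g⁻¹ * x * g) * y = y * (g⁻¹ * x * g) := by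
  obtain ⟨Q⟩ : Nonempty (Sylow p (centralizer ({x} : Set G))) := inferInstance
  have hQ : ¬ p ∣ ((Q : Subgroup (centralizer ({x} : Set G))).map (centralizer ({x} : Set G)).subtype).index := by
    rw [index_map_subtype]
    intro h
    rcases (Nat.Prime.dvd_mul (Fact.out)).mp h with h | h
    · exact Q.not_dvd_index h
    · exact hx h
  have hQp : IsPGroup p ((Q : Subgroup (centralizer ({x} : Set G))).map (centralizer ({x} : Set G)).subtype) :=
    Q.isPGroup'.map _
  let R : Sylow p G := hQp.toSylow hQ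
  obtain ⟨g, hg⟩ := MulAction.exists_smul_eq G P R
  refine ⟨g, fun y hy => ?_⟩
  have h1 : g * y * g⁻¹ ∈ (R : Subgroup G) := by
    rw [← hg]
    exact ⟨y, hy, rfl⟩
  obtain ⟨z, hz, hz2⟩ := h1
  have h2 : x * (g * y * g⁻¹) = (g * y * g⁻¹) * x := by
    have h3 := mem_centralizer_singleton.1 z.2
    have h4 : (z : G) = g * y * g⁻¹ := hz2
    rw [h4] at h3
    exact h3.symm
  calc g⁻¹ * x * g * y = g⁻¹ * (x * (g * y * g⁻¹)) * g := by group
    _ = g⁻¹ * ((g * y * g⁻¹) * x) * g := by rw [h2]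
    _ = y * (g⁻¹ * x * g) := by group

theorem normalizer_lift {G : Type*} [Group G] [Finite G] {p : ℕ} [Fact p.Prime] (P : Sylow p G) (N : Subgroup G) [N.Normal]
    {n : G} (hn : (QuotientGroup.mk' N n) ∈ normalizer (((P : Subgroup G).map (QuotientGroup.mk' N) : Subgroup (G ⧸ N)) : Set (G ⧸ N))) :
    ∃ k m : G, m ∈ normalizer ((P : Subgroup G) : Set G) ∧ QuotientGroup.mk' N k ∈ (P : Subgroup G).map (QuotientGroup.mk' N) ∧
      n = k * m := by
  set K := ((P : Subgroup G).map (QuotientGroup.mk' N)).comap (QuotientGroup.mk' N) with hK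
  have hPK : (P : Subgroup G) ≤ K := le_comap_map _ _
  have hPK2 : ((n • P : Sylow p G) : Subgroup G) ≤ K := by
    rintro _ ⟨y, hy, rfl⟩
    rw [hK, mem_comap]
    change QuotientGroup.mk' N (n * y * n⁻¹) ∈ _
    rw [map_mul, map_mul, map_inv]
    exact (mem_normalizer_iff.mp hn _).mp (mem_map_of_mem _ hy)
  obtain ⟨k, hk⟩ := MulAction.exists_smul_eq K (P.subtype hPK) ((n • P).subtype hPK2)
  have hk2 : (k : G) • P = n • P := by
    apply Sylow.ext
    ext y
    constructor
    · rintro ⟨u, hu, rfl⟩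
      have h1 : (⟨(k : G) * u * (k : G)⁻¹, K.mul_mem (K.mul_mem k.2 (hPK hu)) (K.inv_mem k.2)⟩ : K) ∈
          ((k • (P.subtype hPK) : Sylow p K) : Subgroup K) := ⟨⟨u, hPK hu⟩, hu, rfl⟩
      rw [hk] at h1
      exact h1
    · intro hy
      have h1 : (⟨y, hPK2 hy⟩ : K) ∈ (((n • P).subtype hPK2 : Sylow p K) : Subgroup K) := hy
      rw [← hk] at h1
      obtain ⟨u, hu, hu2⟩ := h1
      refine ⟨u, hu, ?_⟩
      exact congrArg Subtype.val hu2
  refine ⟨k, (k : G)⁻¹ * n, ?_, k.2, by group⟩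
  apply Sylow.smul_eq_iff_mem_normalizer.mp
  rw [mul_smul, ← hk2, ← mul_smul, inv_mul_cancel, one_smul]

/-- the key argument. -/
theorem key {G : Type*} [Group G] [Finite G] {p : ℕ} [Fact p.Prime] (P : Sylow p G)
    (hx : ∀ x : G, (∃ k : ℕ, orderOf x = p ^ k) → ¬ p ∣ (centralizer ({x} : Set G)).index)
    (N : Subgroup G) [N.Normal] (hN : ∀ Q : Sylow p N, IsMulCommutative Q)
    (hQ : ∀ Q : Sylow p (G ⧸ N), IsMulCommutative Q) : ∀ a ∈ (P : Subgroup G), ∀ b ∈ (P : Subgroup G), a * b = b * a := by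
  have hsub : IsPGroup p ((P : Subgroup G).subgroupOf N) := P.isPGroup'.comap_of_injective _ N.subtype_injective
  obtain ⟨Q, hQN⟩ := hsub.exists_le_sylow
  haveI := hN Q
  have hab : ∀ a ∈ (P : Subgroup G), a ∈ N → ∀ b ∈ (P : Subgroup G), b ∈ N → a * b = b * a := by
    intro a ha haN b hb hbN
    have h1 : (⟨a, haN⟩ : N) ∈ (Q : Subgroup N) := hQN ha
    have h2 : (⟨b, hbN⟩ : N) ∈ (Q : Subgroup N) := hQN hb
    have h3 := mul_comm_of_mem_isMulCommutative (Q : Subgroup N) h1 h2
    exact congrArg Subtype.val h3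
  have hmap : IsPGroup p ((P : Subgroup G).map (QuotientGroup.mk' N)) := P.isPGroup'.map _
  have hidx : ¬ p ∣ ((P : Subgroup G).map (QuotientGroup.mk' N)).index := fun h =>
    P.not_dvd_index (h.trans ((P : Subgroup G).index_map_dvd (QuotientGroup.mk'_surjective N)))
  set Pb : Sylow p (G ⧸ N) := hmap.toSylow hidx with hPb
  haveI := hQ Pb
  have hPbc : (Pb : Subgroup (G ⧸ N)) = (P : Subgroup G).map (QuotientGroup.mk' N) := rfl
  have hdec : ∀ x ∈ (P : Subgroup G), ∃ c w : G, (∀ y ∈ (P : Subgroup G), c * y = y * c) ∧ w ∈ (P : Subgroup G) ∧ w ∈ N ∧ x = c * w := by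
    intro x hxP
    obtain ⟨g, hg⟩ := exists_conj_central P (hx x (Cfsg.Agent.H3.Sylow.exists_orderOf_of_mem P hxP))
    set z := g⁻¹ * x * g with hz
    have hzP : z ∈ (P : Subgroup G) := by
      have h1 : ∃ k : ℕ, orderOf z = p ^ k := by
        obtain ⟨k, hk⟩ := Cfsg.Agent.H3.Sylow.exists_orderOf_of_mem P hxP
        refine ⟨k, ?_⟩
        rw [← hk, hz]
        have h2 := orderOf_injective (MulAut.conj g⁻¹).toMonoidHom (MulAut.conj g⁻¹).injective x
        rw [← h2]
        congr 1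
        change g⁻¹ * x * g = g⁻¹ * x * (g⁻¹)⁻¹
        rw [inv_inv]
      obtain ⟨k, hk⟩ := h1
      have h3 : IsPGroup p (zpowers z) := by
        rw [IsPGroup.iff_orderOf]
        intro y
        have h4 : orderOf y ∣ p ^ k := by
          rw [← hk, ← Subgroup.orderOf_coe]
          exact orderOf_dvd_of_mem_zpowers y.2
        obtain ⟨j, -, hj⟩ := (Nat.dvd_prime_pow Fact.out).1 h4
        exact ⟨j, hj⟩
      have h5 : zpowers z ≤ normalizer ((P : Subgroup G) : Set G) := by
        rw [zpowers_le, mem_normalizer_iff]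
        intro y
        constructor
        · intro hy
          rw [hg y hy, mul_assoc, mul_inv_cancel, mul_one]; exact hy
        · intro hy
          have h6 := hg _ hy
          have h7 : z * y * z⁻¹ = y := by
            have : z * (z * y * z⁻¹) = z * y := by rw [h6]; group
            exact mul_left_cancel this
          rwa [h7] at hy
      have h8 : IsPGroup p ((P : Subgroup G) ⊔ zpowers z : Subgroup G) :=
        P.isPGroup'.to_sup_of_normal_left' h3 h5
      have h9 := P.is_maximal' h8 le_sup_left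
      rw [← h9]
      exact (le_sup_right : zpowers z ≤ _) (mem_zpowers z)
    have hconj := Sylow.conj_eq_normalizer_conj_of_mem Pb (QuotientGroup.mk' N x) (QuotientGroup.mk' N g)
      (by change _ ∈ (P : Subgroup G).map (QuotientGroup.mk' N); exact mem_map_of_mem _ hxP) (by
        change _ ∈ (P : Subgroup G).map (QuotientGroup.mk' N)
        rw [← map_inv, ← map_mul, ← map_mul]; exact mem_map_of_mem _ hzP)
    obtain ⟨nb, hnb, hnb2⟩ := hconj
    obtain ⟨n, rfl⟩ := QuotientGroup.mk'_surjective N nb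
    obtain ⟨k, m, hm, hk, rfl⟩ := normalizer_lift P N (n := n) hnb
    have h10 : QuotientGroup.mk' N z = QuotientGroup.mk' N (m⁻¹ * x * m) := by
      rw [hz, map_mul, map_mul, map_inv, hnb2]
      have h11 : QuotientGroup.mk' N x * QuotientGroup.mk' N k = QuotientGroup.mk' N k * QuotientGroup.mk' N x :=
        mul_comm_of_mem_isMulCommutative (Pb : Subgroup (G ⧸ N)) (mem_map_of_mem _ hxP) hk
      rw [map_mul, map_mul, map_mul, map_inv]
      calc ((QuotientGroup.mk' N k) * (QuotientGroup.mk' N m))⁻¹ * (QuotientGroup.mk' N x) * ((QuotientGroup.mk' N k) * (QuotientGroup.mk' N m))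
          = (QuotientGroup.mk' N m)⁻¹ * (QuotientGroup.mk' N k)⁻¹ * ((QuotientGroup.mk' N x) * (QuotientGroup.mk' N k)) * (QuotientGroup.mk' N m) := by group
        _ = _ := by rw [h11]; group
    have h12 : z⁻¹ * (m⁻¹ * x * m) ∈ N := QuotientGroup.eq.mp h10
    have hmx : m⁻¹ * x * m ∈ (P : Subgroup G) := by
      have := (mem_normalizer_iff.mp (inv_mem hm) x).mp hxP
      rwa [inv_inv] at this
    refine ⟨m * z * m⁻¹, m * (z⁻¹ * (m⁻¹ * x * m)) * m⁻¹, ?_, ?_, ?_, by group⟩
    · intro y hy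
      have hy2 : m⁻¹ * y * m ∈ (P : Subgroup G) := by
        have := (mem_normalizer_iff.mp (inv_mem hm) y).mp hy
        rwa [inv_inv] at this
      calc m * z * m⁻¹ * y = m * (z * (m⁻¹ * y * m)) * m⁻¹ := by group
        _ = m * ((m⁻¹ * y * m) * z) * m⁻¹ := by rw [hg _ hy2]
        _ = y * (m * z * m⁻¹) := by group
    · exact (mem_normalizer_iff.mp hm _).mp ((P : Subgroup G).mul_mem ((P : Subgroup G).inv_mem hzP) hmx)
    · exact Normal.conj_mem inferInstance _ h12 _
  intro a ha b hb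
  obtain ⟨c1, w1, hc1, hw1, hw1N, rfl⟩ := hdec a ha
  obtain ⟨c2, w2, hc2, hw2, hw2N, rfl⟩ := hdec b hb
  have e1 : c1 * (c2 * w2) = (c2 * w2) * c1 := hc1 _ hb
  have e2 : c2 * w1 = w1 * c2 := hc2 _ hw1
  have e3 : w1 * w2 = w2 * w1 := hab _ hw1 hw1N _ hw2 hw2N
  calc c1 * w1 * (c2 * w2) = c1 * (w1 * c2) * w2 := by group
    _ = c1 * (c2 * w1) * w2 := by rw [e2]
    _ = c1 * c2 * (w1 * w2) := by group
    _ = c1 * (c2 * w2) * w1 := by rw [e3]; group
    _ = c2 * w2 * (c1 * w1) := by rw [e1]; group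

/-- Let G be a finite group and p a prime such that the Sylow p-subgroups of G are non-abelian while every element of p-power order has conjugacy class size prime to p, and suppose no nontrivial proper normal subgroup N of G has this property and no quotient G/N by such an N has it. Then G is simple. -/
theorem result {G : Type*} [Group G] [Finite G]
    (p : ℕ) [Fact p.Prime] (h : ((∃ P : Sylow p G, ¬ IsMulCommutative P) ∧ ∀ x : G, (∃ k : ℕ, orderOf x = p ^ k) → ¬ p ∣ (Subgroup.centralizer ({x} : Set G)).index))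
    (hmin : ∀ (N : Subgroup G) [N.Normal], N ≠ ⊥ → N ≠ ⊤ →
      ¬ ((∃ P : Sylow p N, ¬ IsMulCommutative P) ∧ ∀ x : N, (∃ k : ℕ, orderOf x = p ^ k) → ¬ p ∣ (Subgroup.centralizer ({x} : Set N)).index) ∧
      ¬ ((∃ P : Sylow p (G ⧸ N), ¬ IsMulCommutative P) ∧ ∀ x : (G ⧸ N), (∃ k : ℕ, orderOf x = p ^ k) → ¬ p ∣ (Subgroup.centralizer ({x} : Set (G ⧸ N))).index)) :
    IsSimpleGroup G := by
  obtain ⟨⟨P, hP⟩, hx⟩ := h
  haveI : Nontrivial G := by
    by_contra hnt
    rw [not_nontrivial_iff_subsingleton] at hnt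
    apply hP
    exact ⟨⟨fun a b => Subtype.ext (Subsingleton.elim _ _)⟩⟩
  refine ⟨fun N hN => ?_⟩
  by_contra hcon
  push Not at hcon
  haveI := hN
  obtain ⟨h1, h2⟩ := hmin N hcon.1 hcon.2
  apply hP
  have hN1 : ∀ Q : Sylow p N, IsMulCommutative Q := by
    by_contra hcon1
    push Not at hcon1
    apply h1
    refine ⟨hcon1, fun x ⟨k, hk⟩ hd => ?_⟩
    refine hx (x : G) ⟨k, by rw [Subgroup.orderOf_coe]; exact hk⟩ (hd.trans ?_)
    exact index_centralizer_normal_dvd N x
  have hQ1 : ∀ Q : Sylow p (G ⧸ N), IsMulCommutative Q := by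
    by_contra hcon1
    push Not at hcon1
    apply h2
    refine ⟨hcon1, fun x hxo hd => ?_⟩
    obtain ⟨y, rfl⟩ := QuotientGroup.mk'_surjective N x
    obtain ⟨z, -, hz1, hz2⟩ := Cfsg.Agent.Lib.PComp.exists_lift_p_element (QuotientGroup.mk' N) (Subgroup.mem_top y) hxo
    rw [← hz2] at hd
    exact hx z hz1 (hd.trans (index_centralizer_quotient_dvd N z))
  have hkey := key P hx N hN1 hQ1
  exact ⟨⟨fun a b => Subtype.ext (hkey a a.2 b b.2)⟩⟩

end Cfsg.Agent.S4354
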