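import Cfsg.Statements.S4364
import Mathlib
import Mathlib
import Cfsg.Agent.H2.Kazarin
import Cfsg.Agent.Lib.Cores
import Cfsg.Agent.Lib.Nilp

set_option autoImplicit false
open Cfsg

namespace Cfsg.Agent.S4364

open Subgroup Cfsg.Agent.Lib Cfsg.Agent.Lib.Cores
open scoped commutatorElement

theorem conj_index {G : Type*} [Group G] [Finite G] (x g : G) :
    (Subgroup.centralizer ({g * x * g⁻¹} : Set G)).index = (Subgroup.centralizer ({x} : Set G)).index := by
  have h : Subgroup.centralizer ({g * x * g⁻¹} : Set G) = (Subgroup.centralizer ({x} : Set G)).map (MulAut.conj g).toMonoidHom := by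
    ext y
    rw [mem_centralizer_singleton_iff, mem_map]
    constructor
    · intro h
      refine ⟨g⁻¹ * y * g, ?_, by show g * (g⁻¹ * y * g) * g⁻¹ = y; group⟩
      rw [mem_centralizer_singleton_iff]
      calc g⁻¹ * y * g * x = g⁻¹ * (y * (g * x * g⁻¹)) * g := by group
        _ = g⁻¹ * ((g * x * g⁻¹) * y) * g := by rw [h]
        _ = x * (g⁻¹ * y * g) := by group
    · rintro ⟨z, hz, rfl⟩
      rw [mem_centralizer_singleton_iff] at hz
      show g * z * g⁻¹ * (g * x * g⁻¹) = (g * x * g⁻¹) * (g * z * g⁻¹)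
      calc g * z * g⁻¹ * (g * x * g⁻¹) = g * (z * x) * g⁻¹ := by group
        _ = g * (x * z) * g⁻¹ := by rw [hz]
        _ = _ := by group
  rw [h]
  exact Subgroup.index_map_equiv _ (MulAut.conj g)

/-- a normal `q`-subgroup is centralized by elements of `q'`-index -/
theorem central_of {G : Type*} [Group G] [Finite G] {q : ℕ} [Fact q.Prime] (Q : Subgroup G) [Q.Normal] (hQ : IsPGroup q Q) (x : G)
    (hx : ¬ q ∣ (Subgroup.centralizer ({x} : Set G)).index) : Q ≤ Subgroup.centralizer ({x} : Set G) := by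
  obtain ⟨P⟩ : Nonempty (Sylow q (Subgroup.centralizer ({x} : Set G))) := inferInstance
  have h1 : IsPGroup q ((P : Subgroup (Subgroup.centralizer ({x} : Set G))).map (Subgroup.centralizer ({x} : Set G)).subtype) := P.2.map _
  have h2 : ¬ q ∣ ((P : Subgroup (Subgroup.centralizer ({x} : Set G))).map (Subgroup.centralizer ({x} : Set G)).subtype).index := by
    rw [Subgroup.index_map_subtype]
    intro h
    rcases (Fact.out : q.Prime).dvd_mul.1 h with h | h
    · exact P.not_dvd_index h
    · exact hx h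
  let S : Sylow q G := h1.toSylow h2
  obtain ⟨T, hT⟩ := hQ.exists_le_sylow
  have h3 : Q ≤ (S : Subgroup G) := by
    obtain ⟨g, hg⟩ := MulAction.exists_smul_eq G T S
    rw [← hg, Sylow.coe_subgroup_smul]
    intro y hy
    have h4 : g⁻¹ * y * g ∈ Q := by
      have := (inferInstance : Q.Normal).conj_mem y hy g⁻¹
      rwa [inv_inv] at this
    rw [Subgroup.mem_pointwise_smul_iff_inv_smul_mem]
    have e : (MulAut.conj g)⁻¹ • y = g⁻¹ * y * g := by
      rw [← map_inv, MulAut.smul_def, MulAut.conj_apply, inv_inv]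
    rw [e]
    exact hT h4
  refine h3.trans ?_
  rintro _ ⟨y, -, rfl⟩
  exact y.2

/-- the case `O_p(G) = 1` -/
theorem core_case {G : Type*} [Group G] [Finite G] (p : ℕ) [Fact p.Prime] (hp1 : pCore p G = ⊥) (x : G) (a : ℕ)
    (hx : (Subgroup.centralizer ({x} : Set G)).index = p ^ a) (g h : G) :
    Commute (g * x * g⁻¹) (h * x * h⁻¹) := by
  have hsol := H2.Kazarin.main x Fact.out a hx
  set M := normalClosure ({x} : Set G) with hM
  -- the Fitting subgroup of `M`
  have hF : (fittingSubgroup M).map M.subtype = fittingSubgroup G ⊓ M := map_fitting_eq_inf M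
  have hcen : ∀ y : G, (Subgroup.centralizer ({y} : Set G)).index = p ^ a → fittingSubgroup G ≤ Subgroup.centralizer ({y} : Set G) := by
    intro y hy
    rw [fitting_eq_iSup_pCore]
    apply iSup_le
    rintro ⟨q, hq⟩
    haveI : Fact q.Prime := ⟨hq⟩
    by_cases hqp : q = p
    · subst hqp
      rw [show (((⟨q, hq⟩ : Nat.Primes) : ℕ)) = q from rfl, hp1]
      exact bot_le
    · haveI := pCore_normal (G := G) q
      refine central_of (pCore q G) (pCore_isPGroup q) y ?_
      rw [hy]
      intro hd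
      exact hqp ((Nat.prime_dvd_prime_iff_eq hq Fact.out).1 (hq.dvd_of_dvd_pow hd))
  have hxM : ∀ g : G, g * x * g⁻¹ ∈ M := fun g => (normalClosure_normal (s := ({x} : Set G))).conj_mem x (subset_normalClosure rfl) g
  have hmem : ∀ g : G, g * x * g⁻¹ ∈ fittingSubgroup G := by
    intro g
    have h1 := hcen _ ((conj_index x g).trans hx)
    have h2 : (⟨g * x * g⁻¹, hxM g⟩ : M) ∈ Subgroup.centralizer (fittingSubgroup M : Set M) := by
      rw [mem_centralizer_iff]
      intro y hy
      apply Subtype.ext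
      have h3 : (y : G) ∈ fittingSubgroup G ⊓ M := by rw [← hF]; exact ⟨y, hy, rfl⟩
      exact mem_centralizer_singleton_iff.1 (h1 h3.1)
    have h3 := Nilp.centralizer_fitting_le (G := M) h2
    have h4 : g * x * g⁻¹ ∈ fittingSubgroup G ⊓ M := by rw [← hF]; exact ⟨_, h3, rfl⟩
    exact h4.1
  exact mem_centralizer_singleton_iff.1 (hcen _ ((conj_index x h).trans hx) (hmem g))

/-- Let G be a finite group, p a prime and x an element whose conjugacy class has p-power size. Then for any two conjugates y and z of x, the commutator y z y⁻¹ z⁻¹ lies in O_p(G), the largest normal p-subgroup of G. -/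
theorem result {G : Type*} [Group G] [Finite G] (p : ℕ) [Fact p.Prime]
    (x : G) (hx : ∃ a : ℕ, (Subgroup.centralizer ({x} : Set G)).index = p ^ a) (g h : G) :
    (g * x * g⁻¹) * (h * x * h⁻¹) * (g * x * g⁻¹)⁻¹ * (h * x * h⁻¹)⁻¹ ∈ Cfsg.pCore p G := by
  obtain ⟨a, ha⟩ := hx
  haveI := pCore_normal (G := G) p
  have h1 : ∃ b : ℕ, (Subgroup.centralizer ({QuotientGroup.mk' (pCore p G) x} : Set (G ⧸ pCore p G))).index = p ^ b := by
    have h2 : (Subgroup.centralizer ({x} : Set G)).map (QuotientGroup.mk' (pCore p G)) ≤ Subgroup.centralizer ({QuotientGroup.mk' (pCore p G) x} : Set (G ⧸ pCore p G)) := by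
      rintro _ ⟨y, hy, rfl⟩
      rw [mem_centralizer_singleton_iff, ← map_mul, mem_centralizer_singleton_iff.1 hy, map_mul]
    have h3 := (Subgroup.index_dvd_of_le h2).trans (Subgroup.index_map_dvd _ (QuotientGroup.mk'_surjective (pCore p G)))
    rw [ha] at h3
    obtain ⟨b, -, hb⟩ := (Nat.dvd_prime_pow Fact.out).1 h3
    exact ⟨b, hb⟩
  obtain ⟨b, hb⟩ := h1
  have h2 := core_case p (pCore_quotient_pCore (G := G) p) _ b hb (QuotientGroup.mk' (pCore p G) g) (QuotientGroup.mk' (pCore p G) h)
  have h3 : QuotientGroup.mk' (pCore p G) ((g * x * g⁻¹) * (h * x * h⁻¹) * (g * x * g⁻¹)⁻¹ * (h * x * h⁻¹)⁻¹) = 1 := by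
    simp only [map_mul, map_inv]
    rw [show ∀ a b : G ⧸ pCore p G, a * b * a⁻¹ * b⁻¹ = ⁅a, b⁆ from fun a b => rfl]
    exact commutatorElement_eq_one_iff_commute.2 h2
  exact (QuotientGroup.eq_one_iff _).1 h3

end Cfsg.Agent.S4364
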