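import Cfsg.Statements.S4365
import Mathlib
import Cfsg.Agent.Lib.ClassSizes
import Cfsg.Agent.H3.Basic

set_option autoImplicit false
open Cfsg

namespace Cfsg.Agent.S4365

open Subgroup Cfsg.Agent.Lib.ClassSizes

section
variable {P : Type*} [Group P] (A : Subgroup P) [hAn : A.Normal]

/-- conjugation on a normal subgroup -/
def cj (u : P) (b : A) : A := ⟨u * b * u⁻¹, hAn.conj_mem b b.2 u⟩

theorem cj_mul (u v : P) (b : A) : cj A (u * v) b = cj A u (cj A v b) := by
  apply Subtype.ext; change u * v * b * (u * v)⁻¹ = u * (v * b * v⁻¹) * u⁻¹; group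

theorem cj_one (b : A) : cj A 1 b = b := by
  apply Subtype.ext; change 1 * (b : P) * 1⁻¹ = b; group

end

theorem prod_formula {P : Type*} [Group P] (A : Subgroup P) [hAn : A.Normal]
    (hA : ∀ a b : A, a * b = b * a) (u : P) (b : A) (n : ℕ) :
    letI : CommGroup A := { mul_comm := hA }
    ((b : P) * u) ^ n = ((∏ i ∈ Finset.range n, cj A (u ^ i) b : A) : P) * u ^ n := by
  letI : CommGroup A := { mul_comm := hA }
  induction n with
  | zero => simp
  | succ n ih =>
    rw [pow_succ, ih, Finset.prod_range_succ, pow_succ]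
    change _ = ((∏ i ∈ Finset.range n, cj A (u ^ i) b : A) : P) * (u ^ n * b * (u ^ n)⁻¹) * (u ^ n * u)
    group

theorem prod_zmod {p : ℕ} [NeZero p] {M : Type*} [CommMonoid M] (f : ℕ → M) :
    ∏ i ∈ Finset.range p, f i = ∏ j : ZMod p, f j.val := by
  symm
  refine Finset.prod_nbij' (fun j : ZMod p => j.val) (fun n => (n : ZMod p)) ?_ ?_ ?_ ?_ ?_
  · intro j _; exact Finset.mem_range.2 (ZMod.val_lt j)
  · intro n _; exact Finset.mem_univ _
  · intro j _; exact ZMod.natCast_zmod_val j
  · intro n hn; exact ZMod.val_cast_of_lt (Finset.mem_range.1 hn)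
  · intro j _; rfl

theorem main {P : Type*} [Group P] {p : ℕ} [hp : Fact p.Prime] (A C : Subgroup P)
    [hAn : A.Normal] (hA : ∀ a b : A, a * b = b * a) (hAC : ∀ c ∈ C, ∀ b ∈ A, c * b = b * c)
    (hZC : center P ≤ C)
    (hPC : ∀ u v : P, u * v * u⁻¹ * v⁻¹ ∈ C) [hCn : C.Normal]
    (hN : ∀ u : P, u ∉ C → ∀ b ∈ A, (b * u) ^ p ∈ center P ∧ u ^ p ∈ center P)
    {g h : P} (hg : g ∉ C) (hgh : ∀ k : ℕ, g ^ k * h ∉ C) (b : A) : (b : P) ^ p ∈ center P := by
  classical
  letI : CommGroup A := { mul_comm := hA }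
  haveI : NeZero p := ⟨hp.out.ne_zero⟩
  let Z' : Subgroup A := (center P).subgroupOf A
  have hcjC : ∀ c ∈ C, ∀ b : A, cj A c b = b := by
    intro c hc b
    apply Subtype.ext
    change c * b * c⁻¹ = b
    rw [hAC c hc b b.2, mul_inv_cancel_right]
  have hnorm : ∀ u : P, u ∉ C → ∀ b : A, (∏ j : ZMod p, cj A (u ^ j.val) b) ∈ Z' := by
    intro u hu b
    rw [← prod_zmod (fun i => cj A (u ^ i) b)]
    have h1 := prod_formula A hA u b p
    have h2 := hN u hu b b.2
    change ((∏ i ∈ Finset.range p, cj A (u ^ i) b : A) : P) ∈ center P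
    have h3 : ((∏ i ∈ Finset.range p, cj A (u ^ i) b : A) : P) = ((b : P) * u) ^ p * (u ^ p)⁻¹ := by
      rw [h1, mul_inv_cancel_right]
    rw [h3]
    exact mul_mem h2.1 (inv_mem h2.2)
  -- `(g^k h)^j = g^(k j) h^j c`
  have hpw : ∀ u v : P, ∀ j : ℕ, ∃ c ∈ C, (u * v) ^ j = u ^ j * v ^ j * c := by
    intro u v j
    have h1 : (QuotientGroup.mk ((u * v) ^ j) : P ⧸ C) = QuotientGroup.mk (u ^ j * v ^ j) := by
      have hc : Commute (QuotientGroup.mk u : P ⧸ C) (QuotientGroup.mk v) := by
        change (QuotientGroup.mk (u * v) : P ⧸ C) = QuotientGroup.mk (v * u)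
        rw [QuotientGroup.eq]
        have h2 := hPC v⁻¹ u⁻¹
        have h3 : v⁻¹ * u⁻¹ * v⁻¹⁻¹ * u⁻¹⁻¹ = (u * v)⁻¹ * (v * u) := by group
        rwa [h3] at h2
      have := hc.mul_pow j
      exact this
    rw [eq_comm, QuotientGroup.eq] at h1
    exact ⟨_, h1, by group⟩
  let E : ZMod p → ZMod p → A := fun i j => cj A (g ^ i.val * h ^ j.val) b
  have hgp : g ^ p ∈ center P := (hN g hg 1 A.one_mem).2
  have hmodg : ∀ m : ℕ, ∃ c ∈ C, g ^ m = g ^ (m % p) * c := by
    intro m
    refine ⟨(g ^ p) ^ (m / p), pow_mem (hZC hgp) _, ?_⟩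
    rw [← pow_mul, ← pow_add, Nat.mod_add_div]
  have hE : ∀ k j : ZMod p, cj A ((g ^ k.val * h) ^ j.val) b = E (k * j) j := by
    intro k j
    obtain ⟨c, hc, h1⟩ := hpw (g ^ k.val) h j.val
    obtain ⟨d, hd, h2⟩ := hmodg (k.val * j.val)
    rw [h1, ← pow_mul, h2]
    have h3 : (k * j).val = k.val * j.val % p := ZMod.val_mul k j
    change _ = cj A (g ^ (k * j).val * h ^ j.val) b
    rw [h3]
    have h4 : g ^ (k.val * j.val % p) * d * h ^ j.val * c =
        g ^ (k.val * j.val % p) * h ^ j.val * ((h ^ j.val)⁻¹ * d * h ^ j.val * c) := by group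
    have h5 : (h ^ j.val)⁻¹ * d * h ^ j.val * c ∈ C := by
      refine mul_mem ?_ hc
      have := hCn.conj_mem d hd (h ^ j.val)⁻¹
      rwa [inv_inv] at this
    rw [h4, cj_mul, hcjC _ h5]
  have hR : ∀ j : ZMod p, (∏ i : ZMod p, E i j) ∈ Z' := by
    intro j
    have h1 := hnorm g hg (cj A (h ^ j.val) b)
    have h2 : (∏ i : ZMod p, E i j) = ∏ i : ZMod p, cj A (g ^ i.val) (cj A (h ^ j.val) b) :=
      Finset.prod_congr rfl fun i _ => cj_mul A _ _ b
    rw [h2]; exact h1
  have hT : (∏ k : ZMod p, ∏ j : ZMod p, E (k * j) j) ∈ Z' := by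
    apply prod_mem
    intro k _
    have h1 := hnorm (g ^ k.val * h) (hgh _) b
    have h2 : (∏ j : ZMod p, E (k * j) j) = ∏ j : ZMod p, cj A ((g ^ k.val * h) ^ j.val) b :=
      Finset.prod_congr rfl fun j _ => (hE k j).symm
    rw [h2]; exact h1
  rw [Finset.prod_comm, ← Finset.mul_prod_erase _ _ (Finset.mem_univ (0 : ZMod p))] at hT
  have h0 : (∏ k : ZMod p, E (k * 0) 0) = b ^ p := by
    have : ∀ k : ZMod p, E (k * 0) 0 = b := by
      intro k
      rw [mul_zero]
      change cj A (g ^ (0 : ZMod p).val * h ^ (0 : ZMod p).val) b = b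
      rw [ZMod.val_zero, pow_zero, pow_zero, one_mul, cj_one]
    rw [Finset.prod_congr rfl (fun k _ => this k), Finset.prod_const, Finset.card_univ, ZMod.card]
  have hrest : (∏ j ∈ Finset.univ.erase (0 : ZMod p), ∏ k : ZMod p, E (k * j) j) ∈ Z' := by
    apply prod_mem
    intro j hj
    have hj0 : j ≠ 0 := (Finset.mem_erase.1 hj).1
    have h1 : (∏ k : ZMod p, E (k * j) j) = ∏ i : ZMod p, E i j :=
      Fintype.prod_equiv (Equiv.mulRight₀ j hj0) _ _ (fun k => rfl)
    rw [h1]; exact hR j
  rw [h0] at hT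
  have h1 := (Z'.mul_mem_cancel_right hrest).1 hT
  exact h1

/-- Let P be a finite p-group whose conjugacy class sizes are exactly 1 and pᵃ for some a ≥ 1. Then every element of P has its p-th power in the center of P (P/Z(P) has exponent p). -/
theorem result {P : Type*} [Group P] [Finite P] (p : ℕ) [Fact p.Prime]
    (hP : IsPGroup p P) (a : ℕ) (ha : 1 ≤ a)
    (hcs : {k : ℕ | ∃ x : P, (Subgroup.centralizer ({x} : Set P)).index = k} = {1, p ^ a}) (x : P) :
    x ^ p ∈ Subgroup.center P := by
  classical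
  by_contra hx
  have hall : ∀ y : P, y ∉ center P → (centralizer ({y} : Set P)).index = p ^ a := by
    intro y hy
    have h1 : (centralizer ({y} : Set P)).index ∈ {k : ℕ | ∃ x : P, (Subgroup.centralizer ({x} : Set P)).index = k} :=
      ⟨y, rfl⟩
    rw [hcs] at h1
    rcases h1 with h1 | h1
    · exact absurd (index_centralizer_eq_one_iff.1 h1) hy
    · exact h1
  have hF1 : ∀ y z : P, y ∉ center P → z ∉ center P → centralizer ({y} : Set P) ≤ centralizer ({z} : Set P) →
      centralizer ({y} : Set P) = centralizer ({z} : Set P) := by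
    intro y z hy hz hle
    apply eq_of_le_of_card_ge hle
    have h1 := (centralizer ({y} : Set P)).card_mul_index
    have h2 := (centralizer ({z} : Set P)).card_mul_index
    rw [hall y hy] at h1
    rw [hall z hz, ← h1] at h2
    exact (Nat.eq_of_mul_eq_mul_right (pow_pos (Fact.out : p.Prime).pos a) h2).le
  have hF2 : ∀ y : P, y ^ p ∉ center P → centralizer ({y} : Set P) = centralizer ({y ^ p} : Set P) := by
    intro y hy
    exact hF1 y (y ^ p) (fun h => hy (pow_mem h p)) hy (centralizer_pow_le y p)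
  -- second centre
  haveI : Nontrivial (P ⧸ center P) := by
    rw [QuotientGroup.nontrivial_iff]
    intro h
    apply hx
    rw [h]; trivial
  have hPZ : IsPGroup p (P ⧸ center P) := hP.to_quotient _
  haveI := hPZ.center_nontrivial
  obtain ⟨k, hk⟩ := (hPZ.to_subgroup (center (P ⧸ center P))).exists_card_eq
  have hk0 : k ≠ 0 := by
    rintro rfl
    have := Finite.one_lt_card (α := center (P ⧸ center P))
    rw [hk, pow_zero] at this
    exact lt_irrefl _ this
  obtain ⟨w', hw'⟩ := exists_prime_orderOf_dvd_card' (G := center (P ⧸ center P)) p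
    (by rw [hk]; exact dvd_pow_self p hk0)
  obtain ⟨w, hw⟩ := QuotientGroup.mk_surjective (w' : P ⧸ center P)
  have hwZ : w ∉ center P := by
    intro h
    have h1 : (QuotientGroup.mk w : P ⧸ center P) = 1 := (QuotientGroup.eq_one_iff w).2 h
    rw [hw, OneMemClass.coe_eq_one] at h1
    rw [h1, orderOf_one] at hw'
    exact (Fact.out : p.Prime).one_lt.ne hw'
  have hwp : w ^ p ∈ center P := by
    rw [← QuotientGroup.eq_one_iff, QuotientGroup.mk_pow, hw]
    have h1 := pow_orderOf_eq_one w'
    rw [hw'] at h1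
    exact congrArg Subtype.val h1
  have hwc : ∀ g : P, ∃ z ∈ center P, g⁻¹ * w * g = w * z := by
    intro g
    have h1 := Subgroup.mem_center_iff.1 w'.2 (QuotientGroup.mk g)
    rw [← hw, ← QuotientGroup.mk_mul, ← QuotientGroup.mk_mul] at h1
    have h2 := QuotientGroup.eq.1 h1
    -- `(g w)⁻¹ (w g) ∈ Z`
    refine ⟨(g * w)⁻¹ * (w * g), h2, ?_⟩
    have h3 := Subgroup.mem_center_iff.1 h2 w
    have h4 : (g * w)⁻¹ * (w * g) * w = w * ((g * w)⁻¹ * (w * g)) := h3.symm
    calc g⁻¹ * w * g = w * ((g * w)⁻¹ * (w * g)) := by group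
      _ = _ := rfl
  set C := centralizer ({w} : Set P) with hC
  have hF3 : ∀ g : P, g ^ p ∉ center P → centralizer ({g} : Set P) = C := by
    intro g hg
    have hgZ : g ∉ center P := fun h => hg (pow_mem h p)
    have h1 : ∃ z ∈ center P, (w * g) ^ p = g ^ p * z := by
      have h2 : (QuotientGroup.mk (g ^ p) : P ⧸ center P) = QuotientGroup.mk ((w * g) ^ p) := by
        have hc : Commute (QuotientGroup.mk w : P ⧸ center P) (QuotientGroup.mk g) := by
          rw [hw]; exact (Subgroup.mem_center_iff.1 w'.2 _).symm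
        have h3 : (QuotientGroup.mk ((w * g) ^ p) : P ⧸ center P) =
            (QuotientGroup.mk w) ^ p * (QuotientGroup.mk g) ^ p := hc.mul_pow p
        have h4 : (QuotientGroup.mk w : P ⧸ center P) ^ p = 1 := by
          rw [← QuotientGroup.mk_pow]; exact (QuotientGroup.eq_one_iff _).2 hwp
        rw [h3, h4, one_mul]; rfl
      have h3 := QuotientGroup.eq.1 h2
      exact ⟨_, h3, by group⟩
    obtain ⟨z, hz, hz'⟩ := h1
    have h2 : centralizer ({(w * g) ^ p} : Set P) = centralizer ({g ^ p} : Set P) := by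
      ext c
      rw [mem_centralizer_singleton, mem_centralizer_singleton, hz']
      have h3 : c * z = z * c := Subgroup.mem_center_iff.1 hz c
      constructor
      · intro h4
        have h5 : c * g ^ p * z = g ^ p * c * z := by
          calc c * g ^ p * z = c * (g ^ p * z) := by group
            _ = g ^ p * z * c := h4
            _ = g ^ p * (z * c) := by group
            _ = g ^ p * (c * z) := by rw [h3]
            _ = _ := by group
        exact mul_right_cancel h5
      · intro h4
        calc c * (g ^ p * z) = (c * g ^ p) * z := by group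
          _ = g ^ p * (c * z) := by rw [h4]; group
          _ = g ^ p * z * c := by rw [h3]; group
    have h3 : (w * g) ^ p ∉ center P := by
      rw [hz']
      intro h4
      exact hg (((center P).mul_mem_cancel_right hz).1 h4)
    have h4 : centralizer ({w * g} : Set P) = centralizer ({g} : Set P) := by
      rw [hF2 _ h3, h2, hF2 g hg]
    apply hF1 g w hgZ hwZ
    intro c hc
    have h5 : c ∈ centralizer ({w * g} : Set P) := by rw [h4]; exact hc
    rw [mem_centralizer_singleton] at h5 hc ⊢
    have h6 : c * w * g = w * c * g := by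
      calc c * w * g = c * (w * g) := by group
        _ = w * g * c := h5
        _ = w * (g * c) := by group
        _ = w * (c * g) := by rw [hc]
        _ = _ := by group
    exact mul_right_cancel h6
  haveI hCn : C.Normal := ⟨fun c hc g => by
    rw [hC, mem_centralizer_singleton] at hc ⊢
    obtain ⟨z, hz, hz'⟩ := hwc g
    have h3 : c * z = z * c := Subgroup.mem_center_iff.1 hz c
    have h4 : g⁻¹ * w = w * z * g⁻¹ := by rw [← hz']; group
    calc g * c * g⁻¹ * w = g * c * (g⁻¹ * w) := by group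
      _ = g * (c * w) * z * g⁻¹ := by rw [h4]; group
      _ = g * w * (c * z) * g⁻¹ := by rw [hc]; group
      _ = g * (w * z) * c * g⁻¹ := by rw [h3]; group
      _ = g * (g⁻¹ * w * g) * c * g⁻¹ := by rw [hz']
      _ = _ := by group⟩
  set A := centralizer (C : Set P) with hA
  haveI hAn : A.Normal := inferInstance
  have hwC : w ∈ C := by rw [hC, mem_centralizer_singleton]
  have hAC : A ≤ C := fun b hb => by
    rw [hC, mem_centralizer_singleton]
    exact (mem_centralizer_iff.1 hb w hwC).symm
  have hF4 : ∀ g : P, g ∉ A → g ^ p ∈ center P := by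
    intro g hg
    by_contra h
    apply hg
    rw [hA, ← hF3 g h, mem_centralizer_iff]
    intro c hc
    exact mem_centralizer_singleton.1 hc
  have hxA : x ∈ A := by
    by_contra h
    exact hx (hF4 x h)
  have hZC : center P ≤ C := center_le_centralizer _
  by_cases ha1 : a = 1
  · -- maximal centralizers
    apply hx
    rw [Subgroup.mem_center_iff]
    intro g
    haveI := hP.isNilpotent
    by_cases hg : g ∈ center P
    · exact (Subgroup.mem_center_iff.1 hg _).symm
    · have h1 := Cfsg.Agent.H3.Basic.pow_index_mem_of_isNilpotent (centralizer ({g} : Set P)) x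
      rw [hall g hg, ha1, pow_one, mem_centralizer_singleton] at h1
      exact h1.symm
  · have hCi : C.index = p ^ a := hall w hwZ
    obtain ⟨g, hg⟩ : ∃ g, g ∉ C := by
      by_contra hc
      push Not at hc
      have : C = ⊤ := eq_top_iff.2 fun x _ => hc x
      rw [this, index_top] at hCi
      have h1 : 1 < p ^ a := Nat.one_lt_pow (by omega) (Fact.out : p.Prime).one_lt
      omega
    have hgA : g ∉ A := fun h => hg (hAC h)
    have hgp : g ^ p ∈ C := hZC (hF4 g hgA)
    obtain ⟨h, hh⟩ : ∃ h, h ∉ C ⊔ zpowers g := by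
      by_contra hc
      push Not at hc
      have htop : C ⊔ zpowers g = ⊤ := eq_top_iff.2 fun x _ => hc x
      have h1 : C.index = (C.subgroupOf (C ⊔ zpowers g)).index := by
        change C.index = C.relIndex (C ⊔ zpowers g)
        rw [htop, relIndex_top_right]
      have h2 : C.relIndex (C ⊔ zpowers g) = C.relIndex (zpowers g) := by
        rw [sup_comm]; exact relIndex_sup_right _ _
      have h3 : C.relIndex (zpowers g) ∣ p := by
        -- the image of `g` has order dividing `p`
        have h4 : C.relIndex (zpowers g) = Nat.card ((zpowers g).map (QuotientGroup.mk' C)) := by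
          rw [relIndex]
          have h5 : C.subgroupOf (zpowers g) = ((QuotientGroup.mk' C).comp (zpowers g).subtype).ker := by
            ext y
            rw [mem_subgroupOf, MonoidHom.mem_ker]
            exact (QuotientGroup.eq_one_iff _).symm
          rw [h5, index_ker, MonoidHom.range_comp, range_subtype]
        rw [h4, MonoidHom.map_zpowers, Nat.card_zpowers]
        apply orderOf_dvd_of_pow_eq_one
        rw [← map_pow]
        exact (QuotientGroup.eq_one_iff _).2 hgp
      have h4 : p ^ a ∣ p ^ 1 := by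
        rw [pow_one, ← hCi, h1]
        change C.relIndex (C ⊔ zpowers g) ∣ p
        rw [h2]; exact h3
      have h5 := (Nat.pow_dvd_pow_iff_le_right (Fact.out : p.Prime).one_lt).1 h4
      omega
    apply hx
    refine main A C (fun a b => Subtype.ext ?_) (fun c hc b hb => mem_centralizer_iff.1 hb c hc) hZC
      ?_ ?_ hg (h := h) ?_ ⟨x, hxA⟩
    · exact (mem_centralizer_iff.1 b.2 a (hAC a.2))
    · intro u v
      rw [hC, mem_centralizer_singleton]
      -- commutators act trivially on `w`
      have key : ∀ u : P, ∃ z ∈ center P, u * w * u⁻¹ = w * z := by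
        intro u
        obtain ⟨z, hz, hz'⟩ := hwc u⁻¹
        rw [inv_inv] at hz'
        exact ⟨z, hz, hz'⟩
      obtain ⟨z1, hz1, e1⟩ := key u
      obtain ⟨z2, hz2, e2⟩ := key v
      obtain ⟨z3, hz3, e3⟩ := hwc u
      obtain ⟨z4, hz4, e4⟩ := hwc v
      have c1 : ∀ y, y * z1 = z1 * y := Subgroup.mem_center_iff.1 hz1
      have c2 : ∀ y, y * z2 = z2 * y := Subgroup.mem_center_iff.1 hz2
      have c3 : ∀ y, y * z3 = z3 * y := Subgroup.mem_center_iff.1 hz3
      have c4 : ∀ y, y * z4 = z4 * y := Subgroup.mem_center_iff.1 hz4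
      -- z3 = z1⁻¹, z4 = z2⁻¹
      have f3 : z1 * z3 = 1 := by
        have h5 : w = w * z1 * z3 := by
          calc w = u⁻¹ * (u * w * u⁻¹) * u := by group
            _ = u⁻¹ * (w * z1) * u := by rw [e1]
            _ = u⁻¹ * w * (z1 * u) := by group
            _ = u⁻¹ * w * (u * z1) := by rw [c1 u]
            _ = (u⁻¹ * w * u) * z1 := by group
            _ = w * z3 * z1 := by rw [e3]
            _ = w * (z3 * z1) := by group
            _ = w * (z1 * z3) := by rw [← c1 z3]
            _ = _ := by group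
        have h6 : w * 1 = w * (z1 * z3) := by rw [mul_one, ← mul_assoc]; exact h5
        exact (mul_left_cancel h6).symm
      have f4 : z2 * z4 = 1 := by
        have h5 : w = w * z2 * z4 := by
          calc w = v⁻¹ * (v * w * v⁻¹) * v := by group
            _ = v⁻¹ * (w * z2) * v := by rw [e2]
            _ = v⁻¹ * w * (z2 * v) := by group
            _ = v⁻¹ * w * (v * z2) := by rw [c2 v]
            _ = (v⁻¹ * w * v) * z2 := by group
            _ = w * z4 * z2 := by rw [e4]
            _ = w * (z4 * z2) := by group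
            _ = w * (z2 * z4) := by rw [← c2 z4]
            _ = _ := by group
        have h6 : w * 1 = w * (z2 * z4) := by rw [mul_one, ← mul_assoc]; exact h5
        exact (mul_left_cancel h6).symm
      have h5 : (u * v * u⁻¹ * v⁻¹) * w * (u * v * u⁻¹ * v⁻¹)⁻¹ = w := by
        calc (u * v * u⁻¹ * v⁻¹) * w * (u * v * u⁻¹ * v⁻¹)⁻¹
            = u * (v * (u⁻¹ * (v⁻¹ * w * v) * u) * v⁻¹) * u⁻¹ := by group
          _ = u * (v * (u⁻¹ * (w * z4) * u) * v⁻¹) * u⁻¹ := by rw [e4]
          _ = u * (v * (u⁻¹ * w * (z4 * u)) * v⁻¹) * u⁻¹ := by group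
          _ = u * (v * (u⁻¹ * w * (u * z4)) * v⁻¹) * u⁻¹ := by rw [c4 u]
          _ = u * (v * ((u⁻¹ * w * u) * z4) * v⁻¹) * u⁻¹ := by group
          _ = u * (v * (w * z3 * z4) * v⁻¹) * u⁻¹ := by rw [e3]
          _ = u * (v * (w * (z3 * z4)) * v⁻¹) * u⁻¹ := by group
          _ = u * (v * w * ((z3 * z4) * v⁻¹)) * u⁻¹ := by group
          _ = u * (v * w * (v⁻¹ * (z3 * z4))) * u⁻¹ := by
            rw [Subgroup.mem_center_iff.1 (mul_mem hz3 hz4) v⁻¹]
          _ = u * ((v * w * v⁻¹) * (z3 * z4)) * u⁻¹ := by group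
          _ = u * (w * z2 * (z3 * z4)) * u⁻¹ := by rw [e2]
          _ = u * w * ((z2 * (z3 * z4)) * u⁻¹) := by group
          _ = u * w * (u⁻¹ * (z2 * (z3 * z4))) := by
            rw [Subgroup.mem_center_iff.1 (mul_mem hz2 (mul_mem hz3 hz4)) u⁻¹]
          _ = (u * w * u⁻¹) * (z2 * (z3 * z4)) := by group
          _ = w * z1 * (z2 * (z3 * z4)) := by rw [e1]
          _ = w * z1 * (z2 * z3) * z4 := by group
          _ = w * z1 * (z3 * z2) * z4 := by rw [c3 z2]
          _ = w * (z1 * z3) * (z2 * z4) := by group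
          _ = w := by rw [f3, f4]; group
      rw [mul_inv_eq_iff_eq_mul] at h5
      exact h5
    · intro u hu b hb
      refine ⟨hF4 _ (fun h1 => hu ?_), hF4 _ (fun h1 => hu (hAC h1))⟩
      exact (C.mul_mem_cancel_left (hAC hb)).1 (hAC h1)
    · intro k hk
      apply hh
      have h1 : h = (g ^ k)⁻¹ * (g ^ k * h) := by group
      rw [h1]
      exact mul_mem (mem_sup_right (inv_mem (pow_mem (mem_zpowers g) k))) (mem_sup_left hk)

end Cfsg.Agent.S4365
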