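import Cfsg.Statements.S4377
import Mathlib

set_option autoImplicit false
open Cfsg

namespace Cfsg.Agent.S4377

/-- Two finite groups have the same number of elements of each order if and only if, for every n, they have the same number of elements g with gⁿ = 1. -/
theorem result {G H : Type*} [Group G] [Finite G] [Group H] [Finite H] :
    (∀ n : ℕ, Nat.card {g : G // orderOf g = n} = Nat.card {h : H // orderOf h = n}) ↔
      ∀ n : ℕ, Nat.card {g : G // g ^ n = 1} = Nat.card {h : H // h ^ n = 1} := by
  classical
  haveI := Fintype.ofFinite G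
  haveI := Fintype.ofFinite H
  constructor
  · intro h n
    let e : ∀ n : ℕ, ({g : G // orderOf g = n} ≃ {h : H // orderOf h = n}) := fun n =>
      (Finite.card_eq.1 (h n)).some
    let E : G ≃ H := (Equiv.sigmaFiberEquiv (fun g : G => orderOf g)).symm.trans
      ((Equiv.sigmaCongrRight e).trans (Equiv.sigmaFiberEquiv (fun h : H => orderOf h)))
    have hE : ∀ g : G, orderOf (E g) = orderOf g := fun g => (e (orderOf g) ⟨g, rfl⟩).2
    refine Nat.card_congr (Equiv.subtypeEquiv E (fun g => ?_))
    rw [← orderOf_dvd_iff_pow_eq_one, ← orderOf_dvd_iff_pow_eq_one, hE]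
  · intro h n
    induction n using Nat.strong_induction_on with
    | _ n ih =>
    rcases Nat.eq_zero_or_pos n with rfl | hn
    · haveI : IsEmpty {g : G // orderOf g = 0} := ⟨fun g => (orderOf_pos g.1).ne' g.2⟩
      haveI : IsEmpty {g : H // orderOf g = 0} := ⟨fun g => (orderOf_pos g.1).ne' g.2⟩
      rw [Nat.card_of_isEmpty, Nat.card_of_isEmpty]
    · have key : ∀ (K : Type _) [Group K] [Fintype K], (∑ d ∈ n.divisors, Nat.card {g : K // orderOf g = d}) =
          Nat.card {g : K // g ^ n = 1} := by
        intro K _ _
        have h1 := sum_card_orderOf_eq_card_pow_eq_one (G := K) hn.ne'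
        rw [Nat.card_eq_fintype_card, Fintype.card_subtype, ← h1]
        refine Finset.sum_congr rfl fun d _ => ?_
        rw [Nat.card_eq_fintype_card, Fintype.card_subtype]
      have key2 : ∀ (K : Type _) [Group K] [Fintype K], (∑ d ∈ n.divisors, Nat.card {g : K // orderOf g = d}) =
          Nat.card {g : K // g ^ n = 1} := by
        intro K _ _
        have h1 := sum_card_orderOf_eq_card_pow_eq_one (G := K) hn.ne'
        rw [Nat.card_eq_fintype_card, Fintype.card_subtype, ← h1]
        refine Finset.sum_congr rfl fun d _ => ?_
        rw [Nat.card_eq_fintype_card, Fintype.card_subtype]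
      have h1 := key G
      have h2 := key2 H
      rw [← Nat.insert_self_properDivisors hn.ne', Finset.sum_insert Nat.self_notMem_properDivisors] at h1 h2
      have h3 : ∑ d ∈ n.properDivisors, Nat.card {g : G // orderOf g = d} =
          ∑ d ∈ n.properDivisors, Nat.card {g : H // orderOf g = d} :=
        Finset.sum_congr rfl fun d hd => ih d (Nat.mem_properDivisors.1 hd).2
      have h4 := h n
      omega

end Cfsg.Agent.S4377
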