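import Cfsg.Statements.S4387
import Mathlib
import Cfsg.Agent.Lib.ConjCover
import Cfsg.Agent.Lib.Basic

set_option autoImplicit false
open Pointwise
open Cfsg

namespace Cfsg.Agent.S4387

open Subgroup Cfsg.Agent.Lib.Basic

/-- Let G be a non-trivial finite group in which any two maximal subgroups are conjugate. Then G is cyclic of prime-power order. -/
theorem result {G : Type*} [Group G] [Finite G] [Nontrivial G]
    (h : ∀ M N : Subgroup G, IsCoatom M → IsCoatom N → ∃ g : G, N = MulAut.conj g • M) :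
    IsCyclic G ∧ IsPrimePow (Nat.card G) := by
  obtain ⟨M, hM, -⟩ := exists_le_coatom (bot_ne_top (α := Subgroup G))
  obtain ⟨g, hg⟩ : ∃ g : G, ∀ c : G, c⁻¹ * g * c ∉ M := by
    by_contra hc
    push Not at hc
    exact hM.1 (Cfsg.Agent.Lib.ConjCover.eq_top_of_conj_cover M hc)
  have hgtop : zpowers g = ⊤ := by
    by_contra hc
    obtain ⟨N, hN, hgN⟩ := exists_le_coatom hc
    obtain ⟨c, hc⟩ := h M N hM hN
    have h1 : g ∈ N := hgN (mem_zpowers g)
    rw [hc, Subgroup.mem_pointwise_smul_iff_inv_smul_mem] at h1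
    apply hg c
    have : (MulAut.conj c)⁻¹ • g = c⁻¹ * g * c := by
      rw [← map_inv]
      change c⁻¹ * g * c⁻¹⁻¹ = _
      rw [inv_inv]
    rwa [this] at h1
  have hcyc : IsCyclic G := ⟨g, fun x => by
    have : x ∈ zpowers g := by rw [hgtop]; trivial
    exact this⟩
  refine ⟨hcyc, ?_⟩
  have hord : orderOf g = Nat.card G := by
    rw [← Nat.card_zpowers, hgtop, card_top]
  letI : CommGroup G := IsCyclic.commGroup
  have huniq : ∀ N : Subgroup G, N ≠ ⊤ → N ≤ M := by
    intro N hN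
    obtain ⟨N', hN', hle⟩ := exists_le_coatom hN
    obtain ⟨c, hc⟩ := h M N' hM hN'
    have : N' = M := by
      rw [hc]
      ext x
      rw [Subgroup.mem_pointwise_smul_iff_inv_smul_mem]
      have : (MulAut.conj c)⁻¹ • x = x := by
        rw [← map_inv]
        change c⁻¹ * x * c⁻¹⁻¹ = _
        rw [inv_inv, mul_comm c⁻¹ x, inv_mul_cancel_right]
      rw [this]
    exact this ▸ hle
  have hpow : ∀ p : ℕ, p.Prime → p ∣ Nat.card G → g ^ p ∈ M := by
    intro p hp hpd
    apply huniq (zpowers (g ^ p)) _ (mem_zpowers _)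
    intro htop
    have h1 : orderOf (g ^ p) = Nat.card G := by rw [← Nat.card_zpowers, htop, card_top]
    rw [orderOf_pow_of_dvd hp.ne_zero (by rw [hord]; exact hpd), hord] at h1
    have h2 : Nat.card G / p < Nat.card G := Nat.div_lt_self Nat.card_pos hp.one_lt
    omega
  rw [isPrimePow_iff_unique_prime_dvd]
  have hne1 : Nat.card G ≠ 1 := Finite.one_lt_card.ne'
  refine ⟨(Nat.card G).minFac, ⟨Nat.minFac_prime hne1, Nat.minFac_dvd _⟩, ?_⟩
  rintro q ⟨hq, hqd⟩
  by_contra hne
  have hp := Nat.minFac_prime hne1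
  have hcop : Nat.Coprime q (Nat.card G).minFac := (Nat.coprime_primes hq hp).2 hne
  have h1 := hpow q hq hqd
  have h2 := hpow _ hp (Nat.minFac_dvd _)
  have h3 : g ∈ M := by
    have h4 : g ^ (Int.gcd (q : ℤ) ((Nat.card G).minFac : ℤ) : ℤ) ∈ M := by
      rw [Int.gcd_eq_gcd_ab, zpow_add, zpow_mul, zpow_mul]
      exact mul_mem (zpow_mem (by rw [zpow_natCast]; exact h1) _)
        (zpow_mem (by rw [zpow_natCast]; exact h2) _)
    have h5 : Int.gcd (q : ℤ) ((Nat.card G).minFac : ℤ) = 1 := by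
      rw [Int.gcd_natCast_natCast]; exact hcop
    rw [h5, Nat.cast_one, zpow_one] at h4
    exact h4
  exact hM.1 (eq_top_iff.2 (hgtop ▸ (zpowers_le.2 h3)))

end Cfsg.Agent.S4387
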