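import Cfsg.Statements.S4399
import Mathlib
import Cfsg.Agent.Lib.PGrpJ

set_option autoImplicit false
open Cfsg

namespace Cfsg.Agent.S4399

/-- Let S be a finite 2-group whose commutator quotient S/[S,S] is a Klein four-group (order 4 and exponent 2). Then S itself has order 4, or S is dihedral of order at least 8, semidihedral of order at least 16 (order 2^(k+4) with an element a of order 2^(k+3) and an involution b with b a b⁻¹ = a^(2^(k+2)−1)), or generalized quaternion of order at least 8. -/
theorem result {S : Type*} [Group S] [Finite S] (h2 : IsPGroup 2 S) (hab : Nat.card (Abelianization S) = 4)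
    (hexp : ∀ x : Abelianization S, x ^ 2 = 1) :
    Nat.card S = 4 ∨
    ((∃ k : ℕ, Nonempty (S ≃* DihedralGroup (2 ^ (k + 2)))) ∨
      (∃ k : ℕ, Nat.card S = 2 ^ (k + 4) ∧ ∃ a b : S, orderOf a = 2 ^ (k + 3) ∧ orderOf b = 2 ∧ b * a * b⁻¹ = a ^ (2 ^ (k + 2) - 1)) ∨
      (∃ k : ℕ, Nonempty (S ≃* QuaternionGroup (2 ^ (k + 1))))) := by
  have hpos : 0 < Nat.card S := Nat.card_pos
  obtain ⟨n, hn⟩ := (IsPGroup.iff_card (p := 2)).1 h2
  have hdvd : Nat.card (Abelianization S) ∣ Nat.card S := Subgroup.card_quotient_dvd_card _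
  rw [hab, hn] at hdvd
  have hn2 : 2 ≤ n := by
    by_contra hlt
    have : n = 0 ∨ n = 1 := by omega
    rcases this with rfl | rfl
    · norm_num at hdvd
    · norm_num at hdvd
  by_cases hn3 : n = 2
  · left; rw [hn, hn3]; norm_num
  · right
    have hn3' : 3 ≤ n := by omega
    have hc := (Cfsg.Agent.Lib.PGrpJ.maxClass_of_card_abelianization n S hn2 hn hab).2 hn3'
    have := h2.isNilpotent
    obtain ⟨a, b, ha, hb, -, h | h | h⟩ := Cfsg.Agent.Lib.PGrpJ.maxClass_generators hn3' hn hc
    · left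
      obtain ⟨e⟩ := Cfsg.Agent.Lib.PGrpD.dihedral_iso h.1 h.2 hb (by
        rw [hn, ha, ← pow_succ']
        congr 1; omega)
      refine ⟨n - 3, ?_⟩
      rw [ha] at e
      have e1 : n - 3 + 2 = n - 1 := by omega
      rw [e1]
      exact ⟨e⟩
    · right; right
      obtain ⟨e⟩ := Cfsg.Agent.Lib.PGrpD.quaternion_iso (m := n - 2) (a := a) (b := b) (by
        rw [ha]; congr 1; omega) h.1 h.2 hb (by
        rw [hn]; congr 1; omega)
      refine ⟨n - 3, ?_⟩
      have e1 : n - 3 + 1 = n - 2 := by omega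
      rw [e1]
      exact ⟨e⟩
    · right; left
      refine ⟨n - 4, by rw [hn]; congr 1; omega, a, b, by rw [ha]; congr 1; omega, ?_, ?_⟩
      · apply orderOf_eq_prime h.2.1
        rintro rfl
        exact hb (one_mem _)
      · rw [h.2.2]
        congr 3
        omega

end Cfsg.Agent.S4399
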