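import Cfsg.Statements.S4420
import Mathlib

set_option autoImplicit false
open Cfsg

namespace Cfsg.Agent.S4420

open Subgroup

/-- Structure of groups in which every element outside some proper subgroup has square 1. Let H be a finite group with a proper subgroup A such that every element outside A has square 1. Then H has an abelian normal subgroup B of index 2 such that every element outside B is an involution inverting every element of B; and if H is not an elementary abelian 2-group, B is the only abelian normal subgroup of index 2 with this property. -/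
theorem result {H : Type*} [Group H] [Finite H] (A : Subgroup H) (hA : A ≠ ⊤) (hD : ∀ x : H, x ∉ A → x ^ 2 = 1) :
    ∃ B : Subgroup H, B.Normal ∧ IsMulCommutative ↥B ∧ B.index = 2 ∧
      (∀ x : H, x ∉ B → x ^ 2 = 1 ∧ ∀ b ∈ B, x * b * x⁻¹ = b⁻¹) ∧
      (¬ (IsMulCommutative H ∧ ∀ x : H, x ^ 2 = 1) →
        ∀ B' : Subgroup H, B'.Normal → IsMulCommutative ↥B' → B'.index = 2 →
          (∀ x : H, x ∉ B' → x ^ 2 = 1 ∧ ∀ b ∈ B', x * b * x⁻¹ = b⁻¹) → B' = B) := by
  have hinv : ∀ x : H, x ∉ A → ∀ a ∈ A, x * a * x⁻¹ = a⁻¹ := by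
    intro x hx a ha
    have h1 : (x * a) ^ 2 = 1 := hD _ (fun h => hx ((A.mul_mem_cancel_right ha).1 h))
    have h2 := hD x hx
    rw [pow_two] at h1 h2
    have h3 : x⁻¹ = x := inv_eq_of_mul_eq_one_left h2
    rw [h3]
    have : x * a * x * a = 1 := by rw [← h1]; group
    exact eq_inv_of_mul_eq_one_left this
  obtain ⟨x₀, hx₀⟩ : ∃ x, x ∉ A := by
    by_contra hc
    push Not at hc
    exact hA (eq_top_iff.2 fun x _ => hc x)
  have hcomm : ∀ a ∈ A, ∀ b ∈ A, a * b = b * a := by
    intro a ha b hb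
    have h1 := hinv x₀ hx₀ (a * b) (mul_mem ha hb)
    have h2 : x₀ * (a * b) * x₀⁻¹ = (x₀ * a * x₀⁻¹) * (x₀ * b * x₀⁻¹) := by group
    rw [h2, hinv x₀ hx₀ a ha, hinv x₀ hx₀ b hb, mul_inv_rev] at h1
    have h3 := congrArg (fun z => z⁻¹) h1
    simpa using h3.symm
  have huniq : ∀ B : Subgroup H, B.index = 2 →
      (∀ x : H, x ∉ B → x ^ 2 = 1 ∧ ∀ b ∈ B, x * b * x⁻¹ = b⁻¹) →
      (¬ (IsMulCommutative H ∧ ∀ x : H, x ^ 2 = 1) →
        ∀ B' : Subgroup H, B'.Normal → IsMulCommutative ↥B' → B'.index = 2 →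
          (∀ x : H, x ∉ B' → x ^ 2 = 1 ∧ ∀ b ∈ B', x * b * x⁻¹ = b⁻¹) → B' = B) := by
    intro B hB2 hB hne B' hB'n hB'c hB'2 hB'
    obtain ⟨h, hh⟩ : ∃ h : H, h ^ 2 ≠ 1 := by
      by_contra hc
      push Not at hc
      apply hne
      refine ⟨⟨⟨fun a b => ?_⟩⟩, hc⟩
      have e : ∀ x : H, x⁻¹ = x := fun x => inv_eq_of_mul_eq_one_left (by rw [← pow_two]; exact hc x)
      calc a * b = (a * b)⁻¹ := (e _).symm
        _ = b⁻¹ * a⁻¹ := mul_inv_rev _ _
        _ = b * a := by rw [e, e]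
    have hhB : h ∈ B := by by_contra hc; exact hh (hB h hc).1
    have hhB' : h ∈ B' := by by_contra hc; exact hh (hB' h hc).1
    have hle : B' ≤ B := by
      intro x hx
      by_contra hxB
      have h1 := (hB x hxB).2 h hhB
      have h2 : x * h = h * x := congrArg Subtype.val (hB'c.is_comm.comm ⟨x, hx⟩ ⟨h, hhB'⟩)
      rw [h2] at h1
      have h3 : h = h⁻¹ := by rw [← h1]; group
      apply hh
      rw [pow_two]
      nth_rewrite 1 [h3]
      exact inv_mul_cancel h
    apply eq_of_le_of_card_ge hle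
    have h1 := B.card_mul_index
    have h2 := B'.card_mul_index
    rw [hB2] at h1
    rw [hB'2] at h2
    omega
  by_cases hcase : ∀ x y : H, x ∉ A → y ∉ A → x * y ∈ A
  · have hidx : A.index = 2 := by
      rw [index_eq_two_iff]
      refine ⟨x₀, fun b => ?_⟩
      by_cases hb : b ∈ A
      · right
        exact ⟨hb, fun h => hx₀ ((A.mul_mem_cancel_left hb).1 h)⟩
      · left
        exact ⟨hcase b x₀ hb hx₀, hb⟩
    refine ⟨A, normal_of_index_eq_two hidx, ⟨⟨fun a b => Subtype.ext (hcomm a a.2 b b.2)⟩⟩, hidx,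
      fun x hx => ⟨hD x hx, hinv x hx⟩, ?_⟩
    exact huniq A hidx (fun x hx => ⟨hD x hx, hinv x hx⟩)
  · push Not at hcase
    obtain ⟨x, y, hx, hy, hxy⟩ := hcase
    have hsq : ∀ a ∈ A, a ^ 2 = 1 := by
      intro a ha
      have h1 := hinv (x * y) hxy a ha
      have h2 : x * y * a * (x * y)⁻¹ = x * (y * a * y⁻¹) * x⁻¹ := by group
      rw [h2, hinv y hy a ha, hinv x hx _ (inv_mem ha), inv_inv] at h1
      rw [pow_two]
      nth_rewrite 1 [h1]
      exact inv_mul_cancel a
    have hall : ∀ h : H, h ^ 2 = 1 := fun h => by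
      by_cases hh : h ∈ A
      · exact hsq h hh
      · exact hD h hh
    have e : ∀ x : H, x⁻¹ = x := fun x => inv_eq_of_mul_eq_one_left (by rw [← pow_two]; exact hall x)
    have hab : ∀ a b : H, a * b = b * a := by
      intro a b
      calc a * b = (a * b)⁻¹ := (e _).symm
        _ = b⁻¹ * a⁻¹ := mul_inv_rev _ _
        _ = b * a := by rw [e, e]
    haveI : Fact (Nat.Prime 2) := ⟨Nat.prime_two⟩
    have hp : IsPGroup 2 H := fun g => ⟨1, by rw [pow_one]; exact hall g⟩
    obtain ⟨n, hn⟩ := IsPGroup.iff_card.1 hp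
    haveI : Nontrivial H := ⟨⟨x₀, 1, fun h => hx₀ (h ▸ A.one_mem)⟩⟩
    have hn0 : n ≠ 0 := by
      rintro rfl
      have := Finite.one_lt_card (α := H)
      rw [hn] at this
      simp at this
    obtain ⟨m, rfl⟩ := Nat.exists_eq_succ_of_ne_zero hn0
    obtain ⟨B, hB⟩ := Sylow.exists_subgroup_card_pow_prime 2 (n := m) (G := H) (by
      rw [hn, Nat.succ_eq_add_one, pow_succ]; exact dvd_mul_right _ _)
    have hB2 : B.index = 2 := by
      have h1 := B.card_mul_index
      rw [hB, hn, Nat.succ_eq_add_one, pow_succ] at h1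
      exact Nat.eq_of_mul_eq_mul_left (by positivity) h1
    refine ⟨B, normal_of_index_eq_two hB2, ⟨⟨fun a b => Subtype.ext (hab a b)⟩⟩, hB2, ?_, ?_⟩
    · intro x _
      refine ⟨hall x, fun b _ => ?_⟩
      rw [hab x b, e b]; group
    · intro hne
      exact absurd ⟨⟨⟨hab⟩⟩, hall⟩ hne

end Cfsg.Agent.S4420
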