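import Cfsg.Statements.S4550
import Cfsg.Agent.Lib.BlkH8A

set_option autoImplicit false
set_option linter.style.haveILetI false
set_option linter.unusedVariables false
open Cfsg

namespace Cfsg.Agent.S4550
open Cfsg.Agent.Lib.BlkH8A Cfsg.Agent.Lib.BlockRey Cfsg.Agent.Lib.BlockPC Cfsg.Agent.Lib.BlockRk Cfsg.Agent.Lib.BlockInt Cfsg.Agent.Lib.BlockIndIn Cfsg.Agent.Lib.BlockMaxB Cfsg.Agent.Lib.BlockMax Cfsg.Agent.Lib.BlockNilC Cfsg.Agent.Lib.BlockNilB Cfsg.Agent.Lib.BlockNil Cfsg.Agent.Lib.BlockFusB Cfsg.Agent.Lib.BlockFus Cfsg.Agent.Lib.BlockPairF Cfsg.Agent.Lib.BlockPairE Cfsg.Agent.Lib.BlockPairD Cfsg.Agent.Lib.BlockPairC Cfsg.Agent.Lib.BlockPairB Cfsg.Agent.Lib.BlockPair Cfsg.Agent.Lib.BlockBP Cfsg.Agent.Lib.BlockCovB Cfsg.Agent.Lib.BlockTr Cfsg.Agent.Lib.BlockMoreB Cfsg.Agent.Lib.BlockMore Cfsg.Agent.Lib.BlockQuotB Cfsg.Agent.Lib.BlockQuot Cfsg.Agent.Lib.BlockCov Cfsg.Agent.Lib.BlockM Cfsg.Agent.Lib.BlockHt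 Cfsg.Agent.Lib.BlockFirst Cfsg.Agent.Lib.BlockSecond Cfsg.Agent.Lib.BlockInd Cfsg.Agent.Lib.BlockNP Cfsg.Agent.Lib.BlockDeg Cfsg.Agent.Lib.BlockDef Cfsg.Agent.Lib.BlockRed Cfsg.Agent.Lib.BlockOrth Cfsg.Agent.Lib.BlockIdem Cfsg.Agent.Lib.BlockGA Cfsg.Agent.Lib.BlockLoc Cfsg.Agent.Lib.CharBasic Cfsg.Agent.Lib.BlockPP Cfsg.Agent.Lib.CharNormal Cfsg.Agent.Lib.CharPerm Cfsg.Agent.Lib.CharPermB Cfsg.Agent.Lib.BlockSum Cfsg.Agent.Lib.BlockKB Cfsg.Agent.Lib.BlockLar Cfsg.Agent.Lib.BlockBFM Cfsg.Agent.Lib.BlkH7R Cfsg.Agent.Lib.BlkH6L Cfsg.Agent.Lib.BlkH6K Cfsg.Agent.Lib.BlkH6J Cfsg.Agent.Lib.BlkH6I Cfsg.Agent.Lib.BlkH6H Cfsg.Agent.Lib.BlkH6G Cfsg.Agent.Lib.BlkH5T Cfsg.Agent.Lib.BlkH5Q Cfsg.Agent.Lib.BlkH5P Cfsg.Agent.Lib.BlkH5O Cfsg.Agent.Lib.BlkH5N Cfsg.Agent.Lib.BlkH5A Cfsg.Agent.Lib.BlkH5G Cfsg.Agent.Lib.BlkH5B Cfsg.Agent.Lib.BlkH5C Cfsg.Agent.Lib.BlkH5D Cfsg.Agent.Lib.BlkH5E Cfsg.Agent.Lib.BlkH5F Cfsg.Agent.Lib.BlkH5L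 Cfsg.Agent.Lib.BlkH5M Cfsg.Agent.Lib.BlkH5R Cfsg.Agent.Lib.BlkH5S Cfsg.Agent.Lib.BlkH5U Cfsg.Agent.Lib.BlkH5V Cfsg.Agent.Lib.BlkH5W Cfsg.Agent.Lib.BlkH5X Cfsg.Agent.Lib.BlkH6F Cfsg.Agent.Lib.BlkH6N Cfsg.Agent.Lib.BlkH6M Cfsg.Agent.Lib.BlkH6D Cfsg.Agent.Lib.BlkH6C Cfsg.Agent.Lib.BlkH6B Cfsg.Agent.Lib.BlkH6A Cfsg.Agent.Lib.BlkH5Y Cfsg.Agent.Lib.BlkH7C Cfsg.Agent.Lib.BlkH7A Cfsg.Agent.Lib.BlkH7B Cfsg.Agent.Lib.BlkH7E Cfsg.Agent.Lib.BlkH7D Cfsg.Agent.Lib.BlkH7F Cfsg.Agent.Lib.BlkH7G Cfsg.Agent.Lib.BlkH6P Cfsg.Agent.Lib.BlkH6O Cfsg.Agent.Lib.BlkH7H Cfsg.Agent.Lib.BlkH7I Cfsg.Agent.Lib.BlkH7J Cfsg.Agent.Lib.BlkH7K Cfsg.Agent.Lib.BlkH7L Cfsg.Agent.Lib.BlkH7M Cfsg.Agent.Lib.BlkH7N Cfsg.Agent.Lib.BlkH7O Cfsg.Agent.Lib.BlkH7P Cfsg.Agent.Lib.BlkH7Q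
open scoped ComplexConjugate



/-- Let G be a finite group of even order and M a maximal ideal of the algebraic integers containing 2. Let k be a natural number with g ^ k = g ^ 3 for every 2-element g and g ^ k = g for every element g of odd order (such k exist); an irreducible character χ is unchanged by g ↦ g ^ k exactly when it is fixed by the field automorphism that cubes the 2-power roots of unity and fixes the roots of unity of odd order. Then the number of members χ of the principal 2-block of odd degree with χ (g ^ k) = χ g for all g is even. -/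
theorem result {G : Type*} [Group G] [Finite G] (M : Ideal Cfsg.AlgInt) (hM : Cfsg.IsPModular 2 M) (hev : Even (Nat.card G)) (k : ℕ) (hk₁ : ∀ g : G, (∃ j : ℕ, orderOf g = 2 ^ j) → g ^ k = g ^ 3) (hk₂ : ∀ g : G, Odd (orderOf g) → g ^ k = g) : Even (Nat.card {χ : Cfsg.IrrCharacter G // χ ∈ Cfsg.principalBlock M G ∧ Odd (Cfsg.charDegree (χ : G → ℂ)) ∧ ∀ g : G, (χ : G → ℂ) (g ^ k) = (χ : G → ℂ) g}) := by
  classical
  cases nonempty_fintype G
  haveI : Fact (Nat.Prime 2) := ⟨Nat.prime_two⟩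
  have hk : Nat.Coprime k (Nat.card G) := by
    rw [Nat.coprime_iff_gcd_eq_one]
    by_contra hne
    obtain ⟨r, hr, hrd⟩ := Nat.exists_prime_and_dvd hne
    have h1 : r ∣ k := hrd.trans (Nat.gcd_dvd_left _ _)
    have h2 : r ∣ Nat.card G := hrd.trans (Nat.gcd_dvd_right _ _)
    haveI : Fact r.Prime := ⟨hr⟩
    obtain ⟨x, hx⟩ := exists_prime_orderOf_dvd_card' r h2
    have h3 : x ^ k = 1 := by
      obtain ⟨c, rfl⟩ := h1
      rw [pow_mul, ← hx, pow_orderOf_eq_one, one_pow]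
    have h4 : x ^ k = x := by
      rcases hr.eq_two_or_odd' with h | h
      · rw [hk₁ x ⟨1, by rw [hx, h, pow_one]⟩]
        have : x ^ 2 = 1 := by rw [← h, ← hx]; exact pow_orderOf_eq_one x
        rw [pow_succ, this, one_mul]
      · exact hk₂ x (by rw [hx]; exact h)
    rw [h3] at h4
    rw [← h4, orderOf_one] at hx
    exact hr.one_lt.ne hx
  have hreg : ∀ g : G, ¬ 2 ∣ orderOf g → g ^ k = g := fun g hg =>
    hk₂ g (Nat.not_even_iff_odd.1 (fun h => hg (even_iff_two_dvd.1 h)))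
  have hB := principal_isPBlock M G
  have hregj : ∀ (j : ℕ) (g : G), ¬ 2 ∣ orderOf g → g ^ (k ^ j) = g := by
    intro j
    induction j with
    | zero => intro g _; rw [pow_zero, pow_one]
    | succ j ih => intro g hg; rw [pow_succ, pow_mul, ih g hg, hreg g hg]
  have h2j : ∀ (j : ℕ) (g : G), (∃ l : ℕ, orderOf g = 2 ^ l) → g ^ (k ^ j) = g ^ (3 ^ j) := by
    intro j
    induction j with
    | zero => intro g _; rw [pow_zero, pow_zero]
    | succ j ih =>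
      intro g hg
      rw [pow_succ, pow_mul, ih g hg, pow_succ, pow_mul]
      refine hk₁ _ ?_
      obtain ⟨l, hl⟩ := hg
      obtain ⟨l', -, hl'⟩ := (Nat.dvd_prime_pow Nat.prime_two).1 (hl ▸ orderOf_pow_dvd (x := g) (3 ^ j))
      exact ⟨l', hl'⟩
  set a := (Nat.card G).factorization 2 with ha
  set J := 2 ^ (a - 1) with hJ
  have ha0 : a ≠ 0 := (Nat.Prime.factorization_pos_of_dvd Nat.prime_two Nat.card_pos.ne' (even_iff_two_dvd.1 hev)).ne'
  have h3J : 3 ^ J ≡ 1 [MOD 2 ^ a] := by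
    have := Nat.ModEq.pow_totient (x := 3) (n := 2 ^ a) (by
      exact Nat.Coprime.pow_right _ (by decide))
    rwa [Nat.totient_prime_pow Nat.prime_two (Nat.pos_of_ne_zero ha0), show (2 - 1 : ℕ) = 1 from rfl, mul_one] at this
  have hall : ∀ g : G, g ^ (k ^ J) = g := by
    intro g
    have hc := pp_commute_pq 2 g
    conv_lhs => rw [← pp_mul_pq 2 g]
    rw [hc.mul_pow, hregj J _ (not_dvd_orderOf_pq Nat.prime_two g), h2j J _ (exists_orderOf_pp Nat.prime_two g)]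
    have : pp 2 g ^ (3 ^ J) = pp 2 g ^ 1 := by
      rw [pow_eq_pow_iff_modEq]
      refine h3J.of_dvd ?_
      obtain ⟨l, hl⟩ := exists_orderOf_pp Nat.prime_two g
      rw [hl]
      refine (Nat.pow_dvd_pow_iff_le_right (by norm_num)).2 ?_
      have : orderOf (pp 2 g) ∣ Nat.card G := orderOf_dvd_natCard _
      rw [hl] at this
      exact (Nat.prime_two.pow_dvd_iff_le_factorization Nat.card_pos.ne').1 this
    rw [this, pow_one, pp_mul_pq]
  let S := {χ : IrrCharacter G // χ ∈ principalBlock M G ∧ Odd (charDegree χ.1)}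
  have hdeg : ∀ χ : IrrCharacter G, charDegree (Cfsg.Agent.Lib.BlkH8A.powI hk χ).1 = charDegree χ.1 := by
    intro χ
    unfold charDegree
    rw [Cfsg.Agent.Lib.BlkH8A.powI_apply, one_pow]
  let f : Function.End S := fun χ => ⟨Cfsg.Agent.Lib.BlkH8A.powI hk χ.1,
    Cfsg.Agent.Lib.BlkH8A.powI_mem hM hk hreg hB χ.2.1, by rw [hdeg]; exact χ.2.2⟩
  have hfj : ∀ (j : ℕ) (χ : S) (g : G), ((f ^ j) χ).1.1 g = χ.1.1 (g ^ (k ^ j)) := by
    intro j
    induction j with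
    | zero => intro χ g; rw [pow_zero, pow_zero, pow_one]; rfl
    | succ j ih =>
      intro χ g
      rw [pow_succ']
      change (f ((f ^ j) χ)).1.1 g = _
      change ((f ^ j) χ).1.1 (g ^ k) = _
      rw [ih, ← pow_mul, pow_succ']
  haveI : Fintype S := Fintype.ofFinite _
  have hf : f ^ (2 ^ (a - 1)) = 1 := by
    funext χ
    apply Subtype.ext
    apply Subtype.ext
    funext g
    rw [hfj]
    change χ.1.1 (g ^ (k ^ J)) = χ.1.1 g
    rw [hall g]
  have hmod := Equiv.Perm.card_fixedPoints_modEq (p := 2) (n := a - 1) hf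
  have hcardS : Even (Fintype.card S) := by
    obtain ⟨x, hx⟩ := exists_prime_orderOf_dvd_card' 2 (even_iff_two_dvd.1 hev)
    have horth := block_orth' hM hB (g := 1) (h := x⁻¹) (by
      rw [pp_one, isConj_one_right]
      intro h
      have := (pp_eq_one_iff Nat.prime_two x⁻¹).1 h
      rw [orderOf_inv, hx] at this
      exact this dvd_rfl)
    rw [finsum_block, inv_inv] at horth
    have h2 : red hM (∑ χ ∈ Finset.univ.filter (· ∈ principalBlock M G), χ.1 1 * χ.1 x) = 0 := by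
      rw [horth, red_zero]
    rw [red_sum hM _ _ (fun χ _ => loc_mul hM (loc_char hM (isChar_of_irr χ.2) 1) (loc_char hM (isChar_of_irr χ.2) x))] at h2
    have h3 : ∀ χ : IrrCharacter G, red hM (χ.1 1 * χ.1 x) = if Odd (charDegree χ.1) then 1 else 0 := by
      intro χ
      have l1 := loc_char hM (isChar_of_irr χ.2) 1
      have lx := loc_char hM (isChar_of_irr χ.2) x
      have e1 : red hM (χ.1 x) = red hM (χ.1 1) := by
        rw [red_eq_iff hM lx l1]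
        have := Cfsg.Agent.Lib.BlockFirst.max_sub_pq hM (isChar_of_irr χ.2) x
        have hpq : pq 2 x = 1 := by
          have h5 : pp 2 x = x := pp_eq_self Nat.prime_two ⟨1, by rw [hx, pow_one]⟩
          unfold pq
          rw [h5, inv_mul_cancel]
        rwa [hpq] at this
      rw [red_mul hM l1 lx, e1, ← charDegree_cast (isChar_of_irr χ.2), red_natCast]
      by_cases ho : Odd (charDegree χ.1)
      · rw [if_pos ho]
        have : ((charDegree χ.1 : ℕ) : ResF hM) = 1 := by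
          obtain ⟨c, hc⟩ := ho
          rw [hc]
          push_cast
          have : (2 : ResF hM) = 0 := by exact_mod_cast CharP.cast_eq_zero (ResF hM) 2
          rw [this]; ring
        rw [this, mul_one]
      · rw [if_neg ho]
        have : ((charDegree χ.1 : ℕ) : ResF hM) = 0 := by
          rw [CharP.cast_eq_zero_iff (ResF hM) 2]
          exact even_iff_two_dvd.1 (Nat.not_odd_iff_even.1 ho)
        rw [this, mul_zero]
    simp only [h3] at h2
    rw [Finset.sum_ite, Finset.sum_const_zero, add_zero, Finset.sum_const, nsmul_eq_mul, mul_one,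
      CharP.cast_eq_zero_iff (ResF hM) 2] at h2
    rw [even_iff_two_dvd]
    have : Fintype.card S = (Finset.filter (fun χ : IrrCharacter G => Odd (charDegree χ.1))
        (Finset.univ.filter (· ∈ principalBlock M G))).card := by
      rw [Finset.filter_filter]
      exact Fintype.card_subtype _
    rw [this]
    exact h2
  have hfix : Nat.card {χ : IrrCharacter G // χ ∈ principalBlock M G ∧ Odd (charDegree (χ : G → ℂ)) ∧
      ∀ g : G, (χ : G → ℂ) (g ^ k) = (χ : G → ℂ) g} = Fintype.card (Function.fixedPoints f) := by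
    rw [← Nat.card_eq_fintype_card]
    refine Nat.card_congr ⟨fun χ => ⟨⟨χ.1, χ.2.1, χ.2.2.1⟩, ?_⟩, fun χ => ⟨χ.1.1, χ.1.2.1, χ.1.2.2, ?_⟩, fun _ => rfl, fun _ => rfl⟩
    · apply Subtype.ext
      apply Subtype.ext
      funext g
      exact χ.2.2.2 g
    · intro g
      have := χ.2
      have h5 := congrArg (fun y : S => y.1.1 g) this
      exact h5
  rw [hfix]
  rw [even_iff_two_dvd] at hcardS ⊢
  exact (Nat.modEq_zero_iff_dvd.1 (hmod.symm.trans (Nat.modEq_zero_iff_dvd.2 hcardS)))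

end Cfsg.Agent.S4550
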