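import Cfsg.Statements.S4551
import Cfsg.Agent.Lib.BlkH8J

set_option autoImplicit false
set_option linter.style.haveILetI false
set_option linter.unusedVariables false
open Cfsg

namespace Cfsg.Agent.S4551
open Cfsg.Agent.Lib.BlkH8J Cfsg.Agent.Lib.BlockRey Cfsg.Agent.Lib.BlockPC Cfsg.Agent.Lib.BlockRk Cfsg.Agent.Lib.BlockInt Cfsg.Agent.Lib.BlockIndIn Cfsg.Agent.Lib.BlockMaxB Cfsg.Agent.Lib.BlockMax Cfsg.Agent.Lib.BlockNilC Cfsg.Agent.Lib.BlockNilB Cfsg.Agent.Lib.BlockNil Cfsg.Agent.Lib.BlockFusB Cfsg.Agent.Lib.BlockFus Cfsg.Agent.Lib.BlockPairF Cfsg.Agent.Lib.BlockPairE Cfsg.Agent.Lib.BlockPairD Cfsg.Agent.Lib.BlockPairC Cfsg.Agent.Lib.BlockPairB Cfsg.Agent.Lib.BlockPair Cfsg.Agent.Lib.BlockBP Cfsg.Agent.Lib.BlockCovB Cfsg.Agent.Lib.BlockTr Cfsg.Agent.Lib.BlockMoreB Cfsg.Agent.Lib.BlockMore Cfsg.Agent.Lib.BlockQuotB Cfsg.Agent.Lib.BlockQuot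 Cfsg.Agent.Lib.BlockCov Cfsg.Agent.Lib.BlockM Cfsg.Agent.Lib.BlockHt Cfsg.Agent.Lib.BlockFirst Cfsg.Agent.Lib.BlockSecond Cfsg.Agent.Lib.BlockInd Cfsg.Agent.Lib.BlockNP Cfsg.Agent.Lib.BlockDeg Cfsg.Agent.Lib.BlockDef Cfsg.Agent.Lib.BlockRed Cfsg.Agent.Lib.BlockOrth Cfsg.Agent.Lib.BlockIdem Cfsg.Agent.Lib.BlockGA Cfsg.Agent.Lib.BlockLoc Cfsg.Agent.Lib.CharBasic Cfsg.Agent.Lib.BlockPP Cfsg.Agent.Lib.CharNormal Cfsg.Agent.Lib.CharPerm Cfsg.Agent.Lib.CharPermB Cfsg.Agent.Lib.BlockSum Cfsg.Agent.Lib.BlockKB Cfsg.Agent.Lib.BlockLar Cfsg.Agent.Lib.BlockBFM Cfsg.Agent.Lib.BlkH8I Cfsg.Agent.Lib.BlkH8H Cfsg.Agent.Lib.BlkH8G Cfsg.Agent.Lib.BlkH8F Cfsg.Agent.Lib.BlkH8E Cfsg.Agent.Lib.BlkH8D Cfsg.Agent.Lib.BlkH8C Cfsg.Agent.Lib.BlkH8B Cfsg.Agent.Lib.BlkH8A Cfsg.Agent.Lib.BlkH7R Cfsg.Agent.Lib.BlkH6L Cfsg.Agent.Lib.BlkH6K Cfsg.Agent.Lib.BlkH6J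 Cfsg.Agent.Lib.BlkH6I Cfsg.Agent.Lib.BlkH6H Cfsg.Agent.Lib.BlkH6G Cfsg.Agent.Lib.BlkH5T Cfsg.Agent.Lib.BlkH5Q Cfsg.Agent.Lib.BlkH5P Cfsg.Agent.Lib.BlkH5O Cfsg.Agent.Lib.BlkH5N Cfsg.Agent.Lib.BlkH5A Cfsg.Agent.Lib.BlkH5G Cfsg.Agent.Lib.BlkH5B Cfsg.Agent.Lib.BlkH5C Cfsg.Agent.Lib.BlkH5D Cfsg.Agent.Lib.BlkH5E Cfsg.Agent.Lib.BlkH5F Cfsg.Agent.Lib.BlkH5L Cfsg.Agent.Lib.BlkH5M Cfsg.Agent.Lib.BlkH5R Cfsg.Agent.Lib.BlkH5S Cfsg.Agent.Lib.BlkH5U Cfsg.Agent.Lib.BlkH5V Cfsg.Agent.Lib.BlkH5W Cfsg.Agent.Lib.BlkH5X Cfsg.Agent.Lib.BlkH6F Cfsg.Agent.Lib.BlkH6N Cfsg.Agent.Lib.BlkH6M Cfsg.Agent.Lib.BlkH6D Cfsg.Agent.Lib.BlkH6C Cfsg.Agent.Lib.BlkH6B Cfsg.Agent.Lib.BlkH6A Cfsg.Agent.Lib.BlkH5Y Cfsg.Agent.Lib.BlkH7C Cfsg.Agent.Lib.BlkH7A Cfsg.Agent.Lib.BlkH7B Cfsg.Agent.Lib.BlkH7E Cfsg.Agent.Lib.BlkH7D Cfsg.Agent.Lib.BlkH7F Cfsg.Agent.Lib.BlkH7G Cfsg.Agent.Lib.BlkH6P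 Cfsg.Agent.Lib.BlkH6O Cfsg.Agent.Lib.BlkH7H Cfsg.Agent.Lib.BlkH7I Cfsg.Agent.Lib.BlkH7J Cfsg.Agent.Lib.BlkH7K Cfsg.Agent.Lib.BlkH7L Cfsg.Agent.Lib.BlkH7M Cfsg.Agent.Lib.BlkH7N Cfsg.Agent.Lib.BlkH7O Cfsg.Agent.Lib.BlkH7P Cfsg.Agent.Lib.BlkH7Q Cfsg.Agent.Lib.BlockKul
open scoped ComplexConjugate



/-- Let N be a normal subgroup of the finite group G of index prime to p, P a Sylow p-subgroup of G with G = N·C_G(P), and M a maximal ideal of the algebraic integers containing p. Then restriction to N is a bijection from the principal p-block of G onto the principal p-block of N: every member of the principal block of G restricts to a member of the principal block of N, and every member of the principal block of N is the restriction of exactly one member of the principal block of G. -/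
theorem result {G : Type*} [Group G] [Finite G] (p : ℕ) [Fact p.Prime] (M : Ideal Cfsg.AlgInt) (hM : Cfsg.IsPModular p M) (N : Subgroup G) [N.Normal] (hidx : ¬ p ∣ N.index) (P : Sylow p G) (hsup : N ⊔ Subgroup.centralizer ((P : Subgroup G) : Set G) = ⊤) : (∀ χ ∈ Cfsg.principalBlock M G, ∃ θ ∈ Cfsg.principalBlock M ↥N, ∀ n : N, (χ : G → ℂ) n = (θ : N → ℂ) n) ∧ ∀ θ ∈ Cfsg.principalBlock M ↥N, ∃! χ : Cfsg.IrrCharacter G, χ ∈ Cfsg.principalBlock M G ∧ ∀ n : N, (χ : G → ℂ) n = (θ : N → ℂ) n := by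
  classical
  cases nonempty_fintype G
  letI : Fintype N := Fintype.ofFinite _
  have hp : p.Prime := Fact.out
  have hPN : (P : Subgroup G) ≤ N := by
    intro x hx
    have h1 : orderOf (x : G ⧸ N) ∣ N.index := by
      rw [Subgroup.index_eq_card]; exact orderOf_dvd_natCard _
    obtain ⟨k, hk⟩ := IsPGroup.iff_orderOf.1 P.2 ⟨x, hx⟩
    rw [← Subgroup.orderOf_coe] at hk
    have hk' : orderOf x = p ^ k := hk
    have h2 : orderOf (x : G ⧸ N) ∣ p ^ k := by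
      rw [← hk']; exact orderOf_map_dvd (QuotientGroup.mk' N) x
    have h3 : orderOf (x : G ⧸ N) = 1 :=
      Nat.eq_one_of_dvd_coprimes (((hp.coprime_iff_not_dvd.2 hidx).symm).pow_right k) h1 h2
    exact (QuotientGroup.eq_one_iff x).1 (orderOf_eq_one_iff.1 h3)
  have hcov : ∀ γ : G ⧸ N, ∃ g : G, (g : G ⧸ N) = γ ∧ ∀ x ∈ (P : Subgroup G), Commute g x := by
    intro γ
    obtain ⟨g, hg, e⟩ := Cfsg.Agent.Lib.BlkH8H.cover_of_sup hsup γ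
    exact ⟨g, e, fun x hx => ((Subgroup.mem_centralizer_iff.1 hg x hx).symm)⟩
  have hQ : ¬ p ∣ ((P : Subgroup G).subgroupOf N).index := by
    intro hd
    exact P.not_dvd_index (hd.trans (Subgroup.relIndex_dvd_index_of_le hPN))
  obtain ⟨Z⟩ := Cfsg.Agent.Lib.BlkH8H.exists_Zs (M := M) hM ((P : Subgroup G).subgroupOf N) hQ (by
    intro γ
    obtain ⟨g, e, hc⟩ := hcov γ
    exact ⟨g, e, fun q hq => (hc q hq).symm⟩)
  have hf := Cfsg.Agent.Lib.BlkH8J.coset_sum hM P hidx hcov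
  have hmain := fun {θ : IrrCharacter N} (hθ : θ ∈ principalBlock M N) {χ : IrrCharacter G}
    (hχ : χ ∈ principalBlock M G) (hov : Over χ θ) => Cfsg.Agent.Lib.BlkH8I.main hM Z hf hθ hχ hov
  have hov_of : ∀ {θ : IrrCharacter N} {χ : IrrCharacter G}, (∀ n : N, χ.1 n = θ.1 n) → Over χ θ := by
    intro θ χ h
    unfold Over
    have : (fun n : N => χ.1 (n : G)) = θ.1 := funext h
    rw [this, irr_inner_self θ.2]
    exact one_ne_zero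
  constructor
  · intro χ hχ
    obtain ⟨θ, hθ⟩ := exists_over_below (N := N) χ
    have hθB := Cfsg.Agent.Lib.BlkH8F.mem_below hM hχ hθ
    exact ⟨θ, hθB, (hmain hθB hχ hθ).1⟩
  · intro θ hθ
    obtain ⟨χ, hχ, hov⟩ := Cfsg.Agent.Lib.BlkH8F.exists_above (G := G) hM hθ
    refine ⟨χ, ⟨hχ, (hmain hθ hχ hov).1⟩, ?_⟩
    rintro χ' ⟨hχ', h'⟩
    exact (hmain hθ hχ hov).2 χ' hχ' (hov_of h')

end Cfsg.Agent.S4551
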