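import Cfsg.Statements.S4566
import Cfsg.Agent.Lib.BlockMore
import Cfsg.Agent.Lib.CharMono

set_option autoImplicit false
open Cfsg

namespace Cfsg.Agent.S4566

/-- Let N be a central subgroup of the finite group G, ψ a faithful irreducible (hence degree-one) character of N, and χ an irreducible character of G whose restriction to N contains ψ. If g ∈ G and some x ∈ G has commutator x⁻¹ g⁻¹ x g in N but different from 1, then χ g = 0. -/
theorem result {G : Type*} [Group G] [Fintype G] (N : Subgroup G) [Fintype N] (hN : N ≤ Subgroup.center G) (ψ : Cfsg.IrrCharacter ↥N) (hfaith : ∀ n : ↥N, (ψ : ↥N → ℂ) n = (ψ : ↥N → ℂ) 1 → n = 1) (χ : Cfsg.IrrCharacter G) (hover : Cfsg.classInner (fun n : ↥N => (χ : G → ℂ) n) (ψ : ↥N → ℂ) ≠ 0) (g x : G) (hcomm : x⁻¹ * g⁻¹ * x * g ∈ N) (hne : x⁻¹ * g⁻¹ * x * g ≠ 1) : (χ : G → ℂ) g = 0 := by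
  classical
  obtain ⟨z, hz⟩ : ∃ z, z = x⁻¹ * g⁻¹ * x * g := ⟨_, rfl⟩
  rw [← hz] at hcomm hne
  have hzc : ∀ y, Commute y z := fun y => by
    have := Subgroup.mem_center_iff.mp (hN hcomm) y
    exact this
  have h1 : x⁻¹ * g⁻¹ * x = z * g⁻¹ := by rw [hz]; group
  have hχ := Lib.CharBasic.isChar_of_irr χ.2
  have h2 : χ.1 (z * g⁻¹) = χ.1 g⁻¹ := by
    rw [← h1]
    have := Lib.CharBasic.isChar_classFn hχ g⁻¹ x⁻¹
    rw [inv_inv] at this
    exact this
  have h3 := Lib.BlockMore.irr_mul_central χ hzc g⁻¹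
  rw [h2] at h3
  have h4 : χ.1 g⁻¹ = 0 := by
    by_contra h0
    have h5 : χ.1 z / χ.1 1 = 1 := by
      have : (1 : ℂ) * χ.1 g⁻¹ = χ.1 z / χ.1 1 * χ.1 g⁻¹ := by rw [one_mul]; exact h3
      exact (mul_right_cancel₀ h0 this).symm
    have h6 : χ.1 z = χ.1 1 := by
      rw [div_eq_one_iff_eq (Lib.CharBasic.isIrr_one_ne_zero χ.2)] at h5
      exact h5
    have h7 := Lib.CharMono.constituent_ker (Lib.CharInd.isChar_res N hχ) ψ.2 hover
      (k := ⟨z, hcomm⟩) h6
    have h8 := hfaith _ h7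
    exact hne (congrArg Subtype.val h8)
  rw [Lib.CharBasic.char_inv hχ] at h4
  exact (map_eq_zero _).mp h4
end Cfsg.Agent.S4566
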