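import Cfsg.Statements.S4571
import Cfsg.Agent.Lib.BlkH5C

set_option autoImplicit false
set_option linter.style.haveILetI false
set_option linter.unusedVariables false
open Cfsg

namespace Cfsg.Agent.S4571
open Cfsg.Agent.Lib.BlkH5C Cfsg.Agent.Lib.BlockRey Cfsg.Agent.Lib.BlockPC Cfsg.Agent.Lib.BlockRk Cfsg.Agent.Lib.BlockInt Cfsg.Agent.Lib.BlockIndIn Cfsg.Agent.Lib.BlockMaxB Cfsg.Agent.Lib.BlockMax Cfsg.Agent.Lib.BlockNilC Cfsg.Agent.Lib.BlockNilB Cfsg.Agent.Lib.BlockNil Cfsg.Agent.Lib.BlockFusB Cfsg.Agent.Lib.BlockFus Cfsg.Agent.Lib.BlockPairF Cfsg.Agent.Lib.BlockPairE Cfsg.Agent.Lib.BlockPairD Cfsg.Agent.Lib.BlockPairC Cfsg.Agent.Lib.BlockPairB Cfsg.Agent.Lib.BlockPair Cfsg.Agent.Lib.BlockBP Cfsg.Agent.Lib.BlockCovB Cfsg.Agent.Lib.BlockTr Cfsg.Agent.Lib.BlockMoreB Cfsg.Agent.Lib.BlockMore Cfsg.Agent.Lib.BlockQuotB Cfsg.Agent.Lib.BlockQuot Cfsg.Agent.Lib.BlockCov Cfsg.Agent.Lib.BlockM Cfsg.Agent.Lib.BlockHt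 Cfsg.Agent.Lib.BlockFirst Cfsg.Agent.Lib.BlockSecond Cfsg.Agent.Lib.BlockInd Cfsg.Agent.Lib.BlockNP Cfsg.Agent.Lib.BlockDeg Cfsg.Agent.Lib.BlockDef Cfsg.Agent.Lib.BlockRed Cfsg.Agent.Lib.BlockOrth Cfsg.Agent.Lib.BlockIdem Cfsg.Agent.Lib.BlockGA Cfsg.Agent.Lib.BlockLoc Cfsg.Agent.Lib.CharBasic Cfsg.Agent.Lib.BlockPP Cfsg.Agent.Lib.CharNormal Cfsg.Agent.Lib.CharPerm Cfsg.Agent.Lib.CharPermB Cfsg.Agent.Lib.BlockSum Cfsg.Agent.Lib.BlockKB Cfsg.Agent.Lib.BlockLar Cfsg.Agent.Lib.BlockBFM Cfsg.Agent.Lib.BlkH5A Cfsg.Agent.Lib.BlkH5B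
open scoped ComplexConjugate



/-- Let Q be a normal p-subgroup of the finite group G with G = Q·C_G(Q), and M a maximal ideal of the algebraic integers containing p. Then the principal p-blocks of G and of G/Q have the same p-regular rank (the same number of irreducible Brauer characters). -/
theorem result {G : Type*} [Group G] [Finite G] (p : ℕ) [Fact p.Prime] (M : Ideal Cfsg.AlgInt) (hM : Cfsg.IsPModular p M) (Q : Subgroup G) [Q.Normal] (hQ : IsPGroup p Q) (hsup : Q ⊔ Subgroup.centralizer (Q : Set G) = ⊤) : Cfsg.blockRank p (Cfsg.principalBlock M G) = Cfsg.blockRank p (Cfsg.principalBlock M (G ⧸ Q)) := by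
  classical
  have hker : (QuotientGroup.mk' Q).ker = Q := QuotientGroup.ker_mk' Q
  have hkp : IsPGroup p (QuotientGroup.mk' Q).ker := by rw [hker]; exact hQ
  have hreg : ∀ x : G, ¬ p ∣ orderOf x → ∀ y ∈ (QuotientGroup.mk' Q).ker, Commute y x := by
    rw [hker]
    exact reg_comm hM.1 hQ hsup
  have hidx : ∃ k : ℕ, (Subgroup.centralizer ((QuotientGroup.mk' Q).ker : Set G)).index = p ^ k := by
    rw [hker]
    exact index_cent_pow hM.1 hQ hsup
  rw [rank_quot hM (QuotientGroup.mk' Q) (QuotientGroup.mk'_surjective Q) hkp hreg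
    (isLoc_eB hM (principal_isPBlock M G))]
  congr 1
  ext χ
  have e : triv G = inflI (QuotientGroup.mk' Q) (QuotientGroup.mk'_surjective Q) (triv (G ⧸ Q)) := rfl
  constructor
  · intro h
    have h1 : SameBlock M (triv G).1 (inflI (QuotientGroup.mk' Q) (QuotientGroup.mk'_surjective Q) χ).1 := h
    rw [e] at h1
    exact sameBlock_of_infl hM (QuotientGroup.mk' Q) (QuotientGroup.mk'_surjective Q) hkp hidx
      (χ := triv (G ⧸ Q)) (ψ := χ) h1
  · intro h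
    have h1 : SameBlock M (triv (G ⧸ Q)).1 χ.1 := h
    exact sameBlock_infl hM (QuotientGroup.mk' Q) (QuotientGroup.mk'_surjective Q) h1


end Cfsg.Agent.S4571
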