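import Cfsg.Statements.S4582
import Cfsg.Agent.Lib.BlkH8S

set_option autoImplicit false
set_option linter.style.haveILetI false
set_option linter.unusedVariables false
open Cfsg

namespace Cfsg.Agent.S4582
open Cfsg.Agent.Lib.BlkH8S Cfsg.Agent.Lib.BlockRey Cfsg.Agent.Lib.BlockPC Cfsg.Agent.Lib.BlockRk Cfsg.Agent.Lib.BlockInt Cfsg.Agent.Lib.BlockIndIn Cfsg.Agent.Lib.BlockMaxB Cfsg.Agent.Lib.BlockMax Cfsg.Agent.Lib.BlockNilC Cfsg.Agent.Lib.BlockNilB Cfsg.Agent.Lib.BlockNil Cfsg.Agent.Lib.BlockFusB Cfsg.Agent.Lib.BlockFus Cfsg.Agent.Lib.BlockPairF Cfsg.Agent.Lib.BlockPairE Cfsg.Agent.Lib.BlockPairD Cfsg.Agent.Lib.BlockPairC Cfsg.Agent.Lib.BlockPairB Cfsg.Agent.Lib.BlockPair Cfsg.Agent.Lib.BlockBP Cfsg.Agent.Lib.BlockCovB Cfsg.Agent.Lib.BlockTr Cfsg.Agent.Lib.BlockMoreB Cfsg.Agent.Lib.BlockMore Cfsg.Agent.Lib.BlockQuotB Cfsg.Agent.Lib.BlockQuot Cfsg.Agent.Lib.BlockCov Cfsg.Agent.Lib.BlockM Cfsg.Agent.Lib.BlockHt Cfsg.Agent.Lib.BlockFirst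 Cfsg.Agent.Lib.BlockSecond Cfsg.Agent.Lib.BlockInd Cfsg.Agent.Lib.BlockNP Cfsg.Agent.Lib.BlockDeg Cfsg.Agent.Lib.BlockDef Cfsg.Agent.Lib.BlockRed Cfsg.Agent.Lib.BlockOrth Cfsg.Agent.Lib.BlockIdem Cfsg.Agent.Lib.BlockGA Cfsg.Agent.Lib.BlockLoc Cfsg.Agent.Lib.CharBasic Cfsg.Agent.Lib.BlockPP Cfsg.Agent.Lib.CharNormal Cfsg.Agent.Lib.CharPerm Cfsg.Agent.Lib.CharPermB Cfsg.Agent.Lib.BlockSum Cfsg.Agent.Lib.BlockKB Cfsg.Agent.Lib.BlockLar Cfsg.Agent.Lib.BlockBFM
open scoped ComplexConjugate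



/-- Let N be a normal subgroup of the finite group G, P a Sylow 2-subgroup of G and Q = P ∩ N. Suppose that P/QP' and Q/Q' are elementary abelian (every square of an element of P lies in the subgroup generated by Q and the derived subgroup of P, and every square of an element of Q lies in the derived subgroup of Q), and that the commutator factor group N/N' has odd order. Then P/P' is elementary abelian. -/
theorem result {G : Type*} [Group G] [Finite G] (N : Subgroup G) [N.Normal] (P : Sylow 2 G)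
    (hP : ∀ x ∈ (P : Subgroup G), x ^ 2 ∈ ((P : Subgroup G) ⊓ N) ⊔ ⁅(P : Subgroup G), (P : Subgroup G)⁆)
    (hQ : ∀ x ∈ (P : Subgroup G) ⊓ N, x ^ 2 ∈ ⁅(P : Subgroup G) ⊓ N, (P : Subgroup G) ⊓ N⁆)
    (hodd : Odd (Nat.card (Abelianization N))) :
    ∀ x ∈ (P : Subgroup G), x ^ 2 ∈ ⁅(P : Subgroup G), (P : Subgroup G)⁆ := by
  classical
  set L : Subgroup G := N ⊔ (P : Subgroup G) with hL
  have hNL : N ≤ L := le_sup_left
  have hPL : (P : Subgroup G) ≤ L := le_sup_right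
  have hmP : ((P : Subgroup G).subgroupOf L).map L.subtype = P := by
    rw [Subgroup.map_subgroupOf_eq_of_le hPL]
  have hmN : (N.subgroupOf L).map L.subtype = N := by
    rw [Subgroup.map_subgroupOf_eq_of_le hNL]
  have hmI : ((P : Subgroup G).subgroupOf L ⊓ N.subgroupOf L).map L.subtype = (P : Subgroup G) ⊓ N := by
    rw [Subgroup.map_inf _ _ _ L.subtype_injective, hmP, hmN]
  have hsup : N.subgroupOf L ⊔ (P : Subgroup G).subgroupOf L = ⊤ := by
    apply Subgroup.map_injective L.subtype_injective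
    rw [Subgroup.map_sup, hmP, hmN, ← MonoidHom.range_eq_map, Subgroup.range_subtype]
  have hPp : IsPGroup 2 ((P : Subgroup G).subgroupOf L) :=
    P.2.comap_of_injective _ L.subtype_injective
  have hPi : Odd ((P : Subgroup G).subgroupOf L).index := by
    rw [← Nat.not_even_iff_odd, even_iff_two_dvd]
    intro hd
    refine P.not_dvd_index (hd.trans ?_)
    exact Dvd.intro _ (Subgroup.relIndex_mul_index hPL)
  have key := Cfsg.Agent.Lib.BlkH8S.main (G := L) (N := N.subgroupOf L) (P := (P : Subgroup G).subgroupOf L)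
    hsup hPp hPi ?_ ?_ ?_
  · intro x hx
    have h1 := key ⟨x, hPL hx⟩ hx
    have h2 := Subgroup.mem_map_of_mem L.subtype h1
    rw [Subgroup.map_commutator, hmP] at h2
    exact h2
  · intro y hy
    have h1 := hP (y : G) hy
    rw [← hmI, ← hmP, ← Subgroup.map_commutator, ← Subgroup.map_sup] at h1
    obtain ⟨z, hz, hzy⟩ := h1
    have h2 : z = y ^ 2 := Subtype.ext hzy
    rw [hmP] at hz
    exact h2 ▸ hz
  · intro y hy
    have h1 := hQ (y : G) hy
    rw [← hmI, ← Subgroup.map_commutator] at h1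
    obtain ⟨z, hz, hzy⟩ := h1
    have h2 : z = y ^ 2 := Subtype.ext hzy
    exact h2 ▸ hz
  · rw [Nat.card_congr ((Subgroup.subgroupOfEquivOfLe hNL).abelianizationCongr).toEquiv]
    exact hodd

end Cfsg.Agent.S4582
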