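import Cfsg.Statements.S4583
import Cfsg.Agent.Lib.BlkH8D

set_option autoImplicit false
set_option linter.style.haveILetI false
set_option linter.unusedVariables false
open Cfsg

namespace Cfsg.Agent.S4583
open Cfsg.Agent.Lib.BlkH8D Cfsg.Agent.Lib.BlockRey Cfsg.Agent.Lib.BlockPC Cfsg.Agent.Lib.BlockRk Cfsg.Agent.Lib.BlockInt Cfsg.Agent.Lib.BlockIndIn Cfsg.Agent.Lib.BlockMaxB Cfsg.Agent.Lib.BlockMax Cfsg.Agent.Lib.BlockNilC Cfsg.Agent.Lib.BlockNilB Cfsg.Agent.Lib.BlockNil Cfsg.Agent.Lib.BlockFusB Cfsg.Agent.Lib.BlockFus Cfsg.Agent.Lib.BlockPairF Cfsg.Agent.Lib.BlockPairE Cfsg.Agent.Lib.BlockPairD Cfsg.Agent.Lib.BlockPairC Cfsg.Agent.Lib.BlockPairB Cfsg.Agent.Lib.BlockPair Cfsg.Agent.Lib.BlockBP Cfsg.Agent.Lib.BlockCovB Cfsg.Agent.Lib.BlockTr Cfsg.Agent.Lib.BlockMoreB Cfsg.Agent.Lib.BlockMore Cfsg.Agent.Lib.BlockQuotB Cfsg.Agent.Lib.BlockQuot Cfsg.Agent.Lib.BlockCov Cfsg.Agent.Lib.BlockM Cfsg.Agent.Lib.BlockHt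 Cfsg.Agent.Lib.BlockFirst Cfsg.Agent.Lib.BlockSecond Cfsg.Agent.Lib.BlockInd Cfsg.Agent.Lib.BlockNP Cfsg.Agent.Lib.BlockDeg Cfsg.Agent.Lib.BlockDef Cfsg.Agent.Lib.BlockRed Cfsg.Agent.Lib.BlockOrth Cfsg.Agent.Lib.BlockIdem Cfsg.Agent.Lib.BlockGA Cfsg.Agent.Lib.BlockLoc Cfsg.Agent.Lib.CharBasic Cfsg.Agent.Lib.BlockPP Cfsg.Agent.Lib.CharNormal Cfsg.Agent.Lib.CharPerm Cfsg.Agent.Lib.CharPermB Cfsg.Agent.Lib.BlockSum Cfsg.Agent.Lib.BlockKB Cfsg.Agent.Lib.BlockLar Cfsg.Agent.Lib.BlockBFM Cfsg.Agent.Lib.BlkH8C Cfsg.Agent.Lib.BlkH8B Cfsg.Agent.Lib.BlkH8A Cfsg.Agent.Lib.BlkH7R Cfsg.Agent.Lib.BlkH6L Cfsg.Agent.Lib.BlkH6K Cfsg.Agent.Lib.BlkH6J Cfsg.Agent.Lib.BlkH6I Cfsg.Agent.Lib.BlkH6H Cfsg.Agent.Lib.BlkH6G Cfsg.Agent.Lib.BlkH5T Cfsg.Agent.Lib.BlkH5Q Cfsg.Agent.Lib.BlkH5P Cfsg.Agent.Lib.BlkH5O Cfsg.Agent.Lib.BlkH5N Cfsg.Agent.Lib.BlkH5A Cfsg.Agent.Lib.BlkH5G Cfsg.Agent.Lib.BlkH5B Cfsg.Agent.Lib.BlkH5C Cfsg.Agent.Lib.BlkH5D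 Cfsg.Agent.Lib.BlkH5E Cfsg.Agent.Lib.BlkH5F Cfsg.Agent.Lib.BlkH5L Cfsg.Agent.Lib.BlkH5M Cfsg.Agent.Lib.BlkH5R Cfsg.Agent.Lib.BlkH5S Cfsg.Agent.Lib.BlkH5U Cfsg.Agent.Lib.BlkH5V Cfsg.Agent.Lib.BlkH5W Cfsg.Agent.Lib.BlkH5X Cfsg.Agent.Lib.BlkH6F Cfsg.Agent.Lib.BlkH6N Cfsg.Agent.Lib.BlkH6M Cfsg.Agent.Lib.BlkH6D Cfsg.Agent.Lib.BlkH6C Cfsg.Agent.Lib.BlkH6B Cfsg.Agent.Lib.BlkH6A Cfsg.Agent.Lib.BlkH5Y Cfsg.Agent.Lib.BlkH7C Cfsg.Agent.Lib.BlkH7A Cfsg.Agent.Lib.BlkH7B Cfsg.Agent.Lib.BlkH7E Cfsg.Agent.Lib.BlkH7D Cfsg.Agent.Lib.BlkH7F Cfsg.Agent.Lib.BlkH7G Cfsg.Agent.Lib.BlkH6P Cfsg.Agent.Lib.BlkH6O Cfsg.Agent.Lib.BlkH7H Cfsg.Agent.Lib.BlkH7I Cfsg.Agent.Lib.BlkH7J Cfsg.Agent.Lib.BlkH7K Cfsg.Agent.Lib.BlkH7L Cfsg.Agent.Lib.BlkH7M Cfsg.Agent.Lib.BlkH7N Cfsg.Agent.Lib.BlkH7O Cfsg.Agent.Lib.BlkH7P Cfsg.Agent.Lib.BlkH7Q Cfsg.Agent.Lib.BlockKul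
open scoped ComplexConjugate



/-- Let N be a normal subgroup of the finite group G, p a prime, M a maximal ideal of the algebraic integers containing p, and P a Sylow p-subgroup of G. Let θ be an irreducible character of N of degree prime to p lying in the principal p-block of N, and suppose θ extends to the subgroup NP (some irreducible character of NP restricts to θ). Then some irreducible character χ of G of degree prime to p in the principal p-block of G lies over θ (θ is a constituent of the restriction of χ to N). -/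
theorem result {G : Type*} [Group G] [Finite G] (N : Subgroup G) [N.Normal] (p : ℕ) [Fact p.Prime] (M : Ideal Cfsg.AlgInt) (hM : Cfsg.IsPModular p M) (P : Sylow p G)
    (θ : Cfsg.IrrCharacter N) (hθ : θ ∈ Cfsg.principalBlock M N) (hdeg : ¬ p ∣ Cfsg.charDegree (θ : N → ℂ))
    (hext : ∃ η : Cfsg.IrrCharacter ↥(N ⊔ (P : Subgroup G)), ∀ n : N, (η : ↥(N ⊔ (P : Subgroup G)) → ℂ) (Subgroup.inclusion le_sup_left n) = (θ : N → ℂ) n) :
    ∃ χ : Cfsg.IrrCharacter G, χ ∈ Cfsg.principalBlock M G ∧ ¬ p ∣ Cfsg.charDegree (χ : G → ℂ) ∧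
      haveI := Fintype.ofFinite N; Cfsg.classInner (fun n : N => (χ : G → ℂ) n) (θ : N → ℂ) ≠ 0 := by
  classical
  cases nonempty_fintype G
  have hp : p.Prime := Fact.out
  obtain ⟨η, hη⟩ := hext
  let H : Subgroup G := N ⊔ (P : Subgroup G)
  have hHdef : H = N ⊔ (P : Subgroup G) := rfl
  haveI : Fintype H := Fintype.ofFinite _
  letI iN : Fintype N := Fintype.ofFinite _
  have hNH : N ≤ H := le_sup_left
  have hreg : ∀ g ∈ H, ¬ p ∣ orderOf g → g ∈ N := by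
    intro g hg hr
    have h1 : (QuotientGroup.mk' N) g ∈ (P : Subgroup G).map (QuotientGroup.mk' N) := by
      have : H.map (QuotientGroup.mk' N) = (P : Subgroup G).map (QuotientGroup.mk' N) := by
        rw [hHdef, Subgroup.map_sup, QuotientGroup.map_mk'_self, bot_sup_eq]
      rw [← this]
      exact ⟨g, hg, rfl⟩
    have h2 : IsPGroup p ((P : Subgroup G).map (QuotientGroup.mk' N)) := P.2.map _
    obtain ⟨k, hk⟩ := IsPGroup.iff_orderOf.1 h2 ⟨_, h1⟩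
    rw [← Subgroup.orderOf_coe] at hk
    have hk' : orderOf ((QuotientGroup.mk' N) g) = p ^ k := hk
    have h3 : orderOf ((QuotientGroup.mk' N) g) ∣ orderOf g := orderOf_map_dvd _ g
    have h4 : k = 0 := by
      by_contra h0
      rw [hk'] at h3
      exact hr ((dvd_pow_self p h0).trans h3)
    rw [h4, pow_zero, orderOf_eq_one_iff] at hk'
    exact (QuotientGroup.eq_one_iff g).1 hk'
  have hη1 : η.1 1 = θ.1 1 := hη 1
  have hl := isLoc_eB hM (principal_isPBlock M G)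
  have e1 : om η.1 (resGA H (eB (principalBlock M G))) = om θ.1 (resGA N (eB (principalBlock M G))) := by
    rw [om_eq, om_eq, hη1]
    congr 1
    have : ∀ h : H, (resGA H (eB (principalBlock M G))) h * η.1 h =
        if hh : (h : G) ∈ N then (resGA N (eB (principalBlock M G))) ⟨h, hh⟩ * θ.1 ⟨h, hh⟩ else 0 := by
      intro h
      by_cases hh : (h : G) ∈ N
      · rw [dif_pos hh]
        have := hη ⟨h, hh⟩
        rw [← this]
        rfl
      · rw [dif_neg hh]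
        have hd : p ∣ orderOf (h : G) := by
          by_contra hd
          exact hh (hreg h h.2 hd)
        rw [resGA_apply, eB_apply, blockCoeff_eq_zero hM hl hd, zero_mul]
    rw [Finset.sum_congr rfl fun h _ => this h]
    symm
    refine Finset.sum_bij_ne_zero (fun (n : N) _ _ => Subgroup.inclusion hNH n) (fun _ _ _ => Finset.mem_univ _)
      (fun a _ _ b _ _ hab => Subgroup.inclusion_injective hNH hab) ?_ ?_
    · intro h _ hne
      by_cases hh : (h : G) ∈ N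
      · rw [dif_pos hh] at hne
        exact ⟨⟨h, hh⟩, Finset.mem_univ _, hne, rfl⟩
      · rw [dif_neg hh] at hne
        exact absurd rfl hne
    · intro n _ _
      rw [dif_pos (show ((Subgroup.inclusion hNH n : H) : G) ∈ N from n.2)]
      rfl
  have e2 : MemLocalIdeal M (om θ.1 (resGA N (eB (principalBlock M G))) -
      ∑ n : N, blockCoeff (principalBlock M G) (n : G)) := by
    have h1 := om_sub_of_sameBlock hM θ.2 (triv N).2
      (sameBlock_of_mem hM (principal_isPBlock M N) hθ (triv_mem hM))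
      (resGA_isCl N (eB_isCl (principalBlock M G))) (resGA_loc hl)
    have h2 : om (triv N).1 (resGA N (eB (principalBlock M G))) =
        ∑ n : N, blockCoeff (principalBlock M G) (n : G) := by
      rw [om_eq]
      have : (triv N).1 1 = 1 := rfl
      rw [this, div_one]
      refine Finset.sum_congr rfl fun n _ => ?_
      have : (triv N).1 n = 1 := rfl
      rw [this, mul_one]
      rfl
    rwa [h2] at h1
  have hunit : ¬ MemLocalIdeal M (om η.1 (resGA H (eB (principalBlock M G)))) := by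
    rw [e1, max_iff_of_sub hM e2]
    exact Cfsg.Agent.Lib.BlkH8D.sum_normal_unit hM P N
  have hunit2 : ¬ MemLocalIdeal M (blockPart (principalBlock M G) (indFun H η.1) 1) := by
    rw [blockPart_ind_one]
    refine not_max_mul hM (loc_mul hM (loc_natCast hM _) (loc_char hM (isChar_of_irr η.2) 1))
      (loc_om hM η.2 (resGA_isCl H (eB_isCl _)) (resGA_loc hl)) ?_ hunit
    refine not_max_mul hM (loc_natCast hM _) (loc_char hM (isChar_of_irr η.2) 1) ?_ ?_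
    · rw [max_natCast_iff hM]
      intro hd
      exact P.not_dvd_index (hd.trans (Subgroup.index_dvd_of_le (le_sup_right : (P : Subgroup G) ≤ H)))
    · rw [hη1, ← charDegree_cast (isChar_of_irr θ.2), max_natCast_iff hM]
      exact hdeg
  obtain ⟨χ, hχ, hd, a, ha, hpa⟩ := Cfsg.Agent.Lib.BlkH8C.exists_of_unit hM
    (Cfsg.Agent.Lib.CharInd.isChar_ind _ (isChar_of_irr η.2)) hunit2
  refine ⟨χ, hχ, hd, ?_⟩
  rw [Cfsg.Agent.Lib.CharInd.reciprocity _ _ _ (isChar_classFn (isChar_of_irr χ.2))] at ha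
  have hne : classInner (fun h : H => χ.1 h) η.1 ≠ 0 := by
    rw [← classInner_conj_symm, ha]
    intro h0
    rw [Complex.conj_natCast, Nat.cast_eq_zero] at h0
    exact hpa (h0 ▸ dvd_zero p)
  have h1 := isChar_sub_constituent (Cfsg.Agent.Lib.CharInd.isChar_res H (isChar_of_irr χ.2)) η.2 hne
  have h2 := isChar_comp (Subgroup.inclusion hNH) h1
  obtain ⟨m, hm⟩ := exists_nat_inner h2 θ.2
  have h3 : (fun n : N => χ.1 (n : G)) = (fun n : N => ((fun h : H => χ.1 (h : G)) - η.1) (Subgroup.inclusion hNH n)) + θ.1 := by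
    funext n
    have := hη n
    simp only [Pi.add_apply, Pi.sub_apply]
    rw [← this]
    simp [hHdef]
  have h4 : classInner (fun n : N => χ.1 (n : G)) θ.1 = (m : ℂ) + 1 := by
    rw [h3, classInner_add_left, hm, irr_inner_self θ.2]
  intro h5
  have h6 : classInner (fun n : N => χ.1 (n : G)) θ.1 = 0 := by
    convert h5
  rw [h4] at h6
  have : ((m + 1 : ℕ) : ℂ) = 0 := by push_cast; exact h6
  exact Nat.succ_ne_zero m (by exact_mod_cast this)

end Cfsg.Agent.S4583
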