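import Cfsg.Statements.S4584
import Mathlib

set_option autoImplicit false
open Cfsg

namespace Cfsg.Agent.S4584

open Subgroup
open scoped commutatorElement

theorem idx_lt {G : Type*} [Group G] [Finite G] {H K : Subgroup G} (h : H < K) : K.index < H.index := by
  have h1 := relIndex_mul_index h.le
  have h2 : H.relIndex K ≠ 1 := fun h3 => h.not_ge (relIndex_eq_one.mp h3)
  have h3 : H.relIndex K ≠ 0 := by
    intro h0
    rw [h0, zero_mul] at h1
    exact H.index_ne_zero_of_finite h1.symm
  have h4 : K.index ≠ 0 := K.index_ne_zero_of_finite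
  have h5 : 2 ≤ H.relIndex K := by omega
  rw [← h1]
  nlinarith [Nat.pos_of_ne_zero h4]

/-- the quotient by the centre is not of prime order or trivial -/
theorem idxZ {P : Type*} [Group P] [Finite P] (p : ℕ) [hp : Fact p.Prime] {g0 h0 : P} (hgh : g0 * h0 ≠ h0 * g0)
    (hd : (center P).index ∣ p ^ 2) : (center P).index = p ^ 2 := by
  obtain ⟨k, hk, hke⟩ := (Nat.dvd_prime_pow hp.1).mp hd
  have hnc : ¬ IsCyclic (P ⧸ center P) := by
    intro hc
    exact hgh (commutative_of_cyclic_center_quotient (QuotientGroup.mk' (center P)) (by rw [QuotientGroup.ker_mk']) g0 h0)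
  have h2 : ¬ k = 0 := by
    rintro rfl
    rw [pow_zero, index_eq_card, Nat.card_eq_one_iff_unique] at hke
    have := hke.1
    exact hnc inferInstance
  have h3 : ¬ k = 1 := by
    rintro rfl
    rw [pow_one, index_eq_card] at hke
    exact hnc (isCyclic_of_prime_card hke)
  rw [hke, show k = 2 by omega]

theorem partB {P : Type*} [Group P] [Finite P] (p : ℕ) [hp : Fact p.Prime] (hP : Nat.card P = p ^ 4)
    (hc : Nat.card ↥(commutator P) = p) : (center P).index = p ^ 2 := by
  have hnab : ∃ g h : P, g * h ≠ h * g := by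
    by_contra hno
    push Not at hno
    have h1 : commutator P = ⊥ := by
      rw [eq_bot_iff, _root_.commutator_def, commutator_le]
      intro g _ h _
      rw [mem_bot, commutatorElement_eq_one_iff_mul_comm]; exact hno g h
    rw [h1, card_bot] at hc
    exact hp.1.one_lt.ne hc
  obtain ⟨x, y, hxy⟩ := hnab
  have hci : ∀ t : P, (centralizer {t}).index ≤ p := by
    intro t
    rw [index_eq_card, ← hc]
    have hw : ∀ g h : P, g⁻¹ * h ∈ centralizer {t} ↔ ⁅g, t⁆ = ⁅h, t⁆ := by
      intro g h
      rw [mem_centralizer_singleton_iff, commutatorElement_def, commutatorElement_def, mul_left_inj]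
      constructor
      · intro h1
        have h2 : h * t = g * t * (g⁻¹ * h) := by
          have : g * (g⁻¹ * h * t) = g * (t * (g⁻¹ * h)) := by rw [h1]
          calc h * t = g * (g⁻¹ * h * t) := by group
            _ = g * (t * (g⁻¹ * h)) := this
            _ = _ := by group
        rw [h2]; group
      · intro h1
        have h2 : g * t = h * t * h⁻¹ * g := by rw [← h1]; group
        have h3 : g⁻¹ * (g * t) * (g⁻¹ * h) = g⁻¹ * (h * t * h⁻¹ * g) * (g⁻¹ * h) := by rw [h2]
        calc g⁻¹ * h * t = g⁻¹ * (h * t * h⁻¹ * g) * (g⁻¹ * h) := by group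
          _ = g⁻¹ * (g * t) * (g⁻¹ * h) := h3.symm
          _ = t * (g⁻¹ * h) := by group
    apply Nat.card_le_card_of_injective
      (fun q : P ⧸ centralizer {t} => Quotient.liftOn' q (fun g => (⟨⁅g, t⁆, commutator_mem_commutator (mem_top g) (mem_top t)⟩ : ↥(commutator P)))
        (fun g h hgh => Subtype.ext ((hw g h).mp (QuotientGroup.leftRel_apply.mp hgh))))
    intro q1 q2
    induction q1 using QuotientGroup.induction_on with | H g => ?_
    induction q2 using QuotientGroup.induction_on with | H h => ?_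
    intro heq
    exact QuotientGroup.eq.mpr ((hw g h).mpr (congrArg Subtype.val heq))
  set D := centralizer {x} ⊓ centralizer {y} with hD
  have hDi : D.index ≤ p ^ 2 := by
    refine le_trans index_inf_le ?_
    rw [pow_two]
    exact Nat.mul_le_mul (hci x) (hci y)
  have h1 : D < D ⊔ zpowers x := lt_of_le_of_ne le_sup_left (by
    intro h
    have hx : x ∈ D := h ▸ (le_sup_right : zpowers x ≤ _) (mem_zpowers x)
    exact hxy (mem_centralizer_singleton_iff.mp hx.2))
  have hDx : D ⊔ zpowers x ≤ centralizer {x} := by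
    rw [sup_le_iff, zpowers_le]
    exact ⟨inf_le_left, mem_centralizer_singleton_iff.mpr rfl⟩
  have h2 : D ⊔ zpowers x < D ⊔ zpowers x ⊔ zpowers y := lt_of_le_of_ne le_sup_left (by
    intro h
    have hy : y ∈ D ⊔ zpowers x := h ▸ (le_sup_right : zpowers y ≤ _) (mem_zpowers y)
    exact hxy (mem_centralizer_singleton_iff.mp (hDx hy)).symm)
  have h3 := idx_lt h1
  have h4 := idx_lt h2
  have hd : ∀ H : Subgroup P, ∃ k, H.index = p ^ k := fun H => by
    obtain ⟨k, _, hk⟩ := (Nat.dvd_prime_pow hp.1).mp (hP ▸ H.index_dvd_card)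
    exact ⟨k, hk⟩
  obtain ⟨m, hm⟩ := hd D
  obtain ⟨k, hk⟩ := hd (D ⊔ zpowers x)
  obtain ⟨l, hl⟩ := hd (D ⊔ zpowers x ⊔ zpowers y)
  rw [hm] at hDi h3
  rw [hk] at h3 h4
  rw [hl] at h4
  rw [Nat.pow_lt_pow_iff_right hp.1.one_lt] at h3 h4
  rw [Nat.pow_le_pow_iff_right hp.1.one_lt] at hDi
  have hL : D ⊔ zpowers x ⊔ zpowers y = ⊤ := by
    rw [← index_eq_one, hl, show l = 0 by omega, pow_zero]
  have hDc : Nat.card ↥D = p ^ 2 := by
    have h5 := D.card_mul_index
    rw [hm, hP, show m = 2 by omega, show p ^ 4 = p ^ 2 * p ^ 2 by ring] at h5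
    exact Nat.eq_of_mul_eq_mul_right (pow_pos hp.1.pos 2) h5
  have hDab : ∀ a b : ↥D, a * b = b * a := fun a b => IsPGroup.commutative_of_card_eq_prime_sq hDc a b
  have hDZ : D ≤ center P := by
    intro d hd
    rw [mem_center_iff]
    intro g
    have h5 : D ⊔ zpowers x ⊔ zpowers y ≤ centralizer {d} := by
      rw [sup_le_iff, sup_le_iff, zpowers_le, zpowers_le]
      refine ⟨⟨fun e he => ?_, ?_⟩, ?_⟩
      · exact mem_centralizer_singleton_iff.mpr (congrArg Subtype.val (hDab ⟨e, he⟩ ⟨d, hd⟩))
      · exact mem_centralizer_singleton_iff.mpr (mem_centralizer_singleton_iff.mp hd.1).symm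
      · exact mem_centralizer_singleton_iff.mpr (mem_centralizer_singleton_iff.mp hd.2).symm
    rw [hL] at h5
    exact mem_centralizer_singleton_iff.mp (h5 (mem_top g))
  apply idxZ p hxy
  have := index_dvd_of_le hDZ
  rwa [hm, show m = 2 by omega] at this

theorem partA {P : Type*} [Group P] [Finite P] (p : ℕ) [hp : Fact p.Prime] (hP : Nat.card P = p ^ 4)
    (hi : (center P).index = p ^ 2) : Nat.card ↥(commutator P) = p := by
  have hp2 : 1 < p ^ 2 := Nat.one_lt_pow (by norm_num) hp.1.one_lt
  have hQ : Nat.card (P ⧸ center P) = p ^ 2 := by rw [← index_eq_card]; exact hi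
  have hcm : ∀ g h : P, ⁅g, h⁆ ∈ center P := by
    intro g h
    rw [← QuotientGroup.eq_one_iff]
    change QuotientGroup.mk' (center P) ⁅g, h⁆ = 1
    rw [map_commutatorElement, commutatorElement_eq_one_iff_mul_comm]
    exact IsPGroup.commutative_of_card_eq_prime_sq hQ _ _
  have hnab : ∃ g h : P, ⁅g, h⁆ ≠ 1 := by
    by_contra hno
    push Not at hno
    have h1 : center P = ⊤ := by
      rw [eq_top_iff]
      intro z _
      rw [mem_center_iff]
      intro g
      exact commutatorElement_eq_one_iff_mul_comm.mp (hno g z)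
    rw [h1, index_top] at hi
    omega
  obtain ⟨g0, h0, hgh⟩ := hnab
  have hnc : ¬ IsCyclic (P ⧸ center P) := by
    intro hc
    apply hgh
    rw [commutatorElement_eq_one_iff_mul_comm]
    exact commutative_of_cyclic_center_quotient (QuotientGroup.mk' (center P)) (by rw [QuotientGroup.ker_mk']) g0 h0
  have hZi : (center P).index ∣ p ^ 2 := by rw [hi]
  have hpw : ∀ g : P, g ^ p ∈ center P := by
    intro g
    have h1 : orderOf (QuotientGroup.mk' (center P) g) ∣ p ^ 2 := (_root_.orderOf_dvd_natCard _).trans (by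
      rw [← index_eq_card]; exact hZi)
    obtain ⟨k, hk, hke⟩ := (Nat.dvd_prime_pow hp.1).mp h1
    have h2 : ¬ 2 ≤ k := by
      intro h2
      apply hnc
      apply isCyclic_of_orderOf_eq_card (QuotientGroup.mk' (center P) g)
      apply Nat.dvd_antisymm (_root_.orderOf_dvd_natCard _)
      rw [hke, ← index_eq_card, show k = 2 by omega]
      exact hZi
    have h3 : (QuotientGroup.mk' (center P) g) ^ p = 1 := by
      rw [← orderOf_dvd_iff_pow_eq_one, hke]
      exact (pow_dvd_pow p (show k ≤ 1 by omega)).trans (by rw [pow_one])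
    rw [← map_pow] at h3
    exact (QuotientGroup.eq_one_iff _).mp h3
  obtain ⟨x, hx⟩ : ∃ x : P, x ∉ center P := by
    by_contra hno
    push Not at hno
    apply hgh
    rw [commutatorElement_eq_one_iff_mul_comm]
    exact mem_center_iff.mp (hno h0) g0
  have hK : center P ⊔ zpowers x ≠ ⊤ := by
    intro hK
    apply hx
    have h1 : center P ⊔ zpowers x ≤ centralizer {x} := by
      rw [sup_le_iff, zpowers_le]
      refine ⟨center_le_centralizer _, ?_⟩
      rw [mem_centralizer_singleton_iff]
    rw [hK] at h1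
    rw [mem_center_iff]
    intro g
    exact mem_centralizer_singleton_iff.mp (h1 (mem_top g))
  obtain ⟨y, hy⟩ : ∃ y : P, y ∉ center P ⊔ zpowers x := by
    by_contra hno
    push Not at hno
    exact hK (eq_top_iff.mpr fun g _ => hno g)
  have hL : center P ⊔ zpowers x ⊔ zpowers y = ⊤ := by
    have h1 : center P < center P ⊔ zpowers x := lt_of_le_of_ne le_sup_left (by
      intro h; exact hx (h ▸ (le_sup_right : zpowers x ≤ _) (mem_zpowers x)))
    have h2 : center P ⊔ zpowers x < center P ⊔ zpowers x ⊔ zpowers y := lt_of_le_of_ne le_sup_left (by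
      intro h; exact hy (h ▸ (le_sup_right : zpowers y ≤ _) (mem_zpowers y)))
    have h3 := idx_lt h1
    have h4 := idx_lt h2
    have h5 := Nat.le_of_dvd (by omega) hZi
    have hd : ∀ H : Subgroup P, ∃ k, H.index = p ^ k := fun H => by
      obtain ⟨k, _, hk⟩ := (Nat.dvd_prime_pow hp.1).mp (hP ▸ H.index_dvd_card)
      exact ⟨k, hk⟩
    obtain ⟨k, hk⟩ := hd (center P ⊔ zpowers x)
    obtain ⟨l, hl⟩ := hd (center P ⊔ zpowers x ⊔ zpowers y)
    have h6 : p ^ k < p ^ 2 := by rw [← hk]; omega
    have h7 : p ^ l < p ^ k := by rw [← hk, ← hl]; exact h4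
    rw [Nat.pow_lt_pow_iff_right hp.1.one_lt] at h6 h7
    rw [← index_eq_one, hl, show l = 0 by omega, pow_zero]
  set N := zpowers ⁅x, y⁆ with hN
  have hNn : N.Normal := by
    refine ⟨fun n hn g => ?_⟩
    have : N ≤ center P := by rw [hN, zpowers_le]; exact hcm x y
    have h1 := mem_center_iff.mp (this hn) g
    rw [h1, mul_inv_cancel_right]; exact hn
  have hxyN : ⁅x, y⁆ ∈ N := mem_zpowers _
  have hxy' : (QuotientGroup.mk' N x) * (QuotientGroup.mk' N y) = (QuotientGroup.mk' N y) * (QuotientGroup.mk' N x) := by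
    rw [← commutatorElement_eq_one_iff_mul_comm, ← map_commutatorElement]
    exact (QuotientGroup.eq_one_iff _).mpr hxyN
  have hcen : ∀ z : P, (QuotientGroup.mk' N z) * (QuotientGroup.mk' N x) = (QuotientGroup.mk' N x) * (QuotientGroup.mk' N z) →
      (QuotientGroup.mk' N z) * (QuotientGroup.mk' N y) = (QuotientGroup.mk' N y) * (QuotientGroup.mk' N z) →
      ∀ g : P, (QuotientGroup.mk' N g) * (QuotientGroup.mk' N z) = (QuotientGroup.mk' N z) * (QuotientGroup.mk' N g) := by
    intro z hzx hzy g
    have h1 : center P ⊔ zpowers x ⊔ zpowers y ≤ (centralizer {QuotientGroup.mk' N z}).comap (QuotientGroup.mk' N) := by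
      rw [sup_le_iff, sup_le_iff, zpowers_le, zpowers_le]
      refine ⟨⟨?_, ?_⟩, ?_⟩
      · intro c hc
        rw [mem_comap, mem_centralizer_singleton_iff, ← map_mul, ← map_mul, mem_center_iff.mp hc z]
      · rw [mem_comap, mem_centralizer_singleton_iff]; exact hzx.symm
      · rw [mem_comap, mem_centralizer_singleton_iff]; exact hzy.symm
    rw [hL] at h1
    exact mem_centralizer_singleton_iff.mp (mem_comap.mp (h1 (mem_top g)))
  have hxc := hcen x rfl hxy'
  have hyc := hcen y hxy'.symm rfl
  have hle : commutator P ≤ N := by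
    rw [_root_.commutator_def, commutator_le]
    intro g _ h _
    have h1 := hcen g (hxc g) (hyc g) h
    rw [← QuotientGroup.eq_one_iff]
    change QuotientGroup.mk' N ⁅g, h⁆ = 1
    rw [map_commutatorElement, commutatorElement_eq_one_iff_mul_comm]
    exact h1.symm
  let φ : P →* P :=
    { toFun := fun g => ⁅g, y⁆
      map_one' := commutatorElement_one_left y
      map_mul' := by
        intro g h
        have h1 : ⁅g * h, y⁆ = (g * ⁅h, y⁆ * g⁻¹) * ⁅g, y⁆ := by
          simp only [commutatorElement_def]; group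
        have h2 := mem_center_iff.mp (hcm h y) g
        have h3 := mem_center_iff.mp (hcm h y) ⁅g, y⁆
        rw [h1, h2, mul_inv_cancel_right, h3] }
  have hφ : ⁅x, y⁆ ^ p = 1 := by
    have h1 : φ (x ^ p) = φ x ^ p := map_pow φ x p
    have h2 : φ (x ^ p) = 1 := by
      change ⁅x ^ p, y⁆ = 1
      rw [commutatorElement_eq_one_iff_mul_comm]
      exact (mem_center_iff.mp (hpw x) y).symm
    rw [h2] at h1
    exact h1.symm
  have h1 : Nat.card ↥(commutator P) ∣ p := by
    refine (card_dvd_of_le hle).trans ?_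
    rw [hN, Nat.card_zpowers]
    exact orderOf_dvd_of_pow_eq_one hφ
  rcases (Nat.dvd_prime hp.1).mp h1 with h2 | h2
  · exfalso
    apply hgh
    have h3 : ⁅g0, h0⁆ ∈ commutator P := commutator_mem_commutator (mem_top g0) (mem_top h0)
    rw [card_eq_one.mp h2, mem_bot] at h3
    exact h3
  · exact h2

/-- Let p be a prime and P a group of order p^4. Then the derived subgroup P' has order p if and only if the centre Z(P) has index p^2 in P. -/
theorem result {P : Type*} [Group P] [Finite P] (p : ℕ) [Fact p.Prime] (hP : Nat.card P = p ^ 4) :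
    Nat.card (commutator P) = p ↔ (Subgroup.center P).index = p ^ 2 := by
  exact ⟨partB p hP, partA p hP⟩

end Cfsg.Agent.S4584
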