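import Cfsg.Statements.S4585
import Cfsg.Agent.Lib.PFour
import Cfsg.Agent.Lib.PGrpI
import Cfsg.Agent.Lib.NilpB

set_option autoImplicit false
open Cfsg

namespace Cfsg.Agent.S4585

open Subgroup

/-- Let p be a prime and P a group of order p^4. Then P' has index p^2 in P if and only if P has maximal nilpotency class, that is, nilpotency class exactly 3. -/
theorem result {P : Type*} [Group P] [Finite P] (p : ℕ) [Fact p.Prime] (hP : Nat.card P = p ^ 4) :
    (commutator P).index = p ^ 2 ↔ Group.nilpotencyClass P = 3 := by
  haveI hp := (inferInstance : Fact p.Prime)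
  haveI hnil : Group.IsNilpotent P := (IsPGroup.of_card hP).isNilpotent
  constructor
  · intro h
    have h3 : Group.nilpotencyClass P ≤ 3 := Cfsg.Agent.Lib.NilpB.nilpotencyClass_le_of_card 4 P hP (by norm_num)
    by_contra hne
    have h2 : Group.nilpotencyClass P ≤ 2 := by omega
    rw [← Subgroup.lowerCentralSeries_eq_bot_iff_nilpotencyClass_le] at h2
    have h2' : (⊤ : Subgroup P).lowerCentralSeries (1 + 1) = ⊥ := h2
    rw [Subgroup.lowerCentralSeries_succ, Subgroup.top_lowerCentralSeries_one, commutator_eq_bot_iff_le_centralizer] at h2'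
    have hle : commutator P ≤ center P := by
      intro z hz
      rw [mem_center_iff]
      intro g
      exact mem_centralizer_iff.mp (h2' hz) g (mem_top g)
    have hdvd : (center P).index ∣ p ^ 2 := by rw [← h]; exact index_dvd_of_le hle
    obtain ⟨i, hi, hi'⟩ := (Nat.dvd_prime_pow hp.out).mp hdvd
    have hmul := (commutator P).card_mul_index
    rw [h, hP] at hmul
    have hcc : Nat.card (commutator P) = p ^ 2 := by
      have h4 : Nat.card (commutator P) * p ^ 2 = p ^ 2 * p ^ 2 := by rw [hmul]; ring
      exact Nat.eq_of_mul_eq_mul_right (pow_pos hp.out.pos 2) h4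
    have h1p := hp.out.one_lt
    by_cases hi2 : i = 2
    · rw [hi2] at hi'
      have h4 := (Cfsg.Agent.Lib.PFour.iff_main p hP).mpr hi'
      rw [h4] at hcc
      have h5 : p ^ 1 = p ^ 2 := by rw [pow_one]; exact hcc
      have h6 := Nat.pow_right_injective hp.out.two_le h5
      omega
    · have h4 : (center P).index ∣ p := by
        rw [hi']
        have h5 : p ^ i ∣ p ^ 1 := pow_dvd_pow p (by omega)
        rwa [pow_one] at h5
      have h5 := Cfsg.Agent.Lib.PFour.comm_of_center_index h4
      have h6 : commutator P = ⊥ := by
        rw [_root_.commutator_def, commutator_eq_bot_iff_le_centralizer]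
        intro x _
        rw [mem_centralizer_iff]
        intro y _
        exact h5 y x
      rw [h6, card_bot] at hcc
      have := Nat.one_lt_pow (n := 2) (by norm_num) h1p
      omega
  · intro h
    have h1 := Cfsg.Agent.Lib.PGrpI.index_lcs (n := 4) (by norm_num) hP h (i := 1) (by norm_num) (by norm_num)
    rw [Subgroup.top_lowerCentralSeries_one] at h1
    exact h1
end Cfsg.Agent.S4585
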