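import Cfsg.Statements.S4604
import Cfsg.Agent.Lib.CharPPow

set_option autoImplicit false
open Cfsg

namespace Cfsg.Agent.S4604

/-- Let G be a finite group, p a prime and p^a the p-part of the order of G. Let x, y ∈ G and let x′, y′ be their p-regular parts: x′ has order prime to p, commutes with x·x′⁻¹, and x·x′⁻¹ has p-power order (likewise for y). Then x′ and y′ are conjugate in G if and only if for every irreducible character χ of G the algebraic integer χ(x)^(p^a) − χ(y)^(p^a) is p times an algebraic integer. -/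
theorem result {G : Type*} [Group G] [Finite G] (p : ℕ) [Fact p.Prime] (x y x' y' : G)
    (hx : (∃ k : ℕ, orderOf (x * x'⁻¹) = p ^ k) ∧ Commute (x * x'⁻¹) x' ∧ ¬ p ∣ orderOf x')
    (hy : (∃ k : ℕ, orderOf (y * y'⁻¹) = p ^ k) ∧ Commute (y * y'⁻¹) y' ∧ ¬ p ∣ orderOf y') :
    IsConj x' y' ↔ ∀ χ : Cfsg.IrrCharacter G, ∃ γ : Cfsg.AlgInt,
      (χ : G → ℂ) x ^ (p ^ (Nat.card G).factorization p) - (χ : G → ℂ) y ^ (p ^ (Nat.card G).factorization p) = (p : ℂ) * (γ : ℂ) := by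
  classical
  have hp := Fact.out (p := p.Prime)
  obtain ⟨M, hM⟩ := Lib.CharMod.exists_pModular hp
  obtain ⟨q, hq⟩ : ∃ q, q = (Nat.card G).factorization p := ⟨_, rfl⟩
  have key : ∀ x x' : G, ((∃ k : ℕ, orderOf (x * x'⁻¹) = p ^ k) ∧ Commute (x * x'⁻¹) x' ∧
      ¬ p ∣ orderOf x') → Lib.BlockPP.pq p x = x' ∧ x ^ p ^ q = x' ^ p ^ q := by
    intro x x' h
    obtain ⟨⟨k, hk⟩, hc, hx'⟩ := h
    have h1 : x = (x * x'⁻¹) * x' := by group
    constructor
    · conv_lhs => rw [h1]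
      exact Lib.BlockPP.pq_mul_eq hp hc ⟨k, hk⟩ hx'
    · conv_lhs => rw [h1]
      rw [hc.mul_pow]
      have h2 : (x * x'⁻¹) ^ p ^ q = 1 := by
        rw [← orderOf_dvd_iff_pow_eq_one, hk, hq]
        have h3 : p ^ k ∣ Nat.card G := hk ▸ orderOf_dvd_natCard _
        exact pow_dvd_pow p ((hp.pow_dvd_iff_le_factorization Nat.card_pos.ne').mp h3)
      rw [h2, one_mul]
  obtain ⟨hx1, hx2⟩ := key x x' hx
  obtain ⟨hy1, hy2⟩ := key y y' hy
  rw [← hq]
  constructor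
  · intro h χ
    obtain ⟨a, ha⟩ := Lib.CharPPow.pow_congr hp q (Lib.CharBasic.isChar_of_irr χ.2) x
    obtain ⟨b, hb⟩ := Lib.CharPPow.pow_congr hp q (Lib.CharBasic.isChar_of_irr χ.2) y
    refine ⟨a - b, ?_⟩
    have h3 : χ.1 (x ^ p ^ q) = χ.1 (y ^ p ^ q) := by
      rw [hx2, hy2]
      apply Lib.CharBasic.classFn_isConj (Lib.CharBasic.isChar_classFn
        (Lib.CharBasic.isChar_of_irr χ.2))
      obtain ⟨c, hc⟩ := isConj_iff.mp h
      refine isConj_iff.mpr ⟨c, ?_⟩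
      rw [← hc, conj_pow]
    push_cast
    rw [mul_sub, ← ha, ← hb, h3]
    ring
  · intro h
    rw [← hx1, ← hy1, Lib.CharMod.conj_iff hM]
    intro χ
    obtain ⟨γ, hγ⟩ := h χ
    have hxi := Lib.CharBasic.char_isIntegral (Lib.CharBasic.isChar_of_irr χ.2) x
    have hyi := Lib.CharBasic.char_isIntegral (Lib.CharBasic.isChar_of_irr χ.2) y
    obtain ⟨r, hr⟩ := exists_add_pow_prime_pow_eq hp ((⟨χ.1 x, hxi⟩ : AlgInt) - ⟨χ.1 y, hyi⟩)
      (⟨χ.1 y, hyi⟩ : AlgInt) q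
    have hr' := congrArg (fun z : AlgInt => (z : ℂ)) hr
    simp only [sub_add_cancel] at hr'
    push_cast at hr'
    refine Lib.BlockLoc.max_of_pow hM (n := p ^ q)
      (Lib.BlockLoc.loc_sub hM (Lib.BlockLoc.loc_of_isIntegral hM hxi)
      (Lib.BlockLoc.loc_of_isIntegral hM hyi)) ?_
    have h4 : (χ.1 x - χ.1 y) ^ p ^ q = (p : ℂ) * ((γ - ((⟨χ.1 x, hxi⟩ : AlgInt) -
        (⟨χ.1 y, hyi⟩ : AlgInt)) * (⟨χ.1 y, hyi⟩ : AlgInt) * r : AlgInt) : ℂ) := by
      push_cast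
      rw [mul_sub, ← hγ, hr']
      ring
    rw [h4]
    exact Lib.BlockLoc.max_mul_right hM (Lib.BlockLoc.max_p hM) (Lib.BlockLoc.loc_of_algInt hM _)
end Cfsg.Agent.S4604
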