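import Cfsg.Statements.S4611
import Cfsg.Agent.Lib.BlkH8O

set_option autoImplicit false
set_option linter.style.haveILetI false
set_option linter.unusedVariables false
open Cfsg

namespace Cfsg.Agent.S4611
open Cfsg.Agent.Lib.BlkH8O Cfsg.Agent.Lib.BlockRey Cfsg.Agent.Lib.BlockPC Cfsg.Agent.Lib.BlockRk Cfsg.Agent.Lib.BlockInt Cfsg.Agent.Lib.BlockIndIn Cfsg.Agent.Lib.BlockMaxB Cfsg.Agent.Lib.BlockMax Cfsg.Agent.Lib.BlockNilC Cfsg.Agent.Lib.BlockNilB Cfsg.Agent.Lib.BlockNil Cfsg.Agent.Lib.BlockFusB Cfsg.Agent.Lib.BlockFus Cfsg.Agent.Lib.BlockPairF Cfsg.Agent.Lib.BlockPairE Cfsg.Agent.Lib.BlockPairD Cfsg.Agent.Lib.BlockPairC Cfsg.Agent.Lib.BlockPairB Cfsg.Agent.Lib.BlockPair Cfsg.Agent.Lib.BlockBP Cfsg.Agent.Lib.BlockCovB Cfsg.Agent.Lib.BlockTr Cfsg.Agent.Lib.BlockMoreB Cfsg.Agent.Lib.BlockMore Cfsg.Agent.Lib.BlockQuotB Cfsg.Agent.Lib.BlockQuot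 Cfsg.Agent.Lib.BlockCov Cfsg.Agent.Lib.BlockM Cfsg.Agent.Lib.BlockHt Cfsg.Agent.Lib.BlockFirst Cfsg.Agent.Lib.BlockSecond Cfsg.Agent.Lib.BlockInd Cfsg.Agent.Lib.BlockNP Cfsg.Agent.Lib.BlockDeg Cfsg.Agent.Lib.BlockDef Cfsg.Agent.Lib.BlockRed Cfsg.Agent.Lib.BlockOrth Cfsg.Agent.Lib.BlockIdem Cfsg.Agent.Lib.BlockGA Cfsg.Agent.Lib.BlockLoc Cfsg.Agent.Lib.CharBasic Cfsg.Agent.Lib.BlockPP Cfsg.Agent.Lib.CharNormal Cfsg.Agent.Lib.CharPerm Cfsg.Agent.Lib.CharPermB Cfsg.Agent.Lib.BlockSum Cfsg.Agent.Lib.BlockKB Cfsg.Agent.Lib.BlockLar Cfsg.Agent.Lib.BlockBFM Cfsg.Agent.Lib.BlkH8A Cfsg.Agent.Lib.BlkH7R Cfsg.Agent.Lib.BlkH6L Cfsg.Agent.Lib.BlkH6K Cfsg.Agent.Lib.BlkH6J Cfsg.Agent.Lib.BlkH6I Cfsg.Agent.Lib.BlkH6H Cfsg.Agent.Lib.BlkH6G Cfsg.Agent.Lib.BlkH5T Cfsg.Agent.Lib.BlkH5Q Cfsg.Agent.Lib.BlkH5P Cfsg.Agent.Lib.BlkH5O Cfsg.Agent.Lib.BlkH5N Cfsg.Agent.Lib.BlkH5A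 Cfsg.Agent.Lib.BlkH5G Cfsg.Agent.Lib.BlkH5B Cfsg.Agent.Lib.BlkH5C Cfsg.Agent.Lib.BlkH5D Cfsg.Agent.Lib.BlkH5E Cfsg.Agent.Lib.BlkH5F Cfsg.Agent.Lib.BlkH5L Cfsg.Agent.Lib.BlkH5M Cfsg.Agent.Lib.BlkH5R Cfsg.Agent.Lib.BlkH5S Cfsg.Agent.Lib.BlkH5U Cfsg.Agent.Lib.BlkH5V Cfsg.Agent.Lib.BlkH5W Cfsg.Agent.Lib.BlkH5X Cfsg.Agent.Lib.BlkH6F Cfsg.Agent.Lib.BlkH6N Cfsg.Agent.Lib.BlkH6M Cfsg.Agent.Lib.BlkH6D Cfsg.Agent.Lib.BlkH6C Cfsg.Agent.Lib.BlkH6B Cfsg.Agent.Lib.BlkH6A Cfsg.Agent.Lib.BlkH5Y Cfsg.Agent.Lib.BlkH7C Cfsg.Agent.Lib.BlkH7A Cfsg.Agent.Lib.BlkH7B Cfsg.Agent.Lib.BlkH7E Cfsg.Agent.Lib.BlkH7D Cfsg.Agent.Lib.BlkH7F Cfsg.Agent.Lib.BlkH7G Cfsg.Agent.Lib.BlkH6P Cfsg.Agent.Lib.BlkH6O Cfsg.Agent.Lib.BlkH7H Cfsg.Agent.Lib.BlkH7I Cfsg.Agent.Lib.BlkH7J Cfsg.Agent.Lib.BlkH7K Cfsg.Agent.Lib.BlkH7L Cfsg.Agent.Lib.BlkH7M Cfsg.Agent.Lib.BlkH7N Cfsg.Agent.Lib.BlkH7O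 Cfsg.Agent.Lib.BlkH7P Cfsg.Agent.Lib.BlkH7Q Cfsg.Agent.Lib.BlkH8F Cfsg.Agent.Lib.BlkH8E Cfsg.Agent.Lib.BlkH8D Cfsg.Agent.Lib.BlkH8C Cfsg.Agent.Lib.BlkH8B Cfsg.Agent.Lib.BlockKul
open scoped ComplexConjugate



/-- Let G be a finite solvable group and π a nonempty set of primes, each dividing the order of G; fix for each p in π a maximal ideal M p of the algebraic integers containing p. Then the only irreducible character lying in the principal p-block for every p in π is the principal character if and only if G is generated by the subgroups O_{p'}(G), p in π (the largest normal subgroups of order prime to p). -/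
theorem result {G : Type*} [Group G] [Finite G] [Group.IsSolvable G] (π : Set ℕ) (hπ : ∀ p ∈ π, p.Prime ∧ p ∣ Nat.card G) (hne : π.Nonempty) (M : ℕ → Ideal Cfsg.AlgInt) (hM : ∀ p ∈ π, Cfsg.IsPModular p (M p)) :
    (∀ χ : Cfsg.IrrCharacter G, (∀ p ∈ π, χ ∈ Cfsg.principalBlock (M p) G) → (χ : G → ℂ) = fun _ => 1) ↔
      ⨆ p ∈ π, Cfsg.pPrimeCore p G = ⊤ := by
  classical
  haveI := Fintype.ofFinite G
  have hsolv : ∀ p ∈ π, Cfsg.IsPSolvable p G := fun p hp => by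
    haveI : Fact p.Prime := ⟨(hπ p hp).1⟩
    exact Cfsg.Agent.Lib.PSolB.of_isSolvable (Nat.card G) G p le_rfl inferInstance
  have hmem : ∀ χ : Cfsg.IrrCharacter G, (∀ p ∈ π, χ ∈ Cfsg.principalBlock (M p) G) ↔
      ⨆ p ∈ π, Cfsg.pPrimeCore p G ≤ Cfsg.Agent.Lib.CharKer.kerChar χ.1 (isChar_of_irr χ.2) := by
    intro χ
    rw [iSup₂_le_iff]
    refine forall₂_congr fun p hp => ?_
    haveI : Fact p.Prime := ⟨(hπ p hp).1⟩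
    rw [Cfsg.Agent.Lib.BlkH8O.principal_psolv (hM p hp) (hsolv p hp) χ]
    exact ⟨fun h n hn => (Cfsg.Agent.Lib.CharKer.mem_kerChar _).2 (h n hn),
      fun h n hn => (Cfsg.Agent.Lib.CharKer.mem_kerChar _).1 (h hn)⟩
  simp only [hmem]
  set S : Subgroup G := ⨆ p ∈ π, Cfsg.pPrimeCore p G with hS
  haveI hSn : S.Normal := Subgroup.biSup_normal π _ fun p _ => Cfsg.Agent.Lib.Cores.pPrimeCore_normal p
  constructor
  · intro h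
    by_contra hne
    haveI : Nontrivial (G ⧸ S) := QuotientGroup.nontrivial_iff.2 hne
    haveI : Fintype (G ⧸ S) := Fintype.ofFinite _
    obtain ⟨y, hy⟩ := exists_ne (1 : G ⧸ S)
    have h1 : ∀ ψ : Cfsg.IrrCharacter (G ⧸ S), ψ.1 y = ψ.1 1 := by
      intro ψ
      obtain ⟨x, rfl⟩ := QuotientGroup.mk'_surjective S y
      have h2 := h (inflI (QuotientGroup.mk' S) (QuotientGroup.mk'_surjective S) ψ) (by
        intro n hn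
        rw [Cfsg.Agent.Lib.CharKer.mem_kerChar]
        change ψ.1 (QuotientGroup.mk' S n) = ψ.1 (QuotientGroup.mk' S 1)
        have : QuotientGroup.mk' S n = QuotientGroup.mk' S 1 := by
          rw [map_one]; exact (QuotientGroup.eq_one_iff n).2 hn
        rw [this])
      have h3 := congrFun h2 x
      have h4 := congrFun h2 1
      change ψ.1 (QuotientGroup.mk' S x) = 1 at h3
      change ψ.1 (QuotientGroup.mk' S 1) = 1 at h4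
      rw [map_one] at h4
      rw [h3, h4]
    have h2 := Cfsg.Agent.Lib.CharBasic.irr_separates h1
    exact hy (isConj_one_left.1 h2)
  · intro h χ hχ
    have h1 : ∀ g, χ.1 g = χ.1 1 := fun g =>
      (Cfsg.Agent.Lib.CharKer.mem_kerChar (isChar_of_irr χ.2)).1 (hχ (h ▸ Subgroup.mem_top g))
    by_contra hne
    have h2 := Cfsg.Agent.Lib.CharBasic.irr_inner_ne χ.2 (triv G).2 hne
    have h3 : χ.1 = χ.1 1 • (triv G).1 := by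
      funext g
      rw [Pi.smul_apply, smul_eq_mul, h1 g]
      change χ.1 1 = χ.1 1 * 1
      rw [mul_one]
    rw [h3, Cfsg.Agent.Lib.CharBasic.classInner_smul_left, irr_inner_self (triv G).2, mul_one] at h2
    exact isIrr_one_ne_zero χ.2 h2

end Cfsg.Agent.S4611
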