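import Cfsg.Statements.S4620
import Cfsg.Agent.Lib.BlkH8R

set_option autoImplicit false
set_option linter.style.haveILetI false
set_option linter.unusedVariables false
open scoped Pointwise
open Cfsg

namespace Cfsg.Agent.S4620
open Cfsg.Agent.Lib.BlkH8R Cfsg.Agent.Lib.BlockRey Cfsg.Agent.Lib.BlockPC Cfsg.Agent.Lib.BlockRk Cfsg.Agent.Lib.BlockInt Cfsg.Agent.Lib.BlockIndIn Cfsg.Agent.Lib.BlockMaxB Cfsg.Agent.Lib.BlockMax Cfsg.Agent.Lib.BlockNilC Cfsg.Agent.Lib.BlockNilB Cfsg.Agent.Lib.BlockNil Cfsg.Agent.Lib.BlockFusB Cfsg.Agent.Lib.BlockFus Cfsg.Agent.Lib.BlockPairF Cfsg.Agent.Lib.BlockPairE Cfsg.Agent.Lib.BlockPairD Cfsg.Agent.Lib.BlockPairC Cfsg.Agent.Lib.BlockPairB Cfsg.Agent.Lib.BlockPair Cfsg.Agent.Lib.BlockBP Cfsg.Agent.Lib.BlockCovB Cfsg.Agent.Lib.BlockTr Cfsg.Agent.Lib.BlockMoreB Cfsg.Agent.Lib.BlockMore Cfsg.Agent.Lib.BlockQuotB Cfsg.Agent.Lib.BlockQuot Cfsg.Agent.Lib.BlockCov Cfsg.Agent.Lib.BlockM Cfsg.Agent.Lib.BlockHt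 Cfsg.Agent.Lib.BlockFirst Cfsg.Agent.Lib.BlockSecond Cfsg.Agent.Lib.BlockInd Cfsg.Agent.Lib.BlockNP Cfsg.Agent.Lib.BlockDeg Cfsg.Agent.Lib.BlockDef Cfsg.Agent.Lib.BlockRed Cfsg.Agent.Lib.BlockOrth Cfsg.Agent.Lib.BlockIdem Cfsg.Agent.Lib.BlockGA Cfsg.Agent.Lib.BlockLoc Cfsg.Agent.Lib.CharBasic Cfsg.Agent.Lib.BlockPP Cfsg.Agent.Lib.CharNormal Cfsg.Agent.Lib.CharPerm Cfsg.Agent.Lib.CharPermB Cfsg.Agent.Lib.BlockSum Cfsg.Agent.Lib.BlockKB Cfsg.Agent.Lib.BlockLar Cfsg.Agent.Lib.BlockBFM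
open scoped ComplexConjugate



/-- Let H be a finite group with no nontrivial normal p-subgroup and no nontrivial normal subgroup of order prime to p, whose Sylow p-subgroup P is nontrivial and a trivial-intersection set (P meets its conjugates by elements outside N_H(P) trivially). Then H has a unique minimal normal subgroup N; N is non-abelian simple with trivial centralizer in H (so H embeds in Aut(N)), and a Sylow p-subgroup of N is again a nontrivial trivial-intersection set in N. -/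
theorem result {H : Type*} [Group H] [Finite H] (p : ℕ) [Fact p.Prime] (hOp : Cfsg.pCore p H = ⊥) (hOp' : Cfsg.pPrimeCore p H = ⊥) (P : Sylow p H) (hP1 : (P : Subgroup H) ≠ ⊥)
    (hTI : ∀ g : H, g ∉ Subgroup.normalizer ((P : Subgroup H) : Set H) → (P : Subgroup H) ⊓ (MulAut.conj g • (P : Subgroup H)) = ⊥) :
    ∃ N : Subgroup H, N.Normal ∧ N ≠ ⊥ ∧ (∀ K : Subgroup H, K.Normal → K ≠ ⊥ → N ≤ K) ∧
      IsSimpleGroup N ∧ ¬ IsMulCommutative N ∧ Subgroup.centralizer (N : Set H) = ⊥ ∧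
      ∀ Q : Sylow p N, (Q : Subgroup N) ≠ ⊥ ∧
        ∀ n : N, n ∉ Subgroup.normalizer ((Q : Subgroup N) : Set N) → (Q : Subgroup N) ⊓ (MulAut.conj n • (Q : Subgroup N)) = ⊥ := by
  classical
  have hti := Cfsg.Agent.Lib.BlkH8R.ti_of P hTI
  haveI : Nontrivial H := by
    by_contra hn
    rw [not_nontrivial_iff_subsingleton] at hn
    exact hP1 (Subsingleton.elim _ _)
  obtain ⟨N, ⟨hN, hN1⟩, hmin⟩ := exists_minimal_of_wellFoundedLT
    (fun K : Subgroup H => K.Normal ∧ K ≠ ⊥) ⟨⊤, inferInstance, fun h => by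
      haveI : Subsingleton H := by
        rw [← Subgroup.subsingleton_iff]; exact ⟨fun a b => by
          have h1 : ∀ c : Subgroup H, c = ⊥ := fun c => le_bot_iff.1 (h ▸ le_top)
          rw [h1 a, h1 b]⟩
      exact not_subsingleton H this⟩
  haveI := hN
  have hmin' : ∀ K : Subgroup H, K.Normal → K ≠ ⊥ → K ≤ N → N ≤ K := fun K h1 h2 h3 => hmin ⟨h1, h2⟩ h3
  have htopbot : ∀ K : Subgroup H, (⊤ : Subgroup K) = ⊥ → K = ⊥ := by
    intro K h
    rw [eq_bot_iff]
    intro k hk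
    have : (⟨k, hk⟩ : K) ∈ (⊥ : Subgroup K) := h ▸ Subgroup.mem_top _
    rw [Subgroup.mem_bot] at this
    exact congrArg Subtype.val this
  have htopne : ∀ K : Subgroup H, K ≠ ⊥ → (⊤ : Subgroup K) ≠ ⊥ := fun K h h' => h (htopbot K h')
  -- minimality
  have huniq : ∀ K : Subgroup H, K.Normal → K ≠ ⊥ → N ≤ K := by
    intro K hK hK1
    haveI := hK
    by_cases hinf : N ⊓ K = ⊥
    · exfalso
      obtain ⟨P₁, s, -, hs1, hs2⟩ := Cfsg.Agent.Lib.BlkH8R.exists_sylow_meet (p := p) hOp' (N := K)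
        (S := ⊤) (htopne K hK1)
      refine hN1 (htopbot N ?_)
      refine Cfsg.Agent.Lib.BlkH8R.bot_of_norm hOp hOp' P₁ (N := N) (S := ⊤) fun n _ => ?_
      refine Cfsg.Agent.Lib.BlkH8R.norm_of_comm hti P₁ hs2 (fun h => hs1 (Subtype.ext h)) ?_
      exact Subgroup.commute_of_normal_of_disjoint N K hN hK (disjoint_iff.2 hinf) _ _ n.2 s.2
    · exact (hmin' _ inferInstance hinf inf_le_left).trans inf_le_right
  have hcent : Subgroup.centralizer (N : Set H) = ⊥ := by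
    by_contra hne
    have h1 := huniq _ inferInstance hne
    obtain ⟨P₁, s, -, hs1, hs2⟩ := Cfsg.Agent.Lib.BlkH8R.exists_sylow_meet (p := p) hOp' (N := N)
      (S := ⊤) (htopne N hN1)
    refine hN1 (htopbot N ?_)
    refine Cfsg.Agent.Lib.BlkH8R.bot_of_norm hOp hOp' P₁ (N := N) (S := ⊤) fun n _ => ?_
    refine Cfsg.Agent.Lib.BlkH8R.norm_of_comm hti P₁ hs2 (fun h => hs1 (Subtype.ext h)) ?_
    exact (Subgroup.mem_centralizer_iff.1 (h1 n.2) s s.2).symm
  refine ⟨N, hN, hN1, huniq, ?_, ?_, hcent, ?_⟩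
  · haveI : Nontrivial N := (Subgroup.nontrivial_iff_ne_bot N).2 hN1
    refine { eq_bot_or_eq_top_of_normal := fun S hS => ?_ }
    by_contra hcon
    push Not at hcon
    obtain ⟨hSb, hSt⟩ := hcon
    obtain ⟨S₀, ⟨h1, h2, h3⟩, h4⟩ := exists_minimal_of_wellFoundedLT
      (fun T : Subgroup N => T.Normal ∧ T ≠ ⊥ ∧ T ≤ S) ⟨S, hS, hSb, le_rfl⟩
    haveI := h1
    have hS₀t : S₀ ≠ ⊤ := fun h => hSt (top_le_iff.1 (h ▸ h3))
    have hex : ∃ h : H, ¬ S₀.map (MulAut.conjNormal h : N ≃* N).toMonoidHom ≤ S₀ := by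
      by_contra hall
      push Not at hall
      have h5 : (S₀.map N.subtype).Normal := by
        refine ⟨?_⟩
        rintro _ ⟨x, hx, rfl⟩ h
        refine ⟨MulAut.conjNormal h x, hall h (Subgroup.mem_map_of_mem _ hx), ?_⟩
        exact MulAut.conjNormal_apply h x
      have h6 : S₀.map N.subtype ≠ ⊥ := by
        intro h
        rw [Subgroup.map_eq_bot_iff_of_injective _ N.subtype_injective] at h
        exact h2 h
      have h7 := hmin' _ h5 h6 (Subgroup.map_subtype_le _)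
      refine hS₀t (top_le_iff.1 fun n _ => ?_)
      obtain ⟨m, hm, hmn⟩ := h7 n.2
      have : m = n := Subtype.ext hmn
      exact this ▸ hm
    obtain ⟨h, hh⟩ := hex
    set S₁ := S₀.map (MulAut.conjNormal h : N ≃* N).toMonoidHom with hS₁
    haveI hS₁n : S₁.Normal := h1.map _ (MulAut.conjNormal h : N ≃* N).surjective
    have hinf : S₀ ⊓ S₁ = ⊥ := by
      by_contra hne
      have h5 := h4 ⟨inferInstance, hne, inf_le_left.trans h3⟩ inf_le_left
      have h6 : S₀ ≤ S₁ := h5.trans inf_le_right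
      have h7 : Nat.card S₁ = Nat.card S₀ :=
        (Nat.card_congr (S₀.equivMapOfInjective _ (MulAut.conjNormal h : N ≃* N).injective).toEquiv).symm
      exact hh (Subgroup.eq_of_le_of_card_ge h6 h7.le).ge
    obtain ⟨P₁, s, hs0, hs1, hs2⟩ := Cfsg.Agent.Lib.BlkH8R.exists_sylow_meet (p := p) hOp' (N := N)
      (S := S₀) h2
    have h8 : S₁ = ⊥ := by
      refine Cfsg.Agent.Lib.BlkH8R.bot_of_norm hOp hOp' P₁ (N := N) (S := S₁) fun t ht => ?_
      refine Cfsg.Agent.Lib.BlkH8R.norm_of_comm hti P₁ hs2 (fun h => hs1 (Subtype.ext h)) ?_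
      have h9 := Subgroup.commute_of_normal_of_disjoint S₁ S₀ hS₁n h1
        (disjoint_iff.2 (by rw [inf_comm]; exact hinf)) t s ht hs0
      exact congrArg Subtype.val h9.eq
    exact h2 ((Subgroup.map_eq_bot_iff_of_injective S₀ (f := (MulAut.conjNormal h : N ≃* N).toMonoidHom)
      (MulAut.conjNormal h : N ≃* N).injective).1 h8)
  · intro hc
    have h1 : N ≤ Subgroup.centralizer (N : Set H) := by
      intro n hn
      rw [Subgroup.mem_centralizer_iff]
      intro m hm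
      exact congrArg Subtype.val (hc.is_comm.comm (⟨m, hm⟩ : N) ⟨n, hn⟩)
    rw [hcent] at h1
    exact hN1 (le_bot_iff.1 h1)
  · intro Q
    obtain ⟨P₁, hP₁⟩ := Sylow.exists_comap_subtype_eq Q
    constructor
    · intro hQ
      obtain ⟨P₂, s, -, hs1, hs2⟩ := Cfsg.Agent.Lib.BlkH8R.exists_sylow_meet (p := p) hOp' (N := N)
        (S := ⊤) (htopne N hN1)
      have hd : p ∣ Nat.card N := by
        obtain ⟨k, hk⟩ := IsPGroup.iff_orderOf.1 P₂.2 ⟨(s : H), hs2⟩
        rw [Subgroup.orderOf_mk] at hk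
        have hk0 : k ≠ 0 := by
          rintro rfl
          rw [pow_zero, orderOf_eq_one_iff] at hk
          exact hs1 (Subtype.ext hk)
        have h1 : orderOf s = p ^ k := by rw [← hk, Subgroup.orderOf_coe]
        exact (dvd_pow_self p hk0).trans (h1 ▸ orderOf_dvd_natCard s)
      exact Q.ne_bot_of_dvd_card hd hQ
    · intro n hn
      rw [eq_bot_iff]
      intro x hx
      rw [Subgroup.mem_bot]
      by_contra hx1
      apply hn
      obtain ⟨hxQ, hxn⟩ := Subgroup.mem_inf.1 hx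
      rw [Subgroup.mem_pointwise_smul_iff_inv_smul_mem, ← map_inv, MulAut.smul_def,
        MulAut.conj_apply] at hxn
      have hQm : ∀ y : N, y ∈ (Q : Subgroup N) ↔ (y : H) ∈ (P₁ : Subgroup H) := by
        intro y
        rw [← hP₁]
        rfl
      rw [hQm] at hxQ hxn
      have h1 : (n : H) • P₁ = P₁ := by
        refine (hti P₁ ((n : H) • P₁) (x : H) (fun h => hx1 (Subtype.ext h)) hxQ ?_).symm
        rw [Sylow.coe_subgroup_smul, Subgroup.mem_pointwise_smul_iff_inv_smul_mem, ← map_inv,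
          MulAut.smul_def, MulAut.conj_apply]
        exact hxn
      have h2 := Sylow.smul_eq_iff_mem_normalizer.1 h1
      have h2' : ∀ y : H, y ∈ (P₁ : Subgroup H) ↔ n * y * (n : H)⁻¹ ∈ (P₁ : Subgroup H) :=
        fun y => Subgroup.mem_normalizer_iff.1 h2 y
      rw [Subgroup.mem_normalizer_iff]
      intro y
      change y ∈ (Q : Subgroup N) ↔ n * y * n⁻¹ ∈ (Q : Subgroup N)
      rw [hQm, hQm]
      exact h2' y

end Cfsg.Agent.S4620
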