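import Cfsg.Statements.S4741
import Cfsg.Agent.Lib.BlkH5M

set_option autoImplicit false
set_option linter.style.haveILetI false
set_option linter.unusedVariables false
open Cfsg

namespace Cfsg.Agent.S4741
open Cfsg.Agent.Lib.BlkH5M Cfsg.Agent.Lib.BlockRey Cfsg.Agent.Lib.BlockPC Cfsg.Agent.Lib.BlockRk Cfsg.Agent.Lib.BlockInt Cfsg.Agent.Lib.BlockIndIn Cfsg.Agent.Lib.BlockMaxB Cfsg.Agent.Lib.BlockMax Cfsg.Agent.Lib.BlockNilC Cfsg.Agent.Lib.BlockNilB Cfsg.Agent.Lib.BlockNil Cfsg.Agent.Lib.BlockFusB Cfsg.Agent.Lib.BlockFus Cfsg.Agent.Lib.BlockPairF Cfsg.Agent.Lib.BlockPairE Cfsg.Agent.Lib.BlockPairD Cfsg.Agent.Lib.BlockPairC Cfsg.Agent.Lib.BlockPairB Cfsg.Agent.Lib.BlockPair Cfsg.Agent.Lib.BlockBP Cfsg.Agent.Lib.BlockCovB Cfsg.Agent.Lib.BlockTr Cfsg.Agent.Lib.BlockMoreB Cfsg.Agent.Lib.BlockMore Cfsg.Agent.Lib.BlockQuotB Cfsg.Agent.Lib.BlockQuot Cfsg.Agent.Lib.BlockCov Cfsg.Agent.Lib.BlockM Cfsg.Agent.Lib.BlockHt Cfsg.Agent.Lib.BlockFirst Cfsg.Agent.Lib.BlockSecond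 Cfsg.Agent.Lib.BlockInd Cfsg.Agent.Lib.BlockNP Cfsg.Agent.Lib.BlockDeg Cfsg.Agent.Lib.BlockDef Cfsg.Agent.Lib.BlockRed Cfsg.Agent.Lib.BlockOrth Cfsg.Agent.Lib.BlockIdem Cfsg.Agent.Lib.BlockGA Cfsg.Agent.Lib.BlockLoc Cfsg.Agent.Lib.CharBasic Cfsg.Agent.Lib.BlockPP Cfsg.Agent.Lib.CharNormal Cfsg.Agent.Lib.CharPerm Cfsg.Agent.Lib.CharPermB Cfsg.Agent.Lib.BlockSum Cfsg.Agent.Lib.BlockKB Cfsg.Agent.Lib.BlockLar Cfsg.Agent.Lib.BlockBFM Cfsg.Agent.Lib.BlkH5A Cfsg.Agent.Lib.BlkH5L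
open scoped ComplexConjugate



/-- Let p be a prime, M a maximal ideal of the algebraic integers containing p, and D a subgroup of the finite group G. Let x₁, …, x_r be pairwise non-conjugate elements of G such that D is a Sylow p-subgroup of the centralizer of each xᵢ, and such that for any conjugates g of some xᵢ and h of some xⱼ the element g h⁻¹ is never a non-identity p-element. Then there are r distinct p-blocks B₁, …, B_r of G, each having D as a defect group, such that for every choice of characters χᵢ ∈ Bᵢ of height zero the determinant of the r × r matrix (χᵢ(xⱼ)) does not lie in the local ideal at M. -/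
theorem result {G : Type*} [Group G] [Finite G] (p : ℕ) [Fact p.Prime] (M : Ideal Cfsg.AlgInt) (hM : Cfsg.IsPModular p M) (D : Subgroup G) {r : ℕ} (x : Fin r → G) (hx : ∀ i j : Fin r, IsConj (x i) (x j) → i = j) (hD : ∀ i : Fin r, ∃ S : Sylow p ↥(Subgroup.centralizer ({x i} : Set G)), (S : Subgroup ↥(Subgroup.centralizer ({x i} : Set G))).map (Subgroup.centralizer ({x i} : Set G)).subtype = D) (hsep : ∀ i j : Fin r, ∀ g h : G, IsConj (x i) g → IsConj (x j) h → ∀ k : ℕ, 0 < k → orderOf (g * h⁻¹) ≠ p ^ k) : ∃ B : Fin r → Set (Cfsg.IrrCharacter G), Function.Injective B ∧ (∀ i : Fin r, Cfsg.IsPBlock M (B i) ∧ Cfsg.IsDefectGroup p M (B i) D) ∧ ∀ χ : Fin r → Cfsg.IrrCharacter G, (∀ i : Fin r, χ i ∈ B i ∧ Cfsg.blockHeight p (B i) (χ i : G → ℂ) = 0) → ¬ Cfsg.MemLocalIdeal M (Matrix.det (Matrix.of fun i j : Fin r => (χ i : G → ℂ) (x j))) := by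
  classical
  have hp := hM.1
  have hD' : ∀ i : Fin r, IsSyl p (x i) D := by
    intro i
    obtain ⟨S, hS⟩ := hD i
    rw [← hS]
    exact isSyl_of_sylow S
  obtain ⟨B, hinj, hB, hdet⟩ := sep_main hM D x hx hD' hsep
  refine ⟨B, hinj, hB, ?_⟩
  intro χ hχ hmem
  have hpF : ∀ a : ℕ, ¬ p ∣ a → (a : ResF hM) ≠ 0 := by
    intro a ha h
    exact ha ((CharP.cast_eq_zero_iff (ResF hM) p a).1 h)
  have h0 := hdet χ (fun i => (hχ i).1)
  -- degrees and class sizes
  have hdef : ∀ j, (Nat.card (Subgroup.centralizer ({x j} : Set G))).factorization p =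
      (Nat.card D).factorization p := by
    intro j
    obtain ⟨P, hP⟩ := hD j
    rw [← hP, Subgroup.card_map_of_injective (Subgroup.subtype_injective _), P.card_eq_multiplicity,
      hp.factorization_pow, Finsupp.single_eq_same]
  have hk : ∀ n : ℕ, n ≠ 0 → ∃ k : ℕ, n = p ^ n.factorization p * k ∧ ¬ p ∣ k := by
    intro n hn
    exact ⟨n / p ^ n.factorization p, (Nat.ordProj_mul_ordCompl_eq_self n p).symm,
      Nat.not_dvd_ordCompl hp hn⟩
  have hκ : ∀ j : Fin r, ∃ k : ℕ, (Subgroup.centralizer ({x j} : Set G)).index =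
      p ^ ((Nat.card G).factorization p - (Nat.card D).factorization p) * k ∧ ¬ p ∣ k := by
    intro j
    have h9 := Subgroup.index_mul_card (Subgroup.centralizer ({x j} : Set G))
    have h10 : (Nat.card G).factorization p =
        (Subgroup.centralizer ({x j} : Set G)).index.factorization p +
        (Nat.card D).factorization p := by
      rw [← hdef j, ← h9, Nat.factorization_mul (index_centralizer_ne_zero _) Nat.card_pos.ne',
        Finsupp.add_apply]
    obtain ⟨k, hk1, hk2⟩ := hk _ (index_centralizer_ne_zero (x j))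
    refine ⟨k, ?_, hk2⟩
    rw [h10, Nat.add_sub_cancel]
    exact hk1
  have hυ : ∀ i : Fin r, ∃ k : ℕ, charDegree (χ i).1 =
      p ^ ((Nat.card G).factorization p - (Nat.card D).factorization p) * k ∧ ¬ p ∣ k := by
    intro i
    obtain ⟨k, hk1, hk2⟩ := hk _ (charDegree_ne_zero (χ i).2)
    refine ⟨k, ?_, hk2⟩
    have h8 := fac_degree_add (p := p) (hχ i).1
    have h11 : (Nat.card D).factorization p = blockDefect p (B i) := by
      rw [card_defectGroup hM (hB i).1 (hB i).2, hp.factorization_pow, Finsupp.single_eq_same]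
    rw [(hχ i).2, add_zero] at h8
    have h12 : (Nat.card G).factorization p - (Nat.card D).factorization p =
        (charDegree (χ i).1).factorization p := by omega
    rw [h12]
    exact hk1
  choose κ hκ1 hκ2 using hκ
  choose υ hυ1 hυ2 using hυ
  set q : ℕ := p ^ ((Nat.card G).factorization p - (Nat.card D).factorization p) with hq
  have hq0 : (q : ℂ) ≠ 0 := Nat.cast_ne_zero.2 (pow_pos hp.pos _).ne'
  have hrel : ∀ i j : Fin r, (κ j : ℂ) * (χ i).1 (x j) = (υ i : ℂ) * centralChar (χ i).1 (x j) := by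
    intro i j
    have h6 := centralChar_mul_degree (χ i).2 (x j)
    rw [hκ1, hυ1] at h6
    push_cast at h6
    apply mul_left_cancel₀ hq0
    linear_combination h6
  set X : Matrix (Fin r) (Fin r) ℂ := Matrix.of fun i j : Fin r => (χ i : G → ℂ) (x j) with hX
  set Ω : Matrix (Fin r) (Fin r) ℂ := Matrix.of fun i j : Fin r => centralChar (χ i).1 (x j) with hΩ
  have hmat : X * Matrix.diagonal (fun j => (κ j : ℂ)) = Matrix.diagonal (fun i => (υ i : ℂ)) * Ω := by
    ext i j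
    rw [Matrix.mul_diagonal, Matrix.diagonal_mul, hX, hΩ, Matrix.of_apply, Matrix.of_apply,
      ← hrel i j, mul_comm]
  have hdets := congrArg Matrix.det hmat
  rw [Matrix.det_mul, Matrix.det_mul, Matrix.det_diagonal, Matrix.det_diagonal] at hdets
  have hΩloc : ∀ i j, MemLocalRing M (Ω i j) := fun i j => loc_centralChar hM (χ i).2 _
  have hΩd := red_det hM Ω hΩloc
  have hΩ0 : red hM Ω.det ≠ 0 := by
    rw [hΩd.2]
    convert h0 using 3
    ext i j
    change red hM (centralChar (χ i).1 (x j)) = lam hM (χ i).1 (cs (ResF hM) (x j))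
    rw [lam_cs hM (χ i).2]
  have h1 := congrArg (red hM) hdets
  have hXloc : MemLocalRing M X.det := loc_of_max hmem
  have hprodκ : (∏ j : Fin r, (κ j : ℂ)) = ((∏ j : Fin r, κ j : ℕ) : ℂ) := by push_cast; rfl
  have hprodυ : (∏ j : Fin r, (υ j : ℂ)) = ((∏ j : Fin r, υ j : ℕ) : ℂ) := by push_cast; rfl
  rw [hprodκ, hprodυ, red_mul hM hXloc (loc_natCast hM _), red_mul hM (loc_natCast hM _) hΩd.1,
    (red_eq_zero_iff hM hXloc).2 hmem, zero_mul, red_natCast] at h1
  rcases mul_eq_zero.1 h1.symm with h2 | h2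
  · refine hpF _ ?_ h2
    rw [hp.prime.dvd_finsetProd_iff]
    rintro ⟨i, -, hi⟩
    exact hυ2 i hi
  · exact hΩ0 h2

end Cfsg.Agent.S4741
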