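import Cfsg.Statements.S4742
import Cfsg.Agent.Lib.BlkH5O

set_option autoImplicit false
set_option linter.style.haveILetI false
set_option linter.unusedVariables false
open Cfsg

namespace Cfsg.Agent.S4742
open Cfsg.Agent.Lib.BlkH5O Cfsg.Agent.Lib.BlockRey Cfsg.Agent.Lib.BlockPC Cfsg.Agent.Lib.BlockRk Cfsg.Agent.Lib.BlockInt Cfsg.Agent.Lib.BlockIndIn Cfsg.Agent.Lib.BlockMaxB Cfsg.Agent.Lib.BlockMax Cfsg.Agent.Lib.BlockNilC Cfsg.Agent.Lib.BlockNilB Cfsg.Agent.Lib.BlockNil Cfsg.Agent.Lib.BlockFusB Cfsg.Agent.Lib.BlockFus Cfsg.Agent.Lib.BlockPairF Cfsg.Agent.Lib.BlockPairE Cfsg.Agent.Lib.BlockPairD Cfsg.Agent.Lib.BlockPairC Cfsg.Agent.Lib.BlockPairB Cfsg.Agent.Lib.BlockPair Cfsg.Agent.Lib.BlockBP Cfsg.Agent.Lib.BlockCovB Cfsg.Agent.Lib.BlockTr Cfsg.Agent.Lib.BlockMoreB Cfsg.Agent.Lib.BlockMore Cfsg.Agent.Lib.BlockQuotB Cfsg.Agent.Lib.BlockQuot Cfsg.Agent.Lib.BlockCov Cfsg.Agent.Lib.BlockM Cfsg.Agent.Lib.BlockHt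 Cfsg.Agent.Lib.BlockFirst Cfsg.Agent.Lib.BlockSecond Cfsg.Agent.Lib.BlockInd Cfsg.Agent.Lib.BlockNP Cfsg.Agent.Lib.BlockDeg Cfsg.Agent.Lib.BlockDef Cfsg.Agent.Lib.BlockRed Cfsg.Agent.Lib.BlockOrth Cfsg.Agent.Lib.BlockIdem Cfsg.Agent.Lib.BlockGA Cfsg.Agent.Lib.BlockLoc Cfsg.Agent.Lib.CharBasic Cfsg.Agent.Lib.BlockPP Cfsg.Agent.Lib.CharNormal Cfsg.Agent.Lib.CharPerm Cfsg.Agent.Lib.CharPermB Cfsg.Agent.Lib.BlockSum Cfsg.Agent.Lib.BlockKB Cfsg.Agent.Lib.BlockLar Cfsg.Agent.Lib.BlockBFM Cfsg.Agent.Lib.BlkH5N Cfsg.Agent.Lib.BlkH5A Cfsg.Agent.Lib.BlkH5G Cfsg.Agent.Lib.BlkH5B Cfsg.Agent.Lib.BlkH5C Cfsg.Agent.Lib.BlkH5D Cfsg.Agent.Lib.BlkH5E Cfsg.Agent.Lib.BlkH5F Cfsg.Agent.Lib.BlkH5L Cfsg.Agent.Lib.BlkH5M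
open scoped ComplexConjugate



/-- Let p ≠ q be primes dividing the order of the finite group G, and suppose the centralizer of every non-identity p-element of G has order prime to q. Then either G has an irreducible character of p-defect zero, or for every non-identity q-element z of G there are conjugates g, h of z such that g h⁻¹ is a non-identity p-element. -/
theorem result {G : Type*} [Group G] [Finite G] (p q : ℕ) [Fact p.Prime] [Fact q.Prime] (hppq : p ≠ q) (hpG : p ∣ Nat.card G) (hqG : q ∣ Nat.card G) (hC : ∀ g : G, g ≠ 1 → (∃ k : ℕ, orderOf g = p ^ k) → ¬ q ∣ Nat.card ↥(Subgroup.centralizer ({g} : Set G))) : (∃ χ : Cfsg.IrrCharacter G, (Cfsg.charDegree (χ : G → ℂ)).factorization p = (Nat.card G).factorization p) ∨ ∀ z : G, z ≠ 1 → (∃ k : ℕ, orderOf z = q ^ k) → ∃ g h : G, IsConj z g ∧ IsConj z h ∧ g * h⁻¹ ≠ 1 ∧ ∃ k : ℕ, orderOf (g * h⁻¹) = p ^ k := by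
  classical
  have hp := (Fact.out : p.Prime)
  have hq := (Fact.out : q.Prime)
  obtain ⟨M, hM⟩ := exists_isPModular p
  cases nonempty_fintype G
  by_cases h0 : ∃ χ : Cfsg.IrrCharacter G, (Cfsg.charDegree (χ : G → ℂ)).factorization p = (Nat.card G).factorization p
  · exact Or.inl h0
  right
  push Not at h0
  intro z hz1 hzq
  by_contra hcon
  push Not at hcon
  obtain ⟨S⟩ : Nonempty (Sylow p G) := inferInstance
  haveI : Fintype (S : Subgroup G) := Fintype.ofFinite _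
  have hm : ∀ χ : IrrCharacter G, ∃ n : ℕ, ∑ u : (S : Subgroup G), χ.1 (u : G) =
      (Nat.card (S : Subgroup G) : ℂ) * n := fun χ => exists_nat_sum_subgroup χ.1 (isChar_of_irr χ.2) S
  choose m hm using hm
  have hsep : ∀ g h : G, IsConj z g → IsConj z h → ∀ k : ℕ, 0 < k → orderOf (g * h⁻¹) ≠ p ^ k := by
    intro g h hg hh k hk ho
    refine hcon g h hg hh ?_ k ho
    intro h1
    rw [h1, orderOf_one] at ho
    exact (Nat.one_lt_pow hk.ne' hp.one_lt).ne ho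
  have h1 := sep_identity hp S m hm (x := z) (y := z) hsep
  rw [if_pos (IsConj.refl z)] at h1
  have hx : ¬ p ∣ Nat.card (Subgroup.centralizer ({z} : Set G)) := by
    intro h
    obtain ⟨⟨g, hg⟩, hgp⟩ := exists_prime_orderOf_dvd_card' p h
    rw [Subgroup.orderOf_mk] at hgp
    have hg1 : g ≠ 1 := by
      rintro rfl
      rw [orderOf_one] at hgp
      exact hp.one_lt.ne hgp
    refine hC g hg1 ⟨1, by rw [hgp, pow_one]⟩ ?_
    have h2 : z ∈ Subgroup.centralizer ({g} : Set G) := mem_cent_iff.2 (mem_cent_iff.1 hg).symm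
    obtain ⟨k, hk⟩ := hzq
    have hk0 : k ≠ 0 := by
      rintro rfl
      rw [pow_zero, orderOf_eq_one_iff] at hk
      exact hz1 hk
    have h3 := orderOf_dvd_natCard (⟨z, h2⟩ : Subgroup.centralizer ({g} : Set G))
    rw [Subgroup.orderOf_mk, hk] at h3
    exact (dvd_pow_self q hk0).trans h3
  have hl : ∀ χ : IrrCharacter G, MemLocalIdeal M (centralChar χ.1 z * χ.1 z⁻¹ * m χ) := by
    intro χ
    rw [mul_assoc]
    apply max_mul_right hM
    · by_contra hcon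
      exact h0 χ (defect_zero_of_lam hM hx hcon)
    · exact loc_mul hM (loc_char hM (isChar_of_irr χ.2) _) (loc_natCast hM _)
  have h2 : red hM ((S : Subgroup G).index : ℂ) = 0 := by
    rw [← h1, red_sum hM _ _ (fun χ _ => loc_of_max (hl χ))]
    exact Finset.sum_eq_zero (fun χ _ => (red_eq_zero_iff hM (loc_of_max (hl χ))).2 (hl χ))
  rw [red_natCast, CharP.cast_eq_zero_iff (ResF hM) p] at h2
  exact S.not_dvd_index h2

end Cfsg.Agent.S4742
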