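import Cfsg.Statements.S4744
import Cfsg.Agent.Lib.BlkH5O

set_option autoImplicit false
set_option linter.style.haveILetI false
set_option linter.unusedVariables false
open Cfsg

namespace Cfsg.Agent.S4744
open Cfsg.Agent.Lib.BlkH5O Cfsg.Agent.Lib.BlockRey Cfsg.Agent.Lib.BlockPC Cfsg.Agent.Lib.BlockRk Cfsg.Agent.Lib.BlockInt Cfsg.Agent.Lib.BlockIndIn Cfsg.Agent.Lib.BlockMaxB Cfsg.Agent.Lib.BlockMax Cfsg.Agent.Lib.BlockNilC Cfsg.Agent.Lib.BlockNilB Cfsg.Agent.Lib.BlockNil Cfsg.Agent.Lib.BlockFusB Cfsg.Agent.Lib.BlockFus Cfsg.Agent.Lib.BlockPairF Cfsg.Agent.Lib.BlockPairE Cfsg.Agent.Lib.BlockPairD Cfsg.Agent.Lib.BlockPairC Cfsg.Agent.Lib.BlockPairB Cfsg.Agent.Lib.BlockPair Cfsg.Agent.Lib.BlockBP Cfsg.Agent.Lib.BlockCovB Cfsg.Agent.Lib.BlockTr Cfsg.Agent.Lib.BlockMoreB Cfsg.Agent.Lib.BlockMore Cfsg.Agent.Lib.BlockQuotB Cfsg.Agent.Lib.BlockQuot Cfsg.Agent.Lib.BlockCov Cfsg.Agent.Lib.BlockM Cfsg.Agent.Lib.BlockHt Cfsg.Agent.Lib.BlockFirst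 Cfsg.Agent.Lib.BlockSecond Cfsg.Agent.Lib.BlockInd Cfsg.Agent.Lib.BlockNP Cfsg.Agent.Lib.BlockDeg Cfsg.Agent.Lib.BlockDef Cfsg.Agent.Lib.BlockRed Cfsg.Agent.Lib.BlockOrth Cfsg.Agent.Lib.BlockIdem Cfsg.Agent.Lib.BlockGA Cfsg.Agent.Lib.BlockLoc Cfsg.Agent.Lib.CharBasic Cfsg.Agent.Lib.BlockPP Cfsg.Agent.Lib.CharNormal Cfsg.Agent.Lib.CharPerm Cfsg.Agent.Lib.CharPermB Cfsg.Agent.Lib.BlockSum Cfsg.Agent.Lib.BlockKB Cfsg.Agent.Lib.BlockLar Cfsg.Agent.Lib.BlockBFM Cfsg.Agent.Lib.BlkH5N Cfsg.Agent.Lib.BlkH5A Cfsg.Agent.Lib.BlkH5G Cfsg.Agent.Lib.BlkH5B Cfsg.Agent.Lib.BlkH5C Cfsg.Agent.Lib.BlkH5D Cfsg.Agent.Lib.BlkH5E Cfsg.Agent.Lib.BlkH5F Cfsg.Agent.Lib.BlkH5L Cfsg.Agent.Lib.BlkH5M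
open scoped ComplexConjugate



/-- Let p be an odd prime and G a finite group of even order divisible by p in which the centralizer of every non-identity p-element has odd order. Then either G has an irreducible character of p-defect zero, or the normalizer of every Sylow p-subgroup P of G has even order and P is abelian. -/
theorem result {G : Type*} [Group G] [Finite G] (p : ℕ) [Fact p.Prime] (hp2 : p ≠ 2) (hpG : p ∣ Nat.card G) (h2G : 2 ∣ Nat.card G) (hC : ∀ g : G, g ≠ 1 → (∃ k : ℕ, orderOf g = p ^ k) → Odd (Nat.card ↥(Subgroup.centralizer ({g} : Set G)))) : (∃ χ : Cfsg.IrrCharacter G, (Cfsg.charDegree (χ : G → ℂ)).factorization p = (Nat.card G).factorization p) ∨ ∀ P : Sylow p G, Even (Nat.card ↥(Subgroup.normalizer ((P : Subgroup G) : Set G))) ∧ IsMulCommutative ↥(P : Subgroup G) := by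
  classical
  have hp := (Fact.out : p.Prime)
  obtain ⟨M, hM⟩ := exists_isPModular p
  by_cases h0 : ∃ χ : Cfsg.IrrCharacter G, (Cfsg.charDegree (χ : G → ℂ)).factorization p = (Nat.card G).factorization p
  · exact Or.inl h0
  right
  push Not at h0
  have h2p : ∀ g : G, orderOf g ≠ 2 * p := by
    intro g hg
    have h1 : orderOf (g ^ 2) = p := by
      rw [orderOf_pow' _ two_ne_zero, hg, Nat.gcd_eq_right (Dvd.intro _ rfl),
        Nat.mul_div_cancel_left _ two_pos]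
    have h2 : orderOf (g ^ p) = 2 := by
      rw [orderOf_pow' _ hp.ne_zero, hg, Nat.gcd_eq_right (Dvd.intro_left _ rfl),
        Nat.mul_div_cancel _ hp.pos]
    have h3 : g ^ 2 ≠ 1 := by
      intro h
      rw [h, orderOf_one] at h1
      exact hp.one_lt.ne h1
    have h4 := hC (g ^ 2) h3 ⟨1, by rw [h1, pow_one]⟩
    have h5 : g ^ p ∈ Subgroup.centralizer ({g ^ 2} : Set G) :=
      mem_cent_iff.2 ((Commute.refl g).pow_pow p 2)
    have h6 : 2 ∣ Nat.card ↥(Subgroup.centralizer ({g ^ 2} : Set G)) := by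
      have h7 : orderOf (⟨g ^ p, h5⟩ : Subgroup.centralizer ({g ^ 2} : Set G)) = 2 := by
        rw [Subgroup.orderOf_mk, h2]
      have h8 := orderOf_dvd_natCard (⟨g ^ p, h5⟩ : Subgroup.centralizer ({g ^ 2} : Set G))
      rwa [h7] at h8
    rw [← Nat.not_even_iff_odd] at h4
    exact h4 (even_iff_two_dvd.2 h6)
  intro S
  obtain ⟨t, ht⟩ := exists_prime_orderOf_dvd_card' 2 h2G
  obtain ⟨s, hts, hs⟩ := exists_inverting hM hp2 h2p hpG S ht h0
  refine ⟨?_, abelian_of_inverts hs⟩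
  have hs2 : orderOf s = 2 := by
    obtain ⟨c, rfl⟩ := isConj_iff.1 hts
    rw [orderOf_conj]; exact ht
  have hsN : s ∈ Subgroup.normalizer ((S : Subgroup G) : Set G) := by
    rw [Subgroup.mem_normalizer_iff]
    intro q
    constructor
    · intro hq
      rw [hs q hq]
      exact Subgroup.inv_mem _ hq
    · intro hq
      have h1 := hs _ hq
      have hss : s * s = 1 := by
        have := pow_orderOf_eq_one s
        rwa [hs2, pow_two] at this
      have h2 : q = (s * q * s⁻¹)⁻¹ := by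
        have h3 : s⁻¹ = s := inv_eq_of_mul_eq_one_left hss
        rw [← h1, h3]
        calc q = (s * s) * q * (s * s) := by rw [hss]; group
          _ = s * (s * q * s) * s := by group
      rw [h2]
      exact Subgroup.inv_mem _ hq
  rw [even_iff_two_dvd]
  have h7 : orderOf (⟨s, hsN⟩ : Subgroup.normalizer ((S : Subgroup G) : Set G)) = 2 := by
    rw [Subgroup.orderOf_mk, hs2]
  rw [← h7]
  exact orderOf_dvd_natCard _

end Cfsg.Agent.S4744
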