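import Cfsg.Statements.S4754
import Cfsg.Agent.Lib.CharFS

set_option autoImplicit false
open Cfsg

namespace Cfsg.Agent.S4754

open Lib.CharBasic in

/-- For elements x, y of a finite group G, the conjugacy class of x y equals the set of all products of a conjugate of x with a conjugate of y if and only if χ(1) χ(a x a⁻¹ b y b⁻¹) = χ(x) χ(y) for all a, b ∈ G and every irreducible character χ. -/
theorem result {G : Type*} [Group G] [Finite G] (x y : G) : (∀ z : G, IsConj (x * y) z ↔ ∃ a b : G, z = a * x * a⁻¹ * (b * y * b⁻¹)) ↔ ∀ (a b : G) (χ : Cfsg.IrrCharacter G), (χ : G → ℂ) 1 * (χ : G → ℂ) (a * x * a⁻¹ * (b * y * b⁻¹)) = (χ : G → ℂ) x * (χ : G → ℂ) y := by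
  classical
  cases nonempty_fintype G
  have hcl : ∀ (χ : IrrCharacter G) (a b : G), χ.1 (b * a * b⁻¹) = χ.1 a := fun χ a b =>
    Lib.CharBasic.isChar_classFn (Lib.CharBasic.isChar_of_irr χ.2) a b
  have hred : ∀ (χ : IrrCharacter G) (a b : G),
      χ.1 (a * x * a⁻¹ * (b * y * b⁻¹)) = χ.1 ((b⁻¹ * a) * x * (b⁻¹ * a)⁻¹ * y) := by
    intro χ a b
    rw [← hcl χ _ b⁻¹]
    congr 1
    group
  constructor
  · intro h a b χ
    have hconst : ∀ c : G, χ.1 (c * x * c⁻¹ * y) = χ.1 (x * y) := by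
      intro c
      have h1 := (h (c * x * c⁻¹ * y)).mpr ⟨c, 1, by group⟩
      exact (Lib.CharBasic.classFn_isConj
        (Lib.CharBasic.isChar_classFn (Lib.CharBasic.isChar_of_irr χ.2)) h1).symm
    have h2 := Lib.CharFS.sum_conj_mul χ.1 χ.2 x y
    rw [Finset.sum_congr rfl fun c _ => hconst c, Finset.sum_const, Finset.card_univ,
      nsmul_eq_mul, ← Nat.card_eq_fintype_card] at h2
    have hG : (Nat.card G : ℂ) ≠ 0 := Lib.CharBasic.card_ne_zero'
    have h1 : χ.1 1 ≠ 0 := Lib.CharBasic.isIrr_one_ne_zero χ.2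
    rw [hred, hconst]
    field_simp at h2
    have h3 : χ.1 (x * y) * χ.1 1 = χ.1 x * χ.1 y := h2
    rw [mul_comm]; exact h3
  · intro h z
    constructor
    · intro hz
      obtain ⟨c, hc⟩ := isConj_iff.mp hz
      exact ⟨c, c, by rw [← hc]; group⟩
    · rintro ⟨a, b, rfl⟩
      apply Lib.CharBasic.irr_separates
      intro χ
      have h1 := h a b χ
      have h2 := h 1 1 χ
      simp only [one_mul, inv_one, mul_one] at h2
      exact mul_left_cancel₀ (Lib.CharBasic.isIrr_one_ne_zero χ.2) (h2.trans h1.symm)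
end Cfsg.Agent.S4754
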