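import Cfsg.Statements.S4755
import Cfsg.Agent.Lib.BlockOrth
import Cfsg.Agent.Lib.CharFS

set_option autoImplicit false
set_option linter.style.haveILetI false
set_option linter.unusedVariables false
open Cfsg

namespace Cfsg.Agent.S4755
open Cfsg.Agent.Lib.BlockOrth Cfsg.Agent.Lib.BlockIdem Cfsg.Agent.Lib.BlockGA Cfsg.Agent.Lib.BlockLoc Cfsg.Agent.Lib.CharBasic Cfsg.Agent.Lib.BlockPP
open scoped ComplexConjugate



/-- Let x, y be non-identity elements of the finite group G such that χ(x' y') = χ(x') χ(y') for all conjugates x' of x, y' of y and every irreducible character χ. Then the conjugacy class of x y is the set of all products of a conjugate of x with a conjugate of y; every irreducible character of degree greater than 1 vanishes at x y; and the conjugacy class of x y is the coset of the commutator subgroup containing x y. -/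
theorem result {G : Type*} [Group G] [Finite G] (x y : G) (hx : x ≠ 1) (hy : y ≠ 1) (h : ∀ (a b : G) (χ : Cfsg.IrrCharacter G), (χ : G → ℂ) (a * x * a⁻¹ * (b * y * b⁻¹)) = (χ : G → ℂ) (a * x * a⁻¹) * (χ : G → ℂ) (b * y * b⁻¹)) : (∀ z : G, IsConj (x * y) z ↔ ∃ a b : G, z = a * x * a⁻¹ * (b * y * b⁻¹)) ∧ (∀ χ : Cfsg.IrrCharacter G, (χ : G → ℂ) 1 ≠ 1 → (χ : G → ℂ) (x * y) = 0) ∧ (∀ z : G, IsConj (x * y) z ↔ (x * y)⁻¹ * z ∈ commutator G) := by
  classical
  cases nonempty_fintype G
  have cf : ∀ χ : IrrCharacter G, IsClassFunction G χ.1 := fun χ => isChar_classFn (isChar_of_irr χ.2)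
  have hc : ∀ (χ : IrrCharacter G) (a g : G), χ.1 (a * g * a⁻¹) = χ.1 g := fun χ a g =>
    (classFn_isConj (cf χ) (isConj_iff.2 ⟨a, rfl⟩)).symm
  have h1 : ∀ (χ : IrrCharacter G) (a b : G), χ.1 (a * x * a⁻¹ * (b * y * b⁻¹)) = χ.1 x * χ.1 y := by
    intro χ a b
    rw [h a b χ, hc, hc]
  have h2 : ∀ χ : IrrCharacter G, χ.1 (x * y) = χ.1 x * χ.1 y := by
    intro χ
    have := h1 χ 1 1
    simpa using this
  have h3 : ∀ χ : IrrCharacter G, χ.1 1 ≠ 1 → χ.1 (x * y) = 0 := by
    intro χ hne
    have e1 := Cfsg.Agent.Lib.BlockOrth.sum_conj_mul χ.2 x y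
    have e2 : ∀ k : G, χ.1 (k⁻¹ * x * k * y) = χ.1 x * χ.1 y := by
      intro k
      have := h1 χ k⁻¹ 1
      simpa using this
    simp only [e2] at e1
    rw [Finset.sum_const, nsmul_eq_mul, Finset.card_univ, ← Nat.card_eq_fintype_card] at e1
    have hG : (Nat.card G : ℂ) ≠ 0 := by exact_mod_cast Nat.card_pos.ne'
    have h10 : χ.1 1 ≠ 0 := isIrr_one_ne_zero χ.2
    rw [h2]
    rw [eq_div_iff h10] at e1
    have e3 : (Nat.card G : ℂ) * ((χ.1 x * χ.1 y) * (χ.1 1 - 1)) = 0 := by linear_combination e1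
    rcases mul_eq_zero.1 e3 with e | e
    · exact absurd e hG
    · rcases mul_eq_zero.1 e with e | e
      · exact e
      · exact absurd (sub_eq_zero.1 e) hne
  refine ⟨?_, h3, ?_⟩
  · intro z
    constructor
    · intro hz
      obtain ⟨c, hc'⟩ := isConj_iff.1 hz
      exact ⟨c, c, by rw [← hc']; group⟩
    · rintro ⟨a, b, rfl⟩
      refine irr_separates fun χ => ?_
      rw [h1 χ a b, h2]
  · intro z
    constructor
    · intro hz
      obtain ⟨c, rfl⟩ := isConj_iff.1 hz
      have : (Abelianization.of ((x * y)⁻¹ * (c * (x * y) * c⁻¹)) : Abelianization G) = 1 := by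
        simp only [map_mul, map_inv]
        rw [mul_comm (Abelianization.of c), mul_assoc, mul_inv_cancel, mul_one, inv_mul_cancel]
      exact (QuotientGroup.eq_one_iff _).1 this
    · intro hz
      by_contra hcon
      have e := column_orth z (x * y)
      rw [if_neg (fun hh => hcon hh.symm)] at e
      have hlin : ∀ χ : IrrCharacter G, χ.1 1 = 1 → χ.1 z = χ.1 (x * y) := by
        intro χ hχ
        obtain ⟨lam, hlam⟩ := exists_lin_of_one (isChar_of_irr χ.2) hχ
        rw [hlam]
        have hk : lam ((x * y)⁻¹ * z) = 1 := by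
          have : commutator G ≤ lam.ker := Abelianization.commutator_subset_ker lam
          exact this hz
        rw [map_mul, map_inv] at hk
        have : lam z = lam (x * y) := by rw [inv_mul_eq_one] at hk; exact hk.symm
        simp only [this]
      have e2 : ∀ χ : IrrCharacter G, χ.1 z * conj (χ.1 (x * y)) = ((Complex.normSq (χ.1 (x * y)) : ℝ) : ℂ) := by
        intro χ
        by_cases hχ : χ.1 1 = 1
        · rw [hlin χ hχ, Complex.mul_conj]
        · rw [h3 χ hχ]; simp
      simp only [e2] at e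
      rw [← Complex.ofReal_sum] at e
      have e3 : ∑ χ : IrrCharacter G, Complex.normSq (χ.1 (x * y)) = 0 := by exact_mod_cast e
      rw [Finset.sum_eq_zero_iff_of_nonneg (fun _ _ => Complex.normSq_nonneg _)] at e3
      have e4 := e3 ⟨fun _ => 1, isIrr_trivial⟩ (Finset.mem_univ _)
      simp at e4

end Cfsg.Agent.S4755
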