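import Cfsg.Statements.S4757
import Cfsg.Agent.Lib.BlkH8Z

set_option autoImplicit false
set_option linter.style.haveILetI false
set_option linter.unusedVariables false
open Cfsg

namespace Cfsg.Agent.S4757
open Cfsg.Agent.Lib.BlkH8Z Cfsg.Agent.Lib.BlockRey Cfsg.Agent.Lib.BlockPC Cfsg.Agent.Lib.BlockRk Cfsg.Agent.Lib.BlockInt Cfsg.Agent.Lib.BlockIndIn Cfsg.Agent.Lib.BlockMaxB Cfsg.Agent.Lib.BlockMax Cfsg.Agent.Lib.BlockNilC Cfsg.Agent.Lib.BlockNilB Cfsg.Agent.Lib.BlockNil Cfsg.Agent.Lib.BlockFusB Cfsg.Agent.Lib.BlockFus Cfsg.Agent.Lib.BlockPairF Cfsg.Agent.Lib.BlockPairE Cfsg.Agent.Lib.BlockPairD Cfsg.Agent.Lib.BlockPairC Cfsg.Agent.Lib.BlockPairB Cfsg.Agent.Lib.BlockPair Cfsg.Agent.Lib.BlockBP Cfsg.Agent.Lib.BlockCovB Cfsg.Agent.Lib.BlockTr Cfsg.Agent.Lib.BlockMoreB Cfsg.Agent.Lib.BlockMore Cfsg.Agent.Lib.BlockQuotB Cfsg.Agent.Lib.BlockQuot Cfsg.Agent.Lib.BlockCov Cfsg.Agent.Lib.BlockM Cfsg.Agent.Lib.BlockHt Cfsg.Agent.Lib.BlockFirst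 Cfsg.Agent.Lib.BlockSecond Cfsg.Agent.Lib.BlockInd Cfsg.Agent.Lib.BlockNP Cfsg.Agent.Lib.BlockDeg Cfsg.Agent.Lib.BlockDef Cfsg.Agent.Lib.BlockRed Cfsg.Agent.Lib.BlockOrth Cfsg.Agent.Lib.BlockIdem Cfsg.Agent.Lib.BlockGA Cfsg.Agent.Lib.BlockLoc Cfsg.Agent.Lib.CharBasic Cfsg.Agent.Lib.BlockPP Cfsg.Agent.Lib.CharNormal Cfsg.Agent.Lib.CharPerm Cfsg.Agent.Lib.CharPermB Cfsg.Agent.Lib.BlockSum Cfsg.Agent.Lib.BlockKB Cfsg.Agent.Lib.BlockLar Cfsg.Agent.Lib.BlockBFM Cfsg.Agent.Lib.BlkH8A Cfsg.Agent.Lib.BlkH7R Cfsg.Agent.Lib.BlkH6L Cfsg.Agent.Lib.BlkH6K Cfsg.Agent.Lib.BlkH6J Cfsg.Agent.Lib.BlkH6I Cfsg.Agent.Lib.BlkH6H Cfsg.Agent.Lib.BlkH6G Cfsg.Agent.Lib.BlkH5T Cfsg.Agent.Lib.BlkH5Q Cfsg.Agent.Lib.BlkH5P Cfsg.Agent.Lib.BlkH5O Cfsg.Agent.Lib.BlkH5N Cfsg.Agent.Lib.BlkH5A Cfsg.Agent.Lib.BlkH5G Cfsg.Agent.Lib.BlkH5B Cfsg.Agent.Lib.BlkH5C Cfsg.Agent.Lib.BlkH5D Cfsg.Agent.Lib.BlkH5E Cfsg.Agent.Lib.BlkH5F Cfsg.Agent.Lib.BlkH5L Cfsg.Agent.Lib.BlkH5M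 Cfsg.Agent.Lib.BlkH5R Cfsg.Agent.Lib.BlkH5S Cfsg.Agent.Lib.BlkH5U Cfsg.Agent.Lib.BlkH5V Cfsg.Agent.Lib.BlkH5W Cfsg.Agent.Lib.BlkH5X Cfsg.Agent.Lib.BlkH6F Cfsg.Agent.Lib.BlkH6N Cfsg.Agent.Lib.BlkH6M Cfsg.Agent.Lib.BlkH6D Cfsg.Agent.Lib.BlkH6C Cfsg.Agent.Lib.BlkH6B Cfsg.Agent.Lib.BlkH6A Cfsg.Agent.Lib.BlkH5Y Cfsg.Agent.Lib.BlkH7C Cfsg.Agent.Lib.BlkH7A Cfsg.Agent.Lib.BlkH7B Cfsg.Agent.Lib.BlkH7E Cfsg.Agent.Lib.BlkH7D Cfsg.Agent.Lib.BlkH7F Cfsg.Agent.Lib.BlkH7G Cfsg.Agent.Lib.BlkH6P Cfsg.Agent.Lib.BlkH6O Cfsg.Agent.Lib.BlkH7H Cfsg.Agent.Lib.BlkH7I Cfsg.Agent.Lib.BlkH7J Cfsg.Agent.Lib.BlkH7K Cfsg.Agent.Lib.BlkH7L Cfsg.Agent.Lib.BlkH7M Cfsg.Agent.Lib.BlkH7N Cfsg.Agent.Lib.BlkH7O Cfsg.Agent.Lib.BlkH7P Cfsg.Agent.Lib.BlkH7Q Cfsg.Agent.Lib.BlkH8F Cfsg.Agent.Lib.BlkH8E Cfsg.Agent.Lib.BlkH8D Cfsg.Agent.Lib.BlkH8C Cfsg.Agent.Lib.BlkH8B Cfsg.Agent.Lib.BlockKul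
open scoped ComplexConjugate



/-- Let u ≠ 1 be an element of the finite group G and c a complex number such that every non-principal irreducible character χ satisfies χ(1) − χ(u) = c or χ(u) = 0. Then the following are equivalent: (a) u has order 2, G is generated by u together with O(G), the largest normal subgroup of G of odd order, and the centralizer of u is {1, u}; (b) G is not perfect; (c) c = 2. -/
theorem result {G : Type*} [Group G] [Finite G] (u : G) (hu : u ≠ 1) (c : ℂ) (hyp : ∀ χ : Cfsg.IrrCharacter G, (χ : G → ℂ) ≠ (fun _ => (1 : ℂ)) → ((χ : G → ℂ) 1 - (χ : G → ℂ) u = c ∨ (χ : G → ℂ) u = 0)) : ((orderOf u = 2 ∧ Subgroup.zpowers u ⊔ Cfsg.oddCore G = ⊤ ∧ Subgroup.centralizer ({u} : Set G) = Subgroup.zpowers u) ↔ commutator G ≠ ⊤) ∧ (commutator G ≠ ⊤ ↔ c = 2) := by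
  classical
  haveI := Fintype.ofFinite G
  haveI : Fact (Nat.Prime 2) := ⟨Nat.prime_two⟩
  refine ⟨⟨?_, fun hG => ?_⟩, fun hG => (Cfsg.Agent.Lib.BlkH8Z.imp hu hyp hG).1,
    fun hc => Cfsg.Agent.Lib.BlkH8Z.conv hu hc hyp⟩
  · rintro ⟨h1, h2, -⟩ hG
    haveI hOn : (Cfsg.oddCore G).Normal := Cfsg.Agent.Lib.Cores.pPrimeCore_normal 2
    have h3 : commutator G ≤ Cfsg.oddCore G := by
      have h4 : ∀ x : G, ∃ i : ℤ, QuotientGroup.mk' (Cfsg.oddCore G) x =
          (QuotientGroup.mk' (Cfsg.oddCore G) u) ^ i := by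
        intro x
        have hx : x ∈ Subgroup.zpowers u ⊔ Cfsg.oddCore G := h2 ▸ Subgroup.mem_top x
        rw [Subgroup.mem_sup_of_normal_right] at hx
        obtain ⟨_, ⟨i, rfl⟩, n, hn, rfl⟩ := hx
        refine ⟨i, ?_⟩
        have h5 : QuotientGroup.mk' (Cfsg.oddCore G) n = 1 := (QuotientGroup.eq_one_iff n).2 hn
        rw [map_mul, h5, mul_one, ← map_zpow]
      rw [commutator_def, Subgroup.commutator_le]
      intro a _ b _
      apply (QuotientGroup.eq_one_iff _).1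
      change QuotientGroup.mk' (Cfsg.oddCore G) (a * b * a⁻¹ * b⁻¹) = 1
      obtain ⟨i, hi⟩ := h4 a
      obtain ⟨j, hj⟩ := h4 b
      rw [map_mul, map_mul, map_mul, map_inv, map_inv, hi, hj]
      group
    rw [hG, top_le_iff] at h3
    have h4 : ¬ 2 ∣ Nat.card (Cfsg.oddCore G) := Cfsg.Agent.Lib.Cores.pPrimeCore_not_dvd 2
    rw [h3, Subgroup.card_top, ← h1] at h4
    exact h4 (orderOf_dvd_natCard u)
  · obtain ⟨hc, l₀, hl1, hl2, hl3⟩ := Cfsg.Agent.Lib.BlkH8Z.imp hu hyp hG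
    have hcard := Cfsg.Agent.Lib.BlkH8Z.card_cent hu hyp hG
    have hmem : u ∈ Subgroup.centralizer ({u} : Set G) := by
      rw [Subgroup.mem_centralizer_iff]
      intro y hy
      rw [Set.mem_singleton_iff.1 hy]
    have hu2 : u ^ 2 = 1 := by
      have h1 : (⟨u, hmem⟩ : Subgroup.centralizer ({u} : Set G)) ^ 2 = 1 := by
        rw [← hcard]; exact pow_card_eq_one'
      exact congrArg Subtype.val h1
    have hord : orderOf u = 2 := orderOf_eq_prime hu2 hu
    have hz : Subgroup.centralizer ({u} : Set G) = Subgroup.zpowers u := by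
      symm
      apply Subgroup.eq_of_le_of_card_ge
      · rw [Subgroup.zpowers_le]; exact hmem
      · rw [hcard, Nat.card_zpowers, hord]
    have huc : u ∉ commutator G := by
      intro h
      have h4 : commutator G ≤ l₀.ker := Abelianization.commutator_subset_ker l₀
      have h5 := h4 h
      rw [MonoidHom.mem_ker] at h5
      rw [h5, Units.val_one] at hl2
      norm_num at hl2
    have hidx : (commutator G).index = 2 := by
      rw [← Cfsg.Agent.Lib.CharLin.card_hom_units, Nat.card_eq_two_iff]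
      refine ⟨1, l₀, Ne.symm hl1, ?_⟩
      ext l
      simp only [Set.mem_insert_iff, Set.mem_singleton_iff, Set.mem_univ, iff_true]
      exact hl3 l
    have hm2 : ∀ a b : G, a * b ∈ commutator G ↔ (a ∈ commutator G ↔ b ∈ commutator G) :=
      fun a b => Subgroup.mul_mem_iff_of_index_two hidx
    have hcls : ∀ x, x ∉ commutator G → IsConj u x := by
      have h1 : (Finset.univ.filter (fun h => IsConj u h)) ⊆ Finset.univ.filter (fun x => x ∉ commutator G) := by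
        intro x hx
        rw [Finset.mem_filter] at hx ⊢
        refine ⟨Finset.mem_univ _, fun hxc => huc ?_⟩
        obtain ⟨y, hy⟩ := isConj_iff.1 hx.2
        rw [← hy] at hxc
        have h2 := (inferInstance : (commutator G).Normal).conj_mem _ hxc y⁻¹
        have h3 : y⁻¹ * (y * u * y⁻¹) * y⁻¹⁻¹ = u := by group
        rwa [h3] at h2
      have h2 : (Finset.univ.filter (fun x => x ∉ commutator G)).card ≤
          (Finset.univ.filter (fun h => IsConj u h)).card := by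
        rw [card_conj_filter u]
        have h3 := Subgroup.card_mul_index (Subgroup.centralizer ({u} : Set G))
        rw [hcard] at h3
        have h4 := Subgroup.card_mul_index (commutator G)
        rw [hidx] at h4
        have h5 : (Finset.univ.filter (fun x => x ∈ commutator G)).card = Nat.card (commutator G) := by
          rw [Nat.card_eq_fintype_card, Fintype.card_subtype]
        have h6 := Finset.card_filter_add_card_filter_not (s := (Finset.univ : Finset G)) (fun x => x ∈ commutator G)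
        rw [Finset.card_univ, ← Nat.card_eq_fintype_card, h5] at h6
        omega
      have h3 := Finset.eq_of_subset_of_card_le h1 h2
      intro x hx
      have h4 : x ∈ Finset.univ.filter (fun x => x ∉ commutator G) := by
        rw [Finset.mem_filter]; exact ⟨Finset.mem_univ _, hx⟩
      rw [← h3, Finset.mem_filter] at h4
      exact h4.2
    have hodd : ¬ 2 ∣ Nat.card (commutator G) := by
      intro hd
      obtain ⟨t, ht⟩ := exists_prime_orderOf_dvd_card' 2 hd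
      have ht2 : (t : G) * t = 1 := by
        have : t ^ 2 = 1 := by rw [← ht]; exact pow_orderOf_eq_one t
        rw [sq] at this
        exact congrArg Subtype.val this
      have h1 : u * (t : G) ∉ commutator G := by
        rw [hm2]
        intro h
        exact huc (h.2 t.2)
      obtain ⟨y, hy⟩ := isConj_iff.1 (hcls _ h1)
      have h2 : (u * (t : G)) * (u * t) = 1 := by
        rw [← hy]
        have : y * u * y⁻¹ * (y * u * y⁻¹) = y * (u ^ 2) * y⁻¹ := by rw [sq]; group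
        rw [this, hu2]; group
      have h3 : u * (t : G) = t * u := by
        have h4 : u * u = 1 := by rw [← sq]; exact hu2
        have hui : u⁻¹ = u := inv_eq_of_mul_eq_one_left h4
        have hti : (t : G)⁻¹ = t := inv_eq_of_mul_eq_one_left ht2
        have h5 := eq_inv_of_mul_eq_one_left h2
        rw [mul_inv_rev, hui, hti] at h5
        exact h5
      have h4 : (t : G) ∈ Subgroup.centralizer ({u} : Set G) := by
        rw [Subgroup.mem_centralizer_iff]
        intro z hz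
        rw [Set.mem_singleton_iff.1 hz]
        exact h3
      rw [hz] at h4
      obtain ⟨i, hi⟩ := h4
      change u ^ i = (t : G) at hi
      rcases Int.even_or_odd' i with ⟨k, hk | hk⟩
      · rw [hk, zpow_mul] at hi
        have h5 : (u ^ (2 : ℤ)) = 1 := by exact_mod_cast hu2
        rw [h5, one_zpow] at hi
        have : t = 1 := Subtype.ext hi.symm
        rw [this, orderOf_one] at ht
        omega
      · rw [hk, zpow_add, zpow_mul, zpow_one] at hi
        have h5 : (u ^ (2 : ℤ)) = 1 := by exact_mod_cast hu2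
        rw [h5, one_zpow, one_mul] at hi
        exact huc (hi ▸ t.2)
    refine ⟨hord, ?_, hz⟩
    have hle : commutator G ≤ Cfsg.oddCore G :=
      Cfsg.Agent.Lib.Cores.le_pPrimeCore inferInstance
        ((Nat.Prime.coprime_iff_not_dvd Nat.prime_two).2 hodd).symm
    rw [eq_top_iff]
    intro x _
    by_cases hx : x ∈ commutator G
    · exact Subgroup.mem_sup_right (hle hx)
    · have h1 : u⁻¹ * x ∈ commutator G := by
        rw [hm2]
        constructor
        · intro h; exact absurd ((commutator G).inv_mem_iff.1 h) huc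
        · intro h; exact absurd h hx
      have h2 : x = u * (u⁻¹ * x) := by group
      rw [h2]
      exact Subgroup.mul_mem _ (Subgroup.mem_sup_left (Subgroup.mem_zpowers u))
        (Subgroup.mem_sup_right (hle h1))

end Cfsg.Agent.S4757
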