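import Cfsg.Statements.S4762
import Cfsg.Agent.Lib.CharUniqP

set_option autoImplicit false
open Cfsg

namespace Cfsg.Agent.S4762

open Cfsg.Agent.Lib.CharUniqP

/-- Let p be a prime and G a finite nilpotent group. Then G has exactly one irreducible complex character of degree divisible by p if and only if p = 2 and G is an extraspecial 2-group. -/
theorem result {G : Type*} [Group G] [Finite G] [Group.IsNilpotent G] (p : ℕ) [Fact p.Prime] : Nat.card {χ : Cfsg.IrrCharacter G // p ∣ Cfsg.charDegree (χ : G → ℂ)} = 1 ↔ (p = 2 ∧ Cfsg.IsExtraspecial 2 G) := by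
  classical
  cases nonempty_fintype G
  constructor
  · intro h
    obtain ⟨⟨χ, hχ⟩, huniq⟩ := Nat.card_eq_one_iff_exists.mp h
    have huniq' : ∀ φ : G → ℂ, Cfsg.IsIrrCharacter G φ → p ∣ Cfsg.charDegree φ → φ = χ.1 := by
      intro φ hφ hφp
      exact congrArg (fun x => x.1.1) (huniq ⟨⟨φ, hφ⟩, hφp⟩)
    exact pgroup_case (pgroup_of_unique χ.2 hχ huniq') χ.2 hχ huniq'
  · rintro ⟨rfl, hE⟩
    exact extraspecial_case hE
end Cfsg.Agent.S4762
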