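import Cfsg.Statements.S4797
import Cfsg.Agent.Lib.CharCod

set_option autoImplicit false
open Cfsg

namespace Cfsg.Agent.S4797

open Lib.CharBasic Lib.CharInd in

/-- The codegree of an irreducible complex character χ of a finite group G is [G : ker χ] / χ(1), where ker χ is the set of elements at which χ takes the value χ(1). A non-trivial finite group is perfect if and only if no irreducible complex character of it has prime codegree. -/
theorem result {G : Type*} [Group G] [Finite G] [Nontrivial G] : commutator G = ⊤ ↔ ∀ χ : Cfsg.IrrCharacter G, ¬ ((Nat.card G / (Nat.card {g : G // (χ : G → ℂ) g = (χ : G → ℂ) 1} * Cfsg.charDegree (χ : G → ℂ)))).Prime := by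
  classical
  constructor
  · intro hperf χ hp
    obtain ⟨c, K, hKn, ψ, hmem, -, hdeg, hf, hc, hc0, -, hcod⟩ := Lib.CharCod.cod χ
    rw [hcod] at hp
    obtain ⟨P, hPn, hPc, hcen⟩ := Lib.CharCod.prime_cod ψ hf hp hc
    -- the commutator of the quotient is contained in `P`
    have hpf : commutator (G ⧸ K) = ⊤ := by
      have h1 := Subgroup.map_commutator (⊤ : Subgroup G) ⊤ (QuotientGroup.mk' K)
      have h2 : (⊤ : Subgroup G).map (QuotientGroup.mk' K) = ⊤ := by
        rw [← MonoidHom.range_eq_map]
        exact MonoidHom.range_eq_top.mpr (QuotientGroup.mk'_surjective K)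
      rw [h2] at h1
      rw [commutator_def, ← h1]
      rw [commutator_def] at hperf
      rw [hperf, h2]
    have := Fact.mk hp
    have hcyc : IsCyclic P := isCyclic_of_prime_card hPc
    obtain ⟨x, hx⟩ := hcyc.exists_generator
    have hle : commutator (G ⧸ K) ≤ P := by
      rw [commutator_def, Subgroup.commutator_le]
      intro a _ b _
      apply hcen
      -- conjugation by `a`, `b` are powers on the generator
      have hpow : ∀ g : G ⧸ K, ∃ i : ℤ, ∀ y ∈ P, g * y * g⁻¹ = y ^ i := by
        intro g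
        obtain ⟨i, hi⟩ := Subgroup.mem_zpowers_iff.mp (hx ⟨g * x * g⁻¹, hPn.conj_mem _ x.2 g⟩)
        refine ⟨i, fun y hy => ?_⟩
        obtain ⟨j, hj⟩ := Subgroup.mem_zpowers_iff.mp (hx ⟨y, hy⟩)
        have h1 : (x : G ⧸ K) ^ i = g * x * g⁻¹ := by
          have := congrArg Subtype.val hi
          simpa using this
        have h2 : (x : G ⧸ K) ^ j = y := by
          have := congrArg Subtype.val hj
          simpa using this
        rw [← h2, ← conj_zpow, ← h1, ← zpow_mul, ← zpow_mul, mul_comm]
      obtain ⟨i, hi⟩ := hpow a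
      obtain ⟨j, hj⟩ := hpow b
      intro y hy
      have hPz : ∀ (y : G ⧸ K) (n : ℤ), y ∈ P → y ^ n ∈ P := fun y n h => P.zpow_mem h n
      have e1 : a * (b * y * b⁻¹) * a⁻¹ = (y ^ j) ^ i := by rw [hj y hy, hi _ (hPz y j hy)]
      have e2 : b * (a * y * a⁻¹) * b⁻¹ = (y ^ i) ^ j := by rw [hi y hy, hj _ (hPz y i hy)]
      have e3 : (y ^ j) ^ i = (y ^ i) ^ j := by rw [← zpow_mul, ← zpow_mul, mul_comm]
      -- replace `y` by `a⁻¹ b⁻¹ y b a`-type element
      obtain ⟨z, hz⟩ : ∃ z, z = a⁻¹ * (b⁻¹ * y * b) * a := ⟨_, rfl⟩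
      have hzP : z ∈ P := by
        rw [hz]
        have h1 := hPn.conj_mem y hy b⁻¹
        rw [inv_inv] at h1
        have h2 := hPn.conj_mem _ h1 a⁻¹
        rwa [inv_inv] at h2
      have e1' : a * (b * z * b⁻¹) * a⁻¹ = (z ^ j) ^ i := by rw [hj z hzP, hi _ (hPz z j hzP)]
      have e2' : b * (a * z * a⁻¹) * b⁻¹ = (z ^ i) ^ j := by rw [hi z hzP, hj _ (hPz z i hzP)]
      have e3' : (z ^ j) ^ i = (z ^ i) ^ j := by rw [← zpow_mul, ← zpow_mul, mul_comm]
      have e4 : b * (a * z * a⁻¹) * b⁻¹ = y := by rw [hz]; group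
      have e5 : a * (b * z * b⁻¹) * a⁻¹ = y := by rw [e1', e3', ← e2', e4]
      rw [hz] at e5
      obtain ⟨w, hw⟩ : ∃ w, w = a * b * a⁻¹ * b⁻¹ := ⟨_, rfl⟩
      change a * b * a⁻¹ * b⁻¹ * y = y * (a * b * a⁻¹ * b⁻¹)
      have e6 : w * y * w⁻¹ = y := by
        rw [hw]
        calc a * b * a⁻¹ * b⁻¹ * y * (a * b * a⁻¹ * b⁻¹)⁻¹ =
          a * (b * (a⁻¹ * (b⁻¹ * y * b) * a) * b⁻¹) * a⁻¹ := by group
          _ = y := e5
      rw [← hw]
      calc w * y = w * y * w⁻¹ * w := by group
        _ = y * w := by rw [e6]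
    rw [hpf, top_le_iff] at hle
    -- the quotient is then abelian, so its commutator is trivial
    have hcomm : ∀ a b : G ⧸ K, a * b = b * a := by
      intro a b
      have ha : a ∈ P := by rw [hle]; trivial
      have hb : b ∈ P := by rw [hle]; trivial
      obtain ⟨i, hi⟩ := Subgroup.mem_zpowers_iff.mp (hx ⟨a, ha⟩)
      obtain ⟨j, hj⟩ := Subgroup.mem_zpowers_iff.mp (hx ⟨b, hb⟩)
      have h1 : (x : G ⧸ K) ^ i = a := by
        have := congrArg Subtype.val hi
        simpa using this
      have h2 : (x : G ⧸ K) ^ j = b := by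
        have := congrArg Subtype.val hj
        simpa using this
      rw [← h1, ← h2, ← zpow_add, ← zpow_add, add_comm]
    have hbot : commutator (G ⧸ K) = ⊥ := by
      rw [commutator_def, eq_bot_iff, Subgroup.commutator_le]
      intro a _ b _
      rw [Subgroup.mem_bot, commutatorElement_def, hcomm a b]
      group
    rw [hpf] at hbot
    have h3 : Nat.card P = 1 := by
      rw [hle, hbot, Subgroup.card_bot]
    rw [hPc] at h3
    exact hp.one_lt.ne' h3
  · intro h
    by_contra hne
    have hcard : Nat.card (G →* ℂˣ) = (commutator G).index := Lib.CharLin.card_hom_units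
    have h1 : (commutator G).index ≠ 1 := fun h => hne (Subgroup.index_eq_one.mp h)
    rw [← hcard] at h1
    obtain ⟨p, hp, hpd⟩ := Nat.exists_prime_and_dvd h1
    have := Fact.mk hp
    obtain ⟨l, hl⟩ := exists_prime_orderOf_dvd_card' p hpd
    have hl1 : ∃ g, l g ≠ 1 := by
      by_contra hcon
      push Not at hcon
      have : l = 1 := MonoidHom.ext hcon
      rw [this, orderOf_one] at hl
      exact hp.one_lt.ne hl
    have hlp : ∀ g, l g ^ p = 1 := by
      intro g
      have h2 : l ^ p = 1 := by rw [← hl]; exact pow_orderOf_eq_one l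
      have := DFunLike.congr_fun h2 g
      rwa [MonoidHom.pow_apply] at this
    have hker : l.ker.index = p := by
      rw [Subgroup.index_ker]
      have hle : l.range ≤ rootsOfUnity p ℂ := by
        rintro _ ⟨g, rfl⟩
        rw [mem_rootsOfUnity]
        exact hlp g
      have hcp : Nat.card (rootsOfUnity p ℂ) = p := by
        haveI : NeZero p := ⟨hp.ne_zero⟩
        exact Complex.card_rootsOfUnity p
      have hd : Nat.card l.range ∣ p := by
        have h5 := Subgroup.card_dvd_of_le hle
        rwa [hcp] at h5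
      rcases (Nat.dvd_prime hp).mp hd with h5 | h5
      · exfalso
        obtain ⟨g, hg⟩ := hl1
        rw [Subgroup.card_eq_one] at h5
        apply hg
        have : l g ∈ l.range := ⟨g, rfl⟩
        rw [h5, Subgroup.mem_bot] at this
        exact this
      · exact h5
    apply h ⟨Lib.CharLin.linFn l, Lib.CharLin.linFn_isIrr l⟩
    have h6 : Nat.card {g : G // Lib.CharLin.linFn l g = Lib.CharLin.linFn l 1} =
        Nat.card l.ker := by
      refine Nat.card_congr (Equiv.subtypeEquivRight fun g => ?_)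
      rw [Lib.CharLin.linFn_apply_one, Lib.CharLin.linFn_apply, MonoidHom.mem_ker,
        Units.val_eq_one]
    have h7 : charDegree (Lib.CharLin.linFn l) = 1 := by
      have h8 := Lib.CharCod.deg_cast ⟨Lib.CharLin.linFn l, Lib.CharLin.linFn_isIrr l⟩
      simp only [Lib.CharLin.linFn_apply_one] at h8
      exact_mod_cast h8
    simp only
    rw [h6, h7, mul_one, ← l.ker.card_mul_index, Nat.mul_div_cancel_left _ Nat.card_pos, hker]
    exact hp
end Cfsg.Agent.S4797
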