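import Cfsg.Statements.S4798
import Cfsg.Agent.Lib.CharCod

set_option autoImplicit false
open Cfsg

namespace Cfsg.Agent.S4798

open Lib.CharBasic Lib.CharInd in

/-- Let p be a prime and χ a faithful irreducible complex character of the finite group G (χ(g) = χ(1) only for g = 1), so that its codegree is #G / χ(1). Then #G / χ(1) is a power of p if and only if χ is induced from a character of a Sylow p-subgroup of G. -/
theorem result {G : Type*} [Group G] [Fintype G] (p : ℕ) [Fact p.Prime] (χ : Cfsg.IrrCharacter G) (hfaith : ∀ g : G, (χ : G → ℂ) g = (χ : G → ℂ) 1 → g = 1) : (∃ k : ℕ, Nat.card G = p ^ k * Cfsg.charDegree (χ : G → ℂ)) ↔ ∃ (P : Sylow p G) (θ : ↥(P : Subgroup G) → ℂ), Cfsg.IsCharacter ↥(P : Subgroup G) θ ∧ (χ : G → ℂ) = Cfsg.indFun (P : Subgroup G) θ := by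
  classical
  have hpp : p.Prime := Fact.out
  have hd := Lib.CharCod.deg_cast χ
  have hd0 := Lib.CharCod.deg_pos χ
  constructor
  · rintro ⟨k, hk⟩
    obtain ⟨P⟩ : Nonempty (Sylow p G) := inferInstance
    -- some constituent has the right degree
    obtain ⟨Q, hQ⟩ : ∃ Q : Subgroup G, Q = (P : Subgroup G) := ⟨_, rfl⟩
    cases nonempty_fintype Q
    have hQc : Nat.card Q = p ^ (Nat.card G).factorization p := by
      rw [hQ]; exact P.card_eq_multiplicity
    have hres : IsCharacter Q (fun x : Q => χ.1 x) :=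
      Lib.CharInd.isChar_res Q (Lib.CharBasic.isChar_of_irr χ.2)
    have hk' : (Nat.card G).factorization p = k + (charDegree χ.1).factorization p := by
      rw [hk, Nat.factorization_mul (pow_ne_zero _ hpp.ne_zero) hd0.ne']
      simp [hpp.factorization]
    -- degree in terms of index
    have hdeg : charDegree χ.1 = Q.index * p ^ (charDegree χ.1).factorization p := by
      have h1 := Q.card_mul_index
      rw [hQc, hk', pow_add, hk] at h1
      have h2 : p ^ k * (Q.index * p ^ (charDegree χ.1).factorization p) =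
          p ^ k * charDegree χ.1 := by
        rw [← h1]; ring
      exact (Nat.eq_of_mul_eq_mul_left (pow_pos hpp.pos k) h2).symm
    obtain ⟨m, hm⟩ := Lib.CharBasic.exists_mult hres
    have hθ : ∀ θ : IrrCharacter Q, ∃ j : ℕ, θ.1 1 = ((p ^ j : ℕ) : ℂ) := by
      intro θ
      have h1 := Lib.CharCo.deg_dvd_card θ.2 (Lib.CharCod.deg_cast θ).symm
      rw [hQc] at h1
      obtain ⟨j, -, hj⟩ := (Nat.dvd_prime_pow hpp).mp h1
      exact ⟨j, by rw [← Lib.CharCod.deg_cast θ, hj]⟩
    choose j hj using hθ
    have hsum : charDegree χ.1 = ∑ θ : IrrCharacter Q, m θ * p ^ j θ := by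
      have h1 := congrFun hm 1
      simp only [Finset.sum_apply, Pi.smul_apply, smul_eq_mul] at h1
      have h2 : (charDegree χ.1 : ℂ) = ((∑ θ : IrrCharacter Q, m θ * p ^ j θ : ℕ) : ℂ) := by
        rw [hd]
        push_cast
        have h3 : χ.1 ((1 : Q) : G) = χ.1 1 := rfl
        rw [← h3, h1]
        exact Finset.sum_congr rfl fun θ _ => by rw [hj]; push_cast; rfl
      exact_mod_cast h2
    obtain ⟨θ, hθ0, hθ1⟩ : ∃ θ : IrrCharacter Q, m θ ≠ 0 ∧
        j θ ≤ (charDegree χ.1).factorization p := by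
      by_contra hcon
      push Not at hcon
      have h1 : p ^ ((charDegree χ.1).factorization p + 1) ∣
          ∑ θ : IrrCharacter Q, m θ * p ^ j θ := by
        apply Finset.dvd_sum
        intro θ _
        by_cases h : m θ = 0
        · rw [h, zero_mul]; exact dvd_zero _
        · exact Dvd.dvd.mul_left (pow_dvd_pow p (by have := hcon θ h; omega)) _
      rw [← hsum] at h1
      exact Nat.pow_succ_factorization_not_dvd hd0.ne' hpp h1
    have hmθ : classInner (fun x : Q => χ.1 x) θ.1 = m θ := by
      rw [hm, Lib.CharBasic.inner_sum_irr]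
    have hindc : IsCharacter G (indFun Q θ.1) :=
      Lib.CharInd.isChar_ind Q (Lib.CharBasic.isChar_of_irr θ.2)
    have hin2 : classInner (indFun Q θ.1) χ.1 ≠ 0 := by
      rw [Lib.CharInd.reciprocity Q θ.1 χ.1 (Lib.CharBasic.isChar_classFn
        (Lib.CharBasic.isChar_of_irr χ.2)), ← Lib.CharBasic.classInner_conj_symm, hmθ,
        Complex.conj_natCast]
      exact_mod_cast hθ0
    have hdiff : IsCharacter G (indFun Q θ.1 - χ.1) :=
      Lib.CharNormal.isChar_sub_constituent hindc χ.2 hin2
    obtain ⟨r, hr⟩ := Lib.CharBasic.isChar_one_eq hdiff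
    have hr0 : (r : ℂ) = 0 := by
      rw [Pi.sub_apply, Lib.CharInd.indFun_one, hj, ← hd] at hr
      have h1 : Q.index * p ^ j θ ≤ charDegree χ.1 := by
        conv_rhs => rw [hdeg]
        exact Nat.mul_le_mul_left _ (Nat.pow_le_pow_right hpp.pos hθ1)
      have h2 : ((Q.index * p ^ j θ : ℕ) : ℂ) = ((charDegree χ.1 + r : ℕ) : ℂ) := by
        push_cast at hr ⊢
        linear_combination hr
      have h3 : Q.index * p ^ j θ = charDegree χ.1 + r := by exact_mod_cast h2
      have h4 : r = 0 := by omega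
      rw [h4]; simp
    have hz : indFun Q θ.1 - χ.1 = 0 := by
      by_contra hne
      obtain ⟨φ, hφ⟩ := Lib.CharBasic.char_ne_zero_exists_constituent hdiff hne
      have h1 := Lib.CharInd.degree_le_of_constituent hdiff φ.2 hφ
      rw [hr, hr0] at h1
      obtain ⟨i, hi, hi1⟩ := Lib.CharBasic.isIrr_one_eq φ.2
      rw [hi1] at h1
      simp only [Complex.natCast_re, Complex.zero_re] at h1
      have h5 : (0:ℝ) < i := by exact_mod_cast hi
      linarith
    subst hQ
    exact ⟨P, θ.1, Lib.CharBasic.isChar_of_irr θ.2, (sub_eq_zero.mp hz).symm⟩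
  · rintro ⟨P, θ, hθ, hind⟩
    cases nonempty_fintype (P : Subgroup G)
    obtain ⟨b, hb⟩ := Lib.CharBasic.isChar_one_eq hθ
    have h1 : charDegree χ.1 = (P : Subgroup G).index * b := by
      have h2 : χ.1 1 = ((P : Subgroup G).index : ℂ) * b := by
        rw [hind, Lib.CharInd.indFun_one, hb]
      rw [← hd] at h2
      exact_mod_cast h2
    obtain ⟨c, hc⟩ := Lib.CharCo.deg_dvd_card χ.2 hd.symm
    have h3 := (P : Subgroup G).card_mul_index
    have h4 : (P : Subgroup G).index ≠ 0 := Subgroup.index_ne_zero_of_finite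
    have h5 : Nat.card (P : Subgroup G) = b * c := by
      rw [hc, h1] at h3
      have h6 : (P : Subgroup G).index * Nat.card (P : Subgroup G) =
          (P : Subgroup G).index * (b * c) := by rw [mul_comm, h3]; ring
      exact Nat.eq_of_mul_eq_mul_left (Nat.pos_of_ne_zero h4) h6
    have h7 : c ∣ Nat.card (P : Subgroup G) := ⟨b, by rw [h5]; ring⟩
    have h8 : Nat.card (P : Subgroup G) = p ^ (Nat.card G).factorization p :=
      P.card_eq_multiplicity
    rw [h8] at h7
    obtain ⟨k, -, hk⟩ := (Nat.dvd_prime_pow hpp).mp h7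
    exact ⟨k, by rw [hc, hk, mul_comm]⟩
end Cfsg.Agent.S4798
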