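import Cfsg.Statements.S4801
import Cfsg.Agent.Lib.CharCod

set_option autoImplicit false
open Cfsg

namespace Cfsg.Agent.S4801

/-- The codegree of an irreducible complex character χ of a finite group G is [G : ker χ] / χ(1), where ker χ is the set of elements at which χ takes the value χ(1). Let S be a finite simple group and G a finite group such that every codegree of an irreducible character of S is a codegree of an irreducible character of G. Then the order of S divides the order of G. -/
theorem result {S : Type*} [Group S] [Finite S] (hS : IsSimpleGroup S) {G : Type*} [Group G] [Finite G] (hsub : ∀ χ : Cfsg.IrrCharacter S, ∃ ψ : Cfsg.IrrCharacter G, (Nat.card S / (Nat.card {g : S // (χ : S → ℂ) g = (χ : S → ℂ) 1} * Cfsg.charDegree (χ : S → ℂ))) = (Nat.card G / (Nat.card {g : G // (ψ : G → ℂ) g = (ψ : G → ℂ) 1} * Cfsg.charDegree (ψ : G → ℂ)))) : Nat.card S ∣ Nat.card G := by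
  classical
  have hS0 : Nat.card S ≠ 0 := Nat.card_pos.ne'
  have hG0 : Nat.card G ≠ 0 := Nat.card_pos.ne'
  rw [← Nat.factorization_le_iff_dvd hS0 hG0]
  intro q
  by_cases hq : q.Prime
  swap
  · rw [Nat.factorization_eq_zero_of_not_prime _ hq]; exact Nat.zero_le _
  by_cases hqS : q ∣ Nat.card S
  swap
  · rw [Nat.factorization_eq_zero_of_not_dvd hqS]; exact Nat.zero_le _
  obtain ⟨χ, hχ1, hχq⟩ := Lib.CharCod.exists_prime_to hq hqS
  obtain ⟨ψ, hψ⟩ := hsub χ
  obtain ⟨c, K, hKn, χ', hmem, -, hdeg, -, hc, hc0, -, hcod⟩ := Lib.CharCod.cod χ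
  obtain ⟨c', -, -, -, -, -, -, -, -, hc0', hcG', hcod'⟩ := Lib.CharCod.cod ψ
  rw [hcod, hcod'] at hψ
  -- the kernel is trivial
  have hK : K = ⊥ := by
    rcases hKn.eq_bot_or_eq_top with h | h
    · exact h
    · exfalso
      apply hχ1
      exact Lib.CharCod.eq_trivial_of_ker_top χ.2 fun g => (hmem g).mp (by rw [h]; trivial)
  have hcard : Nat.card S = c * charDegree χ.1 := by
    rw [← hdeg, ← hc, hK]
    exact (Nat.card_congr (QuotientGroup.quotientBot (G := S)).toEquiv).symm
  have hd0 := Lib.CharCod.deg_pos χ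
  have h1 : (Nat.card S).factorization q = c.factorization q := by
    rw [hcard, Nat.factorization_mul hc0.ne' hd0.ne']
    simp [Nat.factorization_eq_zero_of_not_dvd hχq]
  rw [h1, hψ]
  exact (Nat.factorization_le_iff_dvd hc0'.ne' hG0).mpr hcG' q
end Cfsg.Agent.S4801
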