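import Cfsg.Statements.S4802
import Cfsg.Agent.Lib.CharSection
import Cfsg.Agent.Lib.CharKer
import Cfsg.Agent.Lib.CharCod

set_option autoImplicit false
open Cfsg

namespace Cfsg.Agent.S4802

open Lib.CharBasic Lib.CharInd in

/-- Let N < M be normal subgroups of the finite group G and g ∈ M ∖ N. Then the conjugacy class of g is exactly M ∖ N if and only if every irreducible complex character of G whose kernel contains N takes the same value at all elements of M ∖ N, and every irreducible complex character of G whose kernel does not contain N vanishes at g. -/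
theorem result {G : Type*} [Group G] [Finite G] (N M : Subgroup G) [N.Normal] [M.Normal] (hNM : N < M) (g : G) (hgM : g ∈ M) (hgN : g ∉ N) : {h : G | IsConj g h} = (M : Set G) \ (N : Set G) ↔ ((∀ χ : Cfsg.IrrCharacter G, (∀ x ∈ N, (χ : G → ℂ) x = (χ : G → ℂ) 1) → ∀ x ∈ M, x ∉ N → ∀ y ∈ M, y ∉ N → (χ : G → ℂ) x = (χ : G → ℂ) y) ∧ (∀ χ : Cfsg.IrrCharacter G, (∃ x ∈ N, (χ : G → ℂ) x ≠ (χ : G → ℂ) 1) → (χ : G → ℂ) g = 0)) := by
  classical
  cases nonempty_fintype G
  cases nonempty_fintype N
  have hMn : M.Normal := inferInstance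
  have hNn : N.Normal := inferInstance
  have hcl : ∀ (χ : IrrCharacter G) {a b : G}, IsConj a b → χ.1 a = χ.1 b := fun χ a b h =>
    Lib.CharBasic.classFn_isConj (Lib.CharBasic.isChar_classFn (Lib.CharBasic.isChar_of_irr χ.2)) h
  constructor
  · intro heq
    have hmem : ∀ x, x ∈ M → x ∉ N → IsConj g x := by
      intro x hx hxN
      have : x ∈ (M : Set G) \ (N : Set G) := ⟨hx, hxN⟩
      rw [← heq] at this
      exact this
    refine ⟨fun χ _ x hx hxN y hy hyN => ?_, fun χ hχ => ?_⟩
    · rw [← hcl χ (hmem x hx hxN), ← hcl χ (hmem y hy hyN)]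
    · have h1 := Lib.CharSection.sum_coset_zero χ.2 (A := N) (by
        rintro h
        obtain ⟨x, hx, hx'⟩ := hχ
        exact hx' (h x hx)) g
      have h2 : ∀ a : N, χ.1 (a * g) = χ.1 g := by
        intro a
        refine (hcl χ (hmem _ (M.mul_mem (hNM.le a.2) hgM) fun h => hgN ?_)).symm
        have := N.mul_mem (N.inv_mem a.2) h
        rwa [inv_mul_cancel_left] at this
      rw [Finset.sum_congr rfl fun a _ => h2 a, Finset.sum_const, nsmul_eq_mul] at h1
      rcases mul_eq_zero.mp h1 with h | h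
      · rw [Finset.card_univ] at h
        exact absurd h (by exact_mod_cast Fintype.card_pos.ne')
      · exact h
  · rintro ⟨h1, h2⟩
    ext x
    simp only [Set.mem_setOf_eq, Set.mem_diff, SetLike.mem_coe]
    constructor
    · intro hx
      obtain ⟨c, hc⟩ := isConj_iff.mp hx
      refine ⟨hc ▸ hMn.conj_mem g hgM c, fun hxN => hgN ?_⟩
      have h3 := hNn.conj_mem x hxN c⁻¹
      rw [← hc] at h3
      have h4 : c⁻¹ * (c * g * c⁻¹) * c⁻¹⁻¹ = g := by group
      rwa [h4] at h3
    · rintro ⟨hxM, hxN⟩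
      by_contra hnc
      have h3 := Lib.CharBasic.column_orth g x
      rw [if_neg hnc] at h3
      have h4 := Lib.CharBasic.column_orth g g
      rw [if_pos (IsConj.refl g)] at h4
      have h5 : ∀ χ : IrrCharacter G, χ.1 g * (starRingEnd ℂ) (χ.1 x) =
          χ.1 g * (starRingEnd ℂ) (χ.1 g) := by
        intro χ
        by_cases hχ : ∃ y ∈ N, χ.1 y ≠ χ.1 1
        · rw [h2 χ hχ, zero_mul, zero_mul]
        · push Not at hχ
          rw [h1 χ hχ x hxM hxN g hgM hgN]
      rw [Finset.sum_congr rfl fun χ _ => h5 χ, h4] at h3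
      exact absurd h3 (by exact_mod_cast Nat.card_pos.ne')
end Cfsg.Agent.S4802
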