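import Cfsg.Statements.S4837
import Cfsg.Agent.Lib.CharTwoCl

set_option autoImplicit false
open Cfsg

namespace Cfsg.Agent.S4837

/-- Let G be a finite group of order greater than 2 with an irreducible character χ nonzero on exactly two conjugacy classes, and let N be the set of elements where χ is nonzero, given as a nontrivial normal p-subgroup of G for the prime p. Then for every nonidentity x in N the centralizer C_G(x) is a Sylow p-subgroup of G, and for every irreducible character λ ≠ 1 of N the stabilizer of λ in G (its inertia group) is a Sylow p-subgroup of G. -/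
theorem result {G : Type*} [Group G] [Finite G] (hG : 2 < Nat.card G) (χ : Cfsg.IrrCharacter G) (hχ : Nat.card {C : ConjClasses G // ∃ g ∈ C.carrier, (χ : G → ℂ) g ≠ 0} = 2) (p : ℕ) [Fact p.Prime] (N : Subgroup G) [N.Normal] (hN : ∀ g : G, g ∈ N ↔ (χ : G → ℂ) g ≠ 0) (hNp : IsPGroup p N) (hN1 : N ≠ ⊥) :
    (∀ x ∈ N, x ≠ 1 → ∃ P : Sylow p G, Subgroup.centralizer ({x} : Set G) = P) ∧
      (∀ μ : Cfsg.IrrCharacter N, (μ : N → ℂ) ≠ (fun _ => (1 : ℂ)) → ∃ P : Sylow p G, ∀ g : G, g ∈ (P : Subgroup G) ↔ ∀ n n' : N, (n' : G) = g * n * g⁻¹ → (μ : N → ℂ) n' = (μ : N → ℂ) n) := by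
  classical
  cases nonempty_fintype G
  obtain ⟨n, e, k, h1, h2, h3, h4, h5, h6, h7⟩ := Lib.CharTwoCl.orders hG χ hχ p N hN hNp hN1
  have key : ∀ H : Subgroup G, H.index = n → ∃ P : Sylow p G, H = P := by
    intro H hH
    have h8 : Nat.card H = p ^ k := by
      have := H.index_mul_card
      rw [hH, h5, h6, mul_comm] at this
      exact Nat.eq_of_mul_eq_mul_right h2 this
    refine ⟨(IsPGroup.of_card h8).toSylow (by rw [hH]; exact h3), rfl⟩
  refine ⟨fun x hx hx1 => key _ (h7 x hx hx1), fun μ hμ => ?_⟩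
  obtain ⟨N', hNn, hN1', hmin, ⟨q, hq, hel⟩, hsupp, htrans⟩ := Lib.CharTwoCl.min_normal hG χ hχ
  have hNN : N' = N := by
    ext g; rw [hN, hsupp]
  subst hNN
  have hab : ∀ a b : N', a * b = b * a := fun a b => hel.1.1.1 a b
  have h8 := Lib.CharTwoCl.inertia_index N' hab htrans hN1 μ.2 hμ
  obtain ⟨P, hP⟩ := key (Lib.CharClifford.inertia μ.1) (by omega)
  refine ⟨P, fun g => ?_⟩
  rw [← hP, Lib.CharClifford.mem_inertia, Lib.CharClifford.cj_eq_iff]
  constructor
  · intro h m m' hm
    rw [← h m]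
    exact congrArg _ (Subtype.ext hm)
  · intro h m
    exact h m _ rfl
end Cfsg.Agent.S4837
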