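import Cfsg.Statements.S4888
import Cfsg.Agent.Lib.BlkH8C
import Cfsg.Agent.Lib.CharThompson

set_option autoImplicit false
set_option linter.style.haveILetI false
set_option linter.unusedVariables false
open Cfsg

namespace Cfsg.Agent.S4888
open Cfsg.Agent.Lib.BlkH8C Cfsg.Agent.Lib.BlockRey Cfsg.Agent.Lib.BlockPC Cfsg.Agent.Lib.BlockRk Cfsg.Agent.Lib.BlockInt Cfsg.Agent.Lib.BlockIndIn Cfsg.Agent.Lib.BlockMaxB Cfsg.Agent.Lib.BlockMax Cfsg.Agent.Lib.BlockNilC Cfsg.Agent.Lib.BlockNilB Cfsg.Agent.Lib.BlockNil Cfsg.Agent.Lib.BlockFusB Cfsg.Agent.Lib.BlockFus Cfsg.Agent.Lib.BlockPairF Cfsg.Agent.Lib.BlockPairE Cfsg.Agent.Lib.BlockPairD Cfsg.Agent.Lib.BlockPairC Cfsg.Agent.Lib.BlockPairB Cfsg.Agent.Lib.BlockPair Cfsg.Agent.Lib.BlockBP Cfsg.Agent.Lib.BlockCovB Cfsg.Agent.Lib.BlockTr Cfsg.Agent.Lib.BlockMoreB Cfsg.Agent.Lib.BlockMore Cfsg.Agent.Lib.BlockQuotB Cfsg.Agent.Lib.BlockQuot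 Cfsg.Agent.Lib.BlockCov Cfsg.Agent.Lib.BlockM Cfsg.Agent.Lib.BlockHt Cfsg.Agent.Lib.BlockFirst Cfsg.Agent.Lib.BlockSecond Cfsg.Agent.Lib.BlockInd Cfsg.Agent.Lib.BlockNP Cfsg.Agent.Lib.BlockDeg Cfsg.Agent.Lib.BlockDef Cfsg.Agent.Lib.BlockRed Cfsg.Agent.Lib.BlockOrth Cfsg.Agent.Lib.BlockIdem Cfsg.Agent.Lib.BlockGA Cfsg.Agent.Lib.BlockLoc Cfsg.Agent.Lib.CharBasic Cfsg.Agent.Lib.BlockPP Cfsg.Agent.Lib.CharNormal Cfsg.Agent.Lib.CharPerm Cfsg.Agent.Lib.CharPermB Cfsg.Agent.Lib.BlockSum Cfsg.Agent.Lib.BlockKB Cfsg.Agent.Lib.BlockLar Cfsg.Agent.Lib.BlockBFM Cfsg.Agent.Lib.BlkH8B Cfsg.Agent.Lib.BlkH8A Cfsg.Agent.Lib.BlkH7R Cfsg.Agent.Lib.BlkH6L Cfsg.Agent.Lib.BlkH6K Cfsg.Agent.Lib.BlkH6J Cfsg.Agent.Lib.BlkH6I Cfsg.Agent.Lib.BlkH6H Cfsg.Agent.Lib.BlkH6G Cfsg.Agent.Lib.BlkH5T Cfsg.Agent.Lib.BlkH5Q Cfsg.Agent.Lib.BlkH5P Cfsg.Agent.Lib.BlkH5O Cfsg.Agent.Lib.BlkH5N Cfsg.Agent.Lib.BlkH5A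 Cfsg.Agent.Lib.BlkH5G Cfsg.Agent.Lib.BlkH5B Cfsg.Agent.Lib.BlkH5C Cfsg.Agent.Lib.BlkH5D Cfsg.Agent.Lib.BlkH5E Cfsg.Agent.Lib.BlkH5F Cfsg.Agent.Lib.BlkH5L Cfsg.Agent.Lib.BlkH5M Cfsg.Agent.Lib.BlkH5R Cfsg.Agent.Lib.BlkH5S Cfsg.Agent.Lib.BlkH5U Cfsg.Agent.Lib.BlkH5V Cfsg.Agent.Lib.BlkH5W Cfsg.Agent.Lib.BlkH5X Cfsg.Agent.Lib.BlkH6F Cfsg.Agent.Lib.BlkH6N Cfsg.Agent.Lib.BlkH6M Cfsg.Agent.Lib.BlkH6D Cfsg.Agent.Lib.BlkH6C Cfsg.Agent.Lib.BlkH6B Cfsg.Agent.Lib.BlkH6A Cfsg.Agent.Lib.BlkH5Y Cfsg.Agent.Lib.BlkH7C Cfsg.Agent.Lib.BlkH7A Cfsg.Agent.Lib.BlkH7B Cfsg.Agent.Lib.BlkH7E Cfsg.Agent.Lib.BlkH7D Cfsg.Agent.Lib.BlkH7F Cfsg.Agent.Lib.BlkH7G Cfsg.Agent.Lib.BlkH6P Cfsg.Agent.Lib.BlkH6O Cfsg.Agent.Lib.BlkH7H Cfsg.Agent.Lib.BlkH7I Cfsg.Agent.Lib.BlkH7J Cfsg.Agent.Lib.BlkH7K Cfsg.Agent.Lib.BlkH7L Cfsg.Agent.Lib.BlkH7M Cfsg.Agent.Lib.BlkH7N Cfsg.Agent.Lib.BlkH7O Cfsg.Agent.Lib.BlkH7P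 Cfsg.Agent.Lib.BlkH7Q Cfsg.Agent.Lib.BlockKul
open scoped ComplexConjugate



/-- Let G be a finite group, p a prime and M a maximal ideal of the algebraic integers containing p. Then all height-zero irreducible characters of the principal p-block of G (equivalently, all its characters of degree prime to p) have the same degree if and only if G has a normal p-complement. -/
theorem result {G : Type*} [Group G] [Finite G] (p : ℕ) [Fact p.Prime] (M : Ideal Cfsg.AlgInt) (hM : Cfsg.IsPModular p M) : (∃ d : ℕ, ∀ χ : Cfsg.IrrCharacter G, χ ∈ (Cfsg.principalBlock M G) → Cfsg.blockHeight p (Cfsg.principalBlock M G) (χ : G → ℂ) = 0 → Cfsg.charDegree (χ : G → ℂ) = d) ↔ Cfsg.HasNormalPComplement p G := by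
  classical
  cases nonempty_fintype G
  have hp : p.Prime := Fact.out
  have hht : ∀ χ ∈ principalBlock M G, blockHeight p (principalBlock M G) χ.1 =
      (charDegree χ.1).factorization p := by
    intro χ hχ
    have h1 := fac_degree_add (p := p) hχ
    rw [blockDefect_principal hM] at h1
    omega
  constructor
  · rintro ⟨d, hd⟩
    obtain ⟨P⟩ : Nonempty (Sylow p G) := inferInstance
    have hd1 : d = 1 := by
      rw [← hd (triv G) (triv_mem hM) (height_triv hM (triv_mem hM))]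
      exact charDegree_eq (by simp [triv])
    have key : ∀ χ ∈ principalBlock M G, ¬ p ∣ charDegree χ.1 → χ.1 1 = 1 := by
      intro χ hχ hpd
      have h1 := hd χ hχ (by rw [hht χ hχ]; exact Nat.factorization_eq_zero_of_not_dvd hpd)
      rw [← charDegree_cast (isChar_of_irr χ.2), h1, hd1]
      simp
    refine Cfsg.Agent.Lib.BlkH8C.hasNormalPComplement_of_lin P fun l => ?_
    obtain ⟨m, -, hm⟩ := Cfsg.Agent.Lib.BlkH8C.lin_above_eq hM P key l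
    exact ⟨m, hm⟩
  · rintro ⟨P, K, hK, hc⟩
    refine ⟨1, fun χ hχ h0 => ?_⟩
    rw [hht χ hχ] at h0
    have hpd : ¬ p ∣ charDegree χ.1 := by
      intro h
      exact (hp.factorization_pos_of_dvd (charDegree_ne_zero χ.2) h).ne' h0
    have hKi : K.index = Nat.card (P : Subgroup G) := hc.symm.index_eq_card
    have hKp : ¬ p ∣ Nat.card K := by
      have : (P : Subgroup G).index = Nat.card K := hc.index_eq_card
      rw [← this]
      exact P.not_dvd_index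
    have ht : Cfsg.Agent.Lib.BlockQuot.Triv K χ.1 := by
      refine Cfsg.Agent.Lib.BlockQuot.triv_of_sameBlock hM K hKp (χ := triv G) (ψ := χ) hχ ?_
      intro n _
      rfl
    haveI : Fintype K := Fintype.ofFinite _
    have h1 := Cfsg.Agent.Lib.CharThompson.res_irr (K := K) (p := p)
      ⟨_, hKi.trans (Sylow.card_eq_multiplicity P)⟩ χ.2 (charDegree_cast (isChar_of_irr χ.2)).symm hpd
    have h2 := irr_inner_self h1
    have h3 : (fun n : K => χ.1 (n : G)) = fun _ => (charDegree χ.1 : ℂ) := by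
      funext n
      rw [ht n n.2, charDegree_cast (isChar_of_irr χ.2)]
    rw [h3, classInner_def] at h2
    simp only [Complex.conj_natCast] at h2
    rw [Finset.sum_const, nsmul_eq_mul, Finset.card_univ, ← Nat.card_eq_fintype_card,
      inv_mul_cancel_left₀ (by exact_mod_cast Nat.card_pos.ne')] at h2
    have h4 : charDegree χ.1 * charDegree χ.1 = 1 := by exact_mod_cast h2
    exact (mul_eq_one.1 h4).1

end Cfsg.Agent.S4888
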