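import Cfsg.Statements.S4937
import Cfsg.Agent.Lib.BlkH8L

set_option autoImplicit false
set_option linter.style.haveILetI false
set_option linter.unusedVariables false
open Cfsg

namespace Cfsg.Agent.S4937
open Cfsg.Agent.Lib.BlkH8L Cfsg.Agent.Lib.BlockRey Cfsg.Agent.Lib.BlockPC Cfsg.Agent.Lib.BlockRk Cfsg.Agent.Lib.BlockInt Cfsg.Agent.Lib.BlockIndIn Cfsg.Agent.Lib.BlockMaxB Cfsg.Agent.Lib.BlockMax Cfsg.Agent.Lib.BlockNilC Cfsg.Agent.Lib.BlockNilB Cfsg.Agent.Lib.BlockNil Cfsg.Agent.Lib.BlockFusB Cfsg.Agent.Lib.BlockFus Cfsg.Agent.Lib.BlockPairF Cfsg.Agent.Lib.BlockPairE Cfsg.Agent.Lib.BlockPairD Cfsg.Agent.Lib.BlockPairC Cfsg.Agent.Lib.BlockPairB Cfsg.Agent.Lib.BlockPair Cfsg.Agent.Lib.BlockBP Cfsg.Agent.Lib.BlockCovB Cfsg.Agent.Lib.BlockTr Cfsg.Agent.Lib.BlockMoreB Cfsg.Agent.Lib.BlockMore Cfsg.Agent.Lib.BlockQuotB Cfsg.Agent.Lib.BlockQuot Cfsg.Agent.Lib.BlockCov Cfsg.Agent.Lib.BlockM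 Cfsg.Agent.Lib.BlockHt Cfsg.Agent.Lib.BlockFirst Cfsg.Agent.Lib.BlockSecond Cfsg.Agent.Lib.BlockInd Cfsg.Agent.Lib.BlockNP Cfsg.Agent.Lib.BlockDeg Cfsg.Agent.Lib.BlockDef Cfsg.Agent.Lib.BlockRed Cfsg.Agent.Lib.BlockOrth Cfsg.Agent.Lib.BlockIdem Cfsg.Agent.Lib.BlockGA Cfsg.Agent.Lib.BlockLoc Cfsg.Agent.Lib.CharBasic Cfsg.Agent.Lib.BlockPP Cfsg.Agent.Lib.CharNormal Cfsg.Agent.Lib.CharPerm Cfsg.Agent.Lib.CharPermB Cfsg.Agent.Lib.BlockSum Cfsg.Agent.Lib.BlockKB Cfsg.Agent.Lib.BlockLar Cfsg.Agent.Lib.BlockBFM Cfsg.Agent.Lib.BlkH8K Cfsg.Agent.Lib.BlkH8J Cfsg.Agent.Lib.BlkH8I Cfsg.Agent.Lib.BlkH8H Cfsg.Agent.Lib.BlkH8G Cfsg.Agent.Lib.BlkH8F Cfsg.Agent.Lib.BlkH8E Cfsg.Agent.Lib.BlkH8D Cfsg.Agent.Lib.BlkH8C Cfsg.Agent.Lib.BlkH8B Cfsg.Agent.Lib.BlkH8A Cfsg.Agent.Lib.BlkH7R Cfsg.Agent.Lib.BlkH6L Cfsg.Agent.Lib.BlkH6K Cfsg.Agent.Lib.BlkH6J Cfsg.Agent.Lib.BlkH6I Cfsg.Agent.Lib.BlkH6H Cfsg.Agent.Lib.BlkH6G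 Cfsg.Agent.Lib.BlkH5T Cfsg.Agent.Lib.BlkH5Q Cfsg.Agent.Lib.BlkH5P Cfsg.Agent.Lib.BlkH5O Cfsg.Agent.Lib.BlkH5N Cfsg.Agent.Lib.BlkH5A Cfsg.Agent.Lib.BlkH5G Cfsg.Agent.Lib.BlkH5B Cfsg.Agent.Lib.BlkH5C Cfsg.Agent.Lib.BlkH5D Cfsg.Agent.Lib.BlkH5E Cfsg.Agent.Lib.BlkH5F Cfsg.Agent.Lib.BlkH5L Cfsg.Agent.Lib.BlkH5M Cfsg.Agent.Lib.BlkH5R Cfsg.Agent.Lib.BlkH5S Cfsg.Agent.Lib.BlkH5U Cfsg.Agent.Lib.BlkH5V Cfsg.Agent.Lib.BlkH5W Cfsg.Agent.Lib.BlkH5X Cfsg.Agent.Lib.BlkH6F Cfsg.Agent.Lib.BlkH6N Cfsg.Agent.Lib.BlkH6M Cfsg.Agent.Lib.BlkH6D Cfsg.Agent.Lib.BlkH6C Cfsg.Agent.Lib.BlkH6B Cfsg.Agent.Lib.BlkH6A Cfsg.Agent.Lib.BlkH5Y Cfsg.Agent.Lib.BlkH7C Cfsg.Agent.Lib.BlkH7A Cfsg.Agent.Lib.BlkH7B Cfsg.Agent.Lib.BlkH7E Cfsg.Agent.Lib.BlkH7D Cfsg.Agent.Lib.BlkH7F Cfsg.Agent.Lib.BlkH7G Cfsg.Agent.Lib.BlkH6P Cfsg.Agent.Lib.BlkH6O Cfsg.Agent.Lib.BlkH7H Cfsg.Agent.Lib.BlkH7I Cfsg.Agent.Lib.BlkH7J Cfsg.Agent.Lib.BlkH7K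 Cfsg.Agent.Lib.BlkH7L Cfsg.Agent.Lib.BlkH7M Cfsg.Agent.Lib.BlkH7N Cfsg.Agent.Lib.BlkH7O Cfsg.Agent.Lib.BlkH7P Cfsg.Agent.Lib.BlkH7Q Cfsg.Agent.Lib.BlockKul
open scoped ComplexConjugate



/-- Let G be a finite group, p a prime, M a maximal ideal of the algebraic integers containing p, N a normal subgroup of G and P a Sylow p-subgroup of N such that G = N·C_G(P). Let θ be an irreducible character in the principal p-block of N that is the restriction of some irreducible character of G. Then θ is the restriction of an irreducible character χ of G lying in the principal p-block of G such that, for every subgroup J of G containing N, the restriction of χ to J is an irreducible character of J lying in the principal p-block of J. -/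
theorem result {G : Type*} [Group G] [Finite G] (p : ℕ) [Fact p.Prime] (M : Ideal Cfsg.AlgInt) (hM : Cfsg.IsPModular p M) (N : Subgroup G) [N.Normal] (P : Sylow p ↥N)
    (hcov : N ⊔ Subgroup.centralizer (((P : Subgroup ↥N).map N.subtype : Subgroup G) : Set G) = ⊤)
    (θ : Cfsg.IrrCharacter ↥N) (hθ : θ ∈ Cfsg.principalBlock M ↥N)
    (hext : ∃ ψ : Cfsg.IrrCharacter G, ∀ x : ↥N, (ψ : G → ℂ) x = (θ : ↥N → ℂ) x) :
    ∃ χ : Cfsg.IrrCharacter G, χ ∈ Cfsg.principalBlock M G ∧ (∀ x : ↥N, (χ : G → ℂ) x = (θ : ↥N → ℂ) x) ∧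
      ∀ J : Subgroup G, N ≤ J → ∃ ξ : Cfsg.IrrCharacter ↥J, ξ ∈ Cfsg.principalBlock M ↥J ∧ ∀ y : ↥J, (ξ : ↥J → ℂ) y = (χ : G → ℂ) y := by
  classical
  cases nonempty_fintype G
  letI : Fintype N := Fintype.ofFinite _
  obtain ⟨ψ, hψ⟩ := hext
  obtain ⟨Z⟩ := Cfsg.Agent.Lib.BlkH8H.exists_Zs (M := M) hM (P : Subgroup N) P.not_dvd_index (by
    intro γ
    obtain ⟨g, hg, e⟩ := Cfsg.Agent.Lib.BlkH8H.cover_of_sup hcov γ
    refine ⟨g, e, fun q hq => ?_⟩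
    exact Subgroup.mem_centralizer_iff.1 hg (q : G) ⟨q, hq, rfl⟩)
  obtain ⟨χ, hχN, hχ⟩ := Cfsg.Agent.Lib.BlkH8L.exists_ext_principal hM Z hθ hψ
  have key : ∀ J : Subgroup G, N ≤ J → ∃ ξ : IrrCharacter ↥J, ξ ∈ principalBlock M ↥J ∧
      ∀ y : ↥J, ξ.1 y = χ.1 y := by
    intro J hNJ
    haveI : Fintype J := Fintype.ofFinite _
    -- the restriction is irreducible
    have hirr : IsIrrCharacter J (fun y : J => χ.1 y) := by
      have hch := Cfsg.Agent.Lib.CharInd.isChar_res J (isChar_of_irr χ.2)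
      obtain ⟨ξ, hξ⟩ := char_ne_zero_exists_constituent hch (by
        intro h
        exact isIrr_one_ne_zero χ.2 (congrFun h 1))
      have h1 := isChar_sub_constituent hch ξ.2 hξ
      have h2 : (fun y : J => χ.1 y) - ξ.1 = 0 := by
        -- restrict to N: the restriction of ξ is a nonzero part of the irreducible θ
        have hξN : IsCharacter N (fun n : N => ξ.1 (Subgroup.inclusion hNJ n)) :=
          isChar_comp (Subgroup.inclusion hNJ) (isChar_of_irr ξ.2)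
        have hdN : IsCharacter N (fun n : N => ((fun y : J => χ.1 y) - ξ.1) (Subgroup.inclusion hNJ n)) :=
          isChar_comp (Subgroup.inclusion hNJ) h1
        have hsum : θ.1 = (fun n : N => ξ.1 (Subgroup.inclusion hNJ n)) +
            (fun n : N => ((fun y : J => χ.1 y) - ξ.1) (Subgroup.inclusion hNJ n)) := by
          funext n
          simp only [Pi.add_apply, Pi.sub_apply]
          rw [← hχN n]
          simp
        obtain ⟨a, ha⟩ := exists_nat_inner' hξN hξN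
        obtain ⟨b, hb⟩ := exists_nat_inner' hdN hdN
        obtain ⟨c, hc⟩ := exists_nat_inner' hξN hdN
        obtain ⟨d, hd⟩ := exists_nat_inner' hdN hξN
        have h3 := irr_inner_self θ.2
        rw [hsum, classInner_add_left, classInner_add_right, classInner_add_right, ha, hb, hc, hd] at h3
        have h4 : a + c + (d + b) = 1 := by exact_mod_cast h3
        have ha0 : a ≠ 0 := by
          rintro rfl
          rw [Nat.cast_zero] at ha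
          have h6 : ξ.1 (Subgroup.inclusion hNJ 1) = 0 := congrFun (classInner_self_eq_zero ha) 1
          rw [map_one] at h6
          exact isIrr_one_ne_zero ξ.2 h6
        have hb0 : b = 0 := by omega
        rw [hb0, Nat.cast_zero] at hb
        have h9 : ((fun y : J => χ.1 y) - ξ.1) (Subgroup.inclusion hNJ 1) = 0 :=
          congrFun (classInner_self_eq_zero hb) 1
        rw [map_one] at h9
        by_contra hne
        obtain ⟨φ, hφ⟩ := char_ne_zero_exists_constituent h1 hne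
        have h10 := Cfsg.Agent.Lib.CharInd.degree_le_of_constituent h1 φ.2 hφ
        obtain ⟨m, hm0, hm⟩ := isIrr_one_eq φ.2
        rw [h9, hm] at h10
        simp at h10
        omega
      have h3 : (fun y : J => χ.1 y) = ξ.1 := sub_eq_zero.1 h2
      rw [h3]
      exact ξ.2
    refine ⟨⟨fun y : J => χ.1 y, hirr⟩, ?_, fun y => rfl⟩
    intro j
    have hcl : IsCl (cs ℂ j : GA ℂ J) := cs_isCl j
    have hninv : Cfsg.Agent.Lib.BlkH8G.NInv N (extGA J (cs ℂ j)) := fun n hn => extGA_inv hcl (hNJ hn)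
    have hloc : IsLoc M (extGA J (cs ℂ j)) := extGA_loc hM (IsLoc.cs hM j)
    have h1 := hχ _ hninv hloc
    have e1 : om χ.1 (extGA J (cs ℂ j)) = om (fun y : J => χ.1 y) (cs ℂ j) := by
      rw [om_eq, om_eq, extGA_sum]
      rfl
    have e2 : Cfsg.Agent.Lib.BlkH8G.aug (extGA J (cs ℂ j)) = om (triv J).1 (cs ℂ j) := by
      rw [Cfsg.Agent.Lib.BlkH8G.aug_eq, om_eq]
      have h5 : (triv J).1 1 = 1 := rfl
      rw [h5, div_one]
      have h3 := extGA_sum J (cs ℂ j) (fun _ => (1 : ℂ))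
      simp only [mul_one] at h3
      rw [h3]
      refine Finset.sum_congr rfl fun n _ => ?_
      have : (triv J).1 n = 1 := rfl
      rw [this, mul_one]
    rw [e1, e2, om_cs (isChar_classFn (isChar_of_irr hirr)), om_cs (irr_cl (triv J))] at h1
    exact max_sub_comm h1
  have hG : χ ∈ principalBlock M G := by
    intro g
    have h1 := hχ _ (Cfsg.Agent.Lib.BlkH8G.NInv.of_isCl (cs_isCl g)) (IsLoc.cs hM g)
    have e2 : Cfsg.Agent.Lib.BlkH8G.aug (cs ℂ g) = om (triv G).1 (cs ℂ g) := by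
      rw [Cfsg.Agent.Lib.BlkH8G.aug_eq, om_eq]
      have h5 : (triv G).1 1 = 1 := rfl
      rw [h5, div_one]
      refine Finset.sum_congr rfl fun n _ => ?_
      have : (triv G).1 n = 1 := rfl
      rw [this, mul_one]
    rw [e2, om_cs (irr_cl χ), om_cs (irr_cl (triv G))] at h1
    exact max_sub_comm h1
  exact ⟨χ, hG, hχN, key⟩

end Cfsg.Agent.S4937
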