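import Cfsg.Statements.S4969
import Cfsg.Agent.Lib.CharBasic

set_option autoImplicit false
open Cfsg

namespace Cfsg.Agent.S4969

open Lib.CharBasic in

/-- Let G be a finite group with k conjugacy classes, g ∈ G, and N > 0. Then the sum over the irreducible complex characters χ of G with χ(1) ≥ N of |χ(g)|/χ(1) is at most √(k · #C_G(g)) / N. -/
theorem result {G : Type*} [Group G] [Finite G] (g : G) (N : ℝ) (hN : 0 < N) :
    ∑ᶠ χ : Cfsg.IrrCharacter G, (if N ≤ ‖(χ : G → ℂ) 1‖ then ‖(χ : G → ℂ) g‖ / ‖(χ : G → ℂ) 1‖ else 0) ≤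
      Real.sqrt ((Nat.card (ConjClasses G) : ℝ) * (Nat.card ↥(Subgroup.centralizer ({g} : Set G)) : ℝ)) / N := by
  classical
  cases nonempty_fintype G
  rw [finsum_eq_sum_of_fintype]
  have hcol := Lib.CharBasic.column_orth g g
  rw [if_pos (IsConj.refl g)] at hcol
  have hcol' : ∑ χ : IrrCharacter G, ‖χ.1 g‖ ^ 2 = (Nat.card (Subgroup.centralizer ({g} : Set G)) : ℝ) := by
    have h1 : ∀ χ : IrrCharacter G, χ.1 g * (starRingEnd ℂ) (χ.1 g) = ((‖χ.1 g‖ ^ 2 : ℝ) : ℂ) := by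
      intro χ
      rw [Complex.mul_conj, Complex.normSq_eq_norm_sq]
    rw [Finset.sum_congr rfl fun χ _ => h1 χ, ← Complex.ofReal_sum] at hcol
    exact_mod_cast hcol
  have h1 : ∑ χ : IrrCharacter G, (if N ≤ ‖χ.1 1‖ then ‖χ.1 g‖ / ‖χ.1 1‖ else 0) ≤
      ∑ χ : IrrCharacter G, ‖χ.1 g‖ / N := by
    apply Finset.sum_le_sum
    intro χ _
    split_ifs with h
    · exact div_le_div_of_nonneg_left (norm_nonneg _) hN h
    · positivity
  refine h1.trans ?_
  rw [← Finset.sum_div]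
  refine div_le_div_of_nonneg_right ?_ hN.le
  apply Real.le_sqrt_of_sq_le
  have h2 : (∑ χ : IrrCharacter G, ‖χ.1 g‖) ^ 2 ≤
      (Finset.univ : Finset (IrrCharacter G)).card * ∑ χ : IrrCharacter G, ‖χ.1 g‖ ^ 2 :=
    sq_sum_le_card_mul_sum_sq
  rw [hcol', Finset.card_univ, ← Nat.card_eq_fintype_card, Lib.CharBasic.card_irr] at h2
  exact h2
end Cfsg.Agent.S4969
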