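import Cfsg.Statements.S4989
import Cfsg.Agent.Lib.CharEasy

set_option autoImplicit false
open Cfsg

namespace Cfsg.Agent.S4989

open Lib.CharBasic in

/-- Let H be a subgroup of the finite group G and χ an irreducible complex character of G. Then the inner product of the restriction of χ to H with itself, (1/#H)·Σ_{h ∈ H} |χ(h)|², is at most 1 + #(Z ∖ H)/#H, where Z is the set of zeros of χ in G. -/
theorem result {G : Type*} [Group G] [Finite G] (H : Subgroup G) (χ : Cfsg.IrrCharacter G) : (Nat.card ↥H : ℝ)⁻¹ * ∑ᶠ h : ↥H, ‖(χ : G → ℂ) h‖ ^ 2 ≤ 1 + (Set.ncard ({x : G | (χ : G → ℂ) x = 0} \ (H : Set G)) : ℝ) / (Nat.card ↥H : ℝ) := by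
  classical
  cases nonempty_fintype G
  have hsum : (∑ g : G, ‖χ.1 g‖ ^ 2 : ℝ) = Nat.card G := by
    have h1 := Lib.CharBasic.irr_inner_self χ.2
    rw [Lib.CharBasic.classInner_self_eq] at h1
    have h2 : (Nat.card G : ℝ)⁻¹ * ∑ g : G, ‖χ.1 g‖ ^ 2 = 1 := by exact_mod_cast h1
    have h3 : (Nat.card G : ℝ) ≠ 0 := by exact_mod_cast Nat.card_pos.ne'
    field_simp at h2
    linarith
  have hH0 : (0 : ℝ) < Nat.card H := by exact_mod_cast Nat.card_pos
  rw [finsum_eq_sum_of_fintype]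
  -- the nonzero elements outside `H`
  obtain ⟨S, hS⟩ : ∃ S, S = Finset.univ.filter (fun g : G => g ∉ H ∧ χ.1 g ≠ 0) := ⟨_, rfl⟩
  obtain ⟨Z, hZ⟩ : ∃ Z, Z = Finset.univ.filter (fun g : G => g ∉ H ∧ χ.1 g = 0) := ⟨_, rfl⟩
  have hge : (S.card : ℝ) ≤ ∑ g ∈ S, ‖χ.1 g‖ ^ 2 := by
    apply Lib.CharEasy.sum_norm_ge (Lib.CharBasic.isChar_of_irr χ.2)
    · intro k hk g hg
      rw [hS, Finset.mem_filter] at hg ⊢
      exact ⟨Finset.mem_univ _, fun h => hg.2.1 ((Lib.CharFix.pow_mem_iff hk H g).mp h),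
        Lib.CharEasy.ne_zero_pow (Lib.CharBasic.isChar_of_irr χ.2) hk hg.2.2⟩
    · intro g hg
      rw [hS, Finset.mem_filter] at hg
      exact hg.2.2
  have hpart : ∀ F : G → ℝ, ∑ g : G, F g = ∑ h : H, F h + ∑ g ∈ Z, F g + ∑ g ∈ S, F g := by
    intro F
    have h1 : ∑ h : H, F h = ∑ g : G, if g ∈ H then F g else 0 := by
      rw [← Finset.sum_filter]
      symm
      exact Finset.sum_subtype _ (by intro x; simp) F
    rw [h1, hZ, hS, Finset.sum_filter, Finset.sum_filter, ← Finset.sum_add_distrib,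
      ← Finset.sum_add_distrib]
    refine Finset.sum_congr rfl fun g _ => ?_
    by_cases h1 : g ∈ H
    · rw [if_pos h1, if_neg (fun h => h.1 h1), if_neg (fun h => h.1 h1)]; ring
    · by_cases h2 : χ.1 g = 0
      · rw [if_neg h1, if_pos ⟨h1, h2⟩, if_neg (fun h => h.2 h2)]; ring
      · rw [if_neg h1, if_neg (fun h => h2 h.2), if_pos ⟨h1, h2⟩]; ring
  have hcard := hpart (fun _ => 1)
  simp only [Finset.sum_const, nsmul_eq_mul, mul_one, Finset.card_univ] at hcard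
  rw [hpart] at hsum
  have hZ0 : ∑ g ∈ Z, ‖χ.1 g‖ ^ 2 = 0 := by
    apply Finset.sum_eq_zero
    intro g hg
    rw [hZ, Finset.mem_filter] at hg
    rw [hg.2.2]; simp
  have hZc : (Set.ncard ({x : G | (χ : G → ℂ) x = 0} \ (H : Set G)) : ℝ) = Z.card := by
    rw [Set.ncard_eq_toFinset_card']
    congr 2
    rw [hZ]
    ext g
    simp only [Set.mem_toFinset, Set.mem_diff, Set.mem_setOf_eq, SetLike.mem_coe,
      Finset.mem_filter, Finset.mem_univ, true_and]
    tauto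
  rw [hZc]
  rw [hZ0, Nat.card_eq_fintype_card, hcard] at hsum
  have hHc : (Nat.card H : ℝ) = Fintype.card H := by rw [Nat.card_eq_fintype_card]
  rw [← hHc] at hsum
  have h5 : ∑ h : H, ‖χ.1 h‖ ^ 2 ≤ Nat.card H + Z.card := by linarith
  have h6 : (1 : ℝ) + (Z.card : ℝ) / Nat.card H = (Nat.card H : ℝ)⁻¹ * (Nat.card H + Z.card) := by
    field_simp
  rw [h6]
  exact mul_le_mul_of_nonneg_left h5 (inv_nonneg.mpr hH0.le)
end Cfsg.Agent.S4989
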