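import Cfsg.Statements.S5011
import Cfsg.Agent.Lib.CharBurnside

set_option autoImplicit false
open Cfsg

namespace Cfsg.Agent.S5011

/-- Let G be a finite non-abelian simple group and ρ an irreducible complex representation of G on a space of dimension greater than one (irreducible in the sense that the only subspaces invariant under every ρ(x) are 0 and the whole space). Then for every non-identity element g of G, the centralizer of g does not act irreducibly: there is a non-zero proper subspace invariant under ρ(c) for every c commuting with g. -/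
theorem result {G : Type*} [Group G] [Finite G] [IsSimpleGroup G]
    (hG : ¬ IsMulCommutative G) {V : Type*} [AddCommGroup V] [Module ℂ V] [FiniteDimensional ℂ V]
    (ρ : Representation ℂ G V)
    (hirr : ∀ W : Submodule ℂ V, (∀ x : G, ∀ v ∈ W, ρ x v ∈ W) → W = ⊥ ∨ W = ⊤)
    (hdim : 1 < Module.finrank ℂ V) (g : G) (hg : g ≠ 1) :
    ∃ W : Submodule ℂ V, W ≠ ⊥ ∧ W ≠ ⊤ ∧ ∀ c ∈ Subgroup.centralizer ({g} : Set G), ∀ v ∈ W, ρ c v ∈ W := by
  classical
  have hnt : Nontrivial V := Module.nontrivial_of_finrank_pos (by omega : 0 < Module.finrank ℂ V)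
  have hρ : ρ.IsIrreducible := (Lib.CharBasic.isIrreducible_iff ρ).mpr ⟨hnt, fun W hW => hirr W hW⟩
  obtain ⟨μ, hμ⟩ := Module.End.exists_eigenvalue (ρ g)
  refine ⟨Module.End.eigenspace (ρ g) μ, hμ, ?_, ?_⟩
  · intro htop
    have hsc : g ∈ Lib.CharBurnside.scalarSubgroup ρ := by
      rw [Lib.CharBurnside.mem_scalarSubgroup]
      refine ⟨μ, LinearMap.ext fun v => ?_⟩
      have : v ∈ Module.End.eigenspace (ρ g) μ := by rw [htop]; trivial
      rw [Module.End.mem_eigenspace_iff] at this
      rw [this]; simp
    have hn : (Lib.CharBurnside.scalarSubgroup ρ).Normal := Lib.CharBurnside.scalarSubgroup_normal ρ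
    rcases hn.eq_bot_or_eq_top with h | h
    · rw [h, Subgroup.mem_bot] at hsc
      exact hg hsc
    · have := Lib.CharBurnside.finrank_one_of_scalar ρ (fun x => by rw [h]; trivial)
      omega
  · intro c hc v hv
    rw [Module.End.mem_eigenspace_iff] at hv ⊢
    rw [Subgroup.mem_centralizer_singleton_iff] at hc
    have h1 : ρ g (ρ c v) = ρ c (ρ g v) := by
      rw [← Module.End.mul_apply, ← Module.End.mul_apply, ← map_mul, ← map_mul, hc]
    rw [h1, hv, map_smul]
end Cfsg.Agent.S5011
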