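import Cfsg.Statements.S5135
import Cfsg.Agent.Lib.FusMor
import Cfsg.Agent.Lib.FusGroup

set_option autoImplicit false
open Cfsg
open Cfsg.Agent.Lib.FusMor Cfsg.Agent.Lib.FusBase Cfsg.Agent.Lib.FusGroup Cfsg.Agent.Lib.SylRel Cfsg.FusionSystem

namespace Cfsg.Agent.S5135

/-- Let G be a finite group, S a Sylow p-subgroup and H a normal subgroup of G. Then the fusion system of G/H on the image SH/H of S is the factor system of the fusion system of G on S modulo S ∩ H, read through the quotient map restricted to S: for each subgroup P' of SH/H, the conjugation maps by elements of G/H defined on P' with values in SH/H are exactly the homomorphisms induced by the conjugation maps by elements of G defined on the full preimage of P' in S with values in S. -/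
theorem result {G : Type*} [Group G] [Finite G] (p : ℕ) [Fact p.Prime] (S : Sylow p G) (H : Subgroup G) [H.Normal] : (Cfsg.groupFusionSystem (S : Subgroup G)).IsFactorSystem ((S : Subgroup G) ⊓ H) ((QuotientGroup.mk' H).comp (S : Subgroup G).subtype) (Cfsg.groupFusionSystem ((S : Subgroup G).map (QuotientGroup.mk' H))) := by
  have hθ : ∀ x (hx : x ∈ (S : Subgroup G)), ev ((QuotientGroup.mk' H).comp (S : Subgroup G).subtype) x = QuotientGroup.mk x := by
    intro x hx; rw [ev_mem hx]; rfl
  have hr : ((QuotientGroup.mk' H).comp (S : Subgroup G).subtype).range = (S : Subgroup G).map (QuotientGroup.mk' H) := by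
    rw [MonoidHom.range_comp, Subgroup.range_subtype]
  refine ⟨inf_le_left, fun s => ?_, hr, fun P' φ' => ?_⟩
  · constructor
    · intro h
      exact ⟨s.2, (QuotientGroup.eq_one_iff _).1 h⟩
    · intro h
      exact (QuotientGroup.eq_one_iff _).2 h.2
  · constructor
    · rintro ⟨h1, h2, γ, h3⟩
      refine ⟨h1, ?_⟩
      obtain ⟨g, rfl⟩ := QuotientGroup.mk_surjective γ
      set P := preimageAlong ((QuotientGroup.mk' H).comp (S : Subgroup G).subtype) P' with hP
      have hPS : P ≤ S := preimageAlong_le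
      have hΔ : (⊤ : Subgroup G) ≤ Subgroup.normalizer ((H : Subgroup G) : Set G) := by
        rw [Subgroup.normalizer_eq_top_iff.2 inferInstance]
      have hX : P.map (MulAut.conj g).toMonoidHom ≤ (S : Subgroup G) ⊔ H := by
        rw [map_conj_le]
        intro x hx
        obtain ⟨hxS, hx'⟩ := mem_preimageAlong.1 hx
        rw [hθ x hxS] at hx'
        obtain ⟨s, hs, hsx⟩ := h2 ⟨_, hx'⟩
        rw [h3] at hsx
        have h1 : (QuotientGroup.mk s : G ⧸ H) = QuotientGroup.mk (g * x * g⁻¹) := hsx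
        have h2 : s⁻¹ * (g * x * g⁻¹) ∈ H := QuotientGroup.eq.1 h1
        have h3 := Subgroup.mul_mem_sup hs h2
        simpa using h3
      obtain ⟨d, hd, h4⟩ := (sylIn_of_sylow S).conj_into le_top hΔ hX ((S.2.to_le hPS).map _)
      have h5 : ∀ x ∈ P, (d * g) * x * (d * g)⁻¹ ∈ S := by
        intro x hx
        have h2 := h4 (g * x * g⁻¹) ⟨x, hx, rfl⟩
        have e : d * (g * x * g⁻¹) * d⁻¹ = (d * g) * x * (d * g)⁻¹ := by group
        rwa [e] at h2
      refine ⟨conjHom P (d * g), ⟨hPS, fun x => h5 x x.2, d * g, fun x => rfl⟩, inducedAlong_iff.2 ⟨hPS, fun x => h5 x x.2, fun x hx => ?_⟩⟩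
      have hx' := (mem_preimageAlong.1 hx).2
      refine ⟨hx', ?_⟩
      rw [ext_mem _ hx, ext_mem _ hx', h3]
      show (QuotientGroup.mk g : G ⧸ H) * ev _ x * (QuotientGroup.mk g)⁻¹ = ev _ (d * g * x * (d * g)⁻¹)
      rw [hθ x (hPS hx), hθ _ (h5 x hx)]
      have hd1 : (QuotientGroup.mk d : G ⧸ H) = 1 := (QuotientGroup.eq_one_iff d).2 hd
      simp only [QuotientGroup.mk_mul, QuotientGroup.mk_inv, hd1, one_mul]
    · rintro ⟨h1, φ, ⟨h2, h3, g, h4⟩, h5⟩
      rw [inducedAlong_iff] at h5
      obtain ⟨-, h6, h7⟩ := h5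
      have hex : ∀ y : P', ∃ x, ∃ hx : x ∈ preimageAlong ((QuotientGroup.mk' H).comp (S : Subgroup G).subtype) P', (QuotientGroup.mk x : G ⧸ H) = y ∧ φ' y = QuotientGroup.mk (φ ⟨x, hx⟩) := by
        intro y
        obtain ⟨x, hx, hxy⟩ := h1 y.2
        have hx' : x ∈ preimageAlong ((QuotientGroup.mk' H).comp (S : Subgroup G).subtype) P' := by
          rw [mem_preimageAlong, hθ x hx]
          exact ⟨hx, by rw [show (QuotientGroup.mk x : G ⧸ H) = y from hxy]; exact y.2⟩
        refine ⟨x, hx', hxy, ?_⟩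
        obtain ⟨h8, h9⟩ := h7 x hx'
        rw [ext_mem _ h8, ext_mem _ hx', hθ _ (h6 _)] at h9
        rw [← h9]
        congr 1
        exact Subtype.ext (hxy.symm.trans (hθ x hx).symm)
      refine ⟨h1, fun y => ?_, QuotientGroup.mk g, fun y => ?_⟩
      · obtain ⟨x, hx, h8, h9⟩ := hex y
        rw [h9]
        exact ⟨_, h6 _, rfl⟩
      · obtain ⟨x, hx, h8, h9⟩ := hex y
        rw [h9, h4, ← h8]; rfl

end Cfsg.Agent.S5135
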