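import Cfsg.Statements.S5136
import Cfsg.Agent.Lib.PRes

set_option autoImplicit false
open Cfsg
open Cfsg Cfsg.FusionSystem

namespace Cfsg.Agent.S5136

theorem hom_cast {Ω : Type*} [Group Ω] {S : Subgroup Ω} (F : Cfsg.FusionSystem S) {P Q : Subgroup Ω} (h : P = Q) {ψ : P →* Ω} (hψ : ψ ∈ F.Hom P) :
    ∃ ψ' ∈ F.Hom Q, ∀ (x : Ω) (hP : x ∈ P) (hQ : x ∈ Q), ψ' ⟨x, hQ⟩ = ψ ⟨x, hP⟩ := by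
  subst h
  exact ⟨ψ, hψ, fun _ _ _ => rfl⟩

/-- Let F₁ and F₂ be fusion systems over finite p-groups S₁ and S₂ (inside ambient groups Ω₁ and Ω₂). Then their direct product exists: there is a fusion system over S₁ × S₂ inside Ω₁ × Ω₂ whose maps with source P ≤ S₁ × S₂ are exactly the restrictions to P of the homomorphisms (x₁, x₂) ↦ (φ₁ x₁, φ₂ x₂) with φ₁ a map of F₁ on the first projection of P and φ₂ a map of F₂ on the second projection. -/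
theorem result {Ω₁ Ω₂ : Type*} [Group Ω₁] [Group Ω₂] {S₁ : Subgroup Ω₁} {S₂ : Subgroup Ω₂} [Finite S₁] [Finite S₂] (p : ℕ) [Fact p.Prime] (h₁ : IsPGroup p S₁) (h₂ : IsPGroup p S₂) (F₁ : Cfsg.FusionSystem S₁) (F₂ : Cfsg.FusionSystem S₂) : ∃ E : Cfsg.FusionSystem (S₁.prod S₂), Cfsg.FusionSystem.IsProductSystem F₁ F₂ E := by
  refine ⟨{
    Hom := fun P => {φ | P ≤ S₁.prod S₂ ∧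
      ∃ φ₁ ∈ F₁.Hom (P.map (MonoidHom.fst Ω₁ Ω₂)), ∃ φ₂ ∈ F₂.Hom (P.map (MonoidHom.snd Ω₁ Ω₂)),
        ∀ (x : P) (h₁ : (x : Ω₁ × Ω₂).1 ∈ P.map (MonoidHom.fst Ω₁ Ω₂))
          (h₂ : (x : Ω₁ × Ω₂).2 ∈ P.map (MonoidHom.snd Ω₁ Ω₂)),
          φ x = (φ₁ ⟨(x : Ω₁ × Ω₂).1, h₁⟩, φ₂ ⟨(x : Ω₁ × Ω₂).2, h₂⟩)}
    le_of_mem := ?_
    injective_of_mem := ?_
    conj_mem := ?_
    comp_mem := ?_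
    inv_mem := ?_ }, fun P φ => Iff.rfl⟩
  · rintro P φ ⟨hP, φ₁, hφ₁, φ₂, hφ₂, h⟩
    refine ⟨hP, fun x => ?_⟩
    rw [h x ⟨x, x.2, rfl⟩ ⟨x, x.2, rfl⟩]
    exact ⟨(F₁.le_of_mem hφ₁).2 _, (F₂.le_of_mem hφ₂).2 _⟩
  · rintro P φ ⟨hP, φ₁, hφ₁, φ₂, hφ₂, h⟩ x y hxy
    rw [h x ⟨x, x.2, rfl⟩ ⟨x, x.2, rfl⟩, h y ⟨y, y.2, rfl⟩ ⟨y, y.2, rfl⟩] at hxy
    have h1 := F₁.injective_of_mem hφ₁ (congrArg Prod.fst hxy)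
    have h2 := F₂.injective_of_mem hφ₂ (congrArg Prod.snd hxy)
    exact Subtype.ext (Prod.ext (congrArg Subtype.val h1) (congrArg Subtype.val h2))
  · intro P g hP hg
    have hP1 : P.map (MonoidHom.fst Ω₁ Ω₂) ≤ S₁ := by
      rintro _ ⟨x, hx, rfl⟩
      exact (hP hx).1
    have hP2 : P.map (MonoidHom.snd Ω₁ Ω₂) ≤ S₂ := by
      rintro _ ⟨x, hx, rfl⟩
      exact (hP hx).2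
    refine ⟨hP, _, F₁.conj_mem hP1 hg.1, _, F₂.conj_mem hP2 hg.2, fun x h₁ h₂ => rfl⟩
  · rintro P Q φ ψ ⟨hP, φ₁, hφ₁, φ₂, hφ₂, h⟩ ⟨hQ, ψ₁, hψ₁, ψ₂, hψ₂, h'⟩ hPQ
    have hq1 : ∀ x : P.map (MonoidHom.fst Ω₁ Ω₂), φ₁ x ∈ Q.map (MonoidHom.fst Ω₁ Ω₂) := by
      rintro ⟨_, x, hx, rfl⟩
      refine ⟨φ ⟨x, hx⟩, hPQ _, ?_⟩
      rw [h ⟨x, hx⟩ ⟨x, hx, rfl⟩ ⟨x, hx, rfl⟩]
      rfl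
    have hq2 : ∀ x : P.map (MonoidHom.snd Ω₁ Ω₂), φ₂ x ∈ Q.map (MonoidHom.snd Ω₁ Ω₂) := by
      rintro ⟨_, x, hx, rfl⟩
      refine ⟨φ ⟨x, hx⟩, hPQ _, ?_⟩
      rw [h ⟨x, hx⟩ ⟨x, hx, rfl⟩ ⟨x, hx, rfl⟩]
      rfl
    refine ⟨hP, _, F₁.comp_mem hφ₁ hψ₁ hq1, _, F₂.comp_mem hφ₂ hψ₂ hq2, fun x h₁ h₂ => ?_⟩
    have h3 := h x h₁ h₂
    show ψ ⟨φ x, hPQ x⟩ = (ψ₁ ⟨φ₁ ⟨(x : Ω₁ × Ω₂).1, h₁⟩, _⟩, ψ₂ ⟨φ₂ ⟨(x : Ω₁ × Ω₂).2, h₂⟩, _⟩)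
    have h4 := h' ⟨φ x, hPQ x⟩ ⟨φ x, hPQ x, rfl⟩ ⟨φ x, hPQ x, rfl⟩
    rw [h4]
    apply Prod.ext
    · show ψ₁ _ = ψ₁ _
      congr 1
      apply Subtype.ext
      show (φ x).1 = _
      rw [h3]
    · show ψ₂ _ = ψ₂ _
      congr 1
      apply Subtype.ext
      show (φ x).2 = _
      rw [h3]
  · rintro P φ ⟨hP, φ₁, hφ₁, φ₂, hφ₂, h⟩
    have hr1 : φ₁.range = φ.range.map (MonoidHom.fst Ω₁ Ω₂) := by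
      ext z
      constructor
      · rintro ⟨⟨_, x, hx, rfl⟩, rfl⟩
        refine ⟨φ ⟨x, hx⟩, ⟨⟨x, hx⟩, rfl⟩, ?_⟩
        rw [h ⟨x, hx⟩ ⟨x, hx, rfl⟩ ⟨x, hx, rfl⟩]
        rfl
      · rintro ⟨_, ⟨x, rfl⟩, rfl⟩
        refine ⟨⟨(x : Ω₁ × Ω₂).1, x, x.2, rfl⟩, ?_⟩
        rw [h x ⟨x, x.2, rfl⟩ ⟨x, x.2, rfl⟩]
        rfl
    have hr2 : φ₂.range = φ.range.map (MonoidHom.snd Ω₁ Ω₂) := by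
      ext z
      constructor
      · rintro ⟨⟨_, x, hx, rfl⟩, rfl⟩
        refine ⟨φ ⟨x, hx⟩, ⟨⟨x, hx⟩, rfl⟩, ?_⟩
        rw [h ⟨x, hx⟩ ⟨x, hx, rfl⟩ ⟨x, hx, rfl⟩]
        rfl
      · rintro ⟨_, ⟨x, rfl⟩, rfl⟩
        refine ⟨⟨(x : Ω₁ × Ω₂).2, x, x.2, rfl⟩, ?_⟩
        rw [h x ⟨x, x.2, rfl⟩ ⟨x, x.2, rfl⟩]
        rfl
    obtain ⟨ψ₁, hψ₁, e₁⟩ := F₁.inv_mem hφ₁
    obtain ⟨ψ₂, hψ₂, e₂⟩ := F₂.inv_mem hφ₂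
    obtain ⟨χ₁, hχ₁, c₁⟩ := hom_cast F₁ hr1 hψ₁
    obtain ⟨χ₂, hχ₂, c₂⟩ := hom_cast F₂ hr2 hψ₂
    refine ⟨(χ₁.comp ((MonoidHom.fst Ω₁ Ω₂).subgroupMap φ.range)).prod (χ₂.comp ((MonoidHom.snd Ω₁ Ω₂).subgroupMap φ.range)), ⟨?_, χ₁, hχ₁, χ₂, hχ₂, fun x h₁ h₂ => rfl⟩, ?_⟩
    · rintro _ ⟨x, rfl⟩
      rw [h x ⟨x, x.2, rfl⟩ ⟨x, x.2, rfl⟩]
      exact ⟨(F₁.le_of_mem hφ₁).2 _, (F₂.le_of_mem hφ₂).2 _⟩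
    · intro x
      have h3 := h x ⟨x, x.2, rfl⟩ ⟨x, x.2, rfl⟩
      have hx1 : (φ x).1 = φ₁ ⟨(x : Ω₁ × Ω₂).1, ⟨x, x.2, rfl⟩⟩ := by rw [h3]
      have hx2 : (φ x).2 = φ₂ ⟨(x : Ω₁ × Ω₂).2, ⟨x, x.2, rfl⟩⟩ := by rw [h3]
      apply Prod.ext
      · show χ₁ ⟨(φ x).1, _⟩ = (x : Ω₁ × Ω₂).1
        refine (c₁ (φ x).1 ⟨⟨(x : Ω₁ × Ω₂).1, ⟨x, x.2, rfl⟩⟩, hx1.symm⟩ _).trans ?_
        refine Eq.trans ?_ (e₁ ⟨(x : Ω₁ × Ω₂).1, ⟨x, x.2, rfl⟩⟩)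
        exact congrArg ψ₁ (Subtype.ext hx1)
      · show χ₂ ⟨(φ x).2, _⟩ = (x : Ω₁ × Ω₂).2
        refine (c₂ (φ x).2 ⟨⟨(x : Ω₁ × Ω₂).2, ⟨x, x.2, rfl⟩⟩, hx2.symm⟩ _).trans ?_
        refine Eq.trans ?_ (e₂ ⟨(x : Ω₁ × Ω₂).2, ⟨x, x.2, rfl⟩⟩)
        exact congrArg ψ₂ (Subtype.ext hx2)

end Cfsg.Agent.S5136
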