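import Cfsg.Statements.S5193
import Cfsg.Agent.Lib.GlcE

set_option autoImplicit false
open Cfsg
open Cfsg.FusionSystem Cfsg.Agent.Lib.FusBase Cfsg.Agent.Lib.FusSat Cfsg.Agent.Lib.FusNormal Cfsg.Agent.Lib.FusNormalB Cfsg.Agent.Lib.FusNKB Cfsg.Agent.Lib.FusSimple Cfsg.Agent.Lib.ThfA Cfsg.Agent.Lib.ThC Cfsg.Agent.Lib.GlcD

namespace Cfsg.Agent.S5193

/-- Glauberman's Theorem for fusion systems. Let F be a saturated fusion system over a finite p-group S, let J(S) be the subgroup generated by the abelian subgroups of S of largest order, and let N be the normalizer fusion system of J(S) in F (a fusion system over N_S(J(S)) = S). Then every p-th power of an element of Z(S) that lies in the centre of N lies in the centre of F; and if p is odd, or if the symmetric group of degree 4 is not involved in any model of the normalizer system of a fully normalized F-centric subgroup (F is S₄-free), then the centre of N equals the centre of F. -/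
theorem result {Ω : Type*} [Group Ω] {S : Subgroup Ω} [Finite S] (p : ℕ) [Fact p.Prime] (hS : IsPGroup p S) (F : Cfsg.FusionSystem S) (hF : F.IsSaturated p) (N : Cfsg.FusionSystem (Cfsg.FusionSystem.normalizerIn S (Cfsg.thompsonSubgroupAOf S))) (hN : F.IsNormalizerSystem (Cfsg.thompsonSubgroupAOf S) N) : Subgroup.closure ((fun z : Ω => z ^ p) '' ((S ⊓ Subgroup.centralizer (S : Set Ω) : Subgroup Ω) : Set Ω)) ⊓ N.center ≤ F.center ∧ (p ≠ 2 ∨ F.IsSectionFree p (Equiv.Perm (Fin 4)) → N.center = F.center) := by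
  have hJS : Cfsg.thompsonSubgroupAOf S ≤ S := ja_le S
  have hSJ : S ≤ Subgroup.normalizer ((Cfsg.thompsonSubgroupAOf S : Subgroup Ω) : Set Ω) := Subgroup.le_normalizer.trans normalizer_ja
  have hNS : Cfsg.FusionSystem.normalizerIn S (Cfsg.thompsonSubgroupAOf S) = S :=
    le_antisymm normalizerIn_le fun s hs => mem_normalizerIn.2 ⟨hs, hSJ hs⟩
  have hJF : F.IsFullyNormalized (Cfsg.thompsonSubgroupAOf S) := Cfsg.Agent.Lib.QfD.FN_of_norm hJS hSJ
  have hfN : Finite (Cfsg.FusionSystem.normalizerIn S (Cfsg.thompsonSubgroupAOf S)) := finite_of_le normalizerIn_le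
  have hNp : IsPGroup p (Cfsg.FusionSystem.normalizerIn S (Cfsg.thompsonSubgroupAOf S)) := isPGroup_le hS normalizerIn_le
  have hNs := norm_saturated hS hF hJF hN
  -- elements of the centre of `N`
  have hcN : ∀ x ∈ N.center, (x ∈ S ∧ ∀ s ∈ S, s * x = x * s) ∧
      ∀ f, Iso F (Cfsg.thompsonSubgroupAOf S) (Cfsg.thompsonSubgroupAOf S) f → f x = x := by
    intro x hx
    obtain ⟨h1, h2⟩ := (mem_center_iff hNp hNs).1 hx
    have hxS : x ∈ S := normalizerIn_le h1
    have hxc : ∀ s ∈ S, s * x = x * s := by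
      intro s hs
      have h3 := h2 _ _ (mor_conj N (P := Subgroup.zpowers x) (by rw [Subgroup.zpowers_le]; exact h1) (show s ∈ _ by rw [hNS]; exact hs))
        (Subgroup.mem_zpowers x)
      rwa [mul_inv_eq_iff_eq_mul] at h3
    refine ⟨⟨hxS, hxc⟩, fun f hf => ?_⟩
    have hxJ : x ∈ Cfsg.thompsonSubgroupAOf S := ja_cent hxS fun y hy => hxc y (hJS hy)
    have hm := Cfsg.Agent.Lib.LabC.norm_mor hN hJS le_rfl (le_normalizerIn hJS) hf.mor (fun x hx => hf.map_mem hx)
    exact h2 _ _ hm hxJ
  have key : ∀ x ∈ N.center, HZ F p x → x ∈ F.center := by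
    intro x hx hHZ
    obtain ⟨⟨h1, h2⟩, h3⟩ := hcN x hx
    exact (mem_center_iff hS hF).2 ⟨h1, Cfsg.Agent.Lib.GlcE.main hS hF x h1 h2 hHZ h3⟩
  refine ⟨?_, fun h => le_antisymm (fun x hx => key x hx ?_) ?_⟩
  · rintro x ⟨hx1, hx2⟩
    refine key x hx2 (Or.inr (Or.inl ?_))
    have hcl : x ∈ Subgroup.closure ((fun z : Ω => z ^ p) '' ((S ⊓ Subgroup.centralizer (S : Set Ω) : Subgroup Ω) : Set Ω)) := hx1
    induction hcl using Subgroup.closure_induction with
    | mem y hy =>
      obtain ⟨w, hw, rfl⟩ := hy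
      exact ⟨w, hw.1, fun s hs => Subgroup.mem_centralizer_iff.1 hw.2 s hs, rfl⟩
    | one => exact ⟨1, S.one_mem, fun s _ => by rw [mul_one, one_mul], one_pow p⟩
    | mul a b ha hb iha ihb =>
      have h4 : ∀ y, y ∈ Subgroup.closure ((fun z : Ω => z ^ p) '' ((S ⊓ Subgroup.centralizer (S : Set Ω) : Subgroup Ω) : Set Ω)) →
          ∃ w ∈ S, (∀ s ∈ S, s * w = w * s) ∧ w ^ p = y := by
        intro y hy
        induction hy using Subgroup.closure_induction with
        | mem y hy =>
          obtain ⟨w, hw, rfl⟩ := hy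
          exact ⟨w, hw.1, fun s hs => Subgroup.mem_centralizer_iff.1 hw.2 s hs, rfl⟩
        | one => exact ⟨1, S.one_mem, fun s _ => by rw [mul_one, one_mul], one_pow p⟩
        | mul a b _ _ iha ihb =>
          obtain ⟨w, hw, hwc, rfl⟩ := iha
          obtain ⟨v, hv, hvc, rfl⟩ := ihb
          refine ⟨w * v, S.mul_mem hw hv, fun s hs => ?_, (show Commute w v from (hvc w hw)).mul_pow p⟩
          exact (show Commute s w from hwc s hs).mul_right (hvc s hs)
        | inv a _ iha =>
          obtain ⟨w, hw, hwc, rfl⟩ := iha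
          exact ⟨w⁻¹, S.inv_mem hw, fun s hs => (show Commute s w from hwc s hs).inv_right, inv_pow w p⟩
      exact h4 _ hx1
    | inv a ha iha =>
      have h4 : ∀ y, y ∈ Subgroup.closure ((fun z : Ω => z ^ p) '' ((S ⊓ Subgroup.centralizer (S : Set Ω) : Subgroup Ω) : Set Ω)) →
          ∃ w ∈ S, (∀ s ∈ S, s * w = w * s) ∧ w ^ p = y := by
        intro y hy
        induction hy using Subgroup.closure_induction with
        | mem y hy =>
          obtain ⟨w, hw, rfl⟩ := hy
          exact ⟨w, hw.1, fun s hs => Subgroup.mem_centralizer_iff.1 hw.2 s hs, rfl⟩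
        | one => exact ⟨1, S.one_mem, fun s _ => by rw [mul_one, one_mul], one_pow p⟩
        | mul a b _ _ iha ihb =>
          obtain ⟨w, hw, hwc, rfl⟩ := iha
          obtain ⟨v, hv, hvc, rfl⟩ := ihb
          refine ⟨w * v, S.mul_mem hw hv, fun s hs => ?_, (show Commute w v from (hvc w hw)).mul_pow p⟩
          exact (show Commute s w from hwc s hs).mul_right (hvc s hs)
        | inv a _ iha =>
          obtain ⟨w, hw, hwc, rfl⟩ := iha
          exact ⟨w⁻¹, S.inv_mem hw, fun s hs => (show Commute s w from hwc s hs).inv_right, inv_pow w p⟩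
      exact h4 _ hx1
  · rcases h with h | h
    · exact Or.inl h
    · exact Or.inr (Or.inr h)
  · intro x hx
    obtain ⟨h1, h2⟩ := (mem_center_iff hS hF).1 hx
    refine (mem_center_iff hNp hNs).2 ⟨by rw [hNS]; exact h1, fun P f hf hxP => h2 P f (norm_le hN hf) hxP⟩

end Cfsg.Agent.S5193
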