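import Cfsg.Statements.S5198
import Cfsg.Agent.Lib.OmgA
import Cfsg.Agent.Lib.FusPuig
import Cfsg.Agent.Lib.FusHyp
import Cfsg.Agent.Lib.PRes
import Cfsg.Agent.Lib.Basic

set_option autoImplicit false
open Cfsg
open Cfsg.FusionSystem Cfsg.Agent.Lib.FusBase Cfsg.Agent.Lib.FusNormal Cfsg.Agent.Lib.FusNormalB Cfsg.Agent.Lib.FusSat Cfsg.Agent.Lib.FusPuig Cfsg.Agent.Lib.FusHyp Cfsg.Agent.Lib.OmgA Cfsg.Agent.Lib

namespace Cfsg.Agent.S5198

/-- Let F be a saturated fusion system over a finite p-group S and T a subgroup of S strongly closed in F (so T is normal in S). Then every element x of the hyperfocal subgroup of F acts on T by conjugation as an element of O^p(Aut_F(T))·Inn(T): there is an automorphism of T in the subgroup generated by the elements of Aut_F(T) of order prime to p together with the inner automorphisms of T that agrees with conjugation by x. -/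
theorem result {Ω : Type*} [Group Ω] {S : Subgroup Ω} [Finite S] (p : ℕ) [Fact p.Prime] (hS : IsPGroup p S) (F : Cfsg.FusionSystem S) (hF : F.IsSaturated p) (T : Subgroup Ω) (hT : F.StronglyClosed T) : ∀ x ∈ F.hyperfocalSubgroup p, ∃ α ∈ ((Cfsg.pResidual p ↥(F.autGroup T)).map (F.autGroup T).subtype ⊔ Cfsg.Inn ↥T : Subgroup (MulAut ↥T)), ∀ t : ↥T, ((α t : ↥T) : Ω) = x * (t : Ω) * x⁻¹ := by
  have hTS := hT.1
  haveI hfT : Finite T := finite_of_le hTS
  obtain ⟨K, hK⟩ : ∃ K : Subgroup (MulAut T), K = ((Cfsg.pResidual p ↥(F.autGroup T)).map (F.autGroup T).subtype ⊔ Cfsg.Inn ↥T : Subgroup (MulAut ↥T)) := ⟨_, rfl⟩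
  rw [← hK]
  have hcop : ∀ τ : MulAut T, τ ∈ F.autGroup T → Nat.Coprime (orderOf τ) p → τ ∈ K := by
    intro τ hτ ho
    rw [hK]
    refine Subgroup.mem_sup_left ⟨⟨τ, hτ⟩, Cfsg.Agent.Lib.PRes.mem_of_coprime ?_, rfl⟩
    rwa [← Subgroup.orderOf_coe]
  have hcS : ∀ x ∈ S, ∃ γ : MulAut T, γ ∈ F.autGroup T ∧ ∀ t : T, ((γ t : T) : Ω) = x * (t : Ω) * x⁻¹ := by
    intro x hx
    have h1 : Iso F T T (fun t => x * t * x⁻¹) := (mor_conj F hTS hx).iso_of_map (fun t ht => StronglyClosed_conj hT hx ht)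
    exact ⟨autOf h1, autOf_mem h1, fun t => rfl⟩
  have hInn : ∀ t₀ ∈ T, ∃ γ ∈ K, ∀ t : T, ((γ t : T) : Ω) = t₀ * (t : Ω) * t₀⁻¹ := by
    intro t₀ ht₀
    refine ⟨MulAut.conj ⟨t₀, ht₀⟩, ?_, fun t => rfl⟩
    rw [hK]
    exact Subgroup.mem_sup_right ⟨⟨t₀, ht₀⟩, rfl⟩
  have gmul : ∀ x y : Ω, (∃ α ∈ K, ∀ t : T, ((α t : T) : Ω) = x * (t : Ω) * x⁻¹) → (∃ α ∈ K, ∀ t : T, ((α t : T) : Ω) = y * (t : Ω) * y⁻¹) →
      ∃ α ∈ K, ∀ t : T, ((α t : T) : Ω) = (x * y) * (t : Ω) * (x * y)⁻¹ := by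
    rintro x y ⟨α, hα, h1⟩ ⟨β, hβ, h2⟩
    refine ⟨α * β, K.mul_mem hα hβ, fun t => ?_⟩
    rw [MulAut.mul_apply, h1, h2]; group
  have ginv : ∀ x : Ω, (∃ α ∈ K, ∀ t : T, ((α t : T) : Ω) = x * (t : Ω) * x⁻¹) → ∃ α ∈ K, ∀ t : T, ((α t : T) : Ω) = x⁻¹ * (t : Ω) * (x⁻¹)⁻¹ := by
    rintro x ⟨α, hα, h1⟩
    refine ⟨α⁻¹, K.inv_mem hα, fun t => ?_⟩
    have h2 := h1 (α⁻¹ t)
    rw [MulAut.apply_inv_self] at h2
    rw [h2]; group
  -- elements of order prime to `p`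
  have main : ∀ (P : Subgroup Ω), P ≤ S → ∀ α : MulAut P, α ∈ F.autGroup P → Nat.Coprime (orderOf α) p → ∀ x : P,
      ∃ γ ∈ K, ∀ t : T, ((γ t : T) : Ω) = ((x : Ω)⁻¹ * (α x : P)) * (t : Ω) * ((x : Ω)⁻¹ * (α x : P))⁻¹ := by
    intro P hP α hα ho x
    haveI hfP : Finite P := finite_of_le hP
    obtain ⟨g, hg, hgf⟩ := puig hS hF hT P (fn α) ((mem_autGroup hP).1 hα)
    have hnorm : P ≤ Subgroup.normalizer (T : Set Ω) := fun u hu => mem_normalizer_of_conj_mem fun t ht => StronglyClosed_conj hT (hP hu) ht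
    have hmap : ∀ y ∈ P ⊔ T, g y ∈ P ⊔ T := by
      have h1 : P ⊔ T ≤ P ⊔ T ⊓ (P ⊔ T) := by rw [inf_eq_left.2 le_sup_right]
      intro y hy
      have hy' := hy
      rw [sup_comm, Cfsg.Agent.Lib.Basic.mem_sup_iff_left hnorm] at hy'
      obtain ⟨t, ht, u, hu, rfl⟩ := hy'
      rw [hg.mul (Subgroup.mem_sup_right ht) (Subgroup.mem_sup_left hu)]
      have h2 : g t ∈ T := StronglyClosed_mem hT hg (Subgroup.mem_sup_right ht) ht
      have h3 : g u = fn α u * ((fn α u)⁻¹ * g u) := by group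
      rw [h3]
      exact mul_mem (Subgroup.mem_sup_right h2) (mul_mem (Subgroup.mem_sup_left (fn_mem' α hu)) (Subgroup.mem_sup_right (hgf u hu)))
    haveI hfPT : Finite ↥(P ⊔ T) := finite_of_le (sup_le hP hTS)
    have hiso : Iso F (P ⊔ T) (P ⊔ T) g := hg.iso_of_map hmap
    obtain ⟨β, hβ⟩ : ∃ β : MulAut ↥(P ⊔ T), β = autOf hiso := ⟨_, rfl⟩
    have hβa : β ∈ F.autGroup (P ⊔ T) := by rw [hβ]; exact autOf_mem hiso
    have hβx : ∀ y : ↥(P ⊔ T), ((β y : ↥(P ⊔ T)) : Ω) = g y := fun y => by rw [hβ]; rfl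
    have hβo : 0 < orderOf β := orderOf_pos β
    obtain ⟨a, m, hpm, hm⟩ := Nat.exists_eq_pow_mul_and_not_dvd hβo.ne' p (Fact.out : p.Prime).ne_one
    have hpm' : Nat.Coprime m p := ((Nat.Prime.coprime_iff_not_dvd (Fact.out : p.Prime)).2 hpm).symm
    obtain ⟨k, hk1, hk2⟩ := Nat.chineseRemainder (Nat.Coprime.pow_right a ho) 1 0
    have hk0 : p ^ a ∣ k := (Nat.modEq_zero_iff_dvd).1 hk2
    -- powers
    have hpow : ∀ j : ℕ, ∀ u : P, (((α ^ j) u : P) : Ω)⁻¹ * ((β ^ j) ⟨u, Subgroup.mem_sup_left u.2⟩ : ↥(P ⊔ T)) ∈ T := by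
      intro j
      induction j with
      | zero => intro u; simp
      | succ j ih =>
        intro u
        have h1 := ih u
        obtain ⟨v, hv⟩ : ∃ v, v = (α ^ j) u := ⟨_, rfl⟩
        obtain ⟨w, hw⟩ : ∃ w, w = (β ^ j) ⟨u, Subgroup.mem_sup_left u.2⟩ := ⟨_, rfl⟩
        rw [← hv, ← hw] at h1
        rw [pow_succ', pow_succ', MulAut.mul_apply, MulAut.mul_apply, ← hv, ← hw, hβx]
        have h2 : (w : Ω) = v * ((v : Ω)⁻¹ * w) := by group
        have h3 : g w = g v * g ((v : Ω)⁻¹ * w) := by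
          conv_lhs => rw [h2]
          exact hg.mul (Subgroup.mem_sup_left v.2) (Subgroup.mem_sup_right h1)
        rw [h3]
        have h4 := hgf v v.2
        rw [fn_apply] at h4
        have h5 : g ((v : Ω)⁻¹ * w) ∈ T := StronglyClosed_mem hT hg (Subgroup.mem_sup_right h1) h1
        have h6 := T.mul_mem h4 h5
        rwa [mul_assoc] at h6
    have hkα : (α ^ k) = α := by
      have h1 : k ≡ 1 [MOD orderOf α] := hk1
      have h2 := pow_eq_pow_iff_modEq.2 h1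
      rw [pow_one] at h2; exact h2
    have hx1 := hpow k x
    rw [hkα] at hx1
    -- the restriction to `T`
    have hβT : ∀ t : ↥(P ⊔ T), (t : Ω) ∈ T → (((β ^ k) t : ↥(P ⊔ T)) : Ω) ∈ T := by
      have h1 : ∀ j : ℕ, ∀ t : ↥(P ⊔ T), (t : Ω) ∈ T → (((β ^ j) t : ↥(P ⊔ T)) : Ω) ∈ T := by
        intro j
        induction j with
        | zero => intro t ht; simpa using ht
        | succ j ih =>
          intro t ht
          rw [pow_succ', MulAut.mul_apply, hβx]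
          exact StronglyClosed_mem hT hg (Subtype.mem _) (ih t ht)
      exact h1 k
    have hbm : Mor F (P ⊔ T) (fn (β ^ k)) := (mem_autGroup (sup_le hP hTS)).1 ((F.autGroup (P ⊔ T)).pow_mem hβa k)
    have hτi : Iso F T T (fn (β ^ k)) := (hbm.restrict le_sup_right).iso_of_map (fun t ht => by
      have h1 := hβT ⟨t, Subgroup.mem_sup_right ht⟩ ht
      rwa [← fn_apply] at h1)
    obtain ⟨τ, hτ⟩ : ∃ τ : MulAut T, τ = autOf hτi := ⟨_, rfl⟩
    have hτa : τ ∈ F.autGroup T := by rw [hτ]; exact autOf_mem hτi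
    have hτt : ∀ t : T, ((τ t : T) : Ω) = ((β ^ k) ⟨t, Subgroup.mem_sup_right t.2⟩ : ↥(P ⊔ T)) := by
      intro t
      rw [hτ, autOf_apply]
      exact fn_mem _ (Subgroup.mem_sup_right t.2)
    have hτo : Nat.Coprime (orderOf τ) p := by
      have h1 : orderOf τ ∣ m := by
        apply orderOf_dvd_of_pow_eq_one
        have h2 : ∀ (j : ℕ) (t : T), (((τ ^ j) t : T) : Ω) = (((β ^ k) ^ j) ⟨t, Subgroup.mem_sup_right t.2⟩ : ↥(P ⊔ T)) := by
          intro j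
          induction j with
          | zero => intro t; rfl
          | succ j ih =>
            intro t
            rw [pow_succ', pow_succ', MulAut.mul_apply, MulAut.mul_apply, hτt]
            congr 2
            exact Subtype.ext (ih t)
        have h3 : (β ^ k) ^ m = 1 := by
          rw [← pow_mul]
          apply orderOf_dvd_iff_pow_eq_one.1
          rw [hm]
          exact Nat.mul_dvd_mul_right hk0 m
        ext t
        rw [h2, h3]; rfl
      exact Nat.Coprime.coprime_dvd_left h1 hpm'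
    obtain ⟨γ, hγa, hγ⟩ := hcS x (hP x.2)
    obtain ⟨y, hy⟩ : ∃ y : Ω, y = ((β ^ k) ⟨x, Subgroup.mem_sup_left x.2⟩ : ↥(P ⊔ T)) := ⟨_, rfl⟩
    rw [← hy] at hx1
    have hyt : ∀ t : T, y * (t : Ω) * y⁻¹ = ((τ * γ * τ⁻¹) t : T) := by
      intro t
      obtain ⟨s, rfl⟩ := τ.surjective t
      rw [MulAut.mul_apply, MulAut.mul_apply, MulAut.inv_apply_self, hτt, hτt]
      have h1 : (⟨((γ s : T) : Ω), Subgroup.mem_sup_right (γ s).2⟩ : ↥(P ⊔ T)) =
          ⟨x, Subgroup.mem_sup_left x.2⟩ * ⟨s, Subgroup.mem_sup_right s.2⟩ * (⟨x, Subgroup.mem_sup_left x.2⟩ : ↥(P ⊔ T))⁻¹ := Subtype.ext (hγ s)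
      rw [h1, map_mul, map_mul, map_inv, hy]
      rfl
    have g1 : ∃ α ∈ K, ∀ t : T, ((α t : T) : Ω) = ((x : Ω)⁻¹ * y) * (t : Ω) * ((x : Ω)⁻¹ * y)⁻¹ := by
      refine ⟨(γ⁻¹ * τ * γ) * τ⁻¹, K.mul_mem (hcop _ ?_ ?_) (K.inv_mem (hcop τ hτa hτo)), fun t => ?_⟩
      · exact (F.autGroup T).mul_mem ((F.autGroup T).mul_mem ((F.autGroup T).inv_mem hγa) hτa) hγa
      · have h1 : γ⁻¹ * τ * γ = MulAut.conj γ⁻¹ τ := by rw [MulAut.conj_apply, inv_inv]
        rw [h1, MulEquiv.orderOf_eq]; exact hτo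
      · have h1 : γ⁻¹ * τ * γ * τ⁻¹ = γ⁻¹ * (τ * γ * τ⁻¹) := by group
        rw [h1, MulAut.mul_apply]
        have h2 := hγ (γ⁻¹ ((τ * γ * τ⁻¹) t))
        rw [MulAut.apply_inv_self, ← hyt] at h2
        have h3 : ((γ⁻¹ ((τ * γ * τ⁻¹) t) : T) : Ω) = (x : Ω)⁻¹ * (y * (t : Ω) * y⁻¹) * x := by
          rw [h2]; group
        rw [h3]; group
    have g2 := gmul _ _ g1 (ginv _ (hInn _ hx1))
    have h1 : (x : Ω)⁻¹ * y * (((α x : P) : Ω)⁻¹ * y)⁻¹ = (x : Ω)⁻¹ * (α x : P) := by group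
    rw [h1] at g2
    exact g2
  intro x hx
  have hx' : x ∈ Subgroup.closure {y : Ω | ∃ (P : Subgroup Ω) (α : F.autGroup P) (x : P), P ≤ S ∧
    α ∈ pResidual p (F.autGroup P) ∧ y = (x : Ω)⁻¹ * ((α : MulAut P) x : P)} := hx
  induction hx' using Subgroup.closure_induction with
  | mem z hz =>
    obtain ⟨P, α, x, hP, hα, rfl⟩ := hz
    have hα' : α ∈ Subgroup.closure {g : F.autGroup P | Nat.Coprime (orderOf g) p} := hα
    clear hx
    induction hα' using Subgroup.closure_induction generalizing x with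
    | mem β hβ =>
      refine main P hP β β.2 ?_ x
      rw [Subgroup.orderOf_coe]; exact hβ
    | one =>
      refine ⟨1, K.one_mem, fun t => ?_⟩
      have h1 : (((1 : F.autGroup P) : MulAut P) x : P) = x := rfl
      rw [h1, inv_mul_cancel]
      simp
    | mul a b ha hb iha ihb =>
      have h1 := iha (((b : MulAut P) x : P)) ha
      have h2 := ihb x hb
      have h3 := gmul _ _ h2 h1
      have h4 : ((a * b : F.autGroup P) : MulAut P) x = (a : MulAut P) ((b : MulAut P) x) := rfl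
      have h5 : (x : Ω)⁻¹ * (((b : MulAut P) x : P) : Ω) * ((((b : MulAut P) x : P) : Ω)⁻¹ * ((a : MulAut P) ((b : MulAut P) x) : P)) =
        (x : Ω)⁻¹ * ((a : MulAut P) ((b : MulAut P) x) : P) := by group
      rw [h5] at h3
      rw [h4]; exact h3
    | inv a ha iha =>
      obtain ⟨y, hy⟩ : ∃ y : P, y = ((a⁻¹ : F.autGroup P) : MulAut P) x := ⟨_, rfl⟩
      have hxy : x = (a : MulAut P) y := by
        rw [hy]
        exact ((a : MulAut P).apply_symm_apply x).symm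
      have h1 := ginv _ (iha y ha)
      rw [← hy]
      have h2 : ((y : Ω)⁻¹ * ((a : MulAut P) y : P))⁻¹ = (x : Ω)⁻¹ * (y : Ω) := by rw [← hxy]; group
      rw [h2] at h1
      exact h1
  | one => exact ⟨1, K.one_mem, fun t => by simp⟩
  | mul a b ha hb iha ihb => exact gmul _ _ (iha ha) (ihb hb)
  | inv a ha iha => exact ginv _ (iha ha)

end Cfsg.Agent.S5198
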