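import Cfsg.Statements.S5199
import Cfsg.Agent.Lib.PPIC

set_option autoImplicit false
open Cfsg
open Cfsg.FusionSystem Cfsg.Agent.Lib.FusBase Cfsg.Agent.Lib.FusSub Cfsg.Agent.Lib.FusInv Cfsg.Agent.Lib.PPIA Cfsg.Agent.Lib.PPIB Cfsg.Agent.Lib.PPIC

namespace Cfsg.Agent.S5199

/-- Let F be a saturated fusion system over a finite p-group S, E a normal subsystem of F over T, and F₀ a normal subsystem of F over a subgroup U containing both T and the hyperfocal subgroup of F, such that F₀ has p-power index in F. Then E is a subsystem of F₀. -/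
theorem result {Ω : Type*} [Group Ω] {S : Subgroup Ω} [Finite S] (p : ℕ) [Fact p.Prime] (hS : IsPGroup p S) (F : Cfsg.FusionSystem S) (hF : F.IsSaturated p) {T U : Subgroup Ω} (E : Cfsg.FusionSystem T) (hE : E.IsNormalIn F p) (F₀ : Cfsg.FusionSystem U) (hF₀ : F₀.IsNormalIn F p) (hU : T ⊔ F.hyperfocalSubgroup p ≤ U) (hidx : F₀.HasPPowerIndexIn F p) : E.IsSubsystemOf F₀ := by
  have hTS : T ≤ S := subsystem_le hE.1.2.2.1
  have hUS : U ≤ S := subsystem_le hF₀.1.2.2.1
  have hTU : T ≤ U := le_sup_left.trans hU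
  have hT : IsPGroup p T := isPGroup_le hS hTS
  have : Finite T := finite_of_le hTS
  have hsub : SubPred F₀ T (fun P f => P ≤ T ∧ (∀ x ∈ P, f x ∈ T) ∧ Mor F₀ P f) := {
    mor := fun h => h.2.2
    le := fun h => h.1
    mem := fun h hx => h.2.1 _ hx
    congr := fun h hfg => ⟨h.1, fun x hx => by rw [← hfg x hx]; exact h.2.1 x hx, h.2.2.congr hfg⟩
    conj := fun hP hs => ⟨hP, fun x hx => T.mul_mem (T.mul_mem hs (hP hx)) (T.inv_mem hs), mor_conj F₀ (hP.trans hTU) (hTU hs)⟩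
    comp := fun h1 h2 hfg => ⟨h1.1, fun x hx => h2.2.1 _ (hfg x hx), h1.2.2.comp h2.2.2 hfg⟩
    inv := fun {P Q f g} h1 h2 h3 h4 h5 => by
      refine ⟨?_, ?_, h3.mor⟩
      · intro y hy
        obtain ⟨x, hx, rfl⟩ := h2.mem_right.1 hy
        exact h1.2.1 x hx
      · intro y hy
        exact h1.1 (h3.map_mem hy) }
  have hle : E ≤ ofPred hsub.pred := by
    refine le_of_res hT hE.1.1 fun P hP => ?_
    have h1 := (res_mono (p := p) hTS (isSubsystemOf_iff.1 hE.1.2.2.1) hP).trans (hidx.2.2 P (hP.trans hTU))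
    refine h1.trans fun α hα => ?_
    rw [mem_autGroup (hP.trans hTU)] at hα
    rw [mem_autGroup hP, mor_ofPred]
    exact ⟨hP, fun x hx => hP (fn_mem' _ hx), hα⟩
  rw [isSubsystemOf_iff]
  intro P f hf
  have h1 := mor_mono hle hf
  rw [mor_ofPred] at h1
  exact h1.2.2

end Cfsg.Agent.S5199
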