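import Cfsg.Statements.S5220
import Cfsg.Agent.Lib.GlcG

set_option autoImplicit false
open Cfsg
open Cfsg.FusionSystem Cfsg.Agent.Lib.FusBase Cfsg.Agent.Lib.FusSat Cfsg.Agent.Lib.FusNK Cfsg.Agent.Lib.FusNKB Cfsg.Agent.Lib.FusInv Cfsg.Agent.Lib.ThC Cfsg.Agent.Lib.FusMor Cfsg.Agent.Lib.FusNormal

namespace Cfsg.Agent.S5220

theorem pc_mem {Ω : Type*} [Group Ω] {S P : Subgroup Ω} {F : Cfsg.FusionSystem S} {p : ℕ} {f : Ω → Ω} (hf : Mor F P f)
    (h : ∀ x ∈ S, (∀ s ∈ S, s * x = x * s) → x ^ p ∈ P ∧ f (x ^ p) = x ^ p) :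
    ∀ y ∈ Cfsg.powerClosure p 1 (S ⊓ Subgroup.centralizer (S : Set Ω)), y ∈ P ∧ f y = y := by
  intro y hy
  unfold Cfsg.powerClosure at hy
  induction hy using Subgroup.closure_induction with
  | mem y hy =>
    obtain ⟨x, hx, rfl⟩ := hy
    rw [pow_one]
    exact h x hx.1 fun s hs => Subgroup.mem_centralizer_iff.1 hx.2 s hs
  | one => exact ⟨P.one_mem, hf.one⟩
  | mul a b _ _ ha hb => exact ⟨P.mul_mem ha.1 hb.1, by rw [hf.mul ha.1 hb.1, ha.2, hb.2]⟩
  | inv a _ ha => exact ⟨P.inv_mem ha.1, by rw [hf.inv ha.1, ha.2]⟩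

/-- Let F be a saturated fusion system over a nontrivial finite p-group S, let J(S) be the subgroup generated by the abelian subgroups of S of largest order, and let V be the subgroup generated by the p-th powers of the elements of Z(S). Then F is generated by the centralizer fusion system of V and the normalizer fusion system of J(S): every fusion system over S containing the maps of both contains every map of F. -/
theorem result {Ω : Type*} [Group Ω] {S : Subgroup Ω} [Finite S] (p : ℕ) [Fact p.Prime] (hS : IsPGroup p S) (F : Cfsg.FusionSystem S) (hF : F.IsSaturated p) (hS1 : S ≠ ⊥) (C : Cfsg.FusionSystem (Cfsg.FusionSystem.centralizerIn S (Cfsg.powerClosure p 1 (S ⊓ Subgroup.centralizer (S : Set Ω))))) (hC : F.IsCentralizerSystem (Cfsg.powerClosure p 1 (S ⊓ Subgroup.centralizer (S : Set Ω))) C) (N : Cfsg.FusionSystem (Cfsg.FusionSystem.normalizerIn S (Cfsg.thompsonSubgroupAOf S))) (hN : F.IsNormalizerSystem (Cfsg.thompsonSubgroupAOf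 S) N) (E : Cfsg.FusionSystem S) (hCE : C.IsSubsystemOf E) (hNE : N.IsSubsystemOf E) : F.IsSubsystemOf E := by
  have hVZ : Cfsg.powerClosure p 1 (S ⊓ Subgroup.centralizer (S : Set Ω)) ≤ S ⊓ Subgroup.centralizer (S : Set Ω) := by
    unfold Cfsg.powerClosure
    rw [Subgroup.closure_le]
    rintro _ ⟨x, hx, rfl⟩
    exact Subgroup.pow_mem _ hx _
  have hcS : S ≤ centralizerIn S (Cfsg.powerClosure p 1 (S ⊓ Subgroup.centralizer (S : Set Ω))) := by
    intro s hs
    exact mem_centralizerIn.2 ⟨hs, fun x hx => Subgroup.mem_centralizer_iff.1 (hVZ hx).2 s hs |>.symm⟩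
  have hJS : Cfsg.thompsonSubgroupAOf S ≤ S := ja_le S
  have hnS : S ≤ normalizerIn S (Cfsg.thompsonSubgroupAOf S) := fun s hs =>
    mem_normalizerIn.2 ⟨hs, Cfsg.Agent.Lib.GlcD.normalizer_ja (Subgroup.le_normalizer hs)⟩
  have key := Cfsg.Agent.Lib.GlcG.main hS hF E ?_ ?_
  · exact fun P => key P
  · intro P f hf hfix
    have h1 := pc_mem hf hfix
    have hVP : Cfsg.powerClosure p 1 (S ⊓ Subgroup.centralizer (S : Set Ω)) ≤ P := fun y hy => (h1 y hy).1
    refine isSubsystemOf_iff.1 hCE P f ((cent_iff hC).2 ⟨hf.le.trans hcS, fun x hx => hcS (hf.mem hx), f, ?_, fun x hx => rfl, 1, Subgroup.mem_bot.2 rfl, fun x hx => ?_⟩)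
    · rw [sup_eq_left.2 hVP]; exact hf
    · rw [fn_one hx, (h1 x hx).2]
  · intro P f hf hJP hfJ
    exact isSubsystemOf_iff.1 hNE P f (Cfsg.Agent.Lib.LabC.norm_mor hN hJS hJP (hf.le.trans hnS) hf hfJ)

end Cfsg.Agent.S5220
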