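import Cfsg.Statements.S5221
import Cfsg.Agent.Lib.ThC

set_option autoImplicit false
open Cfsg
open Cfsg.FusionSystem Cfsg.Agent.Lib.FusBase Cfsg.Agent.Lib.FusNKB Cfsg.Agent.Lib.NilB Cfsg.Agent.Lib.FusInv Cfsg.Agent.Lib.ThC

namespace Cfsg.Agent.S5221

/-- Let F be a sparse fusion system over a finite p-group S: a saturated fusion system, not the inner fusion system of S, whose only saturated fusion systems over S contained in it are F itself and the inner one. If p is odd, or F is S₄-free (the symmetric group of degree 4 is not involved in any model of the normalizer system of a fully normalized F-centric subgroup), then F is constrained. -/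
theorem result {Ω : Type*} [Group Ω] {S : Subgroup Ω} [Finite S] (p : ℕ) [Fact p.Prime] (hS : IsPGroup p S) (F : Cfsg.FusionSystem S) (hF : F.IsSaturated p) (hsp : ¬ (∀ P : Subgroup Ω, F.Hom P = (Cfsg.innerFusionSystem S).Hom P) ∧ ∀ E : Cfsg.FusionSystem S, E.IsSaturated p → E.IsSubsystemOf F → (∀ P : Subgroup Ω, E.Hom P = F.Hom P) ∨ (∀ P : Subgroup Ω, E.Hom P = (Cfsg.innerFusionSystem S).Hom P)) (hp : p ≠ 2 ∨ F.IsSectionFree p (Equiv.Perm (Fin 4))) : F.IsConstrained p := by
  obtain ⟨h1, h2⟩ := hsp
  have hne : ∃ X, NotP F p X := by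
    by_contra hcon
    push Not at hcon
    apply h1
    intro P
    refine inner_of_isPGroup hS hF (fun X hX => ?_) P
    by_contra h3
    exact hcon X ⟨hX, h3⟩
  obtain ⟨E, hEF, hEs, hEc, X, hX⟩ := exists_constrained hS hF hp hne
  rcases h2 E hEs (isSubsystemOf_iff.2 hEF) with h | h
  · have : E = F := le_antisymm' (fun P φ hφ => by rw [← h]; exact hφ) (fun P φ hφ => by rw [h]; exact hφ)
    rwa [this] at hEc
  · exact absurd (isPGroup_of_inner hS h hX.1) hX.2

end Cfsg.Agent.S5221
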