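import Cfsg.Statements.S5222
import Cfsg.Agent.Lib.ThfA

set_option autoImplicit false
open Cfsg
open Cfsg.FusionSystem Cfsg.Agent.Lib.FusBase Cfsg.Agent.Lib.FusSat Cfsg.Agent.Lib.FusAlperin Cfsg.Agent.Lib.FusNormal Cfsg.Agent.Lib.FusNormalB Cfsg.Agent.Lib.FusSub Cfsg.Agent.Lib.NilB Cfsg.Agent.Lib.QfD Cfsg.Agent.Lib.QfA Cfsg.Agent.Lib.ThfA Cfsg.Agent.Lib.FusNK Cfsg.Agent.Lib.FusNKB Cfsg.Agent.Lib.FusInv Cfsg.Agent.Lib.FusInvB

namespace Cfsg.Agent.S5222

/-- Let F be a saturated fusion system over a finite p-group S whose normalizer fusion system of S is the inner fusion system of S (Aut_F(S) is a p-group). Then for every subgroup Q of S with [S, S] ≤ Q ≤ Φ(S), the normalizer fusion system of Q in F is the inner fusion system of N_S(Q) = S. -/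
theorem result {Ω : Type*} [Group Ω] {S : Subgroup Ω} [Finite S] (p : ℕ) [Fact p.Prime] (hS : IsPGroup p S) (F : Cfsg.FusionSystem S) (hF : F.IsSaturated p) (hN : ∀ N : Cfsg.FusionSystem (Cfsg.FusionSystem.normalizerIn S S), F.IsNormalizerSystem S N → ∀ P : Subgroup Ω, N.Hom P = (Cfsg.innerFusionSystem (Cfsg.FusionSystem.normalizerIn S S)).Hom P) (Q : Subgroup Ω) (h1 : (commutator ↥S).map S.subtype ≤ Q) (h2 : Q ≤ (frattini ↥S).map S.subtype) : ∀ N : Cfsg.FusionSystem (Cfsg.FusionSystem.normalizerIn S Q), F.IsNormalizerSystem Q N → ∀ P : Subgroup Ω, N.Hom P = (Cfsg.innerFusionSystem (Cfsg.FusionSystem.normalizerIn S Q)).Hom P := by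
  intro N hNQ P
  have hQS : Q ≤ S := h2.trans (Subgroup.map_subtype_le _)
  haveI : Finite (normalizerIn S Q) := finite_of_le normalizerIn_le
  have hT : normalizerIn S Q = S := by
    refine norm_eq fun s hs => ?_
    haveI : Finite Q := finite_of_le hQS
    refine mem_normalizer_of_conj_mem fun x hx => ?_
    have h3 : s * x * s⁻¹ * x⁻¹ ∈ Q := h1 ⟨(⟨s, hs⟩ : S) * ⟨x, hQS hx⟩ * (⟨s, hs⟩ : S)⁻¹ * (⟨x, hQS hx⟩ : S)⁻¹,
      Subgroup.commutator_mem_commutator (Subgroup.mem_top _) (Subgroup.mem_top _), rfl⟩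
    have h4 := Q.mul_mem h3 hx
    rwa [inv_mul_cancel_right] at h4
  have hFN : F.IsFullyNormalized Q := FN_of_norm hQS (by rw [← hT]; exact inf_le_right)
  have hAS : IsPGroup p (F.autGroup S) := by
    haveI : Finite (normalizerIn S S) := finite_of_le normalizerIn_le
    obtain ⟨N₀, hN₀⟩ := exists_norm F (le_refl S)
    have h3 := isPGroup_of_inner (isPGroup_le hS normalizerIn_le) (hN N₀ hN₀) (le_normalizerIn (le_refl S))
    refine h3.to_le fun α hα => ?_
    rw [mem_autGroup (le_normalizerIn (le_refl S))]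
    have h4 := (mem_autGroup (le_refl S)).1 hα
    exact mor_norm_of hN₀ h4 le_rfl (le_normalizerIn (le_refl S)) (fun x hx => le_normalizerIn (le_refl S) (fn_mem' _ hx)) (fun x hx => fn_mem' _ hx)
  have hsat := norm_saturated hS hF hFN hNQ
  have hAT : IsPGroup p (N.autGroup (normalizerIn S Q)) := by
    have h3 : IsPGroup p (F.autGroup (normalizerIn S Q)) := by rw [hT]; exact hAS
    refine h3.to_le fun α hα => ?_
    rw [mem_autGroup normalizerIn_le]
    exact norm_le hNQ ((mem_autGroup le_rfl).1 hα)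
  refine main_step (isPGroup_le hS normalizerIn_le) hsat hAT (norm_isNormal hQS hNQ) ?_ ?_ P
  · rw [hT]; exact h1
  · rw [hT]; exact h2

end Cfsg.Agent.S5222
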