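import Cfsg.Statements.S5223
import Cfsg.Agent.Lib.FusNormalB

set_option autoImplicit false
open Cfsg
open Cfsg.Agent.Lib.FusBase Cfsg.Agent.Lib.FusSat Cfsg.Agent.Lib.FusAlperin Cfsg.Agent.Lib.FusNormal Cfsg.Agent.Lib.FusNormalB Cfsg.FusionSystem

namespace Cfsg.Agent.S5223

/-- Let F be a saturated fusion system over a finite p-group S. Suppose there are subgroups Q₀ = S, Q₁, …, Qₙ = 1 (not required to be nested) such that for each i < n the focal subgroup of Qᵢ (generated by the elements x⁻¹φ(x), x ∈ Qᵢ, φ a map of F defined on the cyclic group generated by x) lies in Qᵢ₊₁. Then F is the inner fusion system of S. -/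
theorem result {Ω : Type*} [Group Ω] {S : Subgroup Ω} [Finite S] (p : ℕ) [Fact p.Prime] (hS : IsPGroup p S) (F : Cfsg.FusionSystem S) (hF : F.IsSaturated p) (n : ℕ) (Q : Fin (n + 1) → Subgroup Ω) (hQ0 : Q 0 = S) (hQn : Q (Fin.last n) = ⊥) (hstep : ∀ i : Fin n, Subgroup.closure {y : Ω | ∃ x ∈ Q i.castSucc, ∃ φ ∈ F.Hom (Subgroup.zpowers x), y = x⁻¹ * φ ⟨x, Subgroup.mem_zpowers x⟩} ≤ Q i.succ) : ∀ P : Subgroup Ω, F.Hom P = (Cfsg.innerFusionSystem S).Hom P := by
  -- the descending series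
  let C : ℕ → Subgroup Ω := fun i => Nat.rec S (fun _ D => Subgroup.closure {y : Ω | ∃ x ∈ D, ∃ φ ∈ F.Hom (Subgroup.zpowers x), y = x⁻¹ * φ ⟨x, Subgroup.mem_zpowers x⟩}) i
  have hC : ∀ i, C (i + 1) = Subgroup.closure {y : Ω | ∃ x ∈ C i, ∃ φ ∈ F.Hom (Subgroup.zpowers x), y = x⁻¹ * φ ⟨x, Subgroup.mem_zpowers x⟩} := fun i => rfl
  have hC0 : C 0 = S := rfl
  have hCn : ∀ i (hi : i < n + 1), C i ≤ Q ⟨i, hi⟩ := by
    intro i
    induction i with
    | zero =>
      intro hi
      rw [hC0, ← hQ0]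
      exact le_of_eq rfl
    | succ i ih =>
      intro hi
      have h1 := hstep ⟨i, by omega⟩
      refine le_trans ?_ h1
      rw [hC i]
      refine Subgroup.closure_mono ?_
      rintro y ⟨x, hx, φ, hφ, h⟩
      exact ⟨x, ih (by omega) hx, φ, hφ, h⟩
  have hCbot : C n = ⊥ := by
    rw [eq_bot_iff, ← hQn]
    exact hCn n (by omega)
  have hmem : ∀ i P f, Mor F P f → ∀ x ∈ P, x ∈ C i → x⁻¹ * f x ∈ C (i + 1) := by
    intro i P f hf x hx hxC
    rw [hC i]
    have h1 : Mor F (Subgroup.zpowers x) f := hf.restrict (by rw [Subgroup.zpowers_le]; exact hx)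
    obtain ⟨φ, hφ, h2⟩ := h1
    exact Subgroup.subset_closure ⟨x, hxC, φ, hφ, by rw [h2]⟩
  have h : ∀ P : Subgroup Ω, P ≤ S → IsPGroup p (F.autGroup P) := by
    intro P hP
    have hPf : Finite P := finite_of_le hP
    refine isPGroup_of_stab (hS.to_le hP) (fun i => C (n - i)) (by simpa using hCbot) n (by simpa [hC0] using hP) ?_
    intro α hα i hi x hx
    have h1 := hmem (n - (i + 1)) P _ (iso_fn hP hα).mor x x.2 hx
    rw [fn_apply] at h1
    have e : n - (i + 1) + 1 = n - i := by omega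
    rwa [e] at h1
  have hFe : F = Cfsg.innerFusionSystem S := by
    apply le_antisymm'
    · refine alperin_le hS hF fun P hP => ?_
      rcases hP with rfl | hP
      · rw [autGroup_eq_of_isPGroup (FN_FA hS hF (S_FN F)) (h _ le_rfl)]
        exact autInducedBy_le le_rfl
      · exact absurd hP (not_essential_of_isPGroup (h P hP.1.1))
    · rintro P φ ⟨hP, g, hg, h'⟩
      exact hom_of_mor (mor_conj F hP hg) h'
  intro P
  rw [hFe]

end Cfsg.Agent.S5223
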