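import Cfsg.Statements.S5224
import Cfsg.Agent.Lib.BisF

set_option autoImplicit false
open Cfsg
open Cfsg.FusionSystem Cfsg.Agent.Lib.FusBase Cfsg.Agent.Lib.FusNormal Cfsg.Agent.Lib.FusHyp Cfsg.Agent.Lib.FusHypB Cfsg.Agent.Lib.FusInv Cfsg.Agent.Lib.BisF

namespace Cfsg.Agent.S5224

/-- Tate's Theorem for fusion systems. Let F be a saturated fusion system over a finite p-group S and H a saturated fusion system over S contained in F. Then the following are equivalent: the elementary focal subgroups Φ(S)·foc agree for F and H; the focal subgroups of F and H agree; the hyperfocal subgroups of F and H agree. -/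
theorem result {Ω : Type*} [Group Ω] {S : Subgroup Ω} [Finite S] (p : ℕ) [Fact p.Prime] (hS : IsPGroup p S) (F : Cfsg.FusionSystem S) (hF : F.IsSaturated p) (H : Cfsg.FusionSystem S) (hH : H.IsSaturated p) (hHF : H.IsSubsystemOf F) : (((frattini ↥S).map S.subtype ⊔ F.focalSubgroup) = ((frattini ↥S).map S.subtype ⊔ H.focalSubgroup) ↔ F.focalSubgroup = H.focalSubgroup) ∧ (F.focalSubgroup = H.focalSubgroup ↔ F.hyperfocalSubgroup p = H.hyperfocalSubgroup p) := by
  have hmono : H.hyperfocalSubgroup p ≤ F.hyperfocalSubgroup p := hyp_mono le_rfl (isSubsystemOf_iff.1 hHF)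
  have hcomm : ⁅(S : Subgroup Ω), (S : Subgroup Ω)⁆ ≤ (frattini ↥S).map S.subtype := by
    have h4 : (commutator ↥S).map S.subtype = ⁅S, S⁆ := by
      rw [commutator_def, Subgroup.map_commutator, ← MonoidHom.range_eq_map, Subgroup.range_subtype]
    rw [← h4]
    exact Subgroup.map_mono (Cfsg.Agent.Lib.Nilp.commutator_le_frattini hS)
  have key : ((frattini ↥S).map S.subtype ⊔ F.focalSubgroup) = ((frattini ↥S).map S.subtype ⊔ H.focalSubgroup) →
      F.hyperfocalSubgroup p = H.hyperfocalSubgroup p := by
    intro h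
    refine le_antisymm (hyp_le_of_frattini hS hF hmono (fun s hs x hx => hyp_conj hs hx) ?_) hmono
    have h1 : F.hyperfocalSubgroup p ≤ (frattini ↥S).map S.subtype ⊔ F.focalSubgroup := by
      rw [foc_eq hS hF]
      exact le_sup_left.trans le_sup_right
    refine h1.trans ?_
    rw [h, foc_eq hS hH]
    exact sup_le le_sup_right (sup_le le_sup_left (hcomm.trans le_sup_right))
  have hfoc : F.hyperfocalSubgroup p = H.hyperfocalSubgroup p → F.focalSubgroup = H.focalSubgroup := by
    intro h
    rw [foc_eq hS hF, foc_eq hS hH, h]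
  refine ⟨⟨fun h => hfoc (key h), fun h => by rw [h]⟩, ⟨fun h => key (by rw [h]), hfoc⟩⟩

end Cfsg.Agent.S5224
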