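import Cfsg.Statements.S5225
import Cfsg.Agent.Lib.YoshC

set_option autoImplicit false
open Cfsg
open Cfsg.FusionSystem Cfsg.Agent.Lib.FusBase Cfsg.Agent.Lib.FusSat Cfsg.Agent.Lib.FusNKB Cfsg.Agent.Lib.LabC Cfsg.Agent.Lib.YoshC

namespace Cfsg.Agent.S5225

/-- Yoshida's Theorem for fusion systems. Let F be a saturated fusion system over a finite p-group S and N the normalizer fusion system of S in F. If the focal subgroups of F and N differ (N does not control transfer in F), then S has a quotient isomorphic to the wreath product C_p ≀ C_p (realised as a Sylow p-subgroup of the symmetric group of degree p²). -/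
theorem result {Ω : Type*} [Group Ω] {S : Subgroup Ω} [Finite S] (p : ℕ) [Fact p.Prime] (hS : IsPGroup p S) (F : Cfsg.FusionSystem S) (hF : F.IsSaturated p) (N : Cfsg.FusionSystem (Cfsg.FusionSystem.normalizerIn S S)) (hN : F.IsNormalizerSystem S N) (hne : N.focalSubgroup ≠ F.focalSubgroup) : ∃ (W : Sylow p (Equiv.Perm (Fin (p ^ 2)))) (f : ↥S →* ↥(W : Subgroup (Equiv.Perm (Fin (p ^ 2))))), Function.Surjective f := by
  exact yoshida hS hF (le_antisymm normalizerIn_le (le_normalizerIn le_rfl)) (norm_saturated hS hF (S_FN F) hN) (fun P f hf => norm_F hN hf)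
    (fun φ hφ => norm_mor hN le_rfl le_rfl (le_normalizerIn le_rfl) hφ (fun x hx => hφ.mem hx)) hne

end Cfsg.Agent.S5225
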