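import Cfsg.Statements.S5226
import Cfsg.Agent.Lib.FusInvB

set_option autoImplicit false
open Cfsg
open Cfsg.Agent.Lib.FusInvB Cfsg.Agent.Lib.FusBase Cfsg.Agent.Lib.FusNormal Cfsg.Agent.Lib.FusNormalB Cfsg.FusionSystem

namespace Cfsg.Agent.S5226

/-- Let F be a saturated fusion system over a finite p-group S and Q a subgroup of S. Then Q is normal in F (F equals the normalizer system of Q) if and only if Q is strongly closed in F and admits a central series 1 = Q₀ ≤ Q₁ ≤ ⋯ ≤ Qₙ = Q ([Qᵢ₊₁, Q] ≤ Qᵢ) all of whose proper terms are weakly closed in F. -/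
theorem result {Ω : Type*} [Group Ω] {S : Subgroup Ω} [Finite S] (p : ℕ) [Fact p.Prime] (hS : IsPGroup p S) (F : Cfsg.FusionSystem S) (hF : F.IsSaturated p) (Q : Subgroup Ω) : F.IsNormal Q ↔ F.StronglyClosed Q ∧ ∃ (n : ℕ) (C : Fin (n + 1) → Subgroup Ω), C 0 = ⊥ ∧ C (Fin.last n) = Q ∧ Monotone C ∧ (∀ i : Fin n, ⁅C i.succ, Q⁆ ≤ C i.castSucc) ∧ ∀ i : Fin n, F.WeaklyClosed (C i.castSucc) := by
  constructor
  · intro h
    obtain ⟨n, Rs, h0, hn, hm, hnorm, hle, hc⟩ := exists_chain_of_normal hS h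
    refine ⟨normal_stronglyClosed h, n, fun i => Rs i, h0, hn, fun i j hij => hm hij, fun i => ?_, fun i => ?_⟩
    · rw [Subgroup.commutator_comm]
      exact hc i
    · have hsc := normal_stronglyClosed (hnorm i)
      rw [weaklyClosed_iff]
      refine ⟨hsc.1, fun f hf => ?_⟩
      exact img_eq_of_stronglyClosed hsc hf le_rfl
  · rintro ⟨hQ, n, C, h0, hn, hm, hc, hw⟩
    refine normal_of_weakly_chain hS hF hQ n (fun i => C ⟨min i n, by omega⟩) ?_ ?_ ?_ ?_ ?_
    · have : (⟨min 0 n, by omega⟩ : Fin (n + 1)) = 0 := by ext; simp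
      rw [this, h0]
    · have : (⟨min n n, by omega⟩ : Fin (n + 1)) = Fin.last n := by ext; simp
      rw [this, hn]
    · intro i j hij
      exact hm (by
        show min i n ≤ min j n
        omega)
    · intro i hi x hx y hy
      have h1 := hc ⟨i, hi⟩
      have e1 : (⟨min (i + 1) n, by omega⟩ : Fin (n + 1)) = (⟨i, hi⟩ : Fin n).succ := by ext; simp; omega
      have e2 : (⟨min i n, by omega⟩ : Fin (n + 1)) = (⟨i, hi⟩ : Fin n).castSucc := by ext; simp; omega
      rw [e1] at hx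
      rw [e2]
      exact h1 (Subgroup.commutator_mem_commutator hx hy)
    · intro i hi
      have e2 : (⟨min i n, by omega⟩ : Fin (n + 1)) = (⟨i, hi⟩ : Fin n).castSucc := by ext; simp; omega
      rw [e2]; exact hw _

end Cfsg.Agent.S5226
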