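import Cfsg.Statements.S5233
import Cfsg.Agent.Lib.OmgD
import Cfsg.Agent.Lib.OmgE

set_option autoImplicit false
open Cfsg
open Cfsg.FusionSystem Cfsg.Agent.Lib.FusBase Cfsg.Agent.Lib.FusSat Cfsg.Agent.Lib.FusNormal Cfsg.Agent.Lib.FusNormalB Cfsg.Agent.Lib.OmgA Cfsg.Agent.Lib.OmgB Cfsg.Agent.Lib.OmgC Cfsg.Agent.Lib.OmgD Cfsg.Agent.Lib.OmgE Cfsg.Agent.Lib

namespace Cfsg.Agent.S5233

open scoped commutatorElement in
theorem com_of_card {Ω : Type*} [Group Ω] {P D : Subgroup Ω} {p : ℕ} [Fact p.Prime] [Finite P]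
    (hc : Nat.card (commutator P) = p) (hD : D = (commutator P).map P.subtype) {w : Ω} (hw : w ∈ D) (hw1 : w ≠ 1) {g : P} (hg : g ∈ commutator P) :
    ∃ i : ℤ, w ^ i = (g : Ω) := by
  have h1 : Subgroup.zpowers w ≤ D := by rw [Subgroup.zpowers_le]; exact hw
  have hDc : Nat.card D = p := by rw [hD, Subgroup.card_map_of_injective P.subtype_injective, hc]
  haveI : Finite D := Nat.finite_of_card_ne_zero (by rw [hDc]; exact (Fact.out : p.Prime).ne_zero)
  have h2 : Nat.card (Subgroup.zpowers w) ∣ p := by rw [← hDc]; exact Subgroup.card_dvd_of_le h1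
  have h3 : Nat.card (Subgroup.zpowers w) ≠ 1 := by
    rw [Nat.card_zpowers, Ne, orderOf_eq_one_iff]; exact hw1
  have h4 : Nat.card (Subgroup.zpowers w) = p := ((Nat.dvd_prime Fact.out).1 h2).resolve_left h3
  have h5 : Subgroup.zpowers w = D := Subgroup.eq_of_le_of_card_ge h1 (by rw [h4, hDc])
  have h6 : (g : Ω) ∈ Subgroup.zpowers w := by rw [h5, hD]; exact ⟨g, hg, rfl⟩
  exact h6

/-- Let F be a saturated fusion system over a finite p-group S and P a subgroup of S strongly closed in F that is generalized extraspecial (its Frattini subgroup equals its commutator subgroup and has order p) and not isomorphic to E × A with A elementary abelian and E dihedral of order 8 (p = 2) or extraspecial of order p³ and exponent p (p odd). Then P is normal in F. -/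
theorem result {Ω : Type*} [Group Ω] {S : Subgroup Ω} [Finite S] (p : ℕ) [Fact p.Prime] (hS : IsPGroup p S) (F : Cfsg.FusionSystem S) (hF : F.IsSaturated p) (P : Subgroup Ω) (hP : F.StronglyClosed P) (hge : frattini ↥P = commutator ↥P ∧ Nat.card ↥(commutator ↥P) = p) (h2 : p = 2 → ¬ ∃ (A : Type) (_ : CommGroup A), (∀ a : A, a ^ 2 = 1) ∧ Nonempty (↥P ≃* DihedralGroup 4 × A)) (hodd : p ≠ 2 → ¬ ∃ (E : Type) (_ : Group E) (A : Type) (_ : CommGroup A), Cfsg.IsExtraspecial p E ∧ Nat.card E = p ^ 3 ∧ Monoid.exponent E = p ∧ (∀ a : A, a ^ p = 1) ∧ Nonempty (↥P ≃* E × A)) : F.IsNormal P := by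
  haveI hfP : Finite P := finite_of_le hP.1
  have hPp : IsPGroup p P := hS.to_le hP.1
  obtain ⟨hfr, hcc⟩ := hge
  obtain ⟨D, hD⟩ : ∃ D : Subgroup Ω, D = (commutator P).map P.subtype := ⟨_, rfl⟩
  have hDP : D ≤ P := by rw [hD]; exact Subgroup.map_subtype_le _
  have hDc : Nat.card D = p := by rw [hD, Subgroup.card_map_of_injective P.subtype_injective, hcc]
  have hcom0 : ∀ u v : P, u * v * u⁻¹ * v⁻¹ ∈ commutator P := by
    intro u v
    rw [← commutatorElement_def, commutator_def]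
    exact Subgroup.commutator_mem_commutator (Subgroup.mem_top _) (Subgroup.mem_top _)
  have hcomm : ∀ u ∈ P, ∀ v ∈ P, u * v * u⁻¹ * v⁻¹ ∈ D := by
    intro u hu v hv
    rw [hD]
    exact ⟨_, hcom0 ⟨u, hu⟩ ⟨v, hv⟩, rfl⟩
  have hpow : ∀ u ∈ P, u ^ p ∈ D := by
    intro u hu
    rw [hD]
    refine ⟨(⟨u, hu⟩ : P) ^ p, ?_, rfl⟩
    rw [← hfr]
    exact Nilp.pow_mem_frattini hPp _
  have hnab : ∃ u ∈ P, ∃ v ∈ P, u * v ≠ v * u := by
    by_contra hcon
    push Not at hcon
    have h1 : commutator P = ⊥ := by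
      rw [commutator_def, Subgroup.commutator_eq_bot_iff_le_centralizer]
      intro x _
      rw [Subgroup.mem_centralizer_iff]
      exact fun y _ => Subtype.ext (hcon y y.2 x x.2)
    rw [h1, Subgroup.card_bot] at hcc
    exact (Fact.out : p.Prime).one_lt.ne hcc
  have hnorm : ∀ s ∈ S, ∀ x ∈ D, s * x * s⁻¹ ∈ D := by
    intro s hs x hx
    have hcl : D = Subgroup.closure {w | ∃ u ∈ P, ∃ v ∈ P, u * v * u⁻¹ * v⁻¹ = w} := by
      rw [hD, commutator_def, Subgroup.map_commutator, Subgroup.commutator_def]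
      congr 1
      ext w
      constructor
      · rintro ⟨u, ⟨u', _, rfl⟩, v, ⟨v', _, rfl⟩, rfl⟩
        exact ⟨u', u'.2, v', v'.2, by rw [commutatorElement_def]; rfl⟩
      · rintro ⟨u, hu, v, hv, rfl⟩
        exact ⟨u, ⟨⟨u, hu⟩, Subgroup.mem_top _, rfl⟩, v, ⟨⟨v, hv⟩, Subgroup.mem_top _, rfl⟩, by rw [commutatorElement_def]⟩
    have h1 : D ≤ D.comap (MulAut.conj s).toMonoidHom := by
      conv_lhs => rw [hcl]
      rw [Subgroup.closure_le]
      rintro _ ⟨u, hu, v, hv, rfl⟩
      show s * (u * v * u⁻¹ * v⁻¹) * s⁻¹ ∈ D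
      have h2 := hcomm _ (StronglyClosed_conj hP hs hu) _ (StronglyClosed_conj hP hs hv)
      convert h2 using 1
      group
    exact h1 hx
  have hGE : GE F p P D := ⟨hP, hDP, hDc, hcomm, hpow, hnab, hnorm⟩
  by_cases hDsc : F.StronglyClosed D
  · refine normal_of_chain hS hF (fun i => if i = 0 then ⊥ else if i = 1 then D else P) 2 (by simp) (by simp) ?_ ?_
    · intro i hi
      by_cases h : i = 0
      · simp only [h, if_true]; exact stronglyClosed_bot F
      · by_cases h1 : i = 1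
        · simp only [h1, one_ne_zero, if_true, if_false]; exact hDsc
        · simp only [h, h1, if_false]; exact hP
    · intro i hi b hb x hx
      have hi0 : i = 0 ∨ i = 1 := by omega
      rcases hi0 with rfl | rfl
      · simp only [zero_add, one_ne_zero, if_true, if_false] at hx
        simp only [if_true, Subgroup.mem_bot]
        have := hGE.cen hS b (hP.1 hb) x hx
        rw [this]; group
      · simp only [Nat.reduceAdd, OfNat.ofNat_ne_zero, if_false, OfNat.ofNat_ne_one] at hx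
        simp only [one_ne_zero, if_true, if_false]
        have := hcomm x⁻¹ (inv_mem hx) b hb
        convert this using 1
        group
  · exfalso
    obtain ⟨A, f, hf, a, haA, haD, hfa⟩ : ∃ (A : Subgroup Ω) (f : Ω → Ω), Mor F A f ∧ ∃ a ∈ A, a ∈ D ∧ f a ∉ D := by
      by_contra hcon
      push Not at hcon
      exact hDsc (stronglyClosed_iff.2 ⟨hDP.trans hP.1, fun A f hf x hx hxD => hcon A f hf x hx hxD⟩)
    obtain ⟨g, hg, hga, ⟨y, hyP, hyx⟩, hcp, hcab⟩ := GE.cent hS hF hGE hf haA haD hfa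
    obtain ⟨x, hx⟩ : ∃ x, x = f a := ⟨_, rfl⟩
    rw [← hx] at hyx hcp hcab
    have hxP : x ∈ P := by rw [hx]; exact StronglyClosed_mem hP hf haA (hDP haD)
    -- general construction
    have hHy : ∀ y : P, (y : Ω) * x ≠ x * y → (y : Ω) ^ p = 1 → Hy p (y * ⟨x, hxP⟩ * y⁻¹ * (⟨x, hxP⟩ : P)⁻¹ : P) ⟨x, hxP⟩ y := by
      intro y hyx hyp
      obtain ⟨w, hw⟩ : ∃ w : P, w = y * ⟨x, hxP⟩ * y⁻¹ * (⟨x, hxP⟩ : P)⁻¹ := ⟨_, rfl⟩
      rw [← hw]
      have hwv : (w : Ω) = y * x * (y : Ω)⁻¹ * x⁻¹ := by rw [hw]; rfl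
      have hwD : (w : Ω) ∈ D := by rw [hwv]; exact hcomm y y.2 x hxP
      have hw1 : (w : Ω) ≠ 1 := by
        rw [hwv]
        intro h1
        apply hyx
        have h2 : (y : Ω) * x = 1 * x * y := by rw [← h1]; group
        rw [h2]; group
      have hgen : ∀ g ∈ commutator P, g ∈ Subgroup.zpowers w := by
        intro g hg
        obtain ⟨i, hi⟩ := com_of_card hcc hD hwD hw1 hg
        exact ⟨i, Subtype.ext hi⟩
      refine ⟨?_, fun g h => ?_, fun g => Subtype.ext (hGE.cen hS g (hP.1 g.2) w hwD), ?_, Subtype.ext hyp, fun v hv => Subtype.ext (hcp v v.2 (congrArg Subtype.val hv)), fun v w hv hw => Subtype.ext (hcab v v.2 w w.2 (congrArg Subtype.val hv) (congrArg Subtype.val hw))⟩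
      · apply orderOf_eq_prime
        · exact Subtype.ext (hGE.powD hwD)
        · intro h1; apply hw1; rw [h1]; rfl
      · rw [commutatorElement_def]; exact hgen _ (hcom0 g h)
      · rw [commutatorElement_def, hw]
    have hx1 : x ^ p = 1 := hcp x hxP rfl
    by_cases hp2 : p = 2
    · subst hp2
      by_cases hy2 : y ^ 2 = 1
      · exact h2 rfl (two_iso (hHy ⟨y, hyP⟩ hyx hy2))
      · have hzD := hcomm y hyP x hxP
        have hz1 : y * x * y⁻¹ * x⁻¹ ≠ 1 := by
          intro h1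
          apply hyx
          have h2 : y * x = 1 * x * y := by rw [← h1]; group
          rw [h2]; group
        have hyD := hpow y hyP
        have hzy : y ^ 2 = y * x * y⁻¹ * x⁻¹ := by
          obtain ⟨i, hi⟩ := hGE.gen hyD hy2 hzD
          have hi' : (y ^ 2) ^ i = y * x * y⁻¹ * x⁻¹ := hi
          have h3 : (y ^ 2) ^ (2 : ℕ) = 1 := hGE.powD hyD
          rcases Int.even_or_odd i with ⟨k, hk⟩ | ⟨k, hk⟩
          · exfalso
            apply hz1
            rw [← hi', hk, ← two_mul, zpow_mul, zpow_ofNat, h3, one_zpow]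
          · rw [← hi', hk, zpow_add, zpow_mul, zpow_ofNat, h3, one_zpow, one_mul, zpow_one]
        have hcy : x * y ^ 2 = y ^ 2 * x := hGE.cen hS x (hP.1 hxP) _ hyD
        have hxi : x⁻¹ = x := by rw [inv_eq_iff_mul_eq_one, ← sq, hx1]
        have h4 : (y * x) ^ 2 = 1 := by
          have h5 : (y * x) ^ 2 = (y * x * y⁻¹ * x⁻¹) * (x * y ^ 2 * x) := by rw [sq, sq]; group
          rw [h5, hcy, ← hzy]
          have h6 : y ^ 2 * (y ^ 2 * x * x) = (y ^ 2) ^ 2 * x ^ 2 := by rw [sq x, sq (y ^ 2)]; group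
          rw [h6, hx1, hGE.powD hyD, one_mul]
        have h5 : y * x * x ≠ x * (y * x) := by
          intro h6
          apply hyx
          rw [← mul_assoc] at h6
          exact mul_right_cancel h6
        exact h2 rfl (two_iso (hHy ⟨y * x, mul_mem hyP hxP⟩ h5 h4))
    · have hexp := GE.exponent hS hF hp2 hGE hf haA haD hfa
      exact hodd hp2 (odd_iso (hHy ⟨y, hyP⟩ hyx (hexp y hyP)) fun g => Subtype.ext (hexp g g.2))

end Cfsg.Agent.S5233
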