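import Cfsg.Statements.S5234
import Cfsg.Agent.Lib.OmgC
import Cfsg.Agent.S0638

set_option autoImplicit false
open Cfsg
open Cfsg.FusionSystem Cfsg.Agent.Lib.FusBase Cfsg.Agent.Lib.FusSat Cfsg.Agent.Lib.FusNormal Cfsg.Agent.Lib.FusNormalB Cfsg.Agent.Lib.OmgA Cfsg.Agent.Lib.OmgB Cfsg.Agent.Lib.OmgC

namespace Cfsg.Agent.S5234

/-- Let p be an odd prime, F a saturated fusion system over a finite p-group S and P a metacyclic subgroup of S strongly closed in F. Then P is normal in F. -/
theorem result {Ω : Type*} [Group Ω] {S : Subgroup Ω} [Finite S] (p : ℕ) [Fact p.Prime] (hS : IsPGroup p S) (F : Cfsg.FusionSystem S) (hF : F.IsSaturated p) (P : Subgroup Ω) (hP : F.StronglyClosed P) (hp : p ≠ 2) (hm : Cfsg.IsMetacyclic ↥P) : F.IsNormal P := by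
  haveI hfP : Finite P := finite_of_le hP.1
  have hPp : IsPGroup p P := hS.to_le hP.1
  by_cases hc : IsCyclic P
  · refine normal_of_abelian hS hF hP fun x hx y hy => ?_
    have h1 : (⟨x, hx⟩ : P) * ⟨y, hy⟩ = ⟨y, hy⟩ * ⟨x, hx⟩ := by
      letI := hc.commGroup
      exact mul_comm _ _
    exact congrArg Subtype.val h1
  obtain ⟨⟨hab, hexp⟩, hcard⟩ := Cfsg.Agent.S0638.result hp hPp hm hc
  obtain ⟨V, hVd⟩ : ∃ V : Subgroup Ω, V = (Cfsg.omegaOne p (⊤ : Subgroup P)).map P.subtype := ⟨_, rfl⟩
  have hVP : V ≤ P := by rw [hVd]; exact Subgroup.map_subtype_le _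
  have hV : ∀ v ∈ P, v ^ p = 1 → v ∈ V := by
    intro v hv hvp
    rw [hVd]
    exact ⟨⟨v, hv⟩, Subgroup.subset_closure ⟨Subgroup.mem_top _, Subtype.ext hvp⟩, rfl⟩
  have hVp : ∀ v ∈ V, v ^ p = 1 := by
    intro v hv
    rw [hVd] at hv
    obtain ⟨w, hw, rfl⟩ := hv
    exact congrArg Subtype.val (hexp w hw)
  have hVab : ∀ x ∈ V, ∀ y ∈ V, x * y = y * x := by
    intro x hx y hy
    rw [hVd] at hx hy
    obtain ⟨a, ha, rfl⟩ := hx
    obtain ⟨b, hb, rfl⟩ := hy
    exact congrArg (fun w : (Cfsg.omegaOne p (⊤ : Subgroup P)) => ((w : P) : Ω)) (hab.is_comm.comm ⟨a, ha⟩ ⟨b, hb⟩)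
  have hVc : Nat.card V = p ^ 2 := by
    rw [hVd, Subgroup.card_map_of_injective P.subtype_injective, hcard]
  have hPS := hP.1
  have hVS : V ≤ S := hVP.trans hPS
  have hVsc : F.StronglyClosed V := by
    rw [stronglyClosed_iff]
    exact ⟨hVS, fun A f hf x hx hxV => hV _ (StronglyClosed_mem hP hf hx (hVP hxV)) (by rw [← hf.pow hx, hVp x hxV, hf.one])⟩
  by_cases hnc : V ≤ Subgroup.centralizer (P : Set Ω)
  · refine normal_of_omega_chain hS hF hp hP (fun i => if i = 0 then ⊥ else V) 1 (by simp) (by simpa using hV) (by simpa using hVP) ?_ ?_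
    · intro i hi
      by_cases h : i = 0
      · simp only [h, if_true]; exact stronglyClosed_bot F
      · simp only [h, if_false]; exact hVsc
    · intro i hi b hb x hx
      have hi0 : i = 0 := by omega
      subst hi0
      simp only [zero_add, one_ne_zero, if_false] at hx
      simp only [if_true, Subgroup.mem_bot]
      have := Subgroup.mem_centralizer_iff.1 (hnc hx) b hb
      rw [this]; group
  · have hsc := sc_center hS hF hp hP hVP hV hVp hVab hVc hnc
    have hVn : ∀ y ∈ P, ∀ v ∈ V, y * v * y⁻¹ ∈ V := fun y hy v hv => StronglyClosed_conj hVsc (hPS hy) hv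
    obtain ⟨hZc, hcomm⟩ := center_facts hPp hVP hVn hVc hnc
    refine normal_of_omega_chain hS hF hp hP (fun i => if i = 0 then ⊥ else if i = 1 then V ⊓ Subgroup.centralizer (P : Set Ω) else V) 2 (by simp) (by simpa using hV) (by simpa using hVP) ?_ ?_
    · intro i hi
      by_cases h : i = 0
      · simp only [h, if_true]; exact stronglyClosed_bot F
      · by_cases h1 : i = 1
        · simp only [h1, one_ne_zero, if_true, if_false]; exact hsc
        · simp only [h, h1, if_false]; exact hVsc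
    · intro i hi b hb x hx
      have hi0 : i = 0 ∨ i = 1 := by omega
      rcases hi0 with rfl | rfl
      · simp only [zero_add, one_ne_zero, if_true, if_false] at hx
        simp only [if_true, Subgroup.mem_bot]
        have := Subgroup.mem_centralizer_iff.1 hx.2 b hb
        rw [this]; group
      · simp only [Nat.reduceAdd, OfNat.ofNat_ne_zero, if_false, OfNat.ofNat_ne_one] at hx
        simp only [one_ne_zero, if_true, if_false]
        exact hcomm b hb x hx

end Cfsg.Agent.S5234
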