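import Cfsg.Statements.S5236
import Cfsg.Agent.Lib.OmgA

set_option autoImplicit false
open Cfsg
open Cfsg.FusionSystem Cfsg.Agent.Lib.FusBase Cfsg.Agent.Lib.FusSat Cfsg.Agent.Lib.FusNormal Cfsg.Agent.Lib.FusNormalB Cfsg.Agent.Lib.OmgA

namespace Cfsg.Agent.S5236

open scoped commutatorElement in
theorem om_char {Ω : Type*} [Group Ω] (p : ℕ) (P : Subgroup Ω) : ((Cfsg.omegaOne p P).subgroupOf P).Characteristic := by
  rw [Subgroup.characteristic_iff_le_comap]
  intro φ x hx
  have h1 : Cfsg.omegaOne p P ≤ (((Cfsg.omegaOne p P).subgroupOf P).comap φ.toMonoidHom).map P.subtype := by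
    conv_lhs => unfold Cfsg.omegaOne
    rw [Subgroup.closure_le]
    rintro y ⟨hy, hyp⟩
    refine ⟨⟨y, hy⟩, ?_, rfl⟩
    show ((φ ⟨y, hy⟩ : P) : Ω) ∈ Cfsg.omegaOne p P
    refine Subgroup.subset_closure ⟨Subtype.mem _, ?_⟩
    have h2 : (φ ⟨y, hy⟩) ^ p = 1 := by
      rw [← map_pow]
      have : (⟨y, hy⟩ : P) ^ p = 1 := Subtype.ext hyp
      rw [this, map_one]
    exact congrArg Subtype.val h2
  obtain ⟨y, hy, hye⟩ := h1 hx
  have : y = x := Subtype.ext hye
  rw [← this]; exact hy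

/-- Let p be an odd prime, F a saturated fusion system over a finite p-group S and P a subgroup of S strongly closed in F. Then P is normal in F if and only if Ω₁(P) (the subgroup generated by the elements of order p of P) has a chain of subgroups 1 = Q₀ ≤ Q₁ ≤ ⋯ ≤ Qₙ = Ω₁(P), each strongly closed in F, with [Qᵢ₊₁, P] ≤ Qᵢ for all i. -/
theorem result {Ω : Type*} [Group Ω] {S : Subgroup Ω} [Finite S] (p : ℕ) [Fact p.Prime] (hS : IsPGroup p S) (F : Cfsg.FusionSystem S) (hF : F.IsSaturated p) (hp : p ≠ 2) (P : Subgroup Ω) (hP : F.StronglyClosed P) : F.IsNormal P ↔ ∃ (n : ℕ) (Q : Fin (n + 1) → Subgroup Ω), Q 0 = ⊥ ∧ Q (Fin.last n) = Cfsg.omegaOne p P ∧ Monotone Q ∧ (∀ i : Fin (n + 1), F.StronglyClosed (Q i)) ∧ ∀ i : Fin n, ⁅Q i.succ, P⁆ ≤ Q i.castSucc := by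
  have hOP : Cfsg.omegaOne p P ≤ P := by
    unfold Cfsg.omegaOne
    rw [Subgroup.closure_le]
    exact fun x hx => hx.1
  constructor
  · intro hn
    obtain ⟨n, Rs, h0, hnP, hmono, hnorm, hle, hcomm⟩ := exists_chain_of_normal hS hn
    have hOn : F.IsNormal (Cfsg.omegaOne p P) := normal_of_char hn hOP (om_char p P)
    have hOsc := normal_stronglyClosed hOn
    refine ⟨n, fun i => Rs i ⊓ Cfsg.omegaOne p P, ?_, ?_, ?_, ?_, ?_⟩
    · show Rs 0 ⊓ _ = ⊥
      rw [h0, bot_inf_eq]
    · show Rs n ⊓ _ = _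
      rw [hnP, inf_eq_right.2 hOP]
    · intro i j hij
      exact inf_le_inf_right _ (hmono hij)
    · intro i
      exact stronglyClosed_inf (normal_stronglyClosed (hnorm i)) hOsc
    · intro i
      refine le_inf ?_ ?_
      · refine le_trans ?_ (hcomm i)
        rw [Subgroup.commutator_comm]
        exact Subgroup.commutator_mono le_rfl inf_le_left
      · rw [Subgroup.commutator_le]
        intro x hx y hy
        rw [commutatorElement_def]
        have h1 := StronglyClosed_conj hOsc (hP.1 hy) ((Cfsg.omegaOne p P).inv_mem hx.2)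
        have h2 := (Cfsg.omegaOne p P).mul_mem hx.2 h1
        have e : x * (y * x⁻¹ * y⁻¹) = x * y * x⁻¹ * y⁻¹ := by group
        rwa [e] at h2
  · rintro ⟨n, Q, h0, hn, hmono, hsc, hcomm⟩
    refine normal_of_omega_chain hS hF hp hP (fun i => if h : i < n + 1 then Q ⟨i, h⟩ else ⊥) n ?_ ?_ ?_ ?_ ?_
    · simp only [Nat.zero_lt_succ, dif_pos]; exact h0
    · intro x hx hxp
      simp only [Nat.lt_succ_self, dif_pos]
      have : Q ⟨n, Nat.lt_succ_self n⟩ = Cfsg.omegaOne p P := hn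
      rw [this]; exact Subgroup.subset_closure ⟨hx, hxp⟩
    · simp only [Nat.lt_succ_self, dif_pos]
      have : Q ⟨n, Nat.lt_succ_self n⟩ = Cfsg.omegaOne p P := hn
      rw [this]; exact hOP
    · intro i hi
      simp only [show i < n + 1 by omega, dif_pos]
      exact hsc _
    · intro i hi b hb x hx
      simp only [show i + 1 < n + 1 by omega, dif_pos] at hx
      simp only [show i < n + 1 by omega, dif_pos]
      have h1 := hcomm ⟨i, hi⟩ (Subgroup.commutator_mem_commutator (Subgroup.inv_mem _ hx) hb)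
      rw [commutatorElement_def] at h1
      have e : x⁻¹ * b * x⁻¹⁻¹ * b⁻¹ = x⁻¹ * (b * x * b⁻¹) := by group
      rw [e] at h1
      exact h1

end Cfsg.Agent.S5236
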