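import Cfsg.Statements.S5252
import Cfsg.Agent.Lib.WTrD

set_option autoImplicit false
open Cfsg
open Cfsg.FusionSystem Cfsg.Agent.Lib.FusBase Cfsg.Agent.Lib.FusHyp

namespace Cfsg.Agent.S5252

/-- Let p ≥ 5 be a prime and F a saturated fusion system over a nontrivial finite p-group S such that Aut_F(S) is a p-group. Then the focal subgroup of F is a proper subgroup of S. -/
theorem result {Ω : Type*} [Group Ω] {S : Subgroup Ω} [Finite S] (p : ℕ) [Fact p.Prime] (hS : IsPGroup p S) (F : Cfsg.FusionSystem S) (hF : F.IsSaturated p) (hp : 5 ≤ p) (hS1 : S ≠ ⊥) (haut : IsPGroup p ↥(F.autGroup S)) : F.focalSubgroup < S := by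
  have hle : F.focalSubgroup ≤ S := foc_le _ fun P f hf x hx => S.mul_mem (S.inv_mem (hf.le hx)) (hf.mem hx)
  exact lt_of_le_not_ge hle (Cfsg.Agent.Lib.WTrD.foc_lt hp (Nat.card S) Ω inferInstance S inferInstance F le_rfl hS hF hS1 haut)

end Cfsg.Agent.S5252
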