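import Cfsg.Statements.S5276
import Cfsg.Agent.Lib.BisF

set_option autoImplicit false
open Cfsg
open Cfsg.FusionSystem Cfsg.Agent.Lib.FusBase Cfsg.Agent.Lib.FusNormal Cfsg.Agent.Lib.FusNormalB Cfsg.Agent.Lib.FusHyp Cfsg.Agent.Lib.FusHypB Cfsg.Agent.Lib.FusNK Cfsg.Agent.Lib.FusNKB Cfsg.Agent.Lib.FusInv Cfsg.Agent.Lib.FusInvB Cfsg.Agent.Lib.FusMor Cfsg.Agent.Lib.LabC Cfsg.Agent.Lib.BisF

namespace Cfsg.Agent.S5276

/-- Let p be a prime and F a saturated fusion system over a finite p-group S. Then F is the inner fusion system of S if and only if the normalizer fusion system of S itself in F is the inner fusion system (equivalently, Aut_F(S) is induced by S) and the Frattini subgroup Φ(S) is strongly closed in F. -/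
theorem result {Ω : Type*} [Group Ω] {S : Subgroup Ω} [Finite S] (p : ℕ) [Fact p.Prime] (hS : IsPGroup p ↥S) (F : Cfsg.FusionSystem S) (hF : F.IsSaturated p) : (∀ P : Subgroup Ω, F.Hom P = (Cfsg.innerFusionSystem S).Hom P) ↔ (∀ N : Cfsg.FusionSystem (Cfsg.FusionSystem.normalizerIn S S), F.IsNormalizerSystem S N → ∀ P : Subgroup Ω, N.Hom P = (Cfsg.innerFusionSystem (Cfsg.FusionSystem.normalizerIn S S)).Hom P) ∧ F.StronglyClosed ((frattini ↥S).map S.subtype) := by
  have hmemΦ : ∀ x : S, (x : Ω) ∈ (frattini ↥S).map S.subtype ↔ x ∈ frattini ↥S := by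
    intro x
    constructor
    · rintro ⟨y, hy, e⟩
      have : y = x := Subtype.ext e
      rwa [← this]
    · intro hx; exact ⟨x, hx, rfl⟩
  have hΦle : (frattini ↥S).map S.subtype ≤ S := by
    rintro _ ⟨y, _, rfl⟩; exact y.2
  constructor
  · intro h
    have hmor : ∀ P f, Mor F P f ↔ P ≤ S ∧ ∃ q ∈ S, ∀ x ∈ P, f x = q * x * q⁻¹ := by
      intro P f
      rw [← mor_inner]
      unfold Mor
      rw [h P]
    refine ⟨fun N hN P => ?_, ?_⟩
    · ext φ
      rw [← mor_ext_iff, ← mor_ext_iff, norm_iff hN, mor_inner]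
      constructor
      · rintro ⟨h1, h2, k, hk, hkφ, -⟩
        obtain ⟨-, q, hq, h3⟩ := (hmor _ _).1 hk
        exact ⟨h1, q, le_normalizerIn le_rfl hq, fun x hx => by rw [← hkφ x hx, h3 x (Subgroup.mem_sup_left hx)]⟩
      · rintro ⟨h1, q, hq, h2⟩
        have hqS := (mem_normalizerIn.1 hq).1
        refine ⟨h1, fun x hx => ?_, fun x => q * x * q⁻¹, (hmor _ _).2 ⟨sup_le (h1.trans normalizerIn_le) le_rfl, q, hqS, fun _ _ => rfl⟩,
          fun x hx => (h2 x hx).symm, cj S q (mem_normalizerIn.1 hq).2, trivial, fun x hx => ?_⟩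
        · rw [h2 x hx]
          exact Subgroup.mul_mem _ (Subgroup.mul_mem _ hq (h1 hx)) (Subgroup.inv_mem _ hq)
        · rw [fn_mem _ hx]; rfl
    · rw [stronglyClosed_iff]
      refine ⟨hΦle, fun P f hf x hx hxΦ => ?_⟩
      obtain ⟨hP, q, hq, h1⟩ := (hmor _ _).1 hf
      rw [h1 x hx]
      obtain ⟨y, hy, rfl⟩ := hxΦ
      refine ⟨⟨q, hq⟩ * y * ⟨q, hq⟩⁻¹, ?_, rfl⟩
      have hn : (frattini ↥S).Normal := inferInstance
      exact hn.conj_mem y hy _
  · rintro ⟨h1, h2⟩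
    have hker : ker' (QuotientGroup.mk' (frattini ↥S)) = (frattini ↥S).map S.subtype := by
      ext x
      rw [mem_ker']
      constructor
      · rintro ⟨hx, h3⟩
        rw [ev_mem hx, QuotientGroup.mk'_apply, QuotientGroup.eq_one_iff] at h3
        exact ⟨_, h3, rfl⟩
      · rintro ⟨y, hy, rfl⟩
        refine ⟨y.2, ?_⟩
        show ev _ (y : Ω) = 1
        rw [ev_apply, QuotientGroup.mk'_apply, QuotientGroup.eq_one_iff]
        exact hy
    obtain ⟨E, hE⟩ := factor_exists (S' := (⊤ : Subgroup (↥S ⧸ frattini ↥S))) h2 hker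
      (MonoidHom.range_eq_top.2 (QuotientGroup.mk'_surjective _))
    have hsurj := surj_of_factor hS hF h2 hE
    have hEs := sat_of_surj hS hF hsurj
    have hcomm : ∀ a b : ↥S ⧸ frattini ↥S, a * b = b * a := by
      intro a b
      have h3 := Subgroup.Normal.quotient_commutative_iff_commutator_le.mpr (Cfsg.Agent.Lib.Nilp.commutator_le_frattini hS)
      exact h3.is_comm.comm a b
    have hTp : IsPGroup p (⊤ : Subgroup (↥S ⧸ frattini ↥S)) := (hS.to_quotient (frattini ↥S)).to_subgroup _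
    have hEn : E.IsNormal (⊤ : Subgroup (↥S ⧸ frattini ↥S)) :=
      normal_of_abelian hTp hEs (stronglyClosed_self E) fun a _ b _ => hcomm a b
    -- automorphisms of S
    have hAut : ∀ f, Mor F S f → ∃ q ∈ S, ∀ x ∈ S, f x = q * x * q⁻¹ := by
      intro f hf
      obtain ⟨N, hN⟩ := exists_norm F (le_refl S)
      have h3 := norm_mor hN le_rfl le_rfl (le_normalizerIn le_rfl) hf (fun x hx => hf.mem hx)
      obtain ⟨φ, hφ, h4⟩ := h3
      rw [h1 N hN] at hφ
      obtain ⟨-, q, hq, h5⟩ := hφ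
      exact ⟨q, (mem_normalizerIn.1 hq).1, fun x hx => by rw [← h4 ⟨x, hx⟩, h5 ⟨x, hx⟩]⟩
    have hE1 : ∀ P' f', Mor E P' f' → ∀ y ∈ P', f' y = y := by
      intro P' f' hf' y hy
      obtain ⟨g', hg', h3, -⟩ := (isNormal_iff.1 hEn).2 P' f' hf'
      have hg'' := hg'.restrict (le_sup_right : (⊤ : Subgroup (↥S ⧸ frattini ↥S)) ≤ P' ⊔ ⊤)
      obtain ⟨f, hf, h4⟩ := mor_lift hsurj hg''
      have hpre : preimageAlong (QuotientGroup.mk' (frattini ↥S)) (⊤ : Subgroup (↥S ⧸ frattini ↥S)) = S := by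
        ext x
        rw [mem_preimageAlong]
        exact ⟨fun h => h.1, fun h => ⟨h, trivial⟩⟩
      rw [hpre] at hf h4
      obtain ⟨q, hq, h5⟩ := hAut f hf
      obtain ⟨x, rfl⟩ := QuotientGroup.mk'_surjective _ y
      have h6 := h4 x x.2
      rw [h5 x x.2, ev_conj hq x.2, ev_apply, hcomm (ev _ q), mul_assoc, mul_inv_cancel, mul_one] at h6
      rw [← h3 _ hy]; exact h6
    refine inner_of_frattini hS hF ?_
    conv_lhs => unfold FusionSystem.hyperfocalSubgroup
    rw [Subgroup.closure_le]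
    rintro _ ⟨P, α, x, hP, hα, rfl⟩
    obtain ⟨f', hf', h3⟩ := (isMorphism_iff.1 hsurj.1).2 P _ (iso_fn hP α.2).mor
    have hx := x.2
    have h4 := h3 x x.2
    rw [hE1 _ f' hf' _ (ev_mem_imageAlong hP x.2), fn_apply] at h4
    have hxS := hP x.2
    have hαx : (((α : MulAut P) x : P) : Ω) ∈ S := hP (Subtype.mem _)
    rw [SetLike.mem_coe, ← hker, mem_ker']
    refine ⟨S.mul_mem (S.inv_mem hxS) hαx, ?_⟩
    rw [ev_mul (S.inv_mem hxS) hαx, ev_inv hxS, ← h4, inv_mul_cancel]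

end Cfsg.Agent.S5276
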