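import Cfsg.Statements.S5291
import Cfsg.Agent.Lib.FusInner

set_option autoImplicit false
open Cfsg
open Cfsg.Agent.Lib.FusBase Cfsg.Agent.Lib.FusSat Cfsg.Agent.Lib.FusNormal Cfsg.Agent.Lib.FusNormalB Cfsg.Agent.Lib.FusInv Cfsg.FusionSystem

namespace Cfsg.Agent.S5291

/-- Let F be a saturated fusion system over a finite p-group S and E a weakly normal subsystem of F over a subgroup T. Suppose a subgroup R of T is normal in E (E = N_E(R)), and let R* be the subgroup of T generated by the images of R under all maps of F with source R. Then R* is normal in F (F = N_F(R*)). -/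
theorem result {Ω : Type*} [Group Ω] {S : Subgroup Ω} [Finite S] (p : ℕ) [Fact p.Prime] (hS : IsPGroup p S)
    (F : Cfsg.FusionSystem S) (hF : F.IsSaturated p)
    {T : Subgroup Ω} (E : Cfsg.FusionSystem T) (hE : E.IsWeaklyNormalIn F p)
    (R : Subgroup Ω) (hR : E.IsNormal R) :
    F.IsNormal (Subgroup.closure {x : Ω | ∃ φ ∈ F.Hom R, ∃ r : R, x = φ r}) := by
  obtain ⟨hEs, -, hinv⟩ := hE
  obtain ⟨h1, h2, h3, h4⟩ := isInvariant_iff.1 hinv
  have hTf : Finite T := finite_of_le h2.1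
  have hTp : IsPGroup p T := hS.to_le h2.1
  set W := Subgroup.closure {x : Ω | ∃ φ ∈ F.Hom R, ∃ r : R, x = φ r} with hW
  have hmemW : ∀ {f}, Mor F R f → ∀ r ∈ R, f r ∈ W := by
    rintro f ⟨φ, hφ, hf⟩ r hr
    exact Subgroup.subset_closure ⟨φ, hφ, ⟨r, hr⟩, (hf ⟨r, hr⟩).symm⟩
  have hRT : R ≤ T := hR.1
  have hRsc := normal_stronglyClosed hR
  have hWT : W ≤ T := by
    rw [hW, Subgroup.closure_le]
    rintro _ ⟨φ, hφ, r, rfl⟩
    have := StronglyClosed_mem h2 (mor_ext hφ) r.2 (hRT r.2)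
    rwa [ext_apply] at this
  -- `a(R)` is normal in `E` for `a ∈ Aut_F(T)`
  have htr : ∀ a, Iso F T T a → E.IsNormal (img R a) := by
    intro a ha
    obtain ⟨b, hb, hba, hab⟩ := ha.symm
    rw [isNormal_iff]
    refine ⟨img_le_iff.2 fun x hx => ha.map_mem (hRT hx), fun P f hf => ?_⟩
    obtain ⟨f', hf', hff⟩ := h3 P f b hf hb
    obtain ⟨g', hg', hg1, hg2⟩ := (isNormal_iff.1 hR).2 _ f' hf'
    obtain ⟨g, hg, hgg⟩ := h3 _ g' a hg' ha
    have hbP : img P b ≤ T := img_le_iff.2 fun x hx => hb.map_mem (hf.le hx)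
    have hle : img (img P b ⊔ R) a = P ⊔ img R a := by
      rw [img_sup (ha.mor.restrict (sup_le hbP hRT))]
      congr 1
      rw [img_img b a (hb.mor.restrict hf.le), img_congr (g := fun x => x) (fun x hx => hab x (hf.le hx)), img_id]
    refine ⟨g, hle ▸ hg, fun x hx => ?_, ?_⟩
    · have h5 := hgg (b x) (Subgroup.mem_sup_left (mem_img_of_mem hx))
      rw [hab x (hf.le hx), hg1 _ (mem_img_of_mem hx), hff x hx, hab _ (hf.mem hx)] at h5
      exact h5
    · apply le_antisymm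
      · rw [img_le_iff]
        intro y hy
        obtain ⟨x, hx, rfl⟩ := (ha.mor.restrict hRT).mem_img.1 hy
        rw [hgg x (Subgroup.mem_sup_right hx)]
        apply mem_img_of_mem
        rw [← hg2]; exact mem_img_of_mem hx
      · rw [img_le_iff]
        intro x hx
        rw [← hg2] at hx
        obtain ⟨y, hy, rfl⟩ := (hg'.restrict le_sup_right).mem_img.1 hx
        rw [← hgg y (Subgroup.mem_sup_right hy)]
        exact mem_img_of_mem (mem_img_of_mem hy)
  -- `W` is normal in `E`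
  have hWn : E.IsNormal W := by
    have h5 : E.IsNormal (sSup {Q | E.IsNormal Q ∧ Q ≤ W}) ∧ sSup {Q | E.IsNormal Q ∧ Q ≤ W} ≤ W :=
      exists_largest (S := T) (fun Q => E.IsNormal Q ∧ Q ≤ W) ⟨normal_bot E, bot_le⟩ (fun _ h => h.1.1)
        (fun _ _ h₁ h₂ => ⟨normal_sup h₁.1 h₂.1, sup_le h₁.2 h₂.2⟩)
    have h6 : W ≤ sSup {Q | E.IsNormal Q ∧ Q ≤ W} := by
      conv_lhs => rw [hW]
      rw [Subgroup.closure_le]
      rintro _ ⟨φ, hφ, r, rfl⟩
      obtain ⟨a, f₀, ha, hf₀, h7⟩ := h4 R _ hRT (mor_ext hφ)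
      have h8 := htr a ha
      have h9 : img R a ≤ W := by
        rw [img_le_iff]
        intro x hx
        exact hmemW (ha.mor.restrict hRT) x hx
      have h10 : φ r ∈ img R a := by
        rw [← ext_apply, h7 r r.2]
        exact mem_img_of_mem (StronglyClosed_mem hRsc hf₀ r.2 r.2)
      exact (le_sSup (show img R a ∈ {Q | E.IsNormal Q ∧ Q ≤ W} from ⟨h8, h9⟩)) h10
    rw [le_antisymm h6 h5.2]
    exact h5.1
  have haW : ∀ a, Iso F T T a → img W a = W := by
    intro a ha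
    have hle : img W a ≤ W := by
      rw [img_le_iff]
      have h5 : W ≤ (img W a ⊓ W).comap (MonoidHom.id Ω) ∨ True := Or.inr trivial
      intro x hx
      have hxT := hWT hx
      -- closure induction
      have hxc : x ∈ Subgroup.closure {x : Ω | ∃ φ ∈ F.Hom R, ∃ r : R, x = φ r} := hx
      suffices H : a x ∈ W ∧ x ∈ T from H.1
      clear hx
      induction hxc using Subgroup.closure_induction with
      | mem x hx =>
        obtain ⟨φ, hφ, r, rfl⟩ := hx
        have h7 := (mor_ext hφ).comp ha.mor (fun x hx => StronglyClosed_mem h2 (mor_ext hφ) hx (hRT hx))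
        have h8 := hmemW h7 r r.2
        rw [ext_apply] at h8
        exact ⟨h8, hxT⟩
      | one => rw [ha.mor.one]; exact ⟨W.one_mem, T.one_mem⟩
      | mul x y hx hy ihx ihy =>
        obtain ⟨i1, i2⟩ := ihx (hWT hx)
        obtain ⟨i3, i4⟩ := ihy (hWT hy)
        rw [ha.mor.mul i2 i4]
        exact ⟨W.mul_mem i1 i3, T.mul_mem i2 i4⟩
      | inv x hx ihx =>
        obtain ⟨i1, i2⟩ := ihx (hWT hx)
        rw [ha.mor.inv i2]
        exact ⟨W.inv_mem i1, T.inv_mem i2⟩
    have hWf : Finite W := finite_of_le (hWT.trans h2.1)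
    exact Subgroup.eq_of_le_of_card_ge hle ((ha.mor.restrict hWT).iso.card_eq).le
  refine normal_of_extend hS hF (hWT.trans h2.1) fun P hP f hf => ?_
  obtain ⟨a, f₀, ha, hf₀, h5⟩ := h4 P f (hP.trans hWT) hf
  obtain ⟨g, hg, hg1, hg2⟩ := (isNormal_iff.1 hWn).2 P f₀ hf₀
  have hgW : Iso F W W g := ⟨h1 _ _ (hg.restrict le_sup_right), hg2⟩
  have haW' : Iso F W W a := ⟨ha.mor.restrict hWT, haW a ha⟩
  exact ⟨_, hgW.trans haW', fun x hx => by rw [h5 x hx, hg1 x hx]⟩

end Cfsg.Agent.S5291
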