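import Cfsg.Statements.S5294
import Cfsg.Agent.Lib.FusSimple

set_option autoImplicit false
universe u
open Cfsg
open Cfsg.Agent.Lib.FusBase Cfsg.Agent.Lib.FusSat Cfsg.Agent.Lib.FusNormal Cfsg.Agent.Lib.FusNormalB Cfsg.Agent.Lib.FusNK Cfsg.Agent.Lib.FusSimple Cfsg.FusionSystem

namespace Cfsg.Agent.S5294

/-- Let F be a saturated fusion system over a finite p-group S whose centre Z(S) lies in the largest subgroup O_p(F) normal in F. Then the centre Z(F) of F is a direct factor of Z(S): there is a subgroup K of Z(S) with Z(F) ∩ K = 1 and Z(F)K = Z(S). -/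
theorem result {Ω : Type u} [Group Ω] {S : Subgroup Ω} [Finite S] (p : ℕ) [Fact p.Prime] (hS : IsPGroup p S)
    (F : Cfsg.FusionSystem S) (hF : F.IsSaturated p) (hZ : (S ⊓ Subgroup.centralizer (S : Set Ω)) ≤ F.core) :
    ∃ K : Subgroup Ω, K ≤ (S ⊓ Subgroup.centralizer (S : Set Ω)) ∧ F.center ⊓ K = ⊥ ∧ F.center ⊔ K = (S ⊓ Subgroup.centralizer (S : Set Ω)) := by
  classical
  set Q := F.core with hQ
  have hQn : F.IsNormal Q := core_normal F
  have hQsc := normal_stronglyClosed hQn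
  have hQf : Finite Q := finite_of_le hQn.1
  -- `Q` is fully normalized
  have hQFN : F.IsFullyNormalized Q := Cfsg.Agent.Lib.FusInv.sc_FN hQsc
  have hFA := (FA_iff hS hQn.1).1 (FN_FA hS hF hQFN)
  set G := F.autGroup Q with hG
  set T : Subgroup G := (autInducedBy S Q).subgroupOf G with hT
  have hTi : ¬ p ∣ T.index := hFA
  set ZS := S ⊓ Subgroup.centralizer (S : Set Ω) with hZS
  -- the centre of `Q`
  set A : Subgroup Ω := Q ⊓ Subgroup.centralizer (Q : Set Ω) with hA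
  have hAc : ∀ a ∈ A, ∀ b ∈ A, a * b = b * a := fun a ha b hb => Subgroup.mem_centralizer_iff.1 hb.2 a ha.1
  have hZA : ZS ≤ A := fun z hz => ⟨hZ hz, Subgroup.centralizer_le (show (Q : Set Ω) ⊆ S from hQn.1) hz.2⟩
  let _ : CommGroup A := { (inferInstance : Group A) with mul_comm := fun a b => Subtype.ext (hAc a a.2 b b.2) }
  have hgA : ∀ (g : G), ∀ a ∈ A, fn (g : MulAut Q) a ∈ A := by
    intro g a ha
    refine ⟨fn_mem' _ ha.1, Subgroup.mem_centralizer_iff.2 fun y hy => ?_⟩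
    have h1 : fn (g : MulAut Q) (fn ((g : MulAut Q)⁻¹) y) = y := fn_fn_inv _ hy
    have h2 := Subgroup.mem_centralizer_iff.1 ha.2 _ (fn_mem' (g : MulAut Q)⁻¹ hy)
    have h3 := congrArg (fn (g : MulAut Q)) h2
    rw [fn_mul' _ (fn_mem' _ hy) ha.1, fn_mul' _ ha.1 (fn_mem' _ hy), h1] at h3
    exact h3
  let act : G → (A →* A) := fun g => MonoidHom.mk' (fun a => ⟨fn (g : MulAut Q) a, hgA g a a.2⟩) (fun a b => Subtype.ext (fn_mul' _ a.2.1 b.2.1))
  have hact_mul : ∀ g h a, act (g * h) a = act g (act h a) := fun g h a => Subtype.ext (by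
    show fn ((g : MulAut Q) * (h : MulAut Q)) (a : Ω) = _
    exact fn_mul _ _ a.2.1)
  -- fixed points of `T`
  have hTfix : ∀ t ∈ T, ∀ a : A, (a : Ω) ∈ ZS → act t a = a := by
    intro t ht a ha
    obtain ⟨s, hs, h⟩ := mem_autInducedBy.1 (Subgroup.mem_subgroupOf.1 ht)
    apply Subtype.ext
    show fn (t : MulAut Q) a = a
    rw [fn_mem _ a.2.1, h]
    have := Subgroup.mem_centralizer_iff.1 ha.2 s hs
    show s * (a : Ω) * s⁻¹ = a
    rw [this]; group
  have hGfix : ∀ a : A, (∀ g : G, act g a = a) → (a : Ω) ∈ F.center := by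
    intro a ha
    rw [mem_center_iff hS hF]
    refine ⟨hQn.1 a.2.1, fun P f hf haP => ?_⟩
    obtain ⟨k, hk, h1, h2⟩ := (isNormal_iff.1 hQn).2 P f hf
    have hkQ : Iso F Q Q k := ⟨hk.restrict le_sup_right, h2⟩
    rw [← h1 _ haP]
    have := congrArg Subtype.val (ha ⟨autOf hkQ, autOf_mem hkQ⟩)
    have h3 : fn (autOf hkQ) a = a := this
    rw [fn_mem _ a.2.1] at h3
    exact h3
  have hcfix : ∀ a : A, (a : Ω) ∈ F.center → ∀ g : G, act g a = a := by
    intro a ha g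
    exact Subtype.ext (((mem_center_iff hS hF).1 ha).2 Q _ (iso_fn hQn.1 g.2).mor a.2.1)
  have hcZS : F.center ≤ ZS := by
    intro x hx
    have h1 := (mem_center_iff hS hF).1 hx
    refine ⟨h1.1, Subgroup.mem_centralizer_iff.2 fun s hs => ?_⟩
    have := h1.2 S _ (mor_conj F le_rfl hs) h1.1
    conv_rhs => rw [← this]
    group
  -- the relative norm
  let q : A → G ⧸ T → A := fun a => if h : (a : Ω) ∈ ZS then Quotient.lift (fun g => act g a) (by
    intro g g' hgg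
    have h1 : g⁻¹ * g' ∈ T := QuotientGroup.leftRel_apply.1 hgg
    have h2 : act g' a = act g (act (g⁻¹ * g') a) := by rw [← hact_mul, mul_inv_cancel_left]
    show act g a = act g' a
    rw [h2, hTfix _ h1 a h]) else fun _ => 1
  have hq : ∀ (a : A) (ha : (a : Ω) ∈ ZS) (g : G), q a (QuotientGroup.mk g) = act g a := by
    intro a ha g
    simp only [q, ha, dif_pos]
    rfl
  let _ : Fintype (G ⧸ T) := Fintype.ofFinite _
  let tr : A → A := fun a => ∏ x : G ⧸ T, q a x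
  have htr_mul : ∀ a b : A, (a : Ω) ∈ ZS → (b : Ω) ∈ ZS → tr (a * b) = tr a * tr b := by
    intro a b ha hb
    show ∏ x : G ⧸ T, q (a * b) x = (∏ x : G ⧸ T, q a x) * ∏ x : G ⧸ T, q b x
    rw [← Finset.prod_mul_distrib]
    refine Finset.prod_congr rfl fun x _ => ?_
    obtain ⟨g, rfl⟩ := QuotientGroup.mk_surjective x
    rw [hq _ (ZS.mul_mem ha hb), hq _ ha, hq _ hb, map_mul]
  have htr_fix : ∀ a : A, (a : Ω) ∈ ZS → ∀ g : G, act g (tr a) = tr a := by
    intro a ha g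
    show act g (∏ x : G ⧸ T, q a x) = ∏ x : G ⧸ T, q a x
    rw [map_prod]
    refine Fintype.prod_bijective (fun x => g • x) (MulAction.bijective g) _ _ fun x => ?_
    obtain ⟨y, rfl⟩ := QuotientGroup.mk_surjective x
    show act g (q a (QuotientGroup.mk y)) = q a (QuotientGroup.mk (g * y))
    rw [hq _ ha, hq _ ha, hact_mul]
  have htr_c : ∀ a : A, (a : Ω) ∈ F.center → tr a = a ^ T.index := by
    intro a ha
    have h1 : ∀ x : G ⧸ T, q a x = a := by
      intro x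
      obtain ⟨g, rfl⟩ := QuotientGroup.mk_surjective x
      rw [hq _ (hcZS ha), hcfix a ha]
    show ∏ x : G ⧸ T, q a x = _
    rw [Finset.prod_congr rfl (fun x _ => h1 x), Finset.prod_const, Finset.card_univ, ← Nat.card_eq_fintype_card,
      Subgroup.index_eq_card]
  have hAp : IsPGroup p A := hS.to_le (inf_le_left.trans hQn.1)
  have hcop : ∀ a : A, Nat.Coprime T.index (orderOf a) := by
    intro a
    obtain ⟨k, hk⟩ := IsPGroup.iff_orderOf.1 hAp a
    rw [hk]
    exact (Nat.Coprime.pow_left k ((Fact.out : p.Prime).coprime_iff_not_dvd.2 hTi)).symm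
  let K : Subgroup Ω :=
    { carrier := {x | ∃ h : x ∈ ZS, tr ⟨x, hZA h⟩ = 1}
      one_mem' := by
        refine ⟨ZS.one_mem, ?_⟩
        have h1 := htr_c 1 (F.center.one_mem)
        rw [one_pow] at h1
        exact h1
      mul_mem' := by
        rintro x y ⟨hx, hx'⟩ ⟨hy, hy'⟩
        refine ⟨ZS.mul_mem hx hy, ?_⟩
        have := htr_mul ⟨x, hZA hx⟩ ⟨y, hZA hy⟩ hx hy
        rw [hx', hy', mul_one] at this
        exact this
      inv_mem' := by
        rintro x ⟨hx, hx'⟩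
        refine ⟨ZS.inv_mem hx, ?_⟩
        have := htr_mul ⟨x, hZA hx⟩ ⟨x⁻¹, hZA (ZS.inv_mem hx)⟩ hx (ZS.inv_mem hx)
        have e : (⟨x, hZA hx⟩ : A) * ⟨x⁻¹, hZA (ZS.inv_mem hx)⟩ = 1 := Subtype.ext (mul_inv_cancel x)
        have h1 := htr_c 1 (F.center.one_mem)
        rw [one_pow] at h1
        rw [e, h1, hx', one_mul] at this
        exact this.symm }
  have hKZ : ∀ x ∈ K, x ∈ ZS := by
    intro x hx
    obtain ⟨h, -⟩ := (show ∃ h : x ∈ ZS, tr ⟨x, hZA h⟩ = 1 from hx)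
    exact h
  refine ⟨K, hKZ, ?_, ?_⟩
  · rw [eq_bot_iff]
    rintro x ⟨hx1, hx⟩
    obtain ⟨hx2, hx3⟩ := (show ∃ h : x ∈ ZS, tr ⟨x, hZA h⟩ = 1 from hx)
    rw [htr_c _ hx1] at hx3
    obtain ⟨m, hm⟩ := exists_pow_eq_self_of_coprime (hcop ⟨x, hZA hx2⟩)
    rw [hx3, one_pow] at hm
    exact Subgroup.mem_bot.2 (congrArg Subtype.val hm).symm
  · apply le_antisymm (sup_le hcZS hKZ)
    intro x hx
    set a : A := ⟨x, hZA hx⟩ with ha
    have hw : (tr a : Ω) ∈ F.center := hGfix _ (htr_fix a hx)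
    obtain ⟨m, hm⟩ := exists_pow_eq_self_of_coprime (hcop (tr a))
    have hwm : (((tr a) ^ m : A) : Ω) ∈ F.center := Subgroup.pow_mem _ hw m
    have h1 : tr (a * ((tr a) ^ m)⁻¹) = 1 := by
      have hinv : ((((tr a) ^ m)⁻¹ : A) : Ω) ∈ F.center := Subgroup.inv_mem _ hwm
      rw [htr_mul _ _ hx (hcZS hinv), htr_c _ hinv, inv_pow, ← pow_mul, mul_comm m, pow_mul, hm, mul_inv_cancel]
    have h2 : x * (((tr a) ^ m : A) : Ω)⁻¹ ∈ K :=
      ⟨ZS.mul_mem hx (ZS.inv_mem (hcZS hwm)), h1⟩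
    have h3 := Subgroup.mul_mem _ (Subgroup.mem_sup_right (T := K) h2 : _ ∈ F.center ⊔ K) (Subgroup.mem_sup_left hwm)
    rwa [inv_mul_cancel_right] at h3

end Cfsg.Agent.S5294
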