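import Cfsg.Statements.S5295
import Cfsg.Agent.Lib.GlcE

set_option autoImplicit false
set_option linter.style.haveILetI false
universe u
open Cfsg
open Cfsg.FusionSystem Cfsg.Agent.Lib.FusBase Cfsg.Agent.Lib.FusSat Cfsg.Agent.Lib.FusNormal Cfsg.Agent.Lib.FusNormalB Cfsg.Agent.Lib.FusNKB Cfsg.Agent.Lib.FusPuig Cfsg.Agent.Lib.FusSimple Cfsg.Agent.Lib.ThfA Cfsg.Agent.Lib.ThC Cfsg.Agent.Lib.GlcD

namespace Cfsg.Agent.S5295

/-- the action on the centre -/
def act {Ω : Type*} [Group Ω] {J : Subgroup Ω} : MulAut J →* MulAut (Subgroup.center J) where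
  toFun α :=
    { toFun := fun z => ⟨α z, by
        rw [Subgroup.mem_center_iff]
        intro y
        obtain ⟨y, rfl⟩ := α.surjective y
        rw [← map_mul, ← map_mul, Subgroup.mem_center_iff.1 z.2]⟩
      invFun := fun z => ⟨α.symm z, by
        rw [Subgroup.mem_center_iff]
        intro y
        obtain ⟨y, rfl⟩ := α.symm.surjective y
        rw [← map_mul, ← map_mul, Subgroup.mem_center_iff.1 z.2]⟩
      left_inv := fun z => Subtype.ext (α.symm_apply_apply _)
      right_inv := fun z => Subtype.ext (α.apply_symm_apply _)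
      map_mul' := fun a b => Subtype.ext (map_mul α _ _) }
  map_one' := by ext z; rfl
  map_mul' a b := by ext z; rfl

theorem act_apply {Ω : Type*} [Group Ω] {J : Subgroup Ω} (α : MulAut J) (z : Subgroup.center J) :
    ((act α z : Subgroup.center J) : J) = α z := rfl

theorem eq_one_of {M : Type*} [Group M] {p : ℕ} {w : M} {k n : ℕ} (hw : w ^ p ^ k = 1) (hn : w ^ n = 1)
    (hc : Nat.Coprime n p) : w = 1 := by
  have h1 : orderOf w ∣ p ^ k := orderOf_dvd_of_pow_eq_one hw
  have h2 : orderOf w ∣ n := orderOf_dvd_of_pow_eq_one hn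
  have h3 : orderOf w = 1 := Nat.eq_one_of_dvd_coprimes (hc.symm.pow_left k) h1 h2
  exact orderOf_eq_one_iff.1 h3

/-- Let F be a saturated fusion system over a finite p-group S with p odd. Then the centre Z(F) of F is a direct factor of Z(S): there is a subgroup K of Z(S) with Z(F) ∩ K = 1 and Z(F)K = Z(S). (At the prime 2 this can fail.) -/
theorem result {Ω : Type u} [Group Ω] {S : Subgroup Ω} [Finite S] (p : ℕ) [Fact p.Prime] (hp : p ≠ 2) (hS : IsPGroup p S)
    (F : Cfsg.FusionSystem S) (hF : F.IsSaturated p) :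
    ∃ K : Subgroup Ω, K ≤ (S ⊓ Subgroup.centralizer (S : Set Ω)) ∧ F.center ⊓ K = ⊥ ∧ F.center ⊔ K = (S ⊓ Subgroup.centralizer (S : Set Ω)) := by
  classical
  obtain ⟨J, hJdef⟩ : ∃ J : Subgroup Ω, J = Cfsg.thompsonSubgroupAOf S := ⟨_, rfl⟩
  have hJS : J ≤ S := by rw [hJdef]; exact ja_le S
  have hSJ : S ≤ Subgroup.normalizer (J : Set Ω) := by rw [hJdef]; exact Subgroup.le_normalizer.trans normalizer_ja
  have hJF : F.IsFullyNormalized J := Cfsg.Agent.Lib.QfD.FN_of_norm hJS hSJ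
  have hJc : ∀ t ∈ S, (∀ x ∈ J, x * t = t * x) → t ∈ J := by
    rw [hJdef]; exact fun t ht h => ja_cent ht h
  haveI : Finite J := finite_of_le hJS
  have hprime : p.Prime := Fact.out
  obtain ⟨Z, hZ⟩ : ∃ Z : Subgroup Ω, Z = S ⊓ Subgroup.centralizer (S : Set Ω) := ⟨_, rfl⟩
  rw [← hZ]
  have hZS : Z ≤ S := by rw [hZ]; exact inf_le_left
  have hZc : ∀ z ∈ Z, ∀ s ∈ S, s * z = z * s := fun z hz s hs => by
    rw [hZ] at hz; exact Subgroup.mem_centralizer_iff.1 hz.2 s hs
  have hZJ : ∀ z ∈ Z, z ∈ J := fun z hz => hJc z (hZS hz) fun x hx => hZc z hz x (hJS hx)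
  -- elements of the centre
  have hcen : ∀ y ∈ S, (∀ s ∈ S, s * y = y * s) → (∀ f, Iso F J J f → f y = y) → y ∈ F.center := by
    intro y hy hyc hyf
    refine (mem_center_iff hS hF).2 ⟨hy, Cfsg.Agent.Lib.GlcE.main hS hF y hy hyc (Or.inl hp) ?_⟩
    rw [← hJdef]; exact hyf
  have hcenZ : F.center ≤ Z := by
    intro x hx
    obtain ⟨h1, h2⟩ := (mem_center_iff hS hF).1 hx
    rw [hZ]
    refine ⟨h1, Subgroup.mem_centralizer_iff.2 fun s hs => ?_⟩
    have h3 := h2 _ _ (mor_conj F (P := Subgroup.zpowers x) (by rw [Subgroup.zpowers_le]; exact h1) hs) (Subgroup.mem_zpowers x)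
    rwa [mul_inv_eq_iff_eq_mul] at h3
  -- the norm map
  letI : CommGroup (Subgroup.center J) := { (inferInstance : Group (Subgroup.center J)) with
    mul_comm := fun a b => Subtype.ext (Subgroup.mem_center_iff.1 b.2 a) }
  obtain ⟨B, hB⟩ : ∃ B : Subgroup (F.autGroup J), B = (autInducedBy S J).subgroupOf (F.autGroup J) := ⟨_, rfl⟩
  have hBp : ¬ p ∣ B.index := by rw [hB]; exact (FA_sylIn hS (FN_FA hS hF hJF)).not_dvd
  haveI : Fintype (F.autGroup J ⧸ B) := Fintype.ofFinite _
  let a : F.autGroup J → (Subgroup.center J →* Subgroup.center J) := fun α => (act (α : MulAut J)).toMonoidHom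
  let Nm : Subgroup.center J →* Subgroup.center J := ∏ q : F.autGroup J ⧸ B, a (Quotient.out q)
  have hNm : ∀ m, Nm m = ∏ q : F.autGroup J ⧸ B, a (Quotient.out q) m := fun m => MonoidHom.finset_prod_apply _ _ _
  let j : Z →* Subgroup.center J :=
    { toFun := fun z => ⟨⟨z, hZJ z z.2⟩, by
        rw [Subgroup.mem_center_iff]
        intro y
        exact Subtype.ext (hZc z z.2 y (hJS y.2))⟩
      map_one' := rfl
      map_mul' := fun _ _ => rfl }
  have hj : ∀ z : Z, (((j z : Subgroup.center J) : J) : Ω) = z := fun z => rfl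
  -- `B` fixes the image of `Z`
  have hBfix : ∀ b ∈ B, ∀ z : Z, a b (j z) = j z := by
    intro b hb z
    rw [hB] at hb
    obtain ⟨s, hs, hsb⟩ := mem_autInducedBy.1 (Subgroup.mem_subgroupOf.1 hb)
    apply Subtype.ext
    apply Subtype.ext
    show (((b : MulAut J) ((j z : Subgroup.center J) : J) : J) : Ω) = z
    rw [hsb, hj, hZc z z.2 s hs, mul_inv_cancel_right]
  have hinv : ∀ (α : F.autGroup J) (z : Z), a α (Nm (j z)) = Nm (j z) := by
    intro α z
    rw [hNm, map_prod]
    refine Fintype.prod_equiv (MulAction.toPerm α) _ _ fun q => ?_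
    show a α (a (Quotient.out q) (j z)) = a (Quotient.out (α • q)) (j z)
    have h1 : (QuotientGroup.mk (α * Quotient.out q) : F.autGroup J ⧸ B) = α • q := by
      conv_rhs => rw [← QuotientGroup.out_eq' q]
      rfl
    have h2 : (Quotient.out (α • q))⁻¹ * (α * Quotient.out q) ∈ B := by
      rw [← QuotientGroup.eq, QuotientGroup.out_eq', h1]
    have h3 : a α (a (Quotient.out q) (j z)) = a (Quotient.out (α • q)) (a ((Quotient.out (α • q))⁻¹ * (α * Quotient.out q)) (j z)) := by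
      show act (α : MulAut J) (act ((Quotient.out q : F.autGroup J) : MulAut J) (j z)) = _
      rw [← MulAut.mul_apply, ← map_mul]
      show _ = act ((Quotient.out (α • q) : F.autGroup J) : MulAut J) (act (((Quotient.out (α • q))⁻¹ * (α * Quotient.out q) : F.autGroup J) : MulAut J) (j z))
      rw [← MulAut.mul_apply, ← map_mul]
      congr 2
      rw [← Subgroup.coe_mul, ← Subgroup.coe_mul]
      congr 1
      group
    rw [h3, hBfix _ h2]
  have hNmc : ∀ z : Z, ((Nm (j z) : J) : Ω) ∈ F.center := by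
    intro z
    set y : Subgroup.center J := Nm (j z) with hy
    have hfix : ∀ f, Iso F J J f → f ((y : J) : Ω) = ((y : J) : Ω) := by
      intro f hf
      have h1 := hinv ⟨autOf hf, autOf_mem hf⟩ z
      rw [← hy] at h1
      have h2 := congrArg (fun w : Subgroup.center J => ((w : J) : Ω)) h1
      have h3 : (((autOf hf) (y : J) : J) : Ω) = ((y : J) : Ω) := h2
      rw [autOf_apply] at h3
      exact h3
    refine hcen _ (hJS (y : J).2) (fun s hs => ?_) hfix
    have h1 := hfix _ ((mor_conj F hJS hs).iso_of_map fun x hx => (Subgroup.mem_normalizer_iff.1 (hSJ hs) x).1 hx)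
    rwa [mul_inv_eq_iff_eq_mul] at h1
  have hNmp : ∀ z : Z, (z : Ω) ∈ F.center → Nm (j z) = (j z) ^ B.index := by
    intro z hz
    have h1 : ∀ α : F.autGroup J, a α (j z) = j z := by
      intro α
      apply Subtype.ext
      apply Subtype.ext
      show (((α : MulAut J) ((j z : Subgroup.center J) : J) : J) : Ω) = z
      rw [← fn_apply (α : MulAut J)]
      exact ((mem_center_iff hS hF).1 hz).2 J _ (iso_fn hJS α.2).mor (hZJ z z.2)
    rw [hNm, Finset.prod_congr rfl (fun q _ => h1 _), Finset.prod_const, Finset.card_univ, ← Nat.card_eq_fintype_card]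
    rfl
  have hpow : ∀ y ∈ S, ∃ k, y ^ p ^ k = 1 := fun y hy => orderOf_dvd_card_pow hS hy
  have hco : Nat.Coprime B.index p := ((Nat.Prime.coprime_iff_not_dvd hprime).2 hBp).symm
  refine ⟨((Nm.comp j).ker).map Z.subtype, Subgroup.map_subtype_le _, ?_, ?_⟩
  · rw [eq_bot_iff]
    rintro x ⟨hx1, z, hz, hzx⟩
    have hzx' : (z : Ω) = x := hzx
    have h1 : Nm (j z) = 1 := hz
    rw [hNmp z (by rw [hzx']; exact hx1)] at h1
    have h2 : (z : Ω) ^ B.index = 1 := congrArg (fun w : Subgroup.center J => ((w : J) : Ω)) h1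
    obtain ⟨k, hk⟩ := hpow z (hZS z.2)
    rw [Subgroup.mem_bot, ← hzx']
    exact eq_one_of hk h2 hco
  · refine le_antisymm (sup_le hcenZ (Subgroup.map_subtype_le _)) fun z hz => ?_
    set y : Ω := ((Nm (j ⟨z, hz⟩) : J) : Ω) with hy
    have hyc : y ∈ F.center := hNmc ⟨z, hz⟩
    have hyZ := hcenZ hyc
    obtain ⟨k, hk⟩ := hpow y (hZS hyZ)
    have h3 : Nat.Coprime B.index (orderOf y) :=
      Nat.Coprime.coprime_dvd_right (orderOf_dvd_of_pow_eq_one hk) (hco.pow_right k)
    obtain ⟨l, hl⟩ := exists_pow_eq_self_of_coprime h3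
    have hcl : y ^ l ∈ F.center := Subgroup.pow_mem _ hyc l
    have h4 : (y ^ l)⁻¹ * z ∈ ((Nm.comp j).ker).map Z.subtype := by
      refine ⟨⟨(y ^ l)⁻¹ * z, Z.mul_mem (Z.inv_mem (hcenZ hcl)) hz⟩, ?_, rfl⟩
      have e1 : (⟨(y ^ l)⁻¹ * z, Z.mul_mem (Z.inv_mem (hcenZ hcl)) hz⟩ : Z) = (⟨y ^ l, hcenZ hcl⟩ : Z)⁻¹ * ⟨z, hz⟩ := rfl
      show Nm (j _) = 1
      rw [e1, map_mul, map_mul, map_inv, map_inv, hNmp _ hcl, inv_mul_eq_one]
      apply Subtype.ext
      apply Subtype.ext
      show (y ^ l) ^ B.index = y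
      rw [← pow_mul, mul_comm, pow_mul]; exact hl
    have e2 : z = y ^ l * ((y ^ l)⁻¹ * z) := by group
    rw [e2]
    exact Subgroup.mul_mem _ (Subgroup.mem_sup_left hcl) (Subgroup.mem_sup_right h4)

end Cfsg.Agent.S5295
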