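import Cfsg.Statements.S5315
import Cfsg.Agent.Lib.FusSimple

set_option autoImplicit false
open Cfsg
open Cfsg.Agent.Lib.FusBase Cfsg.Agent.Lib.FusSat Cfsg.Agent.Lib.FusNormal Cfsg.Agent.Lib.FusNormalB Cfsg.Agent.Lib.FusNK Cfsg.Agent.Lib.FusSimple Cfsg.Agent.Lib.FusMor Cfsg.Agent.Lib.FusHyp Cfsg.FusionSystem

namespace Cfsg.Agent.S5315

/-- An analogue of Grün's lemma for fusion systems. Let F be a saturated fusion system over a finite p-group S that is perfect in the sense that its hyperfocal subgroup is all of S (F coincides with its p-residual subsystem). Then the second centre of F equals its centre: every fusion system over S/(Z(F) ∩ S) that is the factor system of F modulo its centre Z(F), read through the quotient map, has trivial centre. -/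
theorem result {Ω : Type*} [Group Ω] {S : Subgroup Ω} [Finite S] (p : ℕ) [Fact p.Prime] (hS : IsPGroup p S) (F : Cfsg.FusionSystem S) (hF : F.IsSaturated p)
    (hperf : F.hyperfocalSubgroup p = S)
    (E : Cfsg.FusionSystem (⊤ : Subgroup (↥S ⧸ (F.center).subgroupOf S)))
    (hE : F.IsFactorSystem F.center (QuotientGroup.mk' ((F.center).subgroupOf S)) E) : E.center = ⊥ := by
  set θ := QuotientGroup.mk' ((F.center).subgroupOf S) with hθ
  have hcen := center_central F
  have hsc := normal_stronglyClosed (central_normal hcen)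
  have hsurj := surj_of_factor hS hF hsc hE
  have hEs := sat_of_surj hS hF hsurj
  have hS' : IsPGroup p (⊤ : Subgroup (S ⧸ F.center.subgroupOf S)) := (hS.to_quotient _).to_subgroup _
  have hker := ker_factor hE
  have hcE := center_central E
  have hcd : ∀ z ∈ F.center, ∀ s ∈ S, s * z = z * s := fun z hz s hs => central_comm hcen hs hz
  rw [eq_bot_iff]
  intro w hw
  obtain ⟨⟨x, hx⟩, rfl⟩ := QuotientGroup.mk_surjective w
  have hw' : ev θ x ∈ E.center := by rw [ev_mem hx]; exact hw
  -- `x⁻¹ f x ∈ Z`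
  have h1 : ∀ P f, Mor F P f → x ∈ P → x⁻¹ * f x ∈ F.center := by
    intro P f hf hxP
    obtain ⟨f', hf', h2⟩ := (isMorphism_iff.1 hsurj.1).2 P f hf
    have h3 := ((mem_center_iff hS' hEs).1 hw').2 _ _ hf' (ev_mem_imageAlong hf.le hxP)
    rw [h2 x hxP] at h3
    rw [← hker, mem_ker']
    refine ⟨S.mul_mem (S.inv_mem hx) (hf.mem hxP), ?_⟩
    rw [ev_mul (S.inv_mem hx) (hf.mem hxP), ev_inv hx, h3]; group
  have hcomm : ∀ u ∈ S, x⁻¹ * (u * x * u⁻¹) ∈ F.center := fun u hu => h1 S _ (mor_conj F le_rfl hu) hx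
  -- `c u = x⁻¹ u x u⁻¹`
  have hcmul : ∀ u ∈ S, ∀ v ∈ S, x⁻¹ * ((u * v) * x * (u * v)⁻¹) = (x⁻¹ * (u * x * u⁻¹)) * (x⁻¹ * (v * x * v⁻¹)) := by
    intro u hu v hv
    have h2 := hcd _ (hcomm v hv) (u * x⁻¹) (S.mul_mem hu (S.inv_mem hx))
    have e1 : x⁻¹ * ((u * v) * x * (u * v)⁻¹) = x⁻¹ * (u * x * ((x⁻¹ * (v * x * v⁻¹))) * u⁻¹) := by group
    have h3 := hcd _ (hcomm v hv) u⁻¹ (S.inv_mem hu)
    rw [e1, mul_assoc (u * x), ← h3]
    group
  have hxc : ∀ s ∈ S, s * x = x * s := by
    have hle : F.hyperfocalSubgroup p ≤ Subgroup.centralizer ({x} : Set Ω) := by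
      unfold FusionSystem.hyperfocalSubgroup
      rw [Subgroup.closure_le]
      rintro _ ⟨P, α, y, hP, hα, rfl⟩
      have hα' := iso_fn hP α.2
      obtain ⟨f', hf', h2⟩ := (isMorphism_iff.1 hsurj.1).2 P _ hα'.mor
      obtain ⟨g', hg', h3, h4⟩ := (isCentral_iff.1 hcE).2 _ _ hf'
      obtain ⟨g, hg, h5⟩ := mor_lift hsurj hg'
      have hyS := hP y.2
      have hyp : (y : Ω) ∈ preimageAlong θ (imageAlong θ P ⊔ E.center) :=
        mem_preimageAlong.2 ⟨hyS, Subgroup.mem_sup_left (ev_mem_imageAlong hP y.2)⟩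
      have hxp : x ∈ preimageAlong θ (imageAlong θ P ⊔ E.center) :=
        mem_preimageAlong.2 ⟨hx, Subgroup.mem_sup_right hw'⟩
      have hαy := hα'.mor.mem y.2
      -- `g y = α y z`, `g x = x z'`
      have h6 : (fn (α : MulAut P) y)⁻¹ * g y ∈ F.center := by
        rw [← hker, mem_ker']
        refine ⟨S.mul_mem (S.inv_mem hαy) (hg.mem hyp), ?_⟩
        rw [ev_mul (S.inv_mem hαy) (hg.mem hyp), ev_inv hαy, ← h5 _ hyp, h3 _ (ev_mem_imageAlong hP y.2), h2 _ y.2]; group
      have h7 := h1 _ _ hg hxp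
      have h8 : g (x⁻¹ * (y * x * (y : Ω)⁻¹)) = x⁻¹ * (y * x * (y : Ω)⁻¹) :=
        central_fix hcen hg (Subgroup.mul_mem _ (Subgroup.inv_mem _ hxp) (Subgroup.mul_mem _ (Subgroup.mul_mem _ hyp hxp) (Subgroup.inv_mem _ hyp))) (hcomm _ hyS)
      rw [hg.mul (Subgroup.inv_mem _ hxp) (Subgroup.mul_mem _ (Subgroup.mul_mem _ hyp hxp) (Subgroup.inv_mem _ hyp)), hg.inv hxp, hg.conj hyp hxp] at h8
      set z := (fn (α : MulAut P) y)⁻¹ * g y with hz
      set z' := x⁻¹ * g x with hz'
      have e1 : g y = fn (α : MulAut P) y * z := by rw [hz]; group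
      have e2 : g x = x * z' := by rw [hz']; group
      have hzc := hcd z h6
      have hzc' := hcd z' h7
      rw [e1, e2] at h8
      have e3 : (x * z')⁻¹ * (fn (α : MulAut P) y * z * (x * z') * (fn (α : MulAut P) y * z)⁻¹) =
          x⁻¹ * (fn (α : MulAut P) y * x * (fn (α : MulAut P) y)⁻¹) := by
        have hzS := hsc.1 h6
        have c1 : z * (x * z') = (x * z') * z := (hzc _ (S.mul_mem hx (hsc.1 h7))).symm
        have c2 : fn (α : MulAut P) y * z * (x * z') * (fn (α : MulAut P) y * z)⁻¹ = fn (α : MulAut P) y * (x * z') * (fn (α : MulAut P) y)⁻¹ := by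
          rw [mul_assoc (fn (α : MulAut P) y), c1]; group
        rw [c2]
        have c3 : z' * (fn (α : MulAut P) y)⁻¹ = (fn (α : MulAut P) y)⁻¹ * z' := (hzc' _ (S.inv_mem hαy)).symm
        have c4 : fn (α : MulAut P) y * (x * z') * (fn (α : MulAut P) y)⁻¹ = fn (α : MulAut P) y * x * (fn (α : MulAut P) y)⁻¹ * z' := by
          rw [← mul_assoc, mul_assoc (fn (α : MulAut P) y * x), c3, ← mul_assoc]
        rw [c4, mul_inv_rev]
        have c5 := hzc' (x⁻¹ * (fn (α : MulAut P) y * x * (fn (α : MulAut P) y)⁻¹)) (S.mul_mem (S.inv_mem hx) (S.mul_mem (S.mul_mem hαy hx) (S.inv_mem hαy)))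
        have c6 : z'⁻¹ * x⁻¹ * (fn (α : MulAut P) y * x * (fn (α : MulAut P) y)⁻¹ * z') = z'⁻¹ * ((x⁻¹ * (fn (α : MulAut P) y * x * (fn (α : MulAut P) y)⁻¹)) * z') := by group
        rw [c6, c5]; group
      rw [e3] at h8
      -- `c (y⁻¹ α y) = 1`
      rw [SetLike.mem_coe, Subgroup.mem_centralizer_singleton_iff, ← fn_apply]
      have h9 : x⁻¹ * (fn (α : MulAut P) y * x * (fn (α : MulAut P) y)⁻¹) = x⁻¹ * (y * x * (y : Ω)⁻¹) := h8
      have h10 : fn (α : MulAut P) y * x * (fn (α : MulAut P) y)⁻¹ = y * x * (y : Ω)⁻¹ := mul_left_cancel h9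
      have h11 : (y : Ω)⁻¹ * (fn (α : MulAut P) y * x * (fn (α : MulAut P) y)⁻¹) * y = x := by rw [h10]; group
      calc (y : Ω)⁻¹ * fn (α : MulAut P) y * x = ((y : Ω)⁻¹ * (fn (α : MulAut P) y * x * (fn (α : MulAut P) y)⁻¹) * y) * ((y : Ω)⁻¹ * fn (α : MulAut P) y) := by group
        _ = x * ((y : Ω)⁻¹ * fn (α : MulAut P) y) := by rw [h11]
    intro s hs
    rw [← hperf] at hs
    exact Subgroup.mem_centralizer_singleton_iff.1 (hle hs)
  -- now `x` is fixed by everything
  have hfix : x ∈ F.center := by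
    rw [mem_center_iff hS hF]
    refine ⟨hx, fun P f hf hxP => ?_⟩
    have hrel := alperin_rel hS hF (fun u v => (u = x ↔ v = x)) (fun _ _ h => h.symm) (fun _ _ _ h h' => h.trans h')
      (by
        intro s hs u hu
        constructor
        · rintro rfl
          rw [hxc s hs]; group
        · intro h
          have h2 : u = s⁻¹ * x * s := by rw [← h]; group
          rw [h2, mul_assoc, ← hxc s hs]; group)
      (by
        intro P _ hP β hβ u hu
        have key : ∀ γ : F.autGroup P, γ ∈ pResidual p (F.autGroup P) → x ∈ P → fn (γ : MulAut P) x = x := by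
          intro γ hγ hxP
          have hγc : γ ∈ Subgroup.closure {g : F.autGroup P | Nat.Coprime (orderOf g) p} := hγ
          clear hγ
          induction hγc using Subgroup.closure_induction with
          | mem γ hγ =>
            have h2 : ∀ n : ℕ, fn ((γ ^ n : F.autGroup P) : MulAut P) x = x * (x⁻¹ * fn (γ : MulAut P) x) ^ n := by
              intro n
              induction n with
              | zero => rw [pow_zero, pow_zero, mul_one]; exact fn_one hxP
              | succ n ih =>
                have h3 := h1 P _ (iso_fn hP γ.2).mor hxP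
                have hcent := h3
                rw [pow_succ']
                show fn ((γ : MulAut P) * ((γ ^ n : F.autGroup P) : MulAut P)) x = _
                rw [fn_mul _ _ hxP, ih]
                have hpw : (x⁻¹ * fn (γ : MulAut P) x) ^ n ∈ P := P.pow_mem (P.mul_mem (P.inv_mem hxP) (fn_mem' _ hxP)) n
                rw [fn_mul' _ hxP hpw, central_fix hcen (iso_fn hP γ.2).mor hpw (Subgroup.pow_mem _ h3 n), pow_succ' (x⁻¹ * fn (γ : MulAut P) x), ← mul_assoc x, mul_inv_cancel_left]
            have h3 := h2 (orderOf γ)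
            rw [pow_orderOf_eq_one] at h3
            have h4 : (x⁻¹ * fn (γ : MulAut P) x) ^ orderOf γ = 1 := by
              have : x = x * (x⁻¹ * fn (γ : MulAut P) x) ^ orderOf γ := by
                rw [← h3]; exact (fn_one hxP).symm
              exact (mul_eq_left.1 this.symm)
            have h5 : x⁻¹ * fn (γ : MulAut P) x ∈ S := hsc.1 (h1 P _ (iso_fn hP γ.2).mor hxP)
            obtain ⟨k, hk⟩ := IsPGroup.iff_orderOf.1 hS ⟨_, h5⟩
            rw [Subgroup.orderOf_mk] at hk
            have h6 : orderOf (x⁻¹ * fn (γ : MulAut P) x) ∣ orderOf γ := orderOf_dvd_of_pow_eq_one h4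
            have h7 : orderOf (x⁻¹ * fn (γ : MulAut P) x) = 1 := by
              rw [hk] at h6 ⊢
              exact Nat.eq_one_of_dvd_coprimes (Nat.Coprime.pow_right k (show Nat.Coprime (orderOf γ) p from hγ)) h6 dvd_rfl
            rw [orderOf_eq_one_iff] at h7
            exact (inv_mul_eq_one.1 h7).symm
          | one => exact fn_one hxP
          | mul a b _ _ ha hb =>
            show fn ((a : MulAut P) * (b : MulAut P)) x = x
            rw [fn_mul _ _ hxP, hb, ha]
          | inv a _ ha =>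
            show fn ((a : MulAut P)⁻¹) x = x
            have := fn_inv_fn (a : MulAut P) hxP
            rwa [ha] at this
        constructor
        · intro h
          rw [h] at hu ⊢
          exact key β hβ hu
        · intro h
          have h2 := fn_mem' (β : MulAut P) hu
          rw [h] at h2
          have h3 := key β⁻¹ (Subgroup.inv_mem _ hβ) h2
          have h4 := fn_inv_fn (β : MulAut P) hu
          rw [h] at h4
          rw [← h4]; exact h3)
      P f hf x hxP
    exact hrel.1 rfl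
  rw [Subgroup.mem_bot]
  exact (QuotientGroup.eq_one_iff (N := F.center.subgroupOf S) (⟨x, hx⟩ : S)).2 hfix

end Cfsg.Agent.S5315
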