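import Cfsg.Statements.S5317
import Mathlib
import Cfsg.Agent.H8.FSim3
import Cfsg.Agent.Lib.GLSL
import Cfsg.Agent.S0268

set_option autoImplicit false
open Cfsg

namespace Cfsg.Agent.S5317

open Cfsg.Agent.H8.FSim in

/-- Let F be a finite field of odd order q with q² ≡ 1 mod 16 (so that a Sylow 2-subgroup of PSL(2,q), dihedral of order the 2-part of (q²−1)/2, has order at least 8). Then the 2-fusion system of PSL(2,F) on a Sylow 2-subgroup is simple: saturated, over a nontrivial 2-group, with no normal subsystem other than the trivial one and itself. -/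
theorem result {F : Type*} [Field F] [Fintype F] (hodd : Fintype.card F % 2 = 1) (h16 : 16 ∣ Fintype.card F ^ 2 - 1)
    (S : Sylow 2 (Matrix.ProjectiveSpecialLinearGroup (Fin 2) F)) :
    (Cfsg.groupFusionSystem (S : Subgroup (Matrix.ProjectiveSpecialLinearGroup (Fin 2) F))).IsSimple 2 := by
  classical
  have h2 : (2 : F) ≠ 0 := by
    intro h0
    have hc : CharP F 2 := CharTwo.of_one_ne_zero_of_two_eq_zero one_ne_zero h0
    obtain ⟨n, -, hn⟩ := FiniteField.card F 2
    rw [hn] at hodd
    have := n.pos.ne'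
    obtain ⟨k, hk⟩ := Nat.exists_eq_succ_of_ne_zero this
    rw [hk, pow_succ, Nat.mul_mod_left] at hodd
    omega
  let z : Matrix.SpecialLinearGroup (Fin 2) F := -1
  refine simple_quat (A := Matrix.SpecialLinearGroup (Fin 2) F) (QuotientGroup.mk' (Subgroup.center _)) (QuotientGroup.mk'_surjective _) z
    ?_ ?_ ?_ ?_ ?_ ?_ ?_ S
  · show (-1 : Matrix.SpecialLinearGroup (Fin 2) F) * -1 = 1
    rw [neg_mul_neg, one_mul]
  · intro h
    have h1 := congrArg (fun g : Matrix.SpecialLinearGroup (Fin 2) F => g.1 0 0) h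
    simp [z] at h1
    have h3 : (2 : F) = 0 := by linear_combination -h1
    exact h2 h3
  · intro x
    rw [QuotientGroup.mk'_apply, QuotientGroup.eq_one_iff, Matrix.SpecialLinearGroup.mem_center_iff]
    constructor
    · rintro ⟨r, hr, hx⟩
      have h3 : r = 1 ∨ r = -1 := by
        rw [Fintype.card_fin] at hr
        rw [pow_two] at hr
        exact mul_self_eq_one_iff.1 hr
      rcases h3 with rfl | rfl
      · left; exact Subtype.ext (by rw [← hx, map_one]; rfl)
      · right; exact Subtype.ext (by rw [← hx, map_neg, map_one]; rfl)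
    · rintro (rfl | rfl)
      · exact ⟨1, one_pow _, by simp⟩
      · refine ⟨-1, by simp, ?_⟩
        rw [map_neg, map_one]; rfl
  · intro x hx
    by_cases h : x = 1
    · exact Or.inl h
    · right
      exact Subtype.ext (Cfsg.Agent.S0268.result (Nat.odd_iff.2 hodd) x h hx)
  · have hq : 2 ≤ Fintype.card F := Fintype.one_lt_card
    have h3 := Cfsg.Agent.Lib.GLSL.card_SL (F := F) 2 (by norm_num)
    rw [Fin.prod_univ_two] at h3
    have h4 : Nat.card (Matrix.SpecialLinearGroup (Fin 2) F) = Fintype.card F * (Fintype.card F ^ 2 - 1) := by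
      apply Nat.eq_of_mul_eq_mul_left (show 0 < Fintype.card F - 1 by omega)
      rw [h3]
      show (Fintype.card F ^ 2 - Fintype.card F ^ 0) * (Fintype.card F ^ 2 - Fintype.card F ^ 1) = _
      obtain ⟨k, hk⟩ : ∃ k, Fintype.card F = k + 1 := ⟨Fintype.card F - 1, by omega⟩
      rw [hk, pow_zero, pow_one, Nat.add_sub_cancel]
      have e1 : (k + 1) ^ 2 - (k + 1) = k * (k + 1) := by
        rw [Nat.sub_eq_iff_eq_add (by nlinarith)]; ring
      rw [e1]; ring
    rw [h4]
    exact h16.mul_left _
  · intro x y hx hy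
    exact sl_conj2 hodd hx hy
  · obtain ⟨u, v, huv⟩ := two_squares hodd (-1)
    refine ⟨⟨!![0, 1; -1, 0], by rw [Matrix.det_fin_two_of]; ring⟩, ⟨!![u, v; v, -u], by rw [Matrix.det_fin_two_of]; linear_combination -huv⟩, ?_, ?_, ?_⟩
    · apply Subtype.ext
      show (!![0, 1; -1, 0] : Matrix (Fin 2) (Fin 2) F) * !![0, 1; -1, 0] = -1
      ext i j
      fin_cases i <;> fin_cases j <;> simp [Matrix.mul_apply, Fin.sum_univ_two]
    · apply Subtype.ext
      show (!![u, v; v, -u] : Matrix (Fin 2) (Fin 2) F) * !![u, v; v, -u] = -1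
      ext i j
      fin_cases i <;> fin_cases j <;> simp [Matrix.mul_apply, Fin.sum_univ_two] <;> first | linear_combination huv | ring
    · apply Subtype.ext
      show (!![0, 1; -1, 0] : Matrix (Fin 2) (Fin 2) F) * !![u, v; v, -u] = (-1 : Matrix (Fin 2) (Fin 2) F) * ((!![u, v; v, -u] : Matrix (Fin 2) (Fin 2) F) * !![0, 1; -1, 0])
      ext i j
      fin_cases i <;> fin_cases j <;> simp [Matrix.mul_apply, Fin.sum_univ_two]

end Cfsg.Agent.S5317
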