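import Cfsg.Statements.S5521
import Cfsg.Agent.Lib.Golay.Sets
import Cfsg.Agent.Lib.Golay.Search

set_option autoImplicit false
open Cfsg

namespace Cfsg.Agent.S5521

open Cfsg Cfsg.Agent.Lib.Golay

theorem exists_nontriv {B : Finset GolayPt} (hB : B.card ≤ 6) : ∃ g ∈ M24, g ≠ 1 ∧ ∀ b ∈ B, g b = b := by
  obtain ⟨E, hBE, hE⟩ := Finset.exists_superset_card_eq (n := 6) hB (by
    rw [show Fintype.card GolayPt = 24 by decide]; norm_num)
  suffices h : ∃ g ∈ M24, g ≠ 1 ∧ ∀ b ∈ E, g b = b by
    obtain ⟨g, hg, h1, h2⟩ := h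
    exact ⟨g, hg, h1, fun b hb => h2 b (hBE hb)⟩
  obtain ⟨x, hx1, hx2⟩ := exists_seq5 (s := E) (n := 6) (by rw [hE])
  have hxE : ∀ p ∈ E, ∃ i < 6, x i = p := by
    have h1 : (Finset.range 6).image x ⊆ E := by
      intro p hp
      obtain ⟨i, hi, rfl⟩ := Finset.mem_image.1 hp
      exact hx1 i (Finset.mem_range.1 hi)
    have h2 : ((Finset.range 6).image x).card = 6 := by
      rw [Finset.card_image_of_injOn, Finset.card_range]
      intro i hi j hj hij
      simp only [Finset.coe_range, Set.mem_Iio] at hi hj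
      by_contra hne
      rcases Nat.lt_or_gt_of_ne hne with h | h
      · exact hx2 j hj i h hij
      · exact hx2 i hi j h hij.symm
    have h3 := Finset.eq_of_subset_of_card_le h1 (by rw [h2, hE])
    intro p hp
    rw [← h3] at hp
    obtain ⟨i, hi, e⟩ := Finset.mem_image.1 hp
    exact ⟨i, Finset.mem_range.1 hi, e⟩
  obtain ⟨k, hk, hkx⟩ := exists_map5 x (fun i hi j hj => hx2 i (by omega) j hj) 5 le_rfl
  -- the sixth point pulled back
  have key : ∃ g ∈ M24, g ≠ 1 ∧ (∀ i < 5, g (pt (bpt i)) = pt (bpt i)) ∧ g (k.symm (x 5)) = k.symm (x 5) := by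
    have h6 : k.symm (x 5) ∈ st (omask 5) ∨ k.symm (x 5) ∉ st (omask 5) := em _
    have hdat : ∀ p : GolayPt, (∀ i < 5, p ≠ pt (bpt i)) →
        (list48.any (fun c => !(c == idc) && (img c (ix p) == ix p))) = true := by decide +kernel
    have hp : ∀ i < 5, k.symm (x 5) ≠ pt (bpt i) := by
      intro i hi h
      rw [Equiv.symm_apply_eq, hkx i hi] at h
      exact hx2 5 (by norm_num) i (by omega) h.symm
    have h1 := hdat _ hp
    rw [List.any_eq_true] at h1
    obtain ⟨c, hc, h2⟩ := h1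
    rw [Bool.and_eq_true, Bool.not_eq_true', beq_eq_false_iff_ne, beq_iff_eq] at h2
    have hcv := (list48_spec c hc).1
    have hcc := list48_mem_chain c hc
    refine ⟨pm c, hcc.1, ?_, ?_, ?_⟩
    · intro h
      apply h2.1
      rw [← (list48_spec c hc).2, h, ← pm_idc, codeOf_idc]
    · intro i hi
      have hb : ∀ i < 5, pt (bpt i) ∈ st (bmask 5) := by decide +kernel
      exact hcc.2 _ (hb i hi)
    · apply ix_inj
      rw [ix_pm hcv]
      exact h2.2
  obtain ⟨g, hg, g1, g2, g3⟩ := key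
  refine ⟨k * g * k⁻¹, M24.mul_mem (M24.mul_mem hk hg) (M24.inv_mem hk), ?_, ?_⟩
  · intro h
    apply g1
    have : g = k⁻¹ * (k * g * k⁻¹) * k := by group
    rw [this, h]; group
  · intro b hb
    obtain ⟨i, hi, rfl⟩ := hxE b hb
    rw [Equiv.Perm.mul_apply, Equiv.Perm.mul_apply]
    show k (g (k.symm (x i))) = x i
    by_cases h5 : i = 5
    · subst h5; rw [g3, Equiv.apply_symm_apply]
    · have : k.symm (x i) = pt (bpt i) := by rw [Equiv.symm_apply_eq, hkx i (by omega)]
      rw [this, g2 i (by omega), hkx i (by omega)]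

/-- The Mathieu group M₂₄ in its natural action on the 24 coordinate positions of the binary Golay code has minimal base size exactly 7: every set of at most 6 positions is fixed pointwise by some non-identity element of M₂₄, while some set of 7 positions is fixed pointwise only by the identity. -/
theorem result :
    (∀ B : Finset Cfsg.GolayPt, B.card ≤ 6 → ∃ g ∈ Cfsg.M24, g ≠ 1 ∧ ∀ b ∈ B, g b = b) ∧
    (∃ B : Finset Cfsg.GolayPt, B.card = 7 ∧ ∀ g ∈ Cfsg.M24, (∀ b ∈ B, g b = b) → g = 1) := by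
  refine ⟨fun B hB => exists_nontriv hB, st (bmask 7), by rw [card_st]; decide +kernel, ?_⟩
  intro g hg h
  have : g ∈ chain 7 := ⟨hg, h⟩
  rw [chain_seven, Subgroup.mem_bot] at this
  exact this

end Cfsg.Agent.S5521
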