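import Cfsg.Statements.S5562
import Cfsg.Agent.Lib.ThreeT.Basic

set_option autoImplicit false
open Cfsg

namespace Cfsg.Agent.S5562

/-- Let G be a finite group, d an involution of G whose conjugates pairwise have products of odd order, and x any involution of G. Then the conjugacy class of d is the disjoint union, over the conjugates a of d commuting with x, of the sets of conjugates of d commuting with ax: every conjugate of d commutes with ax for exactly one conjugate a of d that commutes with x. -/
theorem result {G : Type*} [Group G] [Finite G] (d : G) (hd : orderOf d = 2)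
    (hodd : ∀ a ∈ conjugatesOf d, ∀ b ∈ conjugatesOf d, Odd (orderOf (a * b)))
    (x : G) (hx : orderOf x = 2) :
    ∀ e ∈ conjugatesOf d,
      ∃! a : G, a ∈ conjugatesOf d ∧ Commute a x ∧ Commute e (a * x) := by
  intro e he
  have hsq : ∀ y : G, orderOf y = 2 → y * y = 1 := by
    intro y hy
    have := pow_orderOf_eq_one y; rwa [hy, sq] at this
  have hconj : ∀ g : G, ∀ y ∈ conjugatesOf d, g * y * g⁻¹ ∈ conjugatesOf d := by
    intro g y hy
    exact (show IsConj d y from hy).trans (isConj_iff.2 ⟨g, rfl⟩)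
  have hD2 : ∀ y ∈ conjugatesOf d, y * y = 1 := by
    intro y hy
    apply hsq
    obtain ⟨g, rfl⟩ := isConj_iff.1 (show IsConj d y from hy)
    rw [← hd]
    exact orderOf_injective (MulAut.conj g).toMonoidHom (MulAut.conj g).injective d
  have hxx := hsq x hx
  have hxi : x⁻¹ = x := inv_eq_of_mul_eq_one_right hxx
  have hee := hD2 e he
  have hei : e⁻¹ = e := inv_eq_of_mul_eq_one_right hee
  have hex : x * e * x ∈ conjugatesOf d := by
    have := hconj x e he; rwa [hxi] at this
  obtain ⟨k, hk⟩ := hodd e he _ hex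
  set u := e * (x * e * x) with hu
  have huo : u ^ (2 * k + 1) = 1 := by rw [← hk]; exact pow_orderOf_eq_one _
  have heu : e * u * e = u⁻¹ := by
    rw [hu]
    have e1 : (e * (x * e * x))⁻¹ = x * e * x * e := by
      simp only [mul_inv_rev, hei, hxi, mul_assoc]
    rw [e1]
    calc e * (e * (x * e * x)) * e = (e * e) * (x * e * x) * e := by group
      _ = x * e * x * e := by rw [hee, one_mul]
  have hxu : x * u * x = u⁻¹ := by
    rw [hu]
    have e1 : (e * (x * e * x))⁻¹ = x * e * x * e := by
      simp only [mul_inv_rev, hei, hxi, mul_assoc]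
    rw [e1]
    calc x * (e * (x * e * x)) * x = x * e * x * e * (x * x) := by group
      _ = x * e * x * e := by rw [hxx, mul_one]
  have heun : ∀ n : ℕ, e * u ^ n * e = (u ^ n)⁻¹ := by
    intro n
    have h1 := conj_pow (a := e) (b := u) (i := n)
    rw [hei, heu] at h1
    rw [← h1, inv_pow]
  have hxun : ∀ n : ℕ, x * u ^ n * x = (u ^ n)⁻¹ := by
    intro n
    have h1 := conj_pow (a := x) (b := u) (i := n)
    rw [hxi, hxu] at h1
    rw [← h1, inv_pow]
  have heq : ∀ n : ℕ, u ^ n * e = e * (u ^ n)⁻¹ := by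
    intro n
    rw [← heun n]
    calc u ^ n * e = (e * e) * u ^ n * e := by rw [hee, one_mul]
      _ = e * (e * u ^ n * e) := by group
  -- the element
  have hP : e * u ^ (k + 1) ∈ conjugatesOf d ∧ Commute (e * u ^ (k + 1)) x ∧
      Commute e (e * u ^ (k + 1) * x) := by
   refine ⟨?_, ?_, ?_⟩
   · -- conjugate of e
     have h1 := hconj ((u ^ ((k + 1) * (k + 1)))⁻¹) e he
     rw [inv_inv] at h1
     have h2 : (u ^ ((k + 1) * (k + 1)))⁻¹ * e * u ^ ((k + 1) * (k + 1)) = e * u ^ (k + 1) := by
       have h3 : (u ^ ((k + 1) * (k + 1)))⁻¹ * e = e * u ^ ((k + 1) * (k + 1)) := by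
         have := heq ((k + 1) * (k + 1))
         calc (u ^ ((k + 1) * (k + 1)))⁻¹ * e = (u ^ ((k + 1) * (k + 1)))⁻¹ * (e * (u ^ ((k + 1) * (k + 1)))⁻¹) * u ^ ((k + 1) * (k + 1)) := by group
           _ = (u ^ ((k + 1) * (k + 1)))⁻¹ * (u ^ ((k + 1) * (k + 1)) * e) * u ^ ((k + 1) * (k + 1)) := by rw [this]
           _ = e * u ^ ((k + 1) * (k + 1)) := by group
       rw [h3, mul_assoc, ← pow_add]
       have h4 : (k + 1) * (k + 1) + (k + 1) * (k + 1) = (2 * k + 1) * (k + 1) + (k + 1) := by ring
       rw [h4, pow_add, pow_mul, huo, one_pow, one_mul]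
     rw [h2] at h1; exact h1
   · -- commutes with x
     have h1 : x * e * x = e * u := by
       rw [hu, ← mul_assoc, hee, one_mul]
     change e * u ^ (k + 1) * x = x * (e * u ^ (k + 1))
     have h2 : x * (e * u ^ (k + 1)) * x = e * u ^ (k + 1) := by
       calc x * (e * u ^ (k + 1)) * x = (x * e * x) * (x⁻¹ * u ^ (k + 1) * x) := by group
         _ = e * u * (u ^ (k + 1))⁻¹ := by rw [h1, hxi, hxun]
         _ = e * (u ^ (2 * k + 1) * u * (u ^ (k + 1))⁻¹) := by rw [huo, one_mul]; group
         _ = e * u ^ (k + 1) := by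
           rw [← pow_succ, show 2 * k + 1 + 1 = (k + 1) + (k + 1) by ring, pow_add]; group
     calc e * u ^ (k + 1) * x = x * (e * u ^ (k + 1)) * x * x := by rw [h2]
       _ = x * (e * u ^ (k + 1)) := by rw [mul_assoc, hxx, mul_one]
   · have h1 : x * e * x = e * u := by
       rw [hu, ← mul_assoc, hee, one_mul]
     have h3 : e * u ^ (k + 1) * (x * e * x) * (e * u ^ (k + 1))⁻¹ = e := by
       rw [h1, mul_inv_rev, hei]
       calc e * u ^ (k + 1) * (e * u) * ((u ^ (k + 1))⁻¹ * e)
           = (e * u ^ (k + 1) * e) * (u * (u ^ (k + 1))⁻¹) * e := by group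
         _ = (u ^ (k + 1))⁻¹ * (u * (u ^ (k + 1))⁻¹) * e := by rw [heun]
         _ = (u ^ (2 * k + 1))⁻¹ * e := by
             have e9 : (u ^ (k + 1))⁻¹ * (u * (u ^ (k + 1))⁻¹) = (u ^ (2 * k + 1))⁻¹ := by group
             rw [e9]
         _ = e := by rw [huo, inv_one, one_mul]
     change e * (e * u ^ (k + 1) * x) = e * u ^ (k + 1) * x * e
     calc e * (e * u ^ (k + 1) * x) = (e * u ^ (k + 1) * (x * e * x) * (e * u ^ (k + 1))⁻¹) * (e * u ^ (k + 1) * x) := by rw [h3]
       _ = e * u ^ (k + 1) * x * e * (x * x) := by group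
       _ = e * u ^ (k + 1) * x * e := by rw [hxx, mul_one]
  refine ⟨e * u ^ (k + 1), hP, ?_⟩
  · -- uniqueness
    have huniq : ∀ a a' : G, (a ∈ conjugatesOf d ∧ Commute a x ∧ Commute e (a * x)) →
        (a' ∈ conjugatesOf d ∧ Commute a' x ∧ Commute e (a' * x)) → a = a' := by
      rintro a a' ⟨ha, hax, hea⟩ ⟨ha', hax', hea'⟩
      have haa := hD2 a ha
      have haa' := hD2 a' ha'
      have hai : a⁻¹ = a := inv_eq_of_mul_eq_one_right haa
      have hai' : a'⁻¹ = a' := inv_eq_of_mul_eq_one_right haa'
      -- e commutes with a a'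
      have hw : Commute e (a * a') := by
        have e1 : a * a' = (a * x) * (a' * x) := by
          calc a * a' = a * (x * x) * a' := by rw [hxx, mul_one]
            _ = a * x * (x * a') := by group
            _ = a * x * (a' * x) := by rw [hax'.eq]
        rw [e1]; exact hea.mul_right hea'
      set w := a * a' with hwdef
      have hwi : w⁻¹ = a' * a := by rw [hwdef, mul_inv_rev, hai, hai']
      have haw : a * w * a = w⁻¹ := by
        rw [hwi, hwdef]
        calc a * (a * a') * a = (a * a) * a' * a := by group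
          _ = a' * a := by rw [haa, one_mul]
      -- (e a) inverts w and has odd order
      obtain ⟨n, hn⟩ := hodd e he a ha
      have hinv : ∀ j : ℕ, (e * a) ^ (2 * j + 1) * w * ((e * a) ^ (2 * j + 1))⁻¹ = w⁻¹ := by
        have h1 : (e * a) * w * (e * a)⁻¹ = w⁻¹ := by
          rw [mul_inv_rev, hai]
          calc e * a * w * (a * e⁻¹) = e * (a * w * a) * e⁻¹ := by group
            _ = e * w⁻¹ * e⁻¹ := by rw [haw]
            _ = w⁻¹ := by rw [(hw.inv_right).eq]; group
        intro j
        induction j with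
        | zero => simpa using h1
        | succ j ih =>
          have e1 : (e * a) ^ (2 * (j + 1) + 1) = (e * a) ^ (2 * j + 1) * ((e * a) * (e * a)) := by
            rw [← sq, ← pow_add]; congr 1
          have h2 : (e * a) * (e * a) * w * ((e * a) * (e * a))⁻¹ = w := by
            calc (e * a) * (e * a) * w * ((e * a) * (e * a))⁻¹ = (e * a) * ((e * a) * w * (e * a)⁻¹) * (e * a)⁻¹ := by group
              _ = (e * a) * w⁻¹ * (e * a)⁻¹ := by rw [h1]
              _ = ((e * a) * w * (e * a)⁻¹)⁻¹ := by group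
              _ = w := by rw [h1, inv_inv]
          rw [e1, mul_inv_rev]
          calc (e * a) ^ (2 * j + 1) * (e * a * (e * a)) * w * ((e * a * (e * a))⁻¹ * ((e * a) ^ (2 * j + 1))⁻¹)
              = (e * a) ^ (2 * j + 1) * (e * a * (e * a) * w * (e * a * (e * a))⁻¹) * ((e * a) ^ (2 * j + 1))⁻¹ := by
                simp only [mul_assoc]
            _ = w⁻¹ := by rw [h2, ih]
      have h3 := hinv n
      rw [← hn, pow_orderOf_eq_one, one_mul, inv_one, mul_one] at h3
      obtain ⟨m, hm⟩ := hodd a ha a' ha'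
      have h4 : w ^ (2 * m + 1) = 1 := by rw [← hm]; exact pow_orderOf_eq_one _
      have h5 : w * w = 1 := by
        calc w * w = w * w⁻¹ := by rw [← h3]
          _ = 1 := mul_inv_cancel w
      have h6 : w = 1 := by
        rw [pow_succ, pow_mul, sq, h5, one_pow, one_mul] at h4; exact h4
      rw [hwdef] at h6
      rw [← hai']; exact eq_inv_of_mul_eq_one_left h6
    intro a' ha'
    exact huniq a' _ ha' hP

end Cfsg.Agent.S5562
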