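import Cfsg.Statements.S5596
import Cfsg.Agent.Lib.LargeExC

set_option autoImplicit false
open Cfsg

namespace Cfsg.Agent.S5596

open Subgroup Cfsg.Agent.Lib.LargeEx
open scoped commutatorElement

/-- Setting: `z` is an involution of the finite group `G`; for each element `x`, `Q x` is the largest normal 2-subgroup of the centralizer of `x`; `Q z` is extraspecial and contains its own centralizer in `G`. A subgroup `U` is singular when it is elementary abelian, every non-identity element of `U` is conjugate to `z`, and any two non-identity elements `u`, `v` of `U` are orthogonal (`v ∈ Q u`). Write `QU` for the intersection of the `Q u` and `LU` for the join of the `Q u` over the non-identity `u` in `U`. If `U` is singular of order `2 ^ n` with `n ≥ 2`, then `U ≤ QU ≤ LU`, `LU` normalizes `U`, and `LU` induces on `U` its full automorphism group (the general linear group of dimension `n` over the field with two elements): every automorphism of `U` is conjugation by some element of `LU`. -/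
theorem result {G : Type*} [Group G] [Finite G]
    (Q : G → Subgroup G)
    (hQ : ∀ x : G, Q x = (Cfsg.pCore 2 ↥(Subgroup.centralizer ({x} : Set G))).map (Subgroup.centralizer ({x} : Set G)).subtype)
    (z : G) (hz : orderOf z = 2) (hE : Cfsg.IsExtraspecial 2 ↥(Q z))
    (hC : Subgroup.centralizer ((Q z : Subgroup G) : Set G) ≤ Q z)
    (U : Subgroup G) (hU2 : ∀ u ∈ U, u * u = 1)
    (hS : ∀ u ∈ U, u ≠ 1 → ∃ g : G, g * z * g⁻¹ = u)
    (hO : ∀ u ∈ U, ∀ v ∈ U, u ≠ 1 → v ≠ 1 → v ∈ Q u)
    (QU LU : Subgroup G) (hQU : QU = ⨅ u ∈ ((U : Set G) \ {1}), Q u) (hLU : LU = ⨆ u ∈ ((U : Set G) \ {1}), Q u)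
    (n : ℕ) (hn : 2 ≤ n) (hcard : Nat.card ↥U = 2 ^ n) :
    U ≤ QU ∧ QU ≤ LU ∧ LU ≤ Subgroup.normalizer (U : Set G) ∧
      ∀ φ : ↥U ≃* ↥U, ∃ g ∈ LU, ∀ u : ↥U, g * (u : G) * g⁻¹ = ((φ u : ↥U) : G) := by
  have L := fam_LE hQ hz hE hC
  have hU1 : ∀ u ∈ U, u ≠ 1 → LE (Q u) u := fun u hu h => fam_LE' hQ L (hS u hu h)
  have hUQ : ∀ u ∈ U, u ≠ 1 → U ≤ Q u := by
    intro u hu h v hv
    by_cases hv1 : v = 1
    · rw [hv1]; exact one_mem _
    · exact hO u hu v hv h hv1
  have hnorm : LU ≤ normalizer (U : Set G) := by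
    rw [hLU]
    refine iSup₂_le fun u hu => ?_
    have h1 : ∀ y ∈ Q u, ∀ v ∈ U, y * v * y⁻¹ ∈ U := by
      intro y hy v hv
      have h2 : y * v * y⁻¹ = ⁅y, v⁆ * v := by rw [commutatorElement_def]; group
      rw [h2]
      refine mul_mem ?_ hv
      rcases (hU1 u hu.1 hu.2).comm y hy v (hUQ u hu.1 hu.2 hv) with h | h <;> rw [h]
      · exact one_mem _
      · exact hu.1
    intro y hy
    rw [mem_normalizer_iff]
    intro e
    refine ⟨h1 y hy e, fun h => ?_⟩
    have := h1 y⁻¹ (inv_mem hy) _ h
    have e' : y⁻¹ * (y * e * y⁻¹) * y⁻¹⁻¹ = e := by group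
    rwa [e'] at this
  have hUbot : ∃ u ∈ U, u ≠ 1 := by
    by_contra hcon
    push Not at hcon
    have h1 : U = ⊥ := (eq_bot_iff_forall U).mpr hcon
    rw [h1, card_bot] at hcard
    have : 1 < 2 ^ n := Nat.one_lt_two_pow (by omega)
    omega
  refine ⟨?_, ?_, hnorm, ?_⟩
  · rw [hQU]
    exact le_iInf₂ fun u hu => hUQ u hu.1 hu.2
  · obtain ⟨u, hu, hu1⟩ := hUbot
    rw [hQU, hLU]
    refine (iInf₂_le u ⟨hu, hu1⟩).trans ?_
    exact le_iSup₂_of_le u ⟨hu, hu1⟩ le_rfl
  · intro φ
    -- a maximal subgroup of `U` on which `φ` agrees with an element of `LU`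
    have hUc : ∀ u ∈ U, ∀ v ∈ U, u * v = v * u := by
      intro u hu v hv
      have h1 := hU2 (u * v) (mul_mem hu hv)
      calc u * v = u * (u * v * (u * v)) * v := by rw [h1]; group
        _ = (u * u) * v * u * (v * v) := by group
        _ = v * u := by rw [hU2 u hu, hU2 v hv]; group
    obtain ⟨W, ⟨hWU, g, hg, hgW⟩, hmax⟩ := Set.exists_max_image
      {W : Subgroup G | W ≤ U ∧ ∃ g ∈ LU, ∀ (u : G) (hu : u ∈ U), u ∈ W → g * u * g⁻¹ = ((φ ⟨u, hu⟩ : ↥U) : G)}
      (fun W => Nat.card W) (Set.toFinite _)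
      ⟨⊥, bot_le, 1, one_mem _, fun u hu h => by
        rw [mem_bot] at h
        subst h
        have : (⟨1, hu⟩ : U) = 1 := rfl
        rw [this, map_one]; simp⟩
    by_cases hWe : W = U
    · exact ⟨g, hg, fun u => hgW u u.2 (by rw [hWe]; exact u.2)⟩
    · exfalso
      obtain ⟨v, hv, hvW⟩ := SetLike.exists_of_lt (lt_of_le_of_ne hWU hWe)
      -- `s = g⁻¹ φ(v) g`
      have hgN := hnorm hg
      set s : G := g⁻¹ * ((φ ⟨v, hv⟩ : ↥U) : G) * g with hs
      have hsU : s ∈ U := by
        have := (mem_normalizer_iff.mp (inv_mem hgN) _).mp (φ ⟨v, hv⟩).2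
        rwa [inv_inv] at this
      have hsW : s ∉ W := by
        intro h
        have h1 := hgW s hsU h
        have h2 : g * s * g⁻¹ = ((φ ⟨v, hv⟩ : ↥U) : G) := by rw [hs]; group
        rw [h2] at h1
        have h3 := φ.injective (Subtype.ext h1)
        exact hvW (by rw [show v = s from congrArg Subtype.val h3]; exact h)
      -- find `t ∈ LU` with `t = 1` on `W` and `t v t⁻¹ = s`
      have ht : ∃ t ∈ LU, (∀ w ∈ W, t * w * t⁻¹ = w) ∧ t * v * t⁻¹ = s := by
        by_cases hvs : v = s
        · exact ⟨1, one_mem _, fun w _ => by group, by rw [← hvs]; group⟩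
        set u : G := s * v with hu
        have huU : u ∈ U := mul_mem hsU hv
        have hu1 : u ≠ 1 := by
          intro h
          apply hvs
          calc v = (s * s) * v := by rw [hU2 s hsU, one_mul]
            _ = s * (s * v) := by group
            _ = s := by rw [← hu, h, mul_one]
        have Lu := hU1 u huU hu1
        have hui : u⁻¹ = u := inv_eq_of_mul_eq_one_left (hU2 u huU)
        let W' : Subgroup G :=
          { carrier := {x | x ∈ U ∧ (x ∈ W ∨ x * u ∈ W)}
            one_mem' := ⟨one_mem _, Or.inl (one_mem _)⟩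
            mul_mem' := by
              rintro x y ⟨hx, hx'⟩ ⟨hy, hy'⟩
              refine ⟨mul_mem hx hy, ?_⟩
              have e : x * u * y = x * y * u := by rw [mul_assoc, hUc u huU y hy, mul_assoc]
              rcases hx' with hx' | hx' <;> rcases hy' with hy' | hy'
              · exact Or.inl (mul_mem hx' hy')
              · right; rw [mul_assoc]; exact mul_mem hx' hy'
              · right; rw [← e]; exact mul_mem hx' hy'
              · left
                have e2 : x * y = (x * u) * (y * u) := by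
                  rw [← mul_assoc, e, mul_assoc, hU2 u huU, mul_one]
                rw [e2]; exact mul_mem hx' hy'
            inv_mem' := by
              rintro x ⟨hx, hx'⟩
              refine ⟨inv_mem hx, ?_⟩
              rcases hx' with hx' | hx'
              · exact Or.inl (inv_mem hx')
              · right
                have e : x⁻¹ * u = (x * u)⁻¹ := by
                  rw [mul_inv_rev, hui, hUc u huU _ (inv_mem hx)]
                rw [e]; exact inv_mem hx' }
        have hW'U : W' ≤ U := fun x hx => hx.1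
        have huW' : u ∈ W' := ⟨huU, Or.inr (by rw [hU2 u huU]; exact one_mem _)⟩
        have hvW' : v ∉ W' := by
          rintro ⟨-, h | h⟩
          · exact hvW h
          · apply hsW
            have e : v * u = s := by
              rw [hu, hUc s hsU v hv, ← mul_assoc, hU2 v hv, one_mul]
            rwa [e] at h
        have h1 : ∃ c ∈ Q u, (∀ w ∈ W', c * w = w * c) ∧ c * v ≠ v * c := by
          by_contra hcon
          push Not at hcon
          exact hvW' (Lu.dc W' (hW'U.trans (hUQ u huU hu1)) huW' v (hUQ u huU hu1 hv) hcon)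
        obtain ⟨c, hc, hcW, hcv⟩ := h1
        refine ⟨c, ?_, fun w hw => ?_, ?_⟩
        · rw [hLU]
          exact Subgroup.mem_iSup_of_mem u (Subgroup.mem_iSup_of_mem ⟨huU, hu1⟩ hc)
        · rw [mul_inv_eq_iff_eq_mul]
          exact hcW w ⟨hWU hw, Or.inl hw⟩
        · rcases Lu.conj_cases (hUQ u huU hu1 hv) hc with h | h
          · exfalso
            apply hcv
            rwa [mul_inv_eq_iff_eq_mul] at h
          · rw [h, hu, mul_assoc, hU2 v hv, mul_one]
      obtain ⟨t, htL, htW, htv⟩ := ht
      let W'' : Subgroup G :=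
        { carrier := {x | ∃ h : x ∈ U, (g * t) * x * (g * t)⁻¹ = ((φ ⟨x, h⟩ : ↥U) : G)}
          one_mem' := ⟨one_mem _, by
            have : (⟨1, one_mem _⟩ : U) = 1 := rfl
            rw [this, map_one]; simp⟩
          mul_mem' := by
            rintro x y ⟨hx, hx'⟩ ⟨hy, hy'⟩
            refine ⟨mul_mem hx hy, ?_⟩
            have : (⟨x * y, mul_mem hx hy⟩ : U) = ⟨x, hx⟩ * ⟨y, hy⟩ := rfl
            rw [this, map_mul, coe_mul, ← hx', ← hy']; group
          inv_mem' := by
            rintro x ⟨hx, hx'⟩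
            refine ⟨inv_mem hx, ?_⟩
            have : (⟨x⁻¹, inv_mem hx⟩ : U) = ⟨x, hx⟩⁻¹ := rfl
            rw [this, map_inv, coe_inv, ← hx']; group }
      have hWW : W ≤ W'' := by
        intro w hw
        refine ⟨hWU hw, ?_⟩
        rw [← hgW w (hWU hw) hw]
        calc g * t * w * (g * t)⁻¹ = g * (t * w * t⁻¹) * g⁻¹ := by group
          _ = g * w * g⁻¹ := by rw [htW w hw]
      have h1 := hmax W'' ⟨fun x hx => hx.1, g * t, mul_mem hg htL, fun u hu h => h.2⟩
      have h2 : W = W'' := Subgroup.eq_of_le_of_card_ge hWW h1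
      apply hvW
      rw [h2]
      refine ⟨hv, ?_⟩
      calc g * t * v * (g * t)⁻¹ = g * (t * v * t⁻¹) * g⁻¹ := by group
        _ = ((φ ⟨v, hv⟩ : ↥U) : G) := by rw [htv, hs]; group

end Cfsg.Agent.S5596
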