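import Cfsg.Statements.S5597
import Cfsg.Agent.Lib.LargeExC

set_option autoImplicit false
open Cfsg

namespace Cfsg.Agent.S5597

open Subgroup Cfsg.Agent.Lib.LargeEx
open scoped commutatorElement

/-- Setting: `z` is an involution of the finite group `G`; for each element `x`, `Q x` is the largest normal 2-subgroup of the centralizer of `x`; `Q z` is extraspecial and contains its own centralizer in `G`. A subgroup `U` is singular when it is elementary abelian, every non-identity element of `U` is conjugate to `z`, and any two non-identity elements `u`, `v` of `U` are orthogonal (`v ∈ Q u`). Write `QU` for the intersection of the `Q u` and `LU` for the join of the `Q u` over the non-identity `u` in `U`. If `U` is a non-trivial singular subgroup, then `LU` acts trivially on `QU / U` (every commutator of an element of `LU` with an element of `QU` lies in `U`), and for every `x` in `QU` outside `U` the centralizer of `U` in `LU` permutes the coset `x U` transitively: each `x u`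 with `u ∈ U` is a conjugate of `x` by an element of `LU` centralizing `U`. -/
theorem result {G : Type*} [Group G] [Finite G]
    (Q : G → Subgroup G)
    (hQ : ∀ x : G, Q x = (Cfsg.pCore 2 ↥(Subgroup.centralizer ({x} : Set G))).map (Subgroup.centralizer ({x} : Set G)).subtype)
    (z : G) (hz : orderOf z = 2) (hE : Cfsg.IsExtraspecial 2 ↥(Q z))
    (hC : Subgroup.centralizer ((Q z : Subgroup G) : Set G) ≤ Q z)
    (U : Subgroup G) (hU2 : ∀ u ∈ U, u * u = 1)
    (hS : ∀ u ∈ U, u ≠ 1 → ∃ g : G, g * z * g⁻¹ = u)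
    (hO : ∀ u ∈ U, ∀ v ∈ U, u ≠ 1 → v ≠ 1 → v ∈ Q u)
    (QU LU : Subgroup G) (hQU : QU = ⨅ u ∈ ((U : Set G) \ {1}), Q u) (hLU : LU = ⨆ u ∈ ((U : Set G) \ {1}), Q u)
    (hU : U ≠ ⊥) :
    (∀ g ∈ LU, ∀ x ∈ QU, g * x * g⁻¹ * x⁻¹ ∈ U) ∧
      ∀ x ∈ QU, x ∉ U → ∀ u ∈ U, ∃ g ∈ LU ⊓ Subgroup.centralizer (U : Set G), g * x * g⁻¹ = x * u := by
  have L := fam_LE hQ hz hE hC
  have hU1 : ∀ u ∈ U, u ≠ 1 → LE (Q u) u := fun u hu h => fam_LE' hQ L (hS u hu h)
  have hUQ : ∀ u ∈ U, u ≠ 1 → U ≤ Q u := by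
    intro u hu h v hv
    by_cases hv1 : v = 1
    · rw [hv1]; exact one_mem _
    · exact hO u hu v hv h hv1
  have hQUm : ∀ x ∈ QU, ∀ u ∈ U, u ≠ 1 → x ∈ Q u := by
    intro x hx u hu h
    rw [hQU, Subgroup.mem_iInf] at hx
    have := hx u
    rw [Subgroup.mem_iInf] at this
    exact this ⟨hu, h⟩
  have hnorm : LU ≤ normalizer (U : Set G) := by
    rw [hLU]
    refine iSup₂_le fun u hu => ?_
    have h1 : ∀ y ∈ Q u, ∀ v ∈ U, y * v * y⁻¹ ∈ U := by
      intro y hy v hv
      have h2 : y * v * y⁻¹ = ⁅y, v⁆ * v := by rw [commutatorElement_def]; group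
      rw [h2]
      refine mul_mem ?_ hv
      rcases (hU1 u hu.1 hu.2).comm y hy v (hUQ u hu.1 hu.2 hv) with h | h <;> rw [h]
      · exact one_mem _
      · exact hu.1
    intro y hy
    rw [mem_normalizer_iff]
    intro e
    refine ⟨h1 y hy e, fun h => ?_⟩
    have := h1 y⁻¹ (inv_mem hy) _ h
    have e' : y⁻¹ * (y * e * y⁻¹) * y⁻¹⁻¹ = e := by group
    rwa [e'] at this
  refine ⟨fun g hg x hx => ?_, fun x hx hxU u hu => ?_⟩
  · rw [hLU] at hg
    have key : g ∈ normalizer (U : Set G) ∧ g * x * g⁻¹ * x⁻¹ ∈ U := by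
      induction hg using Subgroup.iSup_induction' with
      | h1 => exact ⟨one_mem _, by simp⟩
      | hp i y hy =>
        induction hy using Subgroup.iSup_induction' with
        | h1 => exact ⟨one_mem _, by simp⟩
        | hp j y hy =>
          refine ⟨hnorm (by rw [hLU]; exact Subgroup.mem_iSup_of_mem i (Subgroup.mem_iSup_of_mem j hy)), ?_⟩
          have := (hU1 i j.1 j.2).comm y hy x (hQUm x hx i j.1 j.2)
          rw [commutatorElement_def] at this
          rcases this with h | h <;> rw [h]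
          · exact one_mem _
          · exact j.1
        | hmul y y' _ _ h1 h2 =>
          refine ⟨mul_mem h1.1 h2.1, ?_⟩
          have e : y * y' * x * (y * y')⁻¹ * x⁻¹ = (y * (y' * x * y'⁻¹ * x⁻¹) * y⁻¹) * (y * x * y⁻¹ * x⁻¹) := by group
          rw [e]
          exact mul_mem ((mem_normalizer_iff.mp h1.1 _).mp h2.2) h1.2
      | hmul y y' _ _ h1 h2 =>
        refine ⟨mul_mem h1.1 h2.1, ?_⟩
        have e : y * y' * x * (y * y')⁻¹ * x⁻¹ = (y * (y' * x * y'⁻¹ * x⁻¹) * y⁻¹) * (y * x * y⁻¹ * x⁻¹) := by group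
        rw [e]
        exact mul_mem ((mem_normalizer_iff.mp h1.1 _).mp h2.2) h1.2
    exact key.2
  · by_cases hu1 : u = 1
    · subst hu1
      exact ⟨1, one_mem _, by group⟩
    have Lu := hU1 u hu hu1
    have h1 : ∃ c ∈ Q u, (∀ w ∈ U, c * w = w * c) ∧ c * x ≠ x * c := by
      by_contra hcon
      push Not at hcon
      exact hxU (Lu.dc U (hUQ u hu hu1) hu x (hQUm x hx u hu hu1) hcon)
    obtain ⟨c, hc, hcU, hcx⟩ := h1
    refine ⟨c, mem_inf.mpr ⟨?_, ?_⟩, ?_⟩
    · rw [hLU]
      exact Subgroup.mem_iSup_of_mem u (Subgroup.mem_iSup_of_mem ⟨hu, hu1⟩ hc)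
    · rw [mem_centralizer_iff]
      exact fun w hw => (hcU w hw).symm
    · rcases Lu.conj_cases (hQUm x hx u hu hu1) hc with h | h
      · exfalso
        apply hcx
        rwa [mul_inv_eq_iff_eq_mul] at h
      · rw [h, Lu.zc x (hQUm x hx u hu hu1)]

end Cfsg.Agent.S5597
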