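import Cfsg.Statements.S5598
import Cfsg.Agent.Lib.LargeExC

set_option autoImplicit false
open Cfsg

namespace Cfsg.Agent.S5598

open Subgroup Cfsg.Agent.Lib.LargeEx

/-- Setting: `z` is an involution of the finite group `G`; for each element `x`, `Q x` is the largest normal 2-subgroup of the centralizer of `x`; `Q z` is extraspecial and contains its own centralizer in `G`. A subgroup `U` is singular when it is elementary abelian, every non-identity element of `U` is conjugate to `z`, and any two non-identity elements `u`, `v` of `U` are orthogonal (`v ∈ Q u`). Write `QU` for the intersection of the `Q u` and `LU` for the join of the `Q u` over the non-identity `u` in `U`. If the singular subgroup `U` is generated by a set `T` of non-identity elements, then `QU` is already the intersection of the `Q t` over `t ∈ T`. -/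
theorem result {G : Type*} [Group G] [Finite G]
    (Q : G → Subgroup G)
    (hQ : ∀ x : G, Q x = (Cfsg.pCore 2 ↥(Subgroup.centralizer ({x} : Set G))).map (Subgroup.centralizer ({x} : Set G)).subtype)
    (z : G) (hz : orderOf z = 2) (hE : Cfsg.IsExtraspecial 2 ↥(Q z))
    (hC : Subgroup.centralizer ((Q z : Subgroup G) : Set G) ≤ Q z)
    (U : Subgroup G) (hU2 : ∀ u ∈ U, u * u = 1)
    (hS : ∀ u ∈ U, u ≠ 1 → ∃ g : G, g * z * g⁻¹ = u)
    (hO : ∀ u ∈ U, ∀ v ∈ U, u ≠ 1 → v ≠ 1 → v ∈ Q u)
    (QU LU : Subgroup G) (hQU : QU = ⨅ u ∈ ((U : Set G) \ {1}), Q u) (hLU : LU = ⨆ u ∈ ((U : Set G) \ {1}), Q u)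
    (T : Set G) (hT : Subgroup.closure T = U) (hT1 : (1 : G) ∉ T) :
    QU = ⨅ t ∈ T, Q t := by
  have L := fam_LE hQ hz hE hC
  rw [hQU]
  apply le_antisymm
  · refine le_iInf₂ fun t ht => iInf₂_le t ⟨?_, fun h => hT1 ?_⟩
    · rw [SetLike.mem_coe, ← hT]; exact Subgroup.subset_closure ht
    · rw [Set.mem_singleton_iff] at h; rwa [← h]
  · intro x hx
    have hxT : ∀ t ∈ T, x ∈ Q t := by
      intro t ht
      rw [Subgroup.mem_iInf] at hx
      have := hx t
      rw [Subgroup.mem_iInf] at this
      exact this ht
    have key : ∀ u ∈ closure T, u = 1 ∨ x ∈ Q u := by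
      intro u hu
      induction hu using closure_induction with
      | mem u hu => exact Or.inr (hxT u hu)
      | one => exact Or.inl rfl
      | mul u v hu hv h1 h2 =>
        rw [hT] at hu hv
        rcases h1 with rfl | h1
        · rw [one_mul]; exact h2
        rcases h2 with rfl | h2
        · rw [mul_one]; exact Or.inr h1
        by_cases hu1 : u = 1
        · subst hu1; rw [one_mul]; exact Or.inr h2
        by_cases hv1 : v = 1
        · subst hv1; rw [mul_one]; exact Or.inr h1
        by_cases huv : u = v
        · left; rw [← huv]; exact hU2 u hu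
        · right
          exact sing_inf hQ L hS hO hu hv hu1 hv1 huv ⟨h1, h2⟩
      | inv u hu h =>
        rw [hT] at hu
        rw [inv_eq_of_mul_eq_one_left (hU2 u hu)]
        exact h
    rw [Subgroup.mem_iInf]
    intro u
    rw [Subgroup.mem_iInf]
    intro hu
    rcases key u (by rw [hT]; exact hu.1) with h | h
    · exact absurd h hu.2
    · exact h

end Cfsg.Agent.S5598
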