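import Cfsg.Statements.S5738
import Mathlib
-- import your own Cfsg.Agent.* helpers here

set_option autoImplicit false
open Cfsg
set_option linter.all false

namespace Cfsg.Agent.S5738

/-- Let F ⊆ K be finite fields with |F| = q and [K : F] = n ≥ 2, so |K| = q^n. Regard K as an n-dimensional F-vector space; the multiplications by non-zero elements of K form a cyclic subgroup of GL_F(K) of order q^n − 1 acting regularly on the non-zero vectors (a Singer group). Its normaliser in GL_F(K) has order n·(q^n − 1). -/
theorem result {F K : Type*} [Field F] [Fintype F] [Field K] [Fintype K] [Algebra F K] (n : ℕ) (hn : 2 ≤ n) (hdim : Module.finrank F K = n) :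
    Nat.card (Subgroup.normalizer (((Units.map ((Algebra.lmul F K : K →ₐ[F] Module.End F K) : K →* Module.End F K)).range : Subgroup (Module.End F K)ˣ) : Set (Module.End F K)ˣ)) = n * (Fintype.card K - 1) := by
  classical
  set M := (Units.map ((Algebra.lmul F K : K →ₐ[F] Module.End F K) : K →* Module.End F K)).range with hM
  let mu : Kˣ →* (Module.End F K)ˣ := Units.map ((Algebra.lmul F K : K →ₐ[F] Module.End F K) : K →* Module.End F K)
  have hmu : ∀ (a : Kˣ) (x : K), ((mu a : (Module.End F K)ˣ) : Module.End F K) x = (a : K) * x := fun a x => rfl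
  let ga : (K ≃ₐ[F] K) → (Module.End F K)ˣ := fun s =>
    ⟨s.toLinearMap, s.symm.toLinearMap, LinearMap.ext fun x => s.apply_symm_apply x, LinearMap.ext fun x => s.symm_apply_apply x⟩
  have hga : ∀ (s : K ≃ₐ[F] K) (x : K), ((ga s : (Module.End F K)ˣ) : Module.End F K) x = s x := fun s x => rfl
  have happ : ∀ (T S : (Module.End F K)ˣ) (x : K), ((T * S : (Module.End F K)ˣ) : Module.End F K) x = (T : Module.End F K) ((S : Module.End F K) x) := fun T S x => rfl
  have hext : ∀ T S : (Module.End F K)ˣ, (∀ x, (T : Module.End F K) x = (S : Module.End F K) x) → T = S := fun T S h => Units.ext (LinearMap.ext h)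
  have hcomm : ∀ (s : K ≃ₐ[F] K) (b : Kˣ), ga s * mu b = mu (Units.map (s : K →* K) b) * ga s := by
    intro s b
    apply hext
    intro x
    rw [happ, happ, hmu, hga, hga, hmu, map_mul]
    rfl
  have hmem : ∀ (a : Kˣ) (s : K ≃ₐ[F] K), mu a * ga s ∈ Subgroup.normalizer (M : Set (Module.End F K)ˣ) := by
    intro a s
    rw [Subgroup.mem_normalizer_iff]
    intro h
    constructor
    · rintro ⟨b, rfl⟩
      refine ⟨Units.map (s : K →* K) b, ?_⟩
      show mu _ = mu a * ga s * mu b * (mu a * ga s)⁻¹
      rw [mul_assoc (mu a), hcomm, mul_inv_rev, ← mul_assoc (mu a), mul_assoc _ (ga s), ← mul_assoc (ga s) (ga s)⁻¹, mul_inv_cancel, one_mul, ← map_mul, mul_comm a, map_mul, mul_assoc, mul_inv_cancel, mul_one]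
    · rintro ⟨b, hb⟩
      refine ⟨Units.map (s.symm : K →* K) b, ?_⟩
      have hb' : mu b = mu a * ga s * h * (mu a * ga s)⁻¹ := hb
      have h1 : h = (mu a * ga s)⁻¹ * mu b * (mu a * ga s) := by rw [hb']; group
      have h2 : mu b * (mu a * ga s) = (mu a * ga s) * mu (Units.map (s.symm : K →* K) b) := by
        rw [mul_assoc (mu a), hcomm, ← mul_assoc, ← mul_assoc]
        congr 1
        rw [← map_mul, ← map_mul, mul_comm b]
        congr 2
        apply Units.ext
        exact (s.apply_symm_apply (b : K)).symm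
      show mu _ = h
      rw [h1, mul_assoc, h2, inv_mul_cancel_left]
  have hcard : Nat.card (Kˣ × (K ≃ₐ[F] K)) = n * (Fintype.card K - 1) := by
    rw [Nat.card_prod, Nat.card_units, Nat.card_eq_fintype_card (α := K), IsGalois.card_aut_eq_finrank, hdim, mul_comm]
  rw [← hcard]
  refine (Nat.card_congr (Equiv.ofBijective (fun y : Kˣ × (K ≃ₐ[F] K) => (⟨mu y.1 * ga y.2, hmem y.1 y.2⟩ : Subgroup.normalizer (M : Set (Module.End F K)ˣ))) ⟨?_, ?_⟩)).symm
  · rintro ⟨a, s⟩ ⟨a', s'⟩ h
    have h1 : ∀ x, (a : K) * s x = (a' : K) * s' x := fun x => congrArg (fun z : Subgroup.normalizer (M : Set (Module.End F K)ˣ) => ((z.1 : (Module.End F K)ˣ) : Module.End F K) x) h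
    have h2 := h1 1
    rw [map_one, map_one, mul_one, mul_one] at h2
    have h3 : a = a' := Units.ext h2
    subst h3
    have h4 : s = s' := AlgEquiv.ext fun x => mul_left_cancel₀ a.ne_zero (h1 x)
    rw [h4]
  · rintro ⟨T, hT⟩
    rw [Subgroup.mem_normalizer_iff] at hT
    have hinj : Function.Injective (T : Module.End F K) := by
      intro x y hxy
      have h1 : ∀ z, ((T⁻¹ : (Module.End F K)ˣ) : Module.End F K) ((T : Module.End F K) z) = z := by
        intro z
        rw [← happ, inv_mul_cancel]; rfl
      rw [← h1 x, hxy, h1]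
    have hne : (T : Module.End F K) 1 ≠ 0 := by
      intro h0
      have := hinj (h0.trans (map_zero _).symm)
      exact one_ne_zero this
    set c := (T : Module.End F K) 1 with hc
    -- multiplicativity
    have hmul : ∀ x y : K, c * (T : Module.End F K) (x * y) = (T : Module.End F K) x * (T : Module.End F K) y := by
      intro x y
      by_cases hx : x = 0
      · rw [hx, zero_mul, map_zero, mul_zero, zero_mul]
      · obtain ⟨b, hb⟩ := (hT (mu (Units.mk0 x hx))).mp ⟨_, rfl⟩
        have hb' : mu b = T * mu (Units.mk0 x hx) * T⁻¹ := hb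
        have h1 : mu b * T = T * mu (Units.mk0 x hx) := by rw [hb', inv_mul_cancel_right]
        have h2 : ∀ z, (b : K) * (T : Module.End F K) z = (T : Module.End F K) (x * z) := fun z => congrArg (fun w : (Module.End F K)ˣ => (w : Module.End F K) z) h1
        have h3 := h2 1
        rw [mul_one] at h3
        rw [← h2 y, ← h3]
        ring
    let S : K →ₗ[F] K := (Algebra.lmul F K c⁻¹).comp (T : Module.End F K)
    have hS : ∀ x, S x = c⁻¹ * (T : Module.End F K) x := fun x => rfl
    have hSinj : Function.Injective S := by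
      intro x y hxy
      rw [hS, hS] at hxy
      exact hinj (mul_left_cancel₀ (inv_ne_zero hne) hxy)
    have hS1 : S 1 = 1 := by rw [hS, ← hc, inv_mul_cancel₀ hne]
    have hSm : ∀ x y, S (x * y) = S x * S y := by
      intro x y
      rw [hS, hS, hS]
      have h1 := hmul x y
      calc c⁻¹ * (T : Module.End F K) (x * y) = c⁻¹ * c⁻¹ * (c * (T : Module.End F K) (x * y)) := by field_simp
        _ = c⁻¹ * (T : Module.End F K) x * (c⁻¹ * (T : Module.End F K) y) := by rw [h1]; ring
    let A : K →ₐ[F] K := AlgHom.ofLinearMap S hS1 hSm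
    have hAb : Function.Bijective A := Finite.injective_iff_bijective.mp hSinj
    refine ⟨(Units.mk0 c hne, AlgEquiv.ofBijective A hAb), Subtype.ext (hext _ _ ?_)⟩
    intro x
    show c * (c⁻¹ * (T : Module.End F K) x) = (T : Module.End F K) x
    rw [← mul_assoc, mul_inv_cancel₀ hne, one_mul]


end Cfsg.Agent.S5738
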