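import Cfsg.Statements.S5902
import Mathlib
-- import your own Cfsg.Agent.* helpers here

set_option autoImplicit false
open Cfsg
set_option linter.all false

namespace Cfsg.Agent.S5902

/-- Let G be a finite group, X a subgroup whose own subgroup lattice is complemented, and suppose X lies in exactly one maximal subgroup M of G. Then every subgroup H of G not contained in the normal core of M has a complement in the subgroup lattice of G (some C with H ⊔ C = G and H ⊓ C = 1); in particular the subgroup lattice of G modulo the normal core of M is complemented. -/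
theorem result {G : Type*} [Group G] [Finite G] (X M : Subgroup G)
    (hK : ComplementedLattice (Subgroup X))
    (hM : IsCoatom M) (hXM : X ≤ M) (huniq : ∀ M' : Subgroup G, IsCoatom M' → X ≤ M' → M' = M) :
    (∀ H : Subgroup G, ¬ H ≤ M.normalCore → ∃ C : Subgroup G, H ⊔ C = ⊤ ∧ H ⊓ C = ⊥) ∧
    ComplementedLattice (Subgroup (G ⧸ M.normalCore)) := by
  classical
  have hMt : M ≠ ⊤ := hM.1
  have hX : X ≠ ⊤ := fun h => hMt (top_le_iff.mp (h ▸ hXM))
  have hint : ∀ Y : Subgroup G, Y ≤ X → ∃ C : Subgroup G, C ≤ X ∧ Y ⊔ C = X ∧ Y ⊓ C = ⊥ := by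
    intro Y hY
    obtain ⟨C', hC'⟩ := hK.exists_isCompl (Y.subgroupOf X)
    have hYm : (Y.subgroupOf X).map X.subtype = Y := by
      rw [Subgroup.subgroupOf_map_subtype, inf_eq_left.mpr hY]
    refine ⟨C'.map X.subtype, Subgroup.map_subtype_le C', ?_, ?_⟩
    · have h1 := congrArg (fun Z : Subgroup X => Z.map X.subtype) hC'.sup_eq_top
      beta_reduce at h1
      rw [Subgroup.map_sup, hYm, ← MonoidHom.range_eq_map, Subgroup.range_subtype] at h1
      exact h1
    · have h1 := congrArg (fun Z : Subgroup X => Z.map X.subtype) hC'.inf_eq_bot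
      beta_reduce at h1
      rw [Subgroup.map_inf _ _ _ X.subtype_injective, hYm, Subgroup.map_bot] at h1
      exact h1
  have base : ∀ H : Subgroup G, ¬ H ≤ M → ∃ C : Subgroup G, H ⊔ C = ⊤ ∧ H ⊓ C = ⊥ := by
    intro H hH
    obtain ⟨C, hCX, h1, h2⟩ := hint (H ⊓ X) inf_le_right
    refine ⟨C, ?_, ?_⟩
    · by_contra hne
      obtain ⟨M', hM', hle⟩ := (eq_top_or_exists_le_coatom (H ⊔ C)).resolve_left hne
      have hX' : X ≤ M' := by
        rw [← h1]
        refine le_trans (sup_le ?_ ?_) hle
        · exact le_trans inf_le_left le_sup_left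
        · exact le_sup_right
      have := huniq M' hM' hX'
      rw [← this] at hH
      exact hH (le_trans le_sup_left hle)
    · rw [eq_bot_iff, ← h2]
      exact le_inf (le_inf inf_le_left (le_trans inf_le_right hCX)) inf_le_right
  have main : ∀ H : Subgroup G, ¬ H ≤ M.normalCore → ∃ C : Subgroup G, H ⊔ C = ⊤ ∧ H ⊓ C = ⊥ := by
    intro H hH
    obtain ⟨h, hh, hhc⟩ := SetLike.not_le_iff_exists.mp hH
    have : ∃ b : G, b * h * b⁻¹ ∉ M := by
      by_contra hcon
      push Not at hcon
      exact hhc hcon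
    obtain ⟨b, hb⟩ := this
    let e : Subgroup G ≃o Subgroup G := (MulAut.conj b).mapSubgroup
    have he : ¬ e H ≤ M := by
      intro hle
      apply hb
      apply hle
      exact ⟨h, hh, rfl⟩
    obtain ⟨C', h1, h2⟩ := base (e H) he
    refine ⟨e.symm C', ?_, ?_⟩
    · apply e.injective
      rw [map_sup, e.apply_symm_apply, h1, map_top]
    · apply e.injective
      rw [map_inf, e.apply_symm_apply, h2, map_bot]
  refine ⟨main, ⟨fun Hb => ?_⟩⟩
  by_cases hb : Hb = ⊥
  · rw [hb]
    exact ⟨⊤, isCompl_bot_top⟩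
  · set H := Hb.comap (QuotientGroup.mk' M.normalCore) with hHdef
    have hmap : H.map (QuotientGroup.mk' M.normalCore) = Hb :=
      Subgroup.map_comap_eq_self_of_surjective (QuotientGroup.mk'_surjective _) _
    have hcore : M.normalCore ≤ H := by
      intro x hx
      show QuotientGroup.mk' M.normalCore x ∈ Hb
      have : QuotientGroup.mk' M.normalCore x = 1 := (QuotientGroup.eq_one_iff x).mpr hx
      rw [this]
      exact Hb.one_mem
    have hn : ¬ H ≤ M.normalCore := by
      intro hle
      apply hb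
      rw [← hmap, eq_bot_iff]
      rintro _ ⟨x, hx, rfl⟩
      rw [Subgroup.mem_bot]
      exact (QuotientGroup.eq_one_iff x).mpr (hle hx)
    obtain ⟨C, h1, h2⟩ := main H hn
    refine ⟨C.map (QuotientGroup.mk' M.normalCore), ?_⟩
    rw [isCompl_iff, disjoint_iff, codisjoint_iff]
    constructor
    · rw [eq_bot_iff]
      rintro _ ⟨hx, ⟨c, hc, rfl⟩⟩
      have hcH : c ∈ H := hx
      have : c ∈ H ⊓ C := ⟨hcH, hc⟩
      rw [h2, Subgroup.mem_bot] at this
      rw [this, map_one]
      exact Subgroup.one_mem _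
    · rw [← hmap, ← Subgroup.map_sup, h1]
      rw [← MonoidHom.range_eq_map]
      exact MonoidHom.range_eq_top.mpr (QuotientGroup.mk'_surjective _)


end Cfsg.Agent.S5902
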