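import Cfsg.Statements.S5903
import Mathlib
import Cfsg.Agent.S5901
-- import your own Cfsg.Agent.* helpers here

set_option autoImplicit false
open Cfsg
set_option linter.all false

namespace Cfsg.Agent.S5903

/-- Let G be a finite simple group, X a subgroup lying in exactly one maximal subgroup M of G, and N a subgroup of prime order with N ≤ X that is central in M. If the subgroup lattice of X/N is complemented, then the subgroup lattice of G is complemented. -/
theorem result {G : Type*} [Group G] [Finite G] [IsSimpleGroup G] (X M N : Subgroup G)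
    (hM : IsCoatom M) (hXM : X ≤ M) (huniq : ∀ M' : Subgroup G, IsCoatom M' → X ≤ M' → M' = M)
    (hNX : N ≤ X) (hN : (Nat.card N).Prime) (hcen : ∀ n ∈ N, ∀ m ∈ M, m * n = n * m)
    [(N.subgroupOf X).Normal] (hK : ComplementedLattice (Subgroup (X ⧸ N.subgroupOf X))) :
    ComplementedLattice (Subgroup G) := by
  classical
  have hX : X ≠ ⊤ := fun h => hM.1 (top_le_iff.mp (h ▸ hXM))
  let π := QuotientGroup.mk' (N.subgroupOf X)
  have hπ : Function.Surjective π := QuotientGroup.mk'_surjective _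
  have hint : ∀ Y : Subgroup G, N ≤ Y → Y ≤ X → ∃ C : Subgroup G, N ≤ C ∧ C ≤ X ∧ Y ⊔ C = X ∧ Y ⊓ C = N := by
    intro Y hNY hY
    obtain ⟨C', hC'⟩ := hK.exists_isCompl ((Y.subgroupOf X).map π)
    have hYm : (Y.subgroupOf X).map X.subtype = Y := by
      rw [Subgroup.subgroupOf_map_subtype, inf_eq_left.mpr hY]
    have hYc : ((Y.subgroupOf X).map π).comap π = Y.subgroupOf X := by
      rw [Subgroup.comap_map_eq, QuotientGroup.ker_mk']
      exact sup_eq_left.mpr (fun x hx => hNY hx)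
    refine ⟨(C'.comap π).map X.subtype, ?_, Subgroup.map_subtype_le _, ?_, ?_⟩
    · intro n hn
      refine ⟨⟨n, hNX hn⟩, ?_, rfl⟩
      show π ⟨n, hNX hn⟩ ∈ C'
      have : π ⟨n, hNX hn⟩ = 1 := (QuotientGroup.eq_one_iff _).mpr hn
      rw [this]; exact C'.one_mem
    · have h1 : (Y.subgroupOf X) ⊔ (C'.comap π) = ⊤ := by
        rw [← hYc, Subgroup.comap_sup_eq _ _ _ hπ, hC'.sup_eq_top, Subgroup.comap_top]
      have h2 := congrArg (fun Z : Subgroup X => Z.map X.subtype) h1
      beta_reduce at h2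
      rw [Subgroup.map_sup, hYm, ← MonoidHom.range_eq_map, Subgroup.range_subtype] at h2
      exact h2
    · have h1 : (Y.subgroupOf X) ⊓ (C'.comap π) = N.subgroupOf X := by
        rw [← hYc, ← Subgroup.comap_inf, hC'.inf_eq_bot]
        exact QuotientGroup.ker_mk' _
      have h2 := congrArg (fun Z : Subgroup X => Z.map X.subtype) h1
      beta_reduce at h2
      rw [Subgroup.map_inf _ _ _ X.subtype_injective, hYm, Subgroup.subgroupOf_map_subtype, inf_eq_left.mpr hNX] at h2
      exact h2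
  refine ⟨fun H => ?_⟩
  by_cases hb : H = ⊥
  · rw [hb]; exact ⟨⊤, isCompl_bot_top⟩
  by_cases ht : H = ⊤
  · rw [ht]; exact ⟨⊥, isCompl_top_bot⟩
  have hex : ∃ g : G, ¬ (MulAut.conj g).mapSubgroup H ≤ M ∧ ¬ N ≤ (MulAut.conj g).mapSubgroup H := by
    by_contra hcon
    push Not at hcon
    -- N normalizes all conjugates
    have h1 : ∀ g : G, ∀ n ∈ N, ∀ x ∈ (MulAut.conj g).mapSubgroup H, n * x * n⁻¹ ∈ (MulAut.conj g).mapSubgroup H := by
      intro g n hn x hx
      by_cases hle : (MulAut.conj g).mapSubgroup H ≤ M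
      · have h2 : n * x * n⁻¹ = x := by
          rw [← hcen n hn x (hle hx)]; group
        rw [h2]; exact hx
      · have h2 := hcon g hle
        exact mul_mem (mul_mem (h2 hn) hx) (inv_mem (h2 hn))
    have hle : Subgroup.normalClosure (N : Set G) ≤ Subgroup.normalizer (H : Set G) := by
      rw [Subgroup.normalClosure, Subgroup.closure_le]
      intro y hy
      obtain ⟨n, hn, hc⟩ := Group.mem_conjugatesOfSet_iff.mp hy
      obtain ⟨g, rfl⟩ := isConj_iff.mp hc
      have key : ∀ n ∈ N, ∀ x ∈ H, (g * n * g⁻¹) * x * (g * n * g⁻¹)⁻¹ ∈ H := by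
        intro n hn x hx
        have h2 := h1 g⁻¹ n hn (g⁻¹ * x * g⁻¹⁻¹) ⟨x, hx, rfl⟩
        obtain ⟨z, hz, hz2⟩ := h2
        have hz3 : g⁻¹ * z * g⁻¹⁻¹ = n * (g⁻¹ * x * g⁻¹⁻¹) * n⁻¹ := hz2
        have hz4 : z = (g * n * g⁻¹) * x * (g * n * g⁻¹)⁻¹ := by
          calc z = g * (g⁻¹ * z * g⁻¹⁻¹) * g⁻¹ := by group
            _ = g * (n * (g⁻¹ * x * g⁻¹⁻¹) * n⁻¹) * g⁻¹ := by rw [hz3]
            _ = (g * n * g⁻¹) * x * (g * n * g⁻¹)⁻¹ := by group
        rw [← hz4]; exact hz
      show g * n * g⁻¹ ∈ Subgroup.normalizer (H : Set G)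
      rw [Subgroup.mem_normalizer_iff]
      intro x
      constructor
      · exact key n hn x
      · intro hx
        have h2 := key n⁻¹ (N.inv_mem hn) _ hx
        have h3 : g * n⁻¹ * g⁻¹ * (g * n * g⁻¹ * x * (g * n * g⁻¹)⁻¹) * (g * n⁻¹ * g⁻¹)⁻¹ = x := by group
        rw [h3] at h2
        exact h2
    have hN1 : Subgroup.normalClosure (N : Set G) = ⊤ := by
      rcases (Subgroup.normalClosure_normal (s := (N : Set G))).eq_bot_or_eq_top with h2 | h2
      · exfalso
        have h3 : N ≤ ⊥ := h2 ▸ Subgroup.subset_normalClosure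
        have h4 : N = ⊥ := le_bot_iff.mp h3
        rw [h4, Subgroup.card_bot] at hN
        exact Nat.not_prime_one hN
      · exact h2
    have hHn : H.Normal := Subgroup.normalizer_eq_top_iff.mp (top_le_iff.mp (hN1 ▸ hle))
    rcases hHn.eq_bot_or_eq_top with h2 | h2
    · exact hb h2
    · exact ht h2
  obtain ⟨g, hg1, hg2⟩ := hex
  let e : Subgroup G ≃o Subgroup G := (MulAut.conj g).mapSubgroup
  have hHT : e H ⊓ N = ⊥ := by
    haveI : Fact (Nat.card N).Prime := ⟨hN⟩
    have h1 : Nat.card (e H ⊓ N : Subgroup G) ∣ Nat.card N := Subgroup.card_dvd_of_le inf_le_right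
    rcases (Nat.dvd_prime hN).mp h1 with h2 | h2
    · exact Subgroup.card_eq_one.mp h2
    · exfalso
      apply hg2
      have h3 : (e H ⊓ N : Subgroup G) = N := Subgroup.eq_of_le_of_card_ge inf_le_right (le_of_eq h2.symm)
      exact inf_eq_right.mp h3
  obtain ⟨C', h1, h2⟩ := Cfsg.Agent.S5901.result N X M hNX hX hint hM hXM huniq (e H) hg1 hHT
  refine ⟨e.symm C', ?_⟩
  rw [isCompl_iff, disjoint_iff, codisjoint_iff]
  constructor
  · apply e.injective
    rw [map_inf, e.apply_symm_apply, h2, map_bot]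
  · apply e.injective
    rw [map_sup, e.apply_symm_apply, h1, map_top]


end Cfsg.Agent.S5903
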