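import Cfsg.Statements.S5904
import Mathlib
-- import your own Cfsg.Agent.* helpers here

set_option autoImplicit false
open scoped Pointwise
open Cfsg

namespace Cfsg.Agent.S5904

open scoped Pointwise

/-- Let Ω be a finite set with more than two elements and O ⊆ Ω a subset with exactly as many elements as its complement. Then the setwise stabilizer of O in the symmetric group on Ω is not a maximal subgroup (it is properly contained in the stabilizer of the partition {O, Ω ∖ O}, which is proper). -/
theorem result {Ω : Type*} [Fintype Ω] [DecidableEq Ω] (hΩ : 2 < Fintype.card Ω)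
    (O : Set Ω) (hO : Nat.card O = Nat.card ↥Oᶜ) :
    ¬ IsCoatom (MulAction.stabilizer (Equiv.Perm Ω) O) := by
  classical
  intro hco
  -- a permutation exchanging `O` and its complement
  have hcard : Nat.card O + Nat.card ↥Oᶜ = Fintype.card Ω := by
    rw [← Nat.card_sum, ← Nat.card_eq_fintype_card]
    exact Nat.card_congr (Equiv.Set.sumCompl O)
  have hO2 : 1 < Nat.card O := by omega
  have e : O ≃ ↥Oᶜ := (Finite.card_eq.1 hO).some
  let σ : Equiv.Perm Ω := (Equiv.Set.sumCompl O).symm.trans (((Equiv.sumCongr e e.symm).trans (Equiv.sumComm _ _)).trans (Equiv.Set.sumCompl O))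
  have hσ1 : ∀ x ∈ O, σ x ∈ Oᶜ := by
    intro x hx
    have h1 : (Equiv.Set.sumCompl O).symm x = Sum.inl ⟨x, hx⟩ := Equiv.Set.sumCompl_symm_apply_of_mem hx
    simp only [σ, Equiv.trans_apply, h1]
    exact (e ⟨x, hx⟩).2
  have hσ2 : ∀ x, x ∉ O → σ x ∈ O := by
    intro x hx
    have h1 : (Equiv.Set.sumCompl O).symm x = Sum.inr ⟨x, hx⟩ := Equiv.Set.sumCompl_symm_apply_of_notMem hx
    simp only [σ, Equiv.trans_apply, h1]
    exact (e.symm ⟨x, hx⟩).2
  have hσO : σ • O = Oᶜ := by
    ext y
    rw [Set.mem_smul_set]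
    constructor
    · rintro ⟨x, hx, rfl⟩
      exact hσ1 x hx
    · intro hy
      refine ⟨σ.symm y, ?_, σ.apply_symm_apply y⟩
      by_contra hn
      have := hσ2 _ hn
      rw [σ.apply_symm_apply] at this
      exact hy this
  let K : Subgroup (Equiv.Perm Ω) :=
    { carrier := {g | g • O = O ∨ g • O = Oᶜ}
      mul_mem' := by
        rintro g h hg hh
        change (g * h) • O = O ∨ (g * h) • O = Oᶜ
        rw [mul_smul]
        rcases hh with hh | hh <;> rw [hh]
        · exact hg
        · rw [Set.smul_set_compl]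
          rcases hg with hg | hg <;> rw [hg]
          · right; rfl
          · left; exact compl_compl O
      one_mem' := Or.inl (one_smul _ _)
      inv_mem' := by
        rintro g hg
        change g⁻¹ • O = O ∨ g⁻¹ • O = Oᶜ
        rcases hg with hg | hg
        · left; rw [inv_smul_eq_iff, hg]
        · right; rw [inv_smul_eq_iff, Set.smul_set_compl, hg, compl_compl] }
  have hMK : MulAction.stabilizer (Equiv.Perm Ω) O < K := by
    refine lt_of_le_of_ne (fun g hg => Or.inl hg) ?_
    intro h
    have h1 : σ ∈ MulAction.stabilizer (Equiv.Perm Ω) O := by rw [h]; exact Or.inr hσO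
    have h2 : σ • O = O := h1
    rw [hσO] at h2
    have hne : Nonempty O := (Nat.card_pos_iff.1 (by omega : 0 < Nat.card O)).1
    obtain ⟨x, hx⟩ := hne
    have : x ∈ Oᶜ := by rw [h2]; exact hx
    exact this hx
  have hK := hco.2 K hMK
  haveI : Nontrivial O := Finite.one_lt_card_iff_nontrivial.1 hO2
  obtain ⟨⟨a, ha⟩, ⟨c, hc⟩, hac⟩ := exists_pair_ne O
  have hac' : a ≠ c := fun h => hac (Subtype.ext h)
  have hb : Nonempty ↥Oᶜ := (Nat.card_pos_iff.1 (by omega : 0 < Nat.card ↥Oᶜ)).1
  obtain ⟨b, hb⟩ := hb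
  have hbc : b ≠ c := fun h => hb (h ▸ hc)
  have hτ : Equiv.swap a b ∈ K := by rw [hK]; trivial
  rcases hτ with h | h
  · have h1 : Equiv.swap a b a ∈ Equiv.swap a b • O := ⟨a, ha, rfl⟩
    rw [Equiv.swap_apply_left, h] at h1
    exact hb h1
  · have h1 : Equiv.swap a b c ∈ Equiv.swap a b • O := ⟨c, hc, rfl⟩
    rw [Equiv.swap_apply_of_ne_of_ne hac'.symm hbc.symm, h] at h1
    exact h1 hc

end Cfsg.Agent.S5904
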