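import Cfsg.Statements.S5905
import Mathlib
-- import your own Cfsg.Agent.* helpers here

set_option autoImplicit false
open Cfsg

namespace Cfsg.Agent.S5905

/-- Let Ω be a finite set and f : Ω → Fin b a map onto b ≥ 2 labels whose fibres all have the same size a ≥ 2 (a partition of Ω into b blocks of size a, so |Ω| = ab). Then the stabilizer of this partition in the symmetric group on Ω — the permutations g such that x and y lie in the same block exactly when g x and g y do, a group isomorphic to the imprimitive wreath product S_a ≀ S_b — is a maximal subgroup of the symmetric group. -/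
theorem result {Ω : Type*} [Fintype Ω] [DecidableEq Ω] (a b : ℕ) (ha : 2 ≤ a) (hb : 2 ≤ b)
    (f : Ω → Fin b) (hf : ∀ i : Fin b, Nat.card {x : Ω // f x = i} = a) :
    IsCoatom (Subgroup.closure {g : Equiv.Perm Ω | ∀ x y : Ω, f x = f y ↔ f (g x) = f (g y)}) := by
  classical
  set T : Set (Equiv.Perm Ω) := {g : Equiv.Perm Ω | ∀ x y : Ω, f x = f y ↔ f (g x) = f (g y)} with hT
  have hclT : ∀ g, g ∈ Subgroup.closure T → g ∈ T := by
    intro g hg
    induction hg using Subgroup.closure_induction with
    | mem x hx => exact hx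
    | one => intro x y; rfl
    | mul g h _ _ hg hh =>
      intro x y
      rw [Equiv.Perm.mul_apply, Equiv.Perm.mul_apply, ← hg (h x) (h y)]
      exact hh x y
    | inv g _ hg =>
      intro x y
      have := hg (g⁻¹ x) (g⁻¹ y)
      have e : ∀ x, g (g⁻¹ x) = x := fun x => by simp
      rw [e, e] at this
      exact this.symm
  -- two different points in each fibre
  have hpair : ∀ x : Ω, ∃ x', x' ≠ x ∧ f x' = f x := by
    intro x
    have h1 : 1 < Nat.card {y : Ω // f y = f x} := by rw [hf]; omega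
    haveI : Nontrivial {y : Ω // f y = f x} := Finite.one_lt_card_iff_nontrivial.1 h1
    obtain ⟨⟨y, hy⟩, hne⟩ := exists_ne (⟨x, rfl⟩ : {y : Ω // f y = f x})
    exact ⟨y, fun h => hne (Subtype.ext h), hy⟩
  have hsurj : ∀ i : Fin b, ∃ x : Ω, f x = i := by
    intro i
    have h1 : 0 < Nat.card {y : Ω // f y = i} := by rw [hf]; omega
    obtain ⟨y, hy⟩ := (Nat.card_pos_iff.1 h1).1
    exact ⟨y, hy⟩
  have hswapT : ∀ x y : Ω, f x = f y → Equiv.swap x y ∈ T := by
    intro x y hxy
    have h1 : ∀ z, f (Equiv.swap x y z) = f z := by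
      intro z
      by_cases hzx : z = x
      · rw [hzx, Equiv.swap_apply_left, hxy]
      · by_cases hzy : z = y
        · rw [hzy, Equiv.swap_apply_right, hxy]
        · rw [Equiv.swap_apply_of_ne_of_ne hzx hzy]
    intro u v
    rw [h1, h1]
  refine ⟨?_, ?_⟩
  · intro htop
    obtain ⟨x, hx⟩ := hsurj ⟨0, by omega⟩
    obtain ⟨y, hy⟩ := hsurj ⟨1, by omega⟩
    have hxy : f x ≠ f y := by rw [hx, hy]; intro h; simp at h
    obtain ⟨x', hx', hfx'⟩ := hpair x
    have hg : Equiv.swap x y ∈ T := hclT _ (by rw [htop]; trivial)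
    have h1 := (hg x' x).1 hfx'
    have hx'y : x' ≠ y := by rintro rfl; exact hxy hfx'.symm
    rw [Equiv.swap_apply_left, Equiv.swap_apply_of_ne_of_ne hx' hx'y] at h1
    exact hxy (hfx'.symm.trans h1)
  · intro L hL
    have hTL : ∀ g ∈ T, g ∈ L := fun g hg => hL.le (Subgroup.subset_closure hg)
    obtain ⟨g, hgL, hgK⟩ := SetLike.exists_of_lt hL
    have hgT : g ∉ T := fun h => hgK (Subgroup.subset_closure h)
    have hconj : ∀ h ∈ L, ∀ x y : Ω, Equiv.swap x y ∈ L → Equiv.swap (h x) (h y) ∈ L := by
      intro h hh x y hxy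
      have h1 : h * Equiv.swap x y * h⁻¹ ∈ L := mul_mem (mul_mem hh hxy) (inv_mem hh)
      rwa [Equiv.mul_swap_eq_swap_mul, mul_inv_cancel_right] at h1
    -- different fibres with a swap
    obtain ⟨u, v, huv, hswap⟩ : ∃ u v : Ω, f u ≠ f v ∧ Equiv.swap u v ∈ L := by
      rw [hT, Set.mem_setOf_eq] at hgT
      push Not at hgT
      obtain ⟨x, y, h⟩ := hgT
      rcases h with ⟨h1, h2⟩ | ⟨h1, h2⟩
      · exact ⟨g x, g y, h2, hconj g hgL x y (hTL _ (hswapT x y h1))⟩
      · refine ⟨x, y, h1, ?_⟩
        have := hconj g⁻¹ (inv_mem hgL) (g x) (g y) (hTL _ (hswapT _ _ h2))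
        have e : ∀ x, g⁻¹ (g x) = x := fun x => by simp
        rwa [e, e] at this
    -- transitivity of the relation
    have htrans : ∀ x y z : Ω, Equiv.swap x y ∈ L → Equiv.swap y z ∈ L → Equiv.swap x z ∈ L := by
      intro x y z hxy hyz
      by_cases hxz : x = z
      · rw [hxz, Equiv.swap_self]; exact one_mem L
      by_cases hxy' : x = y
      · rw [hxy']; exact hyz
      have := hconj _ hyz x y hxy
      by_cases hyz' : y = z
      · rw [← hyz']; exact hxy
      rwa [Equiv.swap_apply_left, Equiv.swap_apply_of_ne_of_ne hxy' hxz] at this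
    have hsymm : ∀ x y : Ω, Equiv.swap x y ∈ L → Equiv.swap y x ∈ L := by
      intro x y h; rwa [Equiv.swap_comm]
    have hu : ∀ z : Ω, Equiv.swap u z ∈ L := by
      intro z
      by_cases hzu : f z = f u
      · exact hTL _ (hswapT u z hzu.symm)
      by_cases hzv : f z = f v
      · exact htrans u v z hswap (hTL _ (hswapT v z hzv.symm))
      -- exchange the fibres of `v` and `z`
      have e : {x : Ω // f x = f v} ≃ {x : Ω // f x = f z} := (Finite.card_eq.1 (by rw [hf, hf])).some
      let φ : Ω → Ω := fun x => if h : f x = f v then (e ⟨x, h⟩).1 else if h' : f x = f z then (e.symm ⟨x, h'⟩).1 else x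
      have hφ1 : ∀ x (h : f x = f v), φ x = (e ⟨x, h⟩).1 := fun x h => by simp only [φ, dif_pos h]
      have hφ2 : ∀ x (h : f x = f z), φ x = (e.symm ⟨x, h⟩).1 := fun x h => by
        have h' : ¬ f x = f v := by rw [h]; exact hzv
        simp only [φ, dif_neg h', dif_pos h]
      have hφ3 : ∀ x, f x ≠ f v → f x ≠ f z → φ x = x := fun x h h' => by
        simp only [φ, dif_neg h, dif_neg h']
      have hinv : Function.Involutive φ := by
        intro x
        by_cases h1 : f x = f v
        · rw [hφ1 x h1, hφ2 _ (e ⟨x, h1⟩).2]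
          simp
        · by_cases h2 : f x = f z
          · rw [hφ2 x h2, hφ1 _ (e.symm ⟨x, h2⟩).2]
            simp
          · rw [hφ3 x h1 h2, hφ3 x h1 h2]
      have hfφ : ∀ x, f (φ x) = Equiv.swap (f v) (f z) (f x) := by
        intro x
        by_cases h1 : f x = f v
        · rw [hφ1 x h1, h1, Equiv.swap_apply_left]; exact (e ⟨x, h1⟩).2
        · by_cases h2 : f x = f z
          · rw [hφ2 x h2, h2, Equiv.swap_apply_right]; exact (e.symm ⟨x, h2⟩).2
          · rw [hφ3 x h1 h2, Equiv.swap_apply_of_ne_of_ne h1 h2]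
      have hkT : hinv.toPerm φ ∈ T := by
        intro x y
        show f x = f y ↔ f (φ x) = f (φ y)
        rw [hfφ, hfφ]
        exact (Equiv.swap (f v) (f z)).injective.eq_iff.symm
      have h1 := hconj _ (hTL _ hkT) u v hswap
      have h2 : (hinv.toPerm φ) u = u := hφ3 u huv (Ne.symm hzu)
      have h3 : f ((hinv.toPerm φ) v) = f z := by
        show f (φ v) = f z
        rw [hfφ, Equiv.swap_apply_left]
      rw [h2] at h1
      exact htrans u _ z h1 (hTL _ (hswapT _ _ h3))
    rw [eq_top_iff, ← Equiv.Perm.closure_isSwap, Subgroup.closure_le]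
    rintro σ ⟨x, y, hxy, rfl⟩
    exact htrans x u y (hsymm _ _ (hu x)) (hu y)

end Cfsg.Agent.S5905
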