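import Cfsg.Statements.S5913
import Mathlib
-- import your own Cfsg.Agent.* helpers here

set_option autoImplicit false
open Cfsg

namespace Cfsg.Agent.S5913

/-- Let S be a non-abelian simple group and n a natural number. Every normal subgroup N of the direct power S^n (functions Fin n → S) is a subproduct: there is a set T of coordinates such that N consists exactly of the elements whose coordinates outside T are trivial. In particular the minimal normal subgroups of S^n are its n factors. -/
theorem result {S : Type*} [Group S] [IsSimpleGroup S] (hS : ¬ IsMulCommutative S) (n : ℕ)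
    (N : Subgroup (Fin n → S)) [N.Normal] :
    ∃ T : Finset (Fin n), ∀ x : Fin n → S, x ∈ N ↔ ∀ i, i ∉ T → x i = 1 := by
  classical
  let T : Finset (Fin n) := Finset.univ.filter (fun i => ∃ x ∈ N, x i ≠ 1)
  have hcen : Subgroup.center S = ⊥ := by
    rcases (IsSimpleGroup.eq_bot_or_eq_top_of_normal (Subgroup.center S) inferInstance) with h | h
    · exact h
    · exact absurd ⟨⟨fun a b => by
        have : b ∈ Subgroup.center S := by rw [h]; trivial
        exact Subgroup.mem_center_iff.1 this a⟩⟩ hS
  have hsing : ∀ i ∈ T, ∀ s : S, Pi.mulSingle i s ∈ N := by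
    intro i hi
    obtain ⟨x, hx, hxi⟩ : ∃ x ∈ N, x i ≠ 1 := (Finset.mem_filter.1 hi).2
    obtain ⟨s, hs⟩ : ∃ s : S, s * x i ≠ x i * s := by
      by_contra hcon
      push Not at hcon
      have : x i ∈ Subgroup.center S := Subgroup.mem_center_iff.2 hcon
      rw [hcen, Subgroup.mem_bot] at this
      exact hxi this
    -- the commutator
    have hc : Pi.mulSingle i (s * x i * s⁻¹ * (x i)⁻¹) ∈ N := by
      have h1 : Pi.mulSingle i s * x * (Pi.mulSingle i s)⁻¹ ∈ N := (inferInstance : N.Normal).conj_mem x hx _
      have h2 := mul_mem h1 (inv_mem hx)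
      have e : Pi.mulSingle i s * x * (Pi.mulSingle i s)⁻¹ * x⁻¹ = Pi.mulSingle i (s * x i * s⁻¹ * (x i)⁻¹) := by
        funext j
        by_cases hj : j = i
        · subst hj
          simp [Pi.mul_apply, Pi.inv_apply, Pi.mulSingle_eq_same]
        · simp [Pi.mul_apply, Pi.inv_apply, Pi.mulSingle_eq_of_ne hj]
      rwa [e] at h2
    have hM : (N.comap (MonoidHom.mulSingle (fun _ : Fin n => S) i)).Normal := inferInstance
    rcases IsSimpleGroup.eq_bot_or_eq_top_of_normal _ hM with h | h
    · exfalso
      have h3 : s * x i * s⁻¹ * (x i)⁻¹ ∈ N.comap (MonoidHom.mulSingle (fun _ : Fin n => S) i) := hc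
      rw [h, Subgroup.mem_bot] at h3
      apply hs
      have h4 : s * x i * s⁻¹ = x i := mul_inv_eq_one.1 h3
      exact mul_inv_eq_iff_eq_mul.1 h4
    · intro s'
      have : s' ∈ N.comap (MonoidHom.mulSingle (fun _ : Fin n => S) i) := by rw [h]; trivial
      exact this
  refine ⟨T, fun x => ⟨fun hx i hi => ?_, fun h => ?_⟩⟩
  · by_contra hne
    exact hi (Finset.mem_filter.2 ⟨Finset.mem_univ _, x, hx, hne⟩)
  · -- product of single elements
    have hmain : ∀ (L : List (Fin n)), (∀ i ∈ L, i ∈ T) → ∀ y : Fin n → S, (∀ i, i ∉ L → y i = 1) → y ∈ N := by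
      intro L
      induction L with
      | nil =>
        intro _ y hy
        have : y = 1 := funext fun i => hy i (by simp)
        rw [this]; exact one_mem _
      | cons a L ih =>
        intro hL y hy
        have h1 : (Pi.mulSingle a (y a))⁻¹ * y ∈ N := by
          apply ih (fun i hi => hL i (List.mem_cons_of_mem _ hi))
          intro i hi
          by_cases hia : i = a
          · subst hia
            simp
          · have := hy i (by simp [hia, hi])
            simp [Pi.mulSingle_eq_of_ne hia, this]
        have h2 := mul_mem (hsing a (hL a (by simp)) (y a)) h1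
        rwa [mul_inv_cancel_left] at h2
    exact hmain T.toList (fun i hi => Finset.mem_toList.1 hi) x (fun i hi => h i (fun hi' => hi (Finset.mem_toList.2 hi')))

end Cfsg.Agent.S5913
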