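import Cfsg.Statements.S5946


set_option autoImplicit false
open Cfsg

namespace Cfsg.Agent.S5946

/-- Let F ⊆ K be finite fields with [K : F] = n ≥ 2 and regard K as an n-dimensional F-vector space. The Singer group M ≤ GL_F(K) of multiplications by the non-zero elements of K is self-centralizing: every F-linear automorphism of K commuting with all of M lies in M. -/
theorem result {F K : Type*} [Field F] [Fintype F] [Field K] [Fintype K] [Algebra F K] (n : ℕ) (hn : 2 ≤ n) (hdim : Module.finrank F K = n) :
    Subgroup.centralizer (((Units.map ((Algebra.lmul F K : K →ₐ[F] Module.End F K) : K →* Module.End F K)).range : Subgroup (Module.End F K)ˣ) : Set (Module.End F K)ˣ) = (Units.map ((Algebra.lmul F K : K →ₐ[F] Module.End F K) : K →* Module.End F K)).range := by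
  ext u
  rw [Subgroup.mem_centralizer_iff]
  constructor
  · intro h
    have h1 : ∀ x : K, (u : Module.End F K) x = x * (u : Module.End F K) 1 := by
      intro x
      by_cases hx : x = 0
      · rw [hx, map_zero, zero_mul]
      · have h2 := h (Units.map ((Algebra.lmul F K : K →ₐ[F] Module.End F K) : K →* Module.End F K) (Units.mk0 x hx)) ⟨_, rfl⟩
        have h3 := congrArg (fun v : (Module.End F K)ˣ => (v : Module.End F K) 1) h2
        have h4 : x * (u : Module.End F K) 1 = (u : Module.End F K) (x * 1) := h3
        rw [mul_one] at h4
        exact h4.symm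
    have h4 : (u : Module.End F K) 1 ≠ 0 := by
      intro h0
      have h5 : (u : Module.End F K) = 0 := by
        refine LinearMap.ext fun x => ?_
        rw [h1, h0, mul_zero]; rfl
      exact u.ne_zero h5
    refine ⟨Units.mk0 _ h4, ?_⟩
    refine Units.ext (LinearMap.ext fun x => ?_)
    rw [h1 x, mul_comm]
    rfl
  · rintro ⟨c, rfl⟩ _ ⟨d, rfl⟩
    rw [← map_mul, ← map_mul, mul_comm]

end Cfsg.Agent.S5946
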